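import Cfsg.Statements.S4304
import Cfsg.Agent.H9.SylowLines

set_option autoImplicit false
open Cfsg

namespace Cfsg.Agent.S4304

open Subgroup MulAction in
theorem simple_case {S : Type*} [Group S] [Finite S] [IsSimpleGroup S] (hS : ¬ IsMulCommutative S)
    (hn : Nat.card (Sylow 7 S) = 15) : False := by
  have : Fact (Nat.Prime 7) := ⟨by norm_num⟩
  have : Fact (Nat.Prime 5) := ⟨by norm_num⟩
  obtain ⟨P⟩ : Nonempty (Sylow 7 S) := inferInstance
  have hfaith : FaithfulSMul S (Sylow 7 S) := H9.faithfulSMul_sylow (by rw [hn]; norm_num)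
  have hidx : (normalizer ((P : Subgroup S) : Set S)).index = 15 := by
    rw [← hn]; exact P.card_eq_index_normalizer.symm
  have h7 : 7 ∣ Nat.card S := by
    by_contra h
    have h1 : Nat.card P = 1 := by
      rw [P.card_eq_multiplicity, Nat.factorization_eq_zero_of_not_dvd h, pow_zero]
    have h2 : (P : Subgroup S) = ⊥ := card_eq_one.1 h1
    have h3 : ((P : Subgroup S)).Normal := h2 ▸ inferInstance
    rw [normalizer_eq_top (P : Subgroup S), index_top] at hidx
    omega
  have hP : Nat.card P = 7 := H9.card_sylow_eq_prime_of_le_sq hS h7 (by rw [hn]; norm_num) P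
  obtain ⟨c, hc⟩ := exists_prime_orderOf_dvd_card' (G := P) 7 hP.symm.dvd
  have hc' : orderOf (c : S) = 7 ^ 1 := by rw [orderOf_coe, hc, pow_one]
  have hc1 : (c : S) ≠ 1 := by
    intro h; rw [h, orderOf_one] at hc'; omega
  have hfix := H9.fixedBy_sylow_eq_singleton P hP c.2 hc1
  -- the centralizer of `P` is a `7`-group
  have hC : ∀ q : ℕ, q.Prime → q ∣ Nat.card (centralizer ((P : Subgroup S) : Set S)) → q = 7 := by
    intro q hq hd
    have : Fact q.Prime := ⟨hq⟩
    obtain ⟨w, hw⟩ := exists_prime_orderOf_dvd_card' q hd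
    have hw' : orderOf (w : S) = q ^ 1 := by rw [orderOf_coe, hw, pow_one]
    have hw1 : (w : S) ≠ 1 := by
      intro h; rw [h, orderOf_one, pow_one] at hw'; exact hq.one_lt.ne hw'
    have hcomm : Commute (w : S) c := (w.2 c c.2).symm
    have h1 := H9.ncard_fixedBy_modEq_of_commute (Ω := Sylow 7 S) hc' hcomm
    have h2 : fixedBy (Sylow 7 S) (w : S) ∩ fixedBy (Sylow 7 S) (c : S) = {P} := by
      rw [hfix, Set.inter_eq_right, Set.singleton_subset_iff, mem_fixedBy,
        Sylow.smul_eq_iff_mem_normalizer]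
      exact centralizer_le_normalizer _ w.2
    rw [h2, Set.ncard_singleton] at h1
    have h3 := H9.ncard_fixedBy_lt (Ω := Sylow 7 S) hw1
    have h4 := (Nat.modEq_iff_dvd' h3.le).1 (H9.card_modEq_ncard_fixedBy (Ω := Sylow 7 S) hw').symm
    rw [hn] at h3 h4
    unfold Nat.ModEq at h1
    have h5 : (fixedBy (Sylow 7 S) (w : S)).ncard = 1 ∨ (fixedBy (Sylow 7 S) (w : S)).ncard = 8 := by
      omega
    rcases h5 with h5 | h5
    · rw [h5] at h4
      rcases (Nat.Prime.dvd_mul hq (m := 2) (n := 7)).1 h4 with h | h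
      · exfalso
        have hq2 : q = 2 := (Nat.prime_dvd_prime_iff_eq hq Nat.prime_two).1 h
        subst hq2
        have := H9.four_dvd_of_sq_eq_one (Ω := Sylow 7 S) (H9.commutator_eq_top_of_simple hS)
          (t := (w : S)) (by rw [← pow_one 2, ← hw', pow_orderOf_eq_one])
        rw [hn, h5] at this
        omega
      · exact (Nat.prime_dvd_prime_iff_eq hq (by norm_num)).1 h
    · rw [h5] at h4
      exact (Nat.prime_dvd_prime_iff_eq hq (by norm_num)).1 h4
  obtain ⟨k, hk1, -, -, hk⟩ := H9.exists_card_normalizer_eq_of_simple hS P hP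
  have hS7 : ¬ 7 ^ 2 ∣ Nat.card S := by
    intro h
    have := P.pow_dvd_card_of_pow_dvd_card h
    rw [hP] at this
    norm_num at this
  have hC7 : Nat.card (centralizer ((P : Subgroup S) : Set S)) ∣ 7 := by
    obtain ⟨j, hj⟩ : ∃ j, Nat.card (centralizer ((P : Subgroup S) : Set S)) = 7 ^ j :=
      ⟨_, Nat.eq_prime_pow_of_unique_prime_dvd Nat.card_pos.ne' (fun {q} => hC q)⟩
    have h1 : 7 ^ j ∣ Nat.card S := hj ▸ card_subgroup_dvd_card _
    have h2 : j ≤ 1 := by
      by_contra h
      exact hS7 ((pow_dvd_pow 7 (by omega)).trans h1)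
    rw [hj]
    simpa using pow_dvd_pow 7 h2
  have hcard : Nat.card S = Nat.card (centralizer ((P : Subgroup S) : Set S)) * k * 15 := by
    rw [← hk, ← hidx, card_mul_index]
  have hdvd : Nat.card S ∣ 7 * 6 * 15 := by
    rw [hcard]
    exact Nat.mul_dvd_mul_right (Nat.mul_dvd_mul hC7 hk1) _
  by_cases h2 : 2 ∣ Nat.card S
  · obtain ⟨T⟩ : Nonempty (Sylow 2 S) := inferInstance
    have hT := H9.card_sylow_eq_of_not_sq_dvd T h2 (fun h => by
      have := h.trans hdvd
      norm_num at this)
    obtain ⟨j, hj1, hj2, -, -⟩ := H9.exists_card_normalizer_eq_of_simple hS T hT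
    exact hj2 (Nat.dvd_one.1 hj1)
  · obtain ⟨T⟩ : Nonempty (Sylow 5 S) := inferInstance
    have hT := H9.card_sylow_eq_of_not_sq_dvd T (by rw [hcard]; exact Dvd.dvd.mul_left (by norm_num) _)
      (fun h => by
        have := h.trans hdvd
        norm_num at this)
    obtain ⟨j, hj1, hj2, -, hj⟩ := H9.exists_card_normalizer_eq_of_simple hS T hT
    apply h2
    have h3 : j ∣ Nat.card S := (Dvd.intro_left _ hj.symm).trans (card_subgroup_dvd_card _)
    refine Dvd.dvd.trans ?_ h3
    have : j ≤ 4 := Nat.le_of_dvd (by norm_num) hj1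
    interval_cases j <;> simp_all

/-- No finite group has exactly 15 Sylow 7-subgroups. -/
theorem result {G : Type*} [Group G] [Finite G] : Nat.card (Sylow 7 G) ≠ 15 := by
  intro hn
  have : Fact (Nat.Prime 7) := ⟨by norm_num⟩
  obtain ⟨S, _, _, hS, hS', h, -, -⟩ := H9.exists_simple_of_card_sylow hn (by norm_num) (by
    intro m hm hp
    have h3 := hp 3 (by norm_num)
    have h5 := hp 5 (by norm_num)
    have : m ≤ 15 := Nat.le_of_dvd (by norm_num) hm
    have f3 : (3 : ℕ).factorization 3 = 1 := Nat.Prime.factorization_self (by norm_num)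
    have f5 : (5 : ℕ).factorization 5 = 1 := Nat.Prime.factorization_self (by norm_num)
    have f15 : (15 : ℕ).factorization 3 = 1 := by
      rw [show (15 : ℕ) = 3 * 5 by norm_num, Nat.factorization_mul (by norm_num) (by norm_num),
        Finsupp.add_apply, f3, Nat.factorization_eq_zero_of_not_dvd (by norm_num)]
    interval_cases m <;> simp_all [Nat.ModEq]) (by
    intro x hx h
    have : x ≤ 15 := Nat.le_of_dvd (by norm_num) hx
    unfold Nat.ModEq at h
    interval_cases x <;> simp_all)
  exact simple_case hS' h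

end Cfsg.Agent.S4304
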