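import Cfsg.Statements.S3802
import Cfsg.Agent.H2.Subnormal

set_option autoImplicit false
open Cfsg

namespace Cfsg.Agent.S3802

/-- Let G be a finite group, M a maximal subgroup of G and N a subnormal subgroup of G contained in M. Then N is contained in every conjugate of M, that is, N lies in the core of M in G. -/
theorem result {G : Type*} [Group G] [Finite G] (M N : Subgroup G) (hM : IsCoatom M) (hN : N.IsSubnormal) (hNM : N ≤ M) :
    N ≤ Subgroup.normalCore M := by
  obtain ⟨K, h1, h2, h3, h4⟩ := H2.exists_max_snIn_le ⊤ M le_top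
  have hK : K ≠ ⊤ := fun e => hM.1 (top_le_iff.1 (e ▸ h1))
  obtain ⟨X, hX1, hX2, hX3⟩ := h2.exists_gt hK
  have hn : Subgroup.normalizer (K : Set G) = ⊤ := by
    refine hM.2 _ (lt_of_le_of_ne h3 fun e => hX1.not_ge (h4 X ?_ hX3))
    exact e ▸ hX2
  have := Subgroup.normalizer_eq_top_iff.1 hn
  exact (h4 N hNM (H2.snIn_top_iff.2 hN)).trans (Subgroup.normal_le_normalCore.2 h1)

end Cfsg.Agent.S3802
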