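import Cfsg.Statements.S3803
import Cfsg.Agent.H1.PAction
import Cfsg.Agent.H1.Section
import Cfsg.Agent.H3.PBasic

set_option autoImplicit false
open Cfsg

namespace Cfsg.Agent.S3803

open Subgroup
open scoped commutatorElement

theorem cyc {X : Type*} [Group X] [Finite X] {A E : Subgroup X} (hA : Odd (Nat.card A))
    (hE : IsPGroup 2 E) (hc : IsCyclic E) (hAE : A ≤ normalizer (E : Set X)) :
    A ≤ centralizer (E : Set X) := by
  obtain ⟨k, hk⟩ := IsPGroup.iff_card.1 hE
  have h1 : Nat.card (MulAut E) ∣ 2 ^ k := by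
    rw [hc.card_mulAut, hk]
    rcases k with _ | k
    · simp
    · rw [Nat.totient_prime_pow_succ Nat.prime_two]
      simp [pow_succ]
  have h2 : Nat.card (H1.conjAut hAE).range ∣ 2 ^ k := (card_subgroup_dvd_card _).trans h1
  have h3 : Nat.card (H1.conjAut hAE).range ∣ Nat.card A := card_range_dvd _
  have h4 : Nat.card (H1.conjAut hAE).range = 1 :=
    Nat.eq_one_of_dvd_coprimes ((Nat.coprime_two_left.2 hA).pow_left k) h2 h3
  rw [card_eq_one, MonoidHom.range_eq_bot_iff] at h4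
  intro a ha
  exact (H1.mem_ker_conjAut hAE (a := ⟨a, ha⟩)).1 (by rw [MonoidHom.mem_ker, h4]; rfl)

theorem ext_le {X : Type*} [Group X] [Finite X] {P E : Subgroup X} (hP : IsPGroup 2 P)
    (hE : E ≤ P) {b : ℕ} (h1 : Nat.card E ≤ 2 ^ b) (h2 : 2 ^ b ≤ Nat.card P) :
    ∃ K, E ≤ K ∧ K ≤ P ∧ Nat.card K = 2 ^ b := by
  obtain ⟨a, ha⟩ := IsPGroup.iff_card.1 (hP.to_le hE)
  obtain ⟨n, hn⟩ := IsPGroup.iff_card.1 hP
  rw [ha, Nat.pow_le_pow_iff_right (by norm_num)] at h1
  obtain ⟨K, hK, hEK⟩ := Sylow.exists_subgroup_card_pow_prime_le 2 (G := P) (n := a) (m := b)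
    (by rw [hn] at h2 ⊢; exact pow_dvd_pow 2 ((Nat.pow_le_pow_iff_right (by norm_num)).1 h2))
    (E.subgroupOf P) (by rw [← ha]; exact Nat.card_congr (subgroupOfEquivOfLe hE).toEquiv) h1
  refine ⟨K.map P.subtype, ?_, map_subtype_le _, ?_⟩
  · intro x hx
    exact ⟨⟨x, hE hx⟩, hEK hx, rfl⟩
  · rw [card_map_of_injective (subtype_injective P), hK]

theorem noncyc {X : Type*} [Group X] [Finite X] {A K : Subgroup X} (hA : Odd (Nat.card A))
    (hK : IsPGroup 2 K) (hc : ¬ IsCyclic K)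
    (h : ∀ M ≤ K, 2 * Nat.card M = Nat.card K → A ≤ normalizer (M : Set X)) :
    A ≤ centralizer (K : Set X) := by
  have hM : ∀ M : Subgroup K, IsCoatom M →
      A ≤ normalizer ((M.map K.subtype : Subgroup X) : Set X) := fun M hM => by
    refine h _ (map_subtype_le _) ?_
    rw [card_map_of_injective (subtype_injective K), ← H3.index_eq_of_isCoatom hK hM,
      index_mul_card]
  have hAK : A ≤ normalizer (K : Set X) := by
    obtain ⟨M, N, hM', hN', hne⟩ : ∃ M N : Subgroup K, IsCoatom M ∧ IsCoatom N ∧ M ≠ N := by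
      by_contra! hh
      exact hc (H3.isCyclic_of_isCoatom_unique hh)
    have := H1.le_normalizer_sup (hM M hM') (hM N hN')
    rwa [← Subgroup.map_sup, hM'.sup_eq_top_of_ne hN' hne, ← MonoidHom.range_eq_map,
      range_subtype] at this
  obtain ⟨n, hn⟩ := IsPGroup.iff_card.1 hK
  refine H1.le_centralizer_of_commutator_le_frattini hAK
    (by rw [hn]; exact (Nat.coprime_two_right.2 hA).pow_right n) ?_
  rw [commutator_le]
  intro k hk a ha
  have hb : a * k⁻¹ * a⁻¹ ∈ K := H1.conj_mem_of_le_normalizer hAK ha (inv_mem hk)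
  refine ⟨⟨k, hk⟩ * ⟨_, hb⟩, H3.mem_frattini_iff.2 fun M hM' => ?_, by
    simp [commutatorElement_def, mul_assoc]⟩
  rw [mul_mem_iff_of_index_two (H3.index_eq_of_isCoatom hK hM'),
    ← mem_map_iff_mem (f := K.subtype) (subtype_injective K),
    ← mem_map_iff_mem (f := K.subtype) (subtype_injective K)]
  have := (mem_normalizer_iff.1 (hM M hM' ha)) k⁻¹
  rw [inv_mem_iff] at this
  exact this

/-- Let P be a 2-subgroup and A a subgroup of odd order of a finite group, with A normalizing P. Let D ≤ P with 1 < |D| < |P|. If every subgroup of P of order |D|, and also every subgroup of P of order 4 in case |D| = 2, is normalized by A, then A centralizes P. -/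
theorem result {X : Type*} [Group X] [Finite X] (P A D : Subgroup X) (hP : IsPGroup 2 P) (hA : Odd (Nat.card A))
    (hAP : A ≤ Subgroup.normalizer (P : Set X)) (hDP : D ≤ P) (hD1 : 1 < Nat.card D) (hD2 : Nat.card D < Nat.card P)
    (hinv : ∀ E : Subgroup X, E ≤ P → (Nat.card E = Nat.card D ∨ (Nat.card D = 2 ∧ Nat.card E = 4)) → A ≤ Subgroup.normalizer (E : Set X)) :
    A ≤ Subgroup.centralizer (P : Set X) := by
  obtain ⟨d, hd⟩ := IsPGroup.iff_card.1 (hP.to_le hDP)
  obtain ⟨n, hn⟩ := IsPGroup.iff_card.1 hP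
  have hdn : 2 ^ (d + 1) ≤ Nat.card P := by
    rw [hd, hn, Nat.pow_lt_pow_iff_right (by norm_num)] at hD2
    rw [hn]; exact Nat.pow_le_pow_right (by norm_num) hD2
  have h1 : ∀ E ≤ P, Nat.card E = 2 ^ d → A ≤ centralizer (E : Set X) := by
    intro E hE hEc
    by_cases hc : IsCyclic E
    · exact cyc hA (hP.to_le hE) hc (hinv E hE (Or.inl (hEc.trans hd.symm)))
    obtain ⟨K, hEK, hKP, hK⟩ := ext_le hP hE (b := d + 1)
      (by rw [hEc]; exact Nat.pow_le_pow_right (by norm_num) (Nat.le_succ d)) hdn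
    refine (noncyc hA (hP.to_le hKP) (fun h => hc (isCyclic_of_injective _
      (inclusion_injective hEK))) fun M hM hMc => hinv M (hM.trans hKP) (Or.inl ?_)).trans
      (centralizer_le hEK)
    rw [hK, pow_succ'] at hMc
    rw [hd]
    exact Nat.eq_of_mul_eq_mul_left (by norm_num) hMc
  have h2 : ∀ E ≤ P, Nat.card E ≤ 2 ^ d → A ≤ centralizer (E : Set X) := by
    intro E hE hEc
    obtain ⟨K, hEK, hKP, hK⟩ := ext_le hP hE hEc (hd ▸ hD2.le)
    exact (h1 K hKP hK).trans (centralizer_le hEK)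
  refine H1.le_centralizer_of_centralizes_omega_two hP hAP (Nat.coprime_two_right.2 hA) ?_
  intro x hx hx4
  have hz : zpowers x ≤ P := zpowers_le.2 hx
  suffices h : A ≤ centralizer ((zpowers x : Subgroup X) : Set X) from
    le_centralizer_iff.1 h (mem_zpowers x)
  by_cases hle : orderOf x ≤ 2 ^ d
  · exact h2 _ hz (by rwa [Nat.card_zpowers])
  have hdvd : orderOf x ∣ 2 ^ 2 := orderOf_dvd_of_pow_eq_one hx4
  obtain ⟨j, hj, hje⟩ := (Nat.dvd_prime_pow Nat.prime_two).1 hdvd
  rw [hje, Nat.pow_le_pow_iff_right (by norm_num)] at hle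
  have hd0 : d ≠ 0 := by
    rintro rfl
    rw [hd] at hD1
    simp at hD1
  obtain rfl : d = 1 := by omega
  obtain rfl : j = 2 := by omega
  exact cyc hA (hP.to_le hz) inferInstance
    (hinv _ hz (Or.inr ⟨hd, by rw [Nat.card_zpowers, hje]; rfl⟩))

end Cfsg.Agent.S3803
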