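import Cfsg.Statements.S3814
import Cfsg.Agent.H2.Four4

set_option autoImplicit false
open Cfsg

namespace Cfsg.Agent.S3814

open Cfsg.Agent.FT Cfsg.Agent.H2.Four Subgroup

/-- A criterion for nonsolvability from element orders: let G be a finite group and σ a set of at least four primes such that for all distinct p, q ∈ σ the product pq is the order of some element of G, while for all pairwise distinct p, q, r ∈ σ no element of G has order pqr. Then G is not solvable. -/
theorem result {G : Type*} [Group G] [Finite G]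
    (σ : Finset ℕ) (hσ : 4 ≤ σ.card) (hprime : ∀ p ∈ σ, p.Prime)
    (h2 : ∀ p ∈ σ, ∀ q ∈ σ, p ≠ q → ∃ g : G, orderOf g = p * q)
    (h3 : ∀ p ∈ σ, ∀ q ∈ σ, ∀ r ∈ σ, p ≠ q → q ≠ r → p ≠ r → ∀ g : G, orderOf g ≠ p * q * r) :
    ¬ Group.IsSolvable G := by
  intro hG
  obtain ⟨τ, hτ, hc⟩ := Finset.exists_subset_card_eq hσ
  obtain ⟨p, τ', hp', rfl, hc'⟩ := Finset.card_eq_succ.1 hc
  obtain ⟨q, r, s, qr, qs, rs, rfl⟩ := Finset.card_eq_three.1 hc'
  simp only [Finset.mem_insert, Finset.mem_singleton, not_or] at hp'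
  obtain ⟨pq, pr, ps⟩ := hp'
  have hm : ∀ t ∈ ({p, q, r, s} : Set ℕ), t ∈ σ := by
    rintro t (rfl | rfl | rfl | rfl) <;> exact hτ (by simp)
  obtain ⟨K, hK⟩ := exists_hall (M := (⊤ : Subgroup G)) inferInstance {p, q, r, s}
  have hK' : ∀ a : K, (orderOf a).Prime → orderOf a ∈ σ := fun a ha =>
    hm _ (hall_isPi hK _ ha (orderOf_dvd_natCard a))
  refine C4.false (G := K) (p := p) (q := q) (r := r) (s := s) ⟨?_, inferInstance,
    ⟨hprime p (hm p (by simp)), hprime q (hm q (by simp)), hprime r (hm r (by simp)),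
      hprime s (hm s (by simp)), pq, pr, ps, qr, qs, rs⟩,
    fun t ht hd => hall_isPi hK t ht (by rwa [card_top] at hd), fun t ht t' ht' hne => ?_⟩
  · rintro _ _ _ ⟨h1, h2, h4, h5, h6, h7⟩ a b c rfl rfl rfl hab hac hbc
    have h8 := hab.orderOf_mul_eq_mul_orderOf_of_coprime ((Nat.coprime_primes h1 h2).2 h5)
    refine h3 _ (hK' a h1) _ (hK' b h2) _ (hK' c h4) h5 h7 h6 (a * b * c : K) ?_
    rw [Subgroup.orderOf_coe, (hac.mul_left hbc).orderOf_mul_eq_mul_orderOf_of_coprime
      (by rw [h8]; exact Nat.Coprime.mul_left ((Nat.coprime_primes h1 h4).2 h6)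
            ((Nat.coprime_primes h2 h4).2 h7)), h8]
  · obtain ⟨g, hg⟩ := h2 t (hm t ht) t' (hm t' ht') hne
    have h4 := hprime t (hm t ht)
    have h5 := hprime t' (hm t' ht')
    obtain ⟨x, -, hx⟩ := exists_conj_le_hall (K := zpowers g) inferInstance hK le_top
      fun u hu hd => by
        rw [Nat.card_zpowers, hg] at hd
        rcases (Nat.Prime.dvd_mul hu).1 hd with e | e
        · exact (Nat.prime_dvd_prime_iff_eq hu h4).1 e ▸ ht
        · exact (Nat.prime_dvd_prime_iff_eq hu h5).1 e ▸ ht'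
    let y : K := ⟨_, hx (conj_mem_conj (mem_zpowers g) x)⟩
    have hy : orderOf y = t * t' := by
      rw [← Subgroup.orderOf_coe, ← hg]; exact (MulAut.conj x).orderOf_eq g
    refine ⟨y ^ t', y ^ t, ?_, ?_, Commute.pow_pow_self _ _ _⟩
    · rw [orderOf_pow_of_dvd h5.ne_zero (hy ▸ dvd_mul_left _ _), hy, Nat.mul_div_cancel _ h5.pos]
    · rw [orderOf_pow_of_dvd h4.ne_zero (hy ▸ dvd_mul_right _ _), hy,
        Nat.mul_div_cancel_left _ h4.pos]

end Cfsg.Agent.S3814
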