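import Cfsg.Statements.S3816
import Cfsg.Agent.H7.FC3
import Cfsg.Agent.H1.Semidirect

set_option autoImplicit false
open Cfsg

namespace Cfsg.Agent.S3816

open scoped commutatorElement

/-- Let p be an odd prime, H a finite solvable group of order prime to p, and x an automorphism of H of order p (so P = ⟨x⟩ has prime order p > 2 and acts coprimely on H). For h ∈ H let [h, P] be the subgroup generated by the commutators h⁻¹·xⁱ(h), and let [H, P] be the subgroup generated by all of these. Then the fixed points of x in [H, P] are generated by the fixed points of x in the subgroups [h, P], h ∈ H. -/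
theorem result {H : Type*} [Group H] [Finite H]
    [Group.IsSolvable H] {p : ℕ} [Fact p.Prime] (hp : p ≠ 2) (hcop : (Nat.card H).Coprime p)
    (x : MulAut H) (hx : orderOf x = p) :
    Subgroup.closure {c : H | ∃ h : H, ∃ i : ℕ, c = h⁻¹ * (x ^ i) h} ⊓ (x : H →* H).eqLocus (MonoidHom.id H) =
      ⨆ h : H, Subgroup.closure {c : H | ∃ i : ℕ, c = h⁻¹ * (x ^ i) h} ⊓ (x : H →* H).eqLocus (MonoidHom.id H) := by
  have hp' : p.Prime := Fact.out
  refine le_antisymm ?_ (iSup_le fun h => inf_le_inf_right _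
    (Subgroup.closure_mono fun c ⟨i, hi⟩ => ⟨h, i, hi⟩))
  let φ : Subgroup.zpowers x →* MulAut H := (Subgroup.zpowers x).subtype
  have hP : Nat.card (H1.sdR φ ⊤) = p := by rw [H1.card_sdR_top, Nat.card_zpowers, hx]
  have key := H7.FC.main hp' hp _ _ (H1.sdR φ ⊤) (H1.sdL φ ⊤) rfl hP (H1.sdR_le_normalizer_top ⊤)
    (by rw [hP, H1.card_sdL_top]; exact hcop.symm) (H1.isSolvable_map _ inferInstance)
  have cm : ∀ (h : H) (a : Subgroup.zpowers x),
      (SemidirectProduct.inl (h⁻¹ * (a : MulAut H) h) : H ⋊[φ] Subgroup.zpowers x) =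
        ⁅(SemidirectProduct.inl h⁻¹ : H ⋊[φ] Subgroup.zpowers x), SemidirectProduct.inr a⁆ := by
    intro h a
    rw [map_mul, commutatorElement_def]
    have := H1.inr_mul_inl_mul_inv (φ := φ) a h
    change _ = SemidirectProduct.inl ((a : MulAut H) h) at this
    rw [← this, map_inv]
    group
  have fx : ∀ c : H, (SemidirectProduct.inl c : H ⋊[φ] Subgroup.zpowers x) ∈
      Subgroup.centralizer (H1.sdR φ ⊤ : Set (H ⋊[φ] Subgroup.zpowers x)) ↔
      c ∈ (x : H →* H).eqLocus (MonoidHom.id H) := by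
    intro c
    rw [H1.inl_mem_centralizer_sdR, H1.mem_fixedSub_top]
    refine ⟨fun h => h ⟨x, Subgroup.mem_zpowers x⟩, fun h a => ?_⟩
    have : Subgroup.zpowers x ≤ MulAction.stabilizer (MulAut H) c := Subgroup.zpowers_le.2 h
    exact this a.2
  rw [← H1.sdL_le_sdL (φ := φ)]
  refine le_trans ?_ (key.trans (H7.FC.Dc_le ?_))
  · rw [H1.sdL_inf]
    refine inf_le_inf ?_ ?_
    · rw [Subgroup.map_le_iff_le_comap, Subgroup.closure_le]
      rintro _ ⟨h, i, rfl⟩
      have := cm h ⟨x ^ i, Subgroup.pow_mem _ (Subgroup.mem_zpowers x) i⟩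
      rw [SetLike.mem_coe, Subgroup.mem_comap, this]
      exact Subgroup.commutator_mem_commutator (H1.inl_mem_sdL.2 (Subgroup.mem_top _))
        (H1.inr_mem_sdR.2 (Subgroup.mem_top _))
    · rintro _ ⟨c, hc, rfl⟩
      exact (fx c).2 hc
  · rintro _ ⟨g, -, rfl⟩
    have h1 : H7.FC.Bc (H1.sdR φ ⊤) (SemidirectProduct.inl g) ≤
        H1.sdL φ (Subgroup.closure {c : H | ∃ i : ℕ, c = g⁻¹⁻¹ * (x ^ i) g⁻¹}) := by
      rw [H7.FC.Bc_le_iff]
      rintro _ ⟨a, -, rfl⟩
      obtain ⟨i, hi⟩ := (mem_powers_iff_mem_zpowers.2 a.2 : ∃ i : ℕ, x ^ i = a)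
      have := cm g⁻¹ a
      rw [inv_inv g] at this
      rw [← this, H1.inl_mem_sdL]
      exact Subgroup.subset_closure ⟨i, by rw [← hi, inv_inv]⟩
    intro z hz
    obtain ⟨c, hc, rfl⟩ := h1 hz.1
    exact H1.inl_mem_sdL.2 (Subgroup.mem_iSup_of_mem g⁻¹ ⟨hc, (fx c).1 hz.2⟩)

end Cfsg.Agent.S3816
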