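import Cfsg.Statements.S3817
import Cfsg.Agent.H2.F2G

set_option autoImplicit false
open Cfsg

namespace Cfsg.Agent.S3817

/-- Let G be a finite group and write F₂(X) for the second term of the upper Fitting chain of a finite group X: the preimage in X of the Fitting subgroup of X/F(X). Then an element x of G lies in F₂(G) if and only if x lies in F₂(⟨x, y⟩) for every y ∈ G. -/
theorem result {G : Type*} [Group G] [Finite G]
    [hF : (Cfsg.fittingSubgroup G).Normal]
    (hK : ∀ K : Subgroup G, (Cfsg.fittingSubgroup ↥K).Normal) (x : G) :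
    x ∈ (Cfsg.fittingSubgroup (G ⧸ Cfsg.fittingSubgroup G)).comap (QuotientGroup.mk' (Cfsg.fittingSubgroup G)) ↔
      ∀ y : G, ∀ hx : x ∈ Subgroup.closure ({x, y} : Set G),
        haveI := hK (Subgroup.closure ({x, y} : Set G));
        (⟨x, hx⟩ : ↥(Subgroup.closure ({x, y} : Set G))) ∈
          (Cfsg.fittingSubgroup (↥(Subgroup.closure ({x, y} : Set G)) ⧸ Cfsg.fittingSubgroup ↥(Subgroup.closure ({x, y} : Set G)))).comap
            (QuotientGroup.mk' (Cfsg.fittingSubgroup ↥(Subgroup.closure ({x, y} : Set G)))) := by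
  have e : ∀ y : G, Subgroup.closure ({x, y} : Set G) = Subgroup.zpowers x ⊔ Subgroup.zpowers y :=
    fun y => by
      rw [Subgroup.zpowers_eq_closure, Subgroup.zpowers_eq_closure, ← Subgroup.closure_union]; rfl
  rw [← H2.F2.in2_top_iff']
  constructor
  · intro h y hx
    haveI := hK (Subgroup.closure ({x, y} : Set G))
    exact H2.F2.in2_top_iff'.1 ((H2.F2.in2_sub_iff hx).2
      (h.restrict (Subgroup.mem_zpowers x) hx le_top))
  · intro h
    refine H2.F2.main G x fun y => ?_
    haveI := hK (Subgroup.closure ({x, y} : Set G))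
    have hx : x ∈ Subgroup.closure ({x, y} : Set G) := Subgroup.subset_closure (by simp)
    exact e y ▸ (H2.F2.in2_sub_iff hx).1 (H2.F2.in2_top_iff'.2 (h y hx))

end Cfsg.Agent.S3817
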