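import Cfsg.Statements.S3818
import Cfsg.Agent.H7.RH4

set_option autoImplicit false
open Cfsg

namespace Cfsg.Agent.S3818

/-- Let G be a finite solvable group and P a subgroup of G of prime order p > 3 whose conjugates generate G. Let V be a faithful irreducible representation of G over a field of positive characteristic, finite-dimensional. Then the subspace of V fixed by P has dimension less than half the dimension of V. -/
theorem result {G : Type*} [Group G] [Finite G] [Group.IsSolvable G]
    {p : ℕ} [Fact p.Prime] (hp : 3 < p) (P : Subgroup G) (hP : Nat.card P = p) (hgen : Subgroup.normalClosure (P : Set G) = ⊤)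
    {k : Type*} [Field k] (ℓ : ℕ) [Fact ℓ.Prime] [CharP k ℓ]
    {V : Type*} [AddCommGroup V] [Module k V] [FiniteDimensional k V]
    (ρ : Representation k G V) [ρ.IsIrreducible] (hfaith : Function.Injective ρ) :
    2 * Module.finrank k ↥(⨅ g : ↥P, LinearMap.ker (ρ (g : G) - LinearMap.id)) < Module.finrank k V := by
  have hp' : p.Prime := Fact.out
  obtain ⟨x, hx, hx1⟩ : ∃ x ∈ P, x ≠ 1 := by
    obtain ⟨x, hx⟩ := Subgroup.ne_bot_iff_exists_ne_one.1 (FT.ne_bot_of_card_prime (hP ▸ hp'))
    exact ⟨x, x.2, fun e => hx (Subtype.ext e)⟩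
  have hPx := FT.zpowers_eq_of_card_prime (hP ▸ hp') hx hx1
  haveI : Nontrivial V := by
    by_contra hc
    rw [not_nontrivial_iff_subsingleton] at hc
    exact hx1 (hfaith (LinearMap.ext fun v => Subsingleton.elim _ _))
  have key := H7.RH.main (ρ := ρ) (Fact.out : ℓ.Prime) hfaith (fun W hW => by
    rcases eq_bot_or_eq_top (⟨W, fun g v hv => hW _ ⟨g, rfl⟩ v hv⟩ : Subrepresentation ρ) with e | e
    · exact Or.inl (congrArg Subrepresentation.toSubmodule e)
    · exact Or.inr (congrArg Subrepresentation.toSubmodule e)) hp' hp (x := x)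
    (by rw [← Nat.card_zpowers, hPx, hP]) (by
      rw [eq_top_iff, ← hgen, ← hPx]
      exact Subgroup.normalClosure_le_normal
        (Subgroup.zpowers_le.2 (Subgroup.subset_normalClosure rfl)))
  have hle : (⨅ g : ↥P, LinearMap.ker (ρ (g : G) - LinearMap.id)) ≤ LinearMap.ker (ρ x - 1) :=
    iInf_le (fun g : ↥P => LinearMap.ker (ρ (g : G) - LinearMap.id)) ⟨x, hx⟩
  have := Submodule.finrank_mono hle
  omega

end Cfsg.Agent.S3818
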