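import Cfsg.Statements.S3819
import Cfsg.Agent.FT.BG01

set_option autoImplicit false
open Cfsg

namespace Cfsg.Agent.S3819


open Subgroup Cfsg.Agent.FT Cfsg.Agent.H2
open scoped commutatorElement

universe u

theorem aux {G : Type u} [Group G] [Finite G] {q : ℕ} (hq : q.Prime) {H P : Subgroup G}
    (hn : P ≤ 𝐍(H)) (hc : 𝐨(P).Coprime 𝐨(H)) (hP : Group.IsSolvable P)
    (hs : Group.IsSolvable ↥⁅H, P⁆) {z : G} (hzH : z ∈ H) (hzP : z ∈ 𝐂(P))
    (hz : IsPGroup q (zpowers z)) :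
    (pPrimeCoreOf q (H ⊓ 𝐂[z]) ⊓ pPrimeCoreOf q (H ⊓ 𝐂(P))) ⊔
      ⁅pPrimeCoreOf q (H ⊓ 𝐂[z]), P⁆ ≤ pPrimeCoreOf q H := by
  have hHK := H1.commutator_sup_centralizer hn hc (Or.inl hP)
  have hKH : ⁅H, P⁆ ≤ H := comm_le_left_iff.2 hn
  have hKn : H ≤ 𝐍(⁅H, P⁆) := normalizer_commutator_ge_left H P
  have hUP : ⁅pPrimeCoreOf q (H ⊓ 𝐂[z]), P⁆ ≤ pPrimeCoreOf q (H ⊓ 𝐂[z]) ⊓ ⁅H, P⁆ :=
    le_inf (comm_le_left_iff.2 ((H1.le_normalizer_inf hn ((mem_cent_iff_cent1.1 hzP).trans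
      (le_norm_self _))).trans (normalizer_le_normalizer_pPrimeCoreOf q _)))
      (commutator_mono ((pPrimeCoreOf_le q _).trans inf_le_left) le_rfl)
  generalize ⁅H, P⁆ = K at *
  obtain ⟨U, hU⟩ : ∃ U, U = pPrimeCoreOf q (H ⊓ 𝐂[z]) := ⟨_, rfl⟩
  obtain ⟨O, hO⟩ : ∃ O, O = pPrimeCoreOf q H := ⟨_, rfl⟩
  obtain ⟨C, hC⟩ : ∃ C, C = H ⊓ 𝐂(P) := ⟨_, rfl⟩
  rw [← hU] at hUP
  rw [← hC] at hHK
  rw [← hU, ← hO, ← hC]
  have hOn : H ≤ 𝐍(O) := hO ▸ le_normalizer_pPrimeCoreOf q H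
  have hCH : C ≤ H := hC ▸ inf_le_left
  have hX : ∀ X : Subgroup G, K ≤ X → pPrimeCoreOf q X ⊓ K ≤ O := fun X hX =>
    (pPrimeCoreOf_inf_le q hX).trans (hO ▸ le_pPrimeCoreOf ⟨(pPrimeCoreOf_le q K).trans hKH,
      hKn.trans (normalizer_le_normalizer_pPrimeCoreOf q K)⟩ (coprime_card_pPrimeCoreOf q K))
  have key : ∀ u ∈ U, ∃ X : Subgroup G, K ≤ X ∧ X ≤ H ∧ u ∈ pPrimeCoreOf q X := by
    intro u hu
    have hu' := mem_inf.1 (pPrimeCoreOf_le q _ (hU ▸ hu))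
    have hA : zpowers z ⊔ zpowers u ≤ H := sup_le (zpowers_le.2 hzH) (zpowers_le.2 hu'.1)
    have hXH : (zpowers z ⊔ zpowers u) ⊔ K ≤ H := sup_le hA hKH
    refine ⟨_, le_sup_right, hXH, pPrimeCore_cent_pgroup hq (isSolvable_sup_of_le_normalizer
      (hA.trans hKn) (H1.isSolvable_of_isMulCommutative (isMulComm_sup inferInstance inferInstance
        (zpowers_le.2 (by rw [cent_zpowers]; exact hu'.2)))) hs) (le_sup_of_le_left le_sup_left) hz
        ?_⟩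
    rw [cent_zpowers]
    exact pPrimeCoreOf_inf_le q (inf_le_inf_right _ hXH) (mem_inf.2 ⟨hU ▸ hu, mem_inf.2
      ⟨mem_sup_left (mem_sup_right (mem_zpowers u)), hu'.2⟩⟩)
  refine sup_le ?_ (hUP.trans fun u hu => ?_)
  · obtain ⟨E, hE⟩ : ∃ E, E = pPrimeCoreOf q C ⊓ H1.commStab K O := ⟨_, rfl⟩
    have hEH : E ≤ H := hE ▸ inf_le_left.trans ((pPrimeCoreOf_le q C).trans hCH)
    have h1 : U ⊓ pPrimeCoreOf q C ≤ E := by
      rw [hE]
      refine le_inf inf_le_right fun u hu => H1.mem_commStab.2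
        ⟨hOn (hCH (pPrimeCoreOf_le q C hu.2)), fun k hk => ?_⟩
      obtain ⟨X, h1, h2, h3⟩ := key u hu.1
      refine hX X h1 (mem_inf.2 ⟨comm_le_right_iff.2 (h1.trans (le_normalizer_pPrimeCoreOf q X))
        (commutator_mem_commutator hk h3), comm_le_left_iff.2 (((pPrimeCoreOf_le q X).trans
          h2).trans hKn) (commutator_mem_commutator hk h3)⟩)
    have h2 : C ≤ 𝐍(E) := by
      rw [hE]
      refine H1.le_normalizer_inf (le_normalizer_pPrimeCoreOf q C) fun c hc =>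
        mem_norm_of_conj_le fun x hx => ?_
      obtain ⟨a, ha, rfl⟩ := mem_conj'.1 hx
      obtain ⟨a1, a2⟩ := H1.mem_commStab.1 ha
      have c1 := hOn (hCH hc)
      refine H1.mem_commStab.2 ⟨mul_mem (mul_mem c1 a1) (inv_mem c1), fun k hk => ?_⟩
      have := (mem_normalizer_iff.1 c1 _).1 (a2 _ ((mem_normalizer_iff''.1 (hKn (hCH hc)) k).1 hk))
      convert this using 1
      simp only [commutatorElement_def]
      group
    refine h1.trans (le_sup_left.trans (b := E ⊔ O) ?_)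
    conv_rhs => rw [hO]
    refine le_pPrimeCoreOf ⟨sup_le hEH (hO ▸ pPrimeCoreOf_le q H), ?_⟩ ?_
    · rw [← hHK]
      refine sup_le (comm_le_right_iff.1 ((comm_sup_le (hEH.trans hOn) (le_norm_self O)
        (H1.le_commStab_iff.1 (hE ▸ inf_le_right)).2
        (comm_le_right_iff.2 (hKH.trans hOn))).trans le_sup_right))
        (H1.le_normalizer_sup h2 (hCH.trans hOn))
    · rw [← isPi_compl_singleton_iff hq]
      refine isPi_sup ((isPi_compl_singleton_iff hq).2 ?_) ((isPi_compl_singleton_iff hq).2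
        (hO ▸ coprime_card_pPrimeCoreOf q H)) (hEH.trans hOn)
      exact (coprime_card_pPrimeCoreOf q C).coprime_dvd_left
        (FT.card_dvd_of_le (hE ▸ inf_le_left))
  · obtain ⟨X, h1, -, h3⟩ := key u hu.1
    exact hX X h1 (mem_inf.2 ⟨h3, hu.2⟩)

/-- Let G be a finite group with Sylow p-subgroup P and H = O_{p'}(G), and suppose G = PH and the commutator subgroup [H, P] is solvable. Let q be a prime and z an element of q-power order of C_H(P). Then (O_{q'}(C_H(z)) ∩ O_{q'}(C_H(P))) · [O_{q'}(C_H(z)), P] ≤ O_{q'}(H). -/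
theorem result {G : Type*} [Group G] [Finite G] {p : ℕ} [Fact p.Prime]
    (P : Sylow p G) (hPH : Cfsg.pPrimeCore p G ⊔ (P : Subgroup G) = ⊤)
    (hsol : Group.IsSolvable ↥⁅Cfsg.pPrimeCore p G, (P : Subgroup G)⁆)
    {q : ℕ} [Fact q.Prime] (z : G) (hzH : z ∈ Cfsg.pPrimeCore p G) (hzP : z ∈ Subgroup.centralizer ((P : Subgroup G) : Set G))
    (hz : ∃ k : ℕ, orderOf z = q ^ k) :
    ((Cfsg.pPrimeCore q ↥(Cfsg.pPrimeCore p G ⊓ Subgroup.centralizer ({z} : Set G))).map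
        (Cfsg.pPrimeCore p G ⊓ Subgroup.centralizer ({z} : Set G)).subtype ⊓
      (Cfsg.pPrimeCore q ↥(Cfsg.pPrimeCore p G ⊓ Subgroup.centralizer ((P : Subgroup G) : Set G))).map
        (Cfsg.pPrimeCore p G ⊓ Subgroup.centralizer ((P : Subgroup G) : Set G)).subtype) ⊔
    ⁅(Cfsg.pPrimeCore q ↥(Cfsg.pPrimeCore p G ⊓ Subgroup.centralizer ({z} : Set G))).map
        (Cfsg.pPrimeCore p G ⊓ Subgroup.centralizer ({z} : Set G)).subtype, (P : Subgroup G)⁆ ≤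
    (Cfsg.pPrimeCore q ↥(Cfsg.pPrimeCore p G)).map (Cfsg.pPrimeCore p G).subtype := by
  obtain ⟨k, hk⟩ := hz
  exact aux (H := pPrimeCore p G) (q := q) Fact.out (le_top.trans (normalizer_eq_top _).ge)
    (H1.coprime_card_of_isPGroup P.isPGroup' (by
      rw [← pPrimeCoreOf_top]; exact coprime_card_pPrimeCoreOf p ⊤)).symm
    (isSolvable_of_isNilpotent (isNilpotent_of_isPGroup Fact.out P.isPGroup')) hsol hzH hzP
    (isPGroup_of_card_eq (by rw [Nat.card_zpowers, hk]))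

end Cfsg.Agent.S3819
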