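import Cfsg.Statements.S3820
import Cfsg.Agent.H2.Subnormal

set_option autoImplicit false
open Cfsg

namespace Cfsg.Agent.S3820

open Subgroup Cfsg.Agent.H2
open scoped Pointwise

/-- Call a subgroup H of G pronormal if H and gHg⁻¹ are conjugate inside ⟨H, gHg⁻¹⟩ for every g ∈ G. Let S ≤ H ≤ G be subgroups of a finite group with S pronormal in G (for instance S a Sylow subgroup). Then H is pronormal in G if and only if H and gHg⁻¹ are conjugate inside ⟨H, gHg⁻¹⟩ for every g ∈ N_G(S). In particular H is pronormal whenever N_G(S) ≤ H. -/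
theorem result {G : Type*} [Group G] [Finite G] (S H : Subgroup G) (hSH : S ≤ H)
    (hS : Cfsg.IsPronormal S) :
    Cfsg.IsPronormal H ↔
      ∀ g ∈ Subgroup.normalizer (S : Set G), ∃ w ∈ H ⊔ H.map (MulAut.conj g).toMonoidHom,
        H.map (MulAut.conj g).toMonoidHom = H.map (MulAut.conj w).toMonoidHom := by
  constructor
  · intro h g _
    exact h g
  · intro h g
    obtain ⟨x, hx, hxe⟩ := hS g
    simp only [map_conj_eq_smul] at hx hxe h ⊢
    have hn : x⁻¹ * g ∈ normalizer (S : Set G) := by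
      rw [mem_normalizer_iff_conj_smul, conj_smul_mul, hxe, conj_smul_inv_cancel]
    obtain ⟨w, hw, hwe⟩ := h _ hn
    have hxK : x ∈ H ⊔ MulAut.conj g • H :=
      (sup_le_sup hSH (conj_smul_mono g hSH)) hx
    refine ⟨x * w, mul_mem hxK ?_, ?_⟩
    · refine (sup_le le_sup_left ?_ : H ⊔ MulAut.conj (x⁻¹ * g) • H ≤ H ⊔ MulAut.conj g • H) hw
      rw [conj_smul_mul]
      exact conj_smul_le_of_mem le_sup_right (inv_mem hxK)
    · rw [conj_smul_mul, ← hwe, ← conj_smul_mul, mul_inv_cancel_left]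

end Cfsg.Agent.S3820
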