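import Cfsg.Statements.S3821
import Cfsg.Agent.H2.Subnormal
import Cfsg.Agent.H1.Basic

set_option autoImplicit false
open Cfsg

namespace Cfsg.Agent.S3821

open Subgroup Cfsg.Agent.H2
open scoped Pointwise

theorem map_subtype_conj {G : Type*} [Group G] (A : Subgroup G) (K : Subgroup A) (a : A) :
    (MulAut.conj a • K).map A.subtype = MulAut.conj (a : G) • K.map A.subtype := by
  ext y
  rw [mem_conj_smul, mem_map, mem_map]
  constructor
  · rintro ⟨z, hz, rfl⟩
    exact ⟨_, mem_conj_smul.1 hz, by simp⟩
  · rintro ⟨z, hz, hzy⟩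
    refine ⟨a * z * a⁻¹, conj_mem_conj_smul hz, ?_⟩
    simp only [coe_subtype] at hzy
    simp [hzy, mul_assoc]

/-- Let A be a normal subgroup of the finite group G and H a subgroup of A. Then H is pronormal in G (H and gHg⁻¹ conjugate inside ⟨H, gHg⁻¹⟩ for every g ∈ G) if and only if H is pronormal in A and G = A · N_G(H). -/
theorem result {G : Type*} [Group G] [Finite G] (A H : Subgroup G) [A.Normal] (hHA : H ≤ A) :
    Cfsg.IsPronormal H ↔ (Cfsg.IsPronormal (H.subgroupOf A) ∧ A ⊔ Subgroup.normalizer (H : Set G) = ⊤) := by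
  have hm : (H.subgroupOf A).map A.subtype = H := by
    rw [subgroupOf_map_subtype, inf_eq_left.2 hHA]
  have hconjA : ∀ g : G, MulAut.conj g • H ≤ A := by
    intro g y hy
    have := hHA (mem_conj_smul.1 hy)
    have h2 := (inferInstance : A.Normal).conj_mem _ this g
    simpa [mul_assoc] using h2
  constructor
  · intro h
    constructor
    · intro a
      obtain ⟨x, hx, hxe⟩ := h a
      simp only [map_conj_eq_smul] at hx hxe ⊢
      have hxA : x ∈ A := (sup_le hHA (hconjA a)) hx
      refine ⟨⟨x, hxA⟩, ?_, ?_⟩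
      · rw [← mem_map_iff_mem (f := A.subtype) (subtype_injective A), Subgroup.map_sup,
          map_subtype_conj, hm]
        exact hx
      · apply map_injective (subtype_injective A)
        rw [map_subtype_conj, map_subtype_conj, hm]
        exact hxe
    · rw [eq_top_iff]
      intro g _
      obtain ⟨x, hx, hxe⟩ := h g
      simp only [map_conj_eq_smul] at hx hxe
      have hxA : x ∈ A := (sup_le hHA (hconjA g)) hx
      have hn : x⁻¹ * g ∈ normalizer (H : Set G) := by
        rw [mem_normalizer_iff_conj_smul, conj_smul_mul, hxe, conj_smul_inv_cancel]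
      have : g = x * (x⁻¹ * g) := by group
      rw [this]
      exact mul_mem_sup hxA hn
  · rintro ⟨h, htop⟩ g
    have hg : g ∈ normalizer (H : Set G) ⊔ A := by rw [sup_comm, htop]; trivial
    obtain ⟨a, ha, n, hn, rfl⟩ := (H1.mem_sup_iff_of_le_normalizer'
      (by rw [normalizer_eq_top A]; exact le_top)).1 hg
    obtain ⟨x, hx, hxe⟩ := h ⟨a, ha⟩
    simp only [map_conj_eq_smul] at hx hxe ⊢
    rw [conj_smul_mul, mem_normalizer_iff_conj_smul.1 hn]
    refine ⟨x, ?_, ?_⟩
    · have := mem_map_of_mem A.subtype hx
      rw [Subgroup.map_sup, map_subtype_conj, hm] at this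
      exact this
    · have := congrArg (Subgroup.map A.subtype) hxe
      rw [map_subtype_conj, map_subtype_conj, hm] at this
      exact this

end Cfsg.Agent.S3821
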