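import Cfsg.Statements.S3825
import Cfsg.Agent.H3.RankOne
import Mathlib.GroupTheory.FixedPointFree

set_option autoImplicit false
open Cfsg

namespace Cfsg.Agent.S3825

open Subgroup
open scoped commutatorElement

/-- Let U be a subgroup of a finite group H and w an involution of H normalizing U and commuting with exactly two elements of U, the identity and y. If V is a non-cyclic elementary abelian 2-subgroup of U containing y which is normal in U and invariant under w, then V is a Sylow 2-subgroup of U, V has order 4, and U/V is abelian. -/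
theorem result {H : Type*} [Group H] [Finite H] (U : Subgroup H) (w : H) (hw : orderOf w = 2)
    (hwU : w ∈ Subgroup.normalizer (U : Set H)) (y : H) (hy : y ≠ 1) (hyU : y ∈ U)
    (hfix : ∀ u ∈ U, w * u * w⁻¹ = u ↔ (u = 1 ∨ u = y))
    (V : Subgroup H) (hVU : V ≤ U) (hVn : (V.subgroupOf U).Normal) (hVw : ∀ v ∈ V, w * v * w⁻¹ ∈ V)
    (hVe : Cfsg.IsElementaryAbelian 2 V) (hVc : ¬ IsCyclic ↥V) (hyV : y ∈ V) :
    ¬ 2 ∣ V.relIndex U ∧ Nat.card ↥V = 4 ∧ ⁅U, U⁆ ≤ V := by
  have hw2 : w * w = 1 := by rw [← pow_two, ← hw, pow_orderOf_eq_one]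
  have hwi : w⁻¹ = w := inv_eq_of_mul_eq_one_right hw2
  have hww : ∀ u : H, w * (w * u * w⁻¹) * w⁻¹ = u := fun u => by
    calc _ = (w * w) * u * (w * w)⁻¹ := by group
      _ = u := by rw [hw2]; group
  have hcomm : ∀ a ∈ V, ∀ b ∈ V, a * b = b * a := fun a ha b hb =>
    congrArg Subtype.val (hVe.1.is_comm.comm ⟨a, ha⟩ ⟨b, hb⟩)
  have hsq : ∀ a ∈ V, a * a = 1 := fun a ha => by rw [← pow_two]; exact hVe.2 a ha
  have hinv : ∀ a ∈ V, a⁻¹ = a := fun a ha => inv_eq_of_mul_eq_one_right (hsq a ha)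
  have hyo : Nat.card (zpowers y) = 2 := by
    rw [Nat.card_zpowers]; exact orderOf_eq_prime (hVe.2 y hyV) hy
  have hfix' : ∀ u ∈ U, w * u * w⁻¹ = u → u ∈ zpowers y := fun u hu h => by
    rcases (hfix u hu).1 h with rfl | rfl
    · exact one_mem _
    · exact mem_zpowers _
  let f : V →* H := MonoidHom.mk' (fun v => w * v * w⁻¹ * v) (by
    intro a b
    simp only [coe_mul]
    calc w * (a * b) * w⁻¹ * ((a : H) * b) = (w * a * w⁻¹) * ((w * b * w⁻¹) * a) * b := by group
      _ = _ := by rw [hcomm _ (hVw _ b.2) _ a.2]; group)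
  have hf : ∀ v : V, f v = w * v * w⁻¹ * v := fun _ => rfl
  have hrange : f.range ≤ zpowers y := by
    rintro _ ⟨v, rfl⟩
    refine hfix' _ (hVU (mul_mem (hVw _ v.2) v.2)) ?_
    rw [hf]
    calc _ = (w * (w * v * w⁻¹) * w⁻¹) * (w * v * w⁻¹) := by group
      _ = _ := by rw [hww, hcomm _ v.2 _ (hVw _ v.2)]
  have hker : f.ker.map V.subtype ≤ zpowers y := by
    rintro _ ⟨v, hv, rfl⟩
    refine hfix' _ (hVU v.2) ?_
    have : w * v * w⁻¹ * v = 1 := hv
    rw [mul_eq_one_iff_eq_inv, hinv _ v.2] at this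
    exact this
  have c1 : Nat.card f.range ≤ 2 := hyo ▸ card_le_of_le hrange
  have c2 : Nat.card f.ker ≤ 2 := by
    have := card_le_of_le hker
    rwa [card_map_of_injective (subtype_injective V), hyo] at this
  have c3 : Nat.card f.ker * Nat.card f.range = Nat.card V := by
    rw [← index_ker, mul_comm, index_mul_card]
  have c4 : 4 ≤ Nat.card V := by
    obtain ⟨k, hk⟩ := IsPGroup.iff_card.1 (H3.isPGroup_of_isElementaryAbelian hVe)
    have : ¬ Nat.card V ≤ 2 := fun h => hVc (H3.isCyclic_of_isElementaryAbelian_of_card_le hVe h)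
    rw [hk] at this ⊢
    have hk2 : 2 ≤ k := by
      by_contra h
      have : k = 0 ∨ k = 1 := by omega
      rcases this with rfl | rfl <;> simp at this
    exact Nat.pow_le_pow_right (n := 2) (by norm_num) hk2
  have c5 : Nat.card V = 4 := le_antisymm (c3 ▸ Nat.mul_le_mul c2 c1) c4
  have c6 : 2 ≤ Nat.card f.range := by
    by_contra h
    have : Nat.card f.range ≤ 1 := by omega
    have := Nat.mul_le_mul c2 this
    omega
  obtain ⟨v₀, hv₀⟩ : y ∈ f.range := by
    rw [eq_of_le_of_card_ge hrange (hyo ▸ c6)]; exact mem_zpowers y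
  rw [hf] at hv₀
  let φ₀ : U →* U := (normalizerMonoidHom U ⟨w, hwU⟩ : MulAut U)
  have hφ₀ : ∀ u : U, (φ₀ u : H) = w * u * w⁻¹ := fun _ => rfl
  let φ := QuotientGroup.map (V.subgroupOf U) (V.subgroupOf U) φ₀ (fun u hu => hVw _ hu)
  have hφ : MonoidHom.FixedPointFree φ := by
    intro q hq
    induction q using QuotientGroup.induction_on with
    | H u =>
      rw [QuotientGroup.eq_one_iff, mem_subgroupOf]
      have h1 : (QuotientGroup.mk (φ₀ u) : U ⧸ V.subgroupOf U) = QuotientGroup.mk u := hq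
      rw [eq_comm, QuotientGroup.eq, mem_subgroupOf, coe_mul, coe_inv, hφ₀] at h1
      set v := (u : H)⁻¹ * (w * u * w⁻¹) with hv
      have e1 : w * u * w⁻¹ = u * v := by rw [hv]; group
      have e2 : w * v * w⁻¹ = v := by
        calc w * v * w⁻¹ = (w * u * w⁻¹)⁻¹ * (w * (w * u * w⁻¹) * w⁻¹) := by
              rw [hv]; simp only [mul_inv_rev, inv_inv, mul_assoc, inv_mul_cancel_left]
          _ = v⁻¹ := by rw [hww, hv]; group
          _ = v := hinv v h1
      have hyV' : zpowers y ≤ V := zpowers_le.2 hyV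
      rcases (hfix v (hVU h1)).1 e2 with h | h
      · rw [h, mul_one] at e1
        exact hyV' (hfix' _ u.2 e1)
      · have e3 : w * (u * v₀) * w⁻¹ = u * v₀ := by
          calc _ = (w * u * w⁻¹) * (w * v₀ * w⁻¹ * v₀) * (v₀ : H)⁻¹ := by group
            _ = u * (y * y) * (v₀ : H)⁻¹ := by rw [e1, hv₀, h]; group
            _ = _ := by rw [hsq y hyV, hinv _ v₀.2, mul_one]
        exact (mul_mem_cancel_right v₀.2).1 (hyV' (hfix' _ (mul_mem u.2 (hVU v₀.2)) e3))
  have hφ2 : Function.Involutive φ := by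
    intro q
    induction q using QuotientGroup.induction_on with
    | H u =>
      change (QuotientGroup.mk (φ₀ (φ₀ u)) : U ⧸ V.subgroupOf U) = _
      congr 1
      exact Subtype.ext (hww u)
  refine ⟨?_, c5, ?_⟩
  · rw [← even_iff_two_dvd, Nat.not_even_iff_odd]
    exact hφ.odd_card_of_involutive hφ2
  · rw [commutator_le]
    intro a ha b hb
    have := hφ.commute_all_of_involutive hφ2 (QuotientGroup.mk ⟨a, ha⟩) (QuotientGroup.mk ⟨b, hb⟩)
    rw [← commutatorElement_eq_one_iff_commute] at this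
    exact (QuotientGroup.eq_one_iff (N := V.subgroupOf U) ⁅(⟨a, ha⟩ : U), ⟨b, hb⟩⁆).1 this

end Cfsg.Agent.S3825
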