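import Cfsg.Statements.S3835
import Cfsg.Agent.H3.PBasic

set_option autoImplicit false
open Cfsg

namespace Cfsg.Agent.S3835

open Subgroup Matrix
open scoped commutatorElement

section
variable {p : ℕ} [Fact p.Prime]

theorem mem_qd {M : SpecialLinearGroup (Fin 3) (ZMod p)} :
    M ∈ Cfsg.qd p ↔ M.1 2 0 = 0 ∧ M.1 2 1 = 0 ∧ M.1 2 2 = 1 := by
  constructor
  · intro h
    induction h using closure_induction with
    | mem x hx => exact hx
    | one => simp
    | mul x y _ _ hx hy =>
      obtain ⟨a, b, c⟩ := hx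
      obtain ⟨d, e, f⟩ := hy
      simp [Matrix.mul_apply, Fin.sum_univ_three, a, b, c, d, e, f]
    | inv x _ hx =>
      obtain ⟨a, b, c⟩ := hx
      have h : x.1 * (x⁻¹).1 = 1 := congrArg Subtype.val (mul_inv_cancel x)
      have h0 := congrFun (congrFun h 2) 0
      have h1 := congrFun (congrFun h 2) 1
      have h2 := congrFun (congrFun h 2) 2
      rw [Matrix.mul_apply, Fin.sum_univ_three, a, b, c, zero_mul, zero_mul, one_mul, zero_add,
        zero_add] at h0 h1 h2
      exact ⟨h0, h1, h2⟩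
  · intro h
    exact subset_closure h

/-- the affine matrix with given entries -/
def mkq (a b c d u v : ZMod p) (h : a * d - b * c = 1) : Cfsg.qd p :=
  ⟨⟨!![a, b, u; c, d, v; 0, 0, 1], by simp [det_fin_three, h]⟩, mem_qd.2 (by simp)⟩

theorem mkq_mul (a b c d u v a' b' c' d' u' v' : ZMod p) (h h') :
    mkq a b c d u v h * mkq a' b' c' d' u' v' h' =
      mkq (a * a' + b * c') (a * b' + b * d') (c * a' + d * c') (c * b' + d * d')
        (a * u' + b * v' + u) (c * u' + d * v' + v) (by linear_combination (a' * d' - b' * c') * h + h') := by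
  apply Subtype.ext
  apply Subtype.ext
  change (!![a, b, u; c, d, v; 0, 0, 1] * !![a', b', u'; c', d', v'; 0, 0, 1] :
    Matrix (Fin 3) (Fin 3) (ZMod p)) = _
  ext i j
  fin_cases i <;> fin_cases j <;> simp [mkq, Matrix.mul_apply, Fin.sum_univ_three]

theorem mkq_ext {a b c d u v a' b' c' d' u' v' : ZMod p} {h h'} :
    mkq a b c d u v h = mkq a' b' c' d' u' v' h' ↔
      a = a' ∧ b = b' ∧ c = c' ∧ d = d' ∧ u = u' ∧ v = v' := by
  constructor
  · intro e
    have e' := congrArg (fun M : Cfsg.qd p => M.1.1) e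
    exact ⟨congrFun (congrFun e' 0) 0, congrFun (congrFun e' 0) 1, congrFun (congrFun e' 1) 0,
      congrFun (congrFun e' 1) 1, congrFun (congrFun e' 0) 2, congrFun (congrFun e' 1) 2⟩
  · rintro ⟨rfl, rfl, rfl, rfl, rfl, rfl⟩
    rfl

theorem mkq_one : mkq (1 : ZMod p) 0 0 1 0 0 (by simp) = 1 := by
  apply Subtype.ext
  apply Subtype.ext
  ext i j
  fin_cases i <;> fin_cases j <;> simp [mkq]

theorem exists_mkq (M : Cfsg.qd p) : ∃ a b c d u v h, M = mkq a b c d u v h := by
  obtain ⟨M, hM⟩ := M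
  obtain ⟨h0, h1, h2⟩ := mem_qd.1 hM
  refine ⟨M.1 0 0, M.1 0 1, M.1 1 0, M.1 1 1, M.1 0 2, M.1 1 2, ?_, ?_⟩
  · have := M.2
    rw [det_fin_three, h0, h1, h2] at this
    linear_combination this
  · apply Subtype.ext
    apply Subtype.ext
    ext i j
    fin_cases i <;> fin_cases j <;> simp [mkq, h0, h1, h2]

theorem hom_eq_one (hp : p ≠ 2) (χ : Cfsg.qd p →* ℤˣ) (M : Cfsg.qd p) : χ M = 1 := by
  have h2 : (2 : ZMod p) ≠ 0 := by
    intro h
    have : ((2 : ℕ) : ZMod p) = 0 := by exact_mod_cast h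
    rw [ZMod.natCast_eq_zero_iff] at this
    exact hp ((Nat.prime_dvd_prime_iff_eq Fact.out Nat.prime_two).1 this)
  have hsq : ∀ N : Cfsg.qd p, χ (N * N) = 1 := fun N => by rw [map_mul, Int.units_mul_self]
  have hU : ∀ s : ZMod p, χ (mkq 1 s 0 1 0 0 (by simp)) = 1 := fun s => by
    rw [← hsq (mkq 1 (s / 2) 0 1 0 0 (by simp)), mkq_mul]
    congr 1
    rw [mkq_ext]
    refine ⟨by ring, by field_simp; ring, by ring, by ring, by ring, by ring⟩
  have hL : ∀ s : ZMod p, χ (mkq 1 0 s 1 0 0 (by simp)) = 1 := fun s => by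
    rw [← hsq (mkq 1 0 (s / 2) 1 0 0 (by simp)), mkq_mul]
    congr 1
    rw [mkq_ext]
    refine ⟨by ring, by ring, by field_simp; ring, by ring, by ring, by ring⟩
  have hT : ∀ u v : ZMod p, χ (mkq 1 0 0 1 u v (by simp)) = 1 := fun u v => by
    rw [← hsq (mkq 1 0 0 1 (u / 2) (v / 2) (by simp)), mkq_mul]
    congr 1
    rw [mkq_ext]
    refine ⟨by ring, by ring, by ring, by ring, by field_simp; ring, by field_simp; ring⟩
  have hc : ∀ a b c d u v : ZMod p, ∀ h, c ≠ 0 → χ (mkq a b c d u v h) = 1 := by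
    intro a b c d u v h hc
    have : mkq a b c d u v h = mkq 1 0 0 1 u v (by simp) * mkq 1 ((a - 1) / c) 0 1 0 0 (by simp) *
        mkq 1 0 c 1 0 0 (by simp) * mkq 1 ((d - 1) / c) 0 1 0 0 (by simp) := by
      rw [mkq_mul, mkq_mul, mkq_mul, mkq_ext]
      refine ⟨by field_simp; ring, ?_, by ring, by field_simp; ring, by ring, by ring⟩
      field_simp
      linear_combination (-1 : ZMod p) * h
    rw [this, map_mul, map_mul, map_mul, hT, hU, hL, hU]
    simp
  obtain ⟨a, b, c, d, u, v, h, rfl⟩ := exists_mkq M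
  by_cases h0 : c = 0
  · subst h0
    have ha : a ≠ 0 := by
      rintro rfl
      simp at h
    have := map_mul χ (mkq 1 0 1 1 0 0 (by simp)) (mkq a b 0 d u v h)
    rw [hL, mkq_mul, hc _ _ _ _ _ _ _ (by simpa using ha)] at this
    exact (this.trans (one_mul _)).symm
  · exact hc _ _ _ _ _ _ _ h0

/-- the action on the affine plane -/
def act (p : ℕ) [Fact p.Prime] : Cfsg.qd p →* Equiv.Perm {v : Fin 3 → ZMod p // v 2 = 1} :=
  MonoidHom.toHomPerm
    { toFun := fun M v => ⟨M.1.1 *ᵥ v.1, by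
        obtain ⟨h0, h1, h2⟩ := mem_qd.1 M.2
        simp [Matrix.mulVec, dotProduct, Fin.sum_univ_three, h0, h1, h2, v.2]⟩
      map_one' := by
        funext v
        apply Subtype.ext
        exact Matrix.one_mulVec v.1
      map_mul' := fun M N => by
        funext v
        apply Subtype.ext
        exact (Matrix.mulVec_mulVec v.1 M.1.1 N.1.1).symm }

theorem act_injective : Function.Injective (act p) := by
  rw [injective_iff_map_eq_one]
  intro M hM
  obtain ⟨a, b, c, d, u, v, h, rfl⟩ := exists_mkq M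
  have key : ∀ x y : ZMod p, a * x + b * y + u = x ∧ c * x + d * y + v = y := by
    intro x y
    have : (!![a, b, u; c, d, v; 0, 0, 1] : Matrix (Fin 3) (Fin 3) (ZMod p)) *ᵥ ![x, y, 1] =
        ![x, y, 1] := by
      have h3 := congrArg Subtype.val (DFunLike.congr_fun hM ⟨![x, y, 1], rfl⟩)
      exact h3
    have h0 := congrFun this 0
    have h1 := congrFun this 1
    simp [Matrix.mulVec, dotProduct, Fin.sum_univ_three] at h0 h1
    exact ⟨h0, h1⟩
  rw [← mkq_one, mkq_ext]
  obtain ⟨e1, e2⟩ := key 0 0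
  obtain ⟨e3, e4⟩ := key 1 0
  obtain ⟨e5, e6⟩ := key 0 1
  refine ⟨?_, ?_, ?_, ?_, ?_, ?_⟩
  · linear_combination e3 - e1
  · linear_combination e5 - e1
  · linear_combination e4 - e2
  · linear_combination e6 - e2
  · linear_combination e1
  · linear_combination e2

theorem card_plane : Nat.card {v : Fin 3 → ZMod p // v 2 = 1} = p ^ 2 := by
  have e : {v : Fin 3 → ZMod p // v 2 = 1} ≃ ZMod p × ZMod p :=
    { toFun := fun v => (v.1 0, v.1 1)
      invFun := fun x => ⟨![x.1, x.2, 1], rfl⟩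
      left_inv := fun v => by
        apply Subtype.ext
        funext i
        fin_cases i <;> simp [v.2]
      right_inv := fun x => rfl }
  rw [Nat.card_congr e, Nat.card_prod, Nat.card_zmod, pow_two]

/-- the unitriangular subgroup -/
def heis (p : ℕ) [Fact p.Prime] : Subgroup (Cfsg.qd p) where
  carrier := {M | ∃ b u v, M = mkq 1 b 0 1 u v (by simp)}
  one_mem' := ⟨0, 0, 0, mkq_one.symm⟩
  mul_mem' := by
    rintro _ _ ⟨b, u, v, rfl⟩ ⟨b', u', v', rfl⟩
    refine ⟨b' + b, u' + b * v' + u, v' + v, ?_⟩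
    rw [mkq_mul, mkq_ext]
    refine ⟨by ring, by ring, by ring, by ring, by ring, by ring⟩
  inv_mem' := by
    rintro _ ⟨b, u, v, rfl⟩
    refine ⟨-b, b * v - u, -v, ?_⟩
    rw [inv_eq_iff_mul_eq_one, mkq_mul, ← mkq_one, mkq_ext]
    refine ⟨by ring, by ring, by ring, by ring, by ring, by ring⟩

theorem heis_pow (b u v : ZMod p) (k : ℕ) : ∃ u', mkq 1 b 0 1 u v (by simp) ^ k =
    mkq 1 ((k : ZMod p) * b) 0 1 u' ((k : ZMod p) * v) (by simp) ∧ (b = 0 → u' = k * u) := by
  induction k with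
  | zero => exact ⟨0, by rw [pow_zero, ← mkq_one, mkq_ext]; simp, by simp⟩
  | succ k ih =>
    obtain ⟨u', h, h'⟩ := ih
    refine ⟨u + k * b * v + u', ?_, fun hb => by rw [h' hb, hb]; push_cast; ring⟩
    rw [pow_succ, h, mkq_mul, mkq_ext]
    push_cast
    refine ⟨by ring, by ring, by ring, by ring, by ring, by ring⟩

theorem isPGroup_heis : IsPGroup p (heis p) := by
  rintro ⟨_, b, u, v, rfl⟩
  refine ⟨2, Subtype.ext ?_⟩
  obtain ⟨u', h, -⟩ := heis_pow b u v p
  obtain ⟨u'', h', h''⟩ := heis_pow ((p : ZMod p) * b) u' ((p : ZMod p) * v) p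
  change mkq 1 b 0 1 u v (by simp) ^ p ^ 2 = 1
  rw [pow_two, pow_mul, h, h', ← mkq_one, mkq_ext, h'' (by simp)]
  simp

theorem not_comm_heis : ¬ IsMulCommutative (heis p) := by
  intro h
  have := congrArg Subtype.val (h.is_comm.comm ⟨_, 1, 0, 0, rfl⟩ ⟨_, 0, 0, 1, rfl⟩)
  simp only [coe_mul] at this
  rw [mkq_mul, mkq_mul, mkq_ext] at this
  simp at this

theorem comm_of_perm {n : ℕ} (hn : n < p ^ 2) {P : Type*} [Group P] [Finite P] (hP : IsPGroup p P)
    (f : P →* Equiv.Perm (Fin n)) (hf : Function.Injective f) : IsMulCommutative P := by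
  have hp : p.Prime := Fact.out
  refine ⟨⟨fun a b => ?_⟩⟩
  rw [← commutatorElement_eq_one_iff_mul_comm]
  apply hf
  rw [map_one]
  ext x
  let S := (MulAction.stabilizer (Equiv.Perm (Fin n)) x).comap f
  let _ : MulAction P (Fin n) := MulAction.compHom (Fin n) f
  have hS : (MulAction.stabilizer P x).index < p ^ 2 := by
    rw [MulAction.index_stabilizer]
    refine lt_of_le_of_lt ?_ hn
    simpa using Set.ncard_le_card (MulAction.orbit P x)
  obtain ⟨k, hk⟩ := hP.index (MulAction.stabilizer P x)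
  rw [hk, Nat.pow_lt_pow_iff_right hp.one_lt] at hS
  have hmem : ⁅a, b⁆ ∈ MulAction.stabilizer P x := by
    rcases k with _ | k
    · rw [pow_zero, index_eq_one] at hk
      rw [hk]; trivial
    · obtain rfl : k = 0 := by omega
      rw [zero_add, pow_one] at hk
      have := H3.normal_of_index_eq_prime hP hk
      exact H3.commutator_le_of_index_prime (hk ▸ hp)
        (commutator_mem_commutator (mem_top a) (mem_top b))
  exact congrArg Fin.val hmem

theorem not_surj {n : ℕ} (hn : n < p ^ 2) {K : Type*} [Group K] [Finite K]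
    (f : K →* Equiv.Perm (Fin n)) (hf : Function.Injective f) (g : K →* Cfsg.qd p)
    (hg : Function.Surjective g) : False := by
  obtain ⟨S, hS⟩ := (isPGroup_heis (p := p)).exists_le_sylow
  obtain ⟨P, rfl⟩ := Sylow.mapSurjective_surjective hg p S
  have := comm_of_perm hn P.isPGroup' (f.comp (P : Subgroup K).subtype)
    (hf.comp (subtype_injective _))
  apply not_comm_heis (p := p)
  refine ⟨⟨fun a b => Subtype.ext ?_⟩⟩
  obtain ⟨x, hx, hxa⟩ := hS a.2
  obtain ⟨y, hy, hyb⟩ := hS b.2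
  have e := congrArg (fun z : (P : Subgroup K) => g z) (this.is_comm.comm ⟨x, hx⟩ ⟨y, hy⟩)
  simpa [hxa, hyb] using e

end

/-- Let p be an odd prime and n a natural number. The alternating group of degree n has a subgroup isomorphic to Qd(p) (the natural semidirect product of an elementary abelian group of order p² by SL₂(p)) if and only if n ≥ p²; and if n < p² then Qd(p) is not even involved in it. -/
theorem result {p : ℕ} [Fact p.Prime] (hp : p ≠ 2) (n : ℕ) : ((∃ H : Subgroup (alternatingGroup (Fin n)), Nonempty (↥H ≃* ↥(Cfsg.qd p))) ↔ p ^ 2 ≤ n) ∧ (n < p ^ 2 → ¬ Cfsg.Involves ↥(Cfsg.qd p) ↥(alternatingGroup (Fin n))) := by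
  refine ⟨⟨?_, fun hn => ?_⟩, ?_⟩
  · rintro ⟨H, ⟨e⟩⟩
    by_contra hn
    exact not_surj (not_le.1 hn) ((alternatingGroup (Fin n)).subtype.comp H.subtype)
      ((subtype_injective _).comp (subtype_injective _)) e.toMonoidHom e.surjective
  · obtain ⟨ι⟩ : Nonempty ({v : Fin 3 → ZMod p // v 2 = 1} ↪ Fin n) := by
      have := Fintype.ofFinite {v : Fin 3 → ZMod p // v 2 = 1}
      apply Function.Embedding.nonempty_of_card_le
      rw [← Nat.card_eq_fintype_card, card_plane, Fintype.card_fin]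
      exact hn
    let ψ := (Equiv.Perm.viaEmbeddingHom ι).comp (act p)
    have hψ : Function.Injective ψ := (Equiv.Perm.viaEmbeddingHom_injective ι).comp act_injective
    let φ := ψ.codRestrict (alternatingGroup (Fin n)) fun M =>
      Equiv.Perm.mem_alternatingGroup.2 (hom_eq_one hp (Equiv.Perm.sign.comp ψ) M)
    have hφ : Function.Injective φ := (MonoidHom.injective_codRestrict _ _ _).2 hψ
    exact ⟨φ.range, ⟨(MonoidHom.ofInjective hφ).symm⟩⟩
  · rintro hn ⟨K, R, hR, ⟨e⟩⟩
    exact not_surj hn ((alternatingGroup (Fin n)).subtype.comp K.subtype)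
      ((subtype_injective _).comp (subtype_injective _))
      (e.toMonoidHom.comp (QuotientGroup.mk' _)) (e.surjective.comp (QuotientGroup.mk'_surjective _))

end Cfsg.Agent.S3835
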