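import Cfsg.Statements.S3836
import Cfsg.Agent.L.Cores

set_option autoImplicit false
open Cfsg

namespace Cfsg.Agent.S3836

open Subgroup

/-- Let G be a finite group that is p-stable in the normalizer form: for every p-subgroup Q and every x ∈ N_G(Q) with [Q, x, x] = 1, the image of x in N_G(Q)/C_G(Q) lies in O_p(N_G(Q)/C_G(Q)). Then every subgroup of G is p-stable in the same sense. -/
theorem result {G : Type*} [Group G] [Finite G] {p : ℕ} [Fact p.Prime] (hst : Cfsg.IsNormalizerPStable p G) (H : Subgroup G) : Cfsg.IsNormalizerPStable p ↥H := by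
  intro P hP g hg hc
  have hp : p.Prime := Fact.out
  let P' : Subgroup G := P.map H.subtype
  have hP' : IsPGroup p P' := hP.map _
  have hmapN : ∀ x : H, x ∈ normalizer (P : Set H) → (x : G) ∈ normalizer (P' : Set G) := by
    intro x hx
    exact Subgroup.le_normalizer_map H.subtype (mem_map_of_mem _ hx)
  have hc' : ⁅⁅P', zpowers (g : G)⁆, zpowers (g : G)⁆ = ⊥ := by
    have := congrArg (Subgroup.map H.subtype) hc
    rw [map_commutator, map_commutator, Subgroup.map_bot, MonoidHom.map_zpowers] at this
    exact this
  have h1 := hst P' hP' g (hmapN g hg) hc'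
  let f : normalizer (P : Set H) →* normalizer (P' : Set G) :=
    { toFun := fun x => ⟨(x : H), hmapN _ x.2⟩
      map_one' := rfl
      map_mul' := fun _ _ => rfl }
  have hker : ∀ x, f x ∈ (centralizer (P' : Set G)).subgroupOf (normalizer (P' : Set G)) ↔
      x ∈ (centralizer (P : Set H)).subgroupOf (normalizer (P : Set H)) := by
    intro x
    rw [mem_subgroupOf, mem_subgroupOf, mem_centralizer_iff, mem_centralizer_iff]
    constructor
    · intro h y hy
      exact Subtype.ext (h y (mem_map_of_mem _ hy))
    · rintro h _ ⟨y, hy, rfl⟩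
      exact congrArg Subtype.val (h y hy)
  let F := QuotientGroup.map ((centralizer (P : Set H)).subgroupOf (normalizer (P : Set H)))
    ((centralizer (P' : Set G)).subgroupOf (normalizer (P' : Set G))) f
    (fun x hx => (hker x).2 hx)
  have hF : Function.Injective F := by
    rw [injective_iff_map_eq_one]
    intro x hx
    induction x using QuotientGroup.induction_on with
    | H x =>
      rw [QuotientGroup.eq_one_iff]
      exact (hker x).1 ((QuotientGroup.eq_one_iff _).1 hx)
  have hle : (Cfsg.pCore p _).comap F ≤ Cfsg.pCore p _ :=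
    L.le_pCore inferInstance ((L.isPGroup_pCore p).comap_of_injective F hF)
  exact hle h1

end Cfsg.Agent.S3836
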