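import Cfsg.Statements.S3838
import Cfsg.Agent.H8.Tate

set_option autoImplicit false
open Cfsg

namespace Cfsg.Agent.S3838

/-- Let G be a finite group with Sylow p-subgroup P such that N_G(P) has a normal p-complement. Then N_G(Q) has a normal p-complement for every subgroup Q with [P, P] ≤ Q ≤ Φ(P). -/
theorem result {G : Type*} [Group G] [Finite G] {p : ℕ} [Fact p.Prime] (P : Sylow p G) (hN : Cfsg.HasNormalPComplement p ↥(Subgroup.normalizer ((P : Subgroup G) : Set G))) (Q : Subgroup G) (h1 : (commutator ↥(P : Subgroup G)).map (P : Subgroup G).subtype ≤ Q) (h2 : Q ≤ (frattini ↥(P : Subgroup G)).map (P : Subgroup G).subtype) : Cfsg.HasNormalPComplement p ↥(Subgroup.normalizer (Q : Set G)) := by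
  set N := Subgroup.normalizer (Q : Set G) with hNdef
  have hQP : Q ≤ P := h2.trans (Subgroup.map_subtype_le _)
  have hPN : (P : Subgroup G) ≤ N := by
    rw [Subgroup.le_normalizer_iff_commutator_le_right]
    rw [Subgroup.map_subtype_commutator] at h1
    exact (Subgroup.commutator_mono le_rfl hQP).trans h1
  let S : Sylow p N := P.subtype hPN
  let e : (S : Subgroup N) ≃* (P : Subgroup G) := Subgroup.subgroupOfEquivOfLe hPN
  have hs := QuotientGroup.mk'_surjective (Q.subgroupOf N)
  apply H8.hasNPC_of_quotient_of_le_frattini S (Q.subgroupOf N)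
  · apply H8.hasNPC_of_normalizer_le_centralizer (S.mapSurjective hs)
    have hker : (QuotientGroup.mk' (Q.subgroupOf N)).ker ≤ S := by
      rw [QuotientGroup.ker_mk']
      exact fun x hx => hQP hx
    intro x hx
    obtain ⟨x, rfl⟩ := hs x
    have h3 : x ∈ Subgroup.normalizer ((S : Subgroup N) : Set N) := by
      have h4 : (((S : Subgroup N).map (QuotientGroup.mk' (Q.subgroupOf N))).comap
        (QuotientGroup.mk' (Q.subgroupOf N))) = S := by
        rw [Subgroup.comap_map_eq, sup_eq_left.2 hker]
      rw [← h4, ← Subgroup.comap_normalizer_eq_of_surjective _ hs]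
      exact hx
    have h4 : (x : G) ∈ Subgroup.normalizer ((P : Subgroup G) : Set G) := by
      have : x ∈ (Subgroup.normalizer ((P : Subgroup G) : Set G)).subgroupOf N := by
        rw [Subgroup.subgroupOf_normalizer_eq hPN]; exact h3
      exact this
    obtain ⟨u, hu, c, hc, he⟩ := H8.exists_mul_pResidualOf (p := p) (A := (P : Subgroup G))
      (fun hd => P.not_dvd_index
        (hd.trans (Subgroup.relIndex_dvd_index_of_le Subgroup.le_normalizer))) h4
    have hc2 : c ∈ Subgroup.centralizer ((P : Subgroup G) : Set G) := by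
      refine (show pResidualOf p _ ≤ _ from ?_) hc
      rw [H8.pResidualOf_eq_closure, Subgroup.closure_le]
      exact fun g hg => H8.mem_centralizer_of_hasNPC_subgroup hN P.isPGroup'
        Subgroup.le_normalizer hg.1 hg.1 hg.2
    rintro _ ⟨y, hy, rfl⟩
    rw [← map_mul, ← map_mul, QuotientGroup.mk'_apply, QuotientGroup.mk'_apply, QuotientGroup.eq,
      Subgroup.mem_subgroupOf]
    apply h1
    rw [Subgroup.map_subtype_commutator]
    have hy' : (y : G) ∈ (P : Subgroup G) := hy
    have h5 := hc2 _ hy'
    have h6 := hc2 _ (mul_mem (mul_mem (mul_mem (inv_mem hu.1) (inv_mem hy')) hu.1) hy')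
    have h7 := Subgroup.commutator_mem_commutator (inv_mem hu.1) (inv_mem hy')
    convert h7 using 1
    rw [commutatorElement_def, inv_inv, inv_inv, Subgroup.coe_mul, Subgroup.coe_inv,
      Subgroup.coe_mul, Subgroup.coe_mul, he]
    calc ((y : G) * (u * c))⁻¹ * (u * c * y) = c⁻¹ * (u⁻¹ * (y : G)⁻¹ * u * (c * y)) := by group
      _ = c⁻¹ * (u⁻¹ * (y : G)⁻¹ * u * y * c) := by rw [← h5]; group
      _ = u⁻¹ * (y : G)⁻¹ * u * y := by rw [h6]; group
  · intro x hx
    obtain ⟨y, hy, he⟩ := h2 hx
    have h1 : e x ∈ frattini (P : Subgroup G) := by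
      rwa [show e x = y from Subtype.ext he.symm]
    have := frattini_le_comap_frattini_of_surjective (φ := e.symm.toMonoidHom) e.symm.surjective h1
    simpa using this

end Cfsg.Agent.S3838
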