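import Cfsg.Statements.S3839
import Cfsg.Agent.H8.Frobenius
import Cfsg.Agent.H1.Coprime

set_option autoImplicit false
open Cfsg

namespace Cfsg.Agent.S3839

open Cfsg.Agent.H8 Subgroup in
theorem reduce {G : Type*} [Group G] [Finite G] {p : ℕ} [hp : Fact p.Prime] {N K T : Subgroup G}
    (hKN : K ≤ N) (hNK : N ≤ normalizer (K : Set G)) (hT : IsPGroup p T)
    (hTi : ¬ p ∣ (T ⊓ N).relIndex N) {g : G} (hg : g ∈ N) (hc : (orderOf g).Coprime p) :
    ∃ n ∈ N, n ∈ normalizer ((T ⊓ K : Subgroup G) : Set G) ∧ (orderOf n).Coprime p ∧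
      g * n⁻¹ ∈ K := by
  have hn : (K.subgroupOf N).Normal := (normal_subgroupOf_iff_le_normalizer hKN).2 hNK
  have h1 : ¬ p ∣ (T ⊓ K).relIndex K := by
    intro hd
    apply hTi
    rw [inf_relIndex_right] at hd ⊢
    rw [← relIndex_subgroupOf hKN] at hd
    exact hd.trans (relIndex_dvd_index_of_normal_right _ _)
  obtain ⟨k, hk, hkg⟩ := H1.frattini_argument inf_le_right (hT.to_le inf_le_left) h1 (hNK hg)
  obtain ⟨a, b, ha, hb, hab, hcomm, ⟨j, hj⟩, hbp⟩ := exists_pPart_pPrimePart hp.out (k * g)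
  have hkgN : k * g ∈ N := mul_mem (hKN hk) hg
  have hpow : ∀ i : ℕ, (k * g) ^ i * (g ^ i)⁻¹ ∈ K := by
    intro i
    induction i with
    | zero => simp
    | succ i ih =>
      have := mul_mem ((mem_normalizer_iff.1 (pow_mem (hNK hkgN) i) k).1 hk) ih
      have h2 := (mem_normalizer_iff.1 (hNK (pow_mem hg i)) _).1
        ((mem_normalizer_iff.1 (hNK hg) _).1 ((mem_normalizer_iff.1 (hNK (inv_mem hg)) _).1
          (one_mem K)))
      have e : (k * g) ^ (i + 1) * (g ^ (i + 1))⁻¹ =
          ((k * g) ^ i * k * ((k * g) ^ i)⁻¹) * ((k * g) ^ i * (g ^ i)⁻¹) *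
            (g ^ i * (g * (g⁻¹ * 1 * g⁻¹⁻¹) * g⁻¹) * (g ^ i)⁻¹) := by
        rw [pow_succ, pow_succ]; group
      rw [e]
      exact mul_mem this h2
  have hm : (k * g) ^ orderOf g ∈ K := by simpa using hpow (orderOf g)
  have haK : a ∈ K := by
    obtain ⟨i, rfl⟩ := mem_zpowers_iff.1 ha
    apply mem_of_pow_mem_of_coprime (n := orderOf g) (by rw [hj]; exact hc.symm.pow_left j)
    rw [← zpow_natCast, ← zpow_mul, mul_comm, zpow_mul, zpow_natCast]
    exact zpow_mem hm i
  refine ⟨b, (zpowers_le.2 hkgN) hb, (zpowers_le.2 hkg) hb, hbp, ?_⟩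
  have : g * b⁻¹ = k⁻¹ * a := by
    calc g * b⁻¹ = k⁻¹ * (k * g) * b⁻¹ := by group
      _ = k⁻¹ * a := by rw [hab]; group
  rw [this]
  exact mul_mem (inv_mem hk) haK

/-- the part of `X` fused into `D` -/
def dp {G : Type*} [Group G] (D X : Subgroup G) : Subgroup G :=
  Subgroup.closure {x | x ∈ X ∧ ∃ g : G, g * x * g⁻¹ ∈ D}

open scoped Pointwise in
open Cfsg.Agent.H8 Subgroup in
theorem dp_eq {G : Type*} [Group G] {p : ℕ} {S : Sylow p G} {D : Subgroup G}
    (hD : Cfsg.IsStronglyClosed D (S : Subgroup G)) {X : Subgroup G} {h : G}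
    (hX : MulAut.conj h • X ≤ S) : dp D X = X ⊓ MulAut.conj h⁻¹ • D := by
  rw [dp, ← closure_eq (X ⊓ MulAut.conj h⁻¹ • D)]
  congr 1
  ext x
  simp only [Set.mem_ofPred_eq, SetLike.mem_coe, mem_inf, mem_conj_smul_iff, inv_inv]
  refine and_congr_right fun hx => ⟨?_, fun h' => ⟨h, h'⟩⟩
  rintro ⟨g, hg⟩
  have e : h * x * h⁻¹ = (h * g⁻¹) * (g * x * g⁻¹) * (h * g⁻¹)⁻¹ := by group
  have := hD.2 _ hg (h * g⁻¹) (by rw [← e]; exact conj_smul_le_iff.1 hX x hx)
  rwa [← e] at this

open scoped Pointwise in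
open Cfsg.Agent.H8 Subgroup in
theorem exists_conj_le {G : Type*} [Group G] [Finite G] {p : ℕ} [Fact p.Prime] (S : Sylow p G)
    {X : Subgroup G} (hX : IsPGroup p X) : ∃ h : G, MulAut.conj h • X ≤ S := by
  obtain ⟨h, -, hh⟩ := exists_conj_le_of_not_dvd_relIndex (K := ⊤) S.isPGroup' hX le_top
    (by rw [relIndex_top_right]; exact S.not_dvd_index)
  exact ⟨h, hh⟩

open scoped Pointwise in
open Cfsg.Agent.H8 Subgroup in
theorem mem_dp {G : Type*} [Group G] [Finite G] {p : ℕ} [Fact p.Prime] {S : Sylow p G}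
    {D : Subgroup G} (hD : Cfsg.IsStronglyClosed D (S : Subgroup G)) {X : Subgroup G}
    (hX : IsPGroup p X) {x : G} : x ∈ dp D X ↔ x ∈ X ∧ ∃ g : G, g * x * g⁻¹ ∈ D := by
  refine ⟨fun hx => ?_, fun h => subset_closure h⟩
  obtain ⟨h, hh⟩ := exists_conj_le S hX
  rw [dp_eq hD hh] at hx
  exact ⟨hx.1, h, by simpa using mem_conj_smul_iff.1 hx.2⟩

open scoped Pointwise in
open Cfsg.Agent.H8 Subgroup in
theorem normalizer_le_dp {G : Type*} [Group G] [Finite G] {p : ℕ} [Fact p.Prime] {S : Sylow p G}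
    {D : Subgroup G} (hD : Cfsg.IsStronglyClosed D (S : Subgroup G)) {X : Subgroup G}
    (hX : IsPGroup p X) : normalizer (X : Set G) ≤ normalizer (dp D X : Set G) := by
  intro n hn
  rw [mem_normalizer_iff] at hn ⊢
  intro x
  rw [mem_dp hD hX, mem_dp hD hX, hn x]
  refine and_congr_right fun _ => ⟨?_, ?_⟩
  · rintro ⟨g, hg⟩
    exact ⟨g * n⁻¹, by simpa [mul_assoc] using hg⟩
  · rintro ⟨g, hg⟩
    exact ⟨g * n, by simpa [mul_assoc] using hg⟩

open scoped Pointwise in
open Cfsg.Agent.H8 Subgroup in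
theorem transport {G : Type*} [Group G] [Finite G] {p : ℕ} [Fact p.Prime] {S : Sylow p G}
    {D : Subgroup G} (hD : Cfsg.IsStronglyClosed D (S : Subgroup G))
    (H : ∀ U : Subgroup G, U ≤ D → D ⊓ Subgroup.centralizer (U : Set G) ≤ U →
      Cfsg.HasNormalPComplement p ↥(Subgroup.normalizer (U : Set G)))
    (T : Sylow p G) {U : Subgroup G} (hU : U ≤ dp D T)
    (hC : dp D T ⊓ centralizer (U : Set G) ≤ U) :
    Cfsg.HasNormalPComplement p ↥(Subgroup.normalizer (U : Set G)) := by
  obtain ⟨h, hh⟩ := MulAction.exists_smul_eq G T S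
  have h1 : MulAut.conj h • (T : Subgroup G) = S := by rw [← Sylow.coe_subgroup_smul, hh]
  have h2 : MulAut.conj h • dp D T = D := by
    rw [dp_eq hD h1.le, smul_inf, h1, conj_smul_conj_smul, mul_inv_cancel, conj_one_smul]
    exact inf_eq_right.2 hD.1
  have h3 := H (MulAut.conj h • U) (h2 ▸ pointwise_smul_le_pointwise_smul_iff.2 hU) (by
    rw [centralizer_conj_smul, ← h2, ← smul_inf]
    exact pointwise_smul_le_pointwise_smul_iff.2 hC)
  rw [normalizer_conj_smul] at h3
  exact hasNPC_of_mulEquiv h3 (equivSMul (MulAut.conj h) _).symm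

/-- A Frobenius normal p-complement criterion relative to a strongly closed subgroup. Let G be a finite group, S a Sylow p-subgroup and D a subgroup of S strongly closed in S with respect to G. Then G has a normal p-complement if and only if N_G(U) has a normal p-complement for every subgroup U of D with C_D(U) ≤ U. -/
theorem result {G : Type*} [Group G] [Finite G] {p : ℕ} [Fact p.Prime] (S : Sylow p G) (D : Subgroup G) (hD : Cfsg.IsStronglyClosed D (S : Subgroup G)) : Cfsg.HasNormalPComplement p G ↔ ∀ U : Subgroup G, U ≤ D → D ⊓ Subgroup.centralizer (U : Set G) ≤ U → Cfsg.HasNormalPComplement p ↥(Subgroup.normalizer (U : Set G)) := by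
  refine ⟨fun h U _ _ => H8.hasNPC_subgroup h _, fun H => ?_⟩
  have key : ∀ m : ℕ, ∀ X : Subgroup G, IsPGroup p X → Nat.card G - Nat.card (dp D X) = m →
      ∀ g ∈ Subgroup.normalizer (X : Set G), (orderOf g).Coprime p →
        g ∈ Subgroup.centralizer (X : Set G) := by
    intro m
    induction m using Nat.strong_induction_on with
    | _ m ih =>
    intro X hX hm g hg hc
    have ih' : ∀ Y : Subgroup G, IsPGroup p Y → dp D X < dp D Y →
        ∀ g ∈ Subgroup.normalizer (Y : Set G), (orderOf g).Coprime p →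
          g ∈ Subgroup.centralizer (Y : Set G) := by
      intro Y hY hlt
      refine ih _ ?_ Y hY rfl
      have h1 := H8.card_lt_of_lt hlt
      have h2 := Subgroup.card_le_card_group (dp D Y)
      omega
    have hUX : dp D X ≤ X := fun x hx => ((mem_dp hD hX).1 hx).1
    have hXN : X ≤ Subgroup.normalizer (dp D X : Set G) :=
      Subgroup.le_normalizer.trans (normalizer_le_dp hD hX)
    have hgN := normalizer_le_dp hD hX hg
    by_cases hN : Cfsg.HasNormalPComplement p ↥(Subgroup.normalizer (dp D X : Set G))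
    · exact H8.mem_centralizer_of_hasNPC_subgroup hN hX hXN hgN hg hc
    have hmono : ∀ {A B : Subgroup G}, A ≤ B → dp D A ≤ dp D B := fun hAB =>
      Subgroup.closure_mono fun x hx => ⟨hAB hx.1, hx.2⟩
    -- step B
    have hB : g ∈ Subgroup.centralizer (dp D X : Set G) := by
      obtain ⟨T, hXT, hT⟩ := H8.exists_sylow_inf_sylow hX hXN
      have h1 : ¬ dp D T ⊓ Subgroup.centralizer (dp D X : Set G) ≤ dp D X := fun h =>
        hN (transport hD H T (hmono hXT) h)
      obtain ⟨n, hnN, hn, hnc, hgn⟩ := reduce (K := Subgroup.centralizer (dp D X : Set G))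
        (Subgroup.centralizer_le_normalizer _) (H1.normalizer_le_normalizer_centralizer _)
        T.isPGroup' hT hgN hc
      have hY : IsPGroup p (dp D X ⊔ (T : Subgroup G) ⊓ Subgroup.centralizer (dp D X : Set G) :
          Subgroup G) := T.isPGroup'.to_le (sup_le (hUX.trans hXT) inf_le_left)
      have h2 := ih' _ hY (by
        refine lt_of_le_of_ne (fun x hx => (mem_dp hD hY).2
          ⟨Subgroup.mem_sup_left hx, ((mem_dp hD hX).1 hx).2⟩) fun he => h1 fun x hx => ?_
        rw [he]
        have := (mem_dp hD T.isPGroup').1 hx.1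
        exact (mem_dp hD hY).2 ⟨Subgroup.mem_sup_right ⟨this.1, hx.2⟩, this.2⟩) n
        (Subgroup.normalizer_inf_normalizer_le_normalizer_sup _ _ ⟨hnN, hn⟩) hnc
      have h3 := mul_mem hgn (Subgroup.centralizer_le (SetLike.coe_subset_coe.2 le_sup_left) h2)
      simpa using h3
    -- step A
    have hA : g ∈ H1.commStab X (dp D X) := by
      obtain ⟨T, hXT, hT⟩ := H8.exists_sylow_inf_sylow hX Subgroup.le_normalizer
      have hTU : ∀ x ∈ dp D T, x ∈ X → x ∈ dp D X := fun x hx hx' =>
        (mem_dp hD hX).2 ⟨hx', ((mem_dp hD T.isPGroup').1 hx).2⟩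
      have hdT : dp D T ≤ T := fun x hx => ((mem_dp hD T.isPGroup').1 hx).1
      have h1 : ¬ dp D T ⊓ Subgroup.normalizer (X : Set G) ≤ X := by
        intro h
        apply hN
        refine transport hD H T (hmono hXT) (inf_le_left.trans fun x hx => hTU x hx ?_)
        by_contra hxX
        have h2 : X < X ⊔ dp D T := lt_of_le_of_ne le_sup_left fun he =>
          hxX (he ▸ Subgroup.mem_sup_right hx)
        have h3 := H8.lt_inf_normalizer_of_isPGroup (T.isPGroup'.to_le (sup_le hXT hdT)) h2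
        obtain ⟨y, hy0, hy3⟩ := SetLike.exists_of_lt h3
        obtain ⟨hy1, hy2⟩ := Subgroup.mem_inf.1 hy0
        have h4 : X ≤ Subgroup.normalizer (dp D T : Set G) :=
          hXT.trans (Subgroup.le_normalizer.trans (normalizer_le_dp hD T.isPGroup'))
        rw [← SetLike.mem_coe, Subgroup.coe_mul_of_left_le_normalizer_right _ _ h4] at hy1
        obtain ⟨a, ha, b, hb, rfl⟩ := hy1
        have h5 : b ∈ Subgroup.normalizer (X : Set G) := by
          have := mul_mem (inv_mem (Subgroup.le_normalizer ha)) hy2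
          simpa using this
        exact hy3 (mul_mem ha (h ⟨hb, h5⟩))
      have hK1 : Subgroup.normalizer (X : Set G) ⊓ H1.commStab X (dp D X) ≤
          Subgroup.normalizer (X : Set G) := inf_le_left
      have hK2 : Subgroup.normalizer (X : Set G) ≤ Subgroup.normalizer
          ((Subgroup.normalizer (X : Set G) ⊓ H1.commStab X (dp D X) : Subgroup G) : Set G) := by
        intro y hy
        apply Subgroup.mem_normalizer_fintype
        intro a ha
        obtain ⟨ha1, ha2⟩ := Subgroup.mem_inf.1 ha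
        obtain ⟨ha2, ha3⟩ := H1.mem_commStab.1 ha2
        have hy' := normalizer_le_dp hD hX hy
        refine Subgroup.mem_inf.2 ⟨mul_mem (mul_mem hy ha1) (inv_mem hy), H1.mem_commStab.2
          ⟨mul_mem (mul_mem hy' ha2) (inv_mem hy'), fun x hx => ?_⟩⟩
        have := (Subgroup.mem_normalizer_iff.1 hy' _).1 (ha3 _
          ((Subgroup.mem_normalizer_iff.1 (inv_mem hy) x).1 hx))
        convert this using 1
        simp only [commutatorElement_def]; group
      obtain ⟨n, hnN, hn, hnc, hgn⟩ := reduce hK1 hK2 T.isPGroup' hT hg hc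
      have hY : IsPGroup p (X ⊔ (T : Subgroup G) ⊓ (Subgroup.normalizer (X : Set G) ⊓
          H1.commStab X (dp D X)) : Subgroup G) := T.isPGroup'.to_le (sup_le hXT inf_le_left)
      have h2 := ih' _ hY (by
        refine lt_of_le_of_ne (hmono le_sup_left) fun he => h1 fun x hx => hUX ?_
        rw [he]
        have := (mem_dp hD T.isPGroup').1 hx.1
        refine (mem_dp hD hY).2 ⟨Subgroup.mem_sup_right ⟨this.1, hx.2,
          normalizer_le_dp hD hX hx.2, fun y hy => hTU _ ?_ ?_⟩, this.2⟩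
        · have := mul_mem ((Subgroup.mem_normalizer_iff.1 (normalizer_le_dp hD T.isPGroup'
            (Subgroup.le_normalizer (hXT hy))) x).1 hx.1) (inv_mem hx.1)
          simpa [commutatorElement_def] using this
        · have := mul_mem hy ((Subgroup.mem_normalizer_iff.1 hx.2 _).1 (inv_mem hy))
          simpa [commutatorElement_def, mul_assoc] using this) n
        (Subgroup.normalizer_inf_normalizer_le_normalizer_sup _ _ ⟨hnN, hn⟩) hnc
      have h3 : n ∈ H1.commStab X (dp D X) := by
        refine ⟨normalizer_le_dp hD hX hnN, fun y hy => ?_⟩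
        rw [commutatorElement_eq_one_iff_mul_comm.2 (h2 y (Subgroup.mem_sup_left hy))]
        exact one_mem _
      simpa using mul_mem hgn.2 h3
    obtain ⟨k, hk⟩ := IsPGroup.iff_card.1 hX
    have := H1.le_centralizer_of_commutator_le (A := Subgroup.zpowers g) (G := X) (H := dp D X)
      (by simpa using hg) (by rw [Nat.card_zpowers, hk]; exact hc.pow_right k)
      (H1.le_commStab_iff.1 (by simpa using hA)).2 (by simpa using hB)
    simpa using this
  exact H8.hasNPC_of_coprime_centralizes S fun X hX _ g hg hc =>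
    key _ X (S.isPGroup'.to_le hX) rfl g hg hc

end Cfsg.Agent.S3839
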