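import Cfsg.Statements.S3856
import Cfsg.Agent.P19.App
import Cfsg.Agent.P19.Main

set_option autoImplicit false
open Cfsg

namespace Cfsg.Agent.S3856

/-- Structure of finite groups with disconnected prime graph. The prime graph of a finite group G has the prime divisors of |G| as vertices, two distinct primes p, q being joined when G has an element of order pq. If G has even order and its prime graph is disconnected then, writing π₁ for the set of primes joined to 2 by a path: either G is a Frobenius group; or G is a 2-Frobenius group (there are normal subgroups H < K of G with K a Frobenius group with kernel H and G/H a Frobenius group with kernel K/H); or G has normal subgroups N ≤ M such that every prime divisor of |N| and of |G/M| lies in π₁ and M/N is a non-abelian simple group. -/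
theorem result {G : Type*} [Group G] [Finite G] (heven : Even (Nat.card G))
    (hdisc : (∃ A : Set ℕ, (∃ a ∈ A, a.Prime ∧ a ∣ Nat.card G) ∧ (∃ b ∉ A, b.Prime ∧ b ∣ Nat.card G) ∧
      ∀ a ∈ A, ∀ b ∉ A, a.Prime → b.Prime → a ∣ Nat.card G → b ∣ Nat.card G → ¬ ∃ g : G, orderOf g = a * b)) :
    (∃ C : Subgroup G, Cfsg.IsFrobeniusComplement C) ∨
    (∃ (H K : Subgroup G) (_ : H.Normal), K.Normal ∧ H < K ∧
      (∃ C : Subgroup ↥K, Cfsg.IsFrobeniusComplement C ∧ Cfsg.frobeniusKernel C = (H.subgroupOf K : Set ↥K)) ∧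
      (∃ C : Subgroup (G ⧸ H), Cfsg.IsFrobeniusComplement C ∧ Cfsg.frobeniusKernel C = (K.map (QuotientGroup.mk' H) : Set (G ⧸ H)))) ∨
    (∃ (N M : Subgroup G) (_ : N.Normal) (_ : M.Normal), N ≤ M ∧
      (∀ p : ℕ, p.Prime → p ∣ Nat.card ↥N → Relation.ReflTransGen (fun a b : ℕ => a.Prime ∧ b.Prime ∧ a ≠ b ∧ a ∣ Nat.card G ∧ b ∣ Nat.card G ∧ ∃ g : G, orderOf g = a * b) 2 p) ∧
      (∀ p : ℕ, p.Prime → p ∣ Nat.card (G ⧸ M) → Relation.ReflTransGen (fun a b : ℕ => a.Prime ∧ b.Prime ∧ a ≠ b ∧ a ∣ Nat.card G ∧ b ∣ Nat.card G ∧ ∃ g : G, orderOf g = a * b) 2 p) ∧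
      IsSimpleGroup (↥M ⧸ N.subgroupOf M) ∧ ¬ IsMulCommutative (↥M ⧸ N.subgroupOf M)) :=
  P19.App.s3856 P19.cop heven hdisc

end Cfsg.Agent.S3856
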