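import Cfsg.Statements.S3857
import Cfsg.Agent.H9.TwoFrob

set_option autoImplicit false
open Cfsg

namespace Cfsg.Agent.S3857

/-- A finite solvable group whose prime graph (prime divisors of the order, two distinct primes joined when there is an element of order their product) is disconnected is a Frobenius group or a 2-Frobenius group (it has normal subgroups H < K with K a Frobenius group with kernel H and G/H a Frobenius group with kernel K/H). -/
theorem result {G : Type*} [Group G] [Finite G] (hsol : Group.IsSolvable G)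
    (hdisc : (∃ A : Set ℕ, (∃ a ∈ A, a.Prime ∧ a ∣ Nat.card G) ∧ (∃ b ∉ A, b.Prime ∧ b ∣ Nat.card G) ∧
      ∀ a ∈ A, ∀ b ∉ A, a.Prime → b.Prime → a ∣ Nat.card G → b ∣ Nat.card G → ¬ ∃ g : G, orderOf g = a * b)) :
    (∃ C : Subgroup G, Cfsg.IsFrobeniusComplement C) ∨
    (∃ (H K : Subgroup G) (_ : H.Normal), K.Normal ∧ H < K ∧
      (∃ C : Subgroup ↥K, Cfsg.IsFrobeniusComplement C ∧ Cfsg.frobeniusKernel C = (H.subgroupOf K : Set ↥K)) ∧
      (∃ C : Subgroup (G ⧸ H), Cfsg.IsFrobeniusComplement C ∧ Cfsg.frobeniusKernel C = (K.map (QuotientGroup.mk' H) : Set (G ⧸ H)))) := by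
  obtain ⟨A, ⟨a, ha, hap, had⟩, ⟨b, hb, hbp, hbd⟩, h⟩ := hdisc
  have hm : H9.NoMix A G := fun a ha b hb hap hbp ⟨g, hg⟩ =>
    h a ha b hb hap hbp ((dvd_mul_right a b).trans (hg ▸ orderOf_dvd_natCard g))
      ((dvd_mul_left b a).trans (hg ▸ orderOf_dvd_natCard g)) ⟨g, hg⟩
  have : Nontrivial G := Finite.one_lt_card_iff_nontrivial.1
    (hap.one_lt.trans_le (Nat.le_of_dvd Nat.card_pos had))
  have key : ∀ π : Set ℕ, H9.NoMix π G → piCore π G ≠ ⊥ → piCore π G ≠ ⊤ →
      (∃ C : Subgroup G, Cfsg.IsFrobeniusComplement C) ∨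
      (∃ (H K : Subgroup G) (_ : H.Normal), K.Normal ∧ H < K ∧
        (∃ C : Subgroup ↥K, Cfsg.IsFrobeniusComplement C ∧
          Cfsg.frobeniusKernel C = (H.subgroupOf K : Set ↥K)) ∧
        (∃ C : Subgroup (G ⧸ H), Cfsg.IsFrobeniusComplement C ∧
          Cfsg.frobeniusKernel C = (K.map (QuotientGroup.mk' H) : Set (G ⧸ H)))) := by
    intro π hπ h1 h2
    rcases hπ.frob_or_twoFrob h1 h2 with ⟨C, hC, -⟩ | ⟨K, hK, h3, h4, h5⟩
    · exact Or.inl ⟨C, hC⟩
    · exact Or.inr ⟨_, K, inferInstance, hK, h3, h4, h5⟩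
  rcases (L.piSep_of_isSolvable (G := G) A).piCore_ne_bot with h1 | h1
  · refine key A hm h1 fun e => hb (L.isPiSubgroup_piCore (G := G) A b hbp ?_)
    rwa [e, Subgroup.card_top]
  · refine key Aᶜ hm.compl h1 fun e => L.isPiSubgroup_piCore (G := G) Aᶜ a hap ?_ ha
    rwa [e, Subgroup.card_top]

end Cfsg.Agent.S3857
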