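import Cfsg.Statements.S3859
import Cfsg.Agent.H2.Subnormal
import Cfsg.Agent.H1.Basic
import Cfsg.Agent.H9.SylowNum
import Cfsg.Agent.H3.PBasic

set_option autoImplicit false
open Cfsg

namespace Cfsg.Agent.S3859

open Subgroup Cfsg.Agent.H2
open scoped Pointwise

theorem normalizer_ne_top {G : Type*} [Group G] [Finite G] (T : Subgroup G) [T.Normal]
    (hT : IsSimpleGroup T) (hna : ¬ IsMulCommutative T) {r : ℕ} [Fact r.Prime] (R : Sylow r G)
    (hR0 : (R : Subgroup G) ⊓ T ≠ ⊥) :
    normalizer (((R : Subgroup G) ⊓ T : Subgroup G) : Set G) ≠ ⊤ := by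
  intro h
  have hn : ((R : Subgroup G) ⊓ T).Normal := normalizer_eq_top_iff.1 h
  rcases (hn.subgroupOf T).eq_bot_or_eq_top with h1 | h1
  · rw [subgroupOf_eq_bot, disjoint_iff, inf_assoc, inf_idem] at h1
    exact hR0 h1
  · rw [subgroupOf_eq_top] at h1
    have hp : IsPGroup r T := R.isPGroup'.to_le (h1.trans inf_le_left)
    haveI := hp.isNilpotent
    exact hna ⟨⟨IsSimpleGroup.comm_iff_isSolvable.2 inferInstance⟩⟩

theorem sup_normalizer {G : Type*} [Group G] [Finite G] (T : Subgroup G) [T.Normal]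
    {r : ℕ} [Fact r.Prime] (R : Sylow r G) :
    T ⊔ normalizer (((R : Subgroup G) ⊓ T : Subgroup G) : Set G) = ⊤ := by
  rw [eq_top_iff]
  intro x _
  obtain ⟨g, hg, hgx⟩ := H1.frattini_argument (p := r) (G := T) (P := (R : Subgroup G) ⊓ T)
    inf_le_right (R.isPGroup'.to_le inf_le_left) (H9.not_dvd_relIndex_sylow_inf T R)
    (x := x) (by rw [normalizer_eq_top T]; trivial)
  have : x = g⁻¹ * (g * x) := by group
  rw [this]
  exact mul_mem_sup (inv_mem hg) hgx

theorem normalizer_le {G : Type*} [Group G] (T : Subgroup G) [T.Normal] (R : Subgroup G) :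
    normalizer (R : Set G) ≤ normalizer ((R ⊓ T : Subgroup G) : Set G) :=
  H1.le_normalizer_inf le_rfl (by rw [normalizer_eq_top T]; exact le_top)

/-- Let G be a finite group with a normal non-abelian simple subgroup T whose centralizer is trivial (G almost simple with socle T), r a prime and R a Sylow r-subgroup of G meeting T nontrivially. If R lies in exactly one maximal subgroup of G, then G/T is an r-group. -/
theorem result {G : Type*} [Group G] [Finite G] (T : Subgroup G) [T.Normal] (hT : IsSimpleGroup T) (hna : ¬ IsMulCommutative T)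
    (hC : Subgroup.centralizer (T : Set G) = ⊥) {r : ℕ} [Fact r.Prime] (R : Sylow r G) (hR0 : (R : Subgroup G) ⊓ T ≠ ⊥)
    (huniq : ∃! M : Subgroup G, IsCoatom M ∧ (R : Subgroup G) ≤ M) : IsPGroup r (G ⧸ T) := by
  obtain ⟨M, ⟨hM, hRM⟩, huniq⟩ := huniq
  have hle : ∀ K : Subgroup G, K ≠ ⊤ → (R : Subgroup G) ≤ K → K ≤ M := by
    intro K hK hRK
    obtain ⟨M', hM', hKM'⟩ := exists_coatom_ge hK
    rw [← huniq M' ⟨hM', hRK.trans hKM'⟩]
    exact hKM'
  have h1 := hle _ (normalizer_ne_top T hT hna R hR0) (le_normalizer.trans (normalizer_le T R))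
  have h2 : T ⊔ (R : Subgroup G) = ⊤ := by
    by_contra h
    have h3 := hle _ h le_sup_right
    have := sup_normalizer T R
    exact hM.1 (top_le_iff.1 (this ▸ sup_le (le_sup_left.trans h3) h1))
  have h4 : (R : Subgroup G).map (QuotientGroup.mk' T) = ⊤ := by
    have := congrArg (Subgroup.map (QuotientGroup.mk' T)) h2
    rwa [Subgroup.map_sup, (Subgroup.map_eq_bot_iff T).2 (by rw [QuotientGroup.ker_mk']),
      bot_sup_eq, map_top_of_surjective _ (QuotientGroup.mk'_surjective T)] at this
  have h5 := R.isPGroup'.map (QuotientGroup.mk' T)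
  rw [h4] at h5
  exact h5.of_equiv topEquiv

end Cfsg.Agent.S3859
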