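import Cfsg.Statements.S3858
import Cfsg.Agent.S3859
import Cfsg.Agent.H9.ClassSize

set_option autoImplicit false
open Cfsg

namespace Cfsg.Agent.S3858

open Subgroup Cfsg.Agent.H2
open scoped Pointwise

/-- Let G be a finite group with a normal non-abelian simple subgroup T whose centralizer is trivial (G almost simple with socle T), r a prime and R a Sylow r-subgroup of G meeting T nontrivially. Then R lies in exactly one maximal subgroup of G if and only if G has exactly one conjugacy class of maximal subgroups whose index is prime to r. -/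
theorem result {G : Type*} [Group G] [Finite G] (T : Subgroup G) [T.Normal] (hT : IsSimpleGroup T) (hna : ¬ IsMulCommutative T)
    (hC : Subgroup.centralizer (T : Set G) = ⊥) {r : ℕ} [Fact r.Prime] (R : Sylow r G) (hR0 : (R : Subgroup G) ⊓ T ≠ ⊥) :
    (∃! M : Subgroup G, IsCoatom M ∧ (R : Subgroup G) ≤ M) ↔
      ((∃ M : Subgroup G, IsCoatom M ∧ ¬ r ∣ M.index) ∧
        ∀ M₁ M₂ : Subgroup G, IsCoatom M₁ → ¬ r ∣ M₁.index → IsCoatom M₂ → ¬ r ∣ M₂.index → ∃ g : G, M₂ = M₁.map (MulAut.conj g).toMonoidHom) := by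
  have hnd : ∀ M : Subgroup G, (R : Subgroup G) ≤ M → ¬ r ∣ M.index := fun M h =>
    H9.not_dvd_index_iff_exists_sylow_le.2 ⟨R, h⟩
  constructor
  · rintro ⟨M, ⟨hM, hRM⟩, huniq⟩
    have key : ∀ M₁ : Subgroup G, IsCoatom M₁ → ¬ r ∣ M₁.index →
        ∃ g : G, MulAut.conj g • M₁ = M := by
      intro M₁ hM₁ hi
      obtain ⟨Q, hQ⟩ := H9.not_dvd_index_iff_exists_sylow_le.1 hi
      obtain ⟨g, hg⟩ := MulAction.exists_smul_eq G Q R
      refine ⟨g, huniq _ ⟨isCoatom_conj_smul hM₁ g, ?_⟩⟩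
      rw [← hg]
      exact conj_smul_mono g hQ
    refine ⟨⟨M, hM, hnd M hRM⟩, fun M₁ M₂ h₁ i₁ h₂ i₂ => ?_⟩
    obtain ⟨g, hg⟩ := key M₁ h₁ i₁
    obtain ⟨k, hk⟩ := key M₂ h₂ i₂
    refine ⟨k⁻¹ * g, ?_⟩
    rw [map_conj_eq_smul, conj_smul_mul, hg, ← hk, conj_smul_inv_cancel]
  · rintro ⟨-, hconj⟩
    obtain ⟨M, hM, hNM⟩ := exists_coatom_ge (S3859.normalizer_ne_top T hT hna R hR0)
    have hN : normalizer ((R : Subgroup G) : Set G) ≤ M := (S3859.normalizer_le T R).trans hNM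
    have hRM : (R : Subgroup G) ≤ M := le_normalizer.trans hN
    refine ⟨M, ⟨hM, hRM⟩, ?_⟩
    rintro M' ⟨hM', hRM'⟩
    obtain ⟨g, hg⟩ := hconj M M' hM (hnd M hRM) hM' (hnd M' hRM')
    rw [map_conj_eq_smul] at hg
    have h1 : MulAut.conj g⁻¹ • (R : Subgroup G) ≤ M := by
      rw [conj_smul_le_iff, inv_inv, ← hg]; exact hRM'
    obtain ⟨m, hm, hme⟩ := H1.exists_conj_le_sylow (p := r) (H := M) (P := R) R.isPGroup'
      (fun h => R.not_dvd_index (h.trans (relIndex_dvd_index_of_le hRM))) h1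
      (by rw [← map_conj_eq_smul]; exact R.isPGroup'.map _)
    rw [map_conj_eq_smul, ← conj_smul_mul] at hme
    have h2 : m * g⁻¹ ∈ M := hN (mem_normalizer_of_conj_smul_le hme)
    have h3 : g ∈ M := by
      have := mul_mem (inv_mem h2) hm
      simpa using this
    rw [hg]
    exact mem_normalizer_iff_conj_smul.1 (le_normalizer h3)

end Cfsg.Agent.S3858
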