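import Cfsg.Statements.S3862
import Cfsg.Agent.H8.Schmidt
import Cfsg.Agent.H1.Coprime

set_option autoImplicit false
open Cfsg

namespace Cfsg.Agent.S3862

open Subgroup
open scoped commutatorElement

/-- If every 2-element of the finite group G that is conjugate to its inverse lies in the centre of G, then G has a normal 2-complement. -/
theorem result {G : Type*} [Group G] [Finite G] (h : ∀ x : G, (∃ j : ℕ, orderOf x = 2 ^ j) → IsConj x x⁻¹ → x ∈ Subgroup.center G) : Cfsg.HasNormalPComplement 2 G := by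
  by_contra hn
  obtain ⟨H, P, g, q, k, -, hd⟩ := H8.exists_subgroup_itoData hn
  have key : ∀ x ∈ (P : Subgroup H), ⁅x, g⁆ ∈ center H := by
    intro x hx
    have hb : g * x⁻¹ * g⁻¹ ∈ (P : Subgroup H) := hd.normal.conj_mem _ (inv_mem hx) g
    have hy : x * (g * x⁻¹ * g⁻¹) ∈ (P : Subgroup H) := mul_mem hx hb
    have hx2 := mem_center_iff.1 (hd.pow_mem_center hx)
    have e : ⁅x, g⁆ = x * (g * x⁻¹ * g⁻¹) := by rw [commutatorElement_def]; group
    have hreal : x⁻¹ * ⁅x, g⁆ * x⁻¹⁻¹ = ⁅x, g⁆⁻¹ := by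
      have h1 : g⁻¹ * x ^ 2 = x ^ 2 * g⁻¹ := hx2 _
      calc x⁻¹ * ⁅x, g⁆ * x⁻¹⁻¹ = g * x⁻¹ * (g⁻¹ * x ^ 2) * x⁻¹ := by rw [e]; group
        _ = _ := by rw [h1, e]; group
    obtain ⟨j, hj⟩ := IsPGroup.iff_orderOf.1 P.isPGroup' ⟨_, hy⟩
    have hc := h (⁅x, g⁆ : H) ⟨j, by
      rw [← hj, ← Subgroup.orderOf_coe ⟨_, hy⟩, Subgroup.orderOf_coe, e]⟩
      (isConj_iff.2 ⟨(x⁻¹ : H), congrArg Subtype.val hreal⟩)
    rw [mem_center_iff] at hc ⊢
    intro y
    exact Subtype.ext (hc y)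
  have h1 : ⁅(P : Subgroup H), zpowers g⁆ ≤ center H :=
    H1.commutator_zpowers_le (by rw [normalizer_eq_top]; trivial) key
  rw [hd.commutator_eq] at h1
  exact hd.not_mem fun y hy => (mem_center_iff.1 (h1 hy) g).symm

end Cfsg.Agent.S3862
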