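import Cfsg.Statements.S3864
import Cfsg.Agent.H8.ThompsonTransfer

set_option autoImplicit false
open Cfsg

namespace Cfsg.Agent.S3864

open DihedralGroup Subgroup

/-- The characters of a dihedral group with values in `ZMod 2`. -/
def chi {m : ℕ} (h : 2 ∣ m) (ε δ : ZMod 2) : DihedralGroup m →* Multiplicative (ZMod 2) :=
  MonoidHom.mk' (fun d => match d with
    | r i => Multiplicative.ofAdd (ε * ZMod.castHom h (ZMod 2) i)
    | sr i => Multiplicative.ofAdd (ε * ZMod.castHom h (ZMod 2) i + δ)) (by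
      have key : ∀ x : ZMod 2, -x = x := by decide
      have key2 : ∀ x : ZMod 2, x + x = 0 := by decide
      rintro (i | i) (j | j)
      · simp only [r_mul_r, map_add, ← ofAdd_add]; congr 1; ring
      · simp only [r_mul_sr, map_sub, ← ofAdd_add]; congr 1
        rw [sub_eq_add_neg, key]; ring
      · simp only [sr_mul_r, map_add, ← ofAdd_add]; congr 1; ring
      · simp only [sr_mul_sr, map_sub, ← ofAdd_add]; congr 1
        rw [sub_eq_add_neg, key]
        linear_combination (-1 : ZMod 2) * key2 δ)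

theorem chi_r {m : ℕ} (h : 2 ∣ m) (ε δ : ZMod 2) (i : ZMod m) :
    chi h ε δ (r i) = Multiplicative.ofAdd (ε * ZMod.castHom h (ZMod 2) i) := rfl

theorem chi_sr {m : ℕ} (h : 2 ∣ m) (ε δ : ZMod 2) (i : ZMod m) :
    chi h ε δ (sr i) = Multiplicative.ofAdd (ε * ZMod.castHom h (ZMod 2) i + δ) := rfl

theorem isConj_sr {m : ℕ} [NeZero m] (h : 2 ∣ m) {i j : ZMod m}
    (hij : ZMod.castHom h (ZMod 2) i = ZMod.castHom h (ZMod 2) j) :
    IsConj (sr i : DihedralGroup m) (sr j) := by
  have h1 : ZMod.castHom h (ZMod 2) (i - j) = 0 := by rw [map_sub, hij, sub_self]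
  rw [← ZMod.natCast_zmod_val (i - j), map_natCast, ZMod.natCast_eq_zero_iff] at h1
  obtain ⟨k, hk⟩ := h1
  have h2 : i - j = 2 * (k : ZMod m) := by
    rw [← ZMod.natCast_zmod_val (i - j), hk]; push_cast; ring
  rw [isConj_iff]
  refine ⟨r k, ?_⟩
  rw [inv_r, r_mul_sr, sr_mul_r]
  congr 1
  linear_combination h2

theorem eq_of_orderOf_r {k : ℕ} [NeZero k] {i : ZMod (2 * k)}
    (hi : orderOf (r i : DihedralGroup (2 * k)) = 2) : i = (k : ZMod (2 * k)) := by
  have hk := NeZero.pos k
  have h1 : (r i : DihedralGroup (2 * k)) ^ 2 = 1 := (orderOf_eq_prime_iff.1 hi).1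
  have h2 : i ≠ 0 := by
    rintro rfl
    rw [r_zero, orderOf_one] at hi
    omega
  rw [sq, r_mul_r, one_def, r.injEq, ← ZMod.natCast_zmod_val i, ← Nat.cast_add,
    ZMod.natCast_eq_zero_iff] at h1
  have h3 := ZMod.val_lt i
  have h4 : i.val ≠ 0 := fun h => h2 ((ZMod.val_eq_zero i).1 h)
  obtain ⟨c, hc⟩ := h1
  have h5 : c = 1 := by
    rcases c with _ | _ | c
    · omega
    · rfl
    · nlinarith
  subst h5
  rw [← ZMod.natCast_zmod_val i]
  congr 1
  omega

theorem orderOf_z {k : ℕ} [NeZero k] :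
    orderOf (r (k : ZMod (2 * k)) : DihedralGroup (2 * k)) = 2 := by
  have hk := NeZero.pos k
  rw [orderOf_eq_prime_iff]
  constructor
  · rw [sq, r_mul_r, one_def, ← Nat.cast_add, r.injEq, ZMod.natCast_eq_zero_iff]
    exact ⟨1, by ring⟩
  · rw [one_def, Ne, r.injEq, ZMod.natCast_eq_zero_iff]
    intro h
    have := Nat.le_of_dvd hk h
    omega

section
variable {G : Type*} [Group G] [Finite G] (P : Sylow 2 G) {l : ℕ} [NeZero l]
  (φ : DihedralGroup (2 * (2 * l)) →* G) (hφ : Function.Injective φ)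
  (hP : φ.range = (P : Subgroup G))
include hφ hP

theorem exists_hom (χ : DihedralGroup (2 * (2 * l)) →* Multiplicative (ZMod 2))
    (hχ : ∃ d, χ d ≠ 1) :
    ∃ f : G →* ℤˣ, ∀ d, orderOf d = 2 →
      (∀ e, orderOf e = 2 → χ e = 1 → ¬ IsConj (φ d) (φ e)) → f (φ d) = -1 := by
  have h1 : χ.ker.index = 2 := by
    rw [index_ker]
    have : χ.range = ⊤ := by
      rw [eq_top_iff]
      intro u _
      obtain ⟨d, hd⟩ := hχ
      have key : ∀ u v : Multiplicative (ZMod 2), v ≠ 1 → u = 1 ∨ v = u := by decide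
      rcases key u _ hd with rfl | h
      · exact one_mem _
      · exact ⟨d, h⟩
    rw [this, card_top]
    simp
  have h2 : (χ.ker.map φ).index = 2 * (P : Subgroup G).index := by
    rw [index_map, (MonoidHom.ker_eq_bot_iff φ).2 hφ, sup_bot_eq, h1, hP]
  have h3 : Odd (P : Subgroup G).index := by
    rw [← Nat.not_even_iff_odd, even_iff_two_dvd]
    exact P.not_dvd_index
  obtain ⟨f, hf⟩ := H8.exists_hom_thompson_transfer _ h3 h2
  refine ⟨f, fun d hd hc => hf _ ?_ ?_⟩
  · rw [← map_pow, (orderOf_eq_prime_iff.1 hd).1, map_one]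
  · rintro g ⟨e, he, h⟩
    refine hc e ?_ he (isConj_iff.2 ⟨g, h.symm⟩)
    rw [← orderOf_injective φ hφ, h]
    exact ((MulAut.conj g).orderOf_eq _).trans ((orderOf_injective φ hφ d).trans hd)

theorem set_eq {a b : ZMod (2 * (2 * l))}
    (hab : ZMod.castHom (Dvd.intro _ rfl) (ZMod 2) a ≠ ZMod.castHom (Dvd.intro _ rfl) (ZMod 2) b) :
    {C : ConjClasses G | ∃ g : G, ConjClasses.mk g = C ∧ orderOf g = 2} =
      {ConjClasses.mk (φ (r ((2 * l : ℕ) : ZMod (2 * (2 * l))))), ConjClasses.mk (φ (sr a)),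
        ConjClasses.mk (φ (sr b))} := by
  ext C
  constructor
  · rintro ⟨t, rfl, ht⟩
    obtain ⟨g, hg⟩ := H8.exists_conj_le_sylow P
      (H8.isPGroup_zpowers_of_orderOf (p := 2) (k := 1) (g := t) (by simpa using ht))
    have h1 := hg t (mem_zpowers t)
    rw [← hP] at h1
    obtain ⟨d, hd⟩ := h1
    have h2 : orderOf d = 2 := by
      rw [← orderOf_injective φ hφ, hd, ← ht]
      exact (MulAut.conj g).orderOf_eq _
    have h3 : ConjClasses.mk t = ConjClasses.mk (φ d) :=
      ConjClasses.mk_eq_mk_iff_isConj.2 (isConj_iff.2 ⟨g, hd.symm⟩)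
    rw [h3]
    rcases d with i | i
    · rw [eq_of_orderOf_r h2]
      exact Or.inl rfl
    · have key : ∀ x y z : ZMod 2, x ≠ y → z = x ∨ z = y := by decide
      rcases key _ _ (ZMod.castHom (Dvd.intro _ rfl) (ZMod 2) i) hab with h | h
      · exact Or.inr (Or.inl (ConjClasses.mk_eq_mk_iff_isConj.2 (φ.map_isConj (isConj_sr _ h))))
      · exact Or.inr (Or.inr (ConjClasses.mk_eq_mk_iff_isConj.2 (φ.map_isConj (isConj_sr _ h))))
  · rintro (rfl | rfl | rfl)
    · exact ⟨_, rfl, by rw [orderOf_injective φ hφ, orderOf_z]⟩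
    · exact ⟨_, rfl, by rw [orderOf_injective φ hφ, orderOf_sr]⟩
    · exact ⟨_, rfl, by rw [orderOf_injective φ hφ, orderOf_sr]⟩

theorem caseC {a b : ZMod (2 * (2 * l))}
    (hab : ZMod.castHom (Dvd.intro _ rfl) (ZMod 2) a ≠ ZMod.castHom (Dvd.intro _ rfl) (ZMod 2) b)
    (h1 : IsConj (φ (r ((2 * l : ℕ) : ZMod (2 * (2 * l))))) (φ (sr a)))
    (h2 : ¬ IsConj (φ (r ((2 * l : ℕ) : ZMod (2 * (2 * l))))) (φ (sr b))) :
    Nat.card {C : ConjClasses G // ∃ g : G, ConjClasses.mk g = C ∧ orderOf g = 2} = 2 ∧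
      (∃ N : Subgroup G, N.Normal ∧ N.index = 2) ∧
      ∀ N : Subgroup G, N.Normal → N.index ≠ 4 := by
  refine ⟨?_, ?_, ?_⟩
  · change Nat.card {C : ConjClasses G | ∃ g : G, ConjClasses.mk g = C ∧ orderOf g = 2} = 2
    rw [set_eq P φ hφ hP hab, Nat.card_coe_set_eq, ← ConjClasses.mk_eq_mk_iff_isConj.2 h1,
      Set.insert_eq_of_mem (Set.mem_insert _ _)]
    exact Set.ncard_pair fun h => h2 (ConjClasses.mk_eq_mk_iff_isConj.1 h)
  · have key : ∀ x y : ZMod 2, Multiplicative.ofAdd (1 * x + y) = 1 ↔ x = y := by decide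
    obtain ⟨f, hf⟩ := exists_hom P φ hφ hP (chi (Dvd.intro _ rfl) 1
      (ZMod.castHom (Dvd.intro _ rfl) (ZMod 2) a)) ⟨sr b, by
        rw [chi_sr, Ne, key]; exact hab.symm⟩
    refine ⟨f.ker, inferInstance,
      H8.index_ker_eq_two_of_eq_neg_one f (hf (sr b) (orderOf_sr _) ?_)⟩
    rintro (i | i) he hχ hc
    · rw [eq_of_orderOf_r he] at hc
      exact h2 hc.symm
    · rw [chi_sr, key] at hχ
      exact h2 (h1.trans ((φ.map_isConj (isConj_sr _ hχ.symm)).trans hc.symm))
  · intro N hN h4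
    have hc : Nat.card (G ⧸ N) = 2 ^ 2 := h4
    have hcomm : ∀ x y : G ⧸ N, x * y = y * x :=
      (IsPGroup.isMulCommutative_of_card_eq_prime_sq hc).is_comm.comm
    let ψ := (QuotientGroup.mk' N).comp φ
    have hconj : ∀ x y : G ⧸ N, IsConj x y → x = y := by
      intro x y h
      obtain ⟨c, hc⟩ := isConj_iff.1 h
      rw [← hc, hcomm c x, mul_inv_cancel_right]
    have h5 : ψ (r (l : ZMod (2 * (2 * l))) * r (l : ZMod (2 * (2 * l)))) = 1 := by
      have : (r (l : ZMod (2 * (2 * l))) * r (l : ZMod (2 * (2 * l))) : DihedralGroup _) =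
          sr 0 * (r (-(l : ZMod (2 * (2 * l)))) * sr 0 * r (l : ZMod (2 * (2 * l)))) := by simp
      rw [this, map_mul, map_mul, map_mul, hcomm (ψ (r _)) (ψ (sr 0)), mul_assoc, ← map_mul,
        ← map_mul, ← map_mul]
      simp
    have h6 : ψ (sr a) = 1 := by
      rw [← h5, r_mul_r, ← Nat.cast_add, ← two_mul]
      exact (hconj _ _ ((QuotientGroup.mk' N).map_isConj h1)).symm
    have h7 : ∀ i, ψ (sr i) = 1 ∨ ψ (sr i) = ψ (sr b) := by
      intro i
      have key : ∀ x y z : ZMod 2, x ≠ y → z = x ∨ z = y := by decide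
      rcases key _ _ (ZMod.castHom (Dvd.intro _ rfl) (ZMod 2) i) hab with h | h
      · exact Or.inl ((hconj _ _ (ψ.map_isConj (isConj_sr _ h))).trans h6)
      · exact Or.inr (hconj _ _ (ψ.map_isConj (isConj_sr _ h)))
    have h8 : ∀ d, ψ d = 1 ∨ ψ d = ψ (sr b) := by
      rintro (i | i)
      · have : (r i : DihedralGroup _) = sr a * sr (a + i) := by simp
        rw [this, map_mul, h6, one_mul]
        exact h7 _
      · exact h7 i
    have h9 : (P : Subgroup G) ⊔ N = ⊤ := by
      rw [← index_eq_one]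
      have e1 : ((P : Subgroup G) ⊔ N).index ∣ 2 ^ 2 := by
        rw [show 2 ^ 2 = N.index from h4.symm]; exact index_dvd_of_le le_sup_right
      have e2 : ((P : Subgroup G) ⊔ N).index ∣ (P : Subgroup G).index := index_dvd_of_le le_sup_left
      exact Nat.eq_one_of_dvd_coprimes
        (((Nat.prime_two.coprime_iff_not_dvd).2 P.not_dvd_index).pow_left 2) e1 e2
    have h10 : (Set.univ : Set (G ⧸ N)) ⊆ {1, ψ (sr b)} := by
      intro x _
      obtain ⟨g, rfl⟩ := QuotientGroup.mk_surjective x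
      have : g ∈ (P : Subgroup G) ⊔ N := h9 ▸ mem_top g
      rw [← SetLike.mem_coe, mul_normal] at this
      obtain ⟨u, hu, n, hn, rfl⟩ := this
      rw [← hP] at hu
      obtain ⟨d, rfl⟩ := hu
      have : ((φ d * n : G) : G ⧸ N) = ψ d := by
        rw [QuotientGroup.mk_mul, (QuotientGroup.eq_one_iff n).2 hn, mul_one]; rfl
      simp only [this]
      exact h8 d
    have h11 := (Set.ncard_le_ncard h10).trans (Set.ncard_insert_le _ _)
    rw [Set.ncard_univ, hc, Set.ncard_singleton] at h11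
    omega

theorem main :
    (Nat.card {C : ConjClasses G // ∃ g : G, ConjClasses.mk g = C ∧ orderOf g = 2} = 1 ∧ ∀ N : Subgroup G, N.Normal → N.index ≠ 2) ∨ (Nat.card {C : ConjClasses G // ∃ g : G, ConjClasses.mk g = C ∧ orderOf g = 2} = 2 ∧ (∃ N : Subgroup G, N.Normal ∧ N.index = 2) ∧ ∀ N : Subgroup G, N.Normal → N.index ≠ 4) ∨ (Nat.card {C : ConjClasses G // ∃ g : G, ConjClasses.mk g = C ∧ orderOf g = 2} = 3 ∧ Cfsg.HasNormalPComplement 2 G) := by
  have hab : ZMod.castHom (Dvd.intro _ rfl) (ZMod 2) (0 : ZMod (2 * (2 * l))) ≠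
      ZMod.castHom (Dvd.intro _ rfl) (ZMod 2) (1 : ZMod (2 * (2 * l))) := by
    rw [map_zero, map_one]; decide
  have hsr : ∀ i : ZMod (2 * (2 * l)), IsConj (φ (sr i)) (φ (sr 0)) ∨
      IsConj (φ (sr i)) (φ (sr 1)) := by
    intro i
    have key : ∀ x y z : ZMod 2, x ≠ y → z = x ∨ z = y := by decide
    rcases key _ _ (ZMod.castHom (Dvd.intro _ rfl) (ZMod 2) i) hab with h | h
    · exact Or.inl (φ.map_isConj (isConj_sr _ h))
    · exact Or.inr (φ.map_isConj (isConj_sr _ h))
  by_cases h0 : IsConj (φ (r ((2 * l : ℕ) : ZMod (2 * (2 * l))))) (φ (sr 0))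
  · by_cases h1 : IsConj (φ (r ((2 * l : ℕ) : ZMod (2 * (2 * l))))) (φ (sr 1))
    · refine Or.inl ⟨?_, fun N hN h2 => ?_⟩
      · change Nat.card {C : ConjClasses G | ∃ g : G, ConjClasses.mk g = C ∧ orderOf g = 2} = 1
        rw [set_eq P φ hφ hP hab, Nat.card_coe_set_eq, ← ConjClasses.mk_eq_mk_iff_isConj.2 h0,
          ← ConjClasses.mk_eq_mk_iff_isConj.2 h1]
        simp
      · have h3 : φ (r ((2 * l : ℕ) : ZMod (2 * (2 * l)))) ∈ N := by
          have := mul_self_mem_of_index_two h2 (φ (r (l : ZMod (2 * (2 * l)))))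
          rwa [← map_mul, r_mul_r, ← Nat.cast_add, ← two_mul] at this
        have hc : ∀ x y : G, IsConj x y → x ∈ N → y ∈ N := by
          intro x y h hx
          obtain ⟨c, rfl⟩ := isConj_iff.1 h
          exact hN.conj_mem _ hx c
        have h4 : ∀ i, φ (sr i) ∈ N := by
          intro i
          rcases hsr i with h | h
          · exact hc _ _ (h0.trans h.symm) h3
          · exact hc _ _ (h1.trans h.symm) h3
        have h5 : (P : Subgroup G) ≤ N := by
          rw [← hP]
          rintro _ ⟨i | i, rfl⟩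
          · have : (r i : DihedralGroup _) = sr 0 * sr i := by simp
            rw [this, map_mul]
            exact mul_mem (h4 _) (h4 _)
          · exact h4 i
        have h6 := index_dvd_of_le h5
        rw [h2] at h6
        exact P.not_dvd_index h6
    · exact Or.inr (Or.inl (caseC P φ hφ hP hab h0 h1))
  · by_cases h1 : IsConj (φ (r ((2 * l : ℕ) : ZMod (2 * (2 * l))))) (φ (sr 1))
    · exact Or.inr (Or.inl (caseC P φ hφ hP hab.symm h1 h0))
    · have hN : HasNormalPComplement 2 G := by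
        obtain ⟨f, hf⟩ := exists_hom P φ hφ hP (chi (Dvd.intro _ rfl) 0 1) ⟨sr 0, by
          rw [chi_sr, zero_mul, zero_add]; decide⟩
        have h2 : ∀ i, f (φ (sr i)) = -1 := by
          intro i
          refine hf _ (orderOf_sr _) ?_
          rintro (j | j) he hχ hc
          · rw [eq_of_orderOf_r he] at hc
            rcases hsr i with h | h
            · exact h0 (hc.symm.trans h)
            · exact h1 (hc.symm.trans h)
          · rw [chi_sr, zero_mul, zero_add] at hχ
            exact absurd hχ (by decide)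
        have h3 := H8.index_ker_eq_two_of_eq_neg_one f (h2 0)
        refine H8.hasNPC_of_normal_hasNPC f.ker ?_
          (H8.isPGroup_quotient_iff_index.2 ⟨1, by rw [h3, pow_one]⟩)
        obtain ⟨R⟩ : Nonempty (Sylow 2 f.ker) := inferInstance
        refine H8.hasNPC_two_of_isCyclic R ?_
        obtain ⟨g, hg⟩ := H8.exists_conj_le_sylow P (R.isPGroup'.map f.ker.subtype)
        let θ : (R : Subgroup f.ker) →* G :=
          (MulAut.conj g).toMonoidHom.comp (f.ker.subtype.comp (R : Subgroup f.ker).subtype)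
        have hθ : ∀ x, θ x ∈ zpowers (φ (r 1)) := by
          intro x
          have e1 : θ x ∈ (P : Subgroup G) := hg _ ⟨x, x.2, rfl⟩
          have e2 : θ x ∈ f.ker := (inferInstance : f.ker.Normal).conj_mem _ x.1.2 g
          rw [← hP] at e1
          obtain ⟨i | i, hd⟩ := e1
          · rw [← hd, ← ZMod.natCast_zmod_val i, ← r_one_pow, map_pow]
            exact pow_mem (mem_zpowers _) _
          · rw [← hd, MonoidHom.mem_ker, h2] at e2
            exact absurd e2 (by decide)
        refine isCyclic_of_injective (θ.codRestrict _ hθ) fun x y h => ?_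
        have : θ x = θ y := congrArg Subtype.val h
        exact Subtype.ext (Subtype.ext ((MulAut.conj g).injective this))
      refine Or.inr (Or.inr ⟨?_, hN⟩)
      change Nat.card {C : ConjClasses G | ∃ g : G, ConjClasses.mk g = C ∧ orderOf g = 2} = 3
      rw [set_eq P φ hφ hP hab, Nat.card_coe_set_eq, Set.ncard_eq_three]
      refine ⟨_, _, _, fun h => h0 (ConjClasses.mk_eq_mk_iff_isConj.1 h),
        fun h => h1 (ConjClasses.mk_eq_mk_iff_isConj.1 h), fun h => ?_, rfl⟩
      obtain ⟨g, hg⟩ := isConj_iff.1 (ConjClasses.mk_eq_mk_iff_isConj.1 h)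
      obtain ⟨u, hu, h2⟩ := H8.exists_conj_of_hasNPC hN P g
      have hm : ∀ d, φ d ∈ P := fun d => by
        rw [← SetLike.mem_coe, ← Sylow.coe_coe, ← hP]; exact ⟨d, rfl⟩
      have h3 := h2 _ (hm _) (hg ▸ hm _)
      rw [← SetLike.mem_coe, ← Sylow.coe_coe, ← hP] at hu
      obtain ⟨d, rfl⟩ := hu
      rw [hg, ← map_inv, ← map_mul, ← map_mul] at h3
      have h4 := congrArg (chi (Dvd.intro _ rfl) 1 0) (hφ h3)
      rw [map_mul, map_mul, map_inv, mul_inv_cancel_comm, chi_sr, chi_sr, map_zero, map_one] at h4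
      exact absurd h4 (by decide)

end

/-- Let G be a finite group whose Sylow 2-subgroups are dihedral of order 2 ^ n with n ≥ 3, and count the conjugacy classes of involutions of G. Then exactly one of the following holds: there is one class of involutions and no normal subgroup of index 2; there are two classes of involutions, a normal subgroup of index 2 and none of index 4; there are three classes of involutions and G has a normal 2-complement. -/
theorem result {G : Type*} [Group G] [Finite G] (P : Sylow 2 G) (n : ℕ) (hn : 3 ≤ n) (hdih : Nonempty (↥(P : Subgroup G) ≃* DihedralGroup (2 ^ (n - 1)))) : (Nat.card {C : ConjClasses G // ∃ g : G, ConjClasses.mk g = C ∧ orderOf g = 2} = 1 ∧ ∀ N : Subgroup G, N.Normal → N.index ≠ 2) ∨ (Nat.card {C : ConjClasses G // ∃ g : G, ConjClasses.mk g = C ∧ orderOf g = 2} = 2 ∧ (∃ N : Subgroup G, N.Normal ∧ N.index = 2) ∧ ∀ N : Subgroup G, N.Normal → N.index ≠ 4) ∨ (Nat.card {C : ConjClasses G // ∃ g : G, ConjClasses.mk g = C ∧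 orderOf g = 2} = 3 ∧ Cfsg.HasNormalPComplement 2 G) := by
  obtain ⟨k, rfl⟩ := Nat.exists_eq_add_of_le hn
  have h : 2 ^ (3 + k - 1) = 2 * (2 * 2 ^ k) := by
    rw [show 3 + k - 1 = k + 2 by omega]; ring
  rw [h] at hdih
  obtain ⟨e⟩ := hdih
  refine main P ((P : Subgroup G).subtype.comp e.symm.toMonoidHom)
    (Subtype.val_injective.comp e.symm.injective) ?_
  rw [MonoidHom.range_comp, MonoidHom.range_eq_top.2 e.symm.surjective, ← MonoidHom.range_eq_map,
    Subgroup.range_subtype]

end Cfsg.Agent.S3864
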