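import Cfsg.Statements.S3865
import Cfsg.Agent.H2.MaxClass3
import Cfsg.Agent.H2.Components
import Cfsg.Agent.H8.Tate
import Cfsg.Agent.L.BaerSuzuki
import Cfsg.Agent.H9.ClassSize

set_option autoImplicit false
open Cfsg

namespace Cfsg.Agent.S3865

open Subgroup Cfsg.Agent.H2
open scoped Pointwise commutatorElement

theorem unif_of_card_le {S : Type*} [Group S] [Finite S] {p n : ℕ} [hp : Fact p.Prime]
    (h : MaxClass p n S) {s : S} (hs : Unif s) {D : Subgroup S} (hD : D ≠ ⊤) (hsD : s ∈ D) {y : S}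
    (hy : y ∈ D) (M : Subgroup S) [M.Normal] (hM : p ^ 2 ≤ Nat.card M) (hyM : y ∉ M)
    (hc : Nat.card ↥(D ⊓ centralizer ({y} : Set S)) ≤ p ^ 2) : Unif y := by
  by_cases hy1 : y ∈ lcs S 1
  swap
  · exact h.unif_of_mem hs hD hsD hy hy1
  exfalso
  obtain ⟨i, hi, hin, hyi, hyi'⟩ := h.exists_level hy1 (fun e => hyM (e ▸ one_mem M))
  have h1 : lcs S i ≤ D := h.lcs_le_of_stable hs
    (fun u hu => mul_mem (mul_mem (mul_mem hu hsD) (inv_mem hu)) (inv_mem hsD)) hi hy hyi hyi'
  have h2 : ¬ Nat.card (lcs S i) ≤ Nat.card M := fun e => hyM (h.lcs_le_of_card_le hi M e hyi)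
  have h3 : i + 4 ≤ n := by
    by_contra e
    apply h2
    rw [h.card_lcs hi]
    exact le_trans (Nat.pow_le_pow_right hp.out.pos (by omega)) hM
  have h4 : lcs S (n - 3) ≤ lcs S (i + 1) := lcs_anti (by omega)
  have h5 : lcs S (n - 3) < D ⊓ centralizer ({y} : Set S) := by
    refine lt_of_le_of_ne (le_inf (h4.trans ((lcs_anti (Nat.le_succ i)).trans h1)) fun w hw => ?_)
      fun e => hyi' (h4 (e ▸ ⟨hy, mem_centralizer_singleton_iff.2 rfl⟩))
    have := commutator_mem_lcs hw hyi
    rw [h.lcs_eq_bot (by omega), mem_bot, commutatorElement_eq_one_iff_mul_comm] at this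
    exact mem_centralizer_singleton_iff.2 this
  have h6 := (mul_card_le_of_lt (h.isPGroup.to_subgroup _) h5).trans hc
  rw [h.card_lcs (by omega), show n - 1 - (n - 3) = 2 by omega] at h6
  have h7 := hp.out.one_lt
  have h8 : 0 < p ^ 2 := pow_pos hp.out.pos 2
  nlinarith

variable {G : Type*} [Group G] [Finite G] {p : ℕ} [hp : Fact p.Prime]

/-- `x` is a uniform element of the Sylow subgroup `Q` -/
def U (Q : Sylow p G) (x : G) : Prop := ∃ h : x ∈ (Q : Subgroup G), Unif (⟨x, h⟩ : (Q : Subgroup G))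

theorem U.smul {Q : Sylow p G} {x : G} (h : U Q x) (g : G) : U (g • Q) (g * x * g⁻¹) := by
  obtain ⟨hx, h⟩ := h
  exact ⟨_, h.map_equiv (Q.equivSMul g)⟩

theorem card_subgroupOf_eq (A B : Subgroup G) : Nat.card (A.subgroupOf B) = Nat.card ↥(A ⊓ B) := by
  rw [← subgroupOf_map_subtype, card_map_of_injective (subtype_injective B)]

theorem U.card_le {n : ℕ} {Q : Sylow p G} (hQ : MaxClass p n (Q : Subgroup G)) {x : G} (h : U Q x) :
    Nat.card ↥(centralizer ({x} : Set G) ⊓ Q) = p ^ 2 := by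
  obtain ⟨hx, h⟩ := h
  rw [← hQ.card_centralizer_eq h, H9.centralizer_coe_subgroupOf, card_subgroupOf_eq]

theorem fusion {n : ℕ} (hm : ∀ Q : Sylow p G, MaxClass p n (Q : Subgroup G)) (N : Subgroup G)
    [hNn : N.Normal] (hN : ∀ Q : Sylow p G, p ^ 2 ≤ Nat.card (N.subgroupOf Q)) {x : G} (hx : x ∉ N)
    (D : Subgroup G) : ∀ Q T : Sylow p G, U Q x → x ∈ (T : Subgroup G) → ¬ U T x →
      (Q : Subgroup G) ⊓ T = D → False := by
  induction D using WellFoundedGT.induction with
  | ind D ih =>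
  intro Q T hQ hxT hT hD
  have hne : Q ≠ T := fun e => hT (e ▸ hQ)
  have hDQ : D < Q := lt_of_le_of_ne (hD ▸ inf_le_left) fun e => hne (Sylow.ext
    (Q.is_maximal' T.isPGroup' (by rw [← e, ← hD]; exact inf_le_right)).symm)
  have hDT : D < T := lt_of_le_of_ne (hD ▸ inf_le_right) fun e => hne (Sylow.ext
    (T.is_maximal' Q.isPGroup' (by rw [← e, ← hD]; exact inf_le_left)))
  have hxD : x ∈ D := hD ▸ ⟨hQ.1, hxT⟩
  have := Q.isPGroup'.isNilpotent
  have := T.isPGroup'.isNilpotent
  have h1 := L.lt_inf_normalizer_of_isNilpotent hDQ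
  have h2 := L.lt_inf_normalizer_of_isNilpotent hDT
  obtain ⟨A, hQA, hAL, hA, hAi⟩ := H1.exists_sylow_of_le (p := p)
    (inf_le_right : (Q : Subgroup G) ⊓ normalizer (D : Set G) ≤ _) (Q.isPGroup'.to_le inf_le_left)
  obtain ⟨B, hTB, hBL, hB, hBi⟩ := H1.exists_sylow_of_le (p := p)
    (inf_le_right : (T : Subgroup G) ⊓ normalizer (D : Set G) ≤ _) (T.isPGroup'.to_le inf_le_left)
  obtain ⟨R, hR⟩ := hA.exists_le_sylow
  obtain ⟨R', hR'⟩ := hB.exists_le_sylow
  have hDR : D < R := h1.trans_le (hQA.trans hR)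
  have hDB : D < B := h2.trans_le hTB
  have hUR : U R x := by
    by_contra e
    exact ih _ (h1.trans_le (le_inf inf_le_left (hQA.trans hR))) Q R hQ (hDR.le hxD) e rfl
  have hUR' : ¬ U R' x := fun e =>
    ih _ (h2.trans_le (le_inf (hTB.trans hR') inf_le_left)) R' T e hxT hT rfl
  obtain ⟨l, hl, hle⟩ := H1.exists_conj_eq_sylow hBL hB hBi hAL hA hAi
  rw [map_conj_eq_smul] at hle
  have hlD : MulAut.conj l⁻¹ • D = D := mem_normalizer_iff_conj_smul.1 (inv_mem hl)
  have hyD : l⁻¹ * x * l⁻¹⁻¹ ∈ D := hlD ▸ conj_mem_conj_smul hxD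
  have hUy : U R (l⁻¹ * x * l⁻¹⁻¹) := by
    refine ⟨hDR.le hyD, unif_of_card_le (hm R) hUR.2 (D := D.subgroupOf R)
      (fun e => hDR.not_ge (subgroupOf_eq_top.1 e)) hxD hyD (N.subgroupOf R) (hN R)
      (fun e => hx (by simpa [mul_assoc] using hNn.conj_mem _ (mem_subgroupOf.1 e) l)) ?_⟩
    rw [H9.centralizer_coe_subgroupOf, subgroupOf, subgroupOf, ← comap_inf, ← subgroupOf,
      card_subgroupOf_eq]
    refine (card_le_of_le inf_le_left).trans ?_
    change Nat.card ↥(D ⊓ centralizer {l⁻¹ * x * l⁻¹⁻¹}) ≤ _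
    rw [H9.centralizer_conj, ← hlD, ← Subgroup.smul_inf, card_conj_smul, ← hUR.card_le (hm R),
      inf_comm]
    exact card_le_of_le (inf_le_inf_left _ hDR.le)
  have hUl := hUy.smul l
  rw [show l * (l⁻¹ * x * l⁻¹⁻¹) * l⁻¹ = x by group] at hUl
  refine ih _ (hDB.trans_le (le_inf ?_ hR')) (l • R) R' hUl (hR' (hDB.le hxD)) hUR' rfl
  rw [← hle]
  exact conj_smul_mono l hR

theorem factorization_eq {n : ℕ} (hm : ∀ Q : Sylow p G, MaxClass p n (Q : Subgroup G))
    {P : Sylow p G} {x : G} (hP : U P x) (hall : ∀ T : Sylow p G, x ∈ (T : Subgroup G) → U T x) :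
    (Nat.card (centralizer ({x} : Set G))).factorization p = 2 := by
  obtain ⟨A, hPA, hAC, hA, hAi⟩ := H1.exists_sylow_of_le (p := p)
    (inf_le_left : centralizer ({x} : Set G) ⊓ P ≤ _) (P.isPGroup'.to_le inf_le_right)
  obtain ⟨T, hT⟩ := hA.exists_le_sylow
  have hxA : x ∈ A := hPA ⟨mem_centralizer_singleton_iff.2 rfl, hP.1⟩
  have h1 : Nat.card A = p ^ 2 := le_antisymm
    ((card_le_of_le (le_inf hAC hT)).trans ((hall T (hT hxA)).card_le (hm T)).le)
    ((hP.card_le (hm P)).ge.trans (card_le_of_le hPA))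
  have h0 : A.relIndex (centralizer ({x} : Set G)) ≠ 0 := fun e => hAi (e ▸ dvd_zero p)
  rw [← H1.card_mul_relIndex hAC, h1, Nat.factorization_mul (pow_pos hp.out.pos 2).ne' h0,
    Finsupp.add_apply, Nat.factorization_eq_zero_of_not_dvd hAi, hp.out.factorization_pow]
  simp

/-- Let G be a finite group whose Sylow p-subgroup P has order p ^ n with n ≥ 2 and nilpotency class n - 1 (maximal class), whose largest normal subgroup of order prime to p is trivial, and which has no proper normal subgroup of index prime to p. Then either some x ∈ P has a centralizer in G whose order has p-part p ^ 2, or G is quasisimple with centre of order at most p. -/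
theorem result {G : Type*} [Group G] [Finite G] (p : ℕ) [Fact p.Prime] (P : Sylow p G) (n : ℕ) (hP : Nat.card P = p ^ n) (hn : 2 ≤ n) (hmax : Group.nilpotencyClass ↥(P : Subgroup G) = n - 1) (hcore : Cfsg.pPrimeCore p G = ⊥) (hres : ∀ N : Subgroup G, N.Normal → (N.index).Coprime p → N = ⊤) : (∃ x ∈ (P : Subgroup G), (Nat.card (Subgroup.centralizer ({x} : Set G))).factorization p = 2) ∨ (Cfsg.IsQuasisimple G ∧ Nat.card (Subgroup.center G) ≤ p) := by
  have hp : p.Prime := Fact.out
  rcases hn.eq_or_lt with rfl | hn3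
  · refine Or.inl ⟨1, one_mem _, ?_⟩
    have : centralizer ({1} : Set G) = ⊤ :=
      eq_top_iff.2 fun g _ => mem_centralizer_singleton_iff.2 (by simp)
    rw [this, card_top]
    have h := P.card_eq_multiplicity
    rw [hP] at h
    exact (Nat.pow_right_injective hp.two_le h).symm
  have hmP : MaxClass p n (P : Subgroup G) := maxClass_of_nilpotencyClass hn3 hP hmax
  have hm : ∀ Q : Sylow p G, MaxClass p n (Q : Subgroup G) := fun Q =>
    hmP.of_mulEquiv (Sylow.equiv P Q)
  have hPN : ∀ N : Subgroup G, N.Normal → (P : Subgroup G) ≤ N → N = ⊤ := fun N hN h =>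
    hres N hN (Nat.coprime_comm.1 (hp.coprime_iff_not_dvd.2 fun e =>
      P.not_dvd_index (e.trans (index_dvd_of_le h))))
  by_cases hex : ∃ N : Subgroup G, N.Normal ∧ N ≠ ⊤ ∧ p ^ 2 ≤ Nat.card (N.subgroupOf P)
  · obtain ⟨N, hNn, hNt, hN⟩ := hex
    have hN' : ∀ Q : Sylow p G, p ^ 2 ≤ Nat.card (N.subgroupOf Q) := by
      intro Q
      obtain ⟨g, rfl⟩ := MulAction.exists_smul_eq G P Q
      rw [card_subgroupOf_eq] at hN ⊢
      rw [← card_conj_smul _ g, Subgroup.smul_inf,
        mem_normalizer_iff_conj_smul.1 (by rw [normalizer_eq_top]; trivial)] at hN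
      exact hN
    obtain ⟨s, hsN, hs⟩ := hmP.exists_unif_not_mem (M := N.subgroupOf P)
      fun e => hNt (hPN N hNn (subgroupOf_eq_top.1 e))
    have hU : U P (s : G) := ⟨s.2, hs⟩
    exact Or.inl ⟨s, s.2, factorization_eq hm hU fun T hT => by_contra fun e =>
      fusion hm N hN' hsN _ P T hU hT e rfl⟩
  right
  have key : ∀ N : Subgroup G, N.Normal → N ≠ ⊤ → N ≤ center G ∧ Nat.card N ≤ p := by
    intro N hNn hNt
    have h1 : Nat.card (N.subgroupOf P) < p ^ 2 := not_le.1 fun e => hex ⟨N, hNn, hNt, e⟩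
    have h2 : N.subgroupOf P ≤ center (P : Subgroup G) := by
      by_cases hn4 : n = 3
      · subst hn4
        by_contra e
        have h3 : center (P : Subgroup G) ≤ N.subgroupOf P := by
          rcases hmP.lcs_le_or_le le_rfl (N.subgroupOf P) with h | h
          · rw [hmP.center_eq]; exact h
          · rw [hmP.lcs_eq_bot (by norm_num)] at h
            exact absurd (h.trans bot_le) e
        have := mul_card_le_of_lt (hmP.isPGroup.to_subgroup _) (lt_of_le_not_ge h3 e)
        rw [hmP.card_center, ← pow_two] at this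
        omega
      · rcases hmP.lcs_le_or_le (i := n - 3) (by omega) (N.subgroupOf P) with h | h
        · have := card_le_of_le h
          rw [hmP.card_lcs (by omega), show n - 1 - (n - 3) = 2 by omega] at this
          omega
        · rwa [hmP.center_eq, show n - 2 = n - 3 + 1 by omega]
    have h3 := H8.hasNPC_of_normal_of_le_frattini P N
      (by rw [hmP.frattini_eq]; exact h2.trans hmP.center_le_lcs_one)
    have h4 : Cfsg.pPrimeCore p N = ⊥ := by
      have := L.map_subtype_pPrimeCore hp N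
      rwa [hcore, bot_inf_eq, map_eq_bot_iff_of_injective _ (subtype_injective N)] at this
    obtain ⟨K, hKn, hKc, k, hKi⟩ := H8.hasNPC_iff_exists.1 h3
    have hK : K = ⊥ := le_bot_iff.1 (h4 ▸ L.le_pPrimeCore hKn hKc)
    rw [hK, index_bot] at hKi
    have h5 : N ≤ P := (L.le_pCore hNn (IsPGroup.of_card hKi)).trans (L.pCore_le_sylow P)
    refine ⟨?_, ?_⟩
    · have h6 : centralizer (N : Set G) = ⊤ := hPN _ inferInstance fun g hg y hy =>
        congrArg Subtype.val (mem_center_iff.1 (h2 (x := ⟨y, h5 hy⟩) hy) ⟨g, hg⟩).symm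
      intro y hy
      exact mem_center_iff.2 fun g => ((h6 ▸ mem_top g : g ∈ centralizer (N : Set G)) y hy).symm
    · have := card_le_of_le h2
      rwa [hmP.card_center, card_subgroupOf_eq, inf_eq_left.2 h5] at this
  have hZ : center G ≠ ⊤ := fun e => hmP.lcs_ne_bot (i := 1) hmP.three_le
    (isMulCommutative_iff_lcs_one.1 ⟨⟨fun a b =>
      Subtype.ext (mem_center_iff.1 (e ▸ mem_top (b : G) : (b : G) ∈ center G) a)⟩⟩)
  refine ⟨isQuasisimple_iff.2 ⟨?_, ?_, fun N hN => ?_⟩, (key _ inferInstance hZ).2⟩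
  · rw [Group.isPerfect_def]
    by_contra e
    have h1 := (key _ inferInstance e).1
    obtain ⟨x, -, hx⟩ := SetLike.exists_of_lt (lt_top_iff_ne_top.2 hZ)
    have h2 : (commutator G ⊔ zpowers x).Normal := ⟨fun y hy g => by
      have : g * y * g⁻¹ = ⁅g, y⁆ * y := by rw [commutatorElement_def]; group
      rw [this]
      exact mul_mem (mem_sup_left (commutator_mem_commutator (mem_top _) (mem_top _))) hy⟩
    have h3 : commutator G ⊔ zpowers x = ⊤ := by_contra fun e' =>
      hx ((key _ h2 e').1 (mem_sup_right (mem_zpowers x)))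
    have h4 : commutator G ⊔ zpowers x ≤ centralizer {x} :=
      sup_le (h1.trans (center_le_centralizer _))
        (zpowers_le.2 (mem_centralizer_singleton_iff.2 rfl))
    exact hx (mem_center_iff.2 fun g => mem_centralizer_singleton_iff.1 (h4 (h3 ▸ mem_top g)))
  · by_contra e
    rw [not_nontrivial_iff_subsingleton] at e
    exact hZ (Subsingleton.elim _ _)
  · by_cases e : N = ⊤
    · exact Or.inl e
    · exact Or.inr (key N hN e).1

end Cfsg.Agent.S3865
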