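import Cfsg.Statements.S3867
import Cfsg.Agent.H9.SylowNum
import Cfsg.Agent.H1.Basic

set_option autoImplicit false
open Cfsg

namespace Cfsg.Agent.S3867

open Subgroup

/-- Let M and N be nontrivial normal subgroups of the finite group G with M ⊓ N trivial, and let p be a prime. Writing n(X) for the number of Sylow p-subgroups of a group X, one has n(G) · n(G/MN) = n(G/M) · n(G/N). -/
theorem result {G : Type*} [Group G] [Finite G] (p : ℕ) [Fact p.Prime] (M N : Subgroup G) [M.Normal] [N.Normal] (hM : M ≠ ⊥) (hN : N ≠ ⊥) (hMN : M ⊓ N = ⊥) : Nat.card (Sylow p G) * Nat.card (Sylow p (G ⧸ (M ⊔ N))) = Nat.card (Sylow p (G ⧸ M)) * Nat.card (Sylow p (G ⧸ N)) := by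
  obtain ⟨P⟩ : Nonempty (Sylow p G) := inferInstance
  rw [H9.card_sylow_quotient _ P, H9.card_sylow_quotient _ P, H9.card_sylow_quotient _ P,
    H9.card_sylow_eq_index P.isPGroup' P.not_dvd_index]
  set Lg := normalizer ((P : Subgroup G) : Set G) with hLg
  have hnM : ∀ A : Subgroup G, A ≤ normalizer (M : Set G) := fun A => by
    rw [normalizer_eq_top M]; exact le_top
  have hnN : ∀ A : Subgroup G, A ≤ normalizer (N : Set G) := fun A => by
    rw [normalizer_eq_top N]; exact le_top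
  have hD : ((P : Subgroup G) ⊔ M) ⊓ ((P : Subgroup G) ⊔ N) = P := by
    have hp : IsPGroup p ↥(((P : Subgroup G) ⊔ M) ⊓ ((P : Subgroup G) ⊔ N)) := by
      have aux : ∀ (K : Subgroup G) [K.Normal], ∀ x ∈ (P : Subgroup G) ⊔ K, ∃ k, x ^ p ^ k ∈ K := by
        intro K _ x hx
        have h1 : (QuotientGroup.mk' K) x ∈ (P : Subgroup G).map (QuotientGroup.mk' K) := by
          have := mem_map_of_mem (QuotientGroup.mk' K) hx
          rw [Subgroup.map_sup, (Subgroup.map_eq_bot_iff K).2 (by rw [QuotientGroup.ker_mk']),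
            sup_bot_eq] at this
          exact this
        obtain ⟨k, hk⟩ := (P.isPGroup'.map (QuotientGroup.mk' K)) ⟨_, h1⟩
        refine ⟨k, ?_⟩
        rw [← QuotientGroup.eq_one_iff]
        exact congrArg Subtype.val hk
      rintro ⟨x, hx1, hx2⟩
      obtain ⟨k, hk⟩ := aux M x hx1
      obtain ⟨l, hl⟩ := aux N x hx2
      refine ⟨k + l, Subtype.ext ?_⟩
      have : x ^ p ^ (k + l) ∈ M ⊓ N := by
        constructor
        · rw [pow_add, pow_mul]; exact pow_mem hk _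
        · rw [add_comm, pow_add, pow_mul]; exact pow_mem hl _
      rw [hMN] at this
      exact this
    exact P.is_maximal' hp (le_inf le_sup_left le_sup_left)
  have hAB : (Lg ⊔ M) ⊓ (Lg ⊔ N) ≤ Lg := by
    have h1 : Lg ⊔ M ≤ normalizer (((P : Subgroup G) ⊔ M : Subgroup G) : Set G) :=
      sup_le (H1.le_normalizer_sup le_rfl (hnM _)) (le_sup_right.trans le_normalizer)
    have h2 : Lg ⊔ N ≤ normalizer (((P : Subgroup G) ⊔ N : Subgroup G) : Set G) :=
      sup_le (H1.le_normalizer_sup le_rfl (hnN _)) (le_sup_right.trans le_normalizer)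
    have := H1.le_normalizer_inf (inf_le_left.trans h1 : (Lg ⊔ M) ⊓ (Lg ⊔ N) ≤ _)
      (inf_le_right.trans h2)
    rwa [hD] at this
  have hinf : (Lg ⊔ M) ⊓ N = Lg ⊓ N :=
    le_antisymm (le_inf ((inf_le_inf_left _ le_sup_right).trans hAB) inf_le_right)
      (inf_le_inf_right _ le_sup_left)
  have e1 := H1.card_sup_mul_card_inf (hnN (Lg ⊔ M))
  have e2 := H1.card_sup_mul_card_inf (hnN Lg)
  rw [hinf, sup_assoc] at e1
  have i1 := Lg.index_mul_card
  have i2 := (Lg ⊔ (M ⊔ N)).index_mul_card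
  have i3 := (Lg ⊔ M).index_mul_card
  have i4 := (Lg ⊔ N).index_mul_card
  have p1 : 0 < Nat.card Lg := Nat.card_pos
  have p2 : 0 < Nat.card ↥(Lg ⊔ (M ⊔ N)) := Nat.card_pos
  have p3 : 0 < Nat.card ↥(Lg ⊓ N) := Nat.card_pos
  have key : Nat.card Lg * Nat.card ↥(Lg ⊔ (M ⊔ N)) = Nat.card ↥(Lg ⊔ M) * Nat.card ↥(Lg ⊔ N) := by
    apply Nat.eq_of_mul_eq_mul_right p3
    rw [mul_assoc, e1, mul_assoc, e2]; ring
  apply Nat.eq_of_mul_eq_mul_right (Nat.mul_pos p1 p2)
  calc _ = (Lg.index * Nat.card Lg) * ((Lg ⊔ (M ⊔ N)).index * Nat.card ↥(Lg ⊔ (M ⊔ N))) := by ring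
    _ = ((Lg ⊔ M).index * Nat.card ↥(Lg ⊔ M)) * ((Lg ⊔ N).index * Nat.card ↥(Lg ⊔ N)) := by
      rw [i1, i2, i3, i4]
    _ = _ := by rw [key]; ring

end Cfsg.Agent.S3867
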