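import Cfsg.Statements.S3878
import Cfsg.Agent.H6.Burnside
import Cfsg.Agent.L.MinNormal
import Cfsg.Agent.H1.Section
import Mathlib.GroupTheory.SpecificGroups.Alternating.Simple

set_option autoImplicit false
open Cfsg

namespace Cfsg.Agent.S3878

open Subgroup

theorem eq_bot_of_norm {p q : ℕ} (hp : p.Prime) (hq : q.Prime) (hpq : p ≠ q)
    {N : Subgroup (Equiv.Perm (Fin q))} (hN : IsPGroup p N) {c : Equiv.Perm (Fin q)}
    (hc : orderOf c = q) (hn : c ∈ normalizer (N : Set (Equiv.Perm (Fin q)))) : N = ⊥ := by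
  classical
  have := Fact.mk hp
  have hcyc : c.IsCycle := Equiv.Perm.isCycle_of_prime_order'' (by simpa using hq) (by simpa using hc)
  have hsupp : c.support = Finset.univ := by
    apply Finset.eq_univ_of_card
    rw [← hcyc.orderOf, hc, Fintype.card_fin]
  have hmv : ∀ y, c y ≠ y := fun y => Equiv.Perm.mem_support.1 (hsupp ▸ Finset.mem_univ y)
  obtain ⟨x, hx⟩ := hN.nonempty_fixed_point_of_prime_not_dvd_card (Fin q) (by
    rw [Nat.card_eq_fintype_card, Fintype.card_fin]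
    exact fun h => hpq ((Nat.prime_dvd_prime_iff_eq hp hq).1 h))
  rw [eq_bot_iff]
  intro n hnN
  rw [mem_bot]
  ext y
  obtain ⟨k, rfl⟩ := hcyc.exists_pow_eq (hmv x) (hmv y)
  have h1 : (c ^ k)⁻¹ * n * (c ^ k)⁻¹⁻¹ ∈ N :=
    (mem_normalizer_iff.1 (inv_mem (pow_mem hn k)) n).1 hnN
  have h2 : ((c ^ k)⁻¹ * n * (c ^ k)⁻¹⁻¹) x = x := hx ⟨_, h1⟩
  rw [inv_inv, Equiv.Perm.mul_apply, Equiv.Perm.mul_apply, Equiv.Perm.inv_eq_iff_eq] at h2
  simp [h2]

theorem caseA {π : Set ℕ} {p q : ℕ} (hp : p.Prime) (hq : q.Prime) (hpq : p + 2 ≤ q)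
    (hpπ : p ∈ π) (hqπ : q ∈ π) (h : ∀ r, r.Prime → r ∈ π → r ≤ q → r = p ∨ r = q) :
    ¬ IsEPiGroup π (Equiv.Perm (Fin q)) := by
  classical
  rintro ⟨H, hH1, hH2⟩
  have := Fact.mk hp
  have := Fact.mk hq
  have hG : Nat.card (Equiv.Perm (Fin q)) = q.factorial := by
    rw [Nat.card_perm, Nat.card_eq_fintype_card, Fintype.card_fin]
  have hpr : ∀ r, r.Prime → r ∣ Nat.card H → r = p ∨ r = q := fun r hr hd =>
    h r hr (hH1 r hr hd) (hr.dvd_factorial.1 (hG ▸ hd.trans (card_subgroup_dvd_card H)))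
  have : Group.IsSolvable H := H6.isSolvable_of_primes_two p q hpr
  have hqH : q ∣ Nat.card H := by
    have : q ∣ Nat.card H * H.index := by
      rw [H.card_mul_index, hG]; exact Nat.dvd_factorial hq.pos le_rfl
    exact ((Nat.Prime.dvd_mul hq).1 this).resolve_right (hH2 q hq hqπ)
  obtain ⟨c, hc⟩ := exists_prime_orderOf_dvd_card' q hqH
  have : Nontrivial H := by
    rw [← Finite.one_lt_card_iff_nontrivial]
    exact lt_of_lt_of_le hq.one_lt (Nat.le_of_dvd Nat.card_pos hqH)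
  obtain ⟨M₀, hM₀⟩ := L.exists_isMinNormal (G := H)
  obtain ⟨r, hr, hrM⟩ := hM₀.exists_isPGroup
  have := hM₀.1
  obtain ⟨M, hM⟩ : ∃ M, M = M₀.map H.subtype := ⟨_, rfl⟩
  have hM1 : M ≠ ⊥ := by
    rw [hM, Ne, map_eq_bot_iff_of_injective _ H.subtype_injective]; exact hM₀.2.1
  have hrM' : IsPGroup r M := hM ▸ hrM.map _
  have hHM : H ≤ normalizer (M : Set (Equiv.Perm (Fin q))) := by
    intro g hg
    rw [hM]
    refine mem_normalizer_iff.2 fun x => ⟨?_, ?_⟩
    · rintro ⟨y, hy, rfl⟩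
      exact ⟨_, hM₀.1.conj_mem y hy ⟨g, hg⟩, rfl⟩
    · rintro ⟨y, hy, e⟩
      refine ⟨_, hM₀.1.conj_mem y hy ⟨g, hg⟩⁻¹, ?_⟩
      simp only [coe_subtype, coe_mul, coe_inv, inv_inv] at e ⊢
      rw [e]; group
  have hrq : r = q := by
    by_contra hne
    exact hM1 (eq_bot_of_norm hr hq hne hrM' (c := c) (by simpa using hc) (hHM c.2))
  subst hrq
  obtain ⟨n, hn⟩ := IsPGroup.iff_card.1 hrM'
  have hMc : Nat.card M = r := by
    have h1 : n ≠ 0 := by
      rintro rfl
      exact hM1 (card_eq_one.1 (by simpa using hn))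
    have h2 : ¬ 2 ≤ n := by
      intro h2
      have h3 : r * r ∣ r.factorial := by
        rw [← hG, ← sq]; exact (pow_dvd_pow r h2).trans (hn ▸ card_subgroup_dvd_card M)
      obtain ⟨s, rfl⟩ : ∃ s, r = s + 1 := ⟨r - 1, by omega⟩
      rw [Nat.factorial_succ] at h3
      have := hr.dvd_factorial.1 (Nat.dvd_of_mul_dvd_mul_left hr.pos h3)
      omega
    rw [hn, show n = 1 by omega, pow_one]
  have : IsCyclic M := isCyclic_of_prime_card hMc
  obtain ⟨d, hd⟩ := exists_prime_orderOf_dvd_card' (G := M) r (by rw [hMc])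
  obtain ⟨P₀⟩ : Nonempty (Sylow p H) := inferInstance
  obtain ⟨P, hP⟩ : ∃ P, P = (P₀ : Subgroup H).map H.subtype := ⟨_, rfl⟩
  have hPH : P ≤ H := hP ▸ map_subtype_le _
  have hPp : IsPGroup p P := hP ▸ P₀.isPGroup'.map _
  have hPi : ¬ p ∣ P.index := by
    rw [hP, index_map_subtype]
    intro hd
    rcases (Nat.Prime.dvd_mul hp).1 hd with h1 | h1
    · exact P₀.not_dvd_index h1
    · exact hH2 p hp hpπ h1
  have hinj : Function.Injective (H1.conjAut (hPH.trans hHM)) := by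
    rw [← MonoidHom.ker_eq_bot_iff, H1.ker_conjAut, subgroupOf_eq_bot, disjoint_iff]
    refine eq_bot_of_norm hp hr (by omega) (hPp.to_inf_right) (c := (d : Equiv.Perm (Fin r)))
      (by simpa using hd) ?_
    refine centralizer_le_normalizer _ ?_
    rw [mem_centralizer_iff]
    intro g hg
    exact (mem_centralizer_iff.1 (mem_inf.1 hg).1 d d.2).symm
  have hdv := card_dvd_of_injective _ hinj
  rw [IsCyclic.card_mulAut, hMc, Nat.totient_prime hr] at hdv
  apply hPi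
  have h1 : Nat.card P * p ∣ Nat.card P * P.index := by
    rw [P.card_mul_index, hG]
    obtain ⟨s, rfl⟩ : ∃ s, r = s + 2 := ⟨r - 2, by omega⟩
    rw [Nat.factorial_succ, Nat.factorial_succ]
    refine Dvd.dvd.mul_left (Nat.mul_dvd_mul (by simpa using hdv) ?_) _
    exact Nat.dvd_factorial hp.pos (by omega)
  exact Nat.dvd_of_mul_dvd_mul_left Nat.card_pos h1

theorem caseB {π : Set ℕ} {r : ℕ} (hr : r.Prime) (h5 : 5 ≤ r) (hrπ : r ∉ π)
    (h : ∀ s, s.Prime → s < r → s ∈ π) : ¬ IsEPiGroup π (alternatingGroup (Fin (r + 1))) := by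
  classical
  rintro ⟨H, hH1, hH2⟩
  have : Nontrivial (Fin (r + 1)) := Fin.nontrivial_iff_two_le.2 (by omega)
  have : IsSimpleGroup (alternatingGroup (Fin (r + 1))) :=
    alternatingGroup.isSimpleGroup (by simp; omega)
  have hG : 2 * Nat.card (alternatingGroup (Fin (r + 1))) = (r + 1).factorial := by
    rw [two_mul_nat_card_alternatingGroup, Nat.card_perm, Nat.card_eq_fintype_card, Fintype.card_fin]
  have hodd : Odd r := hr.odd_of_ne_two (by omega)
  have hidx : H.index ∣ (r + 1).factorial := hG ▸ (H.index_dvd_card).mul_left 2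
  have hpr : ∀ s, s.Prime → s ∣ H.index → s = r := by
    intro s hs hd
    have h1 := hs.dvd_factorial.1 (hd.trans hidx)
    by_contra hne
    rcases Nat.lt_or_ge s r with h2 | h2
    · exact hH2 s hs (h s hs h2) hd
    · have : s = r + 1 := by omega
      subst this
      have := hs.odd_of_ne_two (by omega)
      rcases hodd with ⟨a, ha⟩; rcases this with ⟨b, hb⟩; omega
  obtain ⟨n, hn⟩ : ∃ n, H.index = r ^ n :=
    ⟨_, Nat.eq_prime_pow_of_unique_prime_dvd H.index_ne_zero_of_finite fun hs hd => hpr _ hs hd⟩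
  have hn2 : ¬ 2 ≤ n := by
    intro h2
    have h3 : r * r ∣ (r + 1).factorial := by
      rw [← sq]; exact (pow_dvd_pow r h2).trans (hn ▸ hidx)
    obtain ⟨s, rfl⟩ : ∃ s, r = s + 1 := ⟨r - 1, by omega⟩
    rw [Nat.factorial_succ, Nat.factorial_succ, mul_left_comm] at h3
    rcases (Nat.Prime.dvd_mul hr).1 (Nat.dvd_of_mul_dvd_mul_left hr.pos h3) with h4 | h4
    · have := Nat.le_of_dvd one_pos ((Nat.dvd_add_right dvd_rfl).1 h4)
      omega
    · have := hr.dvd_factorial.1 h4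
      omega
  have hrG : r ∣ Nat.card (alternatingGroup (Fin (r + 1))) := by
    have : r ∣ 2 * Nat.card (alternatingGroup (Fin (r + 1))) :=
      hG ▸ Nat.dvd_factorial hr.pos (by omega)
    refine ((Nat.Prime.dvd_mul hr).1 this).resolve_left fun h2 => ?_
    have := Nat.le_of_dvd two_pos h2
    omega
  rcases H.normalCore_normal.eq_bot_or_eq_top with hc | hc
  · rw [H.normalCore_eq_ker, MonoidHom.ker_eq_bot_iff] at hc
    have h1 := Nat.card_le_card_of_injective _ hc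
    rw [Nat.card_perm, ← index_eq_card, hn] at h1
    have h2 : (r ^ n).factorial ≤ r.factorial := by
      apply Nat.factorial_le
      calc r ^ n ≤ r ^ 1 := Nat.pow_le_pow_right hr.pos (by omega)
        _ = r := pow_one r
    rw [Nat.factorial_succ] at hG
    have := Nat.factorial_pos r
    nlinarith
  · have : H = ⊤ := eq_top_iff.2 (hc.ge.trans H.normalCore_le)
    subst this
    exact hrπ (hH1 r hr (by rwa [card_top]))

theorem exists_not {π : Set ℕ} (h1 : ¬ ∀ p q : ℕ, p.Prime → q.Prime → p ∈ π → q ∈ π → p = q)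
    (h2 : ¬ ∀ p : ℕ, p.Prime → p ∈ π) :
    ¬ ∀ (G : Type) [Group G] [Finite G], IsEPiGroup π G := by
  classical
  intro hE
  push Not at h1 h2
  by_cases h23 : 2 ∈ π ∧ 3 ∈ π
  · obtain ⟨hr, hrπ⟩ := Nat.find_spec h2
    refine caseB hr ?_ hrπ (fun s hs hlt => ?_) (hE _)
    · refine hr.five_le_of_ne_two_of_ne_three ?_ ?_
      · intro e; exact hrπ (e ▸ h23.1)
      · intro e; exact hrπ (e ▸ h23.2)
    · by_contra hsπ
      exact Nat.find_min h2 hlt ⟨hs, hsπ⟩
  · obtain ⟨a, b, ha, hb, haπ, hbπ, hab⟩ := h1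
    have e1 : ∃ p, p.Prime ∧ p ∈ π := ⟨a, ha, haπ⟩
    obtain ⟨p, hpe⟩ : ∃ p, p = Nat.find e1 := ⟨_, rfl⟩
    have hp : p.Prime ∧ p ∈ π := hpe ▸ Nat.find_spec e1
    have e2 : ∃ q, q.Prime ∧ q ∈ π ∧ q ≠ p := by
      by_cases h : a = p
      · exact ⟨b, hb, hbπ, fun e => hab (h.trans e.symm)⟩
      · exact ⟨a, ha, haπ, h⟩
    obtain ⟨q, hqe⟩ : ∃ q, q = Nat.find e2 := ⟨_, rfl⟩
    have hq : q.Prime ∧ q ∈ π ∧ q ≠ p := hqe ▸ Nat.find_spec e2
    have hle : p ≤ q := hpe ▸ Nat.find_min' e1 ⟨hq.1, hq.2.1⟩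
    refine caseA hp.1 hq.1 ?_ hp.2 hq.2.1 (fun r hr hrπ hrq => ?_) (hE _)
    · by_contra hlt
      have e : q = p + 1 := by have := hq.2.2; omega
      rcases hp.1.eq_two_or_odd' with h | h
      · subst h; subst e; exact h23 ⟨hp.2, hq.2.1⟩
      · have h3 := hq.1.odd_of_ne_two (by have := hp.1.two_le; omega)
        rcases h with ⟨a, ha⟩; rcases h3 with ⟨b, hb⟩; omega
    · by_cases h : r = p
      · exact Or.inl h
      · exact Or.inr (le_antisymm hrq (hqe ▸ Nat.find_min' e2 ⟨hr, hrπ, h⟩))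

theorem E_of_D {π : Set ℕ} {G : Type} [Group G] [Finite G] (h : IsDPiGroup π G) :
    IsEPiGroup π G := by
  have h0 : IsPiSubgroup π (⊥ : Subgroup G) := fun p hp hd => by
    rw [card_bot] at hd; exact absurd (Nat.dvd_one.1 hd) hp.ne_one
  obtain ⟨H, -, hH⟩ := Finite.exists_le_maximal h0
  refine ⟨H, hH.1, fun p hp hpπ hd => ?_⟩
  have := Fact.mk hp
  obtain ⟨P⟩ : Nonempty (Sylow p G) := inferInstance
  have hP : IsPiSubgroup π (P : Subgroup G) := fun r hr hd => by
    obtain ⟨n, hn⟩ := IsPGroup.iff_card.1 P.isPGroup'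
    rw [hn] at hd
    rw [(Nat.prime_dvd_prime_iff_eq hr hp).1 (hr.dvd_of_dvd_pow hd)]
    exact hpπ
  obtain ⟨K, hPK, hK⟩ := Finite.exists_le_maximal hP
  obtain ⟨g, rfl⟩ := h H K hH hK
  apply P.not_dvd_index
  refine hd.trans (Dvd.dvd.trans (dvd_of_eq ?_) (index_dvd_of_le hPK))
  exact (index_map_equiv H (MulAut.conj g)).symm

theorem D_of {π : Set ℕ}
    (h : (∀ p q : ℕ, p.Prime → q.Prime → p ∈ π → q ∈ π → p = q) ∨ ∀ p : ℕ, p.Prime → p ∈ π)
    (G : Type) [Group G] [Finite G] : IsDPiGroup π G := by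
  intro H K hH hK
  rcases h with h | h
  · by_cases hex : ∃ p, p.Prime ∧ p ∈ π
    · obtain ⟨p, hp, hpπ⟩ := hex
      have := Fact.mk hp
      have key : ∀ X : Subgroup G, IsPiSubgroup π X ↔ IsPGroup p X := by
        intro X
        rw [IsPGroup.iff_card]
        constructor
        · intro hX
          exact ⟨_, Nat.eq_prime_pow_of_unique_prime_dvd Nat.card_pos.ne' fun hs hd =>
            h _ _ hs hp (hX _ hs hd) hpπ⟩
        · rintro ⟨n, hn⟩ r hr hd
          rw [hn] at hd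
          rw [(Nat.prime_dvd_prime_iff_eq hr hp).1 (hr.dvd_of_dvd_pow hd)]
          exact hpπ
      have syl : ∀ X : Subgroup G, Maximal (IsPiSubgroup π) X → ∃ P : Sylow p G, X = P := by
        intro X hX
        obtain ⟨P, hP⟩ := ((key X).1 hX.1).exists_le_sylow
        exact ⟨P, le_antisymm hP (hX.2 ((key _).2 P.isPGroup') hP)⟩
      obtain ⟨P, rfl⟩ := syl H hH
      obtain ⟨Q, rfl⟩ := syl K hK
      obtain ⟨g, rfl⟩ := MulAction.exists_smul_eq G P Q
      exact ⟨g, rfl⟩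
    · have key : ∀ X : Subgroup G, IsPiSubgroup π X → X = ⊥ := by
        intro X hX
        by_contra hne
        obtain ⟨r, hr, hd⟩ := Nat.exists_prime_and_dvd (fun e => hne (card_eq_one.1 e))
        exact hex ⟨r, hr, hX r hr hd⟩
      exact ⟨1, by rw [key H hH.1, key K hK.1, Subgroup.map_bot]⟩
  · have key : ∀ X : Subgroup G, Maximal (IsPiSubgroup π) X → X = ⊤ := fun X hX =>
      eq_top_iff.2 (hX.2 (fun p hp _ => h p hp) le_top)
    refine ⟨1, ?_⟩
    rw [key H hH, key K hK, map_top_of_surjective]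
    exact (MulAut.conj (1 : G)).surjective


/-- For a set of primes π the following are equivalent: every finite group has a Hall π-subgroup; in every finite group the maximal π-subgroups are pairwise conjugate; π contains at most one prime or contains every prime. -/
theorem result (π : Set ℕ) :
    ((∀ (G : Type) [Group G] [Finite G], Cfsg.IsEPiGroup π G) ↔
      ((∀ p q : ℕ, p.Prime → q.Prime → p ∈ π → q ∈ π → p = q) ∨ ∀ p : ℕ, p.Prime → p ∈ π)) ∧
    ((∀ (G : Type) [Group G] [Finite G], Cfsg.IsDPiGroup π G) ↔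
      ((∀ p q : ℕ, p.Prime → q.Prime → p ∈ π → q ∈ π → p = q) ∨ ∀ p : ℕ, p.Prime → p ∈ π)) := by
  have key : (∀ (G : Type) [Group G] [Finite G], Cfsg.IsEPiGroup π G) →
      ((∀ p q : ℕ, p.Prime → q.Prime → p ∈ π → q ∈ π → p = q) ∨ ∀ p : ℕ, p.Prime → p ∈ π) := by
    intro hE
    by_contra hn
    rw [not_or] at hn
    exact exists_not hn.1 hn.2 hE
  exact ⟨⟨key, fun h G _ _ => E_of_D (D_of h G)⟩,
    ⟨fun h => key fun G _ _ => E_of_D (h G), fun h G _ _ => D_of h G⟩⟩

end Cfsg.Agent.S3878
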