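import Cfsg.Statements.S3881
import Cfsg.Agent.H3.Metacyclic2

set_option autoImplicit false
open Cfsg

namespace Cfsg.Agent.S3881


/-- Let p be an odd prime and G a finite metacyclic p-group (G has a cyclic normal subgroup with cyclic quotient). Suppose G is non-abelian with |G'| = p^n. Then for 1 ≤ i ≤ n the number of elements of G whose conjugacy class has exactly p^i elements is |Z(G)| · (p^(2i) − p^(2i−2)). -/
theorem result {G : Type*} [Group G] [Finite G] {p : ℕ} [Fact p.Prime] (hp : p ≠ 2) (hG : IsPGroup p G) (hmc : Cfsg.IsMetacyclic G) (n : ℕ) (hn : n ≠ 0) (hGn : Nat.card ↥(commutator G) = p ^ n) (i : ℕ) (hi : 1 ≤ i) (hin : i ≤ n) :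
    Nat.card {g : G // (Subgroup.centralizer ({g} : Set G)).index = p ^ i} =
      Nat.card ↥(Subgroup.center G) * (p ^ (2 * i) - p ^ (2 * i - 2)) := by
  obtain ⟨d⟩ := H3.nonempty_metaData hp hG hmc
  obtain rfl : n = d.n :=
    Nat.pow_right_injective d.prime.two_le (hGn.symm.trans d.card_commutator)
  have h1 := d.card_setOf {v | addOrderOf v = p ^ i}
  simp only [Set.mem_setOf_eq, ← d.index_centralizer] at h1
  rw [h1]
  congr 1
  have h2 := H3.card_nsmul_eq_zero_zmod d.prime (rfl : p ^ d.n = p ^ d.n) hin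
  have h3 := H3.card_nsmul_eq_zero_zmod d.prime (rfl : p ^ d.n = p ^ d.n)
    ((Nat.sub_le i 1).trans hin)
  rw [show 2 * i - 2 = 2 * (i - 1) by omega, ← h2, ← h3]
  change Set.ncard _ = Set.ncard {v | p ^ i • v = 0} - Set.ncard {v | p ^ (i - 1) • v = 0}
  rw [← Set.ncard_diff]
  · congr 1
    ext v
    obtain ⟨k, -, hk⟩ := d.exists_addOrderOf_eq v
    simp only [Set.mem_setOf_eq, Set.mem_diff, ← addOrderOf_dvd_iff_nsmul_eq_zero, hk,
      Nat.pow_dvd_pow_iff_le_right d.prime.one_lt, Nat.pow_right_inj d.prime.one_lt]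
    omega
  · intro v hv
    rw [Set.mem_setOf_eq, ← addOrderOf_dvd_iff_nsmul_eq_zero] at hv ⊢
    exact hv.trans (pow_dvd_pow _ (Nat.sub_le i 1))

end Cfsg.Agent.S3881
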