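import Cfsg.Statements.S3883
import Cfsg.Agent.H3.Metacyclic2

set_option autoImplicit false
open Cfsg

namespace Cfsg.Agent.S3883


/-- Let p be an odd prime and G a finite metacyclic p-group (G has a cyclic normal subgroup with cyclic quotient). Suppose G is non-abelian. Then an element g of G lies outside the Frattini subgroup if and only if its centralizer C_G(g) is abelian. -/
theorem result {G : Type*} [Group G] [Finite G] {p : ℕ} [Fact p.Prime] (hp : p ≠ 2) (hG : IsPGroup p G) (hmc : Cfsg.IsMetacyclic G) (hna : ¬ IsMulCommutative G) (g : G) :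
    g ∉ frattini G ↔ IsMulCommutative ↥(Subgroup.centralizer ({g} : Set G)) := by
  obtain ⟨d⟩ := H3.nonempty_metaData hp hG hmc
  have hn : 1 ≤ d.n := by
    by_contra h0
    apply hna
    have h1 := d.index_center
    rw [show d.n = 0 by omega, pow_zero, one_pow, Subgroup.index_eq_one] at h1
    exact ⟨⟨fun x y => Subgroup.mem_center_iff.1 (h1 ▸ Subgroup.mem_top y) x⟩⟩
  have hΦ : frattini G = Subgroup.closure {x : G | ∃ y : G, y ^ p ^ 1 = x} := by
    rw [H3.frattini_eq_sup hG, pow_one, sup_eq_right, d.commutator_eq, Subgroup.zpowers_le]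
    obtain ⟨t, ht⟩ := d.dvd
    refine Subgroup.subset_closure ⟨d.a ^ t, ?_⟩
    rw [← zpow_natCast, ← zpow_mul, mul_comm, ← ht]
    rfl
  obtain ⟨k, hk, hk'⟩ := d.exists_addOrderOf_eq (d.φ g)
  have hcard : Nat.card (Subgroup.centralizer ({g} : Set G)) * p ^ k =
      Nat.card (Subgroup.center G) * p ^ d.n * p ^ d.n := by
    rw [← hk', ← d.index_centralizer, Subgroup.card_mul_index, d.card_group, sq, mul_assoc]
  rw [hΦ, d.mem_closure_pow_iff hn, ← addOrderOf_dvd_iff_nsmul_eq_zero, hk',
    Nat.pow_dvd_pow_iff_le_right d.prime.one_lt]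
  constructor
  · intro h
    by_contra hc
    have h1 := d.lt_card_of_not_isMulCommutative hG hc
    rw [show k = d.n by omega] at hcard
    exact h1.ne' (Nat.eq_of_mul_eq_mul_right (pow_pos d.prime.pos _) hcard)
  · intro h hle
    have h1 := d.card_le_of_isMulCommutative h
    have h2 : p ^ k < p ^ d.n := Nat.pow_lt_pow_right d.prime.one_lt (by omega)
    exact (Nat.mul_lt_mul_of_le_of_lt h1 h2
      (Nat.mul_pos Nat.card_pos (pow_pos d.prime.pos _))).ne hcard

end Cfsg.Agent.S3883
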