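import Cfsg.Statements.S3884
import Cfsg.Agent.H3.Metacyclic2

set_option autoImplicit false
open Cfsg

namespace Cfsg.Agent.S3884

theorem finish {G : Type*} [Group G] [Finite G] (x y : G)
    (h : ∀ g : G, ∃ u ∈ Subgroup.zpowers x, ∃ v ∈ Subgroup.zpowers y, g = u * v)
    (hc : orderOf x * orderOf y ≤ Nat.card G) :
    ∃ A B : Subgroup G, IsCyclic ↥A ∧ IsCyclic ↥B ∧ A ⊓ B = ⊥ ∧
      Nat.card ↥A * Nat.card ↥B = Nat.card G := by
  let f : Subgroup.zpowers x × Subgroup.zpowers y → G := fun t => t.1 * t.2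
  have hf : Function.Surjective f := by
    intro g
    obtain ⟨u, hu, v, hv, rfl⟩ := h g
    exact ⟨(⟨u, hu⟩, ⟨v, hv⟩), rfl⟩
  have h1 : Nat.card (Subgroup.zpowers x × Subgroup.zpowers y) = Nat.card G := by
    refine le_antisymm ?_ (Nat.card_le_card_of_surjective f hf)
    rwa [Nat.card_prod, Nat.card_zpowers, Nat.card_zpowers]
  have hinj := ((Nat.bijective_iff_surjective_and_card f).2 ⟨hf, h1⟩).1
  refine ⟨_, _, inferInstance, inferInstance, ?_, by rw [← Nat.card_prod, h1]⟩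
  rw [eq_bot_iff]
  intro z hz
  have := @hinj (⟨z, hz.1⟩, 1) (1, ⟨z, hz.2⟩) (by simp [f])
  exact congrArg Subtype.val (congrArg Prod.fst this)

/-- Let p be an odd prime and G a finite metacyclic p-group (G has a cyclic normal subgroup with cyclic quotient). Then G is the product of two cyclic subgroups with trivial intersection: there are cyclic subgroups A and B with A ∩ B = 1 and |A| · |B| = |G|. -/
theorem result {G : Type*} [Group G] [Finite G] {p : ℕ} [Fact p.Prime] (hp : p ≠ 2) (hG : IsPGroup p G) (hmc : Cfsg.IsMetacyclic G) : ∃ A B : Subgroup G, IsCyclic ↥A ∧ IsCyclic ↥B ∧ A ⊓ B = ⊥ ∧ Nat.card ↥A * Nat.card ↥B = Nat.card G := by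
  obtain ⟨d⟩ := H3.nonempty_metaData hp hG hmc
  obtain ⟨a, b, r, n, hpp, -, hconj, hdvd, hgen, -⟩ := d
  have hp' := Nat.prime_iff_prime_int.1 hpp
  haveI : (Subgroup.zpowers a).Normal := by
    constructor
    rintro _ ⟨t, rfl⟩ g
    obtain ⟨i, j, rfl⟩ := hgen g
    have := H3.conj_zpow_of_conj (H3.pow_conj_of_conj hconj j) t
    have e : a ^ i * b ^ j * a ^ t * (a ^ i * b ^ j)⁻¹ =
        a ^ i * (b ^ j * a ^ t * (b ^ j)⁻¹) * (a ^ i)⁻¹ := by group
    simp only [e, this]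
    exact Subgroup.mul_mem _ (Subgroup.mul_mem _ (Subgroup.zpow_mem_zpowers _ _)
      (Subgroup.zpow_mem_zpowers _ _)) (Subgroup.inv_mem _ (Subgroup.zpow_mem_zpowers _ _))
  obtain ⟨m, hm⟩ := (IsPGroup.iff_orderOf.1 hG) a
  obtain ⟨k, hk⟩ := hG.index (Subgroup.zpowers a)
  have hcard : Nat.card G = p ^ m * p ^ k := by
    rw [← (Subgroup.zpowers a).card_mul_index, Nat.card_zpowers, hm, hk]
  obtain ⟨s, hs⟩ := Subgroup.mem_zpowers_iff.1 (hk ▸ (Subgroup.zpowers a).pow_index_mem b)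
  have ha1 : ∀ t : ℤ, (p : ℤ) ^ m ∣ t → a ^ t = 1 := fun t ht => by
    rw [← orderOf_dvd_iff_zpow_eq_one, hm]; exact_mod_cast ht
  by_cases hks : (p : ℤ) ^ k ∣ s
  · obtain ⟨s', rfl⟩ := hks
    obtain ⟨u, hu⟩ := (H3.pow_dvd_gs_iff hpp hp hdvd k _).2 dvd_rfl
    have hu' : ¬ (p : ℤ) ∣ u := by
      rintro ⟨u', rfl⟩
      have := (H3.pow_dvd_gs_iff hpp hp hdvd (k + 1) (p ^ k)).1 ⟨u', by rw [hu]; ring⟩
      rw [Nat.pow_dvd_pow_iff_le_right hpp.one_lt] at this
      omega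
    obtain ⟨α, β, hαβ⟩ := ((hp'.irreducible.coprime_iff_not_dvd.2 hu').pow_left (m := m))
    refine finish a (a ^ (-(s' * β)) * b) (fun g => ?_) ?_
    · obtain ⟨i, j, rfl⟩ := hgen g
      refine ⟨a ^ (i - -(s' * β) * H3.gs r j), Subgroup.zpow_mem_zpowers _ _, _,
        Subgroup.npow_mem_zpowers _ j, ?_⟩
      rw [H3.zpow_mul_pow_of_conj hconj, ← mul_assoc, ← zpow_add]
      simp [H3.gs]
    · rw [hcard, hm]
      refine Nat.mul_le_mul_left _ (Nat.le_of_dvd (pow_pos hpp.pos _)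
        (orderOf_dvd_of_pow_eq_one ?_))
      rw [H3.zpow_mul_pow_of_conj hconj, ← hs, ← zpow_add]
      refine ha1 _ ⟨p ^ k * s' * α, ?_⟩
      change -(s' * β) * H3.gs r (p ^ k) + _ = _
      rw [hu]
      linear_combination -(p ^ k * s') * hαβ
  · have hs0 : s ≠ 0 := by rintro rfl; exact hks (dvd_zero _)
    obtain ⟨v, s', hs', rfl⟩ := WfDvdMonoid.max_power_factor hs0 hp'.irreducible
    have hvk : v < k := by
      by_contra h
      exact hks ((pow_dvd_pow _ (not_lt.1 h)).trans (dvd_mul_right _ _))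
    by_cases hmv : m ≤ v
    · refine finish a b (fun g => ?_) ?_
      · obtain ⟨i, j, rfl⟩ := hgen g
        exact ⟨_, Subgroup.zpow_mem_zpowers _ _, _, Subgroup.npow_mem_zpowers _ j, rfl⟩
      · rw [hcard, hm]
        refine Nat.mul_le_mul_left _ (Nat.le_of_dvd (pow_pos hpp.pos _)
          (orderOf_dvd_of_pow_eq_one ?_))
        rw [← hs]
        exact ha1 _ ((pow_dvd_pow _ hmv).trans (dvd_mul_right _ _))
    obtain ⟨w, rfl⟩ := Nat.exists_eq_add_of_le hvk.le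
    obtain ⟨e, rfl⟩ := Nat.exists_eq_add_of_le (not_le.1 hmv).le
    have h1 : (p : ℤ) ^ (v + e) ∣ p ^ v * (r - 1) := by
      have h2 := H3.conj_zpow_of_conj hconj (p ^ v * s')
      have h3 : b * a ^ ((p : ℤ) ^ v * s') * b⁻¹ = a ^ ((p : ℤ) ^ v * s') := by
        rw [hs]; group
      rw [h3, eq_comm, H3.zpow_eq_zpow_iff_dvd, hm] at h2
      push_cast at h2
      refine H3.prime_pow_dvd_of_dvd_mul hpp hs' ?_
      convert h2 using 1
      ring
    obtain ⟨α, β, hαβ⟩ := ((hp'.irreducible.coprime_iff_not_dvd.2 hs').pow_left (m := v + e))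
    obtain ⟨j', hj'⟩ : ∃ j' : ℕ, (p : ℤ) ^ (v + e) ∣ j' + β := by
      have hpos : (0 : ℤ) < p ^ (v + e) := pow_pos (by exact_mod_cast hpp.pos) _
      refine ⟨((-β) % p ^ (v + e)).toNat, ?_⟩
      rw [Int.toNat_of_nonneg (Int.emod_nonneg _ hpos.ne')]
      have := Int.dvd_emod_sub_self (x := -β) (m := p ^ (v + e))
      simpa using this
    have hconj' := H3.pow_conj_of_conj hconj (p ^ w * j')
    have hdvd' : (p : ℤ) ∣ r ^ (p ^ w * j') - 1 := hdvd.trans (H3.sub_one_dvd_pow_sub_one' _ _)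
    refine finish (a ^ (1 : ℤ) * b ^ (p ^ w * j')) b (fun g => ?_) ?_
    · obtain ⟨i, j, rfl⟩ := hgen g
      obtain ⟨t, ht⟩ := H3.exists_gs_modEq hpp hp hdvd' (v + e) i
      refine ⟨_, Subgroup.npow_mem_zpowers _ t, ((b ^ (p ^ w * j')) ^ t)⁻¹ * b ^ j,
        Subgroup.mul_mem _ (Subgroup.inv_mem _ (Subgroup.pow_mem _ (Subgroup.npow_mem_zpowers _ _) _))
        (Subgroup.npow_mem_zpowers _ _), ?_⟩
      rw [H3.zpow_mul_pow_of_conj hconj', one_mul, mul_assoc, mul_inv_cancel_left]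
      congr 1
      rw [eq_comm, H3.zpow_eq_zpow_iff_dvd, hm]
      exact_mod_cast ht
    · have o1 : orderOf (a ^ (1 : ℤ) * b ^ (p ^ w * j')) ≤ p ^ v := by
        refine Nat.le_of_dvd (pow_pos hpp.pos _) (orderOf_dvd_of_pow_eq_one ?_)
        rw [H3.zpow_mul_pow_of_conj hconj', one_mul, ← pow_mul,
          show p ^ w * j' * p ^ v = p ^ (v + w) * j' by ring, pow_mul b, ← hs, ← zpow_natCast,
          ← zpow_mul, ← zpow_add]
        apply ha1
        have h2 := (h1.trans (mul_dvd_mul_left _ (H3.sub_one_dvd_pow_sub_one' r (p ^ w * j')))).trans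
          (H3.dvd_gs_pow_sub hpp hp hdvd' v)
        obtain ⟨c1, hc1⟩ := h2
        obtain ⟨c2, hc2⟩ := hj'
        refine ⟨c1 + p ^ v * (α + s' * c2), ?_⟩
        change H3.gs _ _ + _ = _
        linear_combination hc1 + p ^ v * s' * hc2 - p ^ v * hαβ
      have o2 : orderOf b ≤ p ^ (v + w) * p ^ e := by
        refine Nat.le_of_dvd (Nat.mul_pos (pow_pos hpp.pos _) (pow_pos hpp.pos _))
          (orderOf_dvd_of_pow_eq_one ?_)
        rw [pow_mul, ← hs, ← zpow_natCast, ← zpow_mul]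
        exact ha1 _ ⟨s', by push_cast; ring⟩
      refine (Nat.mul_le_mul o1 o2).trans (le_of_eq ?_)
      rw [hcard]; ring

end Cfsg.Agent.S3884
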