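import Cfsg.Statements.S3886
import Cfsg.Agent.H3.Metacyclic2

set_option autoImplicit false
open Cfsg

namespace Cfsg.Agent.S3886


/-- Let p be an odd prime and G a finite metacyclic p-group (G has a cyclic normal subgroup with cyclic quotient). Then the largest value of |R| · |Z(R)| over subgroups R of G is |G : G'|², and the subgroups attaining it (the centrally large subgroups) are exactly the non-abelian subgroups together with the maximal abelian subgroups of G. -/
theorem result {G : Type*} [Group G] [Finite G] {p : ℕ} [Fact p.Prime] (hp : p ≠ 2) (hG : IsPGroup p G) (hmc : Cfsg.IsMetacyclic G) : Cfsg.maxCentralProduct G = (commutator G).index ^ 2 ∧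
    ∀ R : Subgroup G, Cfsg.IsCentrallyLarge R ↔ (¬ IsMulCommutative ↥R ∨ Maximal (fun K : Subgroup G => IsMulCommutative ↥K) R) := by
  obtain ⟨d⟩ := H3.nonempty_metaData hp hG hmc
  have h1 : ∀ R : Subgroup G, ¬ IsMulCommutative R →
      Nat.card R * Nat.card (Subgroup.center R) = (commutator G).index ^ 2 := by
    intro R hR
    have hZ := d.center_le_of_not_isMulCommutative hG hR
    rw [H3.card_center_subgroup, inf_eq_right.2 (d.centralizer_le_of_not_isMulCommutative hZ hR),
      d.card_mul_card_centralizer, inf_eq_right.2 hZ, d.index_commutator]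
    ring
  have h2 : ∀ R : Subgroup G, IsMulCommutative R →
      Nat.card R * Nat.card (Subgroup.center R) = Nat.card R ^ 2 := by
    intro R hR
    rw [H3.card_center_subgroup, inf_eq_left.2 (Subgroup.le_centralizer_iff_isMulCommutative.2 hR),
      sq]
  have hmax : maxCentralProduct G = (commutator G).index ^ 2 := by
    apply IsGreatest.csSup_eq
    constructor
    · obtain ⟨L, -, hL⟩ := Finite.exists_le_maximal (p := fun K : Subgroup G => IsMulCommutative K)
        (a := ⊥) inferInstance
      refine ⟨L, ?_⟩
      rw [h2 L hL.prop, ((d.maximal_iff L).1 hL).2, d.index_commutator]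
    · rintro _ ⟨K, rfl⟩
      by_cases hK : IsMulCommutative K
      · rw [h2 K hK, d.index_commutator]
        exact Nat.pow_le_pow_left (d.card_le_of_isMulCommutative hK) 2
      · exact (h1 K hK).le
  refine ⟨hmax, fun R => ?_⟩
  rw [IsCentrallyLarge, hmax]
  by_cases hR : IsMulCommutative R
  · rw [h2 R hR, d.maximal_iff, d.index_commutator, Nat.pow_left_inj two_ne_zero]
    simp [hR]
  · simp [hR, h1 R hR]

end Cfsg.Agent.S3886
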