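import Cfsg.Statements.S3887
import Cfsg.Agent.H3.Metacyclic2

set_option autoImplicit false
open Cfsg

namespace Cfsg.Agent.S3887


/-- Let p be an odd prime and G a finite metacyclic p-group (G has a cyclic normal subgroup with cyclic quotient). Then a subgroup R of G maximizes |R| · |C_G(R)| over all subgroups of G if and only if R contains the center of G. -/
theorem result {G : Type*} [Group G] [Finite G] {p : ℕ} [Fact p.Prime] (hp : p ≠ 2) (hG : IsPGroup p G) (hmc : Cfsg.IsMetacyclic G) (R : Subgroup G) : Cfsg.IsCentralizerLarge R ↔ Subgroup.center G ≤ R := by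
  obtain ⟨d⟩ := H3.nonempty_metaData hp hG hmc
  have hmax : maxCentralizerProduct G =
      Nat.card (Subgroup.center G) * (Nat.card (Subgroup.center G) * (p ^ d.n) ^ 2) := by
    apply IsGreatest.csSup_eq
    refine ⟨⟨⊤, by rw [d.card_mul_card_centralizer, top_inf_eq]⟩, ?_⟩
    rintro _ ⟨K, rfl⟩
    rw [d.card_mul_card_centralizer]
    exact Nat.mul_le_mul_right _ (Subgroup.card_le_of_le inf_le_right)
  rw [IsCentralizerLarge, hmax, d.card_mul_card_centralizer]
  constructor
  · intro h
    have := Nat.eq_of_mul_eq_mul_right (d.card_group ▸ Nat.card_pos) h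
    exact inf_eq_right.1 (Subgroup.eq_of_le_of_card_ge inf_le_right this.ge)
  · intro h
    rw [inf_eq_right.2 h]

end Cfsg.Agent.S3887
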