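import Cfsg.Statements.S3896
import Cfsg.Agent.H6.HalfClass2
-- import your own Cfsg.Agent.* helpers here

set_option autoImplicit false
open Cfsg

namespace Cfsg.Agent.S3896

/-- Let G be a finite group whose largest normal subgroup of odd order is trivial, let P be a Sylow 2-subgroup of G, and suppose the number of conjugacy classes of G consisting of 2-elements (elements of 2-power order, the identity included) is exactly |P|/2. Then G/Z(G) is isomorphic to the alternating or the symmetric group of degree 4, or G/Z(G) has a normal non-abelian simple subgroup with trivial centralizer that is isomorphic to PSL₂(q) for some prime power q > 3 with q ≡ 3 or 5 (mod 8). -/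
theorem result {G : Type*} [Group G] [Finite G] (P : Sylow 2 G) (hO : Cfsg.pPrimeCore 2 G = ⊥)
    (hk : 2 * Nat.card {c : ConjClasses G // ∀ x ∈ c.carrier, ∃ k : ℕ, orderOf x = 2 ^ k} = Nat.card ↥(P : Subgroup G)) :
    Nonempty (G ⧸ Subgroup.center G ≃* ↥(alternatingGroup (Fin 4))) ∨ Nonempty (G ⧸ Subgroup.center G ≃* Equiv.Perm (Fin 4)) ∨
    ∃ S : Subgroup (G ⧸ Subgroup.center G), S.Normal ∧ IsSimpleGroup ↥S ∧ ¬ IsMulCommutative ↥S ∧
      Subgroup.centralizer (S : Set (G ⧸ Subgroup.center G)) = ⊥ ∧
      ∃ (F : Type) (_ : Field F) (_ : Fintype F), 3 < Fintype.card F ∧ (Fintype.card F % 8 = 3 ∨ Fintype.card F % 8 = 5) ∧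
        Nonempty (↥S ≃* Matrix.ProjectiveSpecialLinearGroup (Fin 2) F) := by
  obtain ⟨V, t, h⟩ := H6.Half.exists_data hO P hk
  exact h.main (H6.Half.core_quot hO)

end Cfsg.Agent.S3896
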