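import Cfsg.Statements.S3898
import Cfsg.Agent.H3.ClassCount2
import Cfsg.Agent.H3.PiComplement
import Cfsg.Agent.H6.ClassPi
import Cfsg.Agent.H6.PiElem
import Cfsg.Agent.H2.MaxClass

set_option autoImplicit false
open Cfsg

namespace Cfsg.Agent.S3898

open Subgroup Finset

theorem mul_kcl_le {G : Type*} [Group G] [Finite G] {p : ℕ} [Fact p.Prime] (P : Sylow p G) {t : G}
    (ht : t ∈ normalizer ((P : Subgroup G) : Set G)) :
    (orderOf t).minFac * H3.kcl (fun x : G => ∃ k : ℕ, orderOf x = p ^ k) +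
      Nat.card ((P : Subgroup G) ⊓ centralizer ({t} : Set G) : Subgroup G) ≤ Nat.card P +
      (orderOf t).minFac * Nat.card ((P : Subgroup G) ⊓ centralizer ({t} : Set G) : Subgroup G) := by
  classical
  haveI := Fintype.ofFinite G
  set d := (orderOf t).minFac
  set C : Subgroup G := (P : Subgroup G) ⊓ centralizer ({t} : Set G)
  have hd : (0 : ℚ) < d := by exact_mod_cast Nat.minFac_pos _
  have h1 := H3.kcl_eq_sum_sylow P
  have h2 : ∑ x ∈ univ.filter (· ∈ (P : Subgroup G)),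
      (((univ.filter fun y => y ∈ (P : Subgroup G) ∧ IsConj y x).card : ℚ))⁻¹ ≤
      ∑ x ∈ univ.filter (· ∈ (P : Subgroup G)),
        ((d : ℚ)⁻¹ + (if x ∈ C then 1 - (d : ℚ)⁻¹ else 0)) := by
    refine sum_le_sum fun x hx => ?_
    have hxP := (mem_filter.mp hx).2
    by_cases hxC : x ∈ C
    · have : (1 : ℚ) ≤ (univ.filter fun y => y ∈ (P : Subgroup G) ∧ IsConj y x).card := by
        have hmem1 : x ∈ univ.filter fun y => y ∈ (P : Subgroup G) ∧ IsConj y x :=
          mem_filter.mpr ⟨mem_univ x, hxP, IsConj.refl x⟩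
        exact_mod_cast card_pos.mpr ⟨x, hmem1⟩
      rw [if_pos hxC]
      exact (inv_anti₀ one_pos this).trans (by norm_num)
    · rw [if_neg hxC, add_zero]
      refine inv_anti₀ hd ?_
      have h3 := H6.ncard_conj_orbit (zpowers t) x
      have h4 : (centralizer ({x} : Set G)).relIndex (zpowers t) ≠ 1 := fun e =>
        hxC ⟨hxP, mem_centralizer_singleton_iff.2 (mem_centralizer_singleton_iff.1
          (relIndex_eq_one.1 e (mem_zpowers t))).symm⟩
      have h5 : (centralizer ({x} : Set G)).relIndex (zpowers t) ∣ orderOf t :=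
        Nat.card_zpowers t ▸ relIndex_dvd_card _ _
      have h6 : d ≤ (centralizer ({x} : Set G)).relIndex (zpowers t) :=
        Nat.minFac_le_of_dvd (by
          have := Nat.pos_of_dvd_of_pos h5 (orderOf_pos t)
          omega) h5
      rw [← h3] at h6
      have h7 := Set.ncard_le_ncard (s := {g : G | ∃ n ∈ zpowers t, n * x * n⁻¹ = g})
        (t := ((univ.filter fun y => y ∈ (P : Subgroup G) ∧ IsConj y x : Finset G) : Set G)) (by
          rintro _ ⟨n, hn, rfl⟩
          exact mem_coe.2 (mem_filter.2 ⟨mem_univ _,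
            (mem_normalizer_iff.1 (zpowers_le.2 ht hn) x).1 hxP, (isConj_iff.2 ⟨n, rfl⟩).symm⟩))
      rw [Set.ncard_coe_finset] at h7
      exact_mod_cast h6.trans h7
  have h5 : ((univ.filter (· ∈ (P : Subgroup G))).filter (· ∈ C)).card = Nat.card C := by
    rw [← H3.card_filter_mem_subgroup, filter_filter]
    congr 1
    ext x
    simp only [mem_filter, mem_univ, true_and]
    exact ⟨fun h => h.2, fun h => ⟨h.1, h⟩⟩
  rw [sum_add_distrib, sum_const, H3.card_filter_mem_subgroup, ← sum_filter, sum_const, h5, ← h1,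
    nsmul_eq_mul, nsmul_eq_mul] at h2
  have h6 := mul_le_mul_of_nonneg_left h2 hd.le
  have h7 : (d : ℚ) * ((Nat.card P : ℚ) * (d : ℚ)⁻¹ + (Nat.card C : ℚ) * (1 - (d : ℚ)⁻¹)) =
      Nat.card P + d * Nat.card C - Nat.card C := by field_simp; ring
  rw [h7, le_sub_iff_add_le] at h6
  exact_mod_cast h6

theorem odd_case {G : Type*} [Group G] [Finite G] {p : ℕ} [hp : Fact p.Prime] (hp2 : p ≠ 2)
    (P : Sylow p G) (h : Nat.card P < 2 * H3.kcl (fun x : G => ∃ k : ℕ, orderOf x = p ^ k))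
    {t : G} (ht : t ∈ normalizer ((P : Subgroup G) : Set G)) (hto : Odd (orderOf t)) :
    t ∈ centralizer ((P : Subgroup G) : Set G) := by
  have hp3 : 3 ≤ p := by have := hp.out.two_le; omega
  have hab : IsMulCommutative P := by
    refine H6.isMulCommutative_of_lt_mul (p := p) (fun r hr hd => ?_) ?_
    · obtain ⟨k, hk⟩ := IsPGroup.iff_card.1 P.isPGroup'
      exact ((Nat.prime_dvd_prime_iff_eq hr hp.out).1 (hr.dvd_of_dvd_pow (hk ▸ hd))).ge
    · have h1 := H3.kcl_le_card_conjClasses_sylow P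
      have h2 : 2 * (p ^ 2 + p - 1) ≤ p ^ 3 := by
        have : 2 * (p ^ 2 + p) ≤ p ^ 3 := by nlinarith [Nat.mul_le_mul hp3 hp3]
        omega
      have h3 : 0 < p ^ 2 + p - 1 := by have := pow_pos hp.out.pos 2; omega
      nlinarith
  obtain ⟨a, b, ha, hb, rfl, -, ⟨k, hk⟩, hbo⟩ := H8.exists_pPart_pPrimePart hp.out t
  have haP : a ∈ (P : Subgroup G) := by
    have h1 := (H8.isPGroup_zpowers_of_orderOf hk).inf_normalizer_sylow P
    exact (h1.le ⟨mem_zpowers a, zpowers_le.2 ht ha⟩).2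
  refine mul_mem (le_centralizer_iff_isMulCommutative.2 hab haP) ?_
  have hbo2 : Odd (orderOf b) := hto.of_dvd_nat (orderOf_dvd_of_mem_zpowers hb)
  by_contra hc
  have h1 := mul_kcl_le P (zpowers_le.2 ht hb)
  have h2 := H2.mul_card_le_of_lt P.isPGroup' (lt_of_le_of_ne
    (inf_le_left : (P : Subgroup G) ⊓ centralizer ({b} : Set G) ≤ P) fun e =>
      hc fun x hx => mem_centralizer_singleton_iff.1 (e.ge hx).2)
  have hb1 : orderOf b ≠ 1 := fun e => hc (orderOf_eq_one_iff.1 e ▸ one_mem _)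
  have hq := Nat.minFac_prime hb1
  have hq2 : (orderOf b).minFac ≠ 2 := fun e =>
    (Nat.not_even_iff_odd.2 hbo2) (even_iff_two_dvd.2 (e ▸ Nat.minFac_dvd _))
  have hqp : (orderOf b).minFac ≠ p := fun e =>
    (hp.out.coprime_iff_not_dvd.1 hbo.symm) (e ▸ Nat.minFac_dvd _)
  have hq3 : 3 ≤ (orderOf b).minFac := by have := hq.two_le; omega
  have h4 : (orderOf b).minFac ≠ 4 := fun e => absurd (e ▸ hq) (by decide)
  have h5 : p ≠ 4 := fun e => absurd (e ▸ hp.out) (by decide)
  generalize (orderOf b).minFac = q at *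
  generalize H3.kcl (fun x : G => ∃ k : ℕ, orderOf x = p ^ k) = K at *
  generalize Nat.card ((P : Subgroup G) ⊓ centralizer ({b} : Set G) : Subgroup G) = c at *
  generalize Nat.card P = n at *
  obtain ⟨q, rfl⟩ := Nat.exists_eq_add_of_le hq3
  obtain ⟨e, rfl⟩ := Nat.exists_eq_add_of_le h2
  obtain ⟨u, rfl⟩ := Nat.exists_eq_add_of_le hp3
  by_cases h6 : u = 0
  · subst h6
    obtain ⟨q, rfl⟩ := Nat.exists_eq_add_of_le (show 2 ≤ q by omega)
    nlinarith
  · obtain ⟨u, rfl⟩ := Nat.exists_eq_add_of_le (show 2 ≤ u by omega)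
    have h7 := Nat.mul_le_mul_left (3 + q) h.le
    nlinarith [Nat.zero_le (q * u * c), Nat.zero_le (q * e), Nat.zero_le (q * c),
      Nat.zero_le (u * c)]


/-- Let π be a finite set of primes containing 2 and G a finite group. Write k_π(G) for the number of conjugacy classes of G consisting of π-elements (elements all of whose order's prime divisors lie in π) and |G|_π for the π-part of the order of G. If k_π(G) > |G|_π/2, then G has a normal π-complement (a normal subgroup of order prime to π whose index is a π-number) and an abelian Hall subgroup for the set of odd primes in π. -/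
theorem result {G : Type*} [Group G] [Finite G] (π : Finset ℕ) (hπ : ∀ r ∈ π, r.Prime) (h2 : 2 ∈ π)
    (hk : π.prod (fun r => r ^ (Nat.card G).factorization r) < 2 * Nat.card {c : ConjClasses G // ∀ x ∈ c.carrier, ∀ r : ℕ, r.Prime → r ∣ orderOf x → r ∈ π}) :
    (∃ N : Subgroup G, N.Normal ∧ (∀ r : ℕ, r.Prime → r ∣ Nat.card ↥N → r ∉ π) ∧ ∀ r : ℕ, r.Prime → r ∣ N.index → r ∈ π) ∧ ∃ H : Subgroup G, Cfsg.IsPiHall ((↑π : Set ℕ) \ {2}) H ∧ IsMulCommutative ↥H := by
  have key : ∀ r ∈ π, ∀ P : Sylow r G,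
      Nat.card P < 2 * H3.kcl (fun x : G => ∃ k : ℕ, orderOf x = r ^ k) := by
    intro r hr P
    haveI := Fact.mk (hπ r hr)
    have h1 := H3.kpi_le_kcl_mul_piPart (G := G) π hπ (hπ r hr)
    have h2 := H3.piPart_eq_mul_erase hr (Nat.card G)
    have h3 := H3.piPart_pos (π := π.erase r) (fun q hq => hπ q (Finset.mem_of_mem_erase hq))
      (Nat.card G)
    have h4 : H3.piPart π (Nat.card G) < 2 * H3.kpi (π : Set ℕ) G := hk
    rw [h2, ← P.card_eq_multiplicity] at h4
    apply lt_of_mul_lt_mul_right _ h3.le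
    calc _ < _ := h4
      _ ≤ _ := Nat.mul_le_mul_left _ h1
      _ = _ := (mul_assoc _ _ _).symm
  haveI := Fact.mk Nat.prime_two
  obtain ⟨S⟩ : Nonempty (Sylow 2 G) := inferInstance
  obtain ⟨K, hK, hK1, m, hK2⟩ := H8.hasNPC_iff_exists.1 (H3.hasNPC_two_of_kcl S (key 2 h2 S))
  have key2 : ∀ r ∈ (π : Set ℕ) \ {2}, ∃ P : Sylow r K,
      normalizer ((P : Subgroup K) : Set K) ≤ centralizer ((P : Subgroup K) : Set K) := by
    rintro r ⟨hr, hr2⟩
    haveI := Fact.mk (hπ r hr)
    obtain ⟨P⟩ : Nonempty (Sylow r G) := inferInstance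
    have hPK : (P : Subgroup G) ≤ K := fun x hx => by
      obtain ⟨k, hk⟩ := H8.exists_orderOf_eq_pow_of_mem P.isPGroup' hx
      refine H8.mem_of_coprime_index ?_
      rw [hk, hK2]
      exact Nat.Coprime.pow _ _ ((Nat.coprime_primes (hπ r hr) Nat.prime_two).2 hr2)
    refine ⟨P.subtype hPK, fun t ht x hx => Subtype.ext ?_⟩
    rw [Sylow.coe_subtype, ← subgroupOf_normalizer_eq hPK] at ht
    exact odd_case hr2 P (key r hr P) ht (Nat.coprime_two_right.1
      (Nat.Coprime.coprime_dvd_left (K.orderOf_dvd_natCard t.2) hK1)) x hx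
  obtain ⟨N, h1, h3, h4, h5⟩ := H3.exists_normal_piComplement (G := K) ((π : Set ℕ) \ {2})
    (fun r hr hrp => by
      haveI := Fact.mk hrp
      obtain ⟨P, hP⟩ := key2 r hr
      exact H8.hasNPC_of_normalizer_le_centralizer P hP)
  obtain ⟨H, hH, hHab⟩ := h5 fun r hr hrp => by
    obtain ⟨P, hP⟩ := key2 r hr
    exact ⟨P, le_centralizer_iff_isMulCommutative.mp (le_normalizer.trans hP)⟩
  refine ⟨⟨N.map K.subtype, ⟨?_⟩, fun r hr hd hrπ => ?_, fun r hr hd => ?_⟩,
    H.map K.subtype, ⟨fun r hr hd => ?_, fun r hr hrπ hd => ?_⟩, inferInstance⟩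
  · rintro _ ⟨n, hn, rfl⟩ g
    refine ⟨⟨g * n * g⁻¹, hK.conj_mem _ n.2 g⟩, H8.mem_of_coprime_index ?_, rfl⟩
    rw [orderOf_mk, ← H3.orderOf_eq_of_isConj (isConj_iff.2 ⟨g, rfl⟩), orderOf_coe]
    exact Nat.coprime_of_dvd fun r hr h6 h7 =>
      h3 r hr (h6.trans (N.orderOf_dvd_natCard hn)) (h4 r hr h7)
  · rw [card_map_of_injective K.subtype_injective] at hd
    refine h3 r hr hd ⟨hrπ, ?_⟩
    rintro rfl
    exact (Nat.prime_two.coprime_iff_not_dvd.1 hK1.symm) (hd.trans N.card_subgroup_dvd_card)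
  · rw [index_map_subtype, hK2] at hd
    rcases hr.dvd_mul.1 hd with h | h
    · exact (h4 r hr h).1
    · rwa [(Nat.prime_dvd_prime_iff_eq hr Nat.prime_two).1 (hr.dvd_of_dvd_pow h)]
  · rw [card_map_of_injective K.subtype_injective] at hd
    exact hH.1 r hr hd
  · rw [index_map_subtype, hK2] at hd
    rcases hr.dvd_mul.1 hd with h | h
    · exact hH.2 r hr hrπ h
    · exact hrπ.2 ((Nat.prime_dvd_prime_iff_eq hr Nat.prime_two).1 (hr.dvd_of_dvd_pow h))

end Cfsg.Agent.S3898
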