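import Cfsg.Statements.S3899
import Cfsg.Agent.H3.ClassCount2
import Cfsg.Agent.H3.PiComplement

set_option autoImplicit false
open Cfsg

namespace Cfsg.Agent.S3899


/-- Let π be a finite non-empty set of odd primes with smallest member p and G a finite group. Write k_π(G) for the number of conjugacy classes of G consisting of π-elements (elements all of whose order's prime divisors lie in π) and |G|_π for the π-part of the order of G. If k_π(G) > (p + 1)|G|_π/(2p), then G has a normal π-complement (a normal subgroup of order prime to π whose index is a π-number) and an abelian Hall π-subgroup. -/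
theorem result {G : Type*} [Group G] [Finite G] (π : Finset ℕ) (hπ : ∀ r ∈ π, r.Prime) (h2 : 2 ∉ π) (p : ℕ) (hp : p ∈ π)
    (hmin : ∀ r ∈ π, p ≤ r) (hk : (p + 1) * π.prod (fun r => r ^ (Nat.card G).factorization r) < 2 * p * Nat.card {c : ConjClasses G // ∀ x ∈ c.carrier, ∀ r : ℕ, r.Prime → r ∣ orderOf x → r ∈ π}) :
    (∃ N : Subgroup G, N.Normal ∧ (∀ r : ℕ, r.Prime → r ∣ Nat.card ↥N → r ∉ π) ∧ ∀ r : ℕ, r.Prime → r ∣ N.index → r ∈ π) ∧ ∃ H : Subgroup G, Cfsg.IsPiHall (↑π : Set ℕ) H ∧ IsMulCommutative ↥H := by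
  have key : ∀ r ∈ π, ∀ P : Sylow r G, Subgroup.normalizer ((P : Subgroup G) : Set G) ≤
      Subgroup.centralizer ((P : Subgroup G) : Set G) := by
    intro r hr P
    haveI := Fact.mk (hπ r hr)
    apply H3.normalizer_le_centralizer_of_kcl P
    have h1 := H3.kpi_le_kcl_mul_piPart (G := G) π hπ (hπ r hr)
    have h2 := H3.piPart_eq_mul_erase hr (Nat.card G)
    have h3 := H3.piPart_pos (π := π.erase r) (fun q hq => hπ q (Finset.mem_of_mem_erase hq))
      (Nat.card G)
    have h4 : (p + 1) * H3.piPart π (Nat.card G) < 2 * p * H3.kpi (π : Set ℕ) G := hk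
    rw [h2, ← P.card_eq_multiplicity] at h4
    have h5 : (p + 1) * Nat.card P <
        2 * p * H3.kcl (fun x : G => ∃ k : ℕ, orderOf x = r ^ k) := by
      apply lt_of_mul_lt_mul_right _ h3.le
      calc _ = _ := mul_assoc _ _ _
        _ < _ := h4
        _ ≤ _ := Nat.mul_le_mul_left _ h1
        _ = _ := (mul_assoc _ _ _).symm
    have h6 := hmin r hr
    have h7 := (hπ p hp).pos
    generalize H3.kcl (fun x : G => ∃ k : ℕ, orderOf x = r ^ k) = K at *
    generalize Nat.card P = n at *
    by_contra h8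
    push Not at h8
    obtain ⟨d, rfl⟩ := Nat.exists_eq_add_of_le h6
    have h9 : n < 2 * K := by nlinarith
    nlinarith
  obtain ⟨N, h1, h3, h4, h5⟩ := H3.exists_normal_piComplement (G := G) (π : Set ℕ)
    (fun r hr hrp => by
      haveI := Fact.mk hrp
      obtain ⟨P⟩ : Nonempty (Sylow r G) := inferInstance
      exact H8.hasNPC_of_normalizer_le_centralizer P (key r hr P))
  refine ⟨⟨N, h1, h3, h4⟩, h5 fun r hr hrp => ?_⟩
  obtain ⟨P⟩ : Nonempty (Sylow r G) := inferInstance
  exact ⟨P, Subgroup.le_centralizer_iff_isMulCommutative.mp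
    (Subgroup.le_normalizer.trans (key r hr P))⟩

end Cfsg.Agent.S3899
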