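import Cfsg.Statements.S3900
import Cfsg.Agent.FT.Final
import Cfsg.Agent.H1.Solv
import Cfsg.Agent.H1.PAction
import Cfsg.Agent.H8.Frobenius
import Cfsg.Agent.H9.FixCount
import Cfsg.Agent.H3.Cover
import Cfsg.Agent.L.SimpleRed
import Cfsg.Agent.L.BaerSuzuki

set_option autoImplicit false
open Cfsg

namespace Cfsg.Agent.S3900

open Subgroup
open scoped commutatorElement

universe u

/-- Left-normed commutator values of length `k + 1`. -/
def Val {G : Type*} [Group G] : ℕ → G → Prop
  | 0, _ => True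
  | k + 1, x => ∃ y z : G, Val k y ∧ x = ⁅y, z⁆

variable {G : Type*} [Group G]

theorem val_iff_list (k : ℕ) (x : G) : Val k x ↔ ∃ (a : G) (l : List G), l.length = k ∧
    x = l.foldl (fun a b => a * b * a⁻¹ * b⁻¹) a := by
  induction k generalizing x with
  | zero => exact iff_of_true trivial ⟨x, [], rfl, rfl⟩
  | succ k ih =>
    constructor
    · rintro ⟨y, z, hy, rfl⟩
      obtain ⟨a, l, hl, rfl⟩ := (ih y).1 hy
      exact ⟨a, l ++ [z], by simp [hl], by rw [List.foldl_append]; rfl⟩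
    · rintro ⟨a, l, hl, rfl⟩
      obtain ⟨l', z, rfl⟩ : ∃ l' z, l = l' ++ [z] := by
        rcases l.eq_nil_or_concat' with rfl | h
        · simp at hl
        · exact h
      refine ⟨_, z, (ih _).2 ⟨a, l', by simpa using hl, rfl⟩, ?_⟩
      rw [List.foldl_append]; rfl

theorem val_iff (k : ℕ) (x : G) : (∃ f : Fin (k + 1) → G,
    x = ((List.ofFn f).tail).foldl (fun a b => a * b * a⁻¹ * b⁻¹) (f 0)) ↔ Val k x := by
  rw [val_iff_list]
  constructor
  · rintro ⟨f, rfl⟩
    exact ⟨f 0, (List.ofFn f).tail, by simp, rfl⟩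
  · rintro ⟨a, l, rfl, rfl⟩
    refine ⟨Fin.cons a l.get, ?_⟩
    rw [List.ofFn_succ]
    simp

theorem Val.map {H : Type*} [Group H] (f : G →* H) {k : ℕ} {x : G} (h : Val k x) :
    Val k (f x) := by
  induction k generalizing x with
  | zero => trivial
  | succ k ih =>
    obtain ⟨y, z, hy, rfl⟩ := h
    exact ⟨f y, f z, ih hy, map_commutatorElement f y z⟩

theorem Val.lift {H : Type*} [Group H] {f : G →* H} (hf : Function.Surjective f) {k : ℕ} {y : H}
    (h : Val k y) : ∃ x, Val k x ∧ f x = y := by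
  induction k generalizing y with
  | zero => obtain ⟨x, rfl⟩ := hf y; exact ⟨x, trivial, rfl⟩
  | succ k ih =>
    obtain ⟨y, z, hy, rfl⟩ := h
    obtain ⟨y, hy', rfl⟩ := ih hy
    obtain ⟨z, rfl⟩ := hf z
    exact ⟨_, ⟨y, z, hy', rfl⟩, map_commutatorElement f y z⟩

theorem Val.conj {k : ℕ} {x : G} (h : Val k x) (g : G) : Val k (g * x * g⁻¹) :=
  h.map (MulAut.conj g).toMonoidHom

theorem Val.pred {k : ℕ} {x : G} (h : Val (k + 1) x) : Val k x := by
  induction k generalizing x with
  | zero => trivial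
  | succ k ih =>
    obtain ⟨y, z, hy, rfl⟩ := h
    exact ⟨y, z, ih hy, rfl⟩

theorem Val.comm {k : ℕ} {x : G} (h : Val k x) (z : G) : Val k ⁅x, z⁆ :=
  Val.pred ⟨x, z, h, rfl⟩

theorem Val.inv {k : ℕ} {x : G} (h : Val k x) : Val k x⁻¹ := by
  rcases k with _ | k
  · trivial
  · obtain ⟨y, z, hy, rfl⟩ := h
    have : ⁅y, z⁆⁻¹ = z * ⁅y, z⁻¹⁆ * z⁻¹ := by simp only [commutatorElement_def]; group
    rw [this]
    exact Val.conj (k := k + 1) ⟨y, z⁻¹, hy, rfl⟩ z

theorem Val.mem {k : ℕ} {x : G} (h : Val k x) : x ∈ (⊤ : Subgroup G).lowerCentralSeries k := by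
  induction k generalizing x with
  | zero => trivial
  | succ k ih =>
    obtain ⟨y, z, hy, rfl⟩ := h
    exact commutator_mem_commutator (ih hy) trivial

/-- The subgroup generated by the values lying in `P`. -/
def D (k : ℕ) (P : Subgroup G) : Subgroup G := closure {x | x ∈ P ∧ Val k x}

theorem D_le (k : ℕ) (P : Subgroup G) : D k P ≤ P := (closure_le _).2 fun _ h => h.1

theorem conj_mem_D {k : ℕ} {P : Subgroup G} {a x : G} (ha : a ∈ P) (hx : x ∈ D k P) :
    a * x * a⁻¹ ∈ D k P := by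
  have : D k P ≤ (D k P).comap (MulAut.conj a).toMonoidHom :=
    (closure_le _).2 fun y hy => subset_closure ⟨mul_mem (mul_mem ha hy.1) (inv_mem ha), hy.2.conj a⟩
  exact this hx

theorem D_step {k : ℕ} {P A Y : Subgroup G} (hA : A ≤ normalizer (P : Set G)) (hY : Y ≤ D k P) :
    ⁅Y, A⁆ ≤ D (k + 1) P := by
  rw [commutator_le]
  intro y hy z hz
  replace hy := hY hy
  induction hy using closure_induction with
  | mem y hy =>
    refine subset_closure ⟨?_, y, z, hy.2, rfl⟩
    rw [commutatorElement_def, mul_assoc, mul_assoc, ← mul_assoc z]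
    exact mul_mem hy.1 ((mem_normalizer_iff.1 (hA hz) _).1 (inv_mem hy.1))
  | one => simp
  | mul a b ha hb e1 e2 =>
    have : ⁅a * b, z⁆ = a * ⁅b, z⁆ * a⁻¹ * ⁅a, z⁆ := by simp only [commutatorElement_def]; group
    rw [this]
    exact mul_mem (conj_mem_D (D_le k P ha) e2) e1
  | inv a ha e =>
    have : ⁅a⁻¹, z⁆ = a⁻¹ * ⁅a, z⁆⁻¹ * a⁻¹⁻¹ := by simp only [commutatorElement_def]; group
    rw [this]
    exact conj_mem_D (inv_mem (D_le k P ha)) (inv_mem e)

theorem le_D (k : ℕ) {P A : Subgroup G} (hA : A ≤ normalizer (P : Set G)) (h : ⁅P, A⁆ = P) :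
    P ≤ D k P := by
  induction k with
  | zero => exact fun x hx => subset_closure ⟨hx, trivial⟩
  | succ k ih => exact h.ge.trans (D_step hA ih)

theorem lcs_le_D (k : ℕ) : (⊤ : Subgroup G).lowerCentralSeries k ≤ D k ⊤ := by
  induction k with
  | zero => exact fun x hx => subset_closure ⟨hx, trivial⟩
  | succ k ih => exact D_step le_normalizer ih

/-- The consequence of the hypothesis that is used. -/
def Hyp (k : ℕ) (G : Type*) [Group G] : Prop :=
  ∀ x y : G, Val k x → (orderOf x).Coprime (orderOf ⁅x, y⁆) → ⁅x, y⁆ = 1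

theorem Hyp.subgroup {k : ℕ} (h : Hyp k G) (H : Subgroup G) : Hyp k H := fun x y hx hc =>
  Subtype.ext (h x y (hx.map H.subtype) (by rwa [← orderOf_coe, ← orderOf_coe] at hc))

theorem Hyp.cent {k : ℕ} (h : Hyp k G) {x : G} (hx : Val k x) {N : Subgroup G}
    (hn : x ∈ normalizer (N : Set G)) (hc : (orderOf x).Coprime (Nat.card N)) :
    x ∈ centralizer (N : Set G) := by
  rw [mem_centralizer_iff]
  intro y hy
  have : ⁅x, y⁆ ∈ N := mul_mem ((mem_normalizer_iff.1 hn _).1 hy) (inv_mem hy)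
  exact (commutatorElement_eq_one_iff_mul_comm.1
    (h x y hx (hc.coprime_dvd_right (orderOf_dvd_natCard N this)))).symm

theorem lift [Finite G] {H : Type*} [Group H] [Finite H] {f : G →* H}
    (hf : Function.Surjective f) {p : ℕ} [hp : Fact p.Prime] {X : Subgroup H} (hX : IsPGroup p X)
    {g : H} (hg : g ∈ normalizer (X : Set H)) (hc : (orderOf g).Coprime p)
    (hn : g ∉ centralizer (X : Set H)) : ∃ (P : Subgroup G) (a : G), IsPGroup p P ∧
      a ∈ normalizer (P : Set G) ∧ (orderOf a).Coprime p ∧ P.map f = X ∧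
      ¬ ⁅P, zpowers a⁆ ≤ f.ker := by
  obtain ⟨P, hPY, hP, hPi⟩ := H1.exists_sylow_le p (X.comap f)
  have hPX : P.map f = X := by
    refine le_antisymm (map_le_iff_le_comap.2 hPY) ?_
    by_contra hlt
    apply hPi
    obtain ⟨n, hn⟩ : ∃ n, (P.map f).relIndex X = p ^ n := hX.index _
    have h0 : n ≠ 0 := by
      rintro rfl
      exact hlt (relIndex_eq_one.1 (by simpa using hn))
    have h1 : ((P.map f).comap f).relIndex (X.comap f) = p ^ n := by
      rw [relIndex_comap, map_comap_eq_self_of_surjective hf, hn]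
    exact ((dvd_pow_self p h0).trans h1.symm.dvd).trans
      (relIndex_dvd_of_le_left _ (le_comap_map _ _))
  obtain ⟨g, rfl⟩ := hf g
  obtain ⟨y, hy, hyg⟩ := H1.frattini_argument hPY hP hPi (x := g) (by
    rw [← comap_normalizer_eq_of_surjective X hf]; exact hg)
  obtain ⟨a, b, ha, hb, e, -, ⟨j, hj⟩, hbc⟩ := H8.exists_pPart_pPrimePart hp.out (y * g)
  refine ⟨P, b, hP, zpowers_le.2 hyg hb, hbc, hPX, fun hle => hn ?_⟩
  have hbC : f b ∈ centralizer (X : Set H) := by
    rw [mem_centralizer_iff, ← hPX]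
    rintro _ ⟨z, hz, rfl⟩
    have := hle (commutator_mem_commutator hz (mem_zpowers b))
    rwa [MonoidHom.mem_ker, map_commutatorElement, commutatorElement_eq_one_iff_mul_comm] at this
  have haN : f a ∈ normalizer (X : Set H) := by
    rw [← hPX]
    exact le_normalizer_map f ⟨a, zpowers_le.2 hyg ha, rfl⟩
  have hu : IsPGroup p (zpowers (f a) ⊔ X : Subgroup H) := by
    refine IsPGroup.to_sup_of_normal_right' ?_ hX (zpowers_le.2 haN)
    rw [← MonoidHom.map_zpowers]
    exact (H8.isPGroup_zpowers_of_orderOf hj).map f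
  have huN : (f y)⁻¹ * f a ∈ normalizer (X : Set H) := mul_mem (inv_mem (le_normalizer hy)) haN
  obtain ⟨i, hi⟩ := hu ⟨(f y)⁻¹ * f a,
    mul_mem (inv_mem (mem_sup_right hy)) (mem_sup_left (mem_zpowers _))⟩
  replace hi : ((f y)⁻¹ * f a) ^ p ^ i = 1 := congrArg Subtype.val hi
  let ψ := H1.conjAut (le_refl (normalizer (X : Set H)))
  have e1 : ψ ⟨f g, hg⟩ = ψ ⟨_, huN⟩ := by
    have : (⟨f g, hg⟩ : normalizer (X : Set H)) =
        ⟨_, huN⟩ * ⟨f b, centralizer_le_normalizer _ hbC⟩ := by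
      apply Subtype.ext
      change f g = (f y)⁻¹ * f a * f b
      rw [mul_assoc, ← map_mul, ← e, map_mul, inv_mul_cancel_left]
    rw [this, map_mul, show ψ ⟨f b, centralizer_le_normalizer _ hbC⟩ = 1 from
      (H1.mem_ker_conjAut _).2 hbC, mul_one]
  refine H8.mem_of_pow_mem_of_coprime (hc.pow_right i) ?_
  have e2 : ψ (⟨f g, hg⟩ ^ p ^ i) = 1 := by
    rw [map_pow, e1, ← map_pow, show (⟨_, huN⟩ : normalizer (X : Set H)) ^ p ^ i = 1 from
      Subtype.ext hi, map_one]
  exact (H1.mem_ker_conjAut _).1 e2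

theorem comm_le_D [Finite G] (k : ℕ) {p : ℕ} [Fact p.Prime] {P : Subgroup G} (hP : IsPGroup p P)
    {a : G} (ha : a ∈ normalizer (P : Set G)) (hc : (orderOf a).Coprime p) :
    ⁅P, zpowers a⁆ ≤ D k ⁅P, zpowers a⁆ :=
  le_D k H1.le_normalizer_commutator_self (H1.commutator_commutator_eq (zpowers_le.2 ha)
    (H1.coprime_card_of_isPGroup hP (by rwa [Nat.card_zpowers])))

theorem Hyp.cent_pCore [Finite G] {k : ℕ} (h : Hyp k G) {x : G} (hx : Val k x) {p q j : ℕ}
    (hp : p.Prime) (hq : q.Prime) (hne : p ≠ q) (hj : orderOf x = p ^ j) :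
    x ∈ centralizer (pCore q G : Set G) := by
  have := Fact.mk hq
  refine h.cent hx (by rw [normalizer_eq_top]; trivial)
    (H1.coprime_card_of_isPGroup (L.isPGroup_pCore _) ?_)
  rw [hj]
  exact ((Nat.coprime_primes hp hq).2 hne).pow_left j

theorem mem_fitting [Finite G] [Group.IsSolvable G] {k : ℕ} (h : Hyp k G) {p : ℕ}
    [hp : Fact p.Prime] {P : Subgroup G} (hP : IsPGroup p P)
    (hle : P.map (QuotientGroup.mk' (fittingSubgroup G)) ≤ pCore p _) {x : G} (hx : Val k x)
    (hxP : x ∈ P) : x ∈ fittingSubgroup G := by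
  obtain ⟨j, hj⟩ := H8.exists_orderOf_eq_pow_of_mem hP hxP
  obtain ⟨C, hC⟩ : ∃ C, C = (pCore p _).comap (QuotientGroup.mk' (fittingSubgroup G)) ⊓
    ⨅ q : {q : ℕ // q.Prime ∧ p ≠ q}, centralizer (pCore q G : Set G) := ⟨_, rfl⟩
  have : C.Normal := by
    have : (⨅ q : {q : ℕ // q.Prime ∧ p ≠ q}, centralizer (pCore q G : Set G)).Normal :=
      normal_iInf_normal fun _ => inferInstance
    rw [hC]; infer_instance
  refine H1.le_fittingSubgroup_of_coprime_centralizes C (fun c hc q hq hcq => ?_) ?_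
  · refine centralizer_le inf_le_left ?_
    rw [hC] at hc
    by_cases e : p = q
    · subst e
      have h1 : c ∈ fittingSubgroup G := by
        obtain ⟨i, hi⟩ := H8.exists_orderOf_eq_pow_of_mem (L.isPGroup_pCore _) (mem_inf.1 hc).1
        exact (QuotientGroup.eq_one_iff c).1 (H8.eq_one_of_orderOf_pow_of_coprime hi
          (hcq.coprime_dvd_left (orderOf_map_dvd (QuotientGroup.mk' _) c)))
      rw [mem_centralizer_iff]
      intro y hy
      obtain ⟨i, hi⟩ := H8.exists_orderOf_eq_pow_of_mem (L.isPGroup_pCore _) hy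
      exact H3.commute_of_coprime_of_isNilpotent inferInstance (L.pCore_le_fittingSubgroup hq hy) h1
        (hcq.symm.pow_left i) (hi ▸ pow_orderOf_eq_one y) (pow_orderOf_eq_one c)
    · exact mem_iInf.1 (mem_inf.1 hc).2 ⟨q, hq, e⟩
  · rw [hC]
    exact mem_inf.2 ⟨hle ⟨x, hxP, rfl⟩, mem_iInf.2 fun q => h.cent_pCore hx hp.out q.2.1 q.2.2 hj⟩

theorem solvable_case [Finite G] [Group.IsSolvable G] {k : ℕ} (h : Hyp k G) :
    Group.IsNilpotent ((⊤ : Subgroup G).lowerCentralSeries k) := by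
  have hs := QuotientGroup.mk'_surjective (fittingSubgroup G)
  have hnil : Group.IsNilpotent (G ⧸ fittingSubgroup G) := by
    refine H1.isNilpotent_of_coprime_centralizes_pCore fun c p hp hc => ?_
    have := Fact.mk hp
    by_contra hn
    obtain ⟨P, a, hP, ha, hac, hPX, hne⟩ := lift hs (L.isPGroup_pCore _)
      (by rw [normalizer_eq_top]; trivial) hc hn
    apply hne
    rw [QuotientGroup.ker_mk']
    refine (comm_le_D k hP ha hac).trans ((closure_le _).2 fun x hx => ?_)
    exact mem_fitting h hP hPX.le hx.2 (H1.commutator_le_of_le_normalizer (zpowers_le.2 ha) hx.1)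
  refine L.isNilpotent_of_le (B := fittingSubgroup G) ((lcs_le_D k).trans ((closure_le _).2 ?_))
  rintro x ⟨-, hx⟩
  rw [SetLike.mem_coe, ← QuotientGroup.eq_one_iff, ← orderOf_eq_one_iff]
  by_contra hne
  obtain ⟨p, hp, hd⟩ := Nat.exists_prime_and_dvd hne
  have := Fact.mk hp
  obtain ⟨P⟩ : Nonempty (Sylow p G) := inferInstance
  have hq := H8.hasNPC_iff_isPGroup_quotient_pPrimeCore.1
    (H8.hasNPC_of_isNilpotent (G := G ⧸ fittingSubgroup G) p)
  obtain ⟨φ, hφ⟩ : ∃ φ, φ = (QuotientGroup.mk' (pPrimeCore p (G ⧸ fittingSubgroup G))).comp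
    (QuotientGroup.mk' (fittingSubgroup G)) := ⟨_, rfl⟩
  have hφs : Function.Surjective φ := hφ ▸ (QuotientGroup.mk'_surjective _).comp hs
  have hsurj : Function.Surjective (φ.comp (P : Subgroup G).subtype) := by
    rw [← MonoidHom.range_eq_top, MonoidHom.range_comp, range_subtype, eq_comm]
    exact ((P.mapSurjective hφs).is_maximal' (hq.to_subgroup ⊤) le_top)
  obtain ⟨y, hy, e⟩ := (hx.map φ).lift hsurj
  have hyF : (y : G) ∈ fittingSubgroup G := mem_fitting h P.isPGroup'
    (L.sylow_eq_pCore_of_isNilpotent (P.mapSurjective hs)).le (hy.map (P : Subgroup G).subtype) y.2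
  have h1 : φ x = 1 := by
    rw [← e, hφ]
    change QuotientGroup.mk' _ ((y : G) : G ⧸ fittingSubgroup G) = 1
    rw [(QuotientGroup.eq_one_iff _).2 hyF, map_one]
  rw [hφ] at h1
  have h2 : (x : G ⧸ fittingSubgroup G) ∈ pPrimeCore p _ := (QuotientGroup.eq_one_iff _).1 h1
  exact L.not_dvd_card_pPrimeCore hp (hd.trans (orderOf_dvd_natCard _ h2))

theorem main (k n : ℕ) : ∀ (G : Type u) [Group G] [Finite G], Nat.card G = n → Hyp k G →
    Group.IsSolvable G := by
  induction n using Nat.strong_induction_on with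
  | _ n ih =>
  intro G _ _ hn h
  by_contra hG
  have hsub : ∀ H : Subgroup G, H ≠ ⊤ → Group.IsSolvable H := fun H hH =>
    ih _ (hn ▸ L.card_lt_of_ne_top hH) H rfl (h.subgroup H)
  have hnt : Nontrivial G := by
    by_contra hs
    rw [not_nontrivial_iff_subsingleton] at hs
    exact hG inferInstance
  obtain ⟨R, -, hR⟩ := Finite.exists_le_maximal (p := fun N : Subgroup G => N.Normal ∧ N ≠ ⊤)
    (a := ⊥) ⟨inferInstance, bot_ne_top⟩
  have := hR.1.1
  have hs := QuotientGroup.mk'_surjective R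
  have hQ : ¬ Group.IsSolvable (G ⧸ R) := fun e =>
    hG (L.isSolvable_of_normal_of_quotient R (hsub R hR.1.2) e)
  have hsup : ∀ H : Subgroup G, H ⊔ R = ⊤ → H = ⊤ := by
    intro H hH
    by_contra hne
    have := hsub H hne
    refine hQ (Group.isSolvable_of_surjective (f := (QuotientGroup.mk' R).comp H.subtype) ?_)
    rw [← MonoidHom.range_eq_top, MonoidHom.range_comp, range_subtype, ← map_top_of_surjective _ hs,
      ← hH, Subgroup.map_sup, QuotientGroup.map_mk'_self, sup_bot_eq]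
  have hnorm : ∀ N : Subgroup G, N.Normal → N ≤ R ∨ N = ⊤ := by
    intro N hN
    by_cases e : N ⊔ R = ⊤
    · exact Or.inr (hsup N e)
    · exact Or.inl (le_sup_left.trans (hR.2 ⟨inferInstance, e⟩ le_sup_right))
  have hQnt : Nontrivial (G ⧸ R) := by
    by_contra hs
    rw [not_nontrivial_iff_subsingleton] at hs
    exact hQ inferInstance
  have hsimple : IsSimpleGroup (G ⧸ R) := ⟨fun N hN => by
    rcases hnorm (N.comap (QuotientGroup.mk' R)) inferInstance with e | e
    · left
      rw [← map_comap_eq_self_of_surjective hs N, Subgroup.map_eq_bot_iff, QuotientGroup.ker_mk']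
      exact e
    · right
      rw [← map_comap_eq_self_of_surjective hs N, e, map_top_of_surjective _ hs]⟩
  have hnc : ¬ IsMulCommutative (G ⧸ R) := fun e => hQ (Group.isSolvable_of_comm mul_comm')
  have key : ∀ p : ℕ, p.Prime → p ∣ Nat.card (G ⧸ R) → ∃ (P : Subgroup G) (a : G), IsPGroup p P ∧
      a ∈ normalizer (P : Set G) ∧ (orderOf a).Coprime p ∧ ¬ ⁅P, zpowers a⁆ ≤ R := by
    intro p hp hd
    have := Fact.mk hp
    obtain ⟨S⟩ : Nonempty (Sylow p (G ⧸ R)) := inferInstance
    obtain ⟨X, hX, -, g, hg, q, j, hq, hqp, hj, hgc⟩ :=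
      H8.exists_primePow_not_centralizes (H9.not_hasNPC_of_simple hnc hd) S
    obtain ⟨P, a, hP, ha, hac, -, hne⟩ := lift hs (S.isPGroup'.to_le hX) hg
      (hj ▸ ((Nat.coprime_primes hq hp).2 hqp).pow_left j) hgc
    rw [QuotientGroup.ker_mk'] at hne
    exact ⟨P, a, hP, ha, hac, hne⟩
  have hRZ : R ≤ center G := by
    have h1 : R ≤ frattini G := by
      rw [frattini, Order.radical]
      refine le_iInf₂ fun M hM => ?_
      by_contra hle
      exact hM.1 (hsup M (hM.2 _ (left_lt_sup.2 hle)))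
    have h2 : frattini G ≤ fittingSubgroup G :=
      L.le_fittingSubgroup inferInstance frattini_nilpotent
    refine h1.trans (h2.trans ?_)
    rw [L.fittingSubgroup_eq_iSup_pCore]
    refine iSup_le fun q => ?_
    have := Fact.mk q.2
    obtain ⟨p, hp, hd, hpq⟩ : ∃ p, p.Prime ∧ p ∣ Nat.card (G ⧸ R) ∧ p ≠ q := by
      by_contra hc
      push Not at hc
      have : IsPGroup q (G ⧸ R) := IsPGroup.of_card
        (Nat.eq_prime_pow_of_unique_prime_dvd Nat.card_pos.ne' fun {d} a b => hc d a b)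
      have := this.isNilpotent
      exact hQ inferInstance
    have := Fact.mk hp
    obtain ⟨P, a, hP, ha, hac, hne⟩ := key p hp hd
    refine centralizer_eq_top_iff_subset.1 ((hnorm _ inferInstance).resolve_left fun hle => hne ?_)
    refine (comm_le_D k hP ha hac).trans ((closure_le _).2 fun x hx => hle ?_)
    obtain ⟨j, hj⟩ := H8.exists_orderOf_eq_pow_of_mem hP
      (H1.commutator_le_of_le_normalizer (zpowers_le.2 ha) hx.1)
    exact h.cent_pCore hx.2 hp q.2 hpq hj
  have h2 : 2 ∣ Nat.card (G ⧸ R) := by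
    by_contra hc
    exact hQ (FT.feit_thompson _ (Nat.odd_iff.2 (by omega)))
  obtain ⟨f, hf⟩ : ∃ f, f = QuotientGroup.mk' R := ⟨_, rfl⟩
  rw [← hf] at hs
  have hker : f.ker = R := hf ▸ QuotientGroup.ker_mk' R
  obtain ⟨P, a, hP, ha, hac, hne⟩ := key 2 Nat.prime_two h2
  obtain ⟨t, htP, htv, ht1, ht2⟩ : ∃ t ∈ P, Val k t ∧ f t ≠ 1 ∧ f t * f t = 1 := by
    have hA : zpowers (f a) ≤ normalizer (P.map f : Set (G ⧸ R)) :=
      zpowers_le.2 (le_normalizer_map f ⟨a, ha, rfl⟩)
    obtain ⟨U, hUP, hUn, hU1, hmin⟩ := H1.exists_minimal_nontrivial (A := zpowers (f a)) hA (by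
      rw [← MonoidHom.map_zpowers, ← map_commutator, Ne, Subgroup.map_eq_bot_iff, hker]; exact hne)
    have hU : IsPGroup 2 U := (hP.map f).to_le hUP
    have hAc : (Nat.card (zpowers (f a))).Coprime 2 := by
      rw [Nat.card_zpowers]; exact hac.coprime_dvd_left (orderOf_map_dvd f a)
    have m1 := H1.minimal_commutator_eq hU hUn le_rfl le_normalizer hAc hU1 hmin
    have m2 := H1.minimal_commutator_pow hU hUn le_rfl le_normalizer hAc hU1 hmin
    have m3 := H1.minimal_frattini_eq hU hUn le_rfl le_normalizer hAc hU1 hmin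
    obtain ⟨V, hV⟩ : ∃ V, V = P ⊓ U.comap f := ⟨_, rfl⟩
    have hVP : V ≤ P := hV ▸ inf_le_left
    have hVa : a ∈ normalizer (V : Set G) := by
      rw [hV]
      refine H1.le_normalizer_inf (zpowers_le.2 ha) ?_ (mem_zpowers a)
      rw [← comap_normalizer_eq_of_surjective U hs, zpowers_le]
      exact hUn (mem_zpowers _)
    have hVU : V.map f = U := by
      refine le_antisymm (map_le_iff_le_comap.2 (hV ▸ inf_le_right)) fun u hu => ?_
      obtain ⟨y, hy, rfl⟩ := hUP hu
      exact ⟨y, hV ▸ mem_inf.2 ⟨hy, hu⟩, rfl⟩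
    have hW : (⁅V, zpowers a⁆).map f = U := by
      rw [map_commutator, hVU, MonoidHom.map_zpowers, m1]
    have hWV : ⁅V, zpowers a⁆ ≤ V := H1.commutator_le_of_le_normalizer (zpowers_le.2 hVa)
    have hD := comm_le_D k (hP.to_le hVP) hVa hac
    by_contra hc
    push Not at hc
    have hcen : U ≤ centralizer (U : Set (G ⧸ R)) := by
      conv_lhs => rw [← hW]
      rw [map_le_iff_le_comap]
      refine hD.trans ((closure_le _).2 fun x hx => ?_)
      change f x ∈ centralizer (U : Set (G ⧸ R))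
      rw [mem_centralizer_iff]
      intro u hu
      obtain ⟨y, hy, rfl⟩ := hVU.ge hu
      refine (commutatorElement_eq_one_iff_mul_comm.1 ?_).symm
      by_contra h1
      have hxP := hVP (hWV hx.1)
      refine hc ⁅x, y⁆ (mul_mem (mul_mem (mul_mem hxP (hVP hy)) (inv_mem hxP)) (inv_mem (hVP hy)))
        (hx.2.comm y) (by rwa [map_commutatorElement]) ?_
      rw [map_commutatorElement, ← sq]
      exact m2 _ (hW.le ⟨x, hx.1, rfl⟩) _ hu
    have hbot : ⁅U, U⁆ = ⊥ := commutator_eq_bot_iff_le_centralizer.2 hcen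
    apply hU1
    rw [m1, ← hW, Subgroup.map_eq_bot_iff]
    refine hD.trans ((closure_le _).2 fun x hx => ?_)
    by_contra h1
    refine hc x (hVP (hWV hx.1)) hx.2 h1 ?_
    have := H1.pow_mem_frattiniOf hU (hW.le ⟨x, hx.1, rfl⟩)
    rwa [m3, hbot, mem_bot, sq] at this
  have hO : f t ∉ pCore 2 (G ⧸ R) := by
    intro hm
    rcases hsimple.eq_bot_or_eq_top_of_normal (pCore 2 (G ⧸ R)) inferInstance with e | e
    · rw [e] at hm; exact ht1 hm
    · have : IsPGroup 2 (G ⧸ R) := by
        have := L.isPGroup_pCore (G := G ⧸ R) 2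
        rw [e] at this
        exact this.of_equiv topEquiv
      have := this.isNilpotent
      exact hQ inferInstance
  obtain ⟨x, hxp, hx2, hinv, -⟩ := L.exists_inverted_of_not_mem_pCore ht2 hO
  obtain ⟨g, rfl⟩ := hs x
  have hodd : (orderOf (f g)).Coprime 2 := (Nat.coprime_primes hxp Nat.prime_two).2 hx2
  obtain ⟨c, b, hc, -, e, -, ⟨j, hj⟩, hb⟩ := H8.exists_pPart_pPrimePart Nat.prime_two g
  have hfc : f c = 1 := by
    obtain ⟨i, -, hi⟩ := (Nat.dvd_prime_pow Nat.prime_two).1 (hj ▸ orderOf_map_dvd f c)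
    refine H8.eq_one_of_orderOf_pow_of_coprime hi (hodd.coprime_dvd_left ?_)
    obtain ⟨m, rfl⟩ := hc
    rw [map_zpow]
    exact orderOf_dvd_of_mem_zpowers ⟨m, rfl⟩
  have hfb : f g = f b := by rw [e, map_mul, hfc, one_mul]
  rw [hfb] at hinv hodd hxp
  have hz : t * b * t⁻¹ * b ∈ center G := hRZ (by
    rw [← hker, MonoidHom.mem_ker]
    simp only [map_mul, map_inv, hinv, inv_mul_cancel])
  have hcm : Commute (t * b * t⁻¹) b⁻¹ := by
    have := mem_center_iff.1 hz b⁻¹
    calc t * b * t⁻¹ * b⁻¹ = t * b * t⁻¹ * b * b⁻¹ * b⁻¹ := by group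
      _ = b⁻¹ * (t * b * t⁻¹) := by rw [← this]; group
  obtain ⟨i, hi⟩ := H8.exists_orderOf_eq_pow_of_mem hP htP
  have h3 := h t b htv (by
    rw [hi]
    refine (Nat.Coprime.coprime_dvd_left (orderOf_dvd_of_pow_eq_one (n := orderOf b) ?_)
      hb).symm.pow_left i
    rw [commutatorElement_def, hcm.mul_pow, conj_pow, inv_pow, pow_orderOf_eq_one]
    group)
  have h4 : f b ^ 2 = 1 := by
    have := congrArg f h3
    rw [map_commutatorElement, commutatorElement_def, hinv, map_one, ← mul_inv_rev, inv_eq_one] at this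
    rwa [sq]
  have := Nat.Coprime.eq_one_of_dvd hodd (orderOf_dvd_of_pow_eq_one h4)
  exact hxp.one_lt.ne' this


/-- A criterion of Baumslag–Wiegold type for a term of the lower central series. Let G be a finite group and k ≥ 0; call an element a left-normed commutator value of length k + 1 when it has the form [[…[x₀, x₁], …], x_k] with k + 1 entries (for k = 0, any element), where [a, b] = aba⁻¹b⁻¹. Then the (k+1)-st term γ_{k+1}(G) of the lower central series (γ₁(G) = G) is nilpotent if and only if for every two such values x, y of coprime orders, either every prime dividing o(x)·o(y) divides o(xy), or o(x)·o(y) ≤ o(xy). -/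
theorem result {G : Type*} [Group G] [Finite G] (k : ℕ) :
    Group.IsNilpotent ↥((⊤ : Subgroup G).lowerCentralSeries k) ↔
      ∀ x y : G, (∃ f : Fin (k + 1) → G, x = ((List.ofFn f).tail).foldl (fun a b => a * b * a⁻¹ * b⁻¹) (f 0)) → (∃ f : Fin (k + 1) → G, y = ((List.ofFn f).tail).foldl (fun a b => a * b * a⁻¹ * b⁻¹) (f 0)) → (orderOf x).Coprime (orderOf y) →
        (∀ r : ℕ, r.Prime → r ∣ orderOf x * orderOf y → r ∣ orderOf (x * y)) ∨ orderOf x * orderOf y ≤ orderOf (x * y) := by
  simp only [val_iff]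
  constructor
  · intro h x y hx hy hc
    right
    have := H3.commute_of_coprime_of_isNilpotent h hx.mem hy.mem hc (pow_orderOf_eq_one x)
      (pow_orderOf_eq_one y)
    rw [this.orderOf_mul_eq_mul_orderOf_of_coprime hc]
  · intro h
    have hH : Hyp k G := by
      intro x y hx hc
      have e : orderOf (x⁻¹ * ⁅x, y⁆) = orderOf x := by
        rw [show x⁻¹ * ⁅x, y⁆ = y * x⁻¹ * y⁻¹ by rw [commutatorElement_def]; group,
          ← MulAut.conj_apply, MulEquiv.orderOf_eq, orderOf_inv]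
      rw [← orderOf_eq_one_iff]
      rcases h x⁻¹ ⁅x, y⁆ hx.inv (hx.comm y) (by rwa [orderOf_inv]) with h1 | h1
      · by_contra hne
        obtain ⟨r, hr, hd⟩ := Nat.exists_prime_and_dvd hne
        have := h1 r hr (hd.mul_left _)
        rw [e] at this
        exact hr.one_lt.ne' (Nat.eq_one_of_dvd_coprimes hc this hd)
      · rw [e, orderOf_inv] at h1
        have := orderOf_pos x
        have := orderOf_pos ⁅x, y⁆
        nlinarith
    have := main k _ G rfl hH
    exact solvable_case hH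

end Cfsg.Agent.S3900
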