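import Cfsg.Statements.S3901
import Cfsg.Agent.H1.Coprime
import Cfsg.Agent.H5.Kegel
import Cfsg.Agent.H6.Burnside
import Cfsg.Agent.H8.Frobenius
import Cfsg.Agent.H9.ClassSize
import Cfsg.Agent.H3.Cover

set_option autoImplicit false
open Cfsg

namespace Cfsg.Agent.S3901

theorem eq_one_of_commute {G : Type*} [Group G] [Finite G] {N : Subgroup G}
    (h : ∀ x : G, x ∉ N → IsPrimePow (orderOf x)) {a b : G} (ha : a ∉ N) (hab : Commute a b)
    (hc : (orderOf a).Coprime (orderOf b)) : b = 1 := by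
  have h1 : a * b ∉ N := fun hm =>
    ha ((Subgroup.zpowers_le.2 hm) (H9.mem_zpowers_mul_of_coprime hab hc))
  have h2 := h _ h1
  rw [hab.orderOf_mul_eq_mul_orderOf_of_coprime hc] at h2
  rcases (hc.isPrimePow_dvd_mul h2).1 dvd_rfl with h3 | h3
  · have := Nat.le_of_dvd (orderOf_pos a) h3
    rw [← orderOf_eq_one_iff]
    have h4 := orderOf_pos a
    have h5 := orderOf_pos b
    nlinarith
  · exfalso
    have := Nat.le_of_dvd (orderOf_pos b) h3
    apply ha
    have h4 := orderOf_pos a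
    have h5 := orderOf_pos b
    have : orderOf a = 1 := by nlinarith
    rw [orderOf_eq_one_iff.1 this]
    exact N.one_mem

theorem mul_pow_mul_inv_mem {G : Type*} [Group G] {X : Subgroup G} {w g : G} (hw : w ∈ X)
    (hg : g ∈ Subgroup.normalizer (X : Set G)) (m : ℕ) : (w * g) ^ m * (g ^ m)⁻¹ ∈ X := by
  induction m with
  | zero => simp
  | succ m ih =>
    have h1 := (Subgroup.mem_normalizer_iff.1 (Subgroup.pow_mem _ hg m) w).1 hw
    have := X.mul_mem ih h1
    convert this using 1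
    rw [pow_succ, pow_succ]; group

/-- Let N be a non-trivial normal subgroup of the finite group G such that every element of G outside N has prime power order. If N is not solvable, then G/N is solvable. -/
theorem result {G : Type*} [Group G] [Finite G] (N : Subgroup G) [N.Normal] (hN : N ≠ ⊥) (hns : ¬ Group.IsSolvable ↥N)
    (h : ∀ x : G, x ∉ N → IsPrimePow (orderOf x)) : Group.IsSolvable (G ⧸ N) := by
  by_contra hs
  have hnn : ∃ r : ℕ, r.Prime ∧ ¬ HasNormalPComplement r (G ⧸ N) := by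
    by_contra hc
    push Not at hc
    haveI := H8.isNilpotent_of_forall_hasNPC (G := G ⧸ N) fun p hp _ => hc p hp
    exact hs inferInstance
  obtain ⟨r, hr, hnr⟩ := hnn
  haveI := Fact.mk hr
  obtain ⟨P⟩ : Nonempty (Sylow r (G ⧸ N)) := inferInstance
  obtain ⟨Xb, hXP, hXb, gb, hgb, u, k, hu, hur, hgk, hgc⟩ := H8.exists_primePow_not_centralizes hnr P
  have hXr : IsPGroup r Xb := P.isPGroup'.to_le hXP
  have hq : ∃ q : ℕ, q.Prime ∧ q ∣ Nat.card N ∧ q ≠ r ∧ q ≠ u := by
    by_contra hc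
    push Not at hc
    exact hns (H6.isSolvable_of_primes_two r u fun q hq hd => by
      by_cases h1 : q = r
      · exact Or.inl h1
      · exact Or.inr (hc q hq hd h1))
  obtain ⟨q, hq, hqN, hqr, hqu⟩ := hq
  haveI := Fact.mk hq
  obtain ⟨Q, hQN, hQ, hQi⟩ := H1.exists_sylow_le q N
  have hQne : Q ≠ ⊥ := by
    rintro rfl
    rw [Subgroup.relIndex_bot_left] at hQi
    exact hQi hqN
  set π := QuotientGroup.mk' N with hπ
  have hker : ∀ x, π x = 1 ↔ x ∈ N := fun x => QuotientGroup.eq_one_iff x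
  set X := Xb.comap π with hX
  have hNX : N ≤ X := fun x hx => by
    change π x ∈ Xb
    rw [(hker x).2 hx]; exact Xb.one_mem
  have hNn : ∀ x : G, x ∈ Subgroup.normalizer (N : Set G) := fun x => by
    rw [Subgroup.normalizer_eq_top_iff.2 inferInstance]; trivial
  -- an `r`-element of `X` outside `N` normalizing `Q`
  obtain ⟨⟨ab, hab⟩, hab1⟩ := Subgroup.ne_bot_iff_exists_ne_one.1 hXb
  obtain ⟨a0, rfl⟩ := QuotientGroup.mk'_surjective N ab
  obtain ⟨n, hn, hna⟩ := H1.frattini_argument hQN hQ hQi (hNn a0)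
  have ha0 : a0 ∉ N := fun hm => hab1 (Subtype.ext ((hker _).2 hm))
  have haN : n * a0 ∉ N := fun hm => ha0 ((N.mul_mem_cancel_left hn).1 hm)
  have haX : n * a0 ∈ X := X.mul_mem (hNX hn) hab
  have har : IsPGroup r (Subgroup.zpowers (n * a0)) := by
    obtain ⟨s, j, hs, -, hsj⟩ := (isPrimePow_nat_iff _).1 (h _ haN)
    obtain ⟨i, hi⟩ := hXr ⟨π (n * a0), haX⟩
    have h1 : (π (n * a0)) ^ r ^ i = 1 := congrArg Subtype.val hi
    have h2 : (π (n * a0)) ^ s ^ j = 1 := by rw [hsj, ← map_pow, pow_orderOf_eq_one, map_one]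
    by_cases hsr : s = r
    · exact H8.isPGroup_zpowers_of_orderOf (hsr ▸ hsj.symm)
    · have := (pow_gcd_eq_one (a := π (n * a0))).2 ⟨h1, h2⟩
      rw [Nat.Coprime.pow _ _ ((Nat.coprime_primes hr hs).2 (Ne.symm hsr)), pow_one] at this
      exact absurd ((hker _).1 this) haN
  set W := X ⊓ Subgroup.normalizer (Q : Set G) with hW
  obtain ⟨R, haR, hRW, hR, hRi⟩ := H1.exists_sylow_of_le (H := W)
    (Subgroup.zpowers_le.2 ⟨haX, hna⟩) har
  have haR' : n * a0 ∈ R := haR (Subgroup.mem_zpowers _)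
  -- a `u`-element outside `N` normalizing `Q` and `R`
  obtain ⟨g, rfl⟩ := QuotientGroup.mk'_surjective N gb
  have hgX : g ∈ Subgroup.normalizer (X : Set G) := Subgroup.le_normalizer_comap π hgb
  obtain ⟨n', hn', hng⟩ := H1.frattini_argument hQN hQ hQi (hNn g)
  have hg1W : n' * g ∈ Subgroup.normalizer (W : Set G) :=
    Subgroup.inf_normalizer_le_normalizer_inf
      ⟨Subgroup.mul_mem _ (Subgroup.le_normalizer (hNX hn')) hgX, Subgroup.le_normalizer hng⟩
  obtain ⟨w, hw, hwR⟩ := H1.frattini_argument hRW hR hRi hg1W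
  set x := w * (n' * g) with hx
  have hxQ : x ∈ Subgroup.normalizer (Q : Set G) := Subgroup.mul_mem _ hw.2 hng
  have hgX' : ∀ m : ℕ, m.Coprime u → g ^ m ∉ X := by
    intro m hm hmem
    have h1 : π g ∈ Xb := H8.mem_of_pow_mem_of_coprime (n := m)
      (by rw [hgk]; exact (hm.symm).pow_left k) (by rw [← map_pow]; exact hmem)
    obtain ⟨i, hi⟩ := hXr ⟨π g, h1⟩
    have h2 : (π g) ^ r ^ i = 1 := congrArg Subtype.val hi
    have h3 : (π g) ^ u ^ k = 1 := by rw [← hgk, pow_orderOf_eq_one]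
    have := (pow_gcd_eq_one (a := π g)).2 ⟨h2, h3⟩
    rw [Nat.Coprime.pow _ _ ((Nat.coprime_primes hr hu).2 (Ne.symm hur)), pow_one] at this
    apply hgc
    rw [this]
    exact Subgroup.one_mem _
  have hxX : ∀ m : ℕ, m.Coprime u → x ^ m ∉ X := by
    intro m hm hmem
    have h1 := mul_pow_mul_inv_mem (X.mul_mem hw.1 (hNX hn')) hgX m
    rw [mul_assoc, ← hx] at h1
    exact hgX' m hm (by simpa using (X.mul_mem_cancel_left hmem).1 h1)
  have hxN : x ∉ N := fun hm => hxX 1 (Nat.coprime_one_left u) (by simpa using hNX hm)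
  obtain ⟨s, j, hs, hj, hsj⟩ := (isPrimePow_nat_iff _).1 (h _ hxN)
  have hsu : s = u := by
    by_contra hne
    apply hxX (s ^ j) (((Nat.coprime_primes hs hu).2 hne).pow_left j)
    rw [hsj, pow_orderOf_eq_one]
    exact X.one_mem
  subst hsu
  set y := x ^ s ^ (j - 1) with hy
  have hyo : orderOf y = s := by
    haveI := Fact.mk hs
    apply orderOf_eq_prime
    · rw [hy, ← pow_mul, ← pow_succ, Nat.sub_add_cancel hj, hsj, pow_orderOf_eq_one]
    · intro h1
      have := orderOf_dvd_iff_pow_eq_one.2 h1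
      rw [← hsj, Nat.pow_dvd_pow_iff_le_right hs.one_lt] at this
      omega
  have hy1 : y ≠ 1 := by
    intro h1
    rw [h1, orderOf_one] at hyo
    exact hs.ne_one hyo.symm
  have hyQ : y ∈ Subgroup.normalizer (Q : Set G) := Subgroup.pow_mem _ hxQ _
  have hyR : y ∈ Subgroup.normalizer (R : Set G) := Subgroup.pow_mem _ hwR _
  obtain ⟨iR, hiR⟩ := hR.exists_card_eq
  obtain ⟨iQ, hiQ⟩ := hQ.exists_card_eq
  have hordR : ∀ c ∈ R, orderOf c ∣ r ^ iR := fun c hc => hiR ▸ Subgroup.orderOf_dvd_natCard R hc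
  have hordQ : ∀ c ∈ Q, orderOf c ∣ q ^ iQ := fun c hc => hiQ ▸ Subgroup.orderOf_dvd_natCard Q hc
  by_cases hyN : y ∈ N
  · obtain ⟨c', hc', c, hc, hcc⟩ := H1.exists_commutator_mul_centralizer (A := Subgroup.zpowers y)
      (G := R) (Subgroup.zpowers_le.2 hyR) (by
        rw [Nat.card_zpowers, hyo, hiR]
        exact ((Nat.coprime_primes hs hr).2 hur).pow_right _)
      (Or.inr (H1.isSolvable_of_isPGroup hR)) haR'
    have h1 : c' ∈ N := (Subgroup.commutator_mono le_top (Subgroup.zpowers_le.2 hyN)).trans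
      (Subgroup.commutator_le_right _ N) hc'
    have h2 : c ∉ N := fun hm => haN (hcc ▸ N.mul_mem h1 hm)
    refine hy1 (eq_one_of_commute h h2 (hc.2 y (Subgroup.mem_zpowers y)).symm ?_)
    rw [hyo]
    exact Nat.Coprime.coprime_dvd_left (hordR c hc.1)
      (((Nat.coprime_primes hr hs).2 (Ne.symm hur)).pow_left _)
  · have hRQ : R ≤ Subgroup.normalizer (Q : Set G) := hRW.trans inf_le_right
    have hnil : Group.IsNilpotent (R ⊔ Q : Subgroup G) := by
      refine H5.isNilpotent_of_fpf hs _ y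
        (Subgroup.normalizer_inf_normalizer_le_normalizer_sup R Q ⟨hyR, hyQ⟩)
        (by rw [← hyo, pow_orderOf_eq_one]) fun c hc hyc => eq_one_of_commute h hyN hyc ?_
      rw [hyo]
      refine Nat.Coprime.coprime_dvd_right ((Subgroup.orderOf_dvd_natCard _ hc).trans
        (H1.card_sup_dvd hRQ)) ?_
      rw [hiR, hiQ]
      exact Nat.Coprime.mul_right (((Nat.coprime_primes hs hr).2 hur).pow_right _)
        (((Nat.coprime_primes hs hq).2 (Ne.symm hqu)).pow_right _)
    obtain ⟨⟨b, hb⟩, hb1⟩ := Subgroup.ne_bot_iff_exists_ne_one.1 hQne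
    have hcop : (orderOf (n * a0)).Coprime (orderOf b) :=
      Nat.Coprime.coprime_dvd_left (hordR _ haR') (Nat.Coprime.coprime_dvd_right (hordQ _ hb)
        (Nat.Coprime.pow _ _ ((Nat.coprime_primes hr hq).2 (Ne.symm hqr))))
    refine hb1 (Subtype.ext (eq_one_of_commute h haN ?_ hcop))
    exact H3.commute_of_coprime_of_isNilpotent hnil (Subgroup.mem_sup_left haR')
      (Subgroup.mem_sup_right hb) hcop (pow_orderOf_eq_one _) (pow_orderOf_eq_one _)

end Cfsg.Agent.S3901
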