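import Cfsg.Statements.S3903
import Cfsg.Agent.H3.PBasic
import Cfsg.Agent.H9.ClassSize
import Cfsg.Agent.H5.ThompsonAux
import Cfsg.Agent.L.Fitting

set_option autoImplicit false
open Cfsg

namespace Cfsg.Agent.S3903

open Subgroup

theorem solvable_of_abelian_sylow_coatom {G : Type*} [Group G] [Finite G] {p : ℕ} [Fact p.Prime]
    (P : Sylow p G) (hab : IsMulCommutative (P : Subgroup G)) (hM : IsCoatom (P : Subgroup G)) :
    Group.IsSolvable G := by
  have hmax : ∀ H : Subgroup G, (P : Subgroup G) ≤ H → H = P ∨ H = ⊤ := fun H hH => by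
    rcases hH.eq_or_lt with h | h
    · exact Or.inl h.symm
    · exact Or.inr (hM.2 H h)
  rcases hmax _ (le_normalizer (H := (P : Subgroup G))) with h | h
  · obtain ⟨L, hL, hc, k, hk⟩ := H8.hasNPC_iff_exists.mp
      (H8.hasNPC_of_normalizer_le_centralizer P
        (by rw [h]; exact le_centralizer_iff_isMulCommutative.mpr hab))
    have h1 := H5.comm_of_maximal P.isPGroup' hc hmax
    haveI : IsMulCommutative L := by
      rw [← le_centralizer_iff_isMulCommutative, ← commutator_eq_bot_iff_le_centralizer, h1]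
    haveI := (H8.isPGroup_quotient_iff_index.mpr ⟨k, hk⟩).isNilpotent
    letI : CommGroup L := { (inferInstance : Group L) with mul_comm := mul_comm' }
    exact solvable_of_ker_le_range L.subtype (QuotientGroup.mk' L) (by simp)
  · haveI : (P : Subgroup G).Normal := normalizer_eq_top_iff.mp h
    haveI := P.isPGroup'.isNilpotent
    haveI : IsCyclic (G ⧸ (P : Subgroup G)) := by
      obtain ⟨x, hx⟩ : ∃ x, x ∉ (P : Subgroup G) := by
        by_contra hcon
        push Not at hcon
        exact hM.1 (eq_top_iff.mpr fun x _ => hcon x)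
      rw [isCyclic_iff_exists_zpowers_eq_top]
      refine ⟨QuotientGroup.mk' _ x, ?_⟩
      rcases hmax ((zpowers (QuotientGroup.mk' (P : Subgroup G) x)).comap (QuotientGroup.mk' _))
        (fun y hy => by
          have : QuotientGroup.mk' (P : Subgroup G) y = 1 := (QuotientGroup.eq_one_iff y).mpr hy
          rw [mem_comap, this]; exact one_mem _) with h | h
      · exact absurd (h ▸ mem_zpowers _) hx
      · rw [← map_comap_eq_self_of_surjective (QuotientGroup.mk'_surjective _) (zpowers _), h]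
        exact map_top_of_surjective _ (QuotientGroup.mk'_surjective _)
    letI : CommGroup (G ⧸ (P : Subgroup G)) := IsCyclic.commGroup
    exact solvable_of_ker_le_range (P : Subgroup G).subtype (QuotientGroup.mk' (P : Subgroup G))
      (by simp)

theorem isPGroup_centralizer {G : Type*} [Group G] [Finite G] (N : Subgroup G)
    (h : ∀ x : G, x ∉ N → IsPrimePow (orderOf x)) {p k : ℕ} (hp : p.Prime) {x : G} (hx : x ∉ N)
    (hk : orderOf x = p ^ k) : IsPGroup p (centralizer ({x} : Set G)) := by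
  rintro ⟨y, hy⟩
  obtain ⟨a, b, -, hb, hab, -, ⟨m, hm⟩, hbp⟩ := H8.exists_pPart_pPrimePart hp y
  have hbx : Commute x b := (mem_centralizer_singleton_iff.mp (zpowers_le.mpr hy hb)).symm
  have hcop : (orderOf x).Coprime (orderOf b) := by rw [hk]; exact (hbp.symm).pow_left k
  have h1 : x * b ∉ N := fun h' => hx (zpowers_le.mpr h' (H9.mem_zpowers_mul_of_coprime hbx hcop))
  obtain ⟨q, l, hq, -, hql⟩ := (isPrimePow_nat_iff _).mp (h _ h1)
  rw [hbx.orderOf_mul_eq_mul_orderOf_of_coprime hcop] at hql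
  have hk0 : k ≠ 0 := by
    rintro rfl
    rw [pow_zero, orderOf_eq_one_iff] at hk
    exact hx (hk ▸ N.one_mem)
  have hpq : p = q := (Nat.prime_dvd_prime_iff_eq hp hq).mp (hp.dvd_of_dvd_pow
    (hql ▸ (hk ▸ dvd_pow_self p hk0 : p ∣ orderOf x).mul_right _))
  subst hpq
  obtain ⟨j, -, hj⟩ := (Nat.dvd_prime_pow hp).mp (hql ▸ Dvd.intro_left _ rfl : orderOf b ∣ p ^ l)
  have hb1 := H8.eq_one_of_orderOf_pow_of_coprime hj hbp
  refine ⟨m, Subtype.ext ?_⟩
  simp [hab, hb1, ← hm]

/-- Let N be a proper normal subgroup of the finite group G such that every element x of G outside N has prime power order and has centralizer C_G(x) a maximal subgroup of G. Then N is solvable. -/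
theorem result {G : Type*} [Group G] [Finite G] (N : Subgroup G) [N.Normal] (hN : N ≠ ⊤)
    (h : ∀ x : G, x ∉ N → IsPrimePow (orderOf x) ∧ IsCoatom (Subgroup.centralizer ({x} : Set G))) : Group.IsSolvable ↥N := by
  classical
  obtain ⟨x, hx⟩ : ∃ x, x ∉ N := by
    by_contra hcon
    push Not at hcon
    exact hN (eq_top_iff.mpr fun x _ => hcon x)
  obtain ⟨p, k, hp, -, hk⟩ := (isPrimePow_nat_iff _).mp (h x hx).1
  haveI := Fact.mk hp
  by_cases hG : IsPGroup p G
  · haveI := hG.isNilpotent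
    infer_instance
  have hsyl : ∀ y : G, y ∉ N → (∃ l, orderOf y = p ^ l) →
      ∃ Q : Sylow p G, (Q : Subgroup G) = centralizer ({y} : Set G) := by
    rintro y hy ⟨l, hl⟩
    obtain ⟨Q, hQ⟩ := (isPGroup_centralizer N (fun x hx => (h x hx).1) hp hy hl).exists_le_sylow
    refine ⟨Q, ?_⟩
    by_contra hne
    have := (h y hy).2.2 Q (lt_of_le_of_ne hQ (Ne.symm hne))
    exact hG ((this ▸ Q.isPGroup').of_equiv topEquiv)
  obtain ⟨P, hP⟩ := hsyl x hx ⟨k, hk.symm⟩
  have hM : IsCoatom (P : Subgroup G) := hP ▸ (h x hx).2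
  by_cases hNP : N ≤ P
  · haveI := (P.isPGroup'.to_le hNP).isNilpotent
    infer_instance
  have hsup : (P : Subgroup G) ⊔ N = ⊤ :=
    hM.2 _ (lt_of_le_of_ne le_sup_left fun h => hNP (h ▸ le_sup_right))
  have hmap : (P : Subgroup G).map (QuotientGroup.mk' N) = ⊤ := by
    rw [← map_top_of_surjective _ (QuotientGroup.mk'_surjective N), ← hsup, Subgroup.map_sup,
      (Subgroup.map_eq_bot_iff N).mpr (by simp), sup_bot_eq]
  have hQ : IsPGroup p (G ⧸ N) := (hmap ▸ P.isPGroup'.map (QuotientGroup.mk' N)).of_equiv topEquiv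
  obtain ⟨M, hM1, -⟩ := (eq_top_or_exists_le_coatom (⊥ : Subgroup (G ⧸ N))).resolve_left (by
    intro h0
    have : (x : G ⧸ N) ∈ (⊥ : Subgroup (G ⧸ N)) := h0 ▸ mem_top _
    exact hx ((QuotientGroup.eq_one_iff x).mp (mem_bot.mp this)))
  haveI := hQ.isNilpotent
  haveI := H3.normal_of_isCoatom hM1
  let K : Subgroup G := M.comap (QuotientGroup.mk' N)
  have hK : K.index = p := by
    rw [index_comap_of_surjective _ (QuotientGroup.mk'_surjective N),
      H3.index_eq_of_isCoatom hQ hM1]
  have hNK : N ≤ K := fun y hy => by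
    have : QuotientGroup.mk' N y = 1 := (QuotientGroup.eq_one_iff y).mpr hy
    rw [mem_comap, this]; exact one_mem _
  have hPK : K.relIndex P = p := by
    have : (P : Subgroup G) ⊔ K = ⊤ := top_le_iff.mp (hsup ▸ sup_le_sup_left hNK _)
    rw [← relIndex_sup_right, this, relIndex_top_right, hK]
  have hord : ∀ y : G, y ∉ K → ∃ l, orderOf y = p ^ l := by
    intro y hy
    obtain ⟨q, l, hq, -, hql⟩ := (isPrimePow_nat_iff _).mp (h y fun h => hy (hNK h)).1
    by_cases hqp : q = p
    · exact ⟨l, by rw [← hql, hqp]⟩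
    · exact absurd (H8.mem_of_coprime_index (by
        rw [← hql, hK]; exact ((Nat.coprime_primes hq hp).mpr hqp).pow_left l)) hy
  have hcount : Nat.card {y : G // y ∉ K} ≤ (P : Subgroup G).index *
      Nat.card {z : G // (z ∈ (P : Subgroup G) ∧ z ∉ K) ∧
        z ∈ centralizer ((P : Subgroup G) : Set G)} := by
    rw [index, ← Nat.card_prod]
    refine Nat.card_le_card_of_surjective (fun w => ⟨w.1.out * w.2.1 * w.1.out⁻¹, fun h =>
      w.2.2.1.2 (by simpa [mul_assoc] using (inferInstance : K.Normal).conj_mem _ h w.1.out⁻¹)⟩) ?_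
    rintro ⟨y, hy⟩
    obtain ⟨Q, hQ⟩ := hsyl y (fun h => hy (hNK h)) (hord y hy)
    obtain ⟨g, rfl⟩ := MulAction.exists_smul_eq G P Q
    have hmem : ∀ u : G, u ∈ (P : Subgroup G) ↔ g * u * g⁻¹ ∈ centralizer ({y} : Set G) := by
      intro u
      rw [← hQ, Sylow.coe_subgroup_smul, mem_pointwise_smul_iff_inv_smul_mem]
      simp [mul_assoc]
    have hzc : g⁻¹ * y * g ∈ centralizer ((P : Subgroup G) : Set G) := by
      intro u hu
      have := mem_centralizer_singleton_iff.mp ((hmem u).mp hu)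
      calc u * (g⁻¹ * y * g) = g⁻¹ * (g * u * g⁻¹ * y) * g := by group
        _ = _ := by rw [this]; group
    refine ⟨⟨(g : G ⧸ (P : Subgroup G)), ⟨g⁻¹ * y * g, ⟨?_, fun h => hy ?_⟩, hzc⟩⟩, ?_⟩
    · rw [hmem, mem_centralizer_singleton_iff]; group
    · simpa [mul_assoc] using (inferInstance : K.Normal).conj_mem _ h g
    · obtain ⟨u, hu⟩ := QuotientGroup.mk_out_eq_mul (P : Subgroup G) g
      apply Subtype.ext
      simp only [hu]
      calc g * u * (g⁻¹ * y * g) * (g * u)⁻¹ = g * (u * (g⁻¹ * y * g)) * (g * u)⁻¹ := by group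
        _ = y := by rw [hzc u u.2]; group
  have hc1 : Nat.card K + Nat.card {y : G // y ∉ K} = Nat.card G :=
    Set.ncard_add_ncard_compl (K : Set G)
  have hc2 : Nat.card (K ⊓ P : Subgroup G) +
      {z : G | z ∈ (P : Subgroup G) ∧ z ∉ K}.ncard = Nat.card (P : Subgroup G) := by
    rw [inf_comm]
    exact Set.ncard_inter_add_ncard_diff_eq_ncard ((P : Subgroup G) : Set G) (K : Set G)
  have hc3 := H3.card_inf_mul_relIndex K P
  have hc4 := K.card_mul_index
  have hc5 := (P : Subgroup G).card_mul_index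
  rw [hPK] at hc3
  rw [hK] at hc4
  have hc6 : {z : G | (z ∈ (P : Subgroup G) ∧ z ∉ K) ∧ z ∈ centralizer ((P : Subgroup G) : Set G)} =
      {z : G | z ∈ (P : Subgroup G) ∧ z ∉ K} := by
    apply Set.eq_of_subset_of_ncard_le (fun z hz => hz.1)
    have hi : 0 < (P : Subgroup G).index := Nat.pos_of_ne_zero index_ne_zero_of_finite
    apply Nat.le_of_mul_le_mul_left _ hi
    refine le_trans (le_of_eq ?_) hcount
    have hc7 : Nat.card K = (P : Subgroup G).index * Nat.card (K ⊓ P : Subgroup G) := by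
      apply Nat.eq_of_mul_eq_mul_right hp.pos
      rw [hc4, mul_assoc, hc3, mul_comm, hc5]
    have : (P : Subgroup G).index * Nat.card (K ⊓ P : Subgroup G) + (P : Subgroup G).index *
        {z : G | z ∈ (P : Subgroup G) ∧ z ∉ K}.ncard = Nat.card G := by
      rw [← mul_add, hc2, mul_comm, hc5]
    omega
  have hcen : ∀ z ∈ (P : Subgroup G), z ∉ K → z ∈ centralizer ((P : Subgroup G) : Set G) :=
    fun z h1 h2 => (hc6.ge ⟨h1, h2⟩).2
  obtain ⟨w, hw, hwK⟩ : ∃ w ∈ (P : Subgroup G), w ∉ K := by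
    by_contra hcon
    push Not at hcon
    rw [relIndex_eq_one.mpr hcon] at hPK
    exact hp.one_lt.ne hPK
  haveI := solvable_of_abelian_sylow_coatom P (le_centralizer_iff_isMulCommutative.mp fun u hu => by
    by_cases huK : u ∈ K
    · have h1 := hcen _ (mul_mem hu hw) fun h => hwK (by simpa using K.mul_mem (K.inv_mem huK) h)
      simpa using mul_mem h1 (inv_mem (hcen w hw hwK))
    · exact hcen u hu huK) hM
  infer_instance

end Cfsg.Agent.S3903
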