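import Cfsg.Statements.S3904
import Cfsg.Agent.H3.MaxCent

set_option autoImplicit false
open Cfsg

namespace Cfsg.Agent.S3904

open Subgroup
open scoped commutatorElement


/-- Let G be a non-abelian finite group in which the centralizer of every non-central element is a maximal subgroup. Then G/Z(G) is either an elementary abelian p-group for some prime p, or a minimal non-abelian group (non-abelian with all proper subgroups abelian) of order p^a · q for distinct primes p, q with a normal Sylow p-subgroup. -/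
theorem result {G : Type*} [Group G] [Finite G] (hna : ¬ IsMulCommutative G)
    (h : ∀ x : G, x ∉ Subgroup.center G → IsCoatom (Subgroup.centralizer ({x} : Set G))) :
    (∃ p : ℕ, p.Prime ∧ Cfsg.IsElementaryAbelian p (⊤ : Subgroup (G ⧸ Subgroup.center G))) ∨
    (¬ IsMulCommutative (G ⧸ Subgroup.center G) ∧ (∀ H : Subgroup (G ⧸ Subgroup.center G), H ≠ ⊤ → IsMulCommutative ↥H) ∧
      ∃ p q a : ℕ, p.Prime ∧ q.Prime ∧ p ≠ q ∧ Nat.card (G ⧸ Subgroup.center G) = p ^ a * q ∧
        ∀ P : Subgroup (G ⧸ Subgroup.center G), Nat.card ↥P = p ^ a → P.Normal) := by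
  have hc : centralizer ((⊤ : Subgroup G) : Set G) = center G := by rw [coe_top, centralizer_univ]
  have h' : ∀ x ∈ (⊤ : Subgroup G), x ∉ centralizer ((⊤ : Subgroup G) : Set G) →
      IsCoatom (centralizer ({x} : Set G)) := fun x _ hx => h x (hc ▸ hx)
  set π := QuotientGroup.mk' (center G) with hπ
  have hs : Function.Surjective π := QuotientGroup.mk'_surjective _
  have hk : π.ker = ⊤ ⊓ centralizer ((⊤ : Subgroup G) : Set G) := by
    rw [top_inf_eq, hc]; exact QuotientGroup.ker_mk' _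
  have e1 : ∀ g, π g = 1 ↔ g ∈ centralizer ((⊤ : Subgroup G) : Set G) := fun g => by
    rw [← MonoidHom.mem_ker, hk, top_inf_eq]
  by_cases hB : ∀ x ∈ (⊤ : Subgroup G), ∀ u ∈ (⊤ : Subgroup G),
    ⁅x, u⁆ ∈ centralizer ((⊤ : Subgroup G) : Set G) → Commute x u
  swap
  · push Not at hB
    obtain ⟨x, hx, u, hu, hc, h1⟩ := hB
    obtain ⟨p, hp, a, b⟩ := H3.MaxCent.caseA ⊤ h' hx hu hc h1
    refine Or.inl ⟨p, hp, ⟨⟨fun a' b' => Subtype.ext ?_⟩⟩, fun a' _ => ?_⟩
    · obtain ⟨x, hx⟩ := hs a'.1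
      obtain ⟨y, hy⟩ := hs b'.1
      rw [coe_mul, coe_mul, ← hx, ← hy, ← commutatorElement_eq_one_iff_mul_comm,
        ← map_commutatorElement, e1]
      exact a x trivial y trivial
    · obtain ⟨x, rfl⟩ := hs a'
      rw [← map_pow, e1]
      exact b x trivial
  obtain ⟨a1, a2⟩ := H3.MaxCent.caseB ⊤ h' hB hs hk
  rw [map_top_of_surjective _ hs] at a1 a2
  have h0 : (⊤ : Subgroup (G ⧸ center G)) ≠ ⊥ := fun e => hna ⟨⟨fun a b => by
    have : π a ∈ (⊥ : Subgroup (G ⧸ center G)) := e ▸ mem_top _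
    exact (mem_centralizer_iff.1 ((e1 a).1 this) b trivial).symm⟩⟩
  obtain ⟨K, p, hK, -, hp, he, hq, hf⟩ := H3.MaxCent.core ⊤ h0 a1 a2
  haveI := hK.1
  haveI := Fact.mk hp
  rw [relIndex_top_right] at hq
  have hKK := FT.isMulComm_iff_le_cent.1 he.1
  obtain ⟨x, hx1⟩ := ne_bot_iff_exists_ne_one.1 hK.2.1
  have hx1 : (x : G ⧸ center G) ≠ 1 := fun e => hx1 (Subtype.ext e)
  have hmax : IsCoatom K := H3.isCoatom_of_index_prime hq
  have hP : IsPGroup p K := L.IsElementaryAbelian.isPGroup he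
  obtain ⟨a, ha⟩ := IsPGroup.iff_card.1 hP
  have hcop := H9.coprime_of_centralizer_le (K := K) fun k hk' hk1 g hg => by
    by_contra hgK
    exact hk1 (hf g trivial hgK k hk' (mem_centralizer_singleton_iff.1 hg))
  have ha0 : a ≠ 0 := by
    rintro rfl
    exact hK.2.1 (card_eq_one.1 (by simpa using ha))
  have hpq : p ≠ K.index := by
    intro e
    rw [ha, ← e, Nat.coprime_pow_left_iff (Nat.pos_of_ne_zero ha0), Nat.coprime_self] at hcop
    exact hp.ne_one hcop
  refine Or.inr ⟨fun hab => ?_, fun H hH => ?_, p, K.index, a, hp, hq, hpq, ?_, fun P hP' => ?_⟩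
  · refine h0 (a1 ▸ (inf_eq_left.2 fun g _ => mem_centralizer_iff.2 fun y _ => ?_).symm)
    exact hab.1.1 y g
  · by_cases hHK : H ≤ K
    · exact FT.isMulComm_iff_le_cent.2 ((hHK.trans hKK).trans (FT.cent_anti hHK))
    have b1 : K ⊔ H = ⊤ := hmax.2 _ (left_lt_sup.2 hHK)
    have b2 : (K ⊓ H).Normal := by
      rw [← normalizer_eq_top_iff, eq_top_iff, ← b1]
      exact sup_le ((hKK.trans (FT.cent_anti inf_le_left)).trans (FT.cent_le_norm _))
        (H1.le_normalizer_inf (by rw [normalizer_eq_top]; exact le_top) (FT.le_norm_self _))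
    rcases hK.2.2 _ b2 inf_le_left with e | e
    · have b3 := H1.card_inf_mul_relIndex K H
      rw [e, card_bot, one_mul, ← relIndex_sup_left, b1, relIndex_top_right] at b3
      haveI := Fact.mk hq
      haveI := isCyclic_of_prime_card b3.symm
      infer_instance
    · exact absurd (b1.symm.trans (sup_eq_right.2 (inf_eq_left.1 e))).symm hH
  · rw [← ha, card_mul_index]
  · have b1 : P ≤ K := H1.le_sylow_of_le_normalizer (H := ⊤) (P := P) (Q := K) le_top
      (IsPGroup.of_card hP') ?_ le_top hP (by rw [normalizer_eq_top]; exact le_top) |> fun e =>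
        (H1.eq_of_le_of_card_le e (by rw [ha, hP'])).ge
    · rwa [H1.eq_of_le_of_card_le b1 (by rw [ha, hP'])]
    · have b2 := P.card_mul_index
      rw [← K.card_mul_index, ha, hP'] at b2
      rw [relIndex_top_right, Nat.eq_of_mul_eq_mul_left (pow_pos hp.pos a) b2,
        Nat.prime_dvd_prime_iff_eq hp hq]
      exact hpq

end Cfsg.Agent.S3904
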