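import Cfsg.Statements.S3905
import Cfsg.Agent.H3.MaxCent

set_option autoImplicit false
open Cfsg

namespace Cfsg.Agent.S3905

open Subgroup
open scoped commutatorElement

theorem mk_eq_one {G : Type*} [Group G] {N : Subgroup G} (n : N) :
    QuotientGroup.mk' (center N) n = 1 ↔ (n : G) ∈ centralizer (N : Set G) := by
  rw [QuotientGroup.mk'_apply, QuotientGroup.eq_one_iff, mem_center_iff, mem_centralizer_iff]
  exact ⟨fun h g hg => congrArg Subtype.val (h ⟨g, hg⟩), fun h g => Subtype.ext (h g g.2)⟩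

theorem elem_of {G : Type*} [Group G] {N : Subgroup G} {p : ℕ}
    (h1 : ∀ a ∈ N, ∀ b ∈ N, ⁅a, b⁆ ∈ centralizer (N : Set G))
    (h2 : ∀ a ∈ N, a ^ p ∈ centralizer (N : Set G)) :
    Cfsg.IsElementaryAbelian p (⊤ : Subgroup (↥N ⧸ Subgroup.center ↥N)) := by
  refine ⟨⟨⟨fun a b => Subtype.ext ?_⟩⟩, fun a _ => ?_⟩
  · obtain ⟨x, hx⟩ := QuotientGroup.mk'_surjective _ a.1
    obtain ⟨y, hy⟩ := QuotientGroup.mk'_surjective _ b.1
    rw [coe_mul, coe_mul, ← hx, ← hy, ← commutatorElement_eq_one_iff_mul_comm,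
      ← map_commutatorElement, mk_eq_one]
    exact h1 x x.2 y y.2
  · obtain ⟨x, rfl⟩ := QuotientGroup.mk'_surjective _ a
    rw [← map_pow, mk_eq_one]
    exact h2 x x.2


/-- Let N be a normal subgroup of the finite group G such that for every element x of N outside the center of N the centralizer C_G(x) is a maximal subgroup of G. Then N/Z(N) is either an elementary abelian p-group for some prime p, or a Frobenius group whose kernel is an elementary abelian normal subgroup and whose complement has prime order. -/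
theorem result {G : Type*} [Group G] [Finite G] (N : Subgroup G) [N.Normal]
    (h : ∀ x : G, x ∈ N → x ∉ Subgroup.centralizer (N : Set G) → IsCoatom (Subgroup.centralizer ({x} : Set G))) :
    (∃ p : ℕ, p.Prime ∧ Cfsg.IsElementaryAbelian p (⊤ : Subgroup (↥N ⧸ Subgroup.center ↥N))) ∨
    (∃ (Q K : Subgroup (↥N ⧸ Subgroup.center ↥N)) (p : ℕ), p.Prime ∧ Cfsg.IsFrobeniusComplement Q ∧ (Nat.card ↥Q).Prime ∧
      K.Normal ∧ (K : Set (↥N ⧸ Subgroup.center ↥N)) = Cfsg.frobeniusKernel Q ∧ Cfsg.IsElementaryAbelian p K) := by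
  by_cases hB : ∀ x ∈ N, ∀ u ∈ N, ⁅x, u⁆ ∈ centralizer (N : Set G) → Commute x u
  swap
  · push Not at hB
    obtain ⟨x, hx, u, hu, hc, h1⟩ := hB
    obtain ⟨p, hp, a, b⟩ := H3.MaxCent.caseA N h hx hu hc h1
    exact Or.inl ⟨p, hp, elem_of a b⟩
  set π := QuotientGroup.mk' (N ⊓ centralizer (N : Set G)) with hπ
  have hs : Function.Surjective π := QuotientGroup.mk'_surjective _
  have hk : π.ker = N ⊓ centralizer (N : Set G) := QuotientGroup.ker_mk' _
  obtain ⟨a1, a2⟩ := H3.MaxCent.caseB N h hB hs hk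
  by_cases h0 : N.map π = ⊥
  · rw [Subgroup.map_eq_bot_iff, hk] at h0
    exact Or.inl ⟨2, Nat.prime_two, elem_of
      (fun a ha b hb => (h0 (commutator_le_left N N (commutator_mem_commutator ha hb))).2)
      fun a ha => (h0 (pow_mem ha 2)).2⟩
  haveI : (N.map π).Normal := Normal.map inferInstance π hs
  obtain ⟨K, p, hK, hKN, hp, he, hq, hf⟩ := H3.MaxCent.core (N.map π) h0 a1 a2
  haveI := hK.1
  set φ := QuotientGroup.mk' (center N) with hφ
  have hsφ : Function.Surjective φ := QuotientGroup.mk'_surjective _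
  set ψ := π.comp N.subtype with hψ
  have e1 : ∀ n : N, φ n = 1 ↔ ψ n = 1 := fun n => by
    rw [mk_eq_one, hψ, MonoidHom.comp_apply, ← MonoidHom.mem_ker, hk]
    exact ⟨fun h => ⟨n.2, h⟩, fun h => h.2⟩
  have e2 : φ.ker ≤ K.comap ψ := fun n hn => by
    rw [mem_comap, (e1 n).1 hn]; exact one_mem _
  have e3 : ∀ n : N, φ n ∈ (K.comap ψ).map φ ↔ ψ n ∈ K := fun n => by
    rw [← mem_comap, comap_map_eq, sup_eq_left.2 e2, mem_comap]
  have e4 : ∀ a b : N, φ a * φ b = φ b * φ a ↔ ψ a * ψ b = ψ b * ψ a := fun a b => by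
    rw [← commutatorElement_eq_one_iff_mul_comm, ← commutatorElement_eq_one_iff_mul_comm,
      ← map_commutatorElement, ← map_commutatorElement, e1]
  haveI hn : ((K.comap ψ).map φ).Normal := Normal.map inferInstance φ hsφ
  have e5 : ((K.comap ψ).map φ).index = K.relIndex (N.map π) := by
    rw [← index_comap_of_surjective _ hsφ, comap_map_eq, sup_eq_left.2 e2, index_comap, hψ,
      MonoidHom.range_comp, range_subtype]
  obtain ⟨Q, hQ, hQK⟩ := H9.exists_frob_of_forall_not_mem (K := (K.comap ψ).map φ)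
    (fun e => hK.2.1 (eq_bot_iff.2 fun k hk' => by
      obtain ⟨n, hn, rfl⟩ := hKN hk'
      have := (e3 ⟨n, hn⟩).2 hk'
      rw [e, mem_bot, e1] at this
      exact this))
    (fun e => hq.ne_one (by rw [← e5, e, index_top]))
    (fun x hx k hk' e => by
      obtain ⟨x, rfl⟩ := hsφ x
      obtain ⟨k, rfl⟩ := hsφ k
      exact (e1 k).2 (hf _ (mem_map_of_mem π x.2) (fun h => hx ((e3 x).2 h)) _ ((e3 k).1 hk')
        ((e4 x k).1 e)))
  refine Or.inr ⟨Q, (K.comap ψ).map φ, p, hp, hQ, ?_, hn, hQK.symm, ⟨⟨fun a b => Subtype.ext ?_⟩⟩,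
    fun a ha => ?_⟩
  · rwa [← H9.frob_index_kernel hQ hQK, e5]
  · obtain ⟨x, hx, ex⟩ := a.2
    obtain ⟨y, hy, ey⟩ := b.2
    rw [coe_mul, coe_mul, ← ex, ← ey, e4]
    exact mem_centralizer_iff.1 (FT.isMulComm_iff_le_cent.1 he.1 hy) _ hx
  · obtain ⟨x, hx, rfl⟩ := ha
    rw [← map_pow, e1, map_pow]
    exact he.2 _ hx

end Cfsg.Agent.S3905
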