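import Cfsg.Statements.S3908
import Cfsg.Agent.H3.RankOne

set_option autoImplicit false
open Cfsg

namespace Cfsg.Agent.S3908

theorem key {G : Type*} [Group G] [Finite G] (hB : ∀ A B : Subgroup G, IsMulCommutative ↥A → IsMulCommutative ↥B → Nat.card ↥A = Nat.card ↥B → ∃ g : G, B = A.map (MulAut.conj g).toMonoidHom)
    {p : ℕ} [hp : Fact p.Prime] (P : Subgroup G) (hP : IsPGroup p P) :
    (∀ A : Subgroup P, Cfsg.IsElementaryAbelian p A → IsCyclic A) ∨ ∀ x ∈ P, x ^ p = 1 := by
  by_cases h : ∀ A : Subgroup P, Cfsg.IsElementaryAbelian p A → IsCyclic A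
  · exact Or.inl h
  right
  push Not at h
  obtain ⟨A, hA, hnc⟩ := h
  obtain ⟨E, -, hE, hE2⟩ := H3.exists_elementary_sq_le (hP.to_subgroup A) hA.1 hnc
  intro x hx
  by_contra hxp
  obtain ⟨n, hn⟩ := IsPGroup.iff_orderOf.mp hP ⟨x, hx⟩
  rw [Subgroup.orderOf_mk] at hn
  have hn2 : 2 ≤ n := by
    by_contra h
    apply hxp
    rw [← orderOf_dvd_iff_pow_eq_one, hn]
    simpa using pow_dvd_pow p (by omega : n ≤ 1)
  obtain ⟨k, rfl⟩ : ∃ k, n = k + 2 := ⟨n - 2, by omega⟩
  have hp0 := hp.out.pos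
  have hu : orderOf (x ^ p ^ k) = p ^ 2 := by
    rw [orderOf_pow_of_dvd (by positivity) (hn ▸ pow_dvd_pow p (by omega)), hn, pow_add,
      Nat.mul_div_cancel_left _ (by positivity)]
  haveI := hE.1
  obtain ⟨g, hg⟩ := hB (E.map P.subtype) (Subgroup.zpowers (x ^ p ^ k)) inferInstance
    inferInstance (by
      rw [Subgroup.card_map_of_injective P.subtype_injective, hE2, Nat.card_zpowers, hu])
  obtain ⟨_, ⟨e, he, rfl⟩, h2⟩ := hg ▸ Subgroup.mem_zpowers (x ^ p ^ k)
  have h3 : (x ^ p ^ k) ^ p = 1 := by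
    rw [← h2, ← map_pow, ← map_pow, hE.2 e he, map_one, map_one]
  rw [← orderOf_dvd_iff_pow_eq_one, hu] at h3
  have := Nat.le_of_dvd hp0 h3
  have := hp.out.one_lt
  nlinarith

/-- Let G be a finite group in which any two abelian subgroups of the same order are conjugate. Then a Sylow 2-subgroup of G is cyclic, elementary abelian or generalized quaternion, and for an odd prime p a Sylow p-subgroup of G is cyclic or has exponent dividing p. -/
theorem result {G : Type*} [Group G] [Finite G] (hB : ∀ A B : Subgroup G, IsMulCommutative ↥A → IsMulCommutative ↥B → Nat.card ↥A = Nat.card ↥B → ∃ g : G, B = A.map (MulAut.conj g).toMonoidHom) :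
    (∀ P : Sylow 2 G, IsCyclic ↥(P : Subgroup G) ∨ Cfsg.IsElementaryAbelian 2 (P : Subgroup G) ∨ ∃ k : ℕ, Nonempty (↥(P : Subgroup G) ≃* QuaternionGroup (2 ^ k))) ∧
    ∀ (p : ℕ) [Fact p.Prime], p ≠ 2 → ∀ P : Sylow p G, IsCyclic ↥(P : Subgroup G) ∨ ∀ x ∈ (P : Subgroup G), x ^ p = 1 := by
  refine ⟨fun P => ?_, fun p _ hp2 P => ?_⟩
  · rcases key hB (P : Subgroup G) P.isPGroup' with h | h
    · rcases H3.isCyclic_or_quaternion_of_elementary_cyclic P.isPGroup' h with h | ⟨-, k, -, h⟩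
      · exact Or.inl h
      · exact Or.inr (Or.inr ⟨k, h⟩)
    · refine Or.inr (Or.inl ⟨H3.isMulCommutative_of_forall fun a ha b hb => ?_, h⟩)
      have h1 := h a ha
      have h2 := h b hb
      have h3 := h _ (mul_mem ha hb)
      calc a * b = a * (a * b) ^ 2 * b := by rw [h3, mul_one]
        _ = a ^ 2 * (b * a) * b ^ 2 := by simp only [sq, mul_assoc]
        _ = b * a := by rw [h1, h2, one_mul, mul_one]
  · rcases key hB (P : Subgroup G) P.isPGroup' with h | h
    · exact Or.inl ((H3.isCyclic_or_quaternion_of_elementary_cyclic P.isPGroup' h).resolve_right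
        fun h => hp2 h.1)
    · exact Or.inr h

end Cfsg.Agent.S3908
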