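import Cfsg.Statements.S3910
import Cfsg.Agent.H3.BGroup

set_option autoImplicit false
open Cfsg

namespace Cfsg.Agent.S3910

open Subgroup


/-- A finite nilpotent group in which any two abelian subgroups of the same order are conjugate is cyclic. -/
theorem result {G : Type*} [Group G] [Finite G] (hB : ∀ A B : Subgroup G, IsMulCommutative ↥A → IsMulCommutative ↥B → Nat.card ↥A = Nat.card ↥B → ∃ g : G, B = A.map (MulAut.conj g).toMonoidHom) (hnil : Group.IsNilpotent G) : IsCyclic G := by
  have h1 : ∀ (p : ℕ) (_ : Fact p.Prime) (P : Sylow p G), IsCyclic P := by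
    intro p hp P
    by_contra hnc
    have key : ∀ (g : G) (a : P), (zpowers a).Normal → g * a * g⁻¹ ∈ zpowers (a : G) := by
      intro g a ha
      obtain ⟨u, v, -, -, rfl, -, ⟨k, hk⟩, hv⟩ := H8.exists_pPart_pPrimePart hp.out g
      have hu : u ∈ (P : Subgroup G) := H8.mem_of_coprime_index
        (hk ▸ (hp.out.coprime_iff_not_dvd.2 P.not_dvd_index).pow_left k)
      obtain ⟨j, hj⟩ := H8.exists_orderOf_eq_pow_of_mem P.isPGroup' a.2
      have h2 : Commute v a := H3.commute_of_coprime_of_isNilpotent (A := ⊤) inferInstance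
        (mem_top v) (mem_top _) (hv.pow_right j) (pow_orderOf_eq_one v)
        (hj ▸ pow_orderOf_eq_one (a : G))
      obtain ⟨i, hi⟩ := mem_zpowers_iff.1 (ha.conj_mem a (mem_zpowers a) ⟨u, hu⟩)
      refine ⟨i, (congrArg Subtype.val hi).trans ?_⟩
      calc u * a * u⁻¹ = u * (a * v) * (u * v)⁻¹ := by group
        _ = _ := by rw [← h2.eq]; group
    have key2 : ∀ a b : P, (zpowers a).Normal → orderOf a = orderOf b → b ∈ zpowers a := by
      intro a b ha hab
      obtain ⟨g, hg⟩ := H3.BG.exists_conj_mem_zpowers hB (a := (b : G)) (m := a)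
        (by rw [orderOf_coe, orderOf_coe, hab])
      obtain ⟨i, hi⟩ := mem_zpowers_iff.1 hg
      have h3 := zpow_mem (key g⁻¹ a ha) i
      rw [conj_zpow, hi] at h3
      obtain ⟨j, hj⟩ := mem_zpowers_iff.1 h3
      exact ⟨j, Subtype.ext (by simpa [mul_assoc] using hj)⟩
    obtain ⟨z, -, hzc, hz⟩ := H3.exists_central_orderOf_eq_prime P.isPGroup' ⊤ fun e => by
      haveI := (Subgroup.subsingleton_iff (G := P)).1 (subsingleton_of_bot_eq_top e.symm)
      exact hnc inferInstance
    haveI : IsCyclic (zpowers z) := inferInstance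
    obtain ⟨rfl, n, x, y, hn, hx, hidx, hy, h1, h2⟩ :=
      (H3.abelian_cyclic_cases P.isPGroup' fun A hA => isCyclic_of_le (H' := zpowers z)
        fun a ha => by
          by_cases h : a = 1
          · exact h ▸ one_mem _
          · exact key2 z a (H3.zpowers_normal_of_mem_center hzc)
              (hz.trans (orderOf_eq_prime (hA.2 a ha) h).symm)).resolve_left hnc
    haveI : (zpowers x).Normal := normal_of_index_eq_two hidx
    refine hy (zpowers_le.2 (pow_mem (mem_zpowers x) (2 ^ (n - 2))) (key2 _ y ⟨?_⟩ ?_))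
    · intro w hw g
      obtain ⟨i, rfl⟩ := mem_zpowers_iff.1 hw
      obtain ⟨e, he⟩ := H3.exists_conj_eq_zpow (x := x) g
      rw [← conj_zpow, ← conj_pow, he]
      refine zpow_mem ?_ i
      rw [← zpow_natCast (x ^ e), ← zpow_mul, mul_comm e, zpow_mul, zpow_natCast]
      exact zpow_mem_zpowers _ e
    · rw [H3.orderOf_eq_four_of_not_mem (by omega) hx hidx hy h1 h2 hy]
      refine H3.orderOf_eq_four_of_sq ?_
      rw [← pow_mul, ← pow_succ, show n - 2 + 1 = n - 1 by omega]
      exact H3.orderOf_half (by omega) hx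
  haveI : IsZGroup G := ⟨fun p hp P => h1 p ⟨hp⟩ P⟩
  infer_instance

end Cfsg.Agent.S3910
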