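import Cfsg.Statements.S3915
import Cfsg.Agent.H2.Components
import Cfsg.Agent.H1.Basic
import Cfsg.Agent.FT.Final

set_option autoImplicit false
open Cfsg

namespace Cfsg.Agent.S3915

open Subgroup in
theorem exists_two_elt {G : Type*} [Group G] [Finite G] {K : Subgroup G} (hK : IsQuasisimple K) :
    ∃ x ∈ K, x ∉ centralizer (K : Set G) ∧ x ^ 2 ∈ centralizer (K : Set G) ∧
      ∃ n, orderOf x = 2 ^ n := by
  have h1 : ¬ Odd (Nat.card (K ⧸ center K)) := fun h =>
    Cfsg.Agent.H2.QS.not_isSolvable hK (by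
      haveI := Cfsg.Agent.FT.feit_thompson _ h
      haveI : Group.IsSolvable (center K) := Cfsg.Agent.H1.isSolvable_of_isMulCommutative inferInstance
      exact Group.isSolvable_of_ker_le_range (center K).subtype (QuotientGroup.mk' (center K))
        (by simp))
  haveI : Fact (Nat.Prime 2) := ⟨Nat.prime_two⟩
  obtain ⟨t, ht⟩ := exists_prime_orderOf_dvd_card' 2 (even_iff_two_dvd.1 (Nat.not_odd_iff_even.1 h1))
  obtain ⟨y, rfl⟩ := QuotientGroup.mk'_surjective _ t
  obtain ⟨n, m, hm, e⟩ := Nat.exists_eq_two_pow_mul_odd (orderOf_pos y).ne'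
  have hc : ∀ z : K, QuotientGroup.mk' (center K) z = 1 ↔ (z : G) ∈ centralizer (K : Set G) := by
    intro z
    rw [QuotientGroup.mk'_apply, QuotientGroup.eq_one_iff, mem_center_iff, mem_centralizer_iff]
    exact ⟨fun h g hg => congrArg Subtype.val (h ⟨g, hg⟩), fun h g => Subtype.ext (h g g.2)⟩
  refine ⟨(y ^ m : K), (y ^ m).2, ?_, ?_, n, ?_⟩
  · rw [← hc, map_pow, ← orderOf_dvd_iff_pow_eq_one, ht]
    exact hm.not_two_dvd_nat
  · rw [← SubmonoidClass.coe_pow, ← hc, map_pow, map_pow, ← pow_mul, ← orderOf_dvd_iff_pow_eq_one, ht]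
    exact Dvd.intro_left _ rfl
  · rw [Subgroup.orderOf_coe, orderOf_pow' _ hm.pos.ne', e, Nat.gcd_mul_left_left,
      Nat.mul_div_cancel _ hm.pos]

open Subgroup in
theorem aux {G : Type*} [Group G] [Finite G] (hP : ∀ (p : ℕ), p.Prime → ∀ A B : Subgroup G, IsCyclic ↥A → IsCyclic ↥B → IsPGroup p ↥A → Nat.card ↥A = Nat.card ↥B → ∃ g : G, B = A.map (MulAut.conj g).toMonoidHom)
    {K L : Subgroup G} (hK : IsComponent K) (hL : IsComponent L) (hne : K ≠ L) {x y : G}
    (hx : x ∈ K) (hx1 : x ∉ centralizer (K : Set G)) (hx2 : x ^ 2 ∈ centralizer (K : Set G))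
    (hy : y ∈ L) (hy1 : y ∉ centralizer (L : Set G)) {a b : ℕ} (ha : orderOf x = 2 ^ a)
    (hb : orderOf y = 2 ^ b) (hab : b ≤ a) : False := by
  haveI : Fact (Nat.Prime 2) := ⟨Nat.prime_two⟩
  have cm : ∀ {A B : Subgroup G}, IsComponent A → IsComponent B → A ≠ B →
      A ≤ centralizer (B : Set G) := fun h1 h2 h =>
    (Cfsg.Agent.H2.compIn_top_iff.2 h1).le_centralizer_of_ne (Cfsg.Agent.H2.compIn_top_iff.2 h2) h
  have hxy : Commute x y := (mem_centralizer_iff.1 (cm hK hL hne hx) y hy).symm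
  have n1 : x * y ∉ centralizer (K : Set G) := fun h =>
    hx1 (by simpa using mul_mem h (inv_mem (cm hL hK hne.symm hy)))
  have n2 : x * y ∉ centralizer (L : Set G) := fun h =>
    hy1 (by simpa using mul_mem (inv_mem (cm hK hL hne hx)) h)
  have conj : ∀ z : G, (∃ n, orderOf z = 2 ^ n) → orderOf z = orderOf (x * y) →
      ∃ g : G, x * y ∈ (zpowers z).map (MulAut.conj g).toMonoidHom := by
    rintro z ⟨n, hn⟩ e
    obtain ⟨g, hg⟩ := hP 2 Nat.prime_two (zpowers z) (zpowers (x * y)) inferInstance inferInstance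
      (IsPGroup.of_card ((Nat.card_zpowers z).trans hn)) (by rw [Nat.card_zpowers, Nat.card_zpowers, e])
    exact ⟨g, hg ▸ mem_zpowers _⟩
  have hd : orderOf (x * y) ∣ 2 ^ a := by
    rw [orderOf_dvd_iff_pow_eq_one, hxy.mul_pow, ← ha, pow_orderOf_eq_one, one_mul,
      ← orderOf_dvd_iff_pow_eq_one, hb, ha]
    exact pow_dvd_pow 2 hab
  obtain ⟨c, hc, e⟩ := (Nat.dvd_prime_pow Nat.prime_two).1 hd
  rcases hc.eq_or_lt with rfl | hc
  · obtain ⟨g, hg⟩ := conj x ⟨_, ha⟩ (ha.trans e.symm)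
    have h1 : x * y ∈ K.map (MulAut.conj g).toMonoidHom := map_mono (zpowers_le.2 hx) hg
    have h2 : IsComponent (K.map (MulAut.conj g).toMonoidHom) :=
      Cfsg.Agent.H2.isComponent_map_equiv (MulAut.conj g) hK
    by_cases h3 : K.map (MulAut.conj g).toMonoidHom = K
    · exact n2 (cm h2 hL (h3.symm ▸ hne) h1)
    · exact n1 (cm h2 hK h3 h1)
  · have h0 : x ^ 2 ^ (a - c) ∈ centralizer (layer G : Set G) := by
      rw [show a - c = a - c - 1 + 1 by omega, pow_succ', pow_mul]
      refine pow_mem ?_ _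
      rw [← zpowers_le, le_centralizer_iff]
      refine sSup_le fun A hA => ?_
      rw [← le_centralizer_iff, zpowers_le]
      by_cases h : K = A
      · exact h ▸ hx2
      · exact cm hK hA h (pow_mem hx 2)
    have h1 : orderOf (x ^ 2 ^ (a - c)) = 2 ^ c := by
      rw [orderOf_pow' _ (pow_pos two_pos _).ne', ha, Nat.gcd_eq_right (pow_dvd_pow 2 (by omega)),
        Nat.pow_div (by omega) two_pos]
      congr 1; omega
    obtain ⟨g, hg⟩ := conj _ ⟨_, h1⟩ (h1.trans e.symm)
    have h2 := map_mono (f := (MulAut.conj g).toMonoidHom) (zpowers_le.2 h0) hg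
    rw [Cfsg.Agent.H1.map_conj_eq_self_iff.2
      (show g ∈ normalizer ((centralizer (layer G : Set G) : Subgroup G) : Set G) by
        rw [normalizer_eq_top]; trivial)] at h2
    exact n1 (Cfsg.Agent.H2.centralizer_anti (le_sSup hK : K ≤ layer G) h2)


/-- Let G be a finite group in which, for every prime p, any two cyclic p-subgroups of the same order are conjugate. If the layer E(G), the subgroup generated by the components of G, is non-trivial, then E(G)/Z(E(G)) is a non-abelian simple group. -/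
theorem result {G : Type*} [Group G] [Finite G] (hP : ∀ (p : ℕ), p.Prime → ∀ A B : Subgroup G, IsCyclic ↥A → IsCyclic ↥B → IsPGroup p ↥A → Nat.card ↥A = Nat.card ↥B → ∃ g : G, B = A.map (MulAut.conj g).toMonoidHom) (hE : Cfsg.layer G ≠ ⊥) :
    IsSimpleGroup (↥(Cfsg.layer G) ⧸ Subgroup.center ↥(Cfsg.layer G)) ∧ ¬ IsMulCommutative (↥(Cfsg.layer G) ⧸ Subgroup.center ↥(Cfsg.layer G)) := by
  obtain ⟨K, hK⟩ := H2.exists_compIn_of_layerOf_ne_bot (H := (⊤ : Subgroup G)) (by rwa [H2.layerOf_top])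
  rw [H2.compIn_top_iff] at hK
  have h1 : layer G = K := by
    refine le_antisymm (sSup_le fun L hL => ?_) (le_sSup hK)
    by_contra hne
    have hne : K ≠ L := fun e => hne e.ge
    obtain ⟨x, x1, x2, x3, a, ha⟩ := exists_two_elt hK.2
    obtain ⟨y, y1, y2, y3, b, hb⟩ := exists_two_elt hL.2
    rcases le_total b a with h | h
    · exact aux hP hK hL hne x1 x2 x3 y1 y2 ha hb h
    · exact aux hP hL hK hne.symm y1 y2 y3 x1 x2 hb ha h
  have h2 : IsQuasisimple (layer G) := h1 ▸ hK.2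
  refine ⟨h2.2, fun h => H2.QS.not_isSolvable h2 ?_⟩
  haveI : Group.IsSolvable (layer G ⧸ Subgroup.center (layer G)) := H1.isSolvable_of_isMulCommutative h
  haveI : Group.IsSolvable (Subgroup.center (layer G)) := H1.isSolvable_of_isMulCommutative inferInstance
  exact Group.isSolvable_of_ker_le_range (Subgroup.center (layer G)).subtype
    (QuotientGroup.mk' (Subgroup.center (layer G))) (by simp)

end Cfsg.Agent.S3915
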