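import Cfsg.Statements.S3917
import Cfsg.Agent.H3.Taussky

set_option autoImplicit false
open Cfsg

namespace Cfsg.Agent.S3917

open Subgroup


/-- Say that a group has self-centralizing non-cyclic subgroups when every non-cyclic subgroup H satisfies C_G(H) ≤ H. A finite abelian group with self-centralizing non-cyclic subgroups is cyclic or elementary abelian of order p² for a prime p. -/
theorem result {G : Type*} [CommGroup G] [Finite G] (hX : (∀ H : Subgroup G, ¬ IsCyclic ↥H → Subgroup.centralizer (H : Set G) ≤ H)) :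
    IsCyclic G ∨ ∃ p : ℕ, p.Prime ∧ Nat.card G = p ^ 2 ∧ Monoid.exponent G = p := by
  by_cases hc : IsCyclic G
  · exact Or.inl hc
  right
  have h1 : ∃ (p : ℕ) (_ : Fact p.Prime) (P : Sylow p G), ¬ IsCyclic P := by
    by_contra! h
    haveI : IsZGroup G := ⟨fun p hp P => h p ⟨hp⟩ P⟩
    exact hc inferInstance
  obtain ⟨p, hp, P, hP⟩ := h1
  obtain ⟨E, -, h1, h2⟩ := H3.exists_elementary_sq_le P.isPGroup' inferInstance hP
  have h3 := hX E (H3.not_isCyclic_of_isElementaryAbelian hp.out h1
    (by rw [h2, sq]; exact lt_mul_self hp.out.one_lt))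
  have h4 : E = ⊤ := eq_top_iff.2 fun g _ => h3 fun a _ => mul_comm a g
  subst h4
  rw [card_top] at h2
  refine ⟨p, hp.out, h2, ?_⟩
  haveI : Nontrivial G := Finite.one_lt_card_iff_nontrivial.1
    (h2 ▸ Nat.one_lt_pow two_ne_zero hp.out.one_lt)
  exact (Monoid.exponent_eq_prime_iff hp.out).2 fun g hg =>
    orderOf_eq_prime (h1.2 g (mem_top g)) hg

end Cfsg.Agent.S3917
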