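import Cfsg.Statements.S3918
import Cfsg.Agent.H3.Taussky

set_option autoImplicit false
open Cfsg

namespace Cfsg.Agent.S3918

open Subgroup
open scoped commutatorElement


/-- Say that a group has self-centralizing non-cyclic subgroups when every non-cyclic subgroup H satisfies C_G(H) ≤ H. For an odd prime p, a finite non-abelian p-group has self-centralizing non-cyclic subgroups if and only if it has order p³. -/
theorem result {G : Type*} [Group G] [Finite G] {p : ℕ} [Fact p.Prime] (hp : p ≠ 2) (hG : IsPGroup p G) (hna : ¬ IsMulCommutative G) :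
    (∀ H : Subgroup G, ¬ IsCyclic ↥H → Subgroup.centralizer (H : Set G) ≤ H) ↔ Nat.card G = p ^ 3 := by
  obtain ⟨n, hn⟩ := IsPGroup.iff_card.1 hG
  have h3 := H3.three_le_of_not_isMulCommutative hn hna
  have hp1 := (Fact.out : p.Prime).one_lt
  constructor
  · intro h
    obtain ⟨E, hE, h1, h2⟩ := H3.exists_normal_elementary_sq hp hG
      (fun hc => hna inferInstance)
    obtain ⟨x, hxE, hx⟩ := H3.exists_centralizer_le_of_selfCentralizing hG h2.le
      (h E (H3.not_isCyclic_of_isElementaryAbelian Fact.out h1
        (by rw [h2, sq]; exact lt_mul_self hp1)))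
    obtain ⟨N, hN, hNE, hNc⟩ := H3.exists_normal_le_card_eq_pow hG E (k := 1)
      (h2 ▸ Nat.pow_le_pow_right (by omega) one_le_two)
    have hlt : N < E := lt_of_le_of_ne hNE fun e => by
      rw [e, h2] at hNc
      have := Nat.pow_right_injective hp1 hNc
      omega
    obtain ⟨K, -, -, hKE, hK, hK'⟩ := H3.exists_normal_card_eq_mul hG hlt
    have hKE' : K = E := eq_of_le_of_card_ge hKE (by rw [hK, h2, hNc, pow_one, sq])
    have h4 := H2.relIndex_centralizer_le_card (H := ⊤) (N := N) (x := x) fun g _ => by
      rw [← inv_mem_iff, commutatorElement_inv]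
      exact hK' x (hKE' ▸ hxE) g
    rw [relIndex_top_right, hNc] at h4
    have h5 := (centralizer ({x} : Set G)).index_mul_card
    have h6 : Nat.card G ≤ p ^ 1 * p ^ 2 := by
      rw [← h5]; exact Nat.mul_le_mul h4 (h2 ▸ card_le_of_le hx)
    rw [← pow_add, hn, Nat.pow_le_pow_iff_right hp1] at h6
    rw [hn, show n = 3 by omega]
  · intro h H hH
    have hM : H2.MaxClass p 3 G := ⟨le_rfl, h, mt H2.isMulCommutative_iff_lcs_one.2 hna⟩
    obtain ⟨k, hk⟩ := IsPGroup.iff_card.1 (hG.to_subgroup H)
    have hk2 : 2 ≤ k := by
      by_contra hlt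
      have : k = 0 ∨ k = 1 := by omega
      rcases this with rfl | rfl
      · haveI := (Nat.card_eq_one_iff_unique.1 hk).1
        exact hH inferInstance
      · exact hH (isCyclic_of_prime_card (hk.trans (pow_one p)))
    by_cases hk3 : 3 ≤ k
    · have : H = ⊤ := eq_top_of_card_eq _ (le_antisymm (card_le_card_group H)
        (by rw [hk, h]; exact Nat.pow_le_pow_right (by omega) hk3))
      rw [this]; exact le_top
    have hk' : Nat.card H = p ^ 2 := by rw [hk, show k = 2 by omega]
    have hco : IsCoatom H := H3.isCoatom_of_index_prime (by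
      have := H.index_mul_card
      rw [hk', h, pow_succ' p 2] at this
      rw [Nat.eq_of_mul_eq_mul_right (by positivity) this]; exact Fact.out)
    have hab : H ≤ centralizer (H : Set G) :=
      le_centralizer_iff_isMulCommutative.2 (IsPGroup.isMulCommutative_of_card_eq_prime_sq hk')
    by_contra hc
    have h4 := hco.2 _ (lt_of_le_of_ne hab fun e => hc e.ge)
    have h5 := card_le_of_le (centralizer_eq_top_iff_subset.1 h4 : H ≤ center G)
    rw [hk', hM.card_center, sq] at h5
    exact (lt_mul_self hp1).not_ge h5

end Cfsg.Agent.S3918
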