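import Cfsg.Statements.S3919
import Cfsg.Agent.H3.Taussky
import Cfsg.Agent.H3.DQ

set_option autoImplicit false
open Cfsg

namespace Cfsg.Agent.S3919

open Subgroup
open scoped commutatorElement


/-- Say that a group has self-centralizing non-cyclic subgroups when every non-cyclic subgroup H satisfies C_G(H) ≤ H. A finite non-abelian 2-group G of order 2^n has self-centralizing non-cyclic subgroups if and only if G has nilpotency class n − 1 (that is, G is dihedral, semidihedral or generalized quaternion). -/
theorem result {G : Type*} [Group G] [Finite G] (hna : ¬ IsMulCommutative G) (n : ℕ) (hG : Nat.card G = 2 ^ n) :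
    (∀ H : Subgroup G, ¬ IsCyclic ↥H → Subgroup.centralizer (H : Set G) ≤ H) ↔ (⊤ : Subgroup G).lowerCentralSeries (n - 2) ≠ ⊥ := by
  haveI := Fact.mk Nat.prime_two
  have hP : IsPGroup 2 G := IsPGroup.of_card hG
  have hn := H3.three_le_of_not_isMulCommutative hG hna
  constructor
  · intro h
    by_cases hE : ∀ A : Subgroup G, Cfsg.IsElementaryAbelian 2 A → IsCyclic A
    · rcases H3.abelian_cyclic_cases hP hE with hc | ⟨-, m, x, y, hm, hx, hidx, hy, -, h2⟩
      · exact (hna inferInstance).elim
      have h1 : ∀ k : ℕ, x ^ 2 ^ k ∈ H2.lcs G k := fun k => by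
        induction k with
        | zero => exact mem_top _
        | succ k ih =>
          have := H2.commutator_mem_lcs_succ ih y
          rwa [show ⁅x ^ 2 ^ k, y⁆ = x ^ 2 ^ k * (y * x * y⁻¹)⁻¹ ^ 2 ^ k by
            rw [inv_pow, conj_pow, commutatorElement_def]; group, h2, inv_inv, ← pow_add,
            ← two_mul, ← pow_succ'] at this
      intro e
      have h3 := h1 (n - 2)
      rw [show H2.lcs G (n - 2) = ⊥ from e, mem_bot, ← orderOf_dvd_iff_pow_eq_one, hx,
        Nat.pow_dvd_pow_iff_le_right one_lt_two] at h3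
      have h4 := (zpowers x).index_mul_card
      rw [hidx, Nat.card_zpowers, hx, hG, ← pow_succ'] at h4
      have := Nat.pow_right_injective le_rfl h4
      omega
    · push Not at hE
      obtain ⟨A, hA, hnc⟩ := hE
      obtain ⟨E, -, h1, h2⟩ := H3.exists_elementary_sq_le (hP.to_subgroup A) hA.1 hnc
      exact H3.lcs_ne_bot_of_selfCentralizing hG (by omega) h2.le
        (h E (H3.not_isCyclic_of_isElementaryAbelian Nat.prime_two h1 (by omega)))
  · intro h H hH c hc
    have hM : H2.MaxClass 2 n G := ⟨hn, hG, h⟩
    obtain ⟨x, hidx⟩ := H3.taussky_index hP hna hM.index_lcs_one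
    obtain ⟨k, hkH, hk⟩ := SetLike.not_le_iff_exists.1 fun hle : H ≤ zpowers x =>
      hH (isCyclic_of_le hle)
    have h1 : H ⊓ zpowers x ≠ ⊥ := fun e => by
      have h2 := H3.card_inf_mul_relIndex (zpowers x) H
      have h3 : (zpowers x).relIndex H ≤ 2 := by
        rw [← hidx, ← relIndex_top_right]
        exact relIndex_le_of_le_right le_top (by rw [relIndex_top_right, hidx]; omega)
      rw [inf_comm, e, card_bot, one_mul] at h2
      have h4 : 0 < Nat.card H := Nat.card_pos
      have h5 : Nat.card H = 1 ∨ Nat.card H = 2 := by omega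
      rcases h5 with h5 | h5
      · haveI := (Nat.card_eq_one_iff_unique.1 h5).1
        exact hH inferInstance
      · exact hH (isCyclic_of_prime_card h5)
    obtain ⟨⟨w, hwH, hwx⟩, hw⟩ := (ne_bot_iff_exists_ne_one).1 h1
    have hw1 : w ≠ 1 := fun e => hw (Subtype.ext e)
    have key : ∀ d ∈ zpowers x, d * k = k * d → d ∈ H := fun d hd hdk => by
      have h2 : centralizer ({d} : Set G) = ⊤ := by
        refine H3.eq_top_of_index_two hidx (zpowers_le.2 ?_) hk
          (mem_centralizer_singleton_iff.2 hdk.symm)
        exact mem_centralizer_singleton_iff.2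
          (H3.mul_comm_of_mem inferInstance (mem_zpowers x) hd)
      have h3 : d ∈ center G := mem_center_iff.2 fun g =>
        mem_centralizer_singleton_iff.1 (h2 ▸ mem_top g)
      have h4 : orderOf d ∣ 2 := hM.card_center ▸ orderOf_dvd_natCard _ h3
      obtain ⟨j, hj⟩ := H3.exists_pow_orderOf_eq_prime hP hw1
      exact zpowers_le.2 (H.pow_mem hwH j)
        (H6.mem_zpowers_of_orderOf_dvd hd (pow_mem hwx j) (hj ▸ h4))
    have hck := hc k hkH
    by_cases hcx : c ∈ zpowers x
    · exact key c hcx hck.symm
    · have h2 := key (c * k⁻¹) (by rw [mul_mem_iff_of_index_two hidx, inv_mem_iff]; tauto)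
        (by rw [← mul_assoc, hck]; group)
      simpa using H.mul_mem h2 hkH

end Cfsg.Agent.S3919
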