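import Cfsg.Statements.S3920
import Cfsg.Agent.H3.Taussky

set_option autoImplicit false
open Cfsg

namespace Cfsg.Agent.S3920

open Subgroup DihedralGroup

/-- preimage of the dihedral subgroup of index `d` -/
def sub (n d : ℕ) (h : d ∣ n) : Subgroup (DihedralGroup n) where
  carrier := {g | ∃ i : ZMod n, ZMod.castHom h (ZMod d) i = 0 ∧ (g = r i ∨ g = sr i)}
  one_mem' := ⟨0, map_zero _, Or.inl rfl⟩
  mul_mem' := by
    rintro _ _ ⟨i, hi, rfl | rfl⟩ ⟨j, hj, rfl | rfl⟩
    · exact ⟨i + j, by rw [map_add, hi, hj, add_zero], Or.inl rfl⟩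
    · exact ⟨j - i, by rw [map_sub, hi, hj, sub_zero], Or.inr rfl⟩
    · exact ⟨i + j, by rw [map_add, hi, hj, add_zero], Or.inr rfl⟩
    · exact ⟨j - i, by rw [map_sub, hi, hj, sub_zero], Or.inl rfl⟩
  inv_mem' := by
    rintro _ ⟨i, hi, rfl | rfl⟩
    · exact ⟨-i, by rw [map_neg, hi, neg_zero], Or.inl rfl⟩
    · exact ⟨i, hi, Or.inr rfl⟩

theorem r_mem {n : ℕ} [NeZero n] (i : ZMod n) : (r i : DihedralGroup n) ∈ zpowers (r 1) :=
  ⟨i.val, by simp⟩


/-- Say that a group has self-centralizing non-cyclic subgroups when every non-cyclic subgroup H satisfies C_G(H) ≤ H. For n ≥ 3, the dihedral group of order 2n has self-centralizing non-cyclic subgroups if and only if n is odd or a power of 2. -/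
theorem result (n : ℕ) (hn : 3 ≤ n) : (∀ H : Subgroup (DihedralGroup n), ¬ IsCyclic ↥H → Subgroup.centralizer (H : Set (DihedralGroup n)) ≤ H) ↔ (Odd n ∨ ∃ k : ℕ, n = 2 ^ k) := by
  haveI : NeZero n := ⟨by omega⟩
  constructor
  · intro h
    by_contra! hc
    obtain ⟨hev, hpow⟩ := hc
    obtain ⟨a, q, hq, rfl⟩ := Nat.exists_eq_two_pow_mul_odd (NeZero.ne n)
    obtain ⟨a, rfl⟩ : ∃ b, a = b + 1 := by
      rcases a with _ | a
      · exact (hev (by simpa using hq)).elim
      · exact ⟨a, rfl⟩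
    have h1 : ¬ IsCyclic (sub (2 ^ (a + 1) * q) (2 ^ (a + 1)) (dvd_mul_right _ _)) := by
      intro hc
      have h2 := H3.mul_comm_of_mem
        (A := sub (2 ^ (a + 1) * q) (2 ^ (a + 1)) (dvd_mul_right _ _)) inferInstance
        (a := r ((2 ^ (a + 1) : ℕ) : ZMod _)) (b := sr 0)
        ⟨_, by rw [map_natCast, ZMod.natCast_self], Or.inl rfl⟩ ⟨0, map_zero _, Or.inr rfl⟩
      rw [r_mul_sr, sr_mul_r, sr.injEq, zero_sub, zero_add, neg_eq_iff_add_eq_zero,
        ← Nat.cast_add, ZMod.natCast_eq_zero_iff, ← mul_two,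
        Nat.mul_dvd_mul_iff_left (by positivity)] at h2
      rcases (Nat.dvd_prime Nat.prime_two).1 h2 with rfl | rfl
      · exact hpow (a + 1) (mul_one _)
      · exact absurd hq (by decide)
    have h2 : (r ((2 ^ a * q : ℕ) : ZMod _) : DihedralGroup (2 ^ (a + 1) * q)) ∈
        sub (2 ^ (a + 1) * q) (2 ^ (a + 1)) (dvd_mul_right _ _) := by
      refine h _ h1 fun g _ => ?_
      rcases g with i | i
      · rw [r_mul_r, r_mul_r, add_comm i]
      · rw [r_mul_sr, sr_mul_r, sr.injEq, sub_eq_add_neg, add_right_inj,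
          eq_neg_iff_add_eq_zero, ← Nat.cast_add, ZMod.natCast_eq_zero_iff]
        exact ⟨1, by ring⟩
    obtain ⟨i, hi, h3 | h3⟩ := h2
    · rw [r.injEq] at h3
      rw [← h3, map_natCast, ZMod.natCast_eq_zero_iff, pow_succ,
        Nat.mul_dvd_mul_iff_left (by positivity)] at hi
      exact (Nat.not_even_iff_odd.2 hq) (even_iff_two_dvd.2 hi)
    · cases h3
  · intro h H hH c hc
    obtain ⟨k, hkH, hk⟩ := SetLike.not_le_iff_exists.1 fun hle : H ≤ zpowers (r 1) =>
      hH (isCyclic_of_le hle)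
    obtain ⟨j, rfl⟩ : ∃ j, k = sr j := by
      rcases k with i | i
      · exact (hk (r_mem i)).elim
      · exact ⟨i, rfl⟩
    obtain ⟨i, hi, hiH⟩ : ∃ i : ZMod n, i ≠ 0 ∧ r i ∈ H := by
      by_contra! h1
      refine hH (isCyclic_of_le (H' := zpowers (sr j)) fun g hg => ?_)
      rcases g with i | i
      · by_cases hi : i = 0
        · rw [hi]; exact one_mem _
        · exact (h1 i hi hg).elim
      · by_cases hi : i - j = 0
        · rw [sub_eq_zero.1 hi]; exact mem_zpowers _
        · exact (h1 _ hi (H.mul_mem hkH hg)).elim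
    have key : ∀ k : ZMod n, k + k = 0 → r k ∈ H := fun k hk2 => by
      have h1 : orderOf (r k : DihedralGroup n) ∣ 2 :=
        orderOf_dvd_of_pow_eq_one (by rw [sq, r_mul_r, hk2]; rfl)
      have h2 : ∀ i : ZMod n, orderOf (r i : DihedralGroup n) ∣ n := fun i => by
        have := orderOf_dvd_of_mem_zpowers (r_mem i)
        rwa [orderOf_r_one] at this
      rcases h with h | ⟨a, rfl⟩
      · have h3 := Nat.eq_one_of_dvd_coprimes (Nat.coprime_two_left.2 h) h1 (h2 k)
        rw [orderOf_eq_one_iff.1 h3]; exact one_mem _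
      · obtain ⟨b, -, hb⟩ := (Nat.dvd_prime_pow Nat.prime_two).1 (h2 i)
        have hb0 : b ≠ 0 := by
          rintro rfl
          exact hi (r.inj (orderOf_eq_one_iff.1 hb))
        exact zpowers_le.2 hiH (H6.mem_zpowers_of_orderOf_dvd (r_mem k) (r_mem i)
          (h1.trans (hb ▸ dvd_pow_self 2 hb0)))
    have h1 := hc _ hkH
    rcases c with k | k
    · rw [r_mul_sr, sr_mul_r, sr.injEq, sub_eq_add_neg, add_right_inj,
          eq_neg_iff_add_eq_zero] at h1
      exact key k h1
    · rw [sr_mul_sr, sr_mul_sr, r.injEq] at h1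
      have := H.mul_mem hkH (key (k - j) (by linear_combination h1))
      rwa [sr_mul_r, add_sub_cancel] at this

end Cfsg.Agent.S3920
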