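import Cfsg.Statements.S3921
import Cfsg.Agent.P4.Dih
import Cfsg.Agent.P4.Num

set_option autoImplicit false
open Cfsg

namespace Cfsg.Agent.S3921

open Subgroup Cfsg.Agent.FT Cfsg.Agent.L Cfsg.Agent.P4

section

variable {G : Type*} [Group G] [Finite G]

theorem selfCent (h : ∀ H : Subgroup G, ¬ IsCyclic H → 𝐂(H) ≤ H) {t u : G} (t1 : t ≠ 1)
    (tt : t * t = 1) (u1 : u ≠ 1) (uu : u * u = 1) (hne : t ≠ u) (hc : Commute t u) :
    SelfCent t u := by
  refine ⟨t1, u1, hne, tt, uu, hc, fun g a b => ?_⟩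
  have h1 := H2.ZC.isElem_two t1 (by rwa [sq]) u1 (by rwa [sq]) hne.symm (mem_cent1.2 hc)
  have h2 := h _ (h1.not_isCyclic Nat.prime_two le_rfl) (x := g) (by
    rw [cent_sup, cent_zpowers, cent_zpowers]; exact ⟨mem_cent1.2 a, mem_cent1.2 b⟩)
  obtain ⟨a, ha, b, hb, rfl⟩ := (mem_sup_of_norm ((zpowers_le_of_mem (g := u)
    (H := 𝐂(zpowers t)) (by rw [cent_zpowers]; exact mem_cent1.2 hc)).trans (cent_le_norm _))).1 h2
  rcases H2.ZC.eq_or_eq_of_mem_zpowers (by rwa [sq]) ha with rfl | rfl <;>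
    rcases H2.ZC.eq_or_eq_of_mem_zpowers (by rwa [sq]) hb with rfl | rfl <;> simp

theorem cent_le (h : ∀ H : Subgroup G, ¬ IsCyclic H → 𝐂(H) ≤ H) {S : Subgroup G} {x z s : G}
    (hm : Max2 S x z s) : 𝐂[z] ≤ S := by
  have hS : IsSyl 2 S 𝐂[z] := hm.syl.of_le hm.le_cent le_top
  have h1 : ∀ u : 𝐂[z], u * u = 1 → (u : G) ∈ S := fun u uu => by
    refine hS.pCoreOf_le Nat.prime_two ⟨u, ?_, rfl⟩
    by_contra h0
    obtain ⟨y, hy, hy2, e, -⟩ := exists_inverted_of_not_mem_pCore uu h0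
    have e' : (u : G) * y * (u : G)⁻¹ = (y : G)⁻¹ := congrArg Subtype.val e
    have ho : Odd 𝐨(zpowers (y : G)) := by
      rw [Nat.card_zpowers, orderOf_coe]; exact hy.odd_of_ne_two hy2
    have hc : ¬ Commute (u : G) y := fun hc => by
      rw [hc.eq, mul_inv_cancel_right, eq_inv_iff_mul_eq_one] at e'
      have := eq_one_of_sq_of_odd ho (mem_zpowers _) e'
      rw [← orderOf_coe, this, orderOf_one] at hy
      exact hy.ne_one rfl
    have hn : zpowers (u : G) ≤ 𝐍(zpowers (y : G)) := zpowers_le_of_mem (by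
      rw [← conj_eq_self_iff, ← zpowers_conj, e', zpowers_inv])
    have h2 := h (zpowers (y : G) ⊔ zpowers (u : G)) (fun hcyc => hc (mem_cent.1
      (isMulComm_iff_le_cent.1 (isMulComm_of_isCyclic hcyc) (mem_sup_left (mem_zpowers _))) _
      (mem_sup_right (mem_zpowers _)))) (x := z) (by
      rw [cent_sup, cent_zpowers, cent_zpowers]
      exact ⟨mem_cent1_comm.1 y.2, mem_cent1_comm.1 u.2⟩)
    obtain ⟨a, ha, b, hb, e2⟩ := (mem_sup_of_norm hn).1 h2
    rcases H2.ZC.eq_or_eq_of_mem_zpowers (by rw [sq]; exact congrArg Subtype.val uu) hb with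
      rfl | rfl
    · rw [mul_one] at e2
      exact hm.z1 (eq_one_of_sq_of_odd ho (e2 ▸ ha) hm.zz)
    · have h3 : Commute a y := by
        obtain ⟨k, rfl⟩ := ha
        exact Commute.zpow_self _ k
      have h4 : Commute (a * u) y := by rw [e2]; exact mem_cent1.1 y.2
      exact hc (by simpa using h3.inv_left.mul_left h4)
  have hsz : s ∈ 𝐂[z] := hm.le_cent hm.sS
  have s1 : s ≠ 1 := fun e => hm.sx (e ▸ one_mem _)
  have hsc := selfCent h hm.z1 hm.zz s1 hm.ss (fun e => hm.sx (e ▸ hm.zx)) (mem_cent1.1 hsz)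
  have h2 := ncard_isConj_mul_card_centralizer (⟨s, hsz⟩ : 𝐂[z])
  have h3 : 𝐨(𝐂[(⟨s, hsz⟩ : 𝐂[z])]) ≤ 4 := by
    have h1 : ((𝐂[(⟨s, hsz⟩ : 𝐂[z])]).map (𝐂[z]).subtype : Set G) ⊆ {1, z, s, z * s} := by
      rintro _ ⟨g, hg, rfl⟩
      exact hsc.cent g (mem_cent1.1 g.2) (congrArg Subtype.val (mem_cent1.1 hg))
    have h2 := Set.ncard_le_ncard h1
    rw [← card_map_inj (𝐂[z]).subtype_injective]
    refine h2.trans ((Set.ncard_insert_le _ _).trans ?_)
    have := Set.ncard_insert_le z {s, z * s}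
    have := Set.ncard_insert_le s {z * s}
    rw [Set.ncard_singleton] at this
    omega
  have h4 : {y | IsConj (⟨s, hsz⟩ : 𝐂[z]) y}.ncard ≤ orderOf x := by
    rw [← Nat.card_zpowers]
    refine Set.ncard_le_ncard_of_injOn (t := (zpowers x : Set G)) (fun y => s * y) ?_
      (fun a _ b _ e => Subtype.ext (mul_left_cancel e))
    intro y hy
    obtain ⟨c, rfl⟩ := isConj_iff.1 hy
    have h5 := conj_sq (t := (⟨s, hsz⟩ : 𝐂[z])) (Subtype.ext hm.ss) c
    refine (hm.cover _ (h1 _ h5)).resolve_left fun e => hm.sx ?_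
    have h6 := (hm.uniq e (congrArg Subtype.val h5)).resolve_left (conj_ne_one s1 c)
    have h7 : (c : G) * s * (c : G)⁻¹ = c * z * (c : G)⁻¹ :=
      h6.trans (mem_cent1_iff_conj.1 c.2).symm
    rw [mul_left_cancel (mul_right_cancel h7)]
    exact hm.zx
  have h5 := H1.card_mul_relIndex hm.le_cent
  have h6 := hS.ndvd
  have h7 := Nat.mul_le_mul h4 h3
  rw [h2, ← h5, hm.card] at h7
  have h8 : 0 < orderOf x := orderOf_pos x
  rw [← relIndex_eq_one]
  have : S.relIndex 𝐂[z] ≤ 2 := by nlinarith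
  omega

theorem sc_psl {F : Type} [Field F] [Fintype F] (hF : Fintype.card F = 4 ∨ Fintype.card F = 9 ∨
      ((Fintype.card F).Prime ∧ ∃ k : ℕ, Fintype.card F = 2 ^ k + 1 ∨ Fintype.card F = 2 ^ k - 1))
    (H : Subgroup (PSL F)) (c : PSL F) (hc : H ≤ 𝐂[c]) (hH : c ∉ H) : IsCyclic H := by
  have c1 : c ≠ 1 := fun e => hH (e ▸ one_mem H)
  rw [← Nat.card_eq_fintype_card] at hF
  have cyc : ∀ p : ℕ, p.Prime → 𝐨(H) ∣ p → IsCyclic H := fun p hp hd => by
    have := Fact.mk hp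
    exact isCyclic_of_card_dvd_prime hd
  by_cases h2 : c * c ≠ 1 ∨ (2 : F) = 0
  · rcases psl_cent c1 h2 with ⟨h, -⟩ | h
    · exact isCyclic_of_le hc h
    have h3 := FT.card_dvd_of_le hc
    have h4 := L.card_lt_of_lt (lt_of_le_of_ne hc fun e => hH (e ▸ self_mem_cent1 c))
    rw [h] at h3 h4
    rcases hF with e | e | ⟨e, -⟩
    · rw [e] at h3 h4
      refine cyc 2 Nat.prime_two ?_
      generalize 𝐨(H) = n at *
      interval_cases n <;> omega
    · rw [e] at h3 h4
      refine cyc 3 Nat.prime_three ?_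
      generalize 𝐨(H) = n at *
      interval_cases n <;> omega
    · exact cyc _ e h3
  push Not at h2
  obtain ⟨X, hX, hcX, hq, hm⟩ := psl_cent_invol h2.2 c1 h2.1
  have h3 := orderOf_dvd_card_of_mem hcX
  rw [orderOf_two c1 h2.1] at h3
  have h4 : IsPGroup 2 X := by
    suffices ∃ k, 𝐨(X) ∣ 2 ^ k by
      obtain ⟨k, hk⟩ := this
      obtain ⟨j, -, hj⟩ := (Nat.dvd_prime_pow Nat.prime_two).1 hk
      exact isPGroup_of_card_eq hj
    generalize 𝐨(X) = n at *
    rcases hF with e | e | ⟨e, k, e' | e'⟩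
    · omega
    · exact ⟨2, Dvd.intro 1 (by omega)⟩
    · rcases k with _ | _ | k
      · omega
      · exact ⟨1, Dvd.intro 1 (by omega)⟩
      · exact ⟨k + 1, Dvd.intro 1 (by simp only [pow_succ] at e' ⊢; omega)⟩
    · have := e.two_le
      rcases k with _ | _ | k
      · omega
      · omega
      · exact ⟨k + 1, Dvd.intro 1 (by simp only [pow_succ] at e' ⊢; omega)⟩
  have h5 : ∀ a ∈ H, a ∈ X → a = 1 := fun a ha hx => by
    by_contra h0
    obtain ⟨t, ht, t1, tt⟩ := exists_invol (h4.to_le (zpowers_le_of_mem hx)) (zpowers_ne_bot.2 h0)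
    exact hH (uniq_invol hX (zpowers_le_of_mem hx ht) t1 tt hcX c1 h2.1 ▸ zpowers_le_of_mem ha ht)
  by_cases h6 : H = ⊥
  · rw [h6]; infer_instance
  obtain ⟨⟨a, ha⟩, a1⟩ := ne_bot_iff_exists_ne_one.1 h6
  refine isCyclic_of_le (K := zpowers a) (fun b hb => ?_) inferInstance
  by_cases b1 : b = 1
  · exact b1 ▸ one_mem _
  · have := h5 _ (mul_mem (inv_mem ha) hb) (hm a (hc ha)
      (fun e => a1 (Subtype.ext (h5 a ha e))) b (hc hb) fun e => b1 (h5 b hb e))
    exact inv_mul_eq_one.1 this ▸ mem_zpowers a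

end

/-- Say that a group has self-centralizing non-cyclic subgroups when every non-cyclic subgroup H satisfies C_G(H) ≤ H. A non-abelian finite simple group has self-centralizing non-cyclic subgroups if and only if it is isomorphic to PSL₂(q) with q = 4, q = 9, or q a prime of the form 2^k + 1 or 2^k − 1. -/
theorem result {G : Type*} [Group G] [Finite G] [IsSimpleGroup G] (hna : ¬ IsMulCommutative G) :
    (∀ H : Subgroup G, ¬ IsCyclic ↥H → Subgroup.centralizer (H : Set G) ≤ H) ↔ ∃ (F : Type) (_ : Field F) (_ : Fintype F),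
      (Fintype.card F = 4 ∨ Fintype.card F = 9 ∨ ((Fintype.card F).Prime ∧ ∃ k : ℕ, Fintype.card F = 2 ^ k + 1 ∨ Fintype.card F = 2 ^ k - 1)) ∧
      Nonempty (G ≃* Matrix.ProjectiveSpecialLinearGroup (Fin 2) F) := by
  have hns := not_isSolvable_of_isSimpleGroup hna
  constructor
  · intro h
    have hi : ∀ N : Subgroup G, N.index ≠ 2 := fun N hN => by
      rcases (normal_of_index_eq_two hN).eq_bot_or_eq_top with rfl | rfl
      · exact hns (solvable_of_index_two hN inferInstance)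
      · simp at hN
    obtain ⟨t, -, t1, tt⟩ := exists_invol_of_even (H := (⊤ : Subgroup G)) (by
      by_contra h0
      exact hns (feit_thompson G (by rwa [← odd_iff_not_dvd, card_top] at h0)))
    obtain ⟨u, hu, hc, hne⟩ : ∃ u, orderOf u = 2 ∧ Commute t u ∧ u ≠ t := by
      by_contra h0
      push Not at h0
      have h1 := P1.brauer_suzuki (orderOf_two t1 tt) h0
      rw [eq_bot_of_normal_of_isSolvable hns (pPrimeCore 2 G) (solvable_of_odd
        (odd_iff_not_dvd.2 (not_dvd_card_pPrimeCore Nat.prime_two)))] at h1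
      have h2 := eq_bot_of_normal_of_isSolvable hns (center G)
        (H1.isSolvable_of_isMulCommutative inferInstance)
      exact t1 (mem_bot.1 (h2 ▸ mem_center_iff.2 fun g =>
        (commutatorElement_eq_one_iff_mul_comm.1 (mem_bot.1 (h1 g))).symm))
    obtain ⟨S, x, z, s, hm⟩ := (selfCent h t1 tt (invol_of_orderOf hu).1 (invol_of_orderOf hu).2
      hne.symm hc).exists_max2
    have hC := cent_le h hm
    have hd : s * x * s = x⁻¹ := by
      by_contra h0
      obtain ⟨-, -, N, hN, -⟩ := hm.sd hC h0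
      exact hi N hN
    obtain ⟨F, _, _, hF, e⟩ := (hm.bsw hC hd fun u u1 uu => (hm.isConj_or u1 uu).resolve_right
      fun ⟨N, hN, _⟩ => hi N hN).exists_psl2
    refine ⟨F, inferInstance, inferInstance, Or.inr ?_, e⟩
    obtain ⟨k, hk⟩ := exists_card_eq_pow Nat.prime_two (hm.syl.pgrp.to_le hm.X_le)
    obtain ⟨p, _, f, hp, hf⟩ := FiniteField.card' F
    rw [hk, ← pow_succ', hf] at hF
    rcases prime_or_nine hp f.pos hF with h1 | h1
    · rw [h1, pow_one] at hf hF
      rw [hf]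
      exact Or.inr ⟨hp, k + 1, by omega⟩
    · exact Or.inl (hf.trans h1)
  · rintro ⟨F, _, _, hF, ⟨e⟩⟩ H hH c hc
    by_contra h0
    refine hH ((isCyclic_map_iff (f := e.toMonoidHom) e.injective).1
      (sc_psl hF _ (e c) ?_ (fun h1 => h0 ?_)))
    · rintro _ ⟨a, ha, rfl⟩
      exact mem_cent1.2 (by simpa using congrArg e (mem_cent.1 hc a ha).symm)
    · obtain ⟨a, ha, e'⟩ := h1
      exact e.injective e' ▸ ha

end Cfsg.Agent.S3921
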