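import Cfsg.Statements.S3923
import Cfsg.Agent.Hm.F3
import Cfsg.Agent.Hm.C
import Cfsg.Agent.Hm.A
import Cfsg.Agent.Hm.B
import Cfsg.Agent.Hm.E

set_option autoImplicit false
open Cfsg

namespace Cfsg.Agent.S3923

/-- Call a finite group homogeneous when every isomorphism between two of its subgroups is the restriction of an automorphism of the whole group. A homogeneous quasisimple finite group (perfect with simple central quotient) is isomorphic to SL₂(5) if it is not simple, and to PSL₂(5) or PSL₂(7) if it is simple. -/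
theorem result {G : Type*} [Group G] [Finite G] (hhom : ∀ (A B : Subgroup G) (e : ↥A ≃* ↥B), ∃ φ : G ≃* G, ∀ a : ↥A, φ (a : G) = (e a : G)) (hq : Cfsg.IsQuasisimple G) :
    (¬ IsSimpleGroup G → ∃ (F : Type) (_ : Field F) (_ : Fintype F), Fintype.card F = 5 ∧ Nonempty (G ≃* Matrix.SpecialLinearGroup (Fin 2) F)) ∧
    (IsSimpleGroup G → ∃ (F : Type) (_ : Field F) (_ : Fintype F), (Fintype.card F = 5 ∨ Fintype.card F = 7) ∧
      Nonempty (G ≃* Matrix.ProjectiveSpecialLinearGroup (Fin 2) F)) :=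
  Hm.s3923 Hm.aStmt Hm.bStmt Hm.bStmt' Hm.cStmt (Hm.eStmt Hm.aStmt Hm.bStmt' Hm.cStmt) hhom hq

end Cfsg.Agent.S3923
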