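import Cfsg.Statements.S3924
import Cfsg.Agent.Hm.F3
import Cfsg.Agent.Hm.C
import Cfsg.Agent.Hm.A
import Cfsg.Agent.Hm.B
import Cfsg.Agent.Hm.E

set_option autoImplicit false
open Cfsg

namespace Cfsg.Agent.S3924

/-- Call a finite group homogeneous when every isomorphism between two of its subgroups is the restriction of an automorphism of the whole group. A homogeneous finite group is an internal direct product H × K of normal subgroups of coprime orders, each homogeneous, with H solvable and K quasisimple (perfect with simple central quotient) or trivial. -/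
theorem result {G : Type*} [Group G] [Finite G] (hhom : ∀ (A B : Subgroup G) (e : ↥A ≃* ↥B), ∃ φ : G ≃* G, ∀ a : ↥A, φ (a : G) = (e a : G)) :
    ∃ H K : Subgroup G, H.Normal ∧ K.Normal ∧ H ⊓ K = ⊥ ∧ H ⊔ K = ⊤ ∧ (Nat.card ↥H).Coprime (Nat.card ↥K) ∧
      Group.IsSolvable ↥H ∧ (K = ⊥ ∨ Cfsg.IsQuasisimple ↥K) ∧
      (∀ (A B : Subgroup ↥H) (e : ↥A ≃* ↥B), ∃ φ : ↥H ≃* ↥H, ∀ a : ↥A, φ (a : ↥H) = (e a : ↥H)) ∧
      (∀ (A B : Subgroup ↥K) (e : ↥A ≃* ↥B), ∃ φ : ↥K ≃* ↥K, ∀ a : ↥A, φ (a : ↥K) = (e a : ↥K)) :=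
  Hm.s3924 Hm.aStmt Hm.bStmt Hm.bStmt' Hm.cStmt (Hm.eStmt Hm.aStmt Hm.bStmt' Hm.cStmt) hhom

end Cfsg.Agent.S3924
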