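import Cfsg.Statements.S3947
import Cfsg.Agent.H2.Radical

set_option autoImplicit false
open Cfsg

namespace Cfsg.Agent.S3947

open Subgroup H2
open scoped Pointwise

variable {G : Type*} [Group G] [Finite G]

/-- `T` lies in a unique maximal subgroup. -/
def Uq (T : Subgroup G) : Prop := ∃ M : Subgroup G, M ≠ ⊤ ∧ ∀ K, T ≤ K → K ≠ ⊤ → K ≤ M

/-- the self-closed proper overgroups of `T` generate a proper subgroup. -/
def Bd (T : Subgroup G) : Prop :=
  ∃ M : Subgroup G, M ≠ ⊤ ∧ ∀ H, T ≤ H → H ≠ ⊤ → nclIn H T = H → H ≤ M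

omit [Finite G] in
theorem Uq.le {T K₁ K₂ : Subgroup G} (h : Uq T) (h1 : IsCoatom K₁) (h2 : K₂ ≠ ⊤) (a1 : T ≤ K₁)
    (a2 : T ≤ K₂) : K₂ ≤ K₁ := by
  obtain ⟨M, hM, hM2⟩ := h
  have : M = K₁ := ((hM2 K₁ a1 h1.1).eq_or_lt.resolve_right fun e => hM (h1.2 _ e)).symm
  exact this ▸ hM2 K₂ a2 h2

theorem core (A M : Subgroup G) (hA : nclIn ⊤ A = ⊤) (hM : IsCoatom M) (hAM : A ≤ M)
    (hns : ¬ SnIn M A) (h3 : ∀ K, A ≤ K → K ≠ ⊤ → K ≤ M ∨ SnIn K A)
    (ih : ∀ T : Subgroup G, Nat.card A < Nat.card T → T ≠ ⊤ → nclIn ⊤ T = ⊤ → Bd T → Uq T)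
    (K : Subgroup G) (hAK : A ≤ K) (hK : K ≠ ⊤) : K ≤ M := by
  let a : G → Subgroup G := fun g => MulAut.conj g • A
  let m : G → Subgroup G := fun g => MulAut.conj g • M
  have a1 : a 1 = A := conj_smul_one A
  have m1 : m 1 = M := conj_smul_one M
  have amul : ∀ g h, a (g * h) = MulAut.conj g • a h := fun g h => conj_smul_mul A g h
  have mmul : ∀ g h, m (g * h) = MulAut.conj g • m h := fun g h => conj_smul_mul M g h
  have mco : ∀ g, IsCoatom (m g) := fun g => isCoatom_conj_smul hM g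
  have am : ∀ g, a g ≤ m g := fun g => conj_smul_mono g hAM
  have h3' : ∀ g K, a g ≤ K → K ≠ ⊤ → K ≤ m g ∨ SnIn K (a g) := by
    intro g K h1 h2
    obtain e | e := h3 (MulAut.conj g⁻¹ • K) (conj_smul_le_iff.1 h1) fun e => h2 (by
      rw [← conj_smul_inj (g := g⁻¹), e, conj_smul_top])
    · left
      have := conj_smul_mono g e
      rwa [conj_smul_cancel_inv] at this
    · right
      have := e.conj g
      rwa [conj_smul_cancel_inv] at this
  have hns' : ∀ g, ¬ SnIn (m g) (a g) := fun g e => hns (by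
    have := e.conj g⁻¹
    rwa [conj_smul_inv_cancel, conj_smul_inv_cancel] at this)
  have mle : ∀ g h, m g ≤ m h → m g = m h := fun g h e =>
    e.eq_or_lt.resolve_right fun e => (mco h).1 ((mco g).2 _ e)
  have amw : ∀ g h, a g = a h → m g = m h := by
    intro g h e
    refine mle g h ((h3' h (m g) (e ▸ am g) (mco g).1).resolve_right ?_)
    rw [← e]; exact hns' g
  have hMn : normalizer (M : Set G) = M := by
    refine (le_normalizer.eq_or_lt.resolve_right fun e => ?_).symm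
    have := nclIn_le_of_normal (H := ⊤) hAM (hM.2 _ e).ge
    exact hM.1 (top_le_iff.1 (hA ▸ this))
  have mn : ∀ g, normalizer (m g : Set G) = m g := fun g => by
    simp only [m]; rw [normalizer_conj_smul, hMn]
  have na : ∀ g, normalizer (a g : Set G) ≤ m g := by
    intro g x hx
    rw [← mn g, mem_normalizer_iff_conj_smul, ← mmul]
    exact amw _ _ (by rw [amul]; exact mem_normalizer_iff_conj_smul.1 hx)
  have key : ∀ g h (K₁ K₂ : Subgroup G), IsCoatom K₁ → K₂ ≠ ⊤ → ¬ K₂ ≤ K₁ → a g ≤ K₁ → a g ≤ K₂ →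
      a h ≤ K₁ → a h ≤ K₂ → a g = a h ∨ (a g ≤ m h ∧ a h ≤ m g ∧ m g ≠ m h) := by
    intro g h K₁ K₂ c1 c2 c3 c4 c5 c6 c7
    by_contra hcon
    rw [not_or] at hcon
    obtain ⟨hne, hcon⟩ := hcon
    have hT : a g ⊔ a h ≠ ⊤ := fun e => c1.1 (top_le_iff.1 (e ▸ sup_le c4 c6))
    refine c3 ((ih (a g ⊔ a h) ?_ hT ?_ ?_).le c1 c2 (sup_le c4 c6) (sup_le c5 c7))
    · rw [← card_conj_smul A g]
      refine L.card_lt_of_lt (lt_of_le_of_ne le_sup_left fun e => hne ?_)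
      exact (eq_of_le_of_card_ge (le_sup_right.trans e.ge)
        ((card_conj_smul A g).trans (card_conj_smul A h).symm).le).symm
    · refine top_le_iff.1 (le_trans ?_ (nclIn_mono le_rfl (le_sup_left : a g ≤ _)))
      have := conj_smul_nclIn ⊤ A g
      rw [hA, conj_smul_top] at this
      exact this.le
    have hH : ∀ H, a g ⊔ a h ≤ H → H ≠ ⊤ → nclIn H (a g ⊔ a h) = H → ¬ H ≤ m g → ¬ H ≤ m h →
        H = a g ⊔ a h := fun H d1 d2 d3 d4 d5 =>
      ((((h3' g H (le_sup_left.trans d1) d2).resolve_left d4).sup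
        ((h3' h H (le_sup_right.trans d1) d2).resolve_left d5)).eq_of_nclIn_eq le_rfl d3).symm
    by_cases b1 : a g ≤ m h
    · by_cases b2 : a h ≤ m g
      · have b3 : m g = m h := by
          by_contra b3
          exact hcon ⟨b1, b2, b3⟩
        refine ⟨m g, (mco g).1, fun H d1 d2 d3 => ?_⟩
        by_contra d4
        exact d4 (hH H d1 d2 d3 d4 (b3 ▸ d4) ▸ sup_le (am g) b2)
      · refine ⟨m h, (mco h).1, fun H d1 d2 d3 => ?_⟩
        by_contra d4
        exact d4 (hH H d1 d2 d3 (fun e => b2 ((le_sup_right.trans d1).trans e)) d4 ▸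
          sup_le b1 (am h))
    · by_cases b2 : a h ≤ m g
      · refine ⟨m g, (mco g).1, fun H d1 d2 d3 => ?_⟩
        by_contra d4
        exact d4 (hH H d1 d2 d3 d4 (fun e => b1 ((le_sup_left.trans d1).trans e)) ▸
          sup_le (am g) b2)
      · exact ⟨_, hT, fun H d1 d2 d3 => (hH H d1 d2 d3
          (fun e => b2 ((le_sup_right.trans d1).trans e))
          (fun e => b1 ((le_sup_left.trans d1).trans e))).le⟩
  have key' : ∀ g h (K₁ K₂ : Subgroup G), IsCoatom K₁ → K₂ ≠ ⊤ → ¬ K₂ ≤ K₁ → a g ≤ K₁ → a g ≤ K₂ →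
      a h ≤ K₁ → a h ≤ K₂ → a g ≤ m h := fun g h K₁ K₂ c1 c2 c3 c4 c5 c6 c7 =>
    (key g h K₁ K₂ c1 c2 c3 c4 c5 c6 c7).elim (fun e => e ▸ am h) fun e => e.1
  have h4 : ∀ g K, a g ≤ K → K ≠ ⊤ → ¬ K ≤ m g → K ⊓ m g ≤ normalizer (a g : Set G) := by
    rintro g K c1 c2 c3 x ⟨hx1, hx2⟩
    have e : m (x * g) = m g := by rw [mmul]; exact conj_smul_eq_self_of_mem hx2
    rw [mem_normalizer_iff_conj_smul, ← amul]
    refine (key (x * g) g (m g) K (mco g) c2 c3 (e ▸ am _) ?_ (am g) c1).resolve_right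
      fun h => h.2.2 e
    rw [amul]; exact conj_smul_le_of_mem c1 hx1
  by_contra hKM
  have nA : normalizer (A : Set G) ≤ M := by have := na 1; rwa [a1, m1] at this
  obtain ⟨x, hxK, hx, hx1, -⟩ := ((h3 K hAK hK).resolve_left hKM).exists_conj_le_normalizer
    fun e => hKM (e.trans nA)
  obtain ⟨adj1, adj2, adj3⟩ := (key 1 x M K hM hK hKM (a1 ▸ hAM) (a1 ▸ hAK) (hx1.trans nA)
    (conj_smul_le_of_mem hAK hxK)).resolve_left fun e => hx
      (mem_normalizer_iff_conj_smul.2 (e.symm.trans a1))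
  rw [a1] at adj1
  rw [m1] at adj2 adj3
  have hxM : ¬ m x ≤ M := fun e => adj3 (m1 ▸ (mle x 1 (m1 ▸ e)).symm)
  have hMx : ¬ M ≤ m x := fun e => adj3 (m1 ▸ (mle 1 x (m1 ▸ e)))
  let ℓ : Set G := {h | a h ≤ M ⊓ m x}
  have l1 : 1 ∈ ℓ := by change a 1 ≤ _; rw [a1]; exact le_inf hAM adj1
  have lx : x ∈ ℓ := le_inf adj2 (am x)
  have lkey : ∀ g ∈ ℓ, ∀ h ∈ ℓ, a g = a h ∨ (a g ≤ m h ∧ a h ≤ m g ∧ m g ≠ m h) :=
    fun g hg h hh => key g h M (m x) hM (mco x).1 hxM (hg.trans inf_le_left)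
      (hg.trans inf_le_right) (hh.trans inf_le_left) (hh.trans inf_le_right)
  have lrel : ∀ g ∈ ℓ, ∀ h ∈ ℓ, a g ≤ m h := fun g hg h hh =>
    (lkey g hg h hh).elim (fun e => e ▸ am h) fun e => e.1
  have lcn : ∀ g ∈ ℓ, ∀ h ∈ ℓ, a g ≠ a h → ∀ k, a k ≤ m g → a k ≤ m h → k ∈ ℓ := by
    intro g hg h hh hne k c1 c2
    have c3 := ((lkey g hg h hh).resolve_left hne).2.2
    have c4 : ¬ m h ≤ m g := fun e => c3 (mle h g e).symm
    exact le_inf (m1 ▸ key' k 1 (m g) (m h) (mco g) (mco h).1 c4 c1 c2 (lrel 1 l1 g hg)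
      (lrel 1 l1 h hh)) (key' k x (m g) (m h) (mco g) (mco h).1 c4 c1 c2 (lrel x lx g hg)
      (lrel x lx h hh))
  let Lg : Subgroup G := MulAction.stabilizer G ℓ
  have Lmem : ∀ y ∈ Lg, ∀ h ∈ ℓ, y * h ∈ ℓ := fun y hy h hh => by
    have : y • ℓ = ℓ := hy
    rw [← this]
    exact Set.smul_mem_smul_set hh
  have Lmem' : ∀ y, (∀ h ∈ ℓ, y * h ∈ ℓ) → y ∈ Lg := fun y hy => by
    refine Set.eq_of_subset_of_ncard_le ?_ (Set.ncard_smul_set y ℓ).ge
    rintro _ ⟨h, hh, rfl⟩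
    exact hy h hh
  have L1 : ∀ y, ∀ g ∈ ℓ, ∀ h ∈ ℓ, a g ≠ a h → y * g ∈ ℓ → y * h ∈ ℓ → y ∈ Lg := by
    intro y g hg h hh hne c1 c2
    refine Lmem' y fun k hk => lcn _ c1 _ c2 ?_ _ ?_ ?_
    · rw [amul, amul]; exact fun e => hne (conj_smul_inj.1 e)
    · rw [amul, mmul]; exact conj_smul_mono y (lrel k hk g hg)
    · rw [amul, mmul]; exact conj_smul_mono y (lrel k hk h hh)
  have L2 : Lg ≠ ⊤ := fun e => by
    refine hM.1 (top_le_iff.1 (hA ▸ nclIn_le_iff.2 fun g _ => ?_))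
    have := Lmem g (e ▸ mem_top g) 1 l1
    rw [mul_one] at this
    exact this.trans inf_le_left
  have L3 : Lg ⊓ M ≤ normalizer (A : Set G) := by
    rintro y ⟨hy1, hy2⟩
    have c1 := Lmem y hy1 1 l1
    rw [mul_one] at c1
    rw [mem_normalizer_iff_conj_smul]
    refine ((lkey y c1 1 l1).resolve_right fun e => e.2.2 ?_).trans a1
    rw [m1]; exact conj_smul_eq_self_of_mem hy2
  have L4 : ¬ Lg ≤ M := fun e => by
    obtain ⟨z, hz1, hz2, hz3, hz4⟩ :=
      ((h3 (m x) adj1 (mco x).1).resolve_left hxM).exists_conj_le_normalizer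
      fun e => hxM (e.trans nA)
    have c : z ∈ Lg := by
      refine L1 z z⁻¹ (le_inf (hz4.trans nA) (conj_smul_le_of_mem adj1 (inv_mem hz1))) 1 l1
        (fun e => hz2 ?_) ?_ ?_
      · exact (inv_mem_iff (x := z)).1 (mem_normalizer_iff_conj_smul.2 (e.trans a1))
      · rwa [mul_inv_cancel]
      · rw [mul_one]; exact le_inf (hz3.trans nA) (conj_smul_le_of_mem adj1 hz1)
    exact hz2 (L3 ⟨c, e c⟩)
  have L5 : ∀ g ∈ ℓ, a g ≤ Lg := by
    intro g hg y hy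
    refine Lmem' y fun h hh => ?_
    have : y ∈ normalizer (a h : Set G) := by
      obtain e | e := lkey g hg h hh
      · exact le_normalizer (e ▸ hy)
      · exact h4 h (m g) e.2.1 (mco g).1 (fun c => e.2.2 (mle g h c)) ⟨am g hy, e.1 hy⟩
    change a (y * h) ≤ _
    rw [amul, mem_normalizer_iff_conj_smul.1 this]
    exact hh
  have snx : SnIn M (a x) := (h3' x M adj2 hM.1).resolve_left hMx
  obtain ⟨w, hw1, hw2, hw3, -⟩ := snx.exists_conj_le_normalizer fun e => hMx (e.trans (na x))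
  have lw : w * x ∈ ℓ := by
    change a (w * x) ≤ _
    rw [amul]
    exact le_inf (conj_smul_le_of_mem adj2 hw1) (hw3.trans (na x))
  have nw : a x ≠ a (w * x) := fun e => hw2 (by
    rw [mem_normalizer_iff_conj_smul, ← amul, ← e])
  have nx1 : a x ≠ A := fun e => hns (e ▸ snx)
  have nw1 : a (w * x) ≠ A := fun e => hns (by
    rw [← e, amul]; exact snx.conj_of_mem hw1)
  let P : Subgroup G := sSup {B | ∃ h ∈ ℓ, a h ≠ A ∧ B = a h}
  have Ple : P ≤ M ⊓ m x := sSup_le (by rintro _ ⟨h, hh, -, rfl⟩; exact hh)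
  have Psn : SnIn M P := SnIn.sSup (by
    rintro _ ⟨h, hh, hne, rfl⟩
    refine (h3' h M (hh.trans inf_le_left) hM.1).resolve_left fun e => ?_
    exact ((lkey h hh 1 l1).resolve_left (a1 ▸ hne)).2.2 (mle 1 h (m1 ▸ e)).symm)
  have Px : a x ≤ P := le_sSup ⟨x, lx, nx1, rfl⟩
  have Pw : a (w * x) ≤ P := le_sSup ⟨w * x, lw, nw1, rfl⟩
  have P1 : normalizer (P : Set G) ≤ Lg := by
    intro y hy
    have e := mem_normalizer_iff_conj_smul.1 hy
    refine L1 y x lx (w * x) lw nw ?_ ?_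
    · change a _ ≤ _
      rw [amul]; exact (conj_smul_mono y Px).trans (e.le.trans Ple)
    · change a _ ≤ _
      rw [amul]; exact (conj_smul_mono y Pw).trans (e.le.trans Ple)
  obtain ⟨y, hy1, hy2, hy3, -⟩ := Psn.exists_conj_le_normalizer fun e =>
    hns (SnIn.of_normal hAM ((le_inf (e.trans P1) le_rfl).trans L3))
  have ly : ∀ h, a h ≤ P → y * h ∈ ℓ := by
    intro h hh
    have c1 : a (y * h) ≤ M := by
      rw [amul]; exact conj_smul_le_of_mem (hh.trans (Ple.trans inf_le_left)) hy1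
    have c2 : a (y * h) ≤ Lg := by
      rw [amul]; exact (conj_smul_mono y hh).trans (hy3.trans P1)
    exact le_inf c1 (key' _ x M Lg hM L2 L4 c1 c2 adj2 (L5 x lx))
  have yL : y ∈ Lg := L1 y x lx (w * x) lw nw (ly _ Px) (ly _ Pw)
  have yA := mem_normalizer_iff_conj_smul.1 (L3 ⟨yL, hy1⟩)
  refine hy2 (mem_normalizer_of_conj_smul_le (conj_smul_le_iff.2 (sSup_le ?_)))
  rintro _ ⟨h, hh, hne, rfl⟩
  rw [← conj_smul_le_iff, ← amul]
  refine le_sSup ⟨y * h, Lmem y yL h hh, fun e => hne ?_, rfl⟩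
  rwa [amul, ← yA, conj_smul_inj] at e

theorem main (n : ℕ) : ∀ A : Subgroup G, A.index = n → A ≠ ⊤ → nclIn ⊤ A = ⊤ → Bd A → Uq A := by
  induction n using Nat.strong_induction_on with
  | h n ihn =>
  intro A hn hAG hA hB
  have ih : ∀ T : Subgroup G, Nat.card A < Nat.card T → T ≠ ⊤ → nclIn ⊤ T = ⊤ → Bd T → Uq T := by
    intro T hT
    refine ihn T.index ?_ T rfl
    rw [← hn]
    by_contra! hle
    have h1 := A.card_mul_index
    have h2 := T.card_mul_index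
    have := Nat.mul_lt_mul_of_lt_of_le hT hle (Nat.pos_of_ne_zero T.index_ne_zero_of_finite)
    omega
  obtain ⟨M0, hM0, hB⟩ := hB
  obtain ⟨M, hM, hM0M⟩ := exists_coatom_ge hM0
  have h3 : ∀ K, A ≤ K → K ≠ ⊤ → K ≤ M ∨ SnIn K A := by
    intro K h1 h2
    obtain ⟨S, s1, s2, s3⟩ := exists_subnormal_closure h1
    obtain rfl | hlt := s1.eq_or_lt
    · exact Or.inr s2
    left
    have hS : S ≠ ⊤ := fun e => h2 (top_le_iff.1 (e ▸ s2.le))
    refine (ih S (L.card_lt_of_lt hlt) hS (top_le_iff.1 (hA.ge.trans (nclIn_mono le_rfl s1)))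
      ⟨M0, hM0, fun H d1 d2 d3 => hB H (s1.trans d1) d2 ?_⟩).le hM h2
      ((hB S s1 hS s3).trans hM0M) s2.le
    refine le_antisymm (nclIn_le (s1.trans d1)) ?_
    conv_lhs => rw [← d3]
    exact nclIn_le_of_normal (s3 ▸ nclIn_mono d1 le_rfl) (le_normalizer_nclIn H A)
  by_cases hall : ∀ K, A ≤ K → K ≠ ⊤ → SnIn K A
  · obtain ⟨M, h1, -, h2⟩ := zipper_top hall fun e =>
      hAG ((snIn_top_iff.2 e).eq_of_nclIn_eq le_rfl hA)
    exact ⟨M, h1.1, h2⟩
  push Not at hall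
  obtain ⟨K, k1, k2, k3⟩ := hall
  have k4 := (h3 K k1 k2).resolve_right k3
  exact ⟨M, hM.1, core A M hA hM (k1.trans k4) (fun e => k3 (e.mono k1 k4)) h3 ih⟩

/-- Let G be a finite group and A a proper subgroup of G whose normal closure is G. Let Y be the join of all proper subgroups H of G that contain A and are generated by their own conjugates of A (the normal closure of A in H is H). Then either Y = G, or A is contained in exactly one maximal subgroup of G. -/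
theorem result {G : Type*} [Group G] [Finite G] (A : Subgroup G) (hA : Subgroup.normalClosure (A : Set G) = ⊤) (hAG : A ≠ ⊤) :
    sSup {H : Subgroup G | A ≤ H ∧ H ≠ ⊤ ∧ Subgroup.normalClosure ((A.subgroupOf H : Subgroup ↥H) : Set ↥H) = ⊤} = ⊤ ∨
      ∃! M : Subgroup G, IsCoatom M ∧ A ≤ M := by
  rw [or_iff_not_imp_left]
  intro hY
  obtain ⟨M, hM, h⟩ := main _ A rfl hAG (by rw [nclIn_top, hA]) ⟨_, hY, fun H h1 h2 h3 =>
    le_sSup ⟨h1, h2, (normalClosure_subgroupOf_eq_top_iff h1).2 h3⟩⟩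
  obtain ⟨M', h1, h2⟩ := exists_coatom_ge hAG
  have hU : Uq A := ⟨M, hM, h⟩
  exact ⟨M', ⟨h1, h2⟩, fun K hK => le_antisymm (hU.le h1 hK.1.1 h2 hK.2) (hU.le hK.1 h1.1 hK.2 h2)⟩

end Cfsg.Agent.S3947
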