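import Cfsg.Statements.S3927
import Cfsg.Agent.S3947

set_option autoImplicit false
open Cfsg

namespace Cfsg.Agent.S3927

universe u

theorem ambient (k : ℕ) : ∀ (n : ℕ) (Γ : Type u) [Group Γ] [Finite Γ] (a : Γ), Nat.card Γ = n →
    Subgroup.normalClosure ((Subgroup.zpowers a : Subgroup Γ) : Set Γ) = ⊤ →
    Subgroup.closure (Set.range ((fun c : Γ => c * a * c⁻¹ * a⁻¹)^[k])) ⊔ Subgroup.zpowers a = ⊤ := by
  intro n
  induction n using Nat.strong_induction_on with
  | _ n ih =>
  intro Γ _ _ a hn hA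
  by_contra hW
  set W := Subgroup.closure (Set.range ((fun c : Γ => c * a * c⁻¹ * a⁻¹)^[k])) ⊔
    Subgroup.zpowers a with hWdef
  have hAG : Subgroup.zpowers a ≠ ⊤ := fun h => hW (top_le_iff.1 (h ▸ le_sup_right))
  rcases S3947.result _ hA hAG with h | ⟨M, ⟨hM, hAM⟩, huniq⟩
  · apply hW
    rw [eq_top_iff, ← h]
    refine sSup_le ?_
    rintro H ⟨hAH, hH, hHA⟩
    have haH : a ∈ H := hAH (Subgroup.mem_zpowers a)
    have e : (Subgroup.zpowers a).subgroupOf H = Subgroup.zpowers (⟨a, haH⟩ : H) := by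
      apply Subgroup.map_injective H.subtype_injective
      rw [Subgroup.subgroupOf_map_subtype, inf_eq_left.2 hAH, MonoidHom.map_zpowers]
      rfl
    rw [e] at hHA
    have hlt : Nat.card H < n := by
      rw [← hn, ← Subgroup.card_top (G := Γ)]
      refine lt_of_le_of_ne (Subgroup.card_le_of_le le_top) fun h' => hH ?_
      exact Subgroup.eq_of_le_of_card_ge le_top h'.ge
    have h1 := congrArg (Subgroup.map H.subtype) (ih _ hlt H ⟨a, haH⟩ rfl hHA)
    rw [← MonoidHom.range_eq_map, Subgroup.range_subtype, Subgroup.map_sup, MonoidHom.map_closure,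
      MonoidHom.map_zpowers] at h1
    rw [← h1]
    refine sup_le_sup (Subgroup.closure_mono ?_) le_rfl
    rintro _ ⟨_, ⟨c, rfl⟩, rfl⟩
    refine ⟨c, ?_⟩
    exact (Function.Semiconj.iterate_right (f := H.subtype)
      (ga := fun c : H => c * ⟨a, haH⟩ * c⁻¹ * (⟨a, haH⟩ : H)⁻¹)
      (gb := fun c : Γ => c * a * c⁻¹ * a⁻¹) (fun x => rfl) k c).symm
  · obtain ⟨M', hM', hWM⟩ := (eq_top_or_exists_le_coatom W).resolve_left hW
    obtain rfl : M' = M := huniq M' ⟨hM', le_sup_right.trans hWM⟩
    have haM : a ∈ M' := hAM (Subgroup.mem_zpowers a)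
    have hN : Subgroup.normalizer (M' : Set Γ) = M' := by
      by_contra hne
      have h1 := hM.2 _ (lt_of_le_of_ne Subgroup.le_normalizer (Ne.symm hne))
      haveI := Subgroup.normalizer_eq_top_iff.1 h1
      exact hM.1 (top_le_iff.1 (hA ▸ Subgroup.normalClosure_le_normal hAM))
    have step : ∀ c : Γ, c * a * c⁻¹ * a⁻¹ ∈ M' → c ∈ M' := by
      intro c hc
      have h1 : c * a * c⁻¹ ∈ M' := by simpa using M'.mul_mem hc haM
      have h2 : M'.comap (MulAut.conj c).toMonoidHom = M' := by
        refine huniq _ ⟨?_, Subgroup.zpowers_le.2 h1⟩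
        exact ((MulAut.conj c).comapSubgroup.isCoatom_iff M').2 hM
      rw [← hN, Subgroup.mem_normalizer_iff]
      intro h
      conv_lhs => rw [← h2]
      rfl
    have all : ∀ j, ∀ c : Γ, (fun c : Γ => c * a * c⁻¹ * a⁻¹)^[j] c ∈ M' → c ∈ M' := by
      intro j
      induction j with
      | zero => intro c hc; exact hc
      | succ j ihj => intro c hc; exact step c (ihj _ hc)
    exact hM.1 (top_le_iff.1 fun c _ => all k c
      (hWM (Subgroup.mem_sup_left (Subgroup.subset_closure ⟨c, rfl⟩))))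

/-- Let G be a finite group and α an automorphism of G with [G, α] = G, that is, the elements g·α(g)⁻¹ generate G. Then for every k ≥ 1 the iterated commutators [g, α, …, α] with k entries α — the values of the k-th iterate of the map c ↦ c·α(c)⁻¹ — also generate G. -/
theorem result {G : Type*} [Group G] [Finite G] (α : MulAut G) (hG : Subgroup.closure (Set.range (fun c : G => c * (α c)⁻¹)) = ⊤) (k : ℕ) (hk : 1 ≤ k) :
    Subgroup.closure (Set.range ((fun c : G => c * (α c)⁻¹)^[k])) = ⊤ := by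
  let Γ := G ⋊[(Subgroup.zpowers α).subtype] Subgroup.zpowers α
  haveI : Finite Γ := Finite.of_equiv _ SemidirectProduct.equivProd.symm
  let a : Γ := SemidirectProduct.inr ⟨α, Subgroup.mem_zpowers α⟩
  have hright : ∀ β : Subgroup.zpowers α, (SemidirectProduct.inr β : Γ) ∈ Subgroup.zpowers a := by
    rintro ⟨_, i, rfl⟩
    exact ⟨i, (map_zpow (SemidirectProduct.inr : Subgroup.zpowers α →* Γ)
      ⟨α, Subgroup.mem_zpowers α⟩ i).symm⟩
  have hf : ∀ x : Γ, x * a * x⁻¹ * a⁻¹ = SemidirectProduct.inl (x.left * (α x.left)⁻¹) := by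
    intro x
    obtain ⟨i, hi⟩ := hright x.right
    have e : a * SemidirectProduct.inl x.left * a⁻¹ = SemidirectProduct.inl (α x.left) := by
      have := SemidirectProduct.inl_aut (φ := (Subgroup.zpowers α).subtype)
        ⟨α, Subgroup.mem_zpowers α⟩ x.left
      rw [map_inv] at this
      exact this.symm
    rw [map_mul, map_inv, ← e]
    have key : ∀ y b : Γ, y * b ^ i * b * (y * b ^ i)⁻¹ * b⁻¹ = y * (b * y * b⁻¹)⁻¹ := by
      intro y b; simp only [mul_inv_rev, inv_inv]; group
    conv_lhs => rw [← SemidirectProduct.inl_left_mul_inr_right x, ← hi]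
    exact key _ _
  have hA : Subgroup.normalClosure ((Subgroup.zpowers a : Subgroup Γ) : Set Γ) = ⊤ := by
    rw [eq_top_iff]
    intro x _
    rw [← SemidirectProduct.inl_left_mul_inr_right x]
    refine Subgroup.mul_mem _ ?_ (Subgroup.le_normalClosure (hright _))
    have : ⊤ ≤ (Subgroup.normalClosure ((Subgroup.zpowers a : Subgroup Γ) : Set Γ)).comap
        SemidirectProduct.inl := by
      rw [← hG, Subgroup.closure_le]
      rintro _ ⟨c, rfl⟩
      have h1 := Subgroup.le_normalClosure (Subgroup.mem_zpowers a)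
      have h2 := Subgroup.mul_mem _ ((Subgroup.normalClosure_normal).conj_mem _ h1
        (SemidirectProduct.inl c)) (Subgroup.inv_mem _ h1)
      rw [hf] at h2
      exact h2
    exact this (Subgroup.mem_top _)
  have h1 := ambient k _ Γ a rfl hA
  set K := Subgroup.closure (Set.range ((fun c : G => c * (α c)⁻¹)^[k])) with hK
  have hinv : ∀ β : Subgroup.zpowers α, ∀ x ∈ K, (β : MulAut G) x ∈ K := by
    rintro ⟨_, i, rfl⟩
    change K ≤ K.comap (α ^ i).toMonoidHom
    rw [hK, Subgroup.closure_le]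
    rintro _ ⟨c, rfl⟩
    refine Subgroup.subset_closure ⟨(α ^ i) c, ?_⟩
    refine (Function.Semiconj.iterate_right (f := (α ^ i).toMonoidHom)
      (ga := fun c : G => c * (α c)⁻¹) (gb := fun c : G => c * (α c)⁻¹) (fun x => ?_) k c).symm
    have : (α ^ i) (α x) = α ((α ^ i) x) := by
      rw [← MulAut.mul_apply, ← MulAut.mul_apply, (Commute.zpow_self α i).eq]
    simp [this]
  let W : Subgroup Γ :=
    { carrier := {x | x.left ∈ K}
      mul_mem' := fun {x y} hx hy => K.mul_mem hx (hinv _ _ hy)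
      one_mem' := K.one_mem
      inv_mem' := fun {x} hx => hinv x.right⁻¹ _ (K.inv_mem hx) }
  have h2 : ⊤ ≤ W := by
    rw [← h1]
    refine sup_le ?_ (Subgroup.zpowers_le.2 K.one_mem)
    rw [Subgroup.closure_le]
    rintro _ ⟨c, rfl⟩
    have : ∀ j, ((fun c : Γ => c * a * c⁻¹ * a⁻¹)^[j] c).left =
        (fun c : G => c * (α c)⁻¹)^[j] c.left := fun j =>
      Function.Semiconj.iterate_right (f := fun x : Γ => x.left)
        (ga := fun c : Γ => c * a * c⁻¹ * a⁻¹) (gb := fun c : G => c * (α c)⁻¹)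
        (fun x => by simp only [hf]; rfl) j c
    exact Subgroup.subset_closure ⟨c.left, (this k).symm⟩
  rw [eq_top_iff]
  intro g _
  exact h2 (Subgroup.mem_top (SemidirectProduct.inl g : Γ))

end Cfsg.Agent.S3927
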