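import Cfsg.Statements.S3928
import Cfsg.Agent.H3.Bounded
import Cfsg.Agent.S3927

set_option autoImplicit false
open Cfsg

namespace Cfsg.Agent.S3928


/-- There is a function f such that for every non-trivial finite group G and every automorphism α of G of order 2 with [G, α] = G (the elements g·α(g)⁻¹ generate G), the order of G is at most f(m), where m is the number of elements of odd order inverted by α. -/
theorem result : ∃ f : ℕ → ℕ, ∀ (G : Type) [Group G] [Finite G] [Nontrivial G] (α : MulAut G), orderOf α = 2 →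
    Subgroup.closure (Set.range (fun c : G => c * (α c)⁻¹)) = ⊤ →
      Nat.card G ≤ f (Nat.card {g : G // Odd (orderOf g) ∧ α g = g⁻¹}) := by
  classical
  choose B hB using H3.exists_index_center_le
  refine ⟨fun m => let B1 := (B m (m ^ m) * m.factorial) ^ (B m (m ^ m) * m) * B m (m ^ m);
    (B1 * m.factorial) ^ (B1 * m) * B1, ?_⟩
  intro G _ _ _ α hα hG
  haveI := Fintype.ofFinite G
  have hαα : ∀ x, α (α x) = x := by
    intro x
    rw [← MulAut.mul_apply, ← sq, ← hα, pow_orderOf_eq_one, MulAut.one_apply]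
  set m := Nat.card {g : G // Odd (orderOf g) ∧ α g = g⁻¹} with hm
  let S : Finset G := Finset.univ.filter fun g => Odd (orderOf g) ∧ α g = g⁻¹
  have hmemS : ∀ g, g ∈ S ↔ Odd (orderOf g) ∧ α g = g⁻¹ := fun g => by simp [S]
  have hSm : S.card = m := by
    rw [hm, Nat.card_eq_fintype_card, Fintype.card_subtype]
  have hS : Subgroup.closure (S : Set G) = ⊤ := by
    rw [eq_top_iff, ← S3927.result α hG (Nat.card G + 1) (by omega)]
    refine Subgroup.closure_mono ?_
    rintro _ ⟨c, rfl⟩
    have hd : α (c * (α c)⁻¹) = (c * (α c)⁻¹)⁻¹ := by simp [hαα]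
    have key : ∀ j, (fun c : G => c * (α c)⁻¹)^[j + 1] c = (c * (α c)⁻¹) ^ 2 ^ j := by
      intro j
      induction j with
      | zero => simp
      | succ j ih =>
        rw [Function.iterate_succ_apply', ih, map_pow, hd, inv_pow, inv_inv, pow_succ, pow_mul, sq]
    rw [key, Finset.mem_coe, hmemS]
    refine ⟨?_, by rw [map_pow, hd, inv_pow]⟩
    obtain ⟨a, b, hb, hab⟩ := Nat.exists_eq_two_pow_mul_odd (orderOf_pos (c * (α c)⁻¹)).ne'
    refine hb.of_dvd_nat (orderOf_dvd_of_pow_eq_one ?_)
    have ha : a ≤ Nat.card G := by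
      have h1 : 2 ^ a ≤ orderOf (c * (α c)⁻¹) := by
        rw [hab]; exact Nat.le_mul_of_pos_right _ hb.pos
      exact (Nat.lt_two_pow_self.le.trans h1).trans orderOf_le_card
    rw [← pow_mul, ← orderOf_dvd_iff_pow_eq_one, hab]
    exact Nat.mul_dvd_mul_right (pow_dvd_pow 2 ha) b
  have hSe : ∀ s ∈ S, s ^ m.factorial = 1 := by
    intro s hs
    rw [hmemS] at hs
    rw [← orderOf_dvd_iff_pow_eq_one]
    refine Nat.dvd_factorial (orderOf_pos s) ?_
    rw [← Nat.card_zpowers]
    refine Nat.card_le_card_of_injective (fun x => ⟨x.1, ?_, ?_⟩) ?_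
    · exact hs.1.of_dvd_nat (orderOf_dvd_of_mem_zpowers x.2)
    · obtain ⟨_, i, rfl⟩ := x
      simp only [map_zpow, hs.2, inv_zpow]
    · intro x y h
      exact Subtype.ext (Subtype.mk.inj h)
  have hSt : ∀ s ∈ S, ∃ t, s = t * (α t)⁻¹ := by
    intro s hs
    rw [hmemS] at hs
    obtain ⟨r, hr⟩ := hs.1
    refine ⟨s ^ (r + 1), ?_⟩
    rw [map_pow, hs.2, inv_pow, inv_inv, ← pow_add, show r + 1 + (r + 1) = orderOf s + 1 by omega,
      pow_succ, pow_orderOf_eq_one, one_mul]
  have hZ : Subgroup.center G ≤ (Subgroup.center G).comap (α : G →* G) := by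
    intro z hz
    rw [Subgroup.mem_comap, Subgroup.mem_center_iff]
    intro g
    change g * α z = α z * g
    rw [← hαα g, ← map_mul, ← map_mul, Subgroup.mem_center_iff.1 hz]
  let π := QuotientGroup.mk' (Subgroup.center G)
  let β₀ := QuotientGroup.map _ _ (α : G →* G) hZ
  have hβ₀ : ∀ x, β₀ (β₀ x) = x := by
    intro x
    obtain ⟨g, rfl⟩ := QuotientGroup.mk_surjective x
    exact congrArg QuotientGroup.mk (hαα g)
  let β : (G ⧸ Subgroup.center G) ≃* (G ⧸ Subgroup.center G) :=
    MonoidHom.toMulEquiv β₀ β₀ (MonoidHom.ext hβ₀) (MonoidHom.ext hβ₀)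
  have hβπ : ∀ g, β (π g) = π (α g) := fun g => rfl
  have hS' : Subgroup.closure ((S.image π : Finset _) : Set (G ⧸ Subgroup.center G)) = ⊤ := by
    rw [Finset.coe_image, ← MonoidHom.map_closure, hS,
      Subgroup.map_top_of_surjective _ (QuotientGroup.mk'_surjective _)]
  have hm' : (S.image π).card ≤ m := Finset.card_image_le.trans hSm.le
  have hfix : Nat.card {x // β x = x} ≤ m ^ m := by
    have hc : ∀ x : {x // β x = x}, ∀ j : {g : G // Odd (orderOf g) ∧ α g = g⁻¹},
        Odd (orderOf (x.1.out * j.1 * x.1.out⁻¹)) ∧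
          α (x.1.out * j.1 * x.1.out⁻¹) = (x.1.out * j.1 * x.1.out⁻¹)⁻¹ := by
      intro x j
      constructor
      · rw [H3.orderOf_eq_of_isConj (isConj_iff.2 ⟨x.1.out, rfl⟩).symm]
        exact j.2.1
      · have h1 : π (α x.1.out) = π x.1.out := by
          rw [← hβπ]
          have : π x.1.out = x.1 := QuotientGroup.out_eq' x.1
          rw [this, x.2]
        obtain ⟨z, hz, hz'⟩ := (QuotientGroup.mk'_eq_mk' _).1 h1.symm
        rw [map_mul, map_mul, map_inv, j.2.2, ← hz']
        have := Subgroup.mem_center_iff.1 hz j.1⁻¹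
        calc x.1.out * z * j.1⁻¹ * (x.1.out * z)⁻¹ = x.1.out * (z * j.1⁻¹) * z⁻¹ * x.1.out⁻¹ := by
              group
          _ = _ := by rw [← this]; group
    have := Nat.card_le_card_of_injective
      (fun (x : {x // β x = x}) (j : {g : G // Odd (orderOf g) ∧ α g = g⁻¹}) =>
        (⟨_, hc x j⟩ : {g : G // Odd (orderOf g) ∧ α g = g⁻¹})) (by
      intro x y h
      apply Subtype.ext
      rw [← QuotientGroup.out_eq' x.1, ← QuotientGroup.out_eq' y.1, QuotientGroup.eq,
        Subgroup.mem_center_iff]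
      intro g
      have : Subgroup.closure (S : Set G) ≤ Subgroup.centralizer {x.1.out⁻¹ * y.1.out} := by
        rw [Subgroup.closure_le]
        intro s hs
        have h1 : x.1.out * s * x.1.out⁻¹ = y.1.out * s * y.1.out⁻¹ :=
          congrArg Subtype.val (congrFun h ⟨s, (hmemS s).1 hs⟩)
        rw [SetLike.mem_coe, Subgroup.mem_centralizer_singleton_iff]
        calc s * (x.1.out⁻¹ * y.1.out) = x.1.out⁻¹ * (x.1.out * s * x.1.out⁻¹) * y.1.out := by group
          _ = _ := by rw [h1]; group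
      exact Subgroup.mem_centralizer_singleton_iff.1 (this (hS ▸ Subgroup.mem_top g)))
    rwa [Nat.card_fun] at this
  have h1 := hB m (m ^ m) _ β (S.image π) hβ₀ hS' hm' (by
    intro s' hs'
    obtain ⟨s, hs, rfl⟩ := Finset.mem_image.1 hs'
    obtain ⟨t, rfl⟩ := hSt s hs
    exact ⟨π t, by rw [map_mul, map_inv, hβπ]⟩) hfix
  have h2 := H3.card_le_of_index_center (S.image π) hS' hm' m.factorial_ne_zero (by
    intro s' hs'
    obtain ⟨s, hs, rfl⟩ := Finset.mem_image.1 hs'
    rw [← map_pow, hSe s hs, map_one]) h1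
  exact H3.card_le_of_index_center S hS hSm.le m.factorial_ne_zero hSe h2

end Cfsg.Agent.S3928
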