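import Cfsg.Statements.S3933
import Cfsg.Agent.L.SimpleRed
import Cfsg.Agent.H9.SylowNum
import Cfsg.Agent.H9.ClassSize
import Cfsg.Agent.H6.Burnside

set_option autoImplicit false
open Cfsg

namespace Cfsg.Agent.S3933

theorem key {G : Type*} [Group G] [Finite G] [IsSimpleGroup G] (hns : ¬ Group.IsSolvable G)
    {p q : ℕ} [hp : Fact p.Prime] [hq : Fact q.Prime] (hpG : p ∣ Nat.card G) (hqG : q ∣ Nat.card G)
    (hc : (Nat.card (Sylow p G)).Coprime (Nat.card (Sylow q G))) : q ∣ Nat.card (Sylow p G) := by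
  by_contra hnd
  obtain ⟨P⟩ : Nonempty (Sylow p G) := inferInstance
  rw [P.card_eq_index_normalizer] at hnd hc
  obtain ⟨Q, hQ⟩ := H9.not_dvd_index_iff_exists_sylow_le.1 hnd
  rw [Q.card_eq_index_normalizer] at hc
  have h1 : Subgroup.normalClosure ((Q : Subgroup G) : Set G) ≤
      Subgroup.normalizer ((P : Subgroup G) : Set G) := by
    refine (Subgroup.closure_le _).2 ?_
    intro y hy
    obtain ⟨x, hx, hxy⟩ := Group.mem_conjugatesOfSet_iff.1 hy
    obtain ⟨g, rfl⟩ := isConj_iff.1 hxy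
    obtain ⟨a, ha, b, hb, rfl⟩ := H9.exists_mul_eq_of_coprime_index hc g
    have h2 : b * x * b⁻¹ ∈ (Q : Subgroup G) := (Subgroup.mem_normalizer_iff.1 hb x).1 hx
    have h3 : a * b * x * (a * b)⁻¹ = a * (b * x * b⁻¹) * a⁻¹ := by group
    rw [h3]
    exact mul_mem (mul_mem ha (hQ h2)) (inv_mem ha)
  rcases (Subgroup.normalClosure_normal (s := ((Q : Subgroup G) : Set G))).eq_bot_or_eq_top with h2 | h2
  · have : (Q : Subgroup G) = ⊥ := eq_bot_iff.2 (h2 ▸ Subgroup.le_normalClosure)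
    exact Q.ne_bot_of_dvd_card hqG this
  · rw [h2, top_le_iff, Subgroup.normalizer_eq_top_iff] at h1
    have := P.isPGroup'.isNilpotent
    exact P.ne_bot_of_dvd_card hpG (L.eq_bot_of_normal_of_isSolvable hns _ inferInstance)

theorem of_dvd {m n : ℕ} (h : m ∣ n) (hn : n = 1 ∨ IsPrimePow n) : m = 1 ∨ IsPrimePow m := by
  rcases hn with rfl | hn
  · exact Or.inl (Nat.dvd_one.1 h)
  · by_cases hm : m = 1
    · exact Or.inl hm
    · exact Or.inr (hn.dvd h hm)

/-- If for every prime r the number of Sylow r-subgroups of the finite group G is a prime power or 1, then G is solvable. -/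
theorem result {G : Type*} [Group G] [Finite G] (h : ∀ (r : ℕ) [Fact r.Prime], Nat.card (Sylow r G) = 1 ∨ IsPrimePow (Nat.card (Sylow r G))) :
    Group.IsSolvable G := by
  refine L.isSolvable_of_closed (P := fun G _ _ => ∀ (r : ℕ) [Fact r.Prime],
    Nat.card (Sylow r G) = 1 ∨ IsPrimePow (Nat.card (Sylow r G))) ?_ ?_ ?_ G h
  · intro G _ _ N _ h r _
    obtain ⟨P⟩ : Nonempty (Sylow r G) := inferInstance
    refine of_dvd ?_ (h r)
    rw [H9.card_sylow_eq_mul r N P]
    exact Dvd.dvd.mul_right (Dvd.intro_left _ rfl) _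
  · intro G _ _ N _ h r _
    obtain ⟨P⟩ : Nonempty (Sylow r G) := inferInstance
    refine of_dvd ?_ (h r)
    rw [H9.card_sylow_eq_mul r N P, mul_assoc]
    exact Dvd.intro _ rfl
  intro G _ _ _ h hns
  -- the prime of `n_p`
  have hr : ∀ p : ℕ, p.Prime → p ∣ Nat.card G → ∃ r k : ℕ, r.Prime ∧ r ≠ p ∧ r ∣ Nat.card G ∧
      Nat.card (Sylow p G) = r ^ k := by
    intro p hp hpG
    have : Fact p.Prime := ⟨hp⟩
    obtain ⟨P⟩ : Nonempty (Sylow p G) := inferInstance
    rcases h p with h1 | h1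
    · rw [P.card_eq_index_normalizer, Subgroup.index_eq_one] at h1
      have h1 : (P : Subgroup G).Normal := Subgroup.normalizer_eq_top_iff.1 h1
      have := P.isPGroup'.isNilpotent
      exact (P.ne_bot_of_dvd_card hpG (L.eq_bot_of_normal_of_isSolvable hns _ inferInstance)).elim
    · obtain ⟨r, k, hr, hk, he⟩ := (isPrimePow_nat_iff _).1 h1
      have hd : r ∣ Nat.card (Sylow p G) := he ▸ dvd_pow_self r hk.ne'
      refine ⟨r, k, hr, ?_, hd.trans ?_, he.symm⟩
      · rintro rfl; exact not_dvd_card_sylow r G hd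
      · rw [P.card_eq_index_normalizer]; exact Subgroup.index_dvd_card _
  have hkey : ∀ p q : ℕ, p.Prime → q.Prime → p ∣ Nat.card G → q ∣ Nat.card G →
      ∀ r k s l : ℕ, r.Prime → s.Prime → r ≠ s → Nat.card (Sylow p G) = r ^ k →
      Nat.card (Sylow q G) = s ^ l → q = r := by
    intro p q hp hq hpG hqG r k s l hr hs hrs h1 h2
    have : Fact p.Prime := ⟨hp⟩
    have : Fact q.Prime := ⟨hq⟩
    have := key hns hpG hqG (by
      rw [h1, h2]; exact Nat.Coprime.pow _ _ ((Nat.coprime_primes hr hs).2 hrs))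
    rw [h1] at this
    exact (Nat.prime_dvd_prime_iff_eq hq hr).1 (hq.dvd_of_dvd_pow this)
  obtain ⟨p, hp, hpG⟩ := Nat.exists_prime_and_dvd (Finite.one_lt_card (α := G)).ne'
  obtain ⟨s, k, hs, hsp, hsG, h1⟩ := hr p hp hpG
  obtain ⟨t, l, ht, hts, htG, h2⟩ := hr s hs hsG
  have hpt : p = t := hkey s p hs hp hsG hpG t l s k ht hs hts h2 h1
  subst hpt
  refine hns (H6.isSolvable_of_primes_two p s fun q hq hqG => ?_)
  obtain ⟨u, m, hu, huq, huG, h3⟩ := hr q hq hqG
  by_cases hus : u = s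
  · subst hus
    exact Or.inl (hkey u q hs hq hsG hqG p l u m hp hu hts h2 h3)
  · exact Or.inr (hkey p q hp hq hpG hqG s k u m hs hu (Ne.symm hus) h1 h3)

end Cfsg.Agent.S3933
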