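import Cfsg.Statements.S3937
import Cfsg.Agent.H2.Radical

set_option autoImplicit false
open Cfsg

namespace Cfsg.Agent.S3937

open Subgroup Cfsg.Agent.H2
open scoped Pointwise

theorem snIn_of_engel {G : Type*} [Group G] [Finite G] (g : G)
    (h : ∀ x : G, ∃ n : ℕ, (List.replicate n g).foldl (fun a b => a * b * a⁻¹ * b⁻¹) x = 1)
    (H : Subgroup G) (hg : g ∈ H) : SnIn H (zpowers g) := by
  induction H using WellFoundedLT.induction with
  | ind H ih =>
  by_contra hn
  have hAH : zpowers g ≤ H := zpowers_le.2 hg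
  obtain ⟨M, hMH, hM⟩ := zipper hAH (fun K hK hKH => ih K hKH (hK (mem_zpowers g))) hn
  have hAM : zpowers g ≤ M := hM _ le_rfl (lt_of_le_of_ne hAH fun e =>
    hn (SnIn.of_normal hAH (e ▸ le_normalizer)))
  have hgM : g ∈ M := hAM (mem_zpowers g)
  have hnn : ¬ H ≤ normalizer (M : Set G) := fun hh =>
    hn ((ih M hMH hgM).trans (SnIn.of_normal hMH.le hh))
  have key : ∀ x ∈ H, x * g * x⁻¹ ∈ M → x ∈ M := by
    intro x hx hxg
    have h1 : MulAut.conj x⁻¹ • M ≤ M := by
      refine hM _ (zpowers_le.2 (mem_conj_smul.2 (by simpa using hxg))) ?_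
      have := conj_smul_lt x⁻¹ hMH
      rwa [mem_normalizer_iff_conj_smul.1 (le_normalizer (inv_mem hx))] at this
    have h2 : x ∈ normalizer (M : Set G) :=
      inv_mem_iff.1 (mem_normalizer_of_conj_smul_le h1)
    refine hM (normalizer (M : Set G) ⊓ H) (le_inf (hAM.trans le_normalizer) hAH)
      (lt_of_le_of_ne inf_le_right fun e => hnn (e ▸ inf_le_left)) ⟨h2, hx⟩
  have key2 : ∀ n : ℕ, ∀ x ∈ H,
      (List.replicate n g).foldl (fun a b => a * b * a⁻¹ * b⁻¹) x = 1 → x ∈ M := by
    intro n
    induction n with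
    | zero => intro x _ hx; rw [show x = 1 from hx]; exact one_mem _
    | succ n ihn =>
      intro x hx hxn
      rw [List.replicate_succ, List.foldl_cons] at hxn
      have := ihn _ (mul_mem (mul_mem (mul_mem hx hg) (inv_mem hx)) (inv_mem hg)) hxn
      exact key x hx ((mul_mem_cancel_right (inv_mem hgM)).1 this)
  exact hMH.not_ge fun x hx => (h x).elim fun n hn => key2 n x hx hn

/-- Baer's characterization of the Fitting subgroup: in a finite group G, an element g lies in the Fitting subgroup if and only if g is a left Engel element, that is, for every x there is n with [x, g, g, …, g] = 1 (n entries g, [a, b] = aba⁻¹b⁻¹). -/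
theorem result {G : Type*} [Group G] [Finite G] (g : G) :
    g ∈ Cfsg.fittingSubgroup G ↔ ∀ x : G, ∃ n : ℕ, (List.replicate n g).foldl (fun a b => a * b * a⁻¹ * b⁻¹) x = 1 := by
  constructor
  · intro hg x
    obtain ⟨n, hn⟩ := (isNilpotent_iff_lowerCentralSeries (Cfsg.fittingSubgroup G)).1 inferInstance
    have key : ∀ m k : ℕ, ∀ y ∈ (Cfsg.fittingSubgroup G).lowerCentralSeries k,
        (List.replicate m g).foldl (fun a b => a * b * a⁻¹ * b⁻¹) y ∈
          (Cfsg.fittingSubgroup G).lowerCentralSeries (k + m) := by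
      intro m
      induction m with
      | zero => intro k y hy; exact hy
      | succ m ih =>
        intro k y hy
        rw [List.replicate_succ, List.foldl_cons, ← add_assoc, add_right_comm]
        exact ih (k + 1) _ (commutator_mem_commutator hy hg)
    refine ⟨n + 1, ?_⟩
    rw [List.replicate_succ, List.foldl_cons]
    have := key n 0 (x * g * x⁻¹ * g⁻¹)
      (mul_mem ((inferInstance : (Cfsg.fittingSubgroup G).Normal).conj_mem _ hg x) (inv_mem hg))
    rwa [zero_add, hn, mem_bot] at this
  · intro h
    have h1 := snIn_top_iff.1 (snIn_of_engel g h ⊤ (mem_top g))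
    exact le_fittingSubgroup_of_isSubnormal h1 (L.isNilpotent_of_isMulCommutative _)
      (mem_zpowers g)

end Cfsg.Agent.S3937
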