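import Cfsg.Statements.S3939
import Cfsg.Agent.H3.Cover
import Cfsg.Agent.H8.PComplement
import Cfsg.Agent.L.MinNormal

set_option autoImplicit false
open Cfsg

namespace Cfsg.Agent.S3939

open Subgroup

universe u

theorem map_closure_pair {G H : Type*} [Group G] [Group H] (f : G →* H) (x g : G) :
    (closure ({x, g} : Set G)).map f = closure ({f x, f g} : Set H) := by
  rw [MonoidHom.map_closure, Set.image_pair]

theorem nil_of_mem (n : ℕ) : ∀ (G : Type u) [Group G] (g : G), g ∈ Subgroup.upperCentralSeries G n →
    ∀ x : G, Group.IsNilpotent ↥(closure ({x, g} : Set G)) := by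
  induction n with
  | zero =>
    intro G _ g hg x
    have : g = 1 := by simpa using hg
    subst this
    have : closure ({x, 1} : Set G) = zpowers x := by
      rw [Set.pair_comm, closure_insert_one, zpowers_eq_closure]
    rw [this]
    exact L.isNilpotent_of_isMulCommutative _
  | succ n ih =>
    intro G _ g hg x
    rw [← Subgroup.comap_upperCentralSeries_quotient_center] at hg
    have h1 := ih (G ⧸ center G) _ hg (QuotientGroup.mk' _ x)
    rw [← map_closure_pair] at h1
    refine Subgroup.isNilpotent_of_ker_le_center ((QuotientGroup.mk' (center G)).subgroupMap _) ?_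
    intro z hz
    have h2 : (z : G) ∈ center G := (QuotientGroup.eq_one_iff (z : G)).1 (congrArg Subtype.val hz)
    exact mem_center_iff.2 fun w => Subtype.ext (mem_center_iff.1 h2 w)

theorem mem_of_nil (G : Type u) [Group G] [Finite G] : ∀ (g : G),
    (∀ x : G, Group.IsNilpotent ↥(closure ({x, g} : Set G))) → ∃ n, g ∈ Subgroup.upperCentralSeries G n := by
  refine L.induction_on_card (P := fun G _ _ => ∀ (g : G),
    (∀ x : G, Group.IsNilpotent ↥(closure ({x, g} : Set G))) → ∃ n, g ∈ Subgroup.upperCentralSeries G n)
    G ?_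
  intro G _ _ ih g hg
  by_cases hZ : center G = ⊥
  · refine ⟨0, ?_⟩
    by_contra h1
    have h1' : g ≠ 1 := fun h => h1 (h ▸ one_mem _)
    obtain ⟨p, hp, hpd⟩ := Nat.exists_prime_and_dvd (mt orderOf_eq_one_iff.1 h1')
    haveI := Fact.mk hp
    have ho := orderOf_pow_orderOf_div (orderOf_pos g).ne' hpd
    set y := g ^ (orderOf g / p) with hy
    have hyC : y ∈ centralizer (pResidual p G : Set G) := by
      apply le_centralizer_iff.1 ((closure_le (centralizer (zpowers y : Set G))).2 ?_)
        (mem_zpowers y)
      intro x hx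
      rintro _ ⟨i, rfl⟩
      refine (Commute.zpow_left ?_ i).eq
      exact H3.commute_of_coprime_of_isNilpotent (hg x)
        (pow_mem (subset_closure (by simp)) _) (subset_closure (by simp))
        (show Nat.Coprime p (orderOf x) from Nat.Coprime.symm hx) (ho ▸ pow_orderOf_eq_one y)
        (pow_orderOf_eq_one x)
    obtain ⟨P, hP⟩ := (H8.isPGroup_zpowers_of_orderOf (k := 1) (by rw [ho, pow_one])).exists_le_sylow
    haveI := P.isPGroup'.isNilpotent
    have h2 : (centralizer (pResidual p G : Set G)).subgroupOf P ≠ ⊥ := by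
      intro h
      have : (⟨y, hP (mem_zpowers y)⟩ : (P : Subgroup G)) ∈
        (centralizer (pResidual p G : Set G)).subgroupOf P := hyC
      rw [h, mem_bot] at this
      have h3 : y = 1 := congrArg Subtype.val this
      rw [h3, orderOf_one] at ho
      exact hp.one_lt.ne ho
    obtain ⟨⟨z, hz1, hz2⟩, hz⟩ := ne_bot_iff_exists_ne_one.1
      (L.inf_center_ne_bot_of_isNilpotent _ h2)
    apply hz
    apply Subtype.ext
    apply Subtype.ext
    have h3 : (⊤ : Subgroup G) ≤ centralizer {(z : G)} := by
      rw [← H8.sylow_sup_pResidual P]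
      refine sup_le (fun w hw => mem_centralizer_singleton_iff.2 ?_)
        (fun w hw => mem_centralizer_singleton_iff.2 (hz1 w hw))
      exact congrArg Subtype.val (mem_center_iff.1 hz2 ⟨w, hw⟩)
    have h4 : (z : G) ∈ center G :=
      mem_center_iff.2 fun w => mem_centralizer_singleton_iff.1 (h3 (mem_top w))
    rwa [hZ] at h4
  · obtain ⟨n, hn⟩ := ih (G ⧸ center G) (L.card_quotient_lt _ hZ) (QuotientGroup.mk' _ g) (by
      intro x
      obtain ⟨x, rfl⟩ := QuotientGroup.mk'_surjective _ x
      rw [← map_closure_pair]
      haveI := hg x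
      exact L.isNilpotent_map _ _)
    exact ⟨n + 1, by rw [← Subgroup.comap_upperCentralSeries_quotient_center]; exact hn⟩

/-- In a finite group G the set of elements g such that the subgroup generated by g and x is nilpotent for every x ∈ G is exactly the hypercenter of G (the last term of the upper central series). -/
theorem result {G : Type*} [Group G] [Finite G] (g : G) :
    (∀ x : G, Group.IsNilpotent ↥(Subgroup.closure ({x, g} : Set G))) ↔ g ∈ ⨆ n : ℕ, Subgroup.upperCentralSeries G n := by
  rw [mem_iSup_of_directed (Subgroup.upperCentralSeries_mono G).directed_le]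
  exact ⟨mem_of_nil G g, fun ⟨n, hn⟩ => nil_of_mem n G g hn⟩

end Cfsg.Agent.S3939
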