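import Cfsg.Statements.S3940
import Cfsg.Agent.H7.SC6
import Cfsg.Agent.L.SimpleRed

set_option autoImplicit false
open Cfsg

namespace Cfsg.Agent.S3940

open Subgroup Cfsg.Agent.FT

/-- Let p > 3 be a prime and G a finite group in which every subgroup of order prime to p is nilpotent. Then G is solvable. -/
theorem result {G : Type*} [Group G] [Finite G] (p : ℕ) (hp : p.Prime) (hp3 : 3 < p)
    (h : ∀ H : Subgroup G, (Nat.card ↥H).Coprime p → Group.IsNilpotent ↥H) : Group.IsSolvable G := by
  revert h
  refine L.induction_on_card (P := fun G _ _ => (∀ H : Subgroup G, (Nat.card ↥H).Coprime p →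
    Group.IsNilpotent ↥H) → Group.IsSolvable G) G ?_
  intro G _ _ ih h
  have hs : ∀ X : Subgroup G, X ≠ ⊤ → Group.IsSolvable X := fun X hX =>
    ih X (L.card_lt_of_ne_top hX) fun H hH => (isNilpotent_map_iff X.subtype_injective).1
      (h _ (by rwa [card_map_inj X.subtype_injective]))
  by_contra hn
  have hn' : ¬ Group.IsSolvable (⊤ : Subgroup G) := fun a =>
    hn (solvable_of_surjective (f := (topEquiv (G := G)).toMonoidHom) topEquiv.surjective)
  have hnt : Nontrivial G := by
    by_contra a
    have := not_nontrivial_iff_subsingleton.1 a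
    exact hn inferInstance
  refine H7.SC.Hy.false (p := p) ⟨hp, hp3, h, ⟨fun N hN => ?_⟩, hs, hn'⟩
  by_contra hcon
  push Not at hcon
  have := hs N hcon.2
  obtain ⟨M, r, h1, -, hr, h2⟩ := L.exists_isMinNormal_isElementaryAbelian_le N hcon.1
  have := h1.1
  have h3 := elemAb_isPGroup h2
  refine hn (L.isSolvable_of_normal_of_quotient M
    (isSolvable_of_isNilpotent (isNilpotent_of_isPGroup hr h3))
    (ih _ (L.card_quotient_lt M h1.2.1) fun H hH => ?_))
  have h4 : M ≤ H.comap (QuotientGroup.mk' M) := by
    conv_lhs => rw [← QuotientGroup.ker_mk' M]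
    exact ker_le_comap _ _
  have h5 : M.relIndex (H.comap (QuotientGroup.mk' M)) = Nat.card H := by
    have := relIndex_ker (H.comap (QuotientGroup.mk' M)) (QuotientGroup.mk' M)
    rwa [QuotientGroup.ker_mk', map_comap_eq_self_of_surjective (QuotientGroup.mk'_surjective M)]
      at this
  obtain ⟨n, hn⟩ := exists_card_eq_pow hr h3
  obtain ⟨K, k1, k2⟩ : ∃ K : Subgroup G, (Nat.card K).Coprime p ∧
      K.map (QuotientGroup.mk' M) = H := by
    by_cases e : r = p
    · obtain ⟨K, hK⟩ := exists_sdProd_of_hall (K := M) (M := H.comap (QuotientGroup.mk' M))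
        ⟨h4, by rw [h5, hn, e]; exact hH.symm.pow_left n⟩ (le_top.trans (normalizer_eq_top M).ge)
      refine ⟨K, by rwa [← hK.relIndex_left, h5], ?_⟩
      rw [← map_comap_eq_self_of_surjective (QuotientGroup.mk'_surjective M) H, ← hK.sup,
        Subgroup.map_sup, (Subgroup.map_eq_bot_iff M).2 (QuotientGroup.ker_mk' M).ge, bot_sup_eq]
    · refine ⟨_, ?_, map_comap_eq_self_of_surjective (QuotientGroup.mk'_surjective M) H⟩
      rw [← H1.card_mul_relIndex h4, h5, hn]
      exact (((Nat.coprime_primes hr hp).2 e).pow_left n).mul_left hH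
  rw [← k2]
  have := h K k1
  exact Group.nilpotent_of_surjective _ ((QuotientGroup.mk' M).subgroupMap_surjective K)

end Cfsg.Agent.S3940
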