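import Cfsg.Statements.S3941
import Cfsg.Agent.H8.PComplement

set_option autoImplicit false
open Cfsg

namespace Cfsg.Agent.S3941

open Subgroup Equiv

/-- the embedding of `A_m` in `A_{m+1}` -/
def emb (m : ℕ) : alternatingGroup (Fin m) →* alternatingGroup (Fin (m + 1)) :=
  ((Perm.extendDomainHom (finSuccAboveEquiv (0 : Fin (m + 1)))).comp
    (alternatingGroup (Fin m)).subtype).codRestrict _ fun g => by
      simpa [Perm.mem_alternatingGroup] using Perm.mem_alternatingGroup.1 g.2

theorem emb_injective (m : ℕ) : Function.Injective (emb m) := fun a b h =>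
  Subtype.ext (Perm.extendDomainHom_injective _ (congrArg Subtype.val h))


/-- Let n ≥ 5 and p an odd prime with p ≤ n, and suppose that every proper subgroup of the alternating group of degree n whose order is divisible by p has a normal Sylow p-subgroup. Then n = p. -/
theorem result (n p : ℕ) (hn : 5 ≤ n) [Fact p.Prime] (hp : p ≠ 2) (hpn : p ≤ n)
    (h : ∀ H : Subgroup ↥(alternatingGroup (Fin n)), H ≠ ⊤ → p ∣ Nat.card ↥H → Cfsg.IsPClosed p ↥H) : n = p := by
  by_contra hne
  obtain ⟨m, rfl⟩ : ∃ m, n = m + 1 := ⟨n - 1, by omega⟩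
  have hpp : p.Prime := Fact.out
  haveI : Nontrivial (Fin m) := Fin.nontrivial_iff_two_le.2 (by omega)
  haveI : Nontrivial (Fin (m + 1)) := Fin.nontrivial_iff_two_le.2 (by omega)
  have e := MonoidHom.ofInjective (emb_injective m)
  have h1 := two_mul_nat_card_alternatingGroup (α := Fin m)
  have h2 := two_mul_nat_card_alternatingGroup (α := Fin (m + 1))
  rw [Nat.card_perm, Nat.card_fin] at h1 h2
  have h3 : p ∣ Nat.card (alternatingGroup (Fin m)) :=
    ((Nat.coprime_primes hpp Nat.prime_two).2 hp).dvd_of_dvd_mul_left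
      (h1 ▸ hpp.dvd_factorial.2 (by omega))
  have h4 := h (emb m).range (fun h4 => by
    have h5 := Nat.card_congr e.toEquiv
    rw [h4, card_top] at h5
    rw [← h5, h1, Nat.factorial_succ] at h2
    have := Nat.factorial_pos m
    nlinarith) (Nat.card_congr e.toEquiv ▸ h3)
  obtain ⟨P⟩ : Nonempty (Sylow p (emb m).range) := inferInstance
  haveI := h4 P
  set Q := (P : Subgroup (emb m).range).comap e.toMonoidHom with hQ
  have h5 : IsPGroup p Q := P.isPGroup'.comap_of_injective _ e.injective
  have h6 : ¬ p ∣ Q.index := by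
    rw [hQ, index_comap_of_surjective _ e.surjective]
    exact P.not_dvd_index
  by_cases hm : 5 ≤ m
  · haveI := alternatingGroup.isSimpleGroup (α := Fin m) (by simpa using hm)
    rcases (inferInstance : Q.Normal).eq_bot_or_eq_top with h7 | h7
    · rw [h7, index_bot] at h6
      exact h6 h3
    · obtain ⟨k, hk⟩ := IsPGroup.iff_card.1 h5
      rw [h7, card_top] at hk
      have h8 : 2 * 2 ∣ m.factorial := Nat.dvd_factorial (by omega) (by omega)
      rw [← h1, hk, Nat.mul_dvd_mul_iff_left two_pos] at h8
      exact hp ((Nat.prime_dvd_prime_iff_eq Nat.prime_two hpp).1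
        (Nat.prime_two.dvd_of_dvd_pow h8)).symm
  · obtain rfl : m = 4 := by omega
    obtain rfl : p = 3 := by
      have := hpp.two_le
      have : p ≠ 4 := fun e => absurd (e ▸ hpp) (by decide)
      omega
    have key : ∀ g : alternatingGroup (Fin 4), g ^ 3 = 1 → g ∈ Q := fun g hg =>
      H8.mem_of_coprime_index (Nat.Coprime.coprime_dvd_left (orderOf_dvd_of_pow_eq_one hg)
        (hpp.coprime_iff_not_dvd.2 h6))
    have h7 := Q.mul_mem (key ⟨swap 0 1 * swap 1 2, Perm.mem_alternatingGroup.2 (by decide)⟩ (by decide))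
      (key ⟨swap 1 2 * swap 2 3, Perm.mem_alternatingGroup.2 (by decide)⟩ (by decide))
    obtain ⟨k, hk⟩ := H8.exists_orderOf_eq_pow_of_mem h5 h7
    have h8 := H8.eq_one_of_orderOf_pow_of_coprime hk (Nat.Coprime.coprime_dvd_left
      (orderOf_dvd_of_pow_eq_one (n := 2) (by decide)) (by decide))
    exact absurd h8 (by decide)

end Cfsg.Agent.S3941
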