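import Cfsg.Statements.S3949
import Cfsg.Agent.H1.Basic

set_option autoImplicit false
open Cfsg

namespace Cfsg.Agent.S3949


/-- Let G be a finite group and α an automorphism of G of order 2 such that the elements g·α(g)⁻¹ generate G. Let j be a positive integer such that 2^j divides the order of no element inverted by α. Then the set of values of the j-th iterate of the map c ↦ c·α(c)⁻¹ is exactly the set of elements of odd order inverted by α. -/
theorem result {G : Type*} [Group G] [Finite G] (α : MulAut G) (hα : orderOf α = 2) (hG : Subgroup.closure (Set.range (fun c : G => c * (α c)⁻¹)) = ⊤)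
    (j : ℕ) (hj : ∀ g : G, α g = g⁻¹ → ¬ 2 ^ j ∣ orderOf g) :
    Set.range ((fun c : G => c * (α c)⁻¹)^[j]) = {g : G | Odd (orderOf g) ∧ α g = g⁻¹} := by
  have hα2 : ∀ x, α (α x) = x := fun x => by
    have : α ^ 2 = 1 := hα ▸ pow_orderOf_eq_one α
    rw [← MulAut.mul_apply, ← pow_two, this, MulAut.one_apply]
  set f : G → G := fun c : G => c * (α c)⁻¹ with hf
  have h1 : ∀ c, α (f c) = (f c)⁻¹ := fun c => by simp [hf, hα2]
  have h2 : ∀ g, α g = g⁻¹ → ∀ i : ℕ, f^[i] g = g ^ 2 ^ i := by
    intro g hg i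
    induction i with
    | zero => simp
    | succ i ih =>
      rw [Function.iterate_succ_apply', ih, hf]
      simp only [map_pow, hg, inv_pow, inv_inv]
      rw [← pow_add, pow_succ, mul_two]
  rcases Nat.eq_zero_or_pos j with rfl | hj0
  · exact absurd (one_dvd _) (hj 1 (by simp))
  obtain ⟨j, rfl⟩ := Nat.exists_eq_add_of_le' hj0
  ext g
  constructor
  · rintro ⟨c, rfl⟩
    rw [Function.iterate_succ_apply, h2 _ (h1 c)]
    refine ⟨?_, by rw [map_pow, h1, inv_pow]⟩
    have h3 := hj _ (h1 c)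
    obtain ⟨a, m, hm, h4⟩ := Nat.exists_eq_two_pow_mul_odd (orderOf_pos (f c)).ne'
    have h5 : a ≤ j := by
      by_contra h
      exact h3 (h4 ▸ (pow_dvd_pow 2 (by omega)).mul_right m)
    refine hm.of_dvd_nat (orderOf_dvd_of_pow_eq_one ?_)
    rw [← pow_mul, ← orderOf_dvd_iff_pow_eq_one, h4]
    exact Nat.mul_dvd_mul_right (pow_dvd_pow 2 h5) m
  · rintro ⟨h3, h4⟩
    obtain ⟨m, hm⟩ := exists_pow_eq_self_of_coprime
      (x := g) (n := 2 ^ (j + 1)) ((Nat.coprime_two_left.2 h3).pow_left _)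
    exact ⟨g ^ m, by rw [h2 _ (by rw [map_pow, h4, inv_pow]), ← pow_mul, mul_comm, pow_mul, hm]⟩

end Cfsg.Agent.S3949
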