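import Cfsg.Statements.S3972
import Cfsg.Agent.H4.BGroup

set_option autoImplicit false
open Cfsg

namespace Cfsg.Agent.S3972

open Finset

theorem nsmul_eq_zero_iff {p m : ℕ} (hp : p.Prime) (z : ZMod (p ^ (m + 1))) :
    p • z = 0 ↔ p ^ m ∣ z.val := by
  have : NeZero (p ^ (m + 1)) := ⟨pow_ne_zero _ hp.ne_zero⟩
  conv_lhs => rw [← ZMod.natCast_zmod_val z, nsmul_eq_mul, ← Nat.cast_mul, ZMod.natCast_eq_zero_iff]
  generalize z.val = v
  rw [pow_succ']
  exact Nat.mul_dvd_mul_iff_left hp.pos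

theorem card_ker {p m : ℕ} (hp : p.Prime) [NeZero (p ^ (m + 1))] :
    #{z : ZMod (p ^ (m + 1)) | p • z = 0} = p := by
  apply le_antisymm (IsAddCyclic.card_nsmul_eq_zero_le hp.pos)
  calc p = #(range p) := (card_range p).symm
    _ ≤ _ := card_le_card_of_injOn (fun i => ((p ^ m * i : ℕ) : ZMod (p ^ (m + 1)))) ?_ ?_
  · intro i _
    simp only [coe_filter, mem_univ, true_and, Set.mem_ofPred_eq]
    rw [nsmul_eq_mul, ← Nat.cast_mul, ZMod.natCast_eq_zero_iff]
    exact ⟨i, by ring⟩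
  · intro i hi j hj e
    simp only [coe_range, Set.mem_Iio] at hi hj
    rw [ZMod.natCast_eq_natCast_iff', pow_succ, Nat.mul_mod_mul_left, Nat.mul_mod_mul_left,
      Nat.mod_eq_of_lt hi, Nat.mod_eq_of_lt hj] at e
    exact Nat.eq_of_mul_eq_mul_left (pow_pos hp.pos m) e

theorem pow_mem_of_ne_bot {p m : ℕ} (hp : p.Prime) {D : AddSubgroup (ZMod (p ^ (m + 1)))}
    (h : D ≠ ⊥) : ((p ^ m : ℕ) : ZMod (p ^ (m + 1))) ∈ D := by
  have : NeZero (p ^ (m + 1)) := ⟨pow_ne_zero _ hp.ne_zero⟩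
  obtain ⟨z, hz, hz0⟩ : ∃ z ∈ D, z ≠ 0 := by
    by_contra hcon
    push Not at hcon
    exact h (eq_bot_iff.2 hcon)
  have h1 : Nat.gcd z.val (p ^ (m + 1)) ∣ p ^ m := by
    obtain ⟨k, hk, e⟩ := (Nat.dvd_prime_pow hp).1 (Nat.gcd_dvd_right z.val (p ^ (m + 1)))
    rw [e]
    apply pow_dvd_pow
    by_contra hk'
    obtain rfl : k = m + 1 := by omega
    apply hz0
    rw [← ZMod.natCast_zmod_val z, ZMod.natCast_eq_zero_iff]
    exact Nat.gcd_eq_right_iff_dvd.1 e
  obtain ⟨c, hc⟩ := h1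
  have h2 : ((Nat.gcd z.val (p ^ (m + 1)) : ℕ) : ZMod (p ^ (m + 1))) ∈ D := by
    have := congrArg (Int.cast : ℤ → ZMod (p ^ (m + 1))) (Nat.gcd_eq_gcd_ab z.val (p ^ (m + 1)))
    rw [Int.cast_natCast] at this
    rw [this, Int.cast_add, Int.cast_mul, Int.cast_mul, Int.cast_natCast, Int.cast_natCast,
      ZMod.natCast_self, zero_mul, add_zero, ZMod.natCast_zmod_val, mul_comm, ← zsmul_eq_mul]
    exact D.zsmul_mem hz _
  rw [hc, Nat.cast_mul, mul_comm, ← nsmul_eq_mul]
  exact D.nsmul_mem h2 _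

theorem core {p m : ℕ} (hp : p.Prime) (hm : 1 ≤ m) {G : Type*} [Group G]
    [MulAction G (ZMod (p ^ (m + 1)))] (t : G) (ht : ∀ x : ZMod (p ^ (m + 1)), t • x = x + 1)
    (h2 : ¬ MulAction.IsMultiplyPretransitive G (ZMod (p ^ (m + 1))) 2) :
    ¬ MulAction.IsPretransitive (Subgroup.normalClosure ({t ^ p ^ m} : Set G))
      (ZMod (p ^ (m + 1))) := by
  have : NeZero (p ^ (m + 1)) := ⟨pow_ne_zero _ hp.ne_zero⟩
  have hpow : ∀ (n : ℕ) (x : ZMod (p ^ (m + 1))), t ^ n • x = x + n := by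
    intro n
    induction n with
    | zero => simp
    | succ n ih => intro x; rw [pow_succ' t, mul_smul, ih, ht]; push_cast; ring
  have hex : ∃ D : AddSubgroup (ZMod (p ^ (m + 1))),
      H4.DiffInv G (D : Set (ZMod (p ^ (m + 1)))) ∧ D ≠ ⊥ ∧ D ≠ ⊤ := by
    by_contra hcon
    push Not at hcon
    refine h2 (H4.two_trans_of_primitive (fun a => ⟨t ^ a.val, fun x => by simp [hpow]⟩) hp
      (card_ker hp) ⟨1, ?_⟩ fun D hD => or_iff_not_imp_left.2 (hcon D hD))
    rw [Ne, nsmul_eq_zero_iff hp]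
    have : Fact (1 < p ^ (m + 1)) := ⟨Nat.one_lt_pow (by omega) hp.one_lt⟩
    rw [ZMod.val_one, Nat.dvd_one]
    exact (Nat.one_lt_pow (by omega) hp.one_lt).ne'
  obtain ⟨D, hD, hD1, hD2⟩ := hex
  let K : Subgroup G :=
    { carrier := {γ | ∀ x : ZMod (p ^ (m + 1)), γ • x - x ∈ D}
      one_mem' := by simp
      mul_mem' := fun {a b} ha hb x => by
        have := D.add_mem (ha (b • x)) (hb x)
        rwa [sub_add_sub_cancel, ← mul_smul] at this
      inv_mem' := fun {a} ha x => by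
        have := D.neg_mem (ha (a⁻¹ • x))
        simpa using this }
  have hK : K.Normal := ⟨fun γ hγ δ x => by
    have := hD δ _ _ (hγ (δ⁻¹ • x))
    simpa [mul_smul] using this⟩
  have hle : Subgroup.normalClosure ({t ^ p ^ m} : Set G) ≤ K := by
    apply Subgroup.normalClosure_le_normal
    rintro _ rfl x
    rw [hpow, add_sub_cancel_left]
    exact pow_mem_of_ne_bot hp hD1
  intro htr
  apply hD2
  rw [eq_top_iff]
  intro x _
  obtain ⟨γ, hγ⟩ := htr.exists_smul_eq 0 x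
  have := hle γ.2 0
  rw [sub_zero] at this
  exact hγ ▸ this


/-- Let `p` be a prime, `m ≥ 2`, and `G` a transitive but not doubly transitive permutation group on `p ^ m` points containing a permutation of order `p ^ m` (necessarily a full cycle). Then `G` is imprimitive, and the normal closure in `G` of the `p ^ (m - 1)`-th power of that permutation is an intransitive normal subgroup. -/
theorem result {Ω : Type*} [Fintype Ω] [DecidableEq Ω] (p m : ℕ) (hp : p.Prime) (hm : 2 ≤ m) (hΩ : Fintype.card Ω = p ^ m) (G : Subgroup (Equiv.Perm Ω)) (htr : MulAction.IsPretransitive G Ω) (h2 : ¬ MulAction.IsMultiplyPretransitive G Ω 2) (g : G) (hg : orderOf g = p ^ m) : ¬ MulAction.IsPreprimitive G Ω ∧ ¬ MulAction.IsPretransitive (Subgroup.normalClosure ({g ^ (p ^ (m - 1))} : Set G)) Ω := by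
  obtain ⟨m, rfl⟩ : ∃ k, m = k + 1 := ⟨m - 1, by omega⟩
  rw [Nat.add_sub_cancel]
  have : NeZero (p ^ (m + 1)) := ⟨pow_ne_zero _ hp.ne_zero⟩
  obtain ⟨o, ho⟩ : ∃ o : Ω, g ^ p ^ m • o ≠ o := by
    by_contra hc
    push Not at hc
    have h1 : g ^ p ^ m = 1 := Subtype.ext (Equiv.ext hc)
    have h3 := Nat.le_of_dvd (pow_pos hp.pos _) (hg ▸ orderOf_dvd_of_pow_eq_one h1)
    have := (Nat.pow_le_pow_iff_right hp.one_lt).1 h3
    omega
  have hper : MulAction.period g o = p ^ (m + 1) := by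
    obtain ⟨k, hk, e⟩ := (Nat.dvd_prime_pow hp).1 (hg ▸ MulAction.period_dvd_orderOf g o)
    rw [e]
    congr 1
    by_contra hk'
    exact ho (MulAction.pow_smul_eq_iff_period_dvd.2 (e ▸ pow_dvd_pow p (by omega)))
  have hmod : ∀ i : ℕ, g ^ (i : ZMod (p ^ (m + 1))).val = g ^ i := fun i => by
    rw [ZMod.val_natCast, ← hg, pow_mod_orderOf]
  let f : ZMod (p ^ (m + 1)) → Ω := fun i => g ^ i.val • o
  have hf : Function.Injective f := by
    intro i j e
    have h1 : g ^ ((j.val : ℤ) - i.val) • o = o := by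
      rw [sub_eq_neg_add, zpow_add, mul_smul, zpow_neg, inv_smul_eq_iff, zpow_natCast, zpow_natCast]
      exact e.symm
    rw [MulAction.zpow_smul_eq_iff_period_dvd, hper, ← ZMod.intCast_eq_intCast_iff_dvd_sub] at h1
    simpa using h1
  let e : ZMod (p ^ (m + 1)) ≃ Ω := Equiv.ofBijective f
    ((Fintype.bijective_iff_injective_and_card f).2 ⟨hf, by rw [hΩ, ZMod.card]⟩)
  let _ : MulAction G (ZMod (p ^ (m + 1))) := e.mulAction G
  have he : ∀ (γ : G) (x : ZMod (p ^ (m + 1))), e (γ • x) = γ • e x := fun g x => e.apply_symm_apply _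
  have hc := core hp (by omega : 1 ≤ m) g (fun x => e.injective (by
      rw [he]
      change g • g ^ x.val • o = g ^ (x + 1).val • o
      rw [← mul_smul, ← pow_succ', ← hmod]
      simp)) (fun h => h2 (by
    rw [MulAction.is_two_pretransitive_iff] at h ⊢
    intro a b c d hab hcd
    obtain ⟨g, h1, h2⟩ := h (e.symm.injective.ne hab) (e.symm.injective.ne hcd)
    refine ⟨g, ?_, ?_⟩
    · rw [← e.apply_symm_apply a, ← he, h1, e.apply_symm_apply]
    · rw [← e.apply_symm_apply b, ← he, h2, e.apply_symm_apply]))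
  have hN : ¬ MulAction.IsPretransitive (Subgroup.normalClosure ({g ^ p ^ m} : Set G)) Ω := by
    intro h
    refine hc ⟨fun x y => ?_⟩
    obtain ⟨γ, hγ⟩ := h.exists_smul_eq (e x) (e y)
    exact ⟨γ, e.injective ((he γ x).trans hγ)⟩
  refine ⟨fun hprim => hN (MulAction.IsQuasiPreprimitive.isPretransitive_of_normal fun h => ho ?_), hN⟩
  have : o ∈ MulAction.fixedPoints (Subgroup.normalClosure ({g ^ p ^ m} : Set G)) Ω :=
    h ▸ Set.mem_univ o
  exact this ⟨g ^ p ^ m, Subgroup.subset_normalClosure rfl⟩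

end Cfsg.Agent.S3972
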