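import Cfsg.Statements.S3982
import Cfsg.Agent.L.Invol
import Cfsg.Agent.H1.Coprime
import Cfsg.Agent.H8.PComplement

set_option autoImplicit false
open Cfsg

namespace Cfsg.Agent.S3982

open Subgroup


/-- Let p be an odd prime and G a finite group of even order divisible by p in which the centralizer of every non-identity p-element has odd order. If some nontrivial p-subgroup of G has a normalizer of even order, then the normalizer of every Sylow p-subgroup of G has even order. -/
theorem result {G : Type*} [Group G] [Finite G] (p : ℕ) [Fact p.Prime] (hp2 : p ≠ 2) (hpG : p ∣ Nat.card G) (h2G : 2 ∣ Nat.card G) (hC : ∀ g : G, g ≠ 1 → (∃ k : ℕ, orderOf g = p ^ k) → Odd (Nat.card ↥(Subgroup.centralizer ({g} : Set G)))) (Q : Subgroup G) (hQ : IsPGroup p ↥Q) (hQ1 : Q ≠ ⊥) (hev : Even (Nat.card ↥(Subgroup.normalizer (Q : Set G)))) (P : Sylow p G) : Even (Nat.card ↥(Subgroup.normalizer ((P : Subgroup G) : Set G))) := by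
  have hp : p.Prime := Fact.out
  obtain ⟨⟨y, hyQ⟩, hy⟩ := exists_prime_orderOf_dvd_card' 2 hev.two_dvd
  rw [orderOf_mk] at hy
  have hy2 : y * y = 1 := by rw [← pow_two, ← hy, pow_orderOf_eq_one]
  have hy1 : y ≠ 1 := fun h => by rw [h, orderOf_one] at hy; omega
  have hyi : y⁻¹ = y := inv_eq_of_mul_eq_one_right hy2
  obtain ⟨R, hQR, hR⟩ := Finite.exists_le_maximal
    (p := fun R : Subgroup G => IsPGroup p R ∧ y ∈ normalizer (R : Set G)) ⟨hQ, hyQ⟩
  obtain ⟨hRp, hyR⟩ := hR.prop
  have hfpf : ∀ g : G, (∃ k, orderOf g = p ^ k) → Commute y g → g = 1 := by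
    intro g hg hc
    by_contra h
    exact hy1 (L.eq_one_of_sq_of_odd (hC g h hg) (mem_centralizer_singleton_iff.2 hc) hy2)
  have hinv := L.inverts_of_fpf hy2 hyR fun a ha =>
    hfpf a (H8.exists_orderOf_eq_pow_of_mem hRp ha)
  set C := centralizer (R : Set G) with hCdef
  have hRC : R ≤ C := fun a ha b hb => L.commute_of_inverts hy2 hinv hb ha
  have hCodd : Odd (Nat.card C) := by
    obtain ⟨⟨g, hg⟩, hg1⟩ := ne_bot_iff_exists_ne_one.1 hQ1
    refine (hC g (fun h => hg1 (Subtype.ext h)) (H8.exists_orderOf_eq_pow_of_mem hQ hg)).of_dvd_nat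
      (card_dvd_of_le (centralizer_le (Set.singleton_subset_iff.2 (hQR hg))))
  have hA : zpowers y ≤ normalizer (R : Set G) := (zpowers_le).2 hyR
  have hcop : (Nat.card (zpowers y)).Coprime (Nat.card C) := by
    rw [Nat.card_zpowers, hy]; exact Nat.coprime_two_left.2 hCodd
  have hsol : Group.IsSolvable (zpowers y) ∨ Group.IsSolvable C :=
    Or.inl (H1.isSolvable_of_isMulCommutative inferInstance)
  obtain ⟨P0, h1, h2, h3, h4, h5⟩ := H1.exists_invariant_sylow_ge
    (H1.le_normalizer_centralizer hA) hcop hsol hRC hRp hA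
  have h6 : P0 = R := le_antisymm (hR.le_of_ge ⟨h3, h5 (mem_zpowers y)⟩ h1) h1
  rw [h6] at h4
  set D := normalizer (R : Set G) ⊓ centralizer (zpowers y : Set G) with hD
  have hDC : D ≤ normalizer (C : Set G) := H1.le_normalizer_centralizer inf_le_left
  have h7 : D ⊔ C = normalizer (R : Set G) := by
    refine le_antisymm (sup_le inf_le_left (centralizer_le_normalizer _)) fun g hg => ?_
    obtain ⟨n, hn, hn'⟩ := H1.exists_mul_mem_centralizer (H1.le_normalizer_centralizer hA) hcop
      hsol (g := g) (by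
        intro a ha
        have hyy : y * g * y⁻¹ * g⁻¹ ∈ C := by
          intro r hr
          have e1 := hinv _ ((mem_normalizer_iff''.1 hg r⁻¹).1 (inv_mem hr))
          have e2 := hinv r hr
          rw [hyi]
          calc r * (y * g * y * g⁻¹) = y * (y * r * y) * g * y * g⁻¹ := by
                rw [← mul_assoc y (y * r), ← mul_assoc y y, hy2]; group
            _ = y * g * y * (y * (g⁻¹ * r⁻¹ * g) * y) * g⁻¹ := by
                rw [e2, ← mul_assoc (y * g * y), ← mul_assoc (y * g * y), mul_assoc (y * g) y y,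
                  hy2]; group
            _ = y * g * y * g⁻¹ * r := by rw [e1]; group
        obtain ⟨k, rfl⟩ := mem_powers_iff_mem_zpowers.2 ha
        rcases Nat.even_or_odd' k with ⟨t, rfl | rfl⟩
        · simp [pow_mul, pow_two, hy2]
        · simpa [pow_succ, pow_mul, pow_two, hy2] using hyy)
    have h8 : n * g ∈ D := ⟨mul_mem (centralizer_le_normalizer _ hn) hg, hn'⟩
    exact (mul_mem_cancel_left (mem_sup_right hn)).1 (mem_sup_left h8)
  have h8 : ¬ p ∣ Nat.card D := fun h => by
    obtain ⟨⟨g, hg⟩, hg'⟩ := exists_prime_orderOf_dvd_card' p h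
    rw [orderOf_mk] at hg'
    rw [hfpf g ⟨1, by simpa using hg'⟩ (hg.2 y (mem_zpowers y)), orderOf_one] at hg'
    exact hp.one_lt.ne hg'
  have h9 : ¬ p ∣ R.relIndex (⊤ ⊓ normalizer (R : Set G)) := by
    rw [top_inf_eq, ← relIndex_mul_relIndex R C _ hRC (centralizer_le_normalizer _),
      Nat.Prime.dvd_mul hp, not_or, ← h7, H1.relIndex_sup_of_le_normalizer hDC]
    exact ⟨h4, fun h => h8 (h.trans (relIndex_dvd_card _ _))⟩
  have h10 := H1.not_dvd_relIndex_of_normalizer le_top hRp h9
  rw [relIndex_top_right] at h10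
  obtain ⟨g, hg⟩ := MulAction.exists_smul_eq G (hRp.toSylow h10) P
  have h11 : (P : Subgroup G) = R.map (MulAut.conj g).toMonoidHom := by rw [← hg]; rfl
  rw [h11, H1.normalizer_map_conj, H1.card_map_conj, even_iff_two_dvd, ← hy]
  exact Subgroup.orderOf_dvd_natCard _ hyR

end Cfsg.Agent.S3982
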