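import Cfsg.Statements.S3983
import Cfsg.Agent.H4.SubCount2

set_option autoImplicit false
open scoped Pointwise
open Cfsg

namespace Cfsg.Agent.S3983

open Subgroup

/-- Let P be a Sylow p-subgroup of the finite group G that meets each conjugate g P g⁻¹ with g outside N_G(P) trivially, and let U be a subgroup of G of order divisible by p. Then a Sylow p-subgroup Q of U has the same property inside U: Q meets each conjugate u Q u⁻¹ with u ∈ U outside N_U(Q) trivially. -/
theorem result {G : Type*} [Group G] [Finite G] (p : ℕ) [Fact p.Prime] (P : Sylow p G) (hTI : ∀ g : G, g ∉ Subgroup.normalizer ((P : Subgroup G) : Set G) → (P : Subgroup G) ⊓ (MulAut.conj g • (P : Subgroup G)) = ⊥) (U : Subgroup G) (hU : p ∣ Nat.card ↥U) (Q : Sylow p ↥U) : ∀ u : ↥U, u ∉ Subgroup.normalizer ((Q : Subgroup ↥U) : Set ↥U) → (Q : Subgroup ↥U) ⊓ (MulAut.conj u • (Q : Subgroup ↥U)) = ⊥ := by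
  intro u hu
  by_contra hne
  apply hu
  obtain ⟨P', hP'⟩ := Q.exists_comap_subtype_eq
  obtain ⟨g, rfl⟩ := MulAction.exists_smul_eq G P P'
  have h1 : (u : G) ∈ normalizer (((g • P : Sylow p G) : Subgroup G) : Set G) := by
    by_contra h
    apply hne
    rw [Sylow.coe_subgroup_smul, H4.normalizer_conj_smul, mem_pointwise_smul_iff_inv_smul_mem] at h
    have h2 := congrArg (fun H => MulAut.conj g • H) (hTI _ h)
    simp only [smul_inf, smul_bot, ← mul_smul, ← map_mul, ← map_inv, MulAut.smul_def,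
      MulAut.conj_apply] at h2
    rw [eq_bot_iff]
    intro x hx
    obtain ⟨hx1, hx2⟩ := mem_inf.1 hx
    rw [← hP'] at hx1 hx2
    have h3 : (x : G) ∈ (⊥ : Subgroup G) := by
      rw [← h2]
      refine mem_inf.2 ⟨hx1, ?_⟩
      simp only [mem_pointwise_smul_iff_inv_smul_mem, mem_comap,
        Sylow.coe_subgroup_smul] at hx2 ⊢
      simpa [mul_assoc] using hx2
    exact mem_bot.2 (Subtype.ext (mem_bot.1 h3))
  rw [← hP', mem_normalizer_iff]
  intro x
  exact mem_normalizer_iff.1 h1 x

end Cfsg.Agent.S3983
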