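import Cfsg.Statements.S3984
import Cfsg.Agent.H4.SubCount2
import Cfsg.Agent.H8.PComplement

set_option autoImplicit false
open scoped Pointwise
open Cfsg

namespace Cfsg.Agent.S3984

open Subgroup

/-- Let P be a Sylow p-subgroup of the finite group G that meets each conjugate g P g⁻¹ with g outside N_G(P) trivially, and let N be a normal subgroup of G of order prime to p. Then every Sylow p-subgroup Q of G ⧸ N meets each conjugate x Q x⁻¹ with x outside its normalizer trivially. -/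
theorem result {G : Type*} [Group G] [Finite G] (p : ℕ) [Fact p.Prime] (P : Sylow p G) (hTI : ∀ g : G, g ∉ Subgroup.normalizer ((P : Subgroup G) : Set G) → (P : Subgroup G) ⊓ (MulAut.conj g • (P : Subgroup G)) = ⊥) (N : Subgroup G) [N.Normal] (hN : (Nat.card ↥N).Coprime p) (Q : Sylow p (G ⧸ N)) : ∀ x : G ⧸ N, x ∉ Subgroup.normalizer ((Q : Subgroup (G ⧸ N)) : Set (G ⧸ N)) → (Q : Subgroup (G ⧸ N)) ⊓ (MulAut.conj x • (Q : Subgroup (G ⧸ N))) = ⊥ := by
  intro x hx
  by_contra hne
  apply hx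
  have hs := QuotientGroup.mk'_surjective N
  obtain ⟨P', rfl⟩ := Sylow.mapSurjective_surjective hs p Q
  obtain ⟨g, rfl⟩ := MulAction.exists_smul_eq G P P'
  have hTI' : ∀ a : G, ((g • P : Sylow p G) : Subgroup G) ⊓
      MulAut.conj a • ((g • P : Sylow p G) : Subgroup G) ≠ ⊥ →
      a ∈ normalizer (((g • P : Sylow p G) : Subgroup G) : Set G) := by
    intro a ha
    by_contra h
    apply ha
    rw [Sylow.coe_subgroup_smul, H4.normalizer_conj_smul, mem_pointwise_smul_iff_inv_smul_mem] at h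
    have h2 := congrArg (fun H => MulAut.conj g • H) (hTI _ h)
    simp only [smul_inf, smul_bot, ← mul_smul, ← map_mul, ← map_inv, MulAut.smul_def,
      MulAut.conj_apply] at h2
    rw [Sylow.coe_subgroup_smul, ← mul_smul, ← map_mul, ← h2]
    congr 3
    group
  set R := g • P
  obtain ⟨x, rfl⟩ := hs x
  obtain ⟨⟨y, hy1, hy2⟩, hy⟩ := ne_bot_iff_exists_ne_one.1 hne
  replace hy : y ≠ 1 := fun h => hy (Subtype.ext h)
  obtain ⟨a, ha, rfl⟩ := hy1
  obtain ⟨b, hb, hab⟩ := mem_pointwise_smul_iff_inv_smul_mem.1 hy2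
  have h1 : x * b * x⁻¹ ∈ (R : Subgroup G) ⊔ N := by
    have : ((a⁻¹ * (x * b * x⁻¹) : G) : G ⧸ N) = 1 := by
      simp only [QuotientGroup.mk'_apply, QuotientGroup.mk_mul, QuotientGroup.mk_inv] at hab ⊢
      rw [hab]
      simp [mul_assoc]
    have h2 := mul_mem (mem_sup_left ha) (mem_sup_right ((QuotientGroup.eq_one_iff _).1 this))
    simpa using h2
  have hb1 : b ≠ 1 := by
    rintro rfl
    apply hy
    rw [map_one, eq_comm, smul_eq_iff_eq_inv_smul, smul_one] at hab
    exact hab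
  have h2 : IsPGroup p (zpowers (x * b * x⁻¹)) := by
    obtain ⟨k, hk⟩ := H8.exists_orderOf_eq_pow_of_mem R.isPGroup' hb
    exact H8.isPGroup_zpowers_of_orderOf ((H4.orderOf_conj' x b).trans hk)
  obtain ⟨h, hh, h3⟩ := H1.exists_conj_le_sylow (H := (R : Subgroup G) ⊔ N) R.isPGroup'
    (fun h => R.not_dvd_index (h.trans (relIndex_dvd_index_of_le le_sup_left)))
    ((zpowers_le).2 h1) h2
  have h4 : h * x ∈ normalizer ((R : Subgroup G) : Set G) := by
    refine hTI' _ (ne_bot_iff_exists_ne_one.2 ⟨⟨h * x * b * (h * x)⁻¹, ?_, ?_⟩, fun h5 => hb1 ?_⟩)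
    · have h6 := h3 (mem_map_of_mem _ (mem_zpowers _))
      have h7 : h * x * b * (h * x)⁻¹ = (MulAut.conj h).toMonoidHom (x * b * x⁻¹) := by
        simp [mul_assoc]
      rw [h7]
      exact h6
    · exact ⟨b, hb, rfl⟩
    · exact conj_eq_one_iff.1 (congrArg Subtype.val h5)
  have h5 : QuotientGroup.mk' N h ∈ (R : Subgroup G).map (QuotientGroup.mk' N) := by
    have := mem_map_of_mem (QuotientGroup.mk' N) hh
    rwa [Subgroup.map_sup, (map_eq_bot_iff N).2 (by simp), sup_bot_eq] at this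
  have h6 := le_normalizer_map (QuotientGroup.mk' N) (mem_map_of_mem _ h4)
  rw [map_mul] at h6
  exact (mul_mem_cancel_left (le_normalizer h5)).1 h6

end Cfsg.Agent.S3984
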