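import Cfsg.Statements.S3985
import Cfsg.Agent.H4.SubCount2
import Cfsg.Agent.H1.Abelian
import Cfsg.Agent.H8.PComplement

set_option autoImplicit false
open scoped Pointwise
open Cfsg

namespace Cfsg.Agent.S3985

open Subgroup

theorem eq_of_card_eq_of_le {G : Type*} [Group G] [Finite G] {P A B : Subgroup G} [IsCyclic P]
    (hA : A ≤ P) (hB : B ≤ P) (h : Nat.card A = Nat.card B) : A = B := by
  have h1 := H4.card_subgroup_eq_one_of_isCyclic (G := P) (card_dvd_of_le hA)
  rw [← H4.card_card_le_eq] at h1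
  have := (Nat.card_eq_one_iff_unique.1 h1).1
  exact congrArg Subtype.val (Subsingleton.elim (⟨A, rfl, hA⟩ :
    {K : Subgroup G // Nat.card K = Nat.card A ∧ K ≤ P}) ⟨B, h.symm, hB⟩)


/-- Let P be a cyclic Sylow p-subgroup of the finite group G. Then P meets each conjugate g P g⁻¹ with g outside N_G(P) trivially if and only if P is weakly self-centralizing: C_G(x) = C_G(P) for every non-identity x ∈ P. -/
theorem result {G : Type*} [Group G] [Finite G] (p : ℕ) [Fact p.Prime] (P : Sylow p G) (hcyc : IsCyclic ↥(P : Subgroup G)) : (∀ g : G, g ∉ Subgroup.normalizer ((P : Subgroup G) : Set G) → (P : Subgroup G) ⊓ (MulAut.conj g • (P : Subgroup G)) = ⊥) ↔ ∀ x : G, x ∈ (P : Subgroup G) → x ≠ 1 → Subgroup.centralizer ({x} : Set G) = Subgroup.centralizer ((P : Subgroup G) : Set G) := by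
  constructor
  · intro hTI x hx hx1
    refine le_antisymm ?_ (centralizer_le (Set.singleton_subset_iff.2 hx))
    have h1 : centralizer ({x} : Set G) ≤ normalizer ((P : Subgroup G) : Set G) := by
      intro g hg
      by_contra h
      have h2 : x ∈ (P : Subgroup G) ⊓ MulAut.conj g • (P : Subgroup G) :=
        ⟨hx, x, hx, by simp [mem_centralizer_singleton_iff.1 hg]⟩
      rw [hTI g h] at h2
      exact hx1 (mem_bot.1 h2)
    refine H1.le_of_forall_isPGroup_le fun r hr R hR hRr _ => ?_
    by_cases hrp : r = p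
    · subst hrp
      have h2 : R ≤ P :=
        inf_eq_left.1 ((hRr.inf_normalizer_sylow P).symm.trans (inf_eq_left.2 (hR.trans h1)))
      exact h2.trans (le_centralizer _)
    · have hfr : Fact r.Prime := ⟨hr⟩
      refine H1.le_centralizer_of_abelian_of_prime_order inferInstance (hR.trans h1)
        (IsPGroup.coprime_card_of_ne r p hrp R (P : Subgroup G) hRr P.isPGroup') fun v hv hvp => ?_
      have hp : p.Prime := Fact.out
      have hvq : orderOf v = p := by
        obtain ⟨k, hk⟩ := H8.exists_orderOf_eq_pow_of_mem P.isPGroup' hv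
        exact (Nat.prime_dvd_prime_iff_eq hvp hp).1 (hvp.dvd_of_dvd_pow hk.dvd)
      obtain ⟨k, hk⟩ := H3.exists_pow_orderOf_eq_prime P.isPGroup' (x := ⟨x, hx⟩)
        (fun h => hx1 (congrArg Subtype.val h))
      have h2 : zpowers v = zpowers (x ^ k) := eq_of_card_eq_of_le ((zpowers_le).2 hv)
        ((zpowers_le).2 (pow_mem hx k)) (by
          rw [Nat.card_zpowers, Nat.card_zpowers, hvq, ← hk, ← Subgroup.orderOf_coe]; rfl)
      obtain ⟨j, hj⟩ : v ∈ zpowers (x ^ k) := h2 ▸ mem_zpowers v
      intro g hg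
      have h3 : Commute g x := mem_centralizer_singleton_iff.1 (hR hg)
      rw [← hj]
      exact ((h3.pow_right k).zpow_right j).eq
  · intro h g hg
    by_contra hne
    apply hg
    obtain ⟨⟨x, hx1, hx2⟩, hx⟩ := ne_bot_iff_exists_ne_one.1 hne
    replace hx : x ≠ 1 := fun h => hx (Subtype.ext h)
    have h1 : ((g • P : Sylow p G) : Subgroup G) ≤ normalizer ((P : Subgroup G) : Set G) := by
      refine le_trans ?_ (centralizer_le_normalizer _)
      rw [← h x hx1 hx]
      rintro _ ⟨a, ha, rfl⟩
      obtain ⟨b, hb, rfl⟩ := hx2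
      rw [mem_centralizer_singleton_iff]
      simp only [MulAut.smul_def, MulDistribMulAction.toMonoidEnd_apply,
        MulDistribMulAction.toMonoidHom_apply, ← map_mul]
      rw [setLike_mul_comm (s := (P : Subgroup G)) ha hb]
    have h2 : ((g • P : Sylow p G) : Subgroup G) ≤ P :=
      inf_eq_left.1 (((g • P).isPGroup'.inf_normalizer_sylow P).symm.trans (inf_eq_left.2 h1))
    exact Sylow.smul_eq_iff_mem_normalizer.1 (Sylow.ext ((g • P).3 P.isPGroup' h2).symm)

end Cfsg.Agent.S3985
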