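import Cfsg.Statements.S3986
import Cfsg.Agent.H1.SZ
import Cfsg.Agent.H8.PComplement
import Cfsg.Agent.L.Fitting

set_option autoImplicit false
open Cfsg

namespace Cfsg.Agent.S3986

open Subgroup

theorem index_eq_card {G : Type*} [Group G] [Finite G] {P K : Subgroup G} [K.Normal]
    (h1 : P ⊓ K = ⊥) (h2 : P ⊔ K = ⊤) : K.index = Nat.card P := by
  have h3 := H1.card_sup_of_inf_eq_bot (A := P) (N := K) le_normalizer_of_normal h1
  rw [h2, card_top, ← K.index_mul_card] at h3
  exact Nat.eq_of_mul_eq_mul_right Nat.card_pos h3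

theorem mem_left {G : Type*} [Group G] [Finite G] {p : ℕ} [hp : Fact p.Prime] (P : Sylow p G)
    [(P : Subgroup G).Normal] {x : G} (hx : ∃ a : ℕ, orderOf x = p ^ a) :
    x ∈ (P : Subgroup G) := by
  obtain ⟨a, ha⟩ := hx
  exact H8.mem_of_coprime_index
    (ha ▸ ((Nat.Prime.coprime_iff_not_dvd hp.out).2 P.not_dvd_index).pow_left a)

theorem mem_right {G : Type*} [Group G] [Finite G] {p : ℕ} [hp : Fact p.Prime] (P : Sylow p G)
    {K : Subgroup G} [K.Normal] (h1 : (P : Subgroup G) ⊓ K = ⊥) (h2 : (P : Subgroup G) ⊔ K = ⊤)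
    {y : G} (hy : ∃ q b : ℕ, q.Prime ∧ q ≠ p ∧ orderOf y = q ^ b) : y ∈ K := by
  obtain ⟨q, b, hq, hqp, hb⟩ := hy
  obtain ⟨n, hn⟩ := IsPGroup.iff_card.1 P.isPGroup'
  refine H8.mem_of_coprime_index ?_
  rw [index_eq_card h1 h2, hb, hn]
  exact Nat.Coprime.pow _ _ ((Nat.coprime_primes hq hp.out).2 hqp)


/-- Let p be a prime and G a finite group. Then some Sylow p-subgroup of G is a direct factor of G (it is normal and has a normal complement) if and only if every element of p-power order commutes with every element whose order is a power of a prime other than p. -/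
theorem result {G : Type*} [Group G] [Finite G] (p : ℕ) [Fact p.Prime] : (∃ (P : Sylow p G) (K : Subgroup G), (P : Subgroup G).Normal ∧ K.Normal ∧ (P : Subgroup G) ⊓ K = ⊥ ∧ (P : Subgroup G) ⊔ K = ⊤) ↔ ∀ x y : G, (∃ a : ℕ, orderOf x = p ^ a) → (∃ q b : ℕ, q.Prime ∧ q ≠ p ∧ orderOf y = q ^ b) → x * y = y * x := by
  constructor
  · rintro ⟨P, K, hP, hK, h1, h2⟩ x y hx hy
    exact L.commute_of_normal_of_inf_eq_bot h1 (mem_left P hx) (mem_right P h1 h2 hy)
  · intro h
    obtain ⟨P⟩ : Nonempty (Sylow p G) := inferInstance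
    have h1 : ∀ q : ℕ, q.Prime → q ≠ p → ∀ Q : Subgroup G, IsPGroup q Q →
        Q ≤ centralizer ((P : Subgroup G) : Set G) := by
      intro q hq hqp Q hQ y hy x hx
      have := Fact.mk hq
      obtain ⟨b, hb⟩ := H8.exists_orderOf_eq_pow_of_mem hQ hy
      exact h x y (H8.exists_orderOf_eq_pow_of_mem P.isPGroup' hx) ⟨q, b, hq, hqp, hb⟩
    have hP : (P : Subgroup G).Normal := by
      rw [← normalizer_eq_top_iff]
      refine L.eq_top_of_forall_sylow_le fun q hq _ => ?_
      by_cases hqp : q = p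
      · subst hqp
        exact ⟨P, le_normalizer⟩
      · obtain ⟨Q⟩ : Nonempty (Sylow q G) := inferInstance
        exact ⟨Q, (h1 q hq.out hqp Q Q.isPGroup').trans (centralizer_le_normalizer _)⟩
    obtain ⟨K, -, h2, h3, -⟩ := H1.exists_complement_of_coprime (N := (P : Subgroup G)) (S := ⊤)
      le_top le_normalizer_of_normal (by rw [relIndex_top_right]; exact P.card_coprime_index)
    have h4 : K ≤ centralizer ((P : Subgroup G) : Set G) := by
      refine H1.le_of_forall_isPGroup_le fun q hq Q hQK hQ _ => ?_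
      by_cases hqp : q = p
      · subst hqp
        have : Q ≤ K ⊓ P := le_inf hQK fun x hx =>
          mem_left P (H8.exists_orderOf_eq_pow_of_mem hQ hx)
        rw [h3] at this
        exact this.trans bot_le
      · exact h1 q hq hqp Q hQ
    refine ⟨P, K, hP, ?_, by rwa [inf_comm], by rwa [sup_comm]⟩
    rw [← normalizer_eq_top_iff, eq_top_iff, ← h2]
    exact sup_le le_normalizer ((le_centralizer_iff.1 h4).trans (centralizer_le_normalizer _))

end Cfsg.Agent.S3986
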