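import Cfsg.Statements.S3987
import Cfsg.Agent.S3986
import Cfsg.Agent.H9.ClassSize

set_option autoImplicit false
open Cfsg

namespace Cfsg.Agent.S3987

open Subgroup


/-- Let p be a prime and G a finite group. Then some Sylow p-subgroup of G is a direct factor of G (normal with a normal complement) if and only if for every element x of p-power order and every element y whose order is a power of a prime other than p, the conjugacy class of x y has as many elements as the product of the sizes of the classes of x and of y. -/
theorem result {G : Type*} [Group G] [Finite G] (p : ℕ) [Fact p.Prime] : (∃ (P : Sylow p G) (K : Subgroup G), (P : Subgroup G).Normal ∧ K.Normal ∧ (P : Subgroup G) ⊓ K = ⊥ ∧ (P : Subgroup G) ⊔ K = ⊤) ↔ ∀ x y : G, (∃ a : ℕ, orderOf x = p ^ a) → (∃ q b : ℕ, q.Prime ∧ q ≠ p ∧ orderOf y = q ^ b) → (Subgroup.centralizer ({x * y} : Set G)).index = (Subgroup.centralizer ({x} : Set G)).index * (Subgroup.centralizer ({y} : Set G)).index := by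
  have hp : p.Prime := Fact.out
  constructor
  · rintro ⟨P, K, hP, hK, h1, h2⟩ x y hx hy
    have hxP := S3986.mem_left P hx
    have hyK := S3986.mem_right P h1 h2 hy
    obtain ⟨a, ha⟩ := hx
    obtain ⟨q, b, hq, hqp, hb⟩ := hy
    rw [H9.centralizer_mul_of_coprime (L.commute_of_normal_of_inf_eq_bot h1 hxP hyK)
      (ha ▸ hb ▸ Nat.Coprime.pow _ _ ((Nat.coprime_primes hp hq).2 hqp.symm))]
    apply H9.index_inf_of_coprime
    have h3 : K ≤ centralizer ({x} : Set G) := fun k hk =>
      mem_centralizer_singleton_iff.2 (L.commute_of_normal_of_inf_eq_bot h1 hxP hk).symm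
    have h4 : (P : Subgroup G) ≤ centralizer ({y} : Set G) := fun k hk =>
      mem_centralizer_singleton_iff.2 (L.commute_of_normal_of_inf_eq_bot h1 hk hyK)
    refine Nat.Coprime.coprime_dvd_left (index_dvd_of_le h3)
      (Nat.Coprime.coprime_dvd_right (index_dvd_of_le h4) ?_)
    rw [S3986.index_eq_card h1 h2]
    exact P.card_coprime_index
  · intro h
    refine (S3986.result p).2 fun x y hx hy => ?_
    have h1 : centralizer ({x} : Set G) ⊓ centralizer ({y} : Set G) ≤
        centralizer ({x * y} : Set G) := by
      rintro g ⟨h1, h2⟩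
      replace h1 : Commute g x := mem_centralizer_singleton_iff.1 h1
      replace h2 : Commute g y := mem_centralizer_singleton_iff.1 h2
      exact mem_centralizer_singleton_iff.2 (h1.mul_right h2)
    have h2 := index_inf_le (H := centralizer ({x} : Set G)) (K := centralizer ({y} : Set G))
    rw [← h x y hx hy, ← relIndex_mul_index h1] at h2
    have h3 : (centralizer ({x * y} : Set G)).index ≠ 0 := index_ne_zero_of_finite
    have h4 : (centralizer ({x} : Set G) ⊓ centralizer ({y} : Set G)).relIndex
      (centralizer ({x * y} : Set G)) ≠ 0 := index_ne_zero_of_finite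
    have h5 : (centralizer ({x} : Set G) ⊓ centralizer ({y} : Set G)).relIndex
        (centralizer ({x * y} : Set G)) = 1 := by
      have := Nat.le_of_mul_le_mul_right (h2.trans_eq (one_mul _).symm) (Nat.pos_of_ne_zero h3)
      omega
    have h6 := (relIndex_eq_one.1 h5 (mem_centralizer_singleton_iff.2 rfl)).2
    exact mul_right_cancel (b := y) (by
      rw [mem_centralizer_singleton_iff.1 h6, mul_assoc])

end Cfsg.Agent.S3987
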