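import Cfsg.Statements.S3989
import Cfsg.Agent.H8.Frobenius
import Cfsg.Agent.H5.ThompsonCore
import Cfsg.Agent.L.MinNormal
import Cfsg.Agent.L.PiSep

set_option autoImplicit false
open Cfsg

namespace Cfsg.Agent.S3989

universe u

/-- lift of an element of prime power order to an element of prime power order -/
theorem lift_pp {G H : Type*} [Group G] [Finite G] [Group H] (f : G →* H)
    (hf : Function.Surjective f) {q a : ℕ} (hq : q.Prime) {y : H} (hy : orderOf y = q ^ a) :
    ∃ x : G, f x = y ∧ ∃ k : ℕ, orderOf x = q ^ k := by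
  obtain ⟨g, rfl⟩ := hf y
  obtain ⟨s, t, hs, ht, e, hc, hk, hcop⟩ := H8.exists_pPart_pPrimePart hq g
  refine ⟨s, ?_, hk⟩
  have h1 : orderOf (f t) ∣ orderOf (f g) := by
    obtain ⟨n, rfl⟩ := Subgroup.mem_zpowers_iff.1 ht
    rw [map_zpow]
    exact orderOf_dvd_of_mem_zpowers (Subgroup.zpow_mem_zpowers _ _)
  have h2 : orderOf (f t) ∣ orderOf t := orderOf_map_dvd f t
  have h3 : orderOf (f t) = 1 := by
    rw [hy] at h1
    exact Nat.eq_one_of_dvd_coprimes (hcop.pow_right a) h2 h1
  rw [e, map_mul, orderOf_eq_one_iff.1 h3, mul_one]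

def Hyp (p : ℕ) (G : Type*) [Group G] : Prop :=
  ∀ x y : G, (∃ a : ℕ, orderOf x = p ^ a) → (∃ q b : ℕ, q.Prime ∧ q ≠ p ∧ orderOf y = q ^ b) →
    ∀ a b : G, IsConj (x * y) (a * x * a⁻¹ * (b * y * b⁻¹))

theorem Hyp.quot {p : ℕ} (hp : p.Prime) {G : Type*} [Group G] [Finite G] (h : Hyp p G)
    (N : Subgroup G) [N.Normal] : Hyp p (G ⧸ N) := by
  rintro x y ⟨a, ha⟩ ⟨q, b, hq, hqp, hb⟩ c d
  obtain ⟨x', rfl, hx'⟩ := lift_pp (QuotientGroup.mk' N) (QuotientGroup.mk'_surjective N) hp ha
  obtain ⟨y', rfl, k, hy'⟩ := lift_pp (QuotientGroup.mk' N) (QuotientGroup.mk'_surjective N) hq hb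
  obtain ⟨c', rfl⟩ := QuotientGroup.mk'_surjective N c
  obtain ⟨d', rfl⟩ := QuotientGroup.mk'_surjective N d
  have := (QuotientGroup.mk' N).map_isConj (h x' y' hx' ⟨q, k, hq, hqp, hy'⟩ c' d')
  simpa only [map_mul, map_inv] using this

/-- the set of `g` with `g y^G ⊆ y^G` -/
def stab {G : Type*} [Group G] [Finite G] (y : G) : Subgroup G :=
  Subgroup.closure {g | ∀ b : G, IsConj y (g * (b * y * b⁻¹))}

theorem mem_stab {G : Type*} [Group G] [Finite G] {y g : G} (hg : g ∈ stab y) :
    ∀ b : G, IsConj y (g * (b * y * b⁻¹)) := by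
  have : g ∈ (Subgroup.closure {g | ∀ b : G, IsConj y (g * (b * y * b⁻¹))}).toSubmonoid := hg
  rw [Subgroup.closure_toSubmonoid_of_finite] at this
  induction this using Submonoid.closure_induction with
  | mem x hx => exact hx
  | one => intro b; rw [one_mul]; exact isConj_iff.2 ⟨b, rfl⟩
  | mul x z hx hz ihx ihz =>
    intro b
    have hx' : x ∈ stab y := by
      have : x ∈ (Subgroup.closure {g | ∀ b : G, IsConj y (g * (b * y * b⁻¹))}).toSubmonoid := by
        rw [Subgroup.closure_toSubmonoid_of_finite]; exact hx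
      exact this
    have hz' : z ∈ stab y := by
      have : z ∈ (Subgroup.closure {g | ∀ b : G, IsConj y (g * (b * y * b⁻¹))}).toSubmonoid := by
        rw [Subgroup.closure_toSubmonoid_of_finite]; exact hz
      exact this
    obtain ⟨c, hc⟩ := isConj_iff.1 (ihz hz' b)
    rw [mul_assoc x z, ← hc]
    exact ihx hx' c

theorem stab_normal {G : Type*} [Group G] [Finite G] (y : G) : (stab y).Normal := by
  refine ⟨fun g hg a => Subgroup.subset_closure fun b => ?_⟩
  have := mem_stab hg (a⁻¹ * b)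
  refine this.trans (isConj_iff.2 ⟨a, ?_⟩)
  group

theorem main (p : ℕ) [hp : Fact p.Prime] (G : Type u) [Group G] [Finite G] :
    Hyp p G → IsPSolvable p G := by
  refine L.induction_on_card (P := fun G _ _ => Hyp p G → IsPSolvable p G) G ?_
  intro G _ _ ih h
  rcases subsingleton_or_nontrivial G with hs | hs
  · exact L.isPSolvable_of_isSolvable hp.out
  obtain ⟨N, hN⟩ := L.exists_isMinNormal (G := G)
  haveI : N.Normal := hN.1
  have hq : IsPSolvable p (G ⧸ N) := ih _ (L.card_quotient_lt N hN.2.1) (h.quot hp.out N)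
  by_cases hc : HasNormalPComplement p N
  · exact L.IsPSolvable.of_normal_of_quotient hp.out N (H5.isPSolvable_of_hasNPC hc) hq
  exfalso
  obtain ⟨P⟩ : Nonempty (Sylow p N) := inferInstance
  obtain ⟨X, hXP, -, y, hy, q, k, hq, hqp, hyo, hyc⟩ := H8.exists_primePow_not_centralizes hc P
  have : ∃ v ∈ X, v * y ≠ y * v := by
    by_contra hh
    push Not at hh
    exact hyc (Subgroup.mem_centralizer_iff.2 fun v hv => hh v hv)
  obtain ⟨v, hv, hvy⟩ := this
  have hxX : v⁻¹ * (y * v * y⁻¹) ∈ X :=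
    X.mul_mem (X.inv_mem hv) ((Subgroup.mem_normalizer_iff.1 hy v).1 hv)
  obtain ⟨a, ha⟩ := H8.exists_orderOf_eq_pow_of_mem P.isPGroup' (hXP hxX)
  set x : N := v⁻¹ * (y * v * y⁻¹) with hx
  have hx1 : (x : G) ≠ 1 := by
    intro e
    have e' : x = 1 := Subtype.ext e
    apply hvy
    have : v * x * y = v * 1 * y := by rw [e']
    rw [hx] at this
    rw [mul_one] at this
    rw [← this]; group
  have hxy : IsConj (y : G) ((x : G) * y) := by
    refine isConj_iff.2 ⟨(v : G)⁻¹, ?_⟩
    rw [hx]; push_cast; group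
  have hxs : (x : G) ∈ stab (y : G) := by
    refine Subgroup.subset_closure fun b => hxy.trans ?_
    have := h x y ⟨a, by rw [Subgroup.orderOf_coe, ha]⟩
      ⟨q, k, hq, hqp, by rw [Subgroup.orderOf_coe, hyo]⟩ 1 b
    simpa using this
  haveI := stab_normal (y : G)
  rcases hN.inf_eq_bot_or_le (stab (y : G)) with e | e
  · have : (x : G) ∈ N ⊓ stab (y : G) := ⟨x.2, hxs⟩
    rw [e] at this
    exact hx1 (Subgroup.mem_bot.1 this)
  · have := mem_stab (e (N.inv_mem y.2)) 1
    simp only [one_mul, inv_one, mul_one, inv_mul_cancel, isConj_one_left] at this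
    have e' : y = 1 := Subtype.ext this
    apply hvy
    rw [e', mul_one, one_mul]

/-- Let p be a prime and G a finite group such that for every element x of p-power order and every element y whose order is a power of a prime other than p, the conjugacy class of x y is the set of all products of a conjugate of x with a conjugate of y. Then G is p-solvable. -/
theorem result {G : Type*} [Group G] [Finite G] (p : ℕ) [Fact p.Prime] (h : ∀ x y : G, (∃ a : ℕ, orderOf x = p ^ a) → (∃ q b : ℕ, q.Prime ∧ q ≠ p ∧ orderOf y = q ^ b) → ∀ z : G, IsConj (x * y) z ↔ ∃ a b : G, z = a * x * a⁻¹ * (b * y * b⁻¹)) : Cfsg.IsPSolvable p G :=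
  main p G fun x y hx hy a b => (h x y hx hy _).2 ⟨a, b, rfl⟩

end Cfsg.Agent.S3989
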