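import Cfsg.Statements.S4009
import Cfsg.Agent.H7.Comm
import Cfsg.Agent.L.MinNormal

set_option autoImplicit false
open Cfsg

namespace Cfsg.Agent.S4009

open Subgroup
open scoped commutatorElement

variable {G : Type*} [Group G]

/-- The series `N, [N,G], [N,G,G], ...`. -/
def ch (N : Subgroup G) : ℕ → Subgroup G
  | 0 => N
  | j + 1 => ⁅ch N j, ⊤⁆

instance ch_normal (N : Subgroup G) [hN : N.Normal] : ∀ j, (ch N j).Normal
  | 0 => hN
  | j + 1 => by have := ch_normal N j; unfold ch; infer_instance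

abbrev lc (G : Type*) [Group G] (i : ℕ) : Subgroup G := (⊤ : Subgroup G).lowerCentralSeries i

theorem lc_anti {i j : ℕ} (h : i ≤ j) : lc G j ≤ lc G i := by
  induction h with
  | refl => exact le_rfl
  | step _ ih => exact (commutator_le_left _ _).trans ih

theorem ch_le_lc {N : Subgroup G} {i : ℕ} (h : N ≤ lc G i) (j : ℕ) : ch N j ≤ lc G (i + j) := by
  induction j with
  | zero => exact h
  | succ j ih => exact commutator_mono ih le_rfl

theorem comm_ch_le {N : Subgroup G} [N.Normal] {i : ℕ} (h : N ≤ lc G i) (j : ℕ) :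
    ⁅ch N j, N⁆ ≤ ch N (j + i + 1) :=
  (commutator_mono le_rfl h).trans (H7.commutator_lowerCentralSeries_le_of_chain (ch N)
    (fun _ => inferInstance) ⊤ (fun _ => le_rfl) j i)

theorem mul_card_le_of_lt [Finite G] {p : ℕ} [hp : Fact p.Prime] (hG : IsPGroup p G)
    {H K : Subgroup G} (h : H < K) : p * Nat.card H ≤ Nat.card K := by
  obtain ⟨a, ha⟩ := (hG.to_subgroup H).exists_card_eq
  obtain ⟨b, hb⟩ := (hG.to_subgroup K).exists_card_eq
  have := L.card_lt_of_lt h
  rw [ha, hb] at this ⊢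
  rw [← pow_succ']
  exact Nat.pow_le_pow_right hp.out.pos ((Nat.pow_lt_pow_iff_right hp.out.one_lt).1 this)

theorem card_ch_le [Finite G] {p : ℕ} [hp : Fact p.Prime] (hG : IsPGroup p G) (N : Subgroup G)
    [N.Normal] (i j : ℕ) (h : ch N (i + j) ≠ ⊥) :
    p ^ j * Nat.card (ch N (i + j)) ≤ Nat.card (ch N i) := by
  induction j with
  | zero => simp
  | succ j ih =>
    have h1 : ch N (i + j) ≠ ⊥ := fun e => h (by
      change ⁅ch N (i + j), ⊤⁆ = ⊥
      rw [e, commutator_bot_left])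
    have := hG.isNilpotent
    have h2 : ch N (i + (j + 1)) < ch N (i + j) :=
      L.commutator_lt_of_isNilpotent (K := ⊤) le_top (by rw [normalizer_eq_top]) h1
    calc p ^ (j + 1) * Nat.card (ch N (i + (j + 1)))
        = p ^ j * (p * Nat.card (ch N (i + (j + 1)))) := by ring
      _ ≤ p ^ j * Nat.card (ch N (i + j)) := Nat.mul_le_mul_left _ (mul_card_le_of_lt hG h2)
      _ ≤ _ := ih h1

theorem comm_le_of_gen {N M : Subgroup G} [N.Normal] [M.Normal] {S : Set G} (hS : S ⊆ N)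
    (h : N ≤ closure S ⊔ ch N 1) (h1 : ⁅ch N 1, N⁆ ≤ M) (h2 : ∀ s ∈ S, ∀ t ∈ S, ⁅s, t⁆ ∈ M) :
    ⁅N, N⁆ ≤ M := by
  refine (commutator_mono h le_rfl).trans (H7.commutator_sup_left_le _ _ _ _ ?_ h1)
  refine (commutator_mono le_rfl h).trans (H7.commutator_sup_right_le _ _ _ _
    (H7.commutator_closure_closure_le _ _ _ h2) ?_)
  rw [commutator_comm]
  exact (commutator_mono le_rfl ((closure_le _).2 hS)).trans h1

theorem comm_le_of_cyc {N : Subgroup G} [N.Normal] {i : ℕ} (h : N ≤ lc G i) {x : G} (hx : x ∈ N)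
    (hc : N ≤ closure {x} ⊔ ch N 1) : ⁅N, N⁆ ≤ ch N (i + 2) := by
  refine comm_le_of_gen (by simpa using hx) hc ((comm_ch_le h 1).trans_eq (by congr 1; ring)) ?_
  rintro _ rfl _ rfl
  simp

theorem normal_of_between {K M : Subgroup G} (h1 : ⁅K, ⊤⁆ ≤ M) (h2 : M ≤ K) : M.Normal := by
  constructor
  intro m hm g
  have : g * m * g⁻¹ = ⁅m, g⁆⁻¹ * m := by simp only [commutatorElement_def]; group
  rw [this]
  exact M.mul_mem (M.inv_mem (h1 (commutator_mem_commutator (h2 hm) (mem_top g)))) hm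

theorem main [Finite G] {p : ℕ} [hp : Fact p.Prime] (hG : IsPGroup p G) (N : Subgroup G)
    [N.Normal] {i : ℕ} (h : N ≤ lc G i) (h1 : ⁅N, N⁆ ≠ ⊥) :
    p ^ (i + 3) * Nat.card (⁅N, N⁆ : Subgroup G) ≤ Nat.card N ∨
      (p ^ (i + 2) * Nat.card (⁅N, N⁆ : Subgroup G) ≤ Nat.card N ∧
        ⁅⁅N, N⁆, ⁅N, N⁆⁆ ≤ lc G (4 * i + 4)) := by
  by_cases hc : ∃ x ∈ N, N ≤ closure {x} ⊔ ch N 1
  · obtain ⟨x, hx, hc⟩ := hc
    have h2 := comm_le_of_cyc h hx hc
    have h3 := card_ch_le hG N 0 (i + 2) (by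
      rw [zero_add]; exact fun e => h1 (le_bot_iff.1 (e ▸ h2)))
    rw [zero_add] at h3
    refine Or.inr ⟨(Nat.mul_le_mul_left _ (card_le_of_le h2)).trans h3, ?_⟩
    have h4 := h2.trans (ch_le_lc h _)
    exact ((commutator_mono h4 h4).trans (H7.commutator_top_lcs_le _ _)).trans
      (lc_anti (by omega))
  · push Not at hc
    have hle : ch N 1 ≤ N := commutator_le_left _ _
    obtain ⟨a, haN, ha⟩ := SetLike.not_le_iff_exists.1 (hc 1 N.one_mem)
    obtain ⟨b, hbN, hb⟩ := SetLike.not_le_iff_exists.1 (hc a haN)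
    have l1 : ch N 1 < closure {a} ⊔ ch N 1 := by
      refine lt_of_le_of_ne le_sup_right fun e => ha ?_
      exact (le_sup_right : ch N 1 ≤ _) (e ▸ (le_sup_left : closure {a} ≤ _) (subset_closure rfl))
    have l2 : closure {a} ⊔ ch N 1 < closure {a, b} ⊔ ch N 1 := by
      refine lt_of_le_of_ne (sup_le_sup_right (Subgroup.closure_mono (by simp)) _) fun e => hb ?_
      exact e ▸ (le_sup_left : closure {a, b} ≤ _) (subset_closure (by simp))
    have hS : ({a, b} : Set G) ⊆ N := by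
      rintro _ (rfl | rfl)
      exacts [haN, hbN]
    have l3 : closure {a, b} ⊔ ch N 1 ≤ N := sup_le ((closure_le _).2 hS) hle
    have h2 : ⁅N, N⁆ ≤ ch N (1 + i) := (comm_ch_le h 0).trans_eq (by congr 1; ring)
    have h3 := card_ch_le hG N 1 i (fun e => h1 (le_bot_iff.1 (e ▸ h2)))
    have c1 := mul_card_le_of_lt hG l1
    have c2 := mul_card_le_of_lt hG l2
    have c3 : p ^ (i + 2) * Nat.card (ch N (1 + i)) ≤
        Nat.card (closure {a, b} ⊔ ch N 1 : Subgroup G) := by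
      calc p ^ (i + 2) * Nat.card (ch N (1 + i)) = p * (p * (p ^ i * Nat.card (ch N (1 + i)))) := by
            ring
        _ ≤ p * (p * Nat.card (ch N 1)) := by gcongr
        _ ≤ p * Nat.card (closure {a} ⊔ ch N 1 : Subgroup G) := by gcongr
        _ ≤ _ := c2
    have c4 := card_le_of_le l3
    have c5 := card_le_of_le h2
    rcases l3.lt_or_eq with l4 | l4
    · left
      calc p ^ (i + 3) * Nat.card (⁅N, N⁆ : Subgroup G)
          ≤ p ^ (i + 3) * Nat.card (ch N (1 + i)) := by gcongr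
        _ = p * (p ^ (i + 2) * Nat.card (ch N (1 + i))) := by ring
        _ ≤ p * Nat.card (closure {a, b} ⊔ ch N 1 : Subgroup G) := by gcongr
        _ ≤ _ := mul_card_le_of_lt hG l4
    rcases h2.lt_or_eq with l5 | l5
    · left
      calc p ^ (i + 3) * Nat.card (⁅N, N⁆ : Subgroup G)
          = p ^ (i + 2) * (p * Nat.card (⁅N, N⁆ : Subgroup G)) := by ring
        _ ≤ p ^ (i + 2) * Nat.card (ch N (1 + i)) := Nat.mul_le_mul_left _ (mul_card_le_of_lt hG l5)
        _ ≤ _ := c3.trans c4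
    right
    refine ⟨((Nat.mul_le_mul_left _ c5).trans c3).trans c4, ?_⟩
    have hab : ⁅a, b⁆ ∈ ⁅N, N⁆ := commutator_mem_commutator haN hbN
    have hn : (closure {⁅a, b⁆} ⊔ ch ⁅N, N⁆ 1).Normal :=
      normal_of_between (K := ⁅N, N⁆) le_sup_right
        (sup_le ((closure_le _).2 (by simpa using hab)) (commutator_le_left _ _))
    have hm : ⁅a, b⁆ ∈ closure {⁅a, b⁆} ⊔ ch ⁅N, N⁆ 1 :=
      (le_sup_left : closure {⁅a, b⁆} ≤ _) (subset_closure rfl)
    have h6 : ⁅N, N⁆ ≤ closure {⁅a, b⁆} ⊔ ch ⁅N, N⁆ 1 := by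
      refine comm_le_of_gen hS l4.ge (((comm_ch_le h 1).trans_eq ?_).trans le_sup_right) ?_
      · change ⁅ch N (1 + i), ⊤⁆ = ⁅⁅N, N⁆, ⊤⁆
        rw [l5]
      · rintro _ (rfl | rfl) _ (rfl | rfl)
        · simp
        · exact hm
        · have := Subgroup.inv_mem _ hm
          rwa [commutatorElement_inv] at this
        · simp
    have h7 : ⁅N, N⁆ ≤ lc G (i + (1 + i)) := h2.trans (ch_le_lc h _)
    exact ((comm_le_of_cyc h7 hab h6).trans (ch_le_lc h7 _)).trans (lc_anti (by omega))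

theorem hall [Finite G] {p : ℕ} [hp : Fact p.Prime] (hG : IsPGroup p G) (N : Subgroup G)
    [N.Normal] {i : ℕ} (h : N ≤ lc G i) (h1 : ⁅N, N⁆ ≠ ⊥) :
    p ^ (i + 2) * Nat.card (⁅N, N⁆ : Subgroup G) ≤ Nat.card N := by
  rcases main hG N h h1 with h2 | h2
  · exact (Nat.mul_le_mul_right _ (Nat.pow_le_pow_right hp.out.pos (by omega))).trans h2
  · exact h2.1

theorem derived_le (j : ℕ) : derivedSeries G j ≤ lc G (2 ^ j - 1) := by
  induction j with
  | zero => exact le_rfl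
  | succ j ih =>
    refine ((commutator_mono ih ih).trans (H7.commutator_top_lcs_le _ _)).trans (lc_anti ?_)
    have := Nat.one_le_two_pow (n := j)
    omega

theorem states [Finite G] {p : ℕ} [hp : Fact p.Prime] (hG : IsPGroup p G) (j : ℕ)
    (h : derivedSeries G j ≠ ⊥) :
    p ^ (2 ^ j + 2 * j) * Nat.card (derivedSeries G j) ≤ p * Nat.card G ∨
    (p ^ (2 ^ j + 2 * j) * Nat.card (derivedSeries G j) ≤ p ^ 2 * Nat.card G ∧
      derivedSeries G (j + 1) ≤ lc G (2 ^ (j + 1))) ∨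
    (p ^ (2 ^ j + 2 * j) * Nat.card (derivedSeries G j) ≤ p ^ 3 * Nat.card G ∧
      derivedSeries G j ≤ lc G (2 ^ j)) := by
  induction j with
  | zero => left; simp
  | succ j ih =>
    have h0 : derivedSeries G j ≠ ⊥ := fun e => h (by rw [derivedSeries_succ, e, commutator_bot_left])
    have h2 := Nat.one_le_two_pow (n := j)
    have e2 : 2 ^ j - 1 + 2 = 2 ^ j + 1 := by omega
    have e3 : 2 ^ j - 1 + 3 = 2 ^ j + 2 := by omega
    have step : ∀ c : ℕ, p ^ (2 ^ j + 2 * j) * Nat.card (derivedSeries G j) ≤ c →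
        p ^ (2 ^ j + 2) * Nat.card (derivedSeries G (j + 1)) ≤ Nat.card (derivedSeries G j) →
        p ^ (2 ^ (j + 1) + 2 * (j + 1)) * Nat.card (derivedSeries G (j + 1)) ≤ c := by
      intro c h3 h4
      calc _ = p ^ (2 ^ j + 2 * j) * (p ^ (2 ^ j + 2) * Nat.card (derivedSeries G (j + 1))) := by
            ring
        _ ≤ _ := (Nat.mul_le_mul_left _ h4).trans h3
    have step' : ∀ c : ℕ, p ^ (2 ^ j + 2 * j) * Nat.card (derivedSeries G j) ≤ c →
        p ^ (2 ^ j + 1) * Nat.card (derivedSeries G (j + 1)) ≤ Nat.card (derivedSeries G j) →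
        p ^ (2 ^ (j + 1) + 2 * (j + 1)) * Nat.card (derivedSeries G (j + 1)) ≤ p * c := by
      intro c h3 h4
      calc _ = p * (p ^ (2 ^ j + 2 * j) *
            (p ^ (2 ^ j + 1) * Nat.card (derivedSeries G (j + 1)))) := by ring
        _ ≤ _ := Nat.mul_le_mul_left _ ((Nat.mul_le_mul_left _ h4).trans h3)
    rcases ih h0 with h3 | ⟨h3, h4⟩ | ⟨h3, h4⟩
    · rcases main hG _ (derived_le j) h with h5 | ⟨h5, h6⟩
      · exact Or.inl (step _ h3 (e3 ▸ h5))
      · refine Or.inr (Or.inl ⟨(step' _ h3 (e2 ▸ h5)).trans_eq (by ring), h6.trans (lc_anti ?_)⟩)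
        omega
    · exact Or.inr (Or.inr ⟨(step' _ h3 (e2 ▸ hall hG _ (derived_le j) h)).trans_eq (by ring), h4⟩)
    · refine Or.inr (Or.inr ⟨step _ h3 (hall hG _ h4 h), ?_⟩)
      exact ((commutator_mono h4 h4).trans (H7.commutator_top_lcs_le _ _)).trans
        (lc_anti (by omega))


/-- Let P be a finite p-group of order p^n whose derived length is exactly k + 1 (the k-th derived subgroup is nontrivial and the (k+1)-st is trivial). Then n ≥ 2^k + 2k − 2. -/
theorem result {P : Type*} [Group P] [Finite P] (p : ℕ) [Fact p.Prime] (n k : ℕ) (hcard : Nat.card P = p ^ n) (hk : derivedSeries P k ≠ ⊥) (hk' : derivedSeries P (k + 1) = ⊥) : 2 ^ k + 2 * k ≤ n + 2 := by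
  have hp : p.Prime := Fact.out
  have hG : IsPGroup p P := IsPGroup.of_card hcard
  have h1 : p ^ (2 ^ k + 2 * k) * Nat.card (derivedSeries P k) ≤ p ^ 3 * Nat.card P := by
    rcases states hG k hk with h | ⟨h, -⟩ | ⟨h, -⟩
    · exact h.trans (Nat.mul_le_mul_right _ (Nat.le_self_pow (by norm_num) p))
    · exact h.trans (Nat.mul_le_mul_right _ (Nat.pow_le_pow_right hp.pos (by norm_num)))
    · exact h
  have h2 := mul_card_le_of_lt hG (bot_lt_iff_ne_bot.2 hk)
  rw [Subgroup.card_bot, mul_one] at h2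
  have h3 : p ^ (2 ^ k + 2 * k + 1) ≤ p ^ (3 + n) := by
    rw [pow_succ, pow_add p 3, ← hcard]
    exact (Nat.mul_le_mul_left _ h2).trans h1
  have := (Nat.pow_le_pow_iff_right hp.one_lt).1 h3
  omega

end Cfsg.Agent.S4009
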