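import Cfsg.Statements.S4010
import Cfsg.Agent.H1.RepRed
import Cfsg.Agent.L.MinNormal

set_option autoImplicit false
open Cfsg

namespace Cfsg.Agent.S4010

open Subgroup Module Cfsg.Agent.H1
open scoped commutatorElement

universe u v w

theorem derived_succ_le {Q : Type*} [Group Q] {H : Subgroup Q} (h : _root_.commutator Q ≤ H)
    (d : ℕ) : derivedSeries Q (d + 1) ≤ (derivedSeries H d).map H.subtype := by
  induction d with
  | zero =>
    rw [derivedSeries_zero, ← MonoidHom.range_eq_map, range_subtype]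
    exact h
  | succ d ih =>
    rw [derivedSeries_succ, derivedSeries_succ H, map_commutator]
    exact commutator_mono ih ih

theorem derived_anti {Q : Type*} [Group Q] {i j : ℕ} (h : i ≤ j) :
    derivedSeries Q j ≤ derivedSeries Q i := by
  induction h with
  | refl => exact le_rfl
  | step _ ih => exact (commutator_le_left _ _).trans ih

theorem irr_case {k : Type u} [Field k] [IsAlgClosed k] {q : ℕ} (hq : q.Prime)
    (n : ℕ) : ∀ {Q : Type v} [Group Q] [Finite Q], IsPGroup q Q → Nat.card Q = n →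
      ∀ {V : Type w} [AddCommGroup V] [Module k V] [FiniteDimensional k V] [Nontrivial V]
        (σ : Q →* End k V), IrrBy (Set.range σ) →
        ∀ g ∈ derivedSeries Q (Nat.log 2 (finrank k V) + 1), σ g = 1 := by
  classical
  have := Fact.mk hq
  induction n using Nat.strong_induction_on with
  | h n ih =>
  intro Q _ _ hQ hn V _ _ _ _ σ hirr
  by_cases htop : scalarSub σ = ⊤
  · intro g hg
    have h1 : derivedSeries Q 1 ≤ σ.ker := by
      rw [derivedSeries_succ, commutator_le]
      intro a _ b _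
      obtain ⟨c, hc⟩ : a ∈ scalarSub σ := htop ▸ mem_top a
      rw [MonoidHom.mem_ker, commutatorElement_def, map_mul, map_mul, map_mul]
      have : σ a * σ b = σ b * σ a := by rw [hc]; simp
      rw [this, mul_assoc (σ b), rep_mul_inv, mul_one, rep_mul_inv]
    exact h1 (derived_anti (by omega) hg)
  have hnt : Nontrivial (Q ⧸ scalarSub σ) := QuotientGroup.nontrivial_iff.mpr htop
  have hc := (hQ.to_quotient (scalarSub σ)).center_nontrivial
  obtain ⟨⟨x, hxc⟩, hx1⟩ := exists_ne (1 : center (Q ⧸ scalarSub σ))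
  obtain ⟨x, rfl⟩ := QuotientGroup.mk_surjective x
  have hxZ : x ∉ scalarSub σ := fun h => hx1 (Subtype.ext ((QuotientGroup.eq_one_iff x).mpr h))
  have hμ : ∀ y, ∃ c : k, σ (y * x * y⁻¹) = c • σ x := by
    intro y
    refine exists_eq_smul_of_inv_mul_mem (QuotientGroup.eq.mp ?_)
    rw [QuotientGroup.mk_mul, QuotientGroup.mk_mul, mem_center_iff.mp hxc]
    simp
  choose μ hμ using hμ
  have hμ' : ∀ y, σ y * σ x = μ y • (σ x * σ y) := by
    intro y
    rw [← smul_mul_assoc, ← hμ, ← map_mul, ← map_mul, inv_mul_cancel_right]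
  let H : Subgroup Q :=
    { carrier := {y | σ y * σ x = σ x * σ y}
      one_mem' := by simp
      mul_mem' := by
        intro a b (ha : σ a * σ x = σ x * σ a) (hb : σ b * σ x = σ x * σ b)
        change σ (a * b) * σ x = σ x * σ (a * b)
        rw [map_mul, mul_assoc, hb, ← mul_assoc, ha, mul_assoc]
      inv_mem' := by
        intro a (ha : σ a * σ x = σ x * σ a)
        change σ a⁻¹ * σ x = σ x * σ a⁻¹
        rw [← mul_one (σ a⁻¹ * σ x), ← rep_mul_inv σ a, ← mul_assoc, mul_assoc _ (σ x), ← ha,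
          ← mul_assoc, rep_inv_mul, one_mul] }
  have hH : H ≠ ⊤ := fun h => hxZ (mem_scalarSub_of_commute hirr fun y =>
    (show y ∈ H from h ▸ mem_top y).symm)
  have hcomm : _root_.commutator Q ≤ H := by
    rw [_root_.commutator, commutator_le]
    intro a _ b _
    change σ _ * σ x = σ x * σ _
    have e1 : σ ((a * b) * x * (a * b)⁻¹) = σ ((b * a) * x * (b * a)⁻¹) := by
      have k1 : ∀ a b : Q, σ ((a * b) * x * (a * b)⁻¹) = μ b • μ a • σ x := by
        intro a b
        calc σ ((a * b) * x * (a * b)⁻¹) = σ a * σ (b * x * b⁻¹) * σ a⁻¹ := by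
              rw [← map_mul, ← map_mul]; congr 1; group
          _ = _ := by rw [hμ, mul_smul_comm, smul_mul_assoc, ← map_mul, ← map_mul, hμ]
      rw [k1, k1, smul_comm]
    have k2 : ∀ c : Q, σ (c * x * c⁻¹) = σ x → σ c * σ x = σ x * σ c := by
      intro c hc
      conv_rhs => rw [← hc]
      rw [← map_mul, ← map_mul, inv_mul_cancel_right]
    apply k2
    have k3 : ∀ y : Q, σ ((a * b) * (y * x * y⁻¹) * (a * b)⁻¹) =
        σ ((b * a) * (y * x * y⁻¹) * (b * a)⁻¹) := by
      intro y
      have k4 : ∀ c : Q, σ (c * (y * x * y⁻¹) * c⁻¹) = μ y • σ (c * x * c⁻¹) := by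
        intro c
        rw [map_mul, map_mul, hμ, mul_smul_comm, smul_mul_assoc, ← map_mul, ← map_mul]
      rw [k4, k4, e1]
    calc σ (⁅a, b⁆ * x * ⁅a, b⁆⁻¹)
        = σ ((a * b) * ((b * a)⁻¹ * x * (b * a)⁻¹⁻¹) * (a * b)⁻¹) := by
          congr 1; simp only [commutatorElement_def]; group
      _ = σ x := by rw [k3]; congr 1; group
  obtain ⟨c, hc⟩ := End.exists_eigenvalue (σ x)
  have hinj : ∀ y : Q, Function.Injective (σ y) := fun y v w e => by
    rw [← End.one_apply (R := k) v, ← End.one_apply (R := k) w, ← rep_inv_mul σ y, End.mul_apply,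
      End.mul_apply, e]
  have hc0 : c ≠ 0 := by
    rintro rfl
    obtain ⟨v, hv⟩ := hc.exists_hasEigenvector
    refine hv.2 (hinj x ?_)
    rw [hv.apply_eq_smul]; simp
  obtain ⟨U, hU, hU0, hUH, hmin⟩ := exists_minimal_invBy (S := Set.range (σ.comp H.subtype))
    (W := (σ x).eigenspace c) (by
      rintro _ ⟨y, rfl⟩ v hv
      rw [End.mem_eigenspace_iff] at hv ⊢
      have : σ y * σ x = σ x * σ y := y.2
      change σ x (σ y v) = c • σ y v
      rw [← End.mul_apply, ← this, End.mul_apply, hv, map_smul]) hc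
  have hUH' : ∀ y, ∀ u ∈ U, (σ.comp H.subtype) y u ∈ U := fun y => hUH _ ⟨y, rfl⟩
  have : Nontrivial U := Submodule.nontrivial_iff_ne_bot.mpr hU0
  have he := ih _ (hn ▸ L.card_lt_of_ne_top hH)
    (hQ.to_subgroup H) rfl (restrictRep _ U hUH') (by
      have := irrBy_restrict (Y := 1) hUH' (fun _ h => h)
        (fun U' a b _ => hmin U' a (by rintro _ ⟨y, rfl⟩; exact b y))
      refine this.mono ?_
      rintro T (hT | hT)
      · rw [hT, show (1 : End k V).restrict (fun _ h => h : ∀ u ∈ U, (1 : End k V) u ∈ U) = 1 by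
          ext; rfl]
        exact one_mem _
      · exact Algebra.subset_adjoin hT)
  have hdim : finrank k U * 2 ≤ finrank k V := by
    obtain ⟨y, hy⟩ : ∃ y, y ∉ H := by
      by_contra hcon
      push Not at hcon
      exact hH (eq_top_iff.2 fun y _ => hcon y)
    have hd : Disjoint U (U.map (σ y)) := by
      rw [Submodule.disjoint_def]
      rintro _ hv ⟨u, hu, rfl⟩
      have h1 := End.mem_eigenspace_iff.mp (hU hv)
      have h2 := End.mem_eigenspace_iff.mp (hU hu)
      have h3 := congrArg (fun T : End k V => T u) (hμ' y)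
      simp only [End.mul_apply, LinearMap.smul_apply, h1, h2, map_smul, smul_smul] at h3
      by_contra hne
      have h4 : c = μ y * c := smul_left_injective k hne h3
      have h5 : μ y = 1 := (mul_right_cancel₀ hc0 (by rw [one_mul]; exact h4)).symm
      apply hy
      change σ y * σ x = σ x * σ y
      rw [hμ', h5, one_smul]
    have h1 := Submodule.finrank_add_finrank_le_of_disjoint hd
    rw [← (Submodule.equivMapOfInjective _ (hinj y) U).finrank_eq] at h1
    omega
  have hlog : Nat.log 2 (finrank k U) + 1 ≤ Nat.log 2 (finrank k V) := by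
    rw [← Nat.log_mul_base one_lt_two finrank_pos.ne']
    exact Nat.log_mono_right hdim
  let W : Submodule k V :=
    { carrier := {v | ∀ g ∈ derivedSeries Q (Nat.log 2 (finrank k V) + 1), σ g v = v}
      zero_mem' := fun g _ => map_zero _
      add_mem' := fun {a b} ha hb g hg => by rw [map_add, ha g hg, hb g hg]
      smul_mem' := fun c a ha g hg => by rw [map_smul, ha g hg] }
  have hW : InvBy (Set.range σ) W := by
    rintro _ ⟨y, rfl⟩ v hv g hg
    have := hv _ ((derivedSeries_normal Q _).conj_mem' g hg y)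
    conv_rhs => rw [← this]
    rw [← End.mul_apply, ← End.mul_apply, ← map_mul, ← map_mul]
    congr 2; group
  have hUW : U ≤ W := by
    intro u hu g hg
    obtain ⟨h, hh, rfl⟩ := derived_succ_le hcomm _ hg
    have := congrArg (fun T : End k U => (T ⟨u, hu⟩ : V)) (he h (derived_anti hlog hh))
    exact this
  have hWt : W = ⊤ := (hirr W hW).resolve_left fun e => hU0 (le_bot_iff.1 (e ▸ hUW))
  intro g hg
  ext v
  exact (hWt ▸ Submodule.mem_top : v ∈ W) g hg

theorem coprime_case {k : Type u} [Field k] [IsAlgClosed k] {q : ℕ} (hq : q.Prime)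
    (hqk : (q : k) ≠ 0) {Q : Type v} [Group Q] [Finite Q] (hQ : IsPGroup q Q)
    {V : Type w} [AddCommGroup V] [Module k V] [FiniteDimensional k V] (σ : Q →* End k V) :
    ∀ g ∈ derivedSeries Q (Nat.log 2 (finrank k V) + 1), σ g = 1 := by
  by_contra hcon
  push Not at hcon
  have := Fact.mk hq
  have := derivedSeries_normal Q (Nat.log 2 (finrank k V) + 1)
  obtain ⟨W, hW0, hW, hfix, -⟩ := exists_nofix_subspace σ
    (derivedSeries Q (Nat.log 2 (finrank k V) + 1)) (by
      obtain ⟨e, he⟩ := (hQ.to_subgroup (derivedSeries Q (Nat.log 2 (finrank k V) + 1))).exists_card_eq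
      rw [he, Nat.cast_pow]; exact pow_ne_zero _ hqk) hcon
  obtain ⟨U, hU, hU0, hUH, hmin⟩ := exists_minimal_invBy (S := Set.range σ) (W := W)
    (by rintro _ ⟨y, rfl⟩; exact hW y) hW0
  have hUH' : ∀ y, ∀ u ∈ U, σ y u ∈ U := fun y => hUH _ ⟨y, rfl⟩
  have : Nontrivial U := Submodule.nontrivial_iff_ne_bot.mpr hU0
  have he := irr_case hq _ hQ rfl (restrictRep _ U hUH') (by
      have := irrBy_restrict (Y := 1) hUH' (fun _ h => h)
        (fun U' a b _ => hmin U' a (by rintro _ ⟨y, rfl⟩; exact b y))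
      refine this.mono ?_
      rintro T (hT | hT)
      · rw [hT, show (1 : End k V).restrict (fun _ h => h : ∀ u ∈ U, (1 : End k V) u ∈ U) = 1 by
          ext; rfl]
        exact one_mem _
      · exact Algebra.subset_adjoin hT)
  obtain ⟨u, hu⟩ := exists_ne (0 : U)
  refine hu (Subtype.ext (hfix u (hU u.2) fun g hg => ?_))
  exact congrArg (fun T : End k U => (T u : V)) (he g (derived_anti
    (Nat.succ_le_succ (Nat.log_mono_right U.finrank_le)) hg))

section modular

variable {k : Type u} [Field k] {Q : Type v} [Group Q] {V : Type w} [AddCommGroup V] [Module k V]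

/-- The stabilizer of a vector modulo an invariant subspace. -/
def stabMod (σ : Q →* End k V) (U : Submodule k V) (hU : ∀ g, ∀ u ∈ U, σ g u ∈ U) (v : V) :
    Subgroup Q where
  carrier := {g | σ g v - v ∈ U}
  one_mem' := by simp
  mul_mem' := by
    intro a b (ha : σ a v - v ∈ U) (hb : σ b v - v ∈ U)
    change σ (a * b) v - v ∈ U
    have : σ (a * b) v - v = σ a (σ b v - v) + (σ a v - v) := by simp
    rw [this]
    exact U.add_mem (hU _ _ hb) ha
  inv_mem' := by
    intro a (ha : σ a v - v ∈ U)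
    change σ a⁻¹ v - v ∈ U
    have : σ a⁻¹ v - v = -σ a⁻¹ (σ a v - v) := by
      rw [map_sub, ← End.mul_apply, rep_inv_mul]; simp
    rw [this]
    exact U.neg_mem (hU _ _ ha)

theorem exists_fix_mod [Finite Q] {p : ℕ} (hp : p.Prime) (hk : (p : k) = 0) (hQ : IsPGroup p Q)
    (σ : Q →* End k V) (U : Submodule k V) (hU : ∀ g, ∀ u ∈ U, σ g u ∈ U) (h : U ≠ ⊤) :
    ∃ v, v ∉ U ∧ ∀ g, σ g v - v ∈ U := by
  classical
  have := Fact.mk hp
  have hne : ∃ v, v ∉ U := by
    by_contra hcon
    push Not at hcon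
    exact h (eq_top_iff.2 fun v _ => hcon v)
  obtain ⟨M, ⟨v, hv, rfl⟩, hmax⟩ := (Set.toFinite
    {M : Subgroup Q | ∃ v, v ∉ U ∧ M = stabMod σ U hU v}).exists_maximal
    (by obtain ⟨v, hv⟩ := hne; exact ⟨_, v, hv, rfl⟩)
  refine ⟨v, hv, ?_⟩
  by_contra hcon
  have hM : stabMod σ U hU v < ⊤ := by
    rw [lt_top_iff_ne_top]
    intro e
    exact hcon fun g => (e ▸ mem_top g : g ∈ stabMod σ U hU v)
  have := hQ.isNilpotent
  obtain ⟨y, hy, hyM⟩ := SetLike.exists_of_lt (Group.normalizerCondition_of_isNilpotent _ hM)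
  have hF : ∀ j : ℕ, stabMod σ U hU v ≤ stabMod σ U hU (((σ y - 1) ^ j) v) := by
    intro j
    induction j with
    | zero => simp
    | succ j ih =>
      intro g hg
      have h1 : y⁻¹ * g * y ∈ stabMod σ U hU v := (mem_normalizer_iff''.1 hy g).1 hg
      have h2 : σ (y⁻¹ * g * y) _ - _ ∈ U := ih h1
      have h3 : σ g _ - _ ∈ U := ih hg
      change σ g _ - _ ∈ U
      rw [pow_succ', End.mul_apply]
      generalize ((σ y - 1) ^ j) v = w at h2 h3
      have : σ g ((σ y - 1) w) - (σ y - 1) w = σ y (σ (y⁻¹ * g * y) w - w) - (σ g w - w) := by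
        have e : σ y (σ (y⁻¹ * g * y) w) = σ g (σ y w) := by
          rw [← End.mul_apply, ← End.mul_apply, ← map_mul, ← map_mul]; congr 2; group
        simp only [LinearMap.sub_apply, End.one_apply, map_sub, e]
        abel
      rw [this]
      exact U.sub_mem (hU _ _ h2) h3
  have hex : ∃ j : ℕ, ((σ y - 1) ^ j) v ∈ U := by
    obtain ⟨e, he⟩ := hQ y
    refine ⟨p ^ e, ?_⟩
    have hR : (p : End k V) = 0 := by
      rw [← map_natCast (algebraMap k (End k V)), hk, map_zero]
    rw [sub_one_pow_pow hp hR, ← map_pow, he, map_one]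
    simp
  have hj := Nat.find_spec hex
  have hj0 : Nat.find hex ≠ 0 := fun e => hv (by simpa [e] using hj)
  obtain ⟨j, hj'⟩ := Nat.exists_eq_succ_of_ne_zero hj0
  have hw : ((σ y - 1) ^ j) v ∉ U := Nat.find_min hex (by omega)
  rw [hj', pow_succ', End.mul_apply] at hj
  exact hyM (hmax ⟨_, hw, rfl⟩ (hF j) hj)

/-- The upper chain of fixed subspaces. -/
def up (σ : Q →* End k V) : ℕ → Submodule k V
  | 0 => ⊥
  | i + 1 => ⨅ g : Q, (up σ i).comap (σ g - 1)

theorem mem_up_succ {σ : Q →* End k V} {i : ℕ} {v : V} :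
    v ∈ up σ (i + 1) ↔ ∀ g, σ g v - v ∈ up σ i := by
  simp [up]

theorem up_inv (σ : Q →* End k V) (i : ℕ) : ∀ g, ∀ u ∈ up σ i, σ g u ∈ up σ i := by
  induction i with
  | zero => intro g u hu; rw [up, Submodule.mem_bot] at hu ⊢; rw [hu, map_zero]
  | succ i ih =>
    intro y u hu
    rw [mem_up_succ] at hu ⊢
    intro g
    have : σ g (σ y u) - σ y u = σ y (σ (y⁻¹ * g * y) u - u) := by
      rw [map_sub, ← End.mul_apply, ← End.mul_apply, ← map_mul, ← map_mul]; congr 3; group
    rw [this]
    exact ih _ _ (hu _)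

theorem up_mono (σ : Q →* End k V) : Monotone (up σ) :=
  monotone_nat_of_le_succ fun i u hu => mem_up_succ.2 fun g =>
    (up σ i).sub_mem (up_inv σ i g u hu) hu

theorem up_finrank [FiniteDimensional k V] [Finite Q] {p : ℕ} (hp : p.Prime) (hk : (p : k) = 0)
    (hQ : IsPGroup p Q) (σ : Q →* End k V) (i : ℕ) : up σ i = ⊤ ∨ i ≤ finrank k (up σ i) := by
  induction i with
  | zero => simp
  | succ i ih =>
    by_cases h : up σ i = ⊤
    · exact Or.inl (eq_top_iff.2 (h ▸ up_mono σ (Nat.le_succ i)))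
    · right
      obtain ⟨v, hv, hv'⟩ := exists_fix_mod hp hk hQ σ _ (up_inv σ i) h
      have : up σ i < up σ (i + 1) := lt_of_le_of_ne (up_mono σ (Nat.le_succ i))
        fun e => hv (e ▸ mem_up_succ.2 hv')
      have := Submodule.finrank_lt_finrank_of_lt this
      have := ih.resolve_left h
      omega

theorem derived_shift (σ : Q →* End k V) (d : ℕ) :
    ∀ g ∈ derivedSeries Q d, ∀ i, ∀ v ∈ up σ (i + 2 ^ d), σ g v - v ∈ up σ i := by
  induction d with
  | zero => intro g _ i v hv; exact mem_up_succ.1 hv g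
  | succ d ih =>
    intro g hg i v hv
    have : derivedSeries Q (d + 1) ≤ ⨅ v ∈ up σ (i + 2 ^ (d + 1)), stabMod σ _ (up_inv σ i) v := by
      rw [derivedSeries_succ, commutator_le]
      intro a ha b hb
      simp only [Subgroup.mem_iInf]
      intro v hv
      change σ _ v - v ∈ up σ i
      have hw : σ a⁻¹ (σ b⁻¹ v) ∈ up σ (i + 2 ^ d + 2 ^ d) := by
        rw [add_assoc, ← two_mul, ← pow_succ']
        exact up_inv σ _ _ _ (up_inv σ _ _ _ hv)
      have e0 : v = σ b (σ a (σ a⁻¹ (σ b⁻¹ v))) := by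
        rw [← End.mul_apply (σ a), rep_mul_inv, End.one_apply, ← End.mul_apply, rep_mul_inv,
          End.one_apply]
      have e1 : σ ⁅a, b⁆ v = σ a (σ b (σ a⁻¹ (σ b⁻¹ v))) := by
        simp only [commutatorElement_def, map_mul, End.mul_apply]
      rw [e1]
      nth_rewrite 2 [e0]
      generalize σ a⁻¹ (σ b⁻¹ v) = w at hw
      have : σ a (σ b w) - σ b (σ a w) = (σ a (σ b w - w) - (σ b w - w)) -
          (σ b (σ a w - w) - (σ a w - w)) := by simp only [map_sub]; abel
      rw [this]
      exact (up σ i).sub_mem (ih a ha _ _ (ih b hb _ _ hw)) (ih b hb _ _ (ih a ha _ _ hw))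
    have := this hg
    simp only [Subgroup.mem_iInf] at this
    exact this v hv

theorem modular_case [FiniteDimensional k V] [Finite Q] {p : ℕ} (hp : p.Prime) (hk : (p : k) = 0)
    (hQ : IsPGroup p Q) (σ : Q →* End k V) :
    ∀ g ∈ derivedSeries Q (Nat.log 2 (finrank k V) + 1), σ g = 1 := by
  intro g hg
  have h1 : up σ (0 + 2 ^ (Nat.log 2 (finrank k V) + 1)) = ⊤ := by
    refine (up_finrank hp hk hQ σ _).resolve_right fun h => ?_
    have := Nat.lt_pow_succ_log_self one_lt_two (finrank k V)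
    have := (up σ (0 + 2 ^ (Nat.log 2 (finrank k V) + 1))).finrank_le
    omega
  ext v
  have := derived_shift σ _ g hg 0 v (h1 ▸ Submodule.mem_top)
  rwa [up, Submodule.mem_bot, sub_eq_zero] at this

end modular


/-- Let F be a field, n ≥ 1, and P a finite p-group (p a prime) admitting an injective homomorphism into the general linear group of degree n over F. Then the derived length of P is at most ⌊log₂ n⌋ + 1: that term of the derived series of P is trivial. -/
theorem result {P : Type*} [Group P] [Finite P] (p : ℕ) [Fact p.Prime] (hP : IsPGroup p P) (F : Type*) [Field F] (n : ℕ) (hn : 1 ≤ n) (ρ : P →* Matrix.GeneralLinearGroup (Fin n) F) (hρ : Function.Injective ρ) : derivedSeries P (Nat.log 2 n + 1) = ⊥ := by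
  have hp : p.Prime := Fact.out
  let K := AlgebraicClosure F
  let σ : P →* End K (Fin n → K) :=
    ((Matrix.toLinAlgEquiv' : Matrix (Fin n) (Fin n) K ≃ₐ[K] _).toMulEquiv.toMonoidHom.comp
      (algebraMap F K).mapMatrix.toMonoidHom).comp ((Units.coeHom _).comp ρ)
  have hσ : ∀ g, σ g = 1 → g = 1 := by
    intro g hg
    apply hρ
    rw [map_one]
    apply Units.ext
    apply Matrix.map_injective (algebraMap F K).injective
    apply (Matrix.toLinAlgEquiv' : Matrix (Fin n) (Fin n) K ≃ₐ[K] _).injective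
    refine hg.trans ?_
    change _ = Matrix.toLinAlgEquiv' ((algebraMap F K).mapMatrix 1)
    rw [map_one, map_one]
  have hd : finrank K (Fin n → K) = n := by simp
  rw [eq_bot_iff]
  intro g hg
  rw [← hd] at hg
  by_cases hk : (p : K) = 0
  · exact hσ g (modular_case hp hk hP σ g hg)
  · exact hσ g (coprime_case hp hk hP σ g hg)

end Cfsg.Agent.S4010
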