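import Cfsg.Statements.S4013
import Cfsg.Agent.H6.CharOrth

set_option autoImplicit false
open Cfsg

namespace Cfsg.Agent.S4013

/-- Let G be a finite p-group (p prime) and N < M normal subgroups of G such that for some g ∈ M ∖ N the conjugacy class of g is exactly M ∖ N. Then p = 2 and N has index 2 in M. -/
theorem result {G : Type*} [Group G] [Finite G] (p : ℕ) [Fact p.Prime] (hG : IsPGroup p G) (N M : Subgroup G) [N.Normal] [M.Normal] (hNM : N < M) (g : G) (hgM : g ∈ M) (hgN : g ∉ N) (hcl : {h : G | IsConj g h} = (M : Set G) \ (N : Set G)) : p = 2 ∧ N.relIndex M = 2 := by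
  have hp := (Fact.out : p.Prime)
  have h1 : Nat.card {h : G | IsConj g h} = (Subgroup.centralizer ({g} : Set G)).index := by
    rw [H6.index_centralizer_eq_ncard, Nat.card_coe_set_eq]
  obtain ⟨k, hk⟩ := hG.index (Subgroup.centralizer ({g} : Set G))
  obtain ⟨j, hj⟩ := (hG.to_subgroup M).index (N.subgroupOf M)
  have h2 : Nat.card N * N.relIndex M = Nat.card M := by
    rw [← Subgroup.card_mul_index (N.subgroupOf M),
      Nat.card_congr (Subgroup.subgroupOfEquivOfLe hNM.le).toEquiv]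
    rfl
  have h3 : Nat.card {h : G | IsConj g h} = Nat.card M - Nat.card N := by
    rw [hcl, Nat.card_coe_set_eq, Set.ncard_sdiff hNM.le, ← Nat.card_coe_set_eq,
      ← Nat.card_coe_set_eq]
    rfl
  change N.relIndex M = p ^ j at hj
  have hj0 : j ≠ 0 := by
    rintro rfl
    exact hNM.not_ge (Subgroup.relIndex_eq_one.1 (by simpa using hj))
  rw [h1, hk, ← h2, hj, ← Nat.mul_sub_one] at h3
  have h4 : p ^ j - 1 ∣ p ^ k := h3 ▸ Dvd.intro_left _ rfl
  have h5 : (p ^ j - 1).Coprime (p ^ k) := by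
    apply Nat.Coprime.pow_right
    have h6 : 1 ≤ p ^ j := Nat.one_le_pow _ _ hp.pos
    have : (p ^ j - 1).Coprime (p ^ j) := by
      obtain ⟨m, hm⟩ : ∃ m, p ^ j = m + 1 := ⟨p ^ j - 1, by omega⟩
      rw [hm]; simp
    exact Nat.Coprime.coprime_dvd_right (dvd_pow_self p hj0) this
  have h7 : p ^ j = 2 := by
    have := h5.eq_one_of_dvd h4
    omega
  rw [hj, h7]
  exact ⟨((Nat.Prime.pow_eq_iff Nat.prime_two).1 h7).1, rfl⟩

end Cfsg.Agent.S4013
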