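import Cfsg.Statements.S4014
import Cfsg.Agent.H5.DerLen

set_option autoImplicit false
open Cfsg

namespace Cfsg.Agent.S4014

/-- Let p be a prime, n ≥ 1, and P a Sylow p-subgroup of the symmetric group on n letters. Then the derived length of P is exactly k = ⌊log_p n⌋ (the largest k with p^k ≤ n): the k-th derived subgroup of P is trivial and, when k ≥ 1, the (k−1)-st is not. -/
theorem result (p : ℕ) [Fact p.Prime] (n : ℕ) (hn : 1 ≤ n) (P : Sylow p (Equiv.Perm (Fin n))) : derivedSeries ↥(P : Subgroup (Equiv.Perm (Fin n))) (Nat.log p n) = ⊥ ∧ (1 ≤ Nat.log p n → derivedSeries ↥(P : Subgroup (Equiv.Perm (Fin n))) (Nat.log p n - 1) ≠ ⊥) := by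
  have hp : p.Prime := Fact.out
  constructor
  · rw [eq_bot_iff]
    intro g hg
    rw [Subgroup.mem_bot]
    apply Subtype.ext
    ext i
    have h1 := H5.derivedSeries_le_of_index_lt (Nat.log p n) P.isPGroup'
      (MulAction.stabilizer (P : Subgroup (Equiv.Perm (Fin n))) i) (by
        rw [MulAction.index_stabilizer]
        refine lt_of_le_of_lt ?_ (Nat.lt_pow_succ_log_self hp.one_lt n)
        simpa using Set.ncard_le_card (MulAction.orbit (P : Subgroup (Equiv.Perm (Fin n))) i)) hg
    exact congrArg Fin.val (MulAction.mem_stabilizer_iff.1 h1)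
  · intro hk
    obtain ⟨k, hk'⟩ : ∃ k, Nat.log p n = k + 1 := ⟨_, (Nat.sub_add_cancel hk).symm⟩
    rw [hk', Nat.add_sub_cancel]
    have hG : Nat.card (Multiplicative (ZMod p)) = p := by simp
    have hle : Fintype.card (Fin (k + 1) → Multiplicative (ZMod p)) ≤ Fintype.card (Fin n) := by
      simp only [Fintype.card_pi, Fintype.card_multiplicative, ZMod.card, Finset.prod_const,
        Finset.card_univ, Fintype.card_fin]
      rw [← hk']
      exact Nat.pow_log_le_self p (by omega)
    obtain ⟨ι⟩ := Function.Embedding.nonempty_of_card_le hle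
    exact H5.derivedSeries_sylow_ne_bot (H5.isPGroup_iteratedWreath _ hG (k + 1))
      ((Equiv.Perm.viaEmbeddingHom ι).comp (iteratedWreathToPermHom _ (k + 1)))
      ((Equiv.Perm.viaEmbeddingHom_injective ι).comp (iteratedWreathToPermHomInj _ (k + 1))) P
      (H5.iteratedWreath_derivedSeries_ne_bot _ k)

end Cfsg.Agent.S4014
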