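import Cfsg.Statements.S4019
import Cfsg.Agent.Cj.App4
import Cfsg.Agent.P7.Final

set_option autoImplicit false
open Cfsg

namespace Cfsg.Agent.S4019

/-- Let G be a finite group in which, for every prime p, any two p-subgroups of the same order are conjugate. Then G/O(G), O(G) the largest normal subgroup of odd order, is one of: a cyclic 2-group; the one-dimensional affine group over the field with 8 elements; the one-dimensional semi-affine group (affine maps twisted by field automorphisms) over the field with 8 or with 32 elements; a simple group of order 175560; PSL₂(8); the full automorphism group of PSL₂(32); or PSL₂(p), PSL₂(p³), SL₂(p), SL₂(p³) for a prime p ≡ ±3 (mod 8). -/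
theorem result {G : Type*} [Group G] [Finite G]
    (hD : ∀ p : ℕ, p.Prime → ∀ H K : Subgroup G, IsPGroup p H → IsPGroup p K → Nat.card H = Nat.card K →
      ∃ g : G, K = H.map (MulAut.conj g).toMonoidHom) :
    (IsCyclic (G ⧸ Cfsg.oddCore G) ∧ IsPGroup 2 (G ⧸ Cfsg.oddCore G)) ∨
    Nonempty (G ⧸ Cfsg.oddCore G ≃* Cfsg.affineGroup (GaloisField 2 3)) ∨
    Nonempty (G ⧸ Cfsg.oddCore G ≃* Cfsg.semiaffineGroup (GaloisField 2 3)) ∨
    Nonempty (G ⧸ Cfsg.oddCore G ≃* Cfsg.semiaffineGroup (GaloisField 2 5)) ∨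
    Cfsg.IsJ1 (G ⧸ Cfsg.oddCore G) ∨
    Nonempty (G ⧸ Cfsg.oddCore G ≃* Matrix.ProjectiveSpecialLinearGroup (Fin 2) (GaloisField 2 3)) ∨
    Nonempty (G ⧸ Cfsg.oddCore G ≃* MulAut (Matrix.ProjectiveSpecialLinearGroup (Fin 2) (GaloisField 2 5))) ∨
    (∃ (p : ℕ) (_ : Fact p.Prime), (p % 8 = 3 ∨ p % 8 = 5) ∧
      (Nonempty (G ⧸ Cfsg.oddCore G ≃* Matrix.ProjectiveSpecialLinearGroup (Fin 2) (ZMod p)) ∨
       Nonempty (G ⧸ Cfsg.oddCore G ≃* Matrix.ProjectiveSpecialLinearGroup (Fin 2) (GaloisField p 3)) ∨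
       Nonempty (G ⧸ Cfsg.oddCore G ≃* Matrix.SpecialLinearGroup (Fin 2) (ZMod p)) ∨
       Nonempty (G ⧸ Cfsg.oddCore G ≃* Matrix.SpecialLinearGroup (Fin 2) (GaloisField p 3)))) := by
  exact Cj.PC.main P7.l2Api P7.l2Four P7.k3All hD

end Cfsg.Agent.S4019
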