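import Cfsg.Statements.S4020
import Cfsg.Agent.H5.Cube

set_option autoImplicit false
open Cfsg

namespace Cfsg.Agent.S4020

open Subgroup
open scoped commutatorElement Pointwise

theorem conj_eq_or_of_two {G : Type*} [Group G] [Finite G]
    (hC : ∀ H K : Subgroup G, IsPGroup 2 H → IsPGroup 2 K → Nat.card H = Nat.card K →
      ∃ g : G, K = H.map (MulAut.conj g).toMonoidHom) {T : Subgroup G} (hT : IsPGroup 2 T)
    {s t : G} (hs : s ∈ T) (ht : t ∈ T) : s * t * s⁻¹ = t ∨ s * t * s⁻¹ = t⁻¹ := by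
  have h1 : IsMulCommutative T → s * t * s⁻¹ = t := fun h => by
    rw [H5.isMulCommutative_iff_forall.1 h s hs t ht, mul_inv_cancel_right]
  rcases H5.classify_of_conj hC hT with h | h | ⟨-, ⟨e⟩⟩ | h
  · exact Or.inl (h1 inferInstance)
  · exact Or.inl (h1 h.1)
  · have h2 : ∀ a b : QuaternionGroup 2, a * b * a⁻¹ = b ∨ a * b * a⁻¹ = b⁻¹ := by decide
    rcases h2 (e ⟨s, hs⟩) (e ⟨t, ht⟩) with h | h
    · left
      rw [← map_inv, ← map_mul, ← map_mul] at h
      exact congrArg Subtype.val (e.injective h)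
    · right
      rw [← map_inv, ← map_inv, ← map_mul, ← map_mul] at h
      exact congrArg Subtype.val (e.injective h)
  · exact absurd rfl h.1

theorem exists_inverting {G : Type*} [Group G] [Finite G] {p : ℕ} [hp : Fact p.Prime]
    (hC : ∀ H K : Subgroup G, IsPGroup p H → IsPGroup p K → Nat.card H = Nat.card K →
      ∃ g : G, K = H.map (MulAut.conj g).toMonoidHom) {P : Subgroup G} (hi : ¬ p ∣ P.index)
    (hP : Nat.card P = p ^ 3) (hna : ¬ IsMulCommutative P) (he : ∀ g ∈ P, g ^ p = 1) {x : G}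
    (hx : x ∈ P) (hx' : x ∉ H5.zOf P) :
    ∃ u : G, ∀ v ∈ P ⊓ centralizer ({x} : Set G), u * v * u⁻¹ = v⁻¹ := by
  have hPp := IsPGroup.of_card hP
  have hZ := H5.card_zOf_cube hP hna
  obtain ⟨⟨z, hz⟩, hz1⟩ := ne_bot_iff_exists_ne_one.1 (show H5.zOf P ≠ ⊥ by
    intro h; rw [h, card_bot] at hZ; exact hp.out.one_lt.ne hZ)
  have hz1' : z ≠ 1 := fun h => hz1 (Subtype.ext h)
  have hx1 : x ≠ 1 := by rintro rfl; exact hx' (one_mem _)
  have hX : Nat.card (zpowers x) = p := by rw [Nat.card_zpowers, orderOf_eq_prime (he x hx) hx1]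
  have hxz : x * z = z * x := hz.2 x hx
  set V := P ⊓ centralizer ({x} : Set G) with hV
  obtain ⟨g, hg⟩ := hC (H5.zOf P) (zpowers x) (hPp.to_le (H5.zOf_le P))
    (hPp.to_le (zpowers_le.2 hx)) (hZ.trans hX.symm)
  set P1 := P.map (MulAut.conj g).toMonoidHom with hP1
  have h1 : H5.zOf P1 = zpowers x := by
    rw [hP1, H5.zOf_map_of_injective _ (MulAut.conj g).injective, hg]
  obtain ⟨c, hc, hcV⟩ := H1.exists_conj_le_sylow (H := centralizer ({x} : Set G)) (P := P1) (Q := V)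
    (hPp.map _) (fun hd => hi (by
      refine (hd.trans (relIndex_dvd_index_of_le ?_)).trans (dvd_of_eq ?_)
      · rw [← H3.centralizer_zpowers, ← h1]; exact H5.le_centralizer_zOf P1
      · exact index_map_of_bijective (MulAut.conj g).bijective _)) inf_le_right
    (hPp.to_le inf_le_left)
  have hcx : c * x * c⁻¹ = x := H3.mem_centralizer_singleton_iff_conj.1 hc
  have hP1c : Nat.card P1 = p ^ 3 := by rw [hP1, H1.card_map_conj, hP]
  have hP1n : ¬ IsMulCommutative P1 := fun h => hna (H5.isMulCommutative_of_mulEquiv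
    (P.equivMapOfInjective (MulAut.conj g).toMonoidHom (MulAut.conj g).injective).symm h)
  have hzV : z ∈ V := ⟨hz.1, mem_centralizer_singleton_iff.2 hxz.symm⟩
  obtain ⟨a, ha, hax⟩ := H5.exists_conj_eq_mul_cube hP hna hx hx' hz
  have haz : a * z * a⁻¹ = z := by rw [hz.2 a ha, mul_inv_cancel_right]
  obtain ⟨b', hb', hbz'⟩ := H5.exists_conj_eq_mul_cube hP1c hP1n (u := c * z * c⁻¹) (w := x⁻¹)
    (H1.map_conj_le_iff.1 hcV z hzV) (by
      rw [h1]
      rintro ⟨k, hk⟩
      have h2 : z ∈ zpowers x := ⟨k, by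
        have : c⁻¹ * x * c⁻¹⁻¹ = x := by rw [← hcx]; nth_rewrite 2 [hcx]; group
        simp only at hk ⊢
        rw [← this, conj_zpow, hk]; group⟩
      exact hx' (zpowers_le.2 hz (H3.mem_zpowers_of_pow_prime_eq_one hp.out (he x hx) h2 hz1')))
    (h1 ▸ inv_mem (mem_zpowers x))
  have hbx' : b' * x * b'⁻¹ = x := by
    rw [(h1 ▸ mem_zpowers x : x ∈ H5.zOf P1).2 b' hb', mul_inv_cancel_right]
  set b := c⁻¹ * b' * c with hb
  have hbx : b * x * b⁻¹ = x := by
    calc b * x * b⁻¹ = c⁻¹ * (b' * (c * x * c⁻¹) * b'⁻¹) * c := by rw [hb]; group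
      _ = c⁻¹ * (c * x * c⁻¹) * c := by rw [hcx, hbx']
      _ = x := by group
  have hbz : b * z * b⁻¹ = x⁻¹ * z := by
    calc b * z * b⁻¹ = c⁻¹ * (b' * (c * z * c⁻¹) * b'⁻¹) * c := by rw [hb]; group
      _ = c⁻¹ * ((c * x * c⁻¹)⁻¹ * (c * z * c⁻¹)) * c := by rw [hbz', hcx]
      _ = x⁻¹ * z := by group
  set w := a * b * a with hw
  have hwx : w * x * w⁻¹ = z := by
    calc w * x * w⁻¹ = a * (b * (a * x * a⁻¹) * b⁻¹) * a⁻¹ := by rw [hw]; group
      _ = a * ((b * z * b⁻¹) * (b * x * b⁻¹)) * a⁻¹ := by rw [hax]; group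
      _ = a * z * a⁻¹ := by rw [hbz, hbx, mul_assoc x⁻¹, ← hxz, inv_mul_cancel_left]
      _ = z := haz
  have hwz : w * z * w⁻¹ = x⁻¹ := by
    calc w * z * w⁻¹ = a * (b * (a * z * a⁻¹) * b⁻¹) * a⁻¹ := by rw [hw]; group
      _ = a * (x⁻¹ * z) * a⁻¹ := by rw [haz, hbz]
      _ = (a * x * a⁻¹)⁻¹ * (a * z * a⁻¹) := by group
      _ = x⁻¹ := by rw [hax, haz]; group
  have hVc : IsMulCommutative V := IsPGroup.isMulCommutative_of_card_eq_prime_sq
    (H5.card_inf_centralizer_cube hP hna he hx hx')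
  let I : Subgroup G :=
    { carrier := {v | v ∈ V ∧ w * w * v * (w * w)⁻¹ = v⁻¹}
      one_mem' := ⟨one_mem _, by simp⟩
      mul_mem' := fun {s t} hs ht => ⟨mul_mem hs.1 ht.1, by
        rw [← conj_mul, hs.2, ht.2, ← mul_inv_rev,
          H5.isMulCommutative_iff_forall.1 hVc s hs.1 t ht.1]⟩
      inv_mem' := fun {s} hs => ⟨inv_mem hs.1, by rw [← conj_inv, hs.2]⟩ }
  have h2 : zpowers z ⊔ zpowers x ≤ I := by
    rw [sup_le_iff, zpowers_le, zpowers_le]
    refine ⟨⟨hzV, ?_⟩, ⟨⟨hx, mem_centralizer_singleton_iff.2 rfl⟩, ?_⟩⟩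
    · calc w * w * z * (w * w)⁻¹ = w * (w * z * w⁻¹) * w⁻¹ := by group
        _ = z⁻¹ := by rw [hwz, ← conj_inv, hwx]
    · calc w * w * x * (w * w)⁻¹ = w * (w * x * w⁻¹) * w⁻¹ := by group
        _ = x⁻¹ := by rw [hwx, hwz]
  have h3 : I = V := H1.eq_of_le_of_card_le (fun v hv => hv.1) (by
    refine le_trans (le_of_eq ?_) (card_le_of_le h2)
    rw [H5.card_inf_centralizer_cube hP hna he hx hx', H5.card_sup_zpowers' hp.out
      (centralizer_le_normalizer _ (by
        rw [H3.centralizer_zpowers]; exact mem_centralizer_singleton_iff.2 hxz))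
      (fun h => hx' (zpowers_le.2 hz h)) (he x hx), Nat.card_zpowers,
      orderOf_eq_prime (he z hz.1) hz1', pow_two])
  exact ⟨w * w, fun v hv => (h3.ge hv).2⟩

theorem cube_false {G : Type*} [Group G] [Finite G] {p : ℕ} [hp : Fact p.Prime] (hp2 : p ≠ 2)
    (hC : ∀ H K : Subgroup G, IsPGroup p H → IsPGroup p K → Nat.card H = Nat.card K →
      ∃ g : G, K = H.map (MulAut.conj g).toMonoidHom)
    (hC2 : ∀ H K : Subgroup G, IsPGroup 2 H → IsPGroup 2 K → Nat.card H = Nat.card K →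
      ∃ g : G, K = H.map (MulAut.conj g).toMonoidHom) {P : Subgroup G} (hi : ¬ p ∣ P.index)
    (hP : Nat.card P = p ^ 3) (hna : ¬ IsMulCommutative P) (he : ∀ g ∈ P, g ^ p = 1) : False := by
  have hPp := IsPGroup.of_card hP
  obtain ⟨x, hx, hx'⟩ : ∃ x ∈ P, x ∉ H5.zOf P := by
    by_contra h
    push Not at h
    exact hna (H5.isMulCommutative_iff_forall.2 fun a ha b hb => (h b hb).2 a ha)
  obtain ⟨u, hu⟩ := exists_inverting hC hi hP hna he hx hx'
  set V := P ⊓ centralizer ({x} : Set G) with hV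
  have hV2 : Nat.card V = p ^ 2 := H5.card_inf_centralizer_cube hP hna he hx hx'
  have hPV : P ≤ normalizer (V : Set G) := H5.le_normalizer_cube hP hna he inf_le_left hV2
  have hnorm : ∀ g : G, (∀ v ∈ V, g * v * g⁻¹ ∈ V) → g ∈ normalizer (V : Set G) := by
    intro g hg
    rw [← H1.map_conj_eq_self_iff]
    exact H1.eq_of_le_of_card_le (H1.map_conj_le_iff.2 hg) (H1.card_map_conj _ _).ge
  have huV : u ∈ normalizer (V : Set G) := hnorm u fun v hv => by rw [hu v hv]; exact inv_mem hv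
  set C := centralizer (V : Set G) with hCdef
  have hPC : P ≤ normalizer (C : Set G) := H1.le_normalizer_centralizer hPV
  obtain ⟨g, hg, hgu⟩ := H1.frattini_argument (G := P ⊔ C) le_sup_left hPp
    (fun hd => hi (hd.trans (relIndex_dvd_index_of_le le_sup_left))) (x := u) (by
      rw [← H1.map_conj_eq_self_iff]
      refine H1.eq_of_le_of_card_le ?_ (H1.card_map_conj _ _).ge
      rw [Subgroup.map_sup,
        H1.map_conj_eq_self_iff.2 (H1.normalizer_le_normalizer_centralizer V huV)]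
      refine sup_le (H1.map_conj_le_iff.2 fun y hy => ?_) le_sup_right
      have h1 : y⁻¹ * (u * y * u⁻¹) ∈ C := fun v hv => by
        have h2 := hu _ (H1.conj_mem_of_le_normalizer hPV hy (inv_mem hv))
        have h3 : u⁻¹ * v * u = v⁻¹ := by
          have := hu _ (inv_mem hv)
          rw [inv_inv] at this
          nth_rewrite 1 [← this]
          group
        calc v * (y⁻¹ * (u * y * u⁻¹)) = y⁻¹ * (y * v⁻¹ * y⁻¹)⁻¹ * (u * y * u⁻¹) := by group
          _ = y⁻¹ * (u * y * (v⁻¹ * u⁻¹)) := by rw [← h2]; group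
          _ = _ := by rw [← h3]; group
      have := mul_mem (mem_sup_left hy : y ∈ P ⊔ C) (mem_sup_right h1)
      rwa [mul_inv_cancel_left] at this)
  obtain ⟨y, hy, c, hc, rfl⟩ := (H1.mem_sup_iff_of_le_normalizer hPC).1 hg
  rw [mul_assoc, Subgroup.mul_mem_cancel_left _ (le_normalizer hy)] at hgu
  have hcu : ∀ v ∈ V, c * u * v * (c * u)⁻¹ = v⁻¹ := fun v hv => by
    calc c * u * v * (c * u)⁻¹ = c * (u * v * u⁻¹) * c⁻¹ := by group
      _ = v⁻¹ := by rw [hu v hv, ← hc _ (inv_mem hv), mul_inv_cancel_right]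
  obtain ⟨k, m, hm, hkm⟩ := Nat.exists_eq_two_pow_mul_odd (orderOf_pos (c * u)).ne'
  set t := (c * u) ^ m with ht
  have ht1 : ∀ v ∈ V, t * v * t⁻¹ = v⁻¹ := fun v hv => H5.pow_conj_eq_inv_of_odd (hcu v hv) hm
  obtain ⟨j, hj⟩ := H5.exists_eq_pow_of_dvd_pow Nat.prime_two (k := k) (n := orderOf t)
    (orderOf_dvd_of_pow_eq_one (by rw [ht, ← pow_mul, mul_comm, ← hkm, pow_orderOf_eq_one]))
  set N := normalizer (P : Set G) with hN
  obtain ⟨T, hT1, hT2, hT3, hT4⟩ := H1.exists_sylow_of_le (p := 2) (H := N) (Q := zpowers t)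
    (zpowers_le.2 (pow_mem hgu m)) (H8.isPGroup_zpowers_of_orderOf hj)
  have htT : t ∈ T := hT1 (mem_zpowers t)
  have hinv : ∀ y ∈ P, t * y * t⁻¹ = y⁻¹ → y ∈ V := by
    intro y hy hty
    have h1 := H5.commutator_mem_zOf_cube hP hna hy hx
    have h2 := ht1 _ (H5.zOf_le_cube hP hna he inf_le_left hV2 h1)
    have h3 : t * ⁅y, x⁆ * t⁻¹ = ⁅y, x⁆ := by
      calc t * ⁅y, x⁆ * t⁻¹ = ⁅t * y * t⁻¹, t * x * t⁻¹⁆ := by
            simp only [commutatorElement_def]; group
        _ = (x * y)⁻¹ * (⁅y, x⁆ * (x * y)) := by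
            rw [hty, ht1 x ⟨hx, mem_centralizer_singleton_iff.2 rfl⟩]
            simp only [commutatorElement_def]; group
        _ = ⁅y, x⁆ := by rw [← h1.2 _ (mul_mem hx hy), inv_mul_cancel_left]
    have h4 := H5.eq_one_of_odd_of_eq_inv ((hp.out.odd_of_ne_two hp2).of_dvd_nat
      (orderOf_dvd_of_pow_eq_one (he _ h1.1))) (h3.symm.trans h2)
    exact ⟨hy, mem_centralizer_singleton_iff.2 (commutatorElement_eq_one_iff_mul_comm.1 h4)⟩
  have hTV : T ≤ normalizer (V : Set G) := fun s hs => hnorm s fun v hv => by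
    refine hinv _ ((mem_normalizer_iff.1 (hT2 hs) v).1 hv.1) ?_
    have h1 : s⁻¹ * t * s⁻¹⁻¹ * v * (s⁻¹ * t * s⁻¹⁻¹)⁻¹ = v⁻¹ := by
      rcases conj_eq_or_of_two hC2 hT3 (inv_mem hs) htT with h | h
      · rw [h, ht1 v hv]
      · have := ht1 _ (inv_mem hv)
        rw [inv_inv] at this
        rw [h]
        nth_rewrite 1 [← this]
        group
    calc t * (s * v * s⁻¹) * t⁻¹ = s * (s⁻¹ * t * s⁻¹⁻¹ * v * (s⁻¹ * t * s⁻¹⁻¹)⁻¹) * s⁻¹ := by group
      _ = _ := by rw [h1]; group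
  letI : MulAction N (Subgroup G) :=
    MulAction.compHom _ ((MulAut.conj : G →* MulAut G).comp N.subtype)
  have hsmul : ∀ (n : N) (W : Subgroup G), n • W = W.map (MulAut.conj (n : G)).toMonoidHom :=
    fun _ _ => rfl
  have h1 : MulAction.orbit N V = {W : Subgroup G | W ≤ P ∧ Nat.card W = p ^ 2} := by
    ext W
    constructor
    · rintro ⟨n, rfl⟩
      exact ⟨H1.map_conj_le_of_mem_normalizer inf_le_left n.2, (H1.card_map_conj _ _).trans hV2⟩
    · rintro ⟨hW, hW2⟩
      obtain ⟨g, rfl⟩ := hC V W (hPp.to_le inf_le_left) (hPp.to_le hW) (hV2.trans hW2.symm)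
      have h2 := H5.le_normalizer_cube hP hna he hW hW2
      have h3 : P.map (MulAut.conj g).toMonoidHom ≤
          normalizer (V.map (MulAut.conj g).toMonoidHom : Set G) := by
        rw [H1.normalizer_map_conj]; exact map_mono hPV
      obtain ⟨h, hh, hhP⟩ := H1.exists_conj_eq_sylow h2 hPp
        (fun hd => hi (hd.trans (relIndex_dvd_index_of_le h2))) h3 (hPp.map _)
        (fun hd => hi ((hd.trans (relIndex_dvd_index_of_le h3)).trans
          (dvd_of_eq (index_map_of_bijective (MulAut.conj g).bijective _))))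
      rw [H1.map_conj_map_conj, H1.map_conj_eq_self_iff] at hhP
      refine ⟨⟨h * g, hhP⟩, ?_⟩
      simp only [hsmul]
      rw [← H1.map_conj_map_conj, H1.map_conj_eq_self_iff.2 hh]
  have h2 := MulAction.index_stabilizer N V
  rw [h1, H5.ncard_sq_cube hP hna he] at h2
  apply hT4
  refine dvd_trans ?_ (index_dvd_of_le (show T.subgroupOf N ≤ MulAction.stabilizer N V from
    fun s hs => H1.map_conj_eq_self_iff.2 (hTV hs)))
  rw [h2]
  exact (hp.out.odd_of_ne_two hp2).add_one.two_dvd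

/-- Let G be a finite group in which, for every prime p, any two p-subgroups of the same order are conjugate. Then every Sylow subgroup of G is cyclic, elementary abelian, or a quaternion group of order 8. -/
theorem result {G : Type*} [Group G] [Finite G]
    (hD : ∀ p : ℕ, p.Prime → ∀ H K : Subgroup G, IsPGroup p H → IsPGroup p K → Nat.card H = Nat.card K →
      ∃ g : G, K = H.map (MulAut.conj g).toMonoidHom) {p : ℕ} [Fact p.Prime] (P : Sylow p G) :
    IsCyclic P ∨ Cfsg.IsElementaryAbelian p (P : Subgroup G) ∨ Nonempty ((P : Subgroup G) ≃* QuaternionGroup 2) := by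
  rcases H5.classify_of_conj (hD p Fact.out) P.isPGroup' with h | h | h | ⟨h1, h2, h3, h4⟩
  · exact Or.inl h
  · exact Or.inr (Or.inl h)
  · exact Or.inr (Or.inr h.2)
  · exact (cube_false h1 (hD p Fact.out) (hD 2 Nat.prime_two) P.not_dvd_index h3 h2 h4).elim

end Cfsg.Agent.S4020
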