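import Cfsg.Statements.S4021
import Cfsg.Agent.Cj.Main
import Cfsg.Agent.P6.End5

set_option autoImplicit false
open Cfsg

namespace Cfsg.Agent.S4021

/-- Let G be a finite group in which any two subgroups of the same order are conjugate. Then G/O(G), O(G) the largest normal subgroup of odd order, is one of: a cyclic 2-group; the one-dimensional affine group over the field with 8 elements; the one-dimensional semi-affine group over the field with 8 or with 32 elements; PSL₂(8); the full automorphism group of PSL₂(32); the alternating group of degree 4 or 5; SL₂(3); or SL₂(5). -/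
theorem result {G : Type*} [Group G] [Finite G]
    (hC : ∀ H K : Subgroup G, Nat.card H = Nat.card K → ∃ g : G, K = H.map (MulAut.conj g).toMonoidHom) :
    (IsCyclic (G ⧸ Cfsg.oddCore G) ∧ IsPGroup 2 (G ⧸ Cfsg.oddCore G)) ∨
    Nonempty (G ⧸ Cfsg.oddCore G ≃* Cfsg.affineGroup (GaloisField 2 3)) ∨
    Nonempty (G ⧸ Cfsg.oddCore G ≃* Cfsg.semiaffineGroup (GaloisField 2 3)) ∨
    Nonempty (G ⧸ Cfsg.oddCore G ≃* Cfsg.semiaffineGroup (GaloisField 2 5)) ∨
    Nonempty (G ⧸ Cfsg.oddCore G ≃* Matrix.ProjectiveSpecialLinearGroup (Fin 2) (GaloisField 2 3)) ∨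
    Nonempty (G ⧸ Cfsg.oddCore G ≃* MulAut (Matrix.ProjectiveSpecialLinearGroup (Fin 2) (GaloisField 2 5))) ∨
    Nonempty (G ⧸ Cfsg.oddCore G ≃* alternatingGroup (Fin 4)) ∨
    Nonempty (G ⧸ Cfsg.oddCore G ≃* alternatingGroup (Fin 5)) ∨
    Nonempty (G ⧸ Cfsg.oddCore G ≃* Matrix.SpecialLinearGroup (Fin 2) (ZMod 3)) ∨
    Nonempty (G ⧸ Cfsg.oddCore G ≃* Matrix.SpecialLinearGroup (Fin 2) (ZMod 5)) := by
  exact Cj.CS.main (fun _ _ _ _ _ h hs h2 _ hall => P6.eacHyp.simple_eac h hs h2 hall) hC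

end Cfsg.Agent.S4021
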