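import Cfsg.Statements.S4023
import Cfsg.Agent.H5.ConjP

set_option autoImplicit false
open Cfsg

namespace Cfsg.Agent.S4023

/-- Let p be a prime and G a finite group in which any two p-subgroups of the same order are conjugate, with Sylow p-subgroup P. Then P is cyclic, or elementary abelian, or p = 2 and P is a quaternion group of order 8, or p is odd and P is non-abelian of order p³ and exponent p. -/
theorem result {G : Type*} [Group G] [Finite G]
    {p : ℕ} [Fact p.Prime] (hC : ∀ H K : Subgroup G, IsPGroup p H → IsPGroup p K → Nat.card H = Nat.card K →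
      ∃ g : G, K = H.map (MulAut.conj g).toMonoidHom) (P : Sylow p G) :
    IsCyclic P ∨ Cfsg.IsElementaryAbelian p (P : Subgroup G) ∨
      (p = 2 ∧ Nonempty ((P : Subgroup G) ≃* QuaternionGroup 2)) ∨
      (p ≠ 2 ∧ ¬ IsMulCommutative P ∧ Nat.card P = p ^ 3 ∧ Monoid.exponent P = p) := by
  rcases H5.classify_of_conj hC P.isPGroup' with h | h | h | ⟨h1, h2, h3, h4⟩
  · exact Or.inl h
  · exact Or.inr (Or.inl h)
  · exact Or.inr (Or.inr (Or.inl h))
  · refine Or.inr (Or.inr (Or.inr ⟨h1, h2, h3, ?_⟩))
    have h5 : Monoid.exponent (P : Subgroup G) ∣ p :=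
      Monoid.exponent_dvd_of_forall_pow_eq_one fun g => Subtype.ext (h4 g g.2)
    rcases (Nat.dvd_prime Fact.out).1 h5 with h6 | h6
    · haveI := Monoid.exp_eq_one_iff.1 h6
      exact absurd ⟨⟨fun a b => Subsingleton.elim _ _⟩⟩ h2
    · exact h6

end Cfsg.Agent.S4023
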