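import Cfsg.Statements.S4024
import Cfsg.Agent.H5.ConjP
import Cfsg.Agent.H5.Misc
import Cfsg.Agent.L.PiSep
import Cfsg.Agent.L.MinNormal
import Cfsg.Agent.H8.PComplement
import Cfsg.Agent.H1.PAction

set_option autoImplicit false
open Cfsg

namespace Cfsg.Agent.S4024

open Subgroup

theorem mem_of_normal {G : Type*} [Group G] [Finite G] {p : ℕ} [hp : Fact p.Prime]
    (hC : ∀ H K : Subgroup G, IsPGroup p H → IsPGroup p K → Nat.card H = Nat.card K →
      ∃ g : G, K = H.map (MulAut.conj g).toMonoidHom) (N : Subgroup G) [hN : N.Normal]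
    (hd : p ∣ Nat.card N) {x : G} (hx : x ^ p = 1) : x ∈ N := by
  by_cases h1 : x = 1
  · exact h1 ▸ one_mem N
  obtain ⟨⟨y, hy⟩, hyp⟩ := exists_prime_orderOf_dvd_card' p hd
  replace hyp : orderOf y = p := (Subgroup.orderOf_coe (⟨y, hy⟩ : N)).trans hyp
  have hxp := orderOf_eq_prime hx h1
  obtain ⟨g, hg⟩ := hC (zpowers y) (zpowers x)
    (H8.isPGroup_zpowers_of_orderOf (k := 1) (by simpa using hyp))
    (H8.isPGroup_zpowers_of_orderOf (k := 1) (by simpa using hxp))
    (by rw [Nat.card_zpowers, Nat.card_zpowers, hyp, hxp])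
  obtain ⟨z, hz, hz'⟩ := hg ▸ mem_zpowers x
  exact hz' ▸ hN.conj_mem z (zpowers_le.2 hy hz) g

/-- Let p be an odd prime and G a finite group in which any two p-subgroups of the same order are conjugate, with Sylow p-subgroup P. If H is a normal p-solvable subgroup of G whose order is divisible by p, then P is abelian, and either P ≤ H or P is cyclic. -/
theorem result {G : Type*} [Group G] [Finite G]
    {p : ℕ} [Fact p.Prime] (hp : p ≠ 2) (hC : ∀ H K : Subgroup G, IsPGroup p H → IsPGroup p K → Nat.card H = Nat.card K →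
      ∃ g : G, K = H.map (MulAut.conj g).toMonoidHom) (P : Sylow p G)
    (H : Subgroup G) [H.Normal] (hsolv : Cfsg.IsPSolvable p H) (hdiv : p ∣ Nat.card H) :
    IsMulCommutative P ∧ ((P : Subgroup G) ≤ H ∨ IsCyclic P) := by
  have hp' : p.Prime := Fact.out
  have key : (∀ g ∈ (P : Subgroup G), g ^ p = 1) →
      IsMulCommutative P ∧ ((P : Subgroup G) ≤ H ∨ IsCyclic P) := fun he => by
    refine ⟨?_, Or.inl fun x hx => mem_of_normal hC H hdiv (he x hx)⟩
    set K := pPrimeCore p G
    set f := QuotientGroup.mk' K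
    haveI : (H.map f).Normal := Subgroup.Normal.map inferInstance f (QuotientGroup.mk'_surjective K)
    have h1 : H.map f ≠ ⊥ := fun h => by
      rw [Subgroup.map_eq_bot_iff, QuotientGroup.ker_mk'] at h
      exact L.not_dvd_card_pPrimeCore hp' (hdiv.trans (card_dvd_of_le h))
    have h2 := (((L.isPSolvable_iff_piSep hp').1 hsolv).map f).piCore_inf_ne_bot h1
    rw [← L.pPrimeCore_eq_piCore hp', L.pPrimeCore_quotient_pPrimeCore hp', bot_inf_eq,
      ← L.pCore_eq_piCore hp'] at h2
    obtain ⟨V, hV, hV'⟩ := L.exists_isMinNormal_le _ (h2.resolve_right fun h => h rfl)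
    have hVp := (L.isPGroup_pCore p).to_le (hV'.trans inf_le_left)
    have hVe := hV.isElementaryAbelian_of_isPGroup hp' hVp
    haveI := hV.1
    have h3 : p ∣ Nat.card (V.comap f) := by
      rw [L.card_comap_mk']
      obtain ⟨k, hk⟩ := hVp.exists_card_eq
      rcases Nat.eq_zero_or_pos k with rfl | hk0
      · exact absurd (card_eq_one.1 (by simpa using hk)) hV.2.1
      · exact (hk ▸ dvd_pow_self p hk0.ne').mul_right _
    refine H5.isMulCommutative_iff_forall.2 fun a ha b hb => ?_
    have h4 := H5.isMulCommutative_iff_forall.1 hVe.1 _ (mem_of_normal hC _ h3 (he a ha)) _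
      (mem_of_normal hC _ h3 (he b hb))
    rw [← map_mul, ← map_mul, QuotientGroup.mk'_apply, QuotientGroup.mk'_apply,
      QuotientGroup.eq] at h4
    have h5 : (a * b)⁻¹ * (b * a) ∈ (P : Subgroup G) ⊓ K :=
      mem_inf.2 ⟨mul_mem (inv_mem (mul_mem ha hb)) (mul_mem hb ha), h4⟩
    rwa [H1.inf_eq_bot_of_coprime' (H1.coprime_card_of_isPGroup P.isPGroup'
      (L.coprime_card_pPrimeCore p)).symm, mem_bot, inv_mul_eq_one] at h5
  rcases H5.classify_of_conj hC P.isPGroup' with h | h | h | ⟨-, -, -, h⟩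
  · exact ⟨inferInstance, Or.inr h⟩
  · exact key h.2
  · exact absurd h.1 hp
  · exact key h

end Cfsg.Agent.S4024
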