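import Cfsg.Statements.S4027
import Cfsg.Agent.H5.Real

set_option autoImplicit false
open Cfsg

namespace Cfsg.Agent.S4027

/-- Let G be a finite group in which every element x of odd order satisfies N_G(⟨x⟩) = C_G(x). Then the Sylow 2-subgroups of G are normal. -/
theorem result {G : Type*} [Group G] [Finite G]
    (hirr : ∀ x : G, (∀ r : ℕ, r.Prime → r ∣ orderOf x → r ≠ 2) →
      Subgroup.normalizer ((Subgroup.zpowers x : Subgroup G) : Set G) ≤ Subgroup.centralizer {x}) (P : Sylow 2 G) :
    (P : Subgroup G).Normal := by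
  refine H5.sylow_two_normal_of_not_real (fun x g hx hg => ?_) P
  have h1 := hirr x (fun r _ hr h2 => by
    subst h2
    exact (Nat.not_even_iff_odd.2 hx) (even_iff_two_dvd.2 hr))
    (H5.mem_normalizer_zpowers_of_conj_mem (hg ▸ (Subgroup.zpowers x).inv_mem (Subgroup.mem_zpowers x)))
  rw [Subgroup.mem_centralizer_singleton_iff] at h1
  refine H5.eq_one_of_odd_of_eq_inv hx ?_
  rw [← hg, h1, mul_inv_cancel_right]

end Cfsg.Agent.S4027
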