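import Cfsg.Statements.S4028
import Cfsg.Agent.H5.Misc
import Cfsg.Agent.H5.Real
import Cfsg.Agent.H8.PComplement
import Cfsg.Agent.H1.Section

set_option autoImplicit false
open Cfsg

namespace Cfsg.Agent.S4028

open Subgroup

/-- Let G be a finite group with Sylow 2-subgroup P. Then N_G(⟨x⟩) = C_G(x) holds for every 2-element x of G if and only if N_P(⟨y⟩) = C_P(y) holds for every y ∈ P (computed inside P). -/
theorem result {G : Type*} [Group G] [Finite G] (P : Sylow 2 G) :
    (∀ x : G, (∀ r : ℕ, r.Prime → r ∣ orderOf x → r = 2) →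
      Subgroup.normalizer ((Subgroup.zpowers x : Subgroup G) : Set G) ≤ Subgroup.centralizer {x}) ↔
    (∀ y : ↥(P : Subgroup G), Subgroup.normalizer ((Subgroup.zpowers y : Subgroup ↥(P : Subgroup G)) : Set ↥(P : Subgroup G)) ≤
        Subgroup.centralizer {y}) := by
  constructor
  · intro h y n hn
    have h1 := h (y : G) (fun r hr hd => by
      obtain ⟨k, hk⟩ := H8.exists_orderOf_eq_pow_of_mem P.isPGroup' y.2
      exact (Nat.prime_dvd_prime_iff_eq hr Nat.prime_two).1 (hr.dvd_of_dvd_pow (hk ▸ hd)))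
    have h2 : (n : G) ∈ normalizer (zpowers (y : G) : Set G) := by
      have := le_normalizer_map (P : Subgroup G).subtype (mem_map_of_mem _ hn)
      rwa [MonoidHom.map_zpowers] at this
    rw [mem_centralizer_singleton_iff]
    exact Subtype.ext (mem_centralizer_singleton_iff.1 (h1 h2))
  · intro h x hx g hg
    obtain ⟨k, hk⟩ : ∃ k, orderOf x = 2 ^ k :=
      ⟨_, Nat.eq_prime_pow_of_unique_prime_dvd (orderOf_pos x).ne' (fun hr hd => hx _ hr hd)⟩
    obtain ⟨a, b, ha', hb', rfl, hab, ⟨j, ha⟩, hb⟩ := H8.exists_pPart_pPrimePart Nat.prime_two g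
    have ha1 : zpowers a ≤ normalizer (zpowers x : Set G) := zpowers_le.2 (zpowers_le.2 hg ha')
    have hb1 : zpowers b ≤ normalizer (zpowers x : Set G) := zpowers_le.2 (zpowers_le.2 hg hb')
    refine mul_mem ?_ ?_
    · have h1 : IsPGroup 2 (zpowers a ⊔ zpowers x : Subgroup G) :=
        (H8.isPGroup_zpowers_of_orderOf ha).to_sup_of_normal_right'
          (H8.isPGroup_zpowers_of_orderOf hk) ha1
      obtain ⟨u, -, hu⟩ := H1.exists_conj_le_sylow (H := ⊤) (P := (P : Subgroup G)) P.isPGroup'
        (by rw [relIndex_top_right]; exact P.not_dvd_index) le_top h1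
      have h2 := H1.map_conj_le_iff.1 hu a (mem_sup_left (mem_zpowers a))
      have h3 := H1.map_conj_le_iff.1 hu x (mem_sup_right (mem_zpowers x))
      have h4 := h ⟨_, h3⟩ (x := ⟨_, h2⟩) (by
        obtain ⟨m, hm⟩ := (mem_normalizer_iff.1 (ha1 (mem_zpowers a)) x).1 (mem_zpowers x)
        refine H5.mem_normalizer_zpowers_of_conj_mem ⟨m, Subtype.ext ?_⟩
        simp only [SubgroupClass.coe_zpow, coe_mul, InvMemClass.coe_inv] at hm ⊢
        rw [conj_zpow, hm]; group)
      have h5 := congrArg Subtype.val (mem_centralizer_singleton_iff.1 h4)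
      simp only [coe_mul] at h5
      rw [mem_centralizer_singleton_iff]
      calc a * x = u⁻¹ * (u * a * u⁻¹ * (u * x * u⁻¹)) * u := by group
        _ = x * a := by rw [h5]; group
    · have h1 : H1.conjAut hb1 ⟨b, mem_zpowers b⟩ = 1 := by
        rw [← orderOf_eq_one_iff]
        have h2 : orderOf (H1.conjAut hb1 ⟨b, mem_zpowers b⟩) ∣ orderOf b :=
          (orderOf_map_dvd _ _).trans (by simp)
        have h3 := orderOf_dvd_natCard (H1.conjAut hb1 ⟨b, mem_zpowers b⟩)
        rw [IsCyclic.card_mulAut, Nat.card_zpowers, hk] at h3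
        have h4 : Nat.totient (2 ^ k) ∣ 2 ^ k := by
          rcases k with _ | k
          · simp
          · rw [Nat.totient_prime_pow_succ Nat.prime_two]; simp [pow_succ]
        exact Nat.Coprime.eq_one_of_dvd
          (Nat.Coprime.pow_right k (Nat.Coprime.coprime_dvd_left h2 hb)) (h3.trans h4)
      have h2 := (H1.mem_ker_conjAut hb1).1 h1
      exact mem_centralizer_singleton_iff.2 (h2 x (mem_zpowers x)).symm

end Cfsg.Agent.S4028
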