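import Cfsg.Statements.S4029
import Cfsg.Agent.H3.PBasic
import Cfsg.Agent.H3.ClassCount
import Cfsg.Agent.H5.Real
import Cfsg.Agent.L.Invol

set_option autoImplicit false
open Cfsg

namespace Cfsg.Agent.S4029

open Subgroup Finset

theorem card_mul_le {G : Type*} [Group G] [Fintype G] [DecidableEq G] (N : Subgroup G)
    (hN : ∀ x : G, x ^ 2 ∈ N) :
    Nat.card G * N.index ≤ (univ.filter fun p : G × G => p.1 * p.2 * p.1⁻¹ = p.2⁻¹).card := by
  classical
  have key : ∀ x g : G, x * g * x⁻¹ = g⁻¹ ↔ x ^ 2 = (x * g) ^ 2 := fun x g => by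
    rw [sq, sq, mul_assoc x g (x * g), mul_right_inj, mul_inv_eq_iff_eq_mul, eq_inv_mul_iff_mul_eq,
      eq_comm]
  have h1 : (univ.filter fun p : G × G => p.1 * p.2 * p.1⁻¹ = p.2⁻¹).card =
      (univ.filter fun p : G × G => p.1 ^ 2 = p.2 ^ 2).card := by
    refine card_bij' (fun p _ => (p.1, p.1 * p.2)) (fun p _ => (p.1, p.1⁻¹ * p.2)) ?_ ?_ ?_ ?_
    · rintro ⟨x, g⟩ h
      simp only [mem_filter, mem_univ, true_and] at h ⊢
      exact (key x g).1 h
    · rintro ⟨x, g⟩ h
      simp only [mem_filter, mem_univ, true_and] at h ⊢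
      exact (key x _).2 (by simpa using h)
    · rintro ⟨x, g⟩ h; simp
    · rintro ⟨x, g⟩ h; simp
  set r : G → ℕ := fun n => (univ.filter fun x : G => x ^ 2 = n).card with hr
  have h2 : (univ.filter fun p : G × G => p.1 ^ 2 = p.2 ^ 2).card =
      ∑ n ∈ univ.filter (· ∈ N), r n ^ 2 := by
    rw [card_eq_sum_card_fiberwise (f := fun p : G × G => p.1 ^ 2) (t := univ.filter (· ∈ N))
      (fun p _ => by simpa using hN p.1)]
    refine sum_congr rfl fun n _ => ?_
    rw [sq, hr, ← card_product]
    congr 1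
    ext ⟨x, y⟩
    simp only [mem_filter, mem_univ, true_and, mem_product]
    exact ⟨fun h => ⟨h.2, h.1 ▸ h.2⟩, fun h => ⟨h.1.trans h.2.symm, h.1⟩⟩
  have h3 : ∑ n ∈ univ.filter (· ∈ N), r n = Nat.card G := by
    rw [Nat.card_eq_fintype_card, ← card_univ, card_eq_sum_card_fiberwise (f := fun x : G => x ^ 2)
      (t := univ.filter (· ∈ N)) (fun p _ => by simpa using hN p)]
  have h4 := sq_sum_le_card_mul_sum_sq (s := univ.filter (· ∈ N)) (f := r)
  rw [h3, ← h2, ← h1, H3.card_filter_mem_subgroup, Nat.cast_id, sq] at h4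
  nth_rw 1 [← N.card_mul_index] at h4
  rw [mul_assoc, mul_comm N.index] at h4
  exact Nat.le_of_mul_le_mul_left h4 Nat.card_pos

theorem sum_eq {G : Type*} [Group G] [Fintype G] :
    ∑ g ∈ (open Classical in univ.filter fun g : G => orderOf g = 2),
      Nat.card (centralizer ({g} : Set G)) =
      Nat.card G * Nat.card {c : ConjClasses G // ∃ y : G, ConjClasses.mk y = c ∧ orderOf y = 2} := by
  classical
  haveI : Fintype (ConjClasses G) := Fintype.ofFinite _
  rw [← sum_fiberwise_of_maps_to (g := ConjClasses.mk)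
    (t := univ.filter fun c => ∃ y : G, ConjClasses.mk y = c ∧ orderOf y = 2)
    (fun g hg => by
      simp only [mem_filter, mem_univ, true_and] at hg ⊢
      exact ⟨g, rfl, hg⟩),
    Nat.card_eq_fintype_card (α := Subtype _), Fintype.card_subtype, mul_comm, ← smul_eq_mul,
    ← sum_const]
  refine sum_congr rfl fun c hc => ?_
  simp only [mem_filter, mem_univ, true_and] at hc
  obtain ⟨y, rfl, hy⟩ := hc
  rw [← L.ncard_isConj_mul_card_centralizer y, sum_congr rfl (g := fun _ =>
    Nat.card (centralizer ({y} : Set G))) (fun g hg => L.card_centralizer_of_isConj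
      (ConjClasses.mk_eq_mk_iff_isConj.1 (mem_filter.1 hg).2.symm)), sum_const, smul_eq_mul,
      ← Set.ncard_coe_finset]
  congr 2
  ext g
  simp only [coe_filter, mem_filter, mem_univ, true_and, Set.mem_setOf_eq,
    ConjClasses.mk_eq_mk_iff_isConj]
  exact ⟨fun h => h.2.symm, fun h => ⟨H3.orderOf_eq_of_isConj h ▸ hy, h.symm⟩⟩

/-- Let P be a finite 2-group in which N_P(⟨y⟩) = C_P(y) for every y ∈ P. If s is the number of conjugacy classes of involutions of P, then #(P/Φ(P)) ≤ s + 1; in particular the subgroup generated by the involutions of P has order at least #(P/Φ(P)). -/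
theorem result {P : Type*} [Group P] [Finite P] (hP : IsPGroup 2 P)
    (hirr : ∀ y : P, Subgroup.normalizer ((Subgroup.zpowers y : Subgroup P) : Set P) ≤ Subgroup.centralizer {y}) :
    Nat.card (P ⧸ frattini P) ≤ Nat.card {c : ConjClasses P // ∃ y : P, ConjClasses.mk y = c ∧ orderOf y = 2} + 1 ∧
    Nat.card (P ⧸ frattini P) ≤ Nat.card (Subgroup.closure {y : P | orderOf y = 2}) := by
  classical
  haveI := Fintype.ofFinite P
  haveI := Fact.mk Nat.prime_two
  have h1 := card_mul_le (frattini P) (H3.pow_mem_frattini hP)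
  have h2 : (univ.filter fun p : P × P => p.1 * p.2 * p.1⁻¹ = p.2⁻¹).card ≤
      Nat.card P + ∑ g ∈ univ.filter fun g : P => orderOf g = 2,
        Nat.card (centralizer ({g} : Set P)) := by
    rw [card_eq_sum_card_fiberwise (f := fun p : P × P => p.2)
      (t := insert 1 (univ.filter fun g : P => orderOf g = 2)), sum_insert (by simp)]
    · have key : ∀ g : P, ((univ.filter fun p : P × P => p.1 * p.2 * p.1⁻¹ = p.2⁻¹).filter
          fun p => p.2 = g).card ≤ Nat.card (centralizer ({g} : Set P)) := fun g => by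
        rw [← H3.card_filter_mem_subgroup]
        refine card_le_card_of_injOn (fun p => p.1) ?_ ?_
        · rintro ⟨x, y⟩ h
          simp only [coe_filter, mem_filter, mem_univ, true_and, Set.mem_setOf_eq] at h ⊢
          obtain ⟨h, rfl⟩ := h
          exact hirr y (H5.mem_normalizer_zpowers_of_conj_mem (h ▸ inv_mem (mem_zpowers y)))
        · rintro ⟨x, y⟩ h ⟨x', y'⟩ h' (rfl : x = x')
          simp only [coe_filter, mem_filter, mem_univ, true_and, Set.mem_setOf_eq] at h h'
          rw [h.2, h'.2]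
      exact add_le_add ((key 1).trans (card_le_card_group _)) (sum_le_sum fun g _ => key g)
    · rintro ⟨x, y⟩ h
      simp only [coe_filter, mem_univ, true_and, Set.mem_setOf_eq, coe_insert,
        Set.mem_insert_iff] at h ⊢
      have h3 := mem_centralizer_singleton_iff.1
        (hirr y (H5.mem_normalizer_zpowers_of_conj_mem (h ▸ inv_mem (mem_zpowers y))))
      rw [h3, mul_inv_cancel_right] at h
      by_cases hy : y = 1
      · exact Or.inl hy
      · exact Or.inr (orderOf_eq_prime (by rw [sq]; nth_rw 1 [h]; simp) hy)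
  have h3 := h1.trans h2
  rw [sum_eq, ← mul_one_add, add_comm] at h3
  have h4 := Nat.le_of_mul_le_mul_left h3 Nat.card_pos
  refine ⟨h4, h4.trans ?_⟩
  rw [← Nat.card_unique (α := Unit), ← Nat.card_sum]
  refine Nat.card_le_card_of_injective (fun c => Sum.elim
    (fun c => ⟨c.2.choose, subset_closure c.2.choose_spec.2⟩) (fun _ => 1) c) ?_
  rintro (c | c) (d | d) h
  · simp only [Sum.elim_inl, Subtype.mk.injEq] at h
    congr 1
    exact Subtype.ext (c.2.choose_spec.1.symm.trans (h ▸ d.2.choose_spec.1))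
  · have h5 := c.2.choose_spec.2
    rw [show c.2.choose = 1 from congrArg Subtype.val h, orderOf_one] at h5
    exact absurd h5 (by decide)
  · have h5 := d.2.choose_spec.2
    rw [show d.2.choose = 1 from congrArg Subtype.val h.symm, orderOf_one] at h5
    exact absurd h5 (by decide)
  · rfl

end Cfsg.Agent.S4029
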