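import Cfsg.Statements.S4034
import Cfsg.Agent.H5.Misc
import Cfsg.Agent.H9.ClassSize
import Cfsg.Agent.H6.Burnside
import Cfsg.Agent.H1.Hall
import Cfsg.Agent.H8.PComplement

set_option autoImplicit false
open Cfsg

namespace Cfsg.Agent.S4034

open Subgroup

universe u

theorem solv1 {p : ℕ} (hp : p.Prime) (G : Type u) [Group G] [Finite G]
    (h : ∀ x : G, (orderOf x).Coprime p → ∃ k : ℕ, (centralizer ({x} : Set G)).index = p ^ k) :
    Group.IsSolvable G := by
  haveI := Fact.mk hp
  refine H5.isSolvable_of_simple_induction (P := fun G _ _ => ∀ x : G, (orderOf x).Coprime p →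
    ∃ k : ℕ, (centralizer ({x} : Set G)).index = p ^ k) ?_ ?_ ?_ G h
  · intro G _ _ N _ h x hx
    obtain ⟨k, hk⟩ := h x (by simpa using hx)
    exact H5.exists_eq_pow_of_dvd_pow hp (hk ▸ H9.index_centralizer_subgroup_dvd N x)
  · intro G _ _ N _ h y hy
    obtain ⟨x, hx, rfl⟩ := H9.exists_coprime_map_eq (QuotientGroup.mk'_surjective N) hp hy
    obtain ⟨k, hk⟩ := h x hx
    exact H5.exists_eq_pow_of_dvd_pow hp
      (hk ▸ H9.index_centralizer_map_dvd (QuotientGroup.mk'_surjective N) x)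
  · intro G _ _ _ h
    by_cases h1 : ∀ x : G, (orderOf x).Coprime p → x = 1
    · have := H5.isPGroup_of_forall_coprime_eq_one (p := p) (H := (⊤ : Subgroup G))
        (fun x _ hx => h1 x hx)
      exact H1.isSolvable_of_isPGroup (this.of_equiv topEquiv)
    · push Not at h1
      obtain ⟨x, hx, hx1⟩ := h1
      obtain ⟨k, hk⟩ := h x hx
      exact H5.isSolvable_of_simple_of_mem_center hx1
        (H6.mem_center_of_isSimpleGroup_of_index_centralizer hp hk)

theorem solv2 {p : ℕ} (hp : p.Prime) (G : Type u) [Group G] [Finite G]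
    (h : ∃ H : Subgroup G, IsMulCommutative H ∧ IsPiHall {p}ᶜ H) : Group.IsSolvable G := by
  haveI := Fact.mk hp
  refine H5.isSolvable_of_simple_induction
    (P := fun G _ _ => ∃ H : Subgroup G, IsMulCommutative H ∧ IsPiHall {p}ᶜ H) ?_ ?_ ?_ G h
  · rintro G _ _ N _ ⟨H, hH, h⟩
    refine ⟨(H ⊓ N).subgroupOf N, ?_,
      (H1.isPiHallOf_iff_subgroupOf inf_le_right).1 (H1.isPiHall_inf_normal h N)⟩
    rw [H5.isMulCommutative_iff_forall] at hH ⊢
    exact fun a ha b hb => Subtype.ext (hH _ ha.1 _ hb.1)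
  · rintro G _ _ N _ ⟨H, hH, h⟩
    exact ⟨H.map (QuotientGroup.mk' N), inferInstance,
      H1.isPiHall_map_of_surjective h (QuotientGroup.mk'_surjective N)⟩
  · rintro G _ _ _ ⟨H, hH, h⟩
    obtain ⟨-, k, hk⟩ := (H1.isPiHall_compl_singleton_iff hp).1 h
    by_cases h1 : H = ⊥
    · rw [h1, index_bot] at hk
      exact H1.isSolvable_of_isPGroup (IsPGroup.of_card hk)
    · obtain ⟨⟨x, hx⟩, hx1⟩ := (ne_bot_iff_exists_ne_one).1 h1
      have h2 : H ≤ centralizer ({x} : Set G) := fun y hy =>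
        mem_centralizer_singleton_iff.2 (H5.isMulCommutative_iff_forall.1 hH y hy x hx)
      obtain ⟨j, hj⟩ := H5.exists_eq_pow_of_dvd_pow hp (hk ▸ index_dvd_of_le h2)
      exact H5.isSolvable_of_simple_of_mem_center (x := x) (fun h => hx1 (Subtype.ext h))
        (H6.mem_center_of_isSimpleGroup_of_index_centralizer hp hj)

theorem comm_of_pCore_eq_bot {p : ℕ} (hp : p.Prime) {G : Type u} [Group G] [Finite G]
    (h : ∀ x : G, (orderOf x).Coprime p → ∃ k : ℕ, (centralizer ({x} : Set G)).index = p ^ k)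
    (h0 : pCore p G = ⊥) {x y : G} (hx : (orderOf x).Coprime p) (hy : (orderOf y).Coprime p) :
    x * y = y * x := by
  haveI := solv1 hp G h
  have h1 : ∀ z : G, (orderOf z).Coprime p → fittingSubgroup G ≤ centralizer {z} := by
    intro z hz
    obtain ⟨k, hk⟩ := h z hz
    refine (L.fittingSubgroup_le_sup hp).trans ?_
    rw [h0, bot_sup_eq]
    refine L.le_of_isPiSubgroup_of_index (π := {p}ᶜ)
      ((L.isPiSubgroup_compl_singleton_iff hp).2 (L.coprime_card_pPrimeCore p)) ?_
    intro q hq hqp hd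
    rw [hk] at hd
    exact hqp ((Nat.prime_dvd_prime_iff_eq hq hp).1 (hq.dvd_of_dvd_pow hd))
  have h2 : x ∈ fittingSubgroup G := L.centralizer_fittingSubgroup_le
    fun f hf => mem_centralizer_singleton_iff.1 (h1 x hx hf)
  exact mem_centralizer_singleton_iff.1 (h1 y hy h2)

/-- Let G be a finite group and p a prime. Every conjugacy class of p-regular elements of G (elements of order prime to p) has p-power size if and only if G has an abelian p-complement, i.e. an abelian subgroup of order prime to p and p-power index. -/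
theorem result {G : Type*} [Group G] [Finite G] {p : ℕ} (hp : p.Prime) :
    (∀ x : G, (orderOf x).Coprime p → ∃ k : ℕ, (ConjClasses.mk x).carrier.ncard = p ^ k) ↔
    (∃ H : Subgroup G, IsMulCommutative H ∧ ¬ p ∣ Nat.card H ∧ ∃ k : ℕ, H.index = p ^ k) := by
  haveI := Fact.mk hp
  simp only [H5.ncard_carrier_eq_index]
  constructor
  · intro h
    haveI := solv1 hp G h
    obtain ⟨H, hH⟩ := H1.exists_isPiHall_of_isSolvable (G := G) {p}ᶜ
    obtain ⟨h1, h2⟩ := (H1.isPiHall_compl_singleton_iff hp).1 hH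
    refine ⟨H, ?_, hp.coprime_iff_not_dvd.1 h1.symm, h2⟩
    have h3 : ∀ x ∈ H, (orderOf (QuotientGroup.mk' (pCore p G) x)).Coprime p := fun x hx =>
      Nat.Coprime.coprime_dvd_left ((orderOf_map_dvd _ _).trans (H.orderOf_dvd_natCard hx)) h1
    rw [H5.isMulCommutative_iff_forall]
    intro a ha b hb
    refine H5.injOn_of_ker_inf_eq_bot (QuotientGroup.mk' (pCore p G)) (P := H) ?_
      (H.mul_mem ha hb) (H.mul_mem hb ha) ?_
    · rw [QuotientGroup.ker_mk', inf_comm]
      exact H5.inf_eq_bot_of_coprime_of_isPGroup h1 (L.isPGroup_pCore p)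
    · rw [map_mul, map_mul]
      refine comm_of_pCore_eq_bot hp ?_ (L.pCore_quotient_pCore hp) (h3 a ha) (h3 b hb)
      intro y hy
      obtain ⟨x, hx, rfl⟩ := H9.exists_coprime_map_eq (QuotientGroup.mk'_surjective _) hp hy
      obtain ⟨k, hk⟩ := h x hx
      exact H5.exists_eq_pow_of_dvd_pow hp
        (hk ▸ H9.index_centralizer_map_dvd (QuotientGroup.mk'_surjective _) x)
  · rintro ⟨H, hH, h1, k, hk⟩ x hx
    have h2 : IsPiHall {p}ᶜ H :=
      (H1.isPiHall_compl_singleton_iff hp).2 ⟨(hp.coprime_iff_not_dvd.2 h1).symm, k, hk⟩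
    haveI := solv2 hp G ⟨H, hH, h2⟩
    obtain ⟨g, hg⟩ := H1.exists_conj_le_isPiHall_of_isSolvable (U := zpowers x) h2
      ((L.isPiSubgroup_compl_singleton_iff hp).2 (by rwa [Nat.card_zpowers]))
    have h3 : g * x * g⁻¹ ∈ H := H1.map_conj_le_iff.1 hg x (mem_zpowers x)
    have h4 : H ≤ centralizer ({g * x * g⁻¹} : Set G) := fun y hy =>
      mem_centralizer_singleton_iff.2 (H5.isMulCommutative_iff_forall.1 hH y hy _ h3)
    rw [← H9.index_centralizer_conj g x]
    exact H5.exists_eq_pow_of_dvd_pow hp (hk ▸ index_dvd_of_le h4)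

end Cfsg.Agent.S4034
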