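import Cfsg.Statements.S4035
import Cfsg.Agent.H5.Misc
import Cfsg.Agent.H9.ClassSize
import Cfsg.Agent.H6.Induction
import Cfsg.Agent.H8.Frobenius

set_option autoImplicit false
open Cfsg

namespace Cfsg.Agent.S4035

open Subgroup

/-- Let G be a finite group and p a prime such that p divides the size of no conjugacy class of p-regular elements (elements of order prime to p). Then G is the internal direct product of a Sylow p-subgroup P and a normal subgroup H of order prime to p: P is normal, P ⊓ H = 1 and PH = G. -/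
theorem result {G : Type*} [Group G] [Finite G] {p : ℕ} [Fact p.Prime]
    (h : ∀ x : G, (orderOf x).Coprime p → ¬ p ∣ (ConjClasses.mk x).carrier.ncard) (P : Sylow p G) :
    (P : Subgroup G).Normal ∧ ∃ H : Subgroup G, H.Normal ∧ ¬ p ∣ Nat.card H ∧
      (P : Subgroup G) ⊓ H = ⊥ ∧ (P : Subgroup G) ⊔ H = ⊤ := by
  have hp : p.Prime := Fact.out
  simp only [H5.ncard_carrier_eq_index] at h
  have h1 : normalizer ((P : Subgroup G) : Set G) = ⊤ := by
    apply H6.eq_top_of_forall_exists_conj_mem
    intro g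
    obtain ⟨a, b, -, -, rfl, hab, ⟨k, ha⟩, hb⟩ := H8.exists_pPart_pPrimePart hp g
    obtain ⟨Q, h1, h2, h3, h4⟩ := H1.exists_sylow_of_le (p := p) (H := centralizer ({b} : Set G))
      (Q := zpowers a) (by rw [zpowers_le, mem_centralizer_singleton_iff]; exact hab.eq)
      (H8.isPGroup_zpowers_of_orderOf ha)
    have h5 : ¬ p ∣ Q.relIndex ⊤ := by
      rw [relIndex_top_right, ← relIndex_mul_index h2]
      exact fun hd => (hp.dvd_mul.1 hd).elim h4 (h b hb)
    obtain ⟨x, -, hx⟩ := H1.exists_conj_eq_sylow (H := ⊤) (P := (P : Subgroup G)) le_top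
      P.isPGroup' (by rw [relIndex_top_right]; exact P.not_dvd_index) le_top h3 h5
    refine ⟨x⁻¹, ?_⟩
    rw [← hx, H1.normalizer_map_conj, H1.mem_map_conj]
    have h6 : x⁻¹ * (x⁻¹⁻¹ * (a * b) * x⁻¹) * x = a * b := by group
    rw [h6]
    refine mul_mem (le_normalizer (h1 (mem_zpowers a))) (centralizer_le_normalizer _ ?_)
    exact fun y hy => mem_centralizer_singleton_iff.1 (h2 hy)
  have hP : (P : Subgroup G).Normal := normalizer_eq_top_iff.1 h1
  refine ⟨hP, ?_⟩
  have h2 : HasNormalPComplement p G := by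
    refine H8.hasNPC_of_coprime_centralizes P fun X hX _ g _ hg y hy => ?_
    obtain ⟨Q, hQ⟩ := H9.not_dvd_index_iff_exists_sylow_le.1 (h g hg)
    haveI := Sylow.unique_of_normal P hP
    rw [Subsingleton.elim Q P] at hQ
    exact mem_centralizer_singleton_iff.1 (hQ (hX hy))
  obtain ⟨Q, N, hN, hc⟩ := h2
  haveI := Sylow.unique_of_normal P hP
  rw [Subsingleton.elim Q P] at hc
  refine ⟨N, hN, ?_, hc.symm.disjoint.eq_bot, hc.symm.sup_eq_top⟩
  rw [← hc.index_eq_card]
  exact P.not_dvd_index

end Cfsg.Agent.S4035
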