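import Cfsg.Statements.S4036
import Cfsg.Agent.H5.Misc
import Cfsg.Agent.H8.PComplement
import Cfsg.Agent.H9.FixCount
import Cfsg.Agent.H1.Abelian

set_option autoImplicit false
open Cfsg

namespace Cfsg.Agent.S4036

open Subgroup

/-- Let P be a finite abelian p-group and K a group of automorphisms of P (a subgroup of Aut P) whose order is divisible by p. If all non-identity elements of K have the same fixed-point subgroup on P, then K has no non-trivial normal subgroup of order prime to p. -/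
theorem result {P : Type*} [CommGroup P] [Finite P] {p : ℕ}
    [Fact p.Prime] (hP : IsPGroup p P) (K : Subgroup (MulAut P)) (hK : p ∣ Nat.card K)
    (hfix : ∀ x y : MulAut P, x ∈ K → y ∈ K → x ≠ 1 → y ≠ 1 → ∀ v : P, x v = v ↔ y v = v) :
    ∀ N : Subgroup ↥K, N.Normal → ¬ p ∣ Nat.card N → N = ⊥ := by
  classical
  intro N hN hNp
  have hp : p.Prime := Fact.out
  by_contra hne
  haveI := Fintype.ofFinite N
  set φ : N →* MulAut P := K.subtype.comp N.subtype with hφ
  set W := (H1.normHom φ).ker with hW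
  obtain ⟨⟨n, hn⟩, hn1⟩ := (ne_bot_iff_exists_ne_one).1 hne
  have hn2 : (n : MulAut P) ≠ 1 := fun h => hn1 (Subtype.ext (Subtype.ext h))
  have hW1 : W ≠ ⊥ := by
    intro h
    apply hn2
    ext v
    exact (MonoidHom.ker_eq_bot_iff _).1 h (H1.normHom_smul φ ⟨n, hn⟩ v)
  obtain ⟨k, hk⟩ := exists_prime_orderOf_dvd_card' (G := K) p hK
  have hk1 : (k : MulAut P) ≠ 1 := by
    intro h
    have : k = 1 := Subtype.ext h
    rw [this, orderOf_one] at hk
    exact hp.one_lt.ne hk
  have hinv : ∀ g : K, ∀ w ∈ W, (g : MulAut P) w ∈ W := by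
    intro g w hw
    rw [MonoidHom.mem_ker, H1.normHom_apply] at hw ⊢
    have := congrArg (g : MulAut P) hw
    rw [map_one, map_prod] at this
    rw [← this]
    refine (Fintype.prod_equiv (MulAut.conjNormal g).toEquiv _ _ fun a => ?_).symm
    simp [hφ]
  have h1 := H9.ncard_modEq_of_isPGroup (Ω := P) (p := p) (A := zpowers k)
    (H8.isPGroup_zpowers_of_orderOf (k := 1) (by simpa using hk)) (W : Set P)
    (fun g _ x hx => hinv g x hx)
  have h2 : {x | x ∈ (W : Set P) ∧ ∀ g ∈ zpowers k, g • x = x} = {1} := by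
    ext x
    simp only [Set.mem_setOf_eq, Set.mem_singleton_iff]
    refine ⟨fun ⟨hx, hx2⟩ => ?_, fun hx => hx ▸ ⟨W.one_mem, fun g _ => map_one (g : MulAut P)⟩⟩
    have h3 : (k : MulAut P) x = x := hx2 k (mem_zpowers k)
    have h4 : H1.normHom φ x = x ^ Nat.card N := H1.normHom_of_fixed φ fun a => by
      by_cases ha : ((a : K) : MulAut P) = 1
      · simp [hφ, ha]
      · exact (hfix _ _ k.2 (a : K).2 hk1 ha x).1 h3
    rw [show H1.normHom φ x = 1 from hx] at h4
    obtain ⟨j, hj⟩ := hP.exists_orderOf_eq_pow x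
    rw [← orderOf_eq_one_iff]
    refine Nat.Coprime.eq_one_of_dvd ?_ (orderOf_dvd_of_pow_eq_one h4.symm)
    rw [hj]
    exact Nat.Coprime.pow_left j (hp.coprime_iff_not_dvd.2 hNp)
  rw [h2, Set.ncard_singleton, ← Nat.card_coe_set_eq] at h1
  obtain ⟨j, hj⟩ := (hP.to_subgroup W).exists_card_eq
  have hj0 : j ≠ 0 := by
    rintro rfl
    exact hW1 (card_eq_one.1 (by simpa using hj))
  have h3 : p ∣ Nat.card W := hj ▸ dvd_pow_self p hj0
  exact hp.one_lt.ne' (Nat.dvd_one.1 ((h1.dvd_iff dvd_rfl).1 h3))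

end Cfsg.Agent.S4036
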