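import Cfsg.Statements.S4038
import Cfsg.Agent.H5.InvMax
import Cfsg.Agent.H5.NilpMax
import Cfsg.Agent.FT.Final

set_option autoImplicit false
open Cfsg

namespace Cfsg.Agent.S4038

/-- Let A and G be finite groups of coprime orders with A acting on G by automorphisms. Suppose G has a proper A-invariant subgroup M, maximal among proper A-invariant subgroups, which is nilpotent and whose Sylow 2-subgroups have nilpotency class at most 2. Then G is solvable. -/
theorem result {G A : Type*} [Group G] [Finite G]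
    [Group A] [Finite A] (φ : A →* MulAut G) (hcop : (Nat.card A).Coprime (Nat.card G))
    (M : Subgroup G) (hMtop : M ≠ ⊤) (hMinv : ∀ a : A, ∀ m : G, m ∈ M → φ a m ∈ M)
    (hMmax : ∀ H : Subgroup G, M ≤ H → H ≠ ⊤ → (∀ a : A, ∀ h : G, h ∈ H → φ a h ∈ H) → H = M)
    (hnil : Group.IsNilpotent M) (h2 : ∀ S : Sylow 2 ↥M, Group.nilpotencyClass ↥(S : Subgroup ↥M) ≤ 2) :
    Group.IsSolvable G := by
  by_cases hG : Odd (Nat.card G)
  · exact FT.feit_thompson G hG
  have hA : Odd (Nat.card A) := Nat.coprime_two_right.1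
    (hcop.coprime_dvd_right (even_iff_two_dvd.1 (Nat.not_odd_iff_even.1 hG)))
  obtain ⟨S⟩ : Nonempty (Sylow 2 M) := inferInstance
  refine H5.isSolvable_of_invariant_coatom φ hcop (FT.feit_thompson A hA) hA M hMtop hMinv hMmax
    hnil (FT.isSyl_map_subtype Nat.prime_two S) (Subgroup.commutator_le.2 ?_)
  rintro _ ⟨x, hx, rfl⟩ _ ⟨y, hy, rfl⟩ _ ⟨z, hz, rfl⟩
  have := (H5.commute_commutator_of_nilpotencyClass_le_two (h2 S) ⟨x, hx⟩ ⟨y, hy⟩ ⟨z, hz⟩).map
    (M.subtype.comp (S : Subgroup M).subtype)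
  rw [map_commutatorElement] at this
  exact this.symm.eq

end Cfsg.Agent.S4038
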