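import Cfsg.Statements.S4040
import Cfsg.Agent.H5.NilpMax

set_option autoImplicit false
open Cfsg

namespace Cfsg.Agent.S4040

/-- A finite group possessing a maximal subgroup that is nilpotent of odd order is solvable. -/
theorem result {G : Type*} [Group G] [Finite G]
    (M : Subgroup G) (hmax : IsCoatom M) (hnil : Group.IsNilpotent M) (hodd : Odd (Nat.card M)) :
    Group.IsSolvable G := by
  refine H5.isSolvable_of_nilpotent_coatom hmax hnil fun x hx y hy z hz ⟨k, hk⟩ _ _ => ?_
  have h1 : orderOf x ∣ Nat.card M := M.orderOf_dvd_natCard hx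
  have h2 : x = 1 := H8.eq_one_of_orderOf_pow_of_coprime hk
    (Nat.Coprime.coprime_dvd_left h1 (Nat.coprime_two_right.2 hodd))
  simp [h2]

end Cfsg.Agent.S4040
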