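import Cfsg.Statements.S4043
import Cfsg.Agent.H5.Misc
import Cfsg.Agent.H1.PAction
import Cfsg.Agent.H8.Frobenius
import Cfsg.Agent.H1.SZ

set_option autoImplicit false
open Cfsg

namespace Cfsg.Agent.S4043

open Subgroup

theorem coprime_card {G : Type*} [Group G] [Finite G] {p : ℕ} [Fact p.Prime] {A : Subgroup G}
    (h : HasNormalPComplement p A) : (Nat.card (pResidualOf p A)).Coprime p := by
  rw [pResidualOf, card_map_of_injective A.subtype_injective]
  exact H8.hasNPC_iff_coprime_pResidual.1 h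

theorem conj_le {G : Type*} [Group G] [Finite G] {p : ℕ}
    [Fact p.Prime] (N : Subgroup G) [N.Normal] (hN : IsPGroup p N) (A A₁ : Subgroup G)
    (hA : A.IsComplement' N) (hAp : HasNormalPComplement p A)
    (hA₁p : HasNormalPComplement p A₁) :
    ∃ n ∈ N, (pResidualOf p A₁).map (MulAut.conj n).toMonoidHom ≤ pResidualOf p A := by
  refine H1.exists_conj_le_of_le_sup le_normalizer_of_normal
    (H1.coprime_card_of_isPGroup hN (coprime_card hAp)) (Or.inr (H1.isSolvable_of_isPGroup hN)) ?_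
    (H1.coprime_card_of_isPGroup hN (coprime_card hA₁p))
  intro x hx
  obtain ⟨⟨a, n⟩, rfl⟩ := (hA.existsUnique x).exists
  refine mul_mem (mem_sup_left (H8.mem_pResidualOf_of_coprime a.2 ?_)) (mem_sup_right n.2)
  have h1 : (orderOf ((a : G) * n)).Coprime p :=
    Nat.Coprime.coprime_dvd_left (orderOf_dvd_natCard _ hx) (coprime_card hA₁p)
  refine Nat.Coprime.coprime_dvd_left (orderOf_dvd_of_pow_eq_one ?_) h1
  have h2 : (a : G) ^ orderOf ((a : G) * n) ∈ N := by
    rw [← QuotientGroup.eq_one_iff, QuotientGroup.mk_pow,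
      ← QuotientGroup.mk_mul_of_mem (a : G) n.2, ← QuotientGroup.mk_pow, pow_orderOf_eq_one,
      QuotientGroup.mk_one]
  exact disjoint_def.1 hA.disjoint (A.pow_mem a.2 _) h2

/-- Let G be a finite group that is the semidirect product of a normal p-subgroup N by a subgroup A, and also of N by a subgroup A₁, where p is a prime and A and A₁ both have normal p-complements. If C_N(A) = C_N(A₁) = 1, then A₁ is conjugate to A by an element of N. -/
theorem result {G : Type*} [Group G] [Finite G] {p : ℕ}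
    [Fact p.Prime] (N : Subgroup G) [N.Normal] (hN : IsPGroup p N) (A A₁ : Subgroup G)
    (hA : A.IsComplement' N) (hA₁ : A₁.IsComplement' N)
    (hAp : Cfsg.HasNormalPComplement p A) (hA₁p : Cfsg.HasNormalPComplement p A₁)
    (hC : ∀ n : G, n ∈ N → (∀ a : G, a ∈ A → a * n * a⁻¹ = n) → n = 1)
    (hC₁ : ∀ n : G, n ∈ N → (∀ a : G, a ∈ A₁ → a * n * a⁻¹ = n) → n = 1) :
    ∃ n : G, n ∈ N ∧ A₁ = A.map (MulAut.conj n).toMonoidHom := by
  obtain ⟨n, hn, h1⟩ := conj_le N hN A A₁ hA hAp hA₁p
  obtain ⟨m, -, h2⟩ := conj_le N hN A₁ A hA₁ hA₁p hAp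
  set K := pResidualOf p A with hK
  have h3 : (pResidualOf p A₁).map (MulAut.conj n).toMonoidHom = K := by
    apply H1.eq_of_le_of_card_le h1
    rw [H1.card_map_conj, ← H1.card_map_conj K m]
    exact card_le_of_le h2
  have hAK : A ≤ normalizer (K : Set G) := le_normalizer.trans (H8.le_normalizer_pResidualOf p A)
  have h4 : N ⊓ centralizer (K : Set G) = ⊥ := by
    by_contra hne
    set C := N ⊓ centralizer (K : Set G) with hC'
    have hAC : A ≤ normalizer (C : Set G) :=
      H1.le_normalizer_inf le_normalizer_of_normal (H1.le_normalizer_centralizer hAK)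
    obtain ⟨S, hS1, hS2, hS3⟩ := H1.exists_sylow_le p A
    have h5 : IsPGroup p (S ⊔ C : Subgroup G) :=
      hS2.to_sup_of_normal_right' (hN.to_le inf_le_left) (hS1.trans hAC)
    haveI := h5.isNilpotent
    obtain ⟨⟨c, hc1, hc2⟩, hc3⟩ := ne_bot_iff_exists_ne_one.1
      (L.inf_centralizer_ne_bot_of_isNilpotent (N := C) (K := S ⊔ C) le_sup_right
        (H1.sup_le_normalizer_of_le (hS1.trans hAC)) hne)
    refine hc3 (Subtype.ext (hC c hc1.1 fun a ha => ?_))
    obtain ⟨u, hu, k, hk, rfl⟩ := H8.exists_mul_pResidualOf hS3 ha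
    have e1 : u * c = c * u := hc2 u (mem_sup_left hu.1)
    have e2 : k * c = c * k := hc1.2 k hk
    rw [mul_inv_eq_iff_eq_mul, mul_assoc, e2, ← mul_assoc, e1, mul_assoc]
  have h5 : normalizer (K : Set G) ≤ A := by
    intro g hg
    obtain ⟨⟨a, x⟩, rfl⟩ := (hA.existsUnique g).exists
    have h6 : (x : G) ∈ N ⊓ normalizer (K : Set G) :=
      ⟨x.2, (Subgroup.mul_mem_cancel_left _ (hAK a.2)).1 hg⟩
    rw [H1.inf_normalizer_eq_inf_centralizer le_normalizer_of_normal
      (H1.inf_eq_bot_of_coprime' (H1.coprime_card_of_isPGroup hN (coprime_card hAp))), h4,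
      mem_bot] at h6
    simp [h6]
  have h6 : A₁.map (MulAut.conj n).toMonoidHom = A := by
    apply H1.eq_of_le_of_card_le
    · refine le_trans ?_ h5
      rw [← h3, H1.normalizer_map_conj]
      exact map_mono (le_normalizer.trans (H8.le_normalizer_pResidualOf p A₁))
    · rw [H1.card_map_conj, ← hA.index_eq_card, ← hA₁.index_eq_card]
  refine ⟨n⁻¹, N.inv_mem hn, ?_⟩
  rw [← h6, H1.map_conj_map_conj, inv_mul_cancel, H1.map_conj_one]

end Cfsg.Agent.S4043
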