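import Cfsg.Statements.S4044
import Cfsg.Agent.Cj.Hall
import Cfsg.Agent.P6.End5
import Cfsg.Agent.P5.Final

set_option autoImplicit false
open Cfsg

namespace Cfsg.Agent.S4044

/-- For an integer m ≥ 2 the following are equivalent: (a) every finite group whose order n is divisible by m with gcd(m, n/m) = 1 has a subgroup of order m; (b) m is a prime power, or m ≡ 2 (mod 4), or m ∈ {12, 24, 60}. -/
theorem result (m : ℕ) (hm : 2 ≤ m) :
    (∀ (G : Type) [Group G] [Finite G], m ∣ Nat.card G → m.Coprime (Nat.card G / m) →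
        ∃ H : Subgroup G, Nat.card H = m) ↔
    (IsPrimePow m ∨ m % 4 = 2 ∨ m = 12 ∨ m = 24 ∨ m = 60) := by
  exact Cj.hall_numbers P6.eacHyp P5.bBot m hm

end Cfsg.Agent.S4044
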