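import Cfsg.Statements.S4049
import Cfsg.Agent.H5.Real

set_option autoImplicit false
open Cfsg

namespace Cfsg.Agent.S4049

/-- Let G be a finite group such that N_G(H)/C_G(H) has odd order for every nontrivial subgroup H of odd order. Then the Sylow 2-subgroups of G are normal. -/
theorem result {G : Type*} [Group G] [Finite G]
    (hhom : ∀ H : Subgroup G, H ≠ ⊥ → ¬ 2 ∣ Nat.card ↥H →
        ¬ 2 ∣ (Subgroup.centralizer (H : Set G)).relIndex (Subgroup.normalizer (H : Set G))) (P : Sylow 2 G) :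
    (P : Subgroup G).Normal := by
  refine H5.sylow_two_normal_of_not_real (fun x g hx hg => ?_) P
  by_contra hx1
  have hn := H5.mem_normalizer_zpowers_of_conj_mem
    (hg ▸ (Subgroup.zpowers x).inv_mem (Subgroup.mem_zpowers x))
  have h1 := hhom (Subgroup.zpowers x) (by simpa using hx1) (by
    rw [Nat.card_zpowers]
    exact fun h => (Nat.not_even_iff_odd.2 hx) (even_iff_two_dvd.2 h))
  set N := Subgroup.normalizer (Subgroup.zpowers x : Set G)
  set C := Subgroup.centralizer (Subgroup.zpowers x : Set G)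
  have hc : ∀ y : G, y * x * y⁻¹ = x → y ∈ C := by
    rintro y hy _ ⟨k, rfl⟩
    exact (Commute.zpow_left (mul_inv_eq_iff_eq_mul.1 hy).symm k).eq
  have h2 : (⟨g, hn⟩ : N) ^ 2 ∈ C.subgroupOf N := by
    apply hc
    change g ^ 2 * x * (g ^ 2)⁻¹ = x
    calc g ^ 2 * x * (g ^ 2)⁻¹ = g * (g * x * g⁻¹) * g⁻¹ := by rw [pow_two]; group
      _ = (g * x * g⁻¹)⁻¹ := by rw [hg]; nth_rewrite 2 [← hg]; group
      _ = x := by rw [hg, inv_inv]
  have h3 : (⟨g, hn⟩ : N) ^ (C.relIndex N) ∈ C.subgroupOf N := Subgroup.pow_index_mem _ _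
  obtain ⟨k, hk⟩ := Nat.not_even_iff_odd.1 (fun h => h1 (even_iff_two_dvd.1 h))
  rw [hk, pow_succ, pow_mul, Subgroup.mul_mem_cancel_left _ (Subgroup.pow_mem _ h2 k)] at h3
  have h4 : x * g = g * x := h3 x (Subgroup.mem_zpowers x)
  exact hx1 (H5.eq_one_of_odd_of_eq_inv hx (by rw [← hg, ← h4, mul_inv_cancel_right]))

end Cfsg.Agent.S4049
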