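import Cfsg.Statements.S4052
import Cfsg.Agent.H5.PiHom

set_option autoImplicit false
open Cfsg

namespace Cfsg.Agent.S4052

open Subgroup Cfsg Cfsg.Agent Cfsg.Agent.FT in
theorem aux {G : Type*} [Group G] [Finite G] (π : Set ℕ) (hD : IsDPiGroup π G)
    (hhom : ∀ H : Subgroup G, H ≠ ⊥ → IsPiSubgroup π H →
      ∀ p : ℕ, p.Prime → p ∣ (𝐂(H)).relIndex 𝐍(H) → p ∈ π) :
    ∃ K : Subgroup G, ∀ x, x ∈ K ↔ IsPiElt πᶜ x := by
  refine (H5.exists_compl_of_dPi (π := π) (fun H hH x hx hx' => ?_) (⊤ : Subgroup G)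
    fun A B a b => ?_).imp fun K hK x => by simpa using hK x
  · by_cases h0 : H = ⊥
    · rw [h0, cent_bot]; trivial
    refine zpowers_le.1 (relIndex_eq_one.1 (Nat.eq_one_iff_not_exists_prime_dvd.2 fun p hp hd => ?_))
    refine (isPi_zpowers.2 hx') p hp (hd.trans (relIndex_dvd_card' _ _)) (hhom H h0 hH p hp
      (hd.trans ?_))
    have : ((𝐂(H)).subgroupOf 𝐍(H)).Normal :=
      (normal_subgroupOf_iff_le_normalizer (cent_le_norm H)).2 (H1.normalizer_le_normalizer_centralizer H)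
    have h1 := relIndex_dvd_index_of_normal ((𝐂(H)).subgroupOf 𝐍(H)) ((zpowers x).subgroupOf 𝐍(H))
    rwa [relIndex_subgroupOf (zpowers_le.2 hx)] at h1
  · obtain ⟨g, hg⟩ := hD A B ⟨a.2.1, fun X h1 h2 => a.2.2 X h2 le_top h1⟩
      ⟨b.2.1, fun X h1 h2 => b.2.2 X h2 le_top h1⟩
    exact ⟨g, trivial, hg.symm⟩

/-- Let π be a set of primes and G a finite group whose maximal π-subgroups are pairwise conjugate (so Hall π-subgroups exist, any two are conjugate, and every π-subgroup lies in one of them), and suppose N_G(H)/C_G(H) is a π-group for every nontrivial π-subgroup H. If either 3 does not divide the order of G, or the π'-elements of every proper subgroup of G form a subgroup, then the π'-elements of G form a subgroup. -/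
theorem result {G : Type*} [Group G] [Finite G] (π : Set ℕ)
    (hπ : ∀ p ∈ π, p.Prime) (hD : Cfsg.IsDPiGroup π G) (hhom : (∀ H : Subgroup G, H ≠ ⊥ → (∀ p : ℕ, p.Prime → p ∣ Nat.card ↥H → p ∈ π) →
        ∀ p : ℕ, p.Prime → p ∣ (Subgroup.centralizer (H : Set G)).relIndex (Subgroup.normalizer (H : Set G)) → p ∈ π))
    (hcase : ¬ 3 ∣ Nat.card G ∨ ∀ M : Subgroup G, M ≠ ⊤ →
      ∃ L : Subgroup ↥M, ∀ x : ↥M, x ∈ L ↔ ∀ p : ℕ, p.Prime → p ∣ orderOf x → p ∉ π) :
    (∃ K : Subgroup G, ∀ x : G, x ∈ K ↔ ∀ p : ℕ, p.Prime → p ∣ orderOf x → p ∉ π) := by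
  exact aux π hD hhom

end Cfsg.Agent.S4052
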