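import Cfsg.Statements.S4057
import Cfsg.Agent.H5.OmegaCent
import Cfsg.Agent.H5.UniTri
import Cfsg.Agent.H1.EAMod
import Cfsg.Agent.H5.Rank

set_option autoImplicit false
open Cfsg

namespace Cfsg.Agent.S4057

open Subgroup in
open scoped IsMulCommutative in
theorem finrank_le {P : Type*} [Group P] [Finite P] {p : ℕ} [Fact p.Prime] {A : Subgroup P}
    [IsMulCommutative A] (h : ∀ v : A, v ^ p = 1) (S : Finset P) (hS : Subgroup.closure (S : Set P) = A) :
    Module.finrank (ZMod p) (H1.EA A h) ≤ S.card := by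
  classical
  have hSA : ∀ s : S, (s : P) ∈ A := fun s => hS ▸ subset_closure s.2
  have := finrank_le_of_span_eq_top (R := ZMod p) (M := H1.EA A h) (v := fun s : S => H1.eaOf h ⟨s, hSA s⟩) (by
    rw [eq_top_iff]
    intro v _
    obtain ⟨⟨v, hv⟩, rfl⟩ := (H1.eaOf h).surjective v
    have hv' : v ∈ Subgroup.closure (S : Set P) := hS ▸ hv
    have : v ∈ (H1.eaSubgroup h (Submodule.span (ZMod p)
        (Set.range fun s : S => (H1.eaOf h ⟨s, hSA s⟩ : H1.EA A h)))).map A.subtype := by
      refine (Subgroup.closure_le _).2 ?_ hv'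
      intro s hs
      exact ⟨⟨s, hSA ⟨s, hs⟩⟩, (H1.mem_eaSubgroup h).2 (Submodule.subset_span ⟨⟨s, hs⟩, rfl⟩), rfl⟩
    obtain ⟨w, hw, hwv⟩ := this
    have : w = ⟨v, hv⟩ := Subtype.ext hwv
    subst this
    exact hw)
  simpa using this

/-- Let p be an odd prime and P a finite p-group in which every normal abelian subgroup can be generated by k elements. Then every subgroup of P can be generated by at most ⌊k(k+4)/4⌋ elements. -/
theorem result {P : Type*} [Group P] [Finite P] {p : ℕ} [Fact p.Prime]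
    (hp : p ≠ 2) (hP : IsPGroup p P) (k : ℕ)
    (hab : ∀ A : Subgroup P, A.Normal → IsMulCommutative A → ∃ S : Finset P, S.card ≤ k ∧ Subgroup.closure (S : Set P) = A) :
    ∀ H : Subgroup P, ∃ S : Finset P, S.card ≤ k * (k + 4) / 4 ∧ Subgroup.closure (S : Set P) = H := by
  classical
  open Subgroup in
  open scoped IsMulCommutative in
  intro H
  obtain ⟨A, -, hAn, hA, hmax⟩ := H5.exists_max_normal_elemAb p (⊥ : Subgroup P)
    ⟨inferInstance, by simp⟩
  obtain ⟨S, hSk, hS⟩ := hab A hAn hA.1
  haveI := hA.1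
  have he : ∀ v : A, v ^ p = 1 := H1.pow_eq_one_of_isElementaryAbelian hA
  have hr := (finrank_le he S hS).trans hSk
  have hcA : Nat.card A ≤ p ^ k := by
    rw [← H1.card_EA he, Module.natCard_eq_pow_finrank (K := ZMod p), Nat.card_zmod]
    exact Nat.pow_le_pow_right (Fact.out : p.Prime).pos hr
  obtain ⟨T, hT, hT'⟩ := H5.exists_generators_pgroup_rep (hP.to_subgroup H)
    (H1.autRep he ((MulAut.conjNormal (H := A)).comp H.subtype))
  set X : Subgroup P := H ⊓ centralizer (A : Set P) with hX
  have hker : (H1.autRep he ((MulAut.conjNormal (H := A)).comp H.subtype)).ker.map H.subtype ≤ X := by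
    rintro _ ⟨g, hg, rfl⟩
    refine ⟨g.2, mem_centralizer_iff.2 fun a ha => ?_⟩
    have h1 := (H1.autRep_eq_one_iff he _ g).1 hg
    have h2 := congrArg (fun f : MulAut A => ((f ⟨a, ha⟩ : A) : P)) h1
    simp only [MonoidHom.comp_apply, MulAut.conjNormal_apply, MulAut.one_apply] at h2
    exact (mul_inv_eq_iff_eq_mul.1 h2).symm
  have hΩ : ∀ x : X, x ^ p = 1 → (x : P) ∈ A := fun x hx =>
    H5.mem_of_cent_max_normal_elemAb hp hP hA hmax x.2.2 (by simpa using congrArg Subtype.val hx)
  have h1 := H5.index_frattini_le_of_pCentral hp X (hP.to_subgroup X) fun x hx =>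
    mem_center_iff.2 fun y => Subtype.ext (mem_centralizer_iff.1 y.2.2 x (hΩ x hx)).symm
  have h2 : Nat.card {x : X // x ^ p = 1} ≤ Nat.card A :=
    Nat.card_le_card_of_injective (fun x => ⟨x.1, hΩ x.1 x.2⟩) fun x y h =>
      Subtype.ext (Subtype.ext (congrArg (fun z : A => (z : P)) h))
  obtain ⟨r, hr'⟩ := (hP.to_subgroup X).index (frattini X)
  obtain ⟨x, hx⟩ := H7.exists_generators_of_index_frattini hr'
  have hrk : r ≤ k := (Nat.pow_le_pow_iff_right (Fact.out : p.Prime).one_lt).1
    (hr' ▸ h1.trans (h2.trans hcA))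
  refine ⟨T.image Subtype.val ∪ Finset.univ.image fun i => (x i : P), ?_, ?_⟩
  · refine (Finset.card_union_le _ _).trans ?_
    have h3 : (T.image Subtype.val).card ≤ k ^ 2 / 4 :=
      Finset.card_image_le.trans (hT.trans (Nat.div_le_div_right (Nat.pow_le_pow_left hr 2)))
    have h4 : (Finset.univ.image fun i => (x i : P)).card ≤ k :=
      Finset.card_image_le.trans (by simpa using hrk)
    have h5 : k * (k + 4) / 4 = k ^ 2 / 4 + k := by
      rw [show k * (k + 4) = k ^ 2 + k * 4 by ring, Nat.add_mul_div_right _ _ (by norm_num)]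
    omega
  · have hxX : closure ((Finset.univ.image fun i => (x i : P) : Finset P) : Set P) = X := by
      have := congrArg (Subgroup.map X.subtype) hx
      rw [MonoidHom.map_closure, ← MonoidHom.range_eq_map, range_subtype] at this
      refine Eq.trans ?_ this
      congr 1
      ext y
      simp
    have hTH := congrArg (Subgroup.map H.subtype) hT'
    rw [Subgroup.map_sup, MonoidHom.map_closure, ← MonoidHom.range_eq_map, range_subtype] at hTH
    rw [Finset.coe_union, Subgroup.closure_union, hxX, Finset.coe_image]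
    refine le_antisymm (sup_le ?_ inf_le_left) ?_
    · rw [closure_le]
      rintro _ ⟨y, -, rfl⟩
      exact y.2
    · conv_lhs => rw [← hTH]
      exact sup_le_sup_left hker _

end Cfsg.Agent.S4057
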