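import Cfsg.Statements.S4065
import Cfsg.Agent.L.SL2Model
import Cfsg.Agent.L.Invol
import Cfsg.Agent.H1.Basic

set_option autoImplicit false
open Cfsg

namespace Cfsg.Agent.S4065

open Subgroup Matrix

theorem comm_iff {F : Type*} [Field F] (a b : Matrix (Fin 2) (Fin 2) F) :
    a * b = b * a ↔ a 0 1 * b 1 0 = a 1 0 * b 0 1 ∧
      (a 0 0 - a 1 1) * b 0 1 = a 0 1 * (b 0 0 - b 1 1) ∧
      (a 0 0 - a 1 1) * b 1 0 = a 1 0 * (b 0 0 - b 1 1) := by
  rw [← Matrix.ext_iff]
  simp only [Fin.forall_fin_two, Matrix.mul_apply, Fin.sum_univ_two]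
  constructor
  · rintro ⟨⟨h1, h2⟩, h3, -⟩
    exact ⟨by linear_combination h1, by linear_combination h2, by linear_combination -h3⟩
  · rintro ⟨h1, h2, h3⟩
    exact ⟨⟨by linear_combination h1, by linear_combination h2⟩, by linear_combination -h3,
      by linear_combination -h1⟩

theorem par_trans {F : Type*} [Field F] {x1 x2 x3 a1 a2 a3 b1 b2 b3 : F}
    (h : x1 ≠ 0 ∨ x2 ≠ 0 ∨ x3 ≠ 0)
    (ha : x1 * a2 = x2 * a1 ∧ x3 * a1 = x1 * a3 ∧ x3 * a2 = x2 * a3)
    (hb : x1 * b2 = x2 * b1 ∧ x3 * b1 = x1 * b3 ∧ x3 * b2 = x2 * b3) :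
    a1 * b2 = a2 * b1 ∧ a3 * b1 = a1 * b3 ∧ a3 * b2 = a2 * b3 := by
  grind

theorem comm_trans {F : Type*} [Field F] [DecidableEq F] [CharP F 2]
    {x a b : Matrix.SpecialLinearGroup (Fin 2) F} (hx : x ≠ 1) (ha : x * a = a * x)
    (hb : x * b = b * x) : a * b = b * a := by
  have h0 : x.1 0 1 ≠ 0 ∨ x.1 1 0 ≠ 0 ∨ x.1 0 0 - x.1 1 1 ≠ 0 := by
    by_contra h
    push Not at h
    apply hx
    rw [← Subgroup.mem_bot, ← L.center_SL2_eq_bot, Subgroup.mem_center_iff]
    intro g
    refine Subtype.ext ((comm_iff x.1 g.1).2 ?_).symm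
    rw [h.1, h.2.1, h.2.2]
    simp
  exact Subtype.ext ((comm_iff a.1 b.1).2 (par_trans h0 ((comm_iff x.1 a.1).1
    (congrArg Subtype.val ha)) ((comm_iff x.1 b.1).1 (congrArg Subtype.val hb))))

theorem ti_of_trans {G : Type*} [Group G]
    (h : ∀ x a b : G, x ≠ 1 → x * a = a * x → x * b = b * x → a * b = b * a) (x : G) :
    Cfsg.IsTISubset (centralizer ({x} : Set G) : Set G) := by
  intro g hg y hy hgy
  by_contra hy1
  apply hg
  by_cases hx : x = 1
  · have : centralizer ({x} : Set G) = ⊤ := by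
      rw [hx, eq_top_iff]; intro a _; simp [mem_centralizer_singleton_iff]
    rw [this, normalizer_eq_top]; exact mem_top g
  have h1 : ∀ z ∈ centralizer ({x} : Set G), z ≠ 1 →
      centralizer ({z} : Set G) = centralizer ({x} : Set G) := fun z hz hz1 => by
    rw [mem_centralizer_singleton_iff] at hz
    ext a
    simp only [mem_centralizer_singleton_iff]
    exact ⟨fun ha => h z a x hz1 ha.symm hz, fun ha => h x a z hx ha.symm hz.symm⟩
  have h2 := h1 _ hgy (fun h => hy1 (by
    have : y = g⁻¹ * (g * y * g⁻¹) * g := by group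
    rw [this, h]; group))
  rw [L.centralizer_singleton_conj, h1 y hy hy1] at h2
  exact H1.map_conj_eq_self_iff.1 h2

/-- Let F be a finite field with 2ⁿ elements, n ≥ 2. In PSL₂(F) the centralizer of every element meets each of its conjugates by elements outside its normalizer trivially. -/
theorem result (n : ℕ) (hn : 2 ≤ n)
    (x : Matrix.ProjectiveSpecialLinearGroup (Fin 2) (GaloisField 2 n)) :
    Cfsg.IsTISubset (Subgroup.centralizer ({x} : Set (Matrix.ProjectiveSpecialLinearGroup (Fin 2) (GaloisField 2 n))) :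
      Set (Matrix.ProjectiveSpecialLinearGroup (Fin 2) (GaloisField 2 n))) := by
  classical
  refine ti_of_trans (fun x a b hx ha hb => ?_) x
  let e := L.psl2Equiv (GaloisField 2 n)
  apply e.injective
  rw [map_mul, map_mul]
  exact comm_trans (x := e x) (by simpa using hx) (by rw [← map_mul, ha, map_mul])
    (by rw [← map_mul, hb, map_mul])

end Cfsg.Agent.S4065
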