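import Cfsg.Statements.S4066
import Cfsg.Agent.H5.Misc
import Cfsg.Agent.L.BaerSuzuki
import Cfsg.Agent.L.Fitting
import Cfsg.Agent.H3.PBasic
import Cfsg.Agent.H1.Basic
import Cfsg.Agent.H5.ThompsonAux

set_option autoImplicit false
open Cfsg

namespace Cfsg.Agent.S4066

open Subgroup
open scoped Pointwise

theorem nilp {G : Type*} [Group G] [Finite G]
    (hTI : ∀ x : G, Cfsg.IsTISubset (Subgroup.centralizer ({x} : Set G) : Set G)) {y : G}
    (hy : y ≠ 1) : Group.IsNilpotent (centralizer ({y} : Set G)) := by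
  rw [← L.fittingSubgroup_eq_top_iff, eq_top_iff]
  rintro ⟨x, hx⟩ -
  refine L.mem_fittingSubgroup_of_isNilpotent_closure fun ⟨g, hg⟩ => ?_
  have h1 : g ∈ normalizer (centralizer ({x} : Set G) : Set G) := by
    by_contra h
    have hyx : y ∈ centralizer ({x} : Set G) :=
      mem_centralizer_singleton_iff.2 (mem_centralizer_singleton_iff.1 hx).symm
    refine hy (hTI x g h y hyx ?_)
    rw [mem_centralizer_singleton_iff.1 hg, mul_inv_cancel_right]
    exact hyx
  have h2 : g * x * g⁻¹ ∈ centralizer ({x} : Set G) :=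
    (mem_normalizer_iff.1 h1 x).1 (mem_centralizer_singleton_iff.2 rfl)
  haveI : IsMulCommutative (closure ({⟨x, hx⟩, ⟨g, hg⟩ * ⟨x, hx⟩ * (⟨g, hg⟩)⁻¹} :
      Set (centralizer ({y} : Set G)))) := by
    refine isMulCommutative_closure fun a ha b hb => ?_
    have h3 := mem_centralizer_singleton_iff.1 h2
    rcases ha with rfl | rfl <;> rcases hb with rfl | rfl
    · rfl
    · exact Subtype.ext h3.symm
    · exact Subtype.ext h3
    · rfl
  exact L.isNilpotent_of_isMulCommutative _

/-- Let G be a finite group in which the centralizer of every element meets each of its conjugates by elements outside its normalizer trivially. Then any two distinct Sylow p-subgroups of G, for any prime p, intersect trivially. -/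
theorem result {G : Type*} [Group G] [Finite G] (hTI : ∀ x : G, Cfsg.IsTISubset (Subgroup.centralizer ({x} : Set G) : Set G))
    {p : ℕ} [Fact p.Prime] (P Q : Sylow p G) (hPQ : P ≠ Q) : (P : Subgroup G) ⊓ (Q : Subgroup G) = ⊥ := by
  by_contra h
  obtain ⟨⟨y, hyP, hyQ⟩, hy1⟩ := ne_bot_iff_exists_ne_one.1 h
  replace hy1 : y ≠ 1 := fun h => hy1 (Subtype.ext h)
  obtain ⟨g, rfl⟩ := MulAction.exists_smul_eq G P Q
  haveI := P.isPGroup'.isNilpotent
  have hP : (P : Subgroup G) ≠ ⊥ := fun h => hy1 (mem_bot.1 (h ▸ hyP : y ∈ (⊥ : Subgroup G)))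
  obtain ⟨⟨z, hzP, hzC⟩, hz1⟩ := ne_bot_iff_exists_ne_one.1 (H5.zOf_ne_bot hP)
  replace hz1 : z ≠ 1 := fun h => hz1 (Subtype.ext h)
  have hPC : (P : Subgroup G) ≤ centralizer {z} := fun a ha =>
    mem_centralizer_singleton_iff.2 (hzC a ha)
  have hyQ' : g⁻¹ * y * g ∈ (P : Subgroup G) := by
    have : y ∈ MulAut.conj g • (P : Subgroup G) := hyQ
    rw [mem_pointwise_smul_iff_inv_smul_mem] at this
    simpa using this
  have hg : g ∈ normalizer (centralizer ({z} : Set G) : Set G) := by
    by_contra hg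
    have := hTI z g hg _ (hPC hyQ') (by simpa [mul_assoc] using hPC hyP)
    apply hy1
    have h2 : y = g * (g⁻¹ * y * g) * g⁻¹ := by group
    rw [h2, this]; group
  have hQC : ((g • P : Sylow p G) : Subgroup G) ≤ centralizer {z} := fun a ha => by
    have : a ∈ MulAut.conj g • (P : Subgroup G) := ha
    rw [mem_pointwise_smul_iff_inv_smul_mem] at this
    have h2 := (mem_normalizer_iff.1 hg _).1 (hPC this)
    simpa [mul_assoc] using h2
  haveI := nilp hTI hz1
  have h3 := L.isPGroup_closure_of_isNilpotent (Fact.out : p.Prime) (K := centralizer {z})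
    (S := (P : Set G) ∪ (g • P : Sylow p G)) (Set.union_subset hPC hQC) (by
      rintro s (hs | hs)
      · obtain ⟨k, hk⟩ := P.isPGroup' ⟨s, hs⟩
        exact ⟨k, congrArg Subtype.val hk⟩
      · obtain ⟨k, hk⟩ := (g • P).isPGroup' ⟨s, hs⟩
        exact ⟨k, congrArg Subtype.val hk⟩)
  have h4 := P.3 h3 fun a ha => subset_closure (Or.inl ha)
  have h5 := (g • P).3 h3 fun a ha => subset_closure (Or.inr ha)
  exact hPQ (Sylow.ext (h4.symm.trans h5))

end Cfsg.Agent.S4066
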