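import Cfsg.Statements.S4067
import Cfsg.Agent.H5.ExtAut
import Cfsg.Agent.H5.Misc
import Cfsg.Agent.H6.ClassPi
import Cfsg.Agent.H1.PAction
import Cfsg.Agent.H3.PBasic
import Cfsg.Agent.H3.ClassCount
import Cfsg.Agent.L.Invol

set_option autoImplicit false
open Cfsg

namespace Cfsg.Agent.S4067

open Subgroup Finset
open scoped commutatorElement

section
variable {G : Type*} [Group G] [Finite G] {p : ℕ}

/-- `p`-th powers of central elements -/
def zp (G : Type*) [Group G] (p : ℕ) : Subgroup G where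
  carrier := {w | ∃ z ∈ center G, z ^ p = w}
  one_mem' := ⟨1, one_mem _, one_pow _⟩
  mul_mem' := by
    rintro _ _ ⟨a, ha, rfl⟩ ⟨b, hb, rfl⟩
    exact ⟨a * b, mul_mem ha hb, Commute.mul_pow (mem_center_iff.1 hb a) _⟩
  inv_mem' := by
    rintro _ ⟨a, ha, rfl⟩
    exact ⟨a⁻¹, inv_mem ha, inv_pow _ _⟩

theorem zp_le : zp G p ≤ center G := by
  rintro _ ⟨a, ha, rfl⟩; exact pow_mem ha _

theorem le_index (hp : ∀ r : ℕ, r.Prime → r ∣ Nat.card G → p ≤ r) {n : ℕ} (h : n ∣ Nat.card G)
    (h1 : n ≠ 1) : p ≤ n :=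
  (hp _ (Nat.minFac_prime h1) ((Nat.minFac_dvd n).trans h)).trans
    (Nat.minFac_le (Nat.pos_of_dvd_of_pos h Nat.card_pos))

theorem exists_good (hp : p.Prime) (hc : Nat.card (_root_.commutator G) = p)
    (hZ : _root_.commutator G ≤ center G) :
    ∃ a : G, a ∉ center G ∧ ∀ x : G, ⁅a, x⁆ ≠ 1 →
      zpowers (a ^ p * ⁅a, x⁆ ^ p.choose 2) ⊔ zp G p ≠ center G := by
  haveI := Fact.mk hp
  have hm : ∀ u v : G, ⁅u, v⁆ ∈ _root_.commutator G := fun u v =>
    commutator_mem_commutator (mem_top u) (mem_top v)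
  have hpow : ∀ w ∈ _root_.commutator G, w ^ p = 1 := fun w hw => by
    have := pow_card_eq_one' (x := (⟨w, hw⟩ : _root_.commutator G))
    rw [hc] at this
    exact congrArg Subtype.val this
  have hcm : ∀ u v w : G, Commute u ⁅v, w⁆ := fun u v w => mem_center_iff.1 (hZ (hm v w)) u
  obtain ⟨ε, hε1, hε2, hε3, hε⟩ : ∃ ε ∈ center G, ε * ε = 1 ∧ (∀ i : ℤ, ¬ (p : ℤ) ∣ i → ε ^ i = ε) ∧
      ∀ u v : G, ⁅u, v⁆ ≠ 1 → ⁅u, v⁆ ^ p.choose 2 = ε := by
    rcases hp.eq_two_or_odd' with rfl | hodd
    · obtain ⟨ε, hε1, hε⟩ := (Nat.card_eq_two_iff' (1 : _root_.commutator G)).1 hc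
      have h1 : (ε : G) ^ 2 = 1 := hpow _ ε.2
      refine ⟨ε, hZ ε.2, by rw [← sq, h1], fun i hi => ?_, fun u v huv => ?_⟩
      · obtain ⟨j, rfl⟩ : Odd i := Int.not_even_iff_odd.1 fun h => hi (even_iff_two_dvd.1 h)
        rw [zpow_add, zpow_mul, zpow_ofNat, h1, one_zpow, one_mul, zpow_one]
      · simpa using congrArg Subtype.val (hε ⟨_, hm u v⟩ fun h => huv (congrArg Subtype.val h))
    · refine ⟨1, one_mem _, one_mul _, fun i _ => one_zpow i, fun u v _ => ?_⟩
      obtain ⟨k, hk⟩ := hp.dvd_choose_self two_ne_zero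
        (lt_of_le_of_ne hp.two_le (by rintro rfl; exact absurd hodd (by decide)))
      rw [hk, pow_mul, hpow _ (hm u v), one_pow]
  have hne : zp G p ≠ center G := fun h => by
    have h1 : Function.Surjective (fun z : center G => (z ^ p : center G)) := fun ⟨w, hw⟩ => by
      obtain ⟨z, hz, rfl⟩ : w ∈ zp G p := h ▸ hw
      exact ⟨⟨z, hz⟩, rfl⟩
    obtain ⟨⟨w, hw⟩, hw1⟩ := exists_prime_orderOf_dvd_card' (G := _root_.commutator G) p (hc ▸ dvd_rfl)
    have h2 := Finite.injective_iff_surjective.2 h1 (a₁ := ⟨w, hZ hw⟩) (a₂ := 1)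
      (Subtype.ext (by simpa using hpow w hw))
    rw [show (⟨w, hw⟩ : _root_.commutator G) = 1 from Subtype.ext (Subtype.ext_iff.1 h2 :),
      orderOf_one] at hw1
    exact hp.one_lt.ne hw1
  by_contra hcon
  push Not at hcon
  have h0 : ∀ a : G, a ∉ center G → zpowers (a ^ p * ε) ⊔ zp G p = center G := fun a ha => by
    obtain ⟨x, hx1, hx2⟩ := hcon a ha
    rwa [hε a x hx1] at hx2
  have h1 : ∀ a : G, a ∉ center G → a ^ p * ε ∉ zp G p := fun a ha h =>
    hne (by rw [← h0 a ha, sup_eq_right.2 (zpowers_le.2 h)])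
  have hpc : ∀ a : G, a ^ p ∈ center G := fun a => mem_center_iff.2 fun g => by
    rw [eq_comm, ← commutatorElement_eq_one_iff_mul_comm,
      H1.commutatorElement_pow_left_of_central (hcm _ _ _), hpow _ (hm _ _)]
  obtain ⟨a, b, hab⟩ : ∃ a b : G, a * b ≠ b * a := by
    by_contra h
    push Not at h
    have : _root_.commutator G = ⊥ := by
      rw [eq_bot_iff, _root_.commutator_def, commutator_le]
      exact fun a _ b _ => mem_bot.2 (commutatorElement_eq_one_iff_mul_comm.2 (h a b))
    rw [this, card_bot] at hc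
    exact hp.one_lt.ne hc
  have ha : a ∉ center G := fun h => hab (mem_center_iff.1 h b).symm
  have hb : b ∉ center G := fun h => hab (mem_center_iff.1 h a)
  haveI := H3.normal_of_le_center (zp_le (G := G) (p := p))
  obtain ⟨_, ⟨j, rfl⟩, w, hw, h2⟩ := mem_sup_of_normal_right.1
    (h0 b hb ▸ mul_mem (hpc a) hε1 : a ^ p * ε ∈ zpowers (b ^ p * ε) ⊔ zp G p)
  simp only at h2
  have hj : ¬ (p : ℤ) ∣ j := by
    rintro ⟨k, rfl⟩
    refine h1 a ha (h2 ▸ mul_mem ?_ hw)
    rw [mul_comm, zpow_mul, zpow_natCast]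
    exact ⟨_, zpow_mem (mul_mem (hpc b) hε1) k, rfl⟩
  have hbj : b ^ j * a⁻¹ ∉ center G := fun h => hab (by
    have := mem_center_iff.1 h b
    rw [← mul_assoc, (Commute.self_zpow b j).eq, mul_assoc, mul_assoc, mul_right_inj,
      eq_inv_mul_iff_mul_eq, ← mul_assoc, mul_inv_eq_iff_eq_mul] at this
    exact this)
  have hne1 : ⁅a⁻¹, b ^ j⁆ ≠ 1 := fun h => by
    rw [commutatorElement_eq_one_iff_commute] at h
    have h3 : b ^ j ∈ centralizer {a} := mem_centralizer_singleton_iff.2 (Commute.inv_left_iff.1 h).eq.symm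
    have h4 : b ^ p ∈ centralizer {a} := center_le_centralizer _ (hpc b)
    obtain ⟨s, t, hst⟩ := (Nat.prime_iff_prime_int.1 hp).irreducible.coprime_iff_not_dvd.2 hj
    have : b ∈ centralizer {a} := by
      rw [← zpow_one b, ← hst, zpow_add, mul_comm s, mul_comm t, zpow_mul, zpow_mul, zpow_natCast]
      exact mul_mem (zpow_mem h4 _) (zpow_mem h3 _)
    exact hab (mem_centralizer_singleton_iff.1 this).symm
  apply h1 _ hbj
  rw [H1.mul_pow_of_central (hcm _ _ _) (hcm _ _ _), hε _ _ hne1, mul_assoc, hε2, mul_one]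
  rw [Commute.mul_zpow (mem_center_iff.1 hε1 _), hε3 j hj, mul_assoc, ← mem_center_iff.1 hε1 w,
    ← mul_assoc, mul_left_inj] at h2
  rw [inv_pow, ← h2, ← zpow_natCast (b ^ j), ← zpow_mul, mul_comm j, zpow_mul, zpow_natCast,
    mul_inv_rev, mem_center_iff.1 (zp_le (inv_mem hw)) _ |>.symm, mul_inv_cancel_left]
  exact inv_mem hw

theorem exists_many (hp : p.Prime) (hmin : ∀ r : ℕ, r.Prime → r ∣ Nat.card G → p ≤ r)
    (hc : Nat.card (_root_.commutator G) = p) (hZ : _root_.commutator G ≤ center G) {a x : G}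
    (ha : a ∉ center G) (h : zpowers (a ^ p * ⁅a, x⁆ ^ p.choose 2) ⊔ zp G p ≠ center G) :
    ∃ U : Subgroup G, U ≤ zpowers a ⊔ center G ∧ p ^ 2 ≤ Nat.card U ∧
      ∀ u ∈ U, (x * u) ^ p = x ^ p := by
  have hm : ∀ u v : G, ⁅u, v⁆ ∈ _root_.commutator G := fun u v =>
    commutator_mem_commutator (mem_top u) (mem_top v)
  have hcm : ∀ u v w : G, Commute u ⁅v, w⁆ := fun u v w => mem_center_iff.1 (hZ (hm v w)) u
  set A := zpowers a ⊔ center G with hA
  have hAc : ∀ u ∈ A, ∀ v ∈ A, Commute u v := fun u hu v hv => by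
    obtain ⟨_, ⟨i, rfl⟩, z, hz, rfl⟩ := mem_sup_of_normal_right.1 hu
    obtain ⟨_, ⟨j, rfl⟩, w, hw, rfl⟩ := mem_sup_of_normal_right.1 hv
    exact Commute.mul_left (Commute.mul_right (Commute.zpow_zpow_self a i j)
      (mem_center_iff.1 hw _)) (mem_center_iff.1 hz _).symm
  let f : A →* G := MonoidHom.mk' (fun u => (u : G) ^ p * ⁅(u : G), x⁆ ^ p.choose 2) fun u v => by
    rw [Subgroup.coe_mul, (hAc u u.2 v v.2).mul_pow,
      H1.commutatorElement_mul_left_of_central (hcm _ _ _), (hcm _ _ _).mul_pow, mul_assoc,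
      mul_assoc, mul_right_inj, ← mul_assoc]
    exact (((hcm _ u x).pow_right _)).eq
  have hf : ∀ u : A, f u = (u : G) ^ p * ⁅(u : G), x⁆ ^ p.choose 2 := fun u => rfl
  set R := zpowers (a ^ p * ⁅a, x⁆ ^ p.choose 2) ⊔ zp G p with hR
  have hRZ : R ≤ center G := sup_le (zpowers_le.2 (mul_mem (mem_center_iff.2 fun g => by
    have := pow_card_eq_one' (x := (⟨_, hm a g⟩ : _root_.commutator G))
    rw [hc] at this
    rw [eq_comm, ← commutatorElement_eq_one_iff_mul_comm,
      H1.commutatorElement_pow_left_of_central (hcm _ _ _)]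
    exact congrArg Subtype.val this) (pow_mem (hZ (hm _ _)) _))) zp_le
  have hfR : f.range ≤ R := by
    rintro _ ⟨⟨u, hu⟩, rfl⟩
    obtain ⟨_, ⟨i, rfl⟩, z, hz, rfl⟩ := mem_sup_of_normal_right.1 hu
    have : (⟨_, hu⟩ : A) = ⟨a, mem_sup_left (mem_zpowers a)⟩ ^ i * ⟨z, mem_sup_right hz⟩ := rfl
    rw [this, map_mul, map_zpow, hf, hf]
    refine mul_mem_sup (zpow_mem (mem_zpowers _) i) ⟨z, hz, ?_⟩
    rw [commutatorElement_eq_one_iff_mul_comm.2 (mem_center_iff.1 hz x).symm, one_pow, mul_one]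
  have h1 : p * Nat.card R ≤ Nat.card (center G) := by
    rw [← H1.card_mul_relIndex hRZ, mul_comm]
    exact Nat.mul_le_mul_left _ (le_index hmin ((relIndex_dvd_card _ _).trans
      (card_subgroup_dvd_card _)) fun h1 => h (le_antisymm hRZ (relIndex_eq_one.1 h1)))
  have h2 : p * Nat.card (center G) ≤ Nat.card A := by
    rw [← H1.card_mul_relIndex (le_sup_right : center G ≤ A), mul_comm]
    exact Nat.mul_le_mul_left _ (le_index hmin ((relIndex_dvd_card _ _).trans
      (card_subgroup_dvd_card _)) fun h1 => ha (relIndex_eq_one.1 h1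
        (mem_sup_left (mem_zpowers a))))
  have h3 := f.ker.card_mul_index
  rw [index_ker] at h3
  have h4 := card_le_of_le hfR
  refine ⟨f.ker.map A.subtype, map_subtype_le _, ?_, ?_⟩
  · rw [card_map_of_injective A.subtype_injective]
    have : 0 < Nat.card R := Nat.card_pos
    nlinarith
  · rintro _ ⟨u, hu, rfl⟩
    rw [H1.mul_pow_of_central (hcm _ _ _) (hcm _ _ _), mul_assoc]
    exact mul_eq_left.2 hu

end

/-- Let G be a finite non-abelian group and p the least prime dividing its order. Then the automorphism group of G has at most #G/p orbits on G. -/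
theorem result {G : Type*} [Group G] [Finite G] (hna : ¬ IsMulCommutative G) :
    Nat.card (MulAction.orbitRel.Quotient (MulAut G) G) ≤ Nat.card G / (Nat.card G).minFac := by
  classical
  haveI := Fintype.ofFinite G
  set p := (Nat.card G).minFac with hpdef
  have hcard : Nat.card G ≠ 1 := fun h => by
    haveI := (Nat.card_eq_one_iff_unique.1 h).1
    exact hna ⟨⟨fun a b => Subsingleton.elim _ _⟩⟩
  have hp : p.Prime := Nat.minFac_prime hcard
  have hmin : ∀ r : ℕ, r.Prime → r ∣ Nat.card G → p ≤ r := fun r hr h =>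
    Nat.minFac_le_of_dvd hr.two_le h
  rw [Nat.le_div_iff_mul_le hp.pos]
  set q : G → MulAction.orbitRel.Quotient (MulAut G) G := Quotient.mk'' with hq
  have hqq : ∀ (α : MulAut G) (x : G), q (α x) = q x := fun α x =>
    Quotient.sound' (MulAction.orbitRel_apply.2 ⟨α, rfl⟩)
  have hqc : ∀ x y : G, IsConj x y → q y = q x := fun x y h => by
    obtain ⟨g, rfl⟩ := isConj_iff.1 h
    exact hqq (MulAut.conj g) x
  by_cases hk : p * Nat.card (ConjClasses G) ≤ Nat.card G
  · refine le_trans ?_ hk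
    rw [mul_comm]
    refine Nat.mul_le_mul_left _ (Nat.card_le_card_of_surjective
      (Quotient.lift q fun a b h => (hqc a b h).symm) fun y => ?_)
    obtain ⟨x, rfl⟩ := Quotient.mk''_surjective y
    exact ⟨ConjClasses.mk x, rfl⟩
  have h1 := H6.card_commutator_le_of_lt_mul hmin (not_le.1 hk)
  haveI := H6.isNilpotent_of_card_commutator_le hmin h1
  have hne : _root_.commutator G ≠ ⊥ := fun h => hna ⟨⟨fun a b =>
    commutatorElement_eq_one_iff_mul_comm.1 (mem_bot.1
      (h ▸ commutator_mem_commutator (mem_top a) (mem_top b)))⟩⟩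
  have hc : Nat.card (_root_.commutator G) = p :=
    le_antisymm h1 (le_index hmin (card_subgroup_dvd_card _) fun h => hne (card_eq_one.1 h))
  have hZ : _root_.commutator G ≤ center G := by
    have h2 := H3.normal_inf_center_ne_bot _ hne
    have h3 := card_dvd_of_le (inf_le_left : _root_.commutator G ⊓ center G ≤ _)
    rw [hc, Nat.dvd_prime hp] at h3
    exact inf_eq_left.1 (H1.eq_of_le_of_card_le inf_le_left
      (hc.trans (h3.resolve_left fun h => h2 (card_eq_one.1 h)).symm).le)
  obtain ⟨a, ha, hgood⟩ := exists_good hp hc hZ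
  set C := centralizer ({a} : Set G) with hC
  have hCt : ∀ x : G, x ∉ center G → centralizer ({x} : Set G) ≠ ⊤ := fun x hx h =>
    hx (mem_center_iff.2 fun g => mem_centralizer_singleton_iff.1 (h ▸ mem_top g))
  have hCi : C.index = p := by
    refine le_antisymm ?_ (le_index hmin (index_dvd_card _) fun h => hCt a ha (index_eq_one.1 h))
    rw [← hc]
    exact (Nat.card_le_card_of_injective _ (quotientCentralizerEmbedding a).injective).trans
      (Nat.card_le_card_of_injective (Set.inclusion fun _ ⟨u, v, h⟩ =>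
        h ▸ commutator_mem_commutator (mem_top u) (mem_top v))
        (Set.inclusion_injective _))
  have hZC : center G ≤ C := center_le_centralizer _
  haveI hCn : C.Normal := Subgroup.Normal.of_commutator_le G (hZ.trans hZC)
  set S1 := univ.filter (· ∈ center G) with hS1
  set S2 := univ.filter (fun x => x ∈ C ∧ x ∉ center G) with hS2
  set S3 := univ.filter (· ∉ C) with hS3
  have h2 : Nat.card (MulAction.orbitRel.Quotient (MulAut G) G) ≤
      (S1.image q).card + (S2.image q).card + (S3.image q).card := by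
    haveI := Fintype.ofFinite (MulAction.orbitRel.Quotient (MulAut G) G)
    rw [Nat.card_eq_fintype_card, ← card_univ]
    refine le_trans (card_le_card ?_) ((card_union_le _ _).trans
      (Nat.add_le_add_right (card_union_le _ _) _))
    intro y _
    obtain ⟨x, rfl⟩ := Quotient.mk''_surjective y
    rw [← image_union, ← image_union]
    refine mem_image_of_mem q ?_
    simp only [hS1, hS2, hS3, mem_union, mem_filter, mem_univ, true_and]
    tauto
  have h3 : (S1.image q).card ≤ Nat.card (center G) :=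
    card_image_le.trans (H3.card_filter_mem_subgroup _).le
  have h4 : p * (S2.image q).card ≤ S2.card := mul_card_image_le_card _ _ fun y hy => by
    obtain ⟨x, hx, rfl⟩ := mem_image.1 hy
    simp only [hS2, mem_filter, mem_univ, true_and] at hx
    refine (le_index hmin (index_dvd_card _) fun h => hCt x hx.2 (index_eq_one.1 h)).trans ?_
    rw [← H5.ncard_carrier_eq_index, ← Set.ncard_coe_finset]
    refine Set.ncard_le_ncard fun y hy => ?_
    have h5 : IsConj x y := (ConjClasses.mk_eq_mk_iff_isConj.1 (ConjClasses.mem_carrier_iff_mk_eq.1 hy)).symm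
    simp only [hS2, coe_filter, mem_filter, mem_univ, true_and, Set.mem_setOf_eq]
    refine ⟨?_, hqc x y h5⟩
    obtain ⟨g, rfl⟩ := isConj_iff.1 h5
    exact ⟨hCn.conj_mem x hx.1 g, fun h => hx.2 (by simpa [mul_assoc] using (inferInstance : (center G).Normal).conj_mem _ h g⁻¹)⟩
  have h5 : p ^ 2 * (S3.image q).card ≤ S3.card := mul_card_image_le_card _ _ fun y hy => by
    obtain ⟨x, hx, rfl⟩ := mem_image.1 hy
    simp only [hS3, mem_filter, mem_univ, true_and] at hx
    obtain ⟨U, hU1, hU2, hU3⟩ := exists_many hp hmin hc hZ ha (hgood x fun h =>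
      hx (mem_centralizer_singleton_iff.2 (commutatorElement_eq_one_iff_mul_comm.1 h).symm))
    have hUC : U ≤ centralizer (C : Set G) := hU1.trans (sup_le (zpowers_le.2 fun c hc =>
      mem_centralizer_singleton_iff.1 hc) (center_le_centralizer _))
    have hUC' : U ≤ C := hU1.trans (sup_le (zpowers_le.2 (mem_centralizer_singleton_iff.2 rfl)) hZC)
    rw [← H3.card_filter_mem_subgroup] at hU2
    refine hU2.trans (card_le_card_of_injOn (fun u => x * u) (fun u hu => ?_)
      fun u _ v _ h => mul_left_cancel h)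
    simp only [hS3, coe_filter, mem_filter, mem_univ, true_and, Set.mem_setOf_eq] at hu ⊢
    refine ⟨fun h => hx ((Subgroup.mul_mem_cancel_right C (hUC' hu)).1 h), ?_⟩
    obtain ⟨α, h1, -⟩ := H5.exists_mulAut_extend hp hx (H3.pow_mem_of_index_eq hCi x)
      ((H3.isCoatom_of_index_prime (hCi ▸ hp)).2 _ (lt_of_le_of_ne le_sup_right fun h =>
        hx (h ▸ mem_sup_left (mem_zpowers x)))) (y := x * u) (by simpa using hUC' hu)
      (fun c hc => by rw [mul_assoc x u c, ← hUC hu c hc]; group) (hU3 u hu)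
    rw [← h1, hqq]
  have h6 : S2.card + Nat.card (center G) = Nat.card C := by
    rw [← H3.card_filter_mem_subgroup, ← H3.card_filter_mem_subgroup,
      ← card_filter_add_card_filter_not (s := univ.filter (· ∈ C)) (· ∈ center G), add_comm,
      filter_filter, filter_filter]
    congr 2
    ext x
    simp only [mem_filter, mem_univ, true_and]
    exact ⟨fun h => ⟨hZC h, h⟩, fun h => h.2⟩
  have h7 : S3.card + Nat.card C = Nat.card G := by
    rw [← H3.card_filter_mem_subgroup, add_comm, card_filter_add_card_filter_not, card_univ,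
      Nat.card_eq_fintype_card]
  have h8 := C.card_mul_index
  have h9 : p * Nat.card (center G) ≤ Nat.card C := by
    rw [← H1.card_mul_relIndex hZC, mul_comm]
    exact Nat.mul_le_mul_left _ (le_index hmin ((relIndex_dvd_card _ _).trans
      (card_subgroup_dvd_card _)) fun h1 => ha (relIndex_eq_one.1 h1
        (mem_centralizer_singleton_iff.2 rfl)))
  rw [hCi] at h8
  have h10 := hp.two_le
  clear_value p
  obtain ⟨r, rfl⟩ := Nat.exists_eq_add_of_le h10
  refine Nat.le_of_mul_le_mul_left ?_ hp.pos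
  have h11 := Nat.mul_le_mul_left ((2 + r) ^ 2) h2
  have h12 := Nat.mul_le_mul_left ((2 + r) ^ 2) h3
  have h13 := Nat.mul_le_mul_left (2 + r) h4
  have h14 := Nat.mul_le_mul_left (1 + r) h9
  nlinarith [Nat.zero_le (r * r * Nat.card C), Nat.zero_le (r * Nat.card C)]

end Cfsg.Agent.S4067
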