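import Cfsg.Statements.S4068
import Cfsg.Agent.L.ThreePrimes

set_option autoImplicit false
open Cfsg

namespace Cfsg.Agent.S4068

open Subgroup L in
theorem odd_case {G : Type*} [Group G] [Finite G] (hns : ¬ Group.IsSolvable G) {p q r : ℕ}
    (hp : p.Prime) (hpG : p ∣ Nat.card G) (hodd : Odd (Nat.card G))
    (h3 : ∀ s : ℕ, s.Prime → s ∣ Nat.card G → s = p ∨ s = q ∨ s = r)
    (hcomm : ∀ x y : G, x ≠ 1 → y ≠ 1 → Commute x y → orderOf x = orderOf y)
    (hpr : ∀ x : G, x ≠ 1 → (orderOf x).Prime)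
    (htr : ∀ x y : G, orderOf x = orderOf y → ∃ φ : MulAut G, φ x = y) :
    3 * {x : G | orderOf x = p}.ncard + 3 ≤ Nat.card G := by
  have : Fact p.Prime := ⟨hp⟩
  obtain ⟨P⟩ : Nonempty (Sylow p G) := inferInstance
  have hP1 := P.ne_bot_of_dvd_card hpG
  have hordP : ∀ x ∈ (P : Subgroup G), x ≠ 1 → orderOf x = p := by
    intro x hx hx1
    obtain ⟨k, hk⟩ := H8.exists_orderOf_eq_pow_of_mem P.isPGroup' hx
    have h1 := hpr x hx1
    rw [hk] at h1 ⊢
    rw [h1.eq_one_of_pow, pow_one]
  have hne : ∀ x : G, orderOf x = p → x ≠ 1 := by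
    rintro x hx rfl
    rw [orderOf_one] at hx; exact hp.one_lt.ne hx
  have hpg : ∀ x : G, orderOf x = p → IsPGroup p (centralizer ({x} : Set G)) := by
    intro x hx y
    refine ⟨1, Subtype.ext ?_⟩
    by_cases hy : (y : G) = 1
    · simp [hy]
    · rw [pow_one, coe_pow, ← hx, hcomm x y (hne x hx) hy (mem_cent_iff.1 y.2), pow_orderOf_eq_one]
      rfl
  have : Nontrivial (P : Subgroup G) := (nontrivial_iff_ne_bot _).2 hP1
  have := P.isPGroup'.center_nontrivial
  obtain ⟨z, hz⟩ := exists_ne (1 : center (P : Subgroup G))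
  have hz1 : ((z : (P : Subgroup G)) : G) ≠ 1 := fun h => hz (Subtype.ext (Subtype.ext h))
  have hzC : ((z : (P : Subgroup G)) : G) ∈ centralizer ((P : Subgroup G) : Set G) :=
    fun s hs => congrArg Subtype.val (mem_center_iff.1 z.2 ⟨s, hs⟩)
  have hzo := hordP _ (z : (P : Subgroup G)).2 hz1
  set C := centralizer ((P : Subgroup G) : Set G) with hC
  have hcent : ∀ y ∈ C, y ≠ 1 → centralizer ({y} : Set G) = P ∧ orderOf y = p := by
    intro y hy hy1
    have h1 : orderOf y = p := by
      rw [← hzo]; exact (hcomm _ _ hz1 hy1 (hy _ (z : (P : Subgroup G)).2)).symm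
    exact ⟨P.is_maximal' (hpg y h1) fun s hs => mem_centralizer_singleton_iff.2 (hy s hs), h1⟩
  have h1 := ncard_conj_mul_card ((C : Set G) \ {1}) (normalizer ((P : Subgroup G) : Set G))
    (fun g hg y hy => ⟨(mem_normalizer_iff.1 (H1.normalizer_le_normalizer_centralizer _ hg) y).1 hy.1,
      by simpa using hy.2⟩)
    (fun g y hy hy' => by
      rw [← H1.map_conj_eq_self_iff, ← (hcent y hy.1 hy.2).1, ← centralizer_singleton_conj,
        (hcent _ hy'.1 hy'.2).1, (hcent y hy.1 hy.2).1])
  have e : {x | ∃ y ∈ (C : Set G) \ {1}, IsConj y x} = {x : G | orderOf x = p} := by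
    ext x
    constructor
    · rintro ⟨y, hy, hc⟩
      obtain ⟨g, rfl⟩ := isConj_iff.1 hc
      have := (MulAut.conj g).orderOf_eq y
      exact this.trans (hcent y hy.1 hy.2).2
    · intro hx
      obtain ⟨φ, hφ⟩ := htr _ x (hzo.trans hx.symm)
      have hQ : ¬ p ∣ ((P : Subgroup G).map φ.toMonoidHom).index := by
        rw [index_map_of_bijective φ.bijective]; exact P.not_dvd_index
      let Q := (P.isPGroup'.map φ.toMonoidHom).toSylow hQ
      obtain ⟨g, hg⟩ := MulAction.exists_smul_eq G P Q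
      refine ⟨g⁻¹ * x * g, ⟨fun s hs => ?_, fun h0 => hne x hx (by
        have := congrArg (fun y => g * y * g⁻¹) (Set.mem_singleton_iff.1 h0)
        simpa [mul_assoc] using this)⟩, isConj_iff.2 ⟨g, by group⟩⟩
      have h2 : g * s * g⁻¹ ∈ ((g • P : Sylow p G) : Subgroup G) := ⟨s, hs, rfl⟩
      rw [hg] at h2
      obtain ⟨s', hs', h3⟩ := h2
      have h4 : g * s * g⁻¹ * x = x * (g * s * g⁻¹) := by
        rw [← h3, ← hφ]
        have := congrArg φ (hzC s' hs')
        simpa using this
      calc s * (g⁻¹ * x * g) = g⁻¹ * (g * s * g⁻¹ * x) * g := by group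
        _ = _ := by rw [h4]; group
  rw [e, Set.ncard_diff_singleton_of_mem (SetLike.mem_coe.2 (one_mem _)),
    ← Nat.card_coe_set_eq (C : Set G)] at h1
  change _ = Nat.card G * (Nat.card C - 1) at h1
  have hle : C ≤ normalizer ((P : Subgroup G) : Set G) := centralizer_le_normalizer _
  have h2 := H1.card_mul_relIndex hle
  have h4 : 3 ≤ C.relIndex (normalizer ((P : Subgroup G) : Set G)) := by
    have h5 : Odd (C.relIndex (normalizer ((P : Subgroup G) : Set G))) :=
      hodd.of_dvd_nat ((Dvd.intro_left _ h2).trans (card_subgroup_dvd_card _))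
    have h6 : C.relIndex (normalizer ((P : Subgroup G) : Set G)) ≠ 1 := fun h =>
      hns (isSolvable_of_hasNPC_of_three h3
        (H8.hasNPC_of_normalizer_le_centralizer P (relIndex_eq_one.1 h)))
    obtain ⟨k, hk⟩ := h5
    omega
  have h5 := card_le_card_group (normalizer ((P : Subgroup G) : Set G))
  have h6 : 0 < Nat.card C := Nat.card_pos
  obtain ⟨c, hc⟩ : ∃ c, Nat.card C = c + 1 := ⟨Nat.card C - 1, by omega⟩
  rw [← h2, hc] at h1 h5
  rw [Nat.add_sub_cancel] at h1
  by_contra hlt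
  push Not at hlt
  set T := {x : G | orderOf x = p}.ncard
  set k := C.relIndex (normalizer ((P : Subgroup G) : Set G))
  have h7 : T * ((c + 1) * 3) ≤ T * ((c + 1) * k) := by gcongr
  have h8 : (c + 1) * 3 ≤ (c + 1) * k := by gcongr
  nlinarith

open Subgroup L in
/-- A finite non-solvable group on which its automorphism group has exactly four orbits is isomorphic to the alternating group of degree 5. -/
theorem result {G : Type*} [Group G] [Finite G] (hns : ¬ Group.IsSolvable G)
    (h4 : Nat.card (MulAction.orbitRel.Quotient (MulAut G) G) = 4) : Nonempty (G ≃* alternatingGroup (Fin 5)) := by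
  classical
  obtain ⟨p, q, r, hp, hq, hr, hpq, hpr, hqr, hpG, hqG, hrG⟩ := exists_three_primes hns
  have := Fintype.ofFinite (MulAction.orbitRel.Quotient (MulAut G) G)
  let ord : MulAction.orbitRel.Quotient (MulAut G) G → ℕ := Quotient.lift orderOf (by
    rintro a b ⟨φ, rfl⟩; exact φ.orderOf_eq b)
  have hex : ∀ s : ℕ, s.Prime → s ∣ Nat.card G → ∃ x : G, orderOf x = s := fun s hs hd =>
    haveI : Fact s.Prime := ⟨hs⟩
    exists_prime_orderOf_dvd_card' s hd
  have hsub : ({1, p, q, r} : Finset ℕ) ⊆ Finset.univ.image ord := by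
    intro s hs
    have : ∃ x : G, orderOf x = s := by
      simp only [Finset.mem_insert, Finset.mem_singleton] at hs
      rcases hs with rfl | rfl | rfl | rfl
      exacts [⟨1, orderOf_one⟩, hex _ hp hpG, hex _ hq hqG, hex _ hr hrG]
    obtain ⟨x, rfl⟩ := this
    exact Finset.mem_image.2 ⟨Quotient.mk _ x, Finset.mem_univ _, rfl⟩
  have hc4 : ({1, p, q, r} : Finset ℕ).card = 4 := by
    rw [Finset.card_eq_four]
    exact ⟨1, p, q, r, hp.one_lt.ne, hq.one_lt.ne, hr.one_lt.ne, hpq, hpr, hqr, rfl⟩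
  have hu : (Finset.univ : Finset (MulAction.orbitRel.Quotient (MulAut G) G)).card = 4 := by
    rw [Finset.card_univ, ← Nat.card_eq_fintype_card, h4]
  have heq : ({1, p, q, r} : Finset ℕ) = Finset.univ.image ord :=
    Finset.eq_of_subset_of_card_le hsub (by rw [hc4, ← hu]; exact Finset.card_image_le)
  have hinj := (Finset.card_image_iff (s := Finset.univ) (f := ord)).1 (by rw [← heq, hc4, hu])
  have hval : ∀ x : G, orderOf x = 1 ∨ orderOf x = p ∨ orderOf x = q ∨ orderOf x = r := by
    intro x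
    have : orderOf x ∈ ({1, p, q, r} : Finset ℕ) :=
      heq ▸ Finset.mem_image.2 ⟨Quotient.mk _ x, Finset.mem_univ _, rfl⟩
    simpa only [Finset.mem_insert, Finset.mem_singleton] using this
  have htr : ∀ x y : G, orderOf x = orderOf y → ∃ φ : MulAut G, φ x = y := by
    intro x y h
    have : (Quotient.mk _ y : MulAction.orbitRel.Quotient (MulAut G) G) = Quotient.mk _ x :=
      hinj (by simp) (by simp) h.symm
    exact Quotient.exact this
  have hprime : ∀ x : G, x ≠ 1 → (orderOf x).Prime := by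
    intro x hx
    rcases hval x with h | h | h | h
    · exact (hx (orderOf_eq_one_iff.1 h)).elim
    all_goals rwa [h]
  have h3 : ∀ s : ℕ, s.Prime → s ∣ Nat.card G → s = p ∨ s = q ∨ s = r := by
    intro s hs hd
    obtain ⟨x, rfl⟩ := hex s hs hd
    exact (hval x).resolve_left hs.one_lt.ne'
  have hcomm : ∀ x y : G, x ≠ 1 → y ≠ 1 → Commute x y → orderOf x = orderOf y := by
    intro x y hx hy hxy
    by_contra hne
    have h1 := hxy.orderOf_mul_eq_mul_orderOf_of_coprime
      ((Nat.coprime_primes (hprime x hx) (hprime y hy)).2 hne)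
    have h2 : x * y ≠ 1 := by
      intro h0
      rw [h0, orderOf_one] at h1
      exact (hprime x hx).one_lt.ne' (Nat.eq_one_of_mul_eq_one_right h1.symm)
    have := hprime _ h2
    rw [h1] at this
    exact Nat.not_prime_mul (hprime x hx).one_lt.ne' (hprime y hy).one_lt.ne' this
  rcases Nat.even_or_odd (Nat.card G) with hev | hodd
  swap
  · exfalso
    have a1 := odd_case hns hp hpG hodd h3 hcomm hprime htr
    have a2 := odd_case hns (q := p) (r := r) hq hqG hodd (fun s a b => by
      have := h3 s a b; tauto) hcomm hprime htr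
    have a3 := odd_case hns (q := p) (r := q) hr hrG hodd (fun s a b => by
      have := h3 s a b; tauto) hcomm hprime htr
    have hcov : (Set.univ : Set G) ⊆ {1} ∪ ({x : G | orderOf x = p} ∪ ({x : G | orderOf x = q} ∪
        {x : G | orderOf x = r})) := by
      intro x _
      simpa using hval x
    have b1 := Set.ncard_le_ncard hcov
    have b2 := Set.ncard_union_le ({1} : Set G) ({x : G | orderOf x = p} ∪ ({x : G | orderOf x = q} ∪
        {x : G | orderOf x = r}))
    have b3 := Set.ncard_union_le {x : G | orderOf x = p} ({x : G | orderOf x = q} ∪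
        {x : G | orderOf x = r})
    have b4 := Set.ncard_union_le {x : G | orderOf x = q} {x : G | orderOf x = r}
    rw [Set.ncard_univ] at b1
    rw [Set.ncard_singleton] at b2
    omega
  have h2G : 2 ∣ Nat.card G := even_iff_two_dvd.1 hev
  have : Fact (Nat.Prime 2) := ⟨Nat.prime_two⟩
  obtain ⟨a, b, h3'⟩ : ∃ a b : ℕ, ∀ s : ℕ, s.Prime → s ∣ Nat.card G → s = 2 ∨ s = a ∨ s = b := by
    rcases h3 2 Nat.prime_two h2G with h | h | h
    · exact ⟨q, r, h ▸ h3⟩
    · exact ⟨p, r, fun s a b => by have := h3 s a b; rw [h]; tauto⟩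
    · exact ⟨p, q, fun s a b => by have := h3 s a b; rw [h]; tauto⟩
  obtain ⟨t, ht⟩ := hex 2 Nat.prime_two h2G
  have ht1 : t ≠ 1 := by rintro rfl; simp at ht
  have htt : t * t = 1 := by rw [← sq, ← ht, pow_orderOf_eq_one]
  have hG : EAC G := by
    intro s x hs1 hs hsx
    by_cases hx : x = 1
    · simp [hx]
    · rw [← sq, ← orderOf_eq_prime (p := 2) (by rw [sq, hs]) hs1, hcomm s x hs1 hx hsx,
        pow_orderOf_eq_one]
  have htP : t ∈ centralizer ({t} : Set G) := mem_cent_iff.2 (Commute.refl t)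
  obtain ⟨S, hS, -⟩ := exists_sylow_le_of_centralizer_eq (p := 2)
    (fun a ha ha1 => hG.cent_eq ht1 htt ha ha1) (ht ▸ orderOf_dvd_natCard _ htP)
  have h2g : IsPGroup 2 (centralizer ({t} : Set G)) := fun y =>
    ⟨1, Subtype.ext (by simpa [sq] using hG.sq_of_mem ht1 htt y y.2)⟩
  have hSC : centralizer ({t} : Set G) = S := S.is_maximal' h2g hS
  obtain ⟨n, hn, -, hcard, ⟨e⟩, -⟩ := hG.exists_galoisField_of_not_isSolvable ht1 htt
    (fun hn => hns (isSolvable_of_normal_of_three h3' _ h2g (hSC ▸ S.not_dvd_index)))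
    (fun h2 => hns (isSolvable_of_hasNPC_of_three h3' (H8.hasNPC_of_isCyclic_minFac
      ((Nat.minFac_eq_two_iff _).2 h2G) S (isCyclic_of_prime_card (p := 2) (hSC ▸ h2)))))
  have hcF := GaloisField.card 2 n (by omega)
  have h4n : 4 ≤ 2 ^ n := by simpa using Nat.pow_le_pow_right (by omega : 0 < 2) hn
  have hev : 2 ∣ 2 ^ n := dvd_pow_self 2 (by omega)
  obtain ⟨c, hc, hcd⟩ := Nat.exists_prime_and_dvd (n := 2 ^ n - 1) (by omega)
  obtain ⟨d, hd, hdd⟩ := Nat.exists_prime_and_dvd (n := 2 ^ n + 1) (by omega)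
  have hcop : ∀ s : ℕ, s.Prime → s ∣ 2 ^ n - 1 → s ∣ 2 ^ n + 1 → False := by
    intro s hs h1 h2
    have h5 : s ∣ 2 := by
      have := Nat.dvd_sub h2 h1
      rwa [show 2 ^ n + 1 - (2 ^ n - 1) = 2 by omega] at this
    rw [(Nat.prime_dvd_prime_iff_eq hs Nat.prime_two).1 h5] at h2
    omega
  have hm : ∀ s : ℕ, s.Prime → s ∣ 2 ^ n - 1 → s = a ∨ s = b := fun s hs h1 =>
    (h3' s hs (hcard ▸ Dvd.dvd.mul_right (Dvd.dvd.mul_left h1 _) _)).resolve_left (by
      rintro rfl; omega)
  have hpl : ∀ s : ℕ, s.Prime → s ∣ 2 ^ n + 1 → s = a ∨ s = b := fun s hs h1 =>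
    (h3' s hs (hcard ▸ Dvd.dvd.mul_left h1 _)).resolve_left (by rintro rfl; omega)
  have h3n : ¬ 3 ∣ 2 ^ n := fun h => by
    have := Nat.prime_three.dvd_of_dvd_pow h; omega
  by_cases h3m : 3 ∣ 2 ^ n - 1
  · have : 2 ^ n - 1 = 3 ^ _ := Nat.eq_prime_pow_of_unique_prime_dvd (by omega) (p := 3) (by
      intro s hs h1
      by_contra hne
      rcases hm s hs h1 with rfl | rfl <;> rcases hm 3 Nat.prime_three h3m with h | h <;>
        rcases hpl d hd hdd with rfl | rfl <;>
        first | exact hne h.symm | exact hcop _ hd h1 hdd | exact hcop _ hd (h ▸ h3m) hdd)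
    have hn2 := two_pow_eq_three_pow_add_one hn (by rw [← this]; omega)
    obtain ⟨e'⟩ := nonempty_SL2_equiv_alternating (F := GaloisField 2 n) (by rw [hcF, hn2]; rfl)
    exact ⟨e.trans e'⟩
  · exfalso
    have h3p : 3 ∣ 2 ^ n + 1 := by
      clear * - h3m h3n h4n
      generalize 2 ^ n = m at *
      obtain ⟨k, rfl⟩ : ∃ k, m = k + 1 := ⟨m - 1, by omega⟩
      rw [Nat.add_sub_cancel] at h3m
      omega
    have : 2 ^ n + 1 = 3 ^ _ := Nat.eq_prime_pow_of_unique_prime_dvd (by omega) (p := 3) (by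
      intro s hs h1
      by_contra hne
      rcases hpl s hs h1 with rfl | rfl <;> rcases hpl 3 Nat.prime_three h3p with h | h <;>
        rcases hm c hc hcd with rfl | rfl <;>
        first | exact hne h.symm | exact hcop _ hc hcd h1 | exact hcop _ hc hcd (h ▸ h3p))
    have hn3 := three_pow_eq_two_pow_add_one hn this
    obtain ⟨g, hg⟩ := exists_orderOf_nine (F := GaloisField 2 n) (by rw [hcF, hn3]; rfl)
    have h9 : orderOf (e.symm g) = 9 := by rw [e.symm.orderOf_eq, hg]
    have := hprime (e.symm g) (by intro h0; rw [h0, orderOf_one] at h9; omega)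
    rw [h9] at this
    norm_num at this

end Cfsg.Agent.S4068
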