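import Cfsg.Statements.S4071
import Cfsg.Agent.H5.SelfNorm
import Cfsg.Agent.H5.Misc
import Cfsg.Agent.L.Fitting
import Cfsg.Agent.L.MinNormal
import Cfsg.Agent.H1.PAction
import Cfsg.Agent.H2.Subnormal

set_option autoImplicit false
open Cfsg

namespace Cfsg.Agent.S4071

open Subgroup

/-- Let G be a finite solvable non-nilpotent group. Every non-abelian subgroup of G is self-normalizing if and only if G is a semidirect product ⟨x⟩ ⋉ A in which ⟨x⟩ is a p-group for some prime p, A is a normal abelian subgroup of order prime to p, x^p is central in G, and x acts fixed-point-freely on A (no non-identity element of A commutes with x). -/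
theorem result {G : Type*} [Group G] [Finite G]
    [Group.IsSolvable G] (hnn : ¬ Group.IsNilpotent G) :
    (∀ H : Subgroup G, ¬ IsMulCommutative H → Subgroup.normalizer (H : Set G) = H) ↔
    ∃ (x : G) (A : Subgroup G) (p : ℕ), p.Prime ∧ A.Normal ∧ IsMulCommutative A ∧ (∃ k : ℕ, orderOf x = p ^ k) ∧
      ¬ p ∣ Nat.card A ∧ (Subgroup.zpowers x).IsComplement' A ∧ x ^ p ∈ Subgroup.center G ∧
      ∀ a : G, a ∈ A → a ≠ 1 → x * a * x⁻¹ ≠ a := by
  constructor
  swap
  · rintro ⟨x, A, p, hp, hAn, hA, ⟨k, hk⟩, hpA, hc, hz, hf⟩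
    exact H5.selfNorm_of_semidirect hp hA hk hpA hc hz hf
  intro hS
  have h1 : ∀ N : Subgroup G, N.Normal → N ≠ ⊤ → IsMulCommutative N := fun N hN hN1 => by
    by_contra h
    exact hN1 ((hS N h).symm.trans (normalizer_eq_top N))
  haveI : Nontrivial G := by
    by_contra h
    rw [not_nontrivial_iff_subsingleton] at h
    exact hnn inferInstance
  obtain ⟨M, hM, hM'⟩ := H2.exists_coatom_ge (Group.IsSolvable.commutator_lt_top_of_nontrivial G).ne
  haveI hMn : M.Normal := Subgroup.Normal.of_commutator_le G hM'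
  have hMc := h1 M hMn hM.1
  obtain ⟨p, hp, x, hxM, ⟨k, hk⟩, hxp⟩ : ∃ p : ℕ, p.Prime ∧ ∃ x : G, x ∉ M ∧
      (∃ k, orderOf x = p ^ k) ∧ x ^ p ∈ M := by
    by_contra hc
    refine hM.1 (L.eq_top_of_forall_sylow_le fun p hp _ => ?_)
    obtain ⟨P⟩ : Nonempty (Sylow p G) := inferInstance
    refine ⟨P, fun y hy => ?_⟩
    obtain ⟨k, hk⟩ := H8.exists_orderOf_eq_pow_of_mem P.isPGroup' hy
    have h2 : ∀ j, y ^ p ^ (j + 1) ∈ M → y ^ p ^ j ∈ M := fun j hj => by
      by_contra h
      exact hc ⟨p, hp.out, y ^ p ^ j, h, H8.exists_orderOf_eq_pow_of_mem P.isPGroup'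
        (pow_mem hy _), by rwa [← pow_mul, ← pow_succ]⟩
    have h3 : ∀ j, y ^ p ^ j ∈ M → y ∈ M := fun j => by
      induction j with
      | zero => simp
      | succ j ih => exact fun h => ih (h2 j h)
    exact h3 k (by rw [← hk, pow_orderOf_eq_one]; exact one_mem _)
  haveI := Fact.mk hp
  have hsup : zpowers x ⊔ M = ⊤ := hM.2 _ (lt_of_le_of_ne le_sup_right fun h =>
    hxM (h ▸ mem_sup_left (mem_zpowers x)))
  have hGM : IsPGroup p (G ⧸ M) := fun y => by
    obtain ⟨g, rfl⟩ := QuotientGroup.mk'_surjective M y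
    obtain ⟨a, ⟨i, rfl⟩, m, hm, rfl⟩ := mem_sup_of_normal_right.1 (hsup ▸ mem_top g)
    refine ⟨1, ?_⟩
    have h2 : QuotientGroup.mk' M m = 1 := (QuotientGroup.eq_one_iff _).2 hm
    have h3 : QuotientGroup.mk' M (x ^ p) = 1 := (QuotientGroup.eq_one_iff _).2 hxp
    rw [map_mul, h2, mul_one, pow_one, map_zpow, ← zpow_natCast, ← zpow_mul, mul_comm, zpow_mul,
      zpow_natCast, ← map_pow, h3, one_zpow]
  haveI := L.isNilpotent_of_isMulCommutative M
  have hnpc : HasNormalPComplement p G :=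
    H8.hasNPC_of_normal_hasNPC M (H8.hasNPC_of_isNilpotent p) hGM
  set A := pPrimeCore p G with hAdef
  have hAM : A ≤ M := (H8.pPrimeCore_le_pResidual p).trans (H8.pResidual_le_of_isPGroup_quotient hGM)
  have hGA : IsPGroup p (G ⧸ A) := H8.hasNPC_iff_isPGroup_quotient_pPrimeCore.1 hnpc
  have hMM := H5.isMulCommutative_iff_forall.1 hMc
  have hAc : IsMulCommutative A :=
    H5.isMulCommutative_iff_forall.2 fun a ha b hb => hMM a (hAM ha) b (hAM hb)
  have hpA : ¬ p ∣ Nat.card A := L.not_dvd_card_pPrimeCore hp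
  have hxP := H8.isPGroup_zpowers_of_orderOf hk
  have hcop : (Nat.card (zpowers x)).Coprime (Nat.card A) :=
    (H1.coprime_card_of_isPGroup hxP (L.coprime_card_pPrimeCore p)).symm
  have hn : zpowers x ≤ normalizer (A : Set G) := le_normalizer_of_normal
  have hbot := H1.inf_eq_bot_of_coprime' hcop
  -- elements of `M` commuting with `x` are central
  have hcen : ∀ m ∈ M, x * m = m * x → m ∈ center G := fun m hm hxm => by
    have : (⊤ : Subgroup G) ≤ centralizer {m} := by
      rw [← hsup]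
      refine sup_le (zpowers_le.2 ?_) fun a ha => ?_
      · rw [mem_centralizer_singleton_iff]; exact hxm
      · rw [mem_centralizer_singleton_iff]; exact hMM a ha m hm
    exact mem_center_iff.2 fun g => mem_centralizer_singleton_iff.1 (this (mem_top g))
  have hne : ⁅A, zpowers x⁆ ≠ ⊥ := fun h => by
    rw [H1.commutator_eq_bot_iff_le_centralizer', zpowers_le] at h
    have hAZ : A ≤ center G := fun a ha => hcen a (hAM ha) (h a ha).symm
    haveI := hGA.isNilpotent
    exact hnn (Subgroup.isNilpotent_of_ker_le_center (QuotientGroup.mk' A) (by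
      rwa [QuotientGroup.ker_mk']))
  have hYA : ⁅A, zpowers x⁆ ≤ A := H1.commutator_le_of_le_normalizer hn
  have h2 : ∀ K : Subgroup G, ⁅A, zpowers x⁆ ≤ K →
      ¬ IsMulCommutative (zpowers x ⊔ K : Subgroup G) := fun K hK h => by
    apply hne
    rw [← H1.commutator_commutator_eq hn hcop, H1.commutator_eq_bot_iff_le_centralizer']
    exact fun a ha b hb => H5.isMulCommutative_iff_forall.1 h b (mem_sup_right (hK hb)) a
      (mem_sup_left ha)
  have htop : zpowers x ⊔ A = ⊤ := by
    haveI := hGA.isNilpotent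
    by_contra h
    have h3 : (zpowers x ⊔ A).map (QuotientGroup.mk' A) < ⊤ := lt_top_iff_ne_top.2 fun h4 => h (by
      rw [← comap_map_eq_self (f := QuotientGroup.mk' A) (H := zpowers x ⊔ A)
        (by rw [QuotientGroup.ker_mk']; exact le_sup_right), h4, comap_top])
    have h4 := normalizerCondition_of_isNilpotent _ h3
    obtain ⟨y, hy1, hy2⟩ := SetLike.exists_of_lt h4
    obtain ⟨g, rfl⟩ := QuotientGroup.mk'_surjective A y
    have h5 := hS _ (h2 A hYA)
    rw [← comap_map_eq_self (f := QuotientGroup.mk' A) (H := zpowers x ⊔ A)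
        (by rw [QuotientGroup.ker_mk']; exact le_sup_right),
      ← comap_normalizer_eq_of_surjective _ (QuotientGroup.mk'_surjective A)] at h5
    exact hy2 (h5.le hy1)
  refine ⟨x, A, p, hp, inferInstance, hAc, ⟨k, hk⟩, hpA, ?_, hcen _ hxp (Commute.self_pow x p).eq,
    fun a ha ha1 hxa => ha1 ?_⟩
  · exact isComplement'_of_disjoint_and_mul_eq_univ (disjoint_iff.2 hbot)
      (by rw [← mul_normal, htop, coe_top])
  · have hz : a ∈ center G := hcen a (hAM ha) (by rw [← hxa]; nth_rw 2 [← hxa]; group)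
    have h3 : a ∈ A ⊓ (zpowers x ⊔ ⁅A, zpowers x⁆) :=
      ⟨ha, hS _ (h2 _ le_rfl) ▸ center_le_normalizer _ hz⟩
    rw [H1.dedekind_right H1.le_normalizer_commutator_self hYA, inf_comm, hbot, bot_sup_eq] at h3
    have h5 : a ∈ centralizer (zpowers x : Set G) ⊓ ⁅A, zpowers x⁆ :=
      ⟨center_le_centralizer _ hz, h3⟩
    rwa [H1.centralizer_inf_commutator_eq_bot hAc hn hcop, mem_bot] at h5

end Cfsg.Agent.S4071
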