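import Cfsg.Statements.S4072
import Cfsg.Agent.H5.SelfNorm
import Cfsg.Agent.H5.Misc
import Cfsg.Agent.L.Fitting
import Cfsg.Agent.H1.PAction

set_option autoImplicit false
open Cfsg

namespace Cfsg.Agent.S4072

open Subgroup

/-- A finite group in which every non-abelian subgroup is self-normalizing is solvable or simple. -/
theorem result {G : Type*} [Group G] [Finite G] (hS : ∀ H : Subgroup G, ¬ IsMulCommutative H → Subgroup.normalizer (H : Set G) = H) :
    Group.IsSolvable G ∨ IsSimpleGroup G := by
  by_contra hcon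
  push Not at hcon
  obtain ⟨hns, hsimp⟩ := hcon
  have h1 : ∀ N : Subgroup G, N.Normal → N ≠ ⊤ → IsMulCommutative N := fun N hN hN1 => by
    by_contra h
    exact hN1 ((hS N h).symm.trans (normalizer_eq_top N))
  have hperf : _root_.commutator G = ⊤ := by
    by_contra h
    haveI := h1 _ inferInstance h
    haveI := L.isSolvable_of_isMulCommutative (_root_.commutator G)
    exact hns ((Group.isSolvable_iff_subgroup_quotient (_root_.commutator G)).2
      ⟨inferInstance, inferInstanceAs (Group.IsSolvable (Abelianization G))⟩)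
  haveI : Nontrivial G := by
    by_contra h
    rw [not_nontrivial_iff_subsingleton] at h
    exact hns inferInstance
  obtain ⟨N, hN1, hN2, hN3⟩ : ∃ N : Subgroup G, N.Normal ∧ N ≠ ⊥ ∧ N ≠ ⊤ := by
    by_contra hc
    push Not at hc
    exact hsimp ⟨fun N hN => by
      by_cases h : N = ⊥
      · exact Or.inl h
      · exact Or.inr (hc N hN h)⟩
  by_cases hC : centralizer (N : Set G) = ⊤
  · obtain ⟨p, hp, hpd⟩ := Nat.exists_prime_and_dvd (n := Nat.card N)
      (fun h => hN2 (card_eq_one.1 h))
    haveI := Fact.mk hp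
    obtain ⟨⟨z, hz⟩, hzp⟩ := exists_prime_orderOf_dvd_card' p hpd
    replace hzp : orderOf z = p := (Subgroup.orderOf_coe (⟨z, hz⟩ : N)).trans hzp
    have hzc : z ∈ center G := mem_center_iff.2 fun g => ((hC ▸ mem_top g : g ∈ centralizer
      (N : Set G)) z hz).symm
    obtain ⟨P⟩ : Nonempty (Sylow p G) := inferInstance
    refine H5.not_hasNPC_of_perfect hperf (hpd.trans N.card_subgroup_dvd_card)
      (H8.hasNPC_of_coprime_centralizes P fun X hX _ g hg hgp => ?_)
    have hXp := P.isPGroup'.to_le hX
    by_cases hXc : IsMulCommutative X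
    swap
    · rw [hS X hXc] at hg
      obtain ⟨k, hk⟩ := H8.exists_orderOf_eq_pow_of_mem hXp hg
      rw [H8.eq_one_of_orderOf_pow_of_coprime hk hgp]
      exact one_mem _
    by_contra hgX
    have hn : zpowers g ≤ normalizer (X : Set G) := zpowers_le.2 hg
    have hcop : (Nat.card (zpowers g)).Coprime (Nat.card X) :=
      H1.coprime_card_of_isPGroup hXp (by rwa [Nat.card_zpowers])
    set Y := ⁅X, zpowers g⁆ with hY
    have h2 : ¬ IsMulCommutative (zpowers g ⊔ Y : Subgroup G) := fun h => by
      apply hgX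
      rw [← zpowers_le, ← H1.commutator_eq_bot_iff_le_centralizer',
        ← H1.commutator_commutator_eq hn hcop, H1.commutator_eq_bot_iff_le_centralizer']
      exact fun a ha b hb => H5.isMulCommutative_iff_forall.1 h b (mem_sup_right hb) a
        (mem_sup_left ha)
    have h3 : z ∈ zpowers g ⊔ Y := hS _ h2 ▸ center_le_normalizer _ hzc
    have hYX : Y ≤ X := H1.commutator_le_of_le_normalizer hn
    have h4 : zpowers z ≤ Y := H1.le_sylow_of_le_normalizer (H := zpowers g ⊔ Y) le_sup_right
      (hXp.to_le hYX) (by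
        rw [H1.relIndex_sup_of_le_normalizer H1.le_normalizer_commutator_self]
        refine fun hd => hp.one_lt.ne' (hgp.symm.eq_one_of_dvd (hd.trans ?_))
        rw [← Nat.card_zpowers]
        exact relIndex_dvd_card _ _) (zpowers_le.2 h3)
      (H8.isPGroup_zpowers_of_orderOf (k := 1) (by simpa using hzp))
      (by haveI := H3.zpowers_normal_of_mem_center hzc; exact le_normalizer_of_normal)
    have h5 : z ∈ centralizer (zpowers g : Set G) ⊓ Y :=
      ⟨center_le_centralizer _ hzc, h4 (mem_zpowers z)⟩
    rw [hY, H1.centralizer_inf_commutator_eq_bot hXc hn hcop, mem_bot] at h5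
    rw [h5, orderOf_one] at hzp
    exact hp.one_lt.ne hzp
  · set A := centralizer (N : Set G) with hA
    have hNA : N ≤ A := fun a ha b hb => H5.isMulCommutative_iff_forall.1 (h1 N hN1 hN3) b hb a ha
    have h2 : ∀ K : Subgroup (G ⧸ A), K ≠ ⊥ → normalizer (K : Set (G ⧸ A)) ≤ K := by
      intro K hK y hy
      obtain ⟨g, rfl⟩ := QuotientGroup.mk'_surjective A y
      have h3 := hS (K.comap (QuotientGroup.mk' A)) fun h => hK (L.eq_bot_of_comap_mk'_eq
        fun a ha b hb => H5.isMulCommutative_iff_forall.1 h b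
          (QuotientGroup.le_comap_mk' A K (hNA hb)) a ha)
      rw [← comap_normalizer_eq_of_surjective _ (QuotientGroup.mk'_surjective A)] at h3
      exact h3.le hy
    obtain ⟨p, hp, hpd⟩ := Nat.exists_prime_and_dvd (n := Nat.card (G ⧸ A))
      (fun h => hC (index_eq_one.1 h))
    haveI := Fact.mk hp
    obtain ⟨P⟩ : Nonempty (Sylow p (G ⧸ A)) := inferInstance
    have hP := P.ne_bot_of_dvd_card hpd
    haveI := P.isPGroup'.isNilpotent
    refine H5.not_hasNPC_of_perfect ?_ hpd (H8.hasNPC_of_normalizer_le_centralizer P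
      ((h2 _ hP).trans ((le_normalizer.trans ((H5.normalizer_le_normalizer_zOf _).trans
        (h2 _ (H5.zOf_ne_bot hP)))).trans inf_le_right)))
    have h3 := map_commutator (⊤ : Subgroup G) ⊤ (QuotientGroup.mk' A)
    rw [← _root_.commutator_def, hperf,
      map_top_of_surjective _ (QuotientGroup.mk'_surjective A)] at h3
    exact h3.symm

end Cfsg.Agent.S4072
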