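import Cfsg.Statements.S4074
import Cfsg.Agent.H5.SelfNorm
import Cfsg.Agent.H5.Misc

set_option autoImplicit false
open Cfsg

namespace Cfsg.Agent.S4074

open Subgroup DihedralGroup

/-- parity homomorphism -/
def par {n : ℕ} (h : 2 ∣ n) : DihedralGroup n →* Multiplicative (ZMod 2) where
  toFun g := match g with
    | r i => Multiplicative.ofAdd (ZMod.castHom h (ZMod 2) i)
    | sr i => Multiplicative.ofAdd (ZMod.castHom h (ZMod 2) i)
  map_one' := by
    change Multiplicative.ofAdd (ZMod.castHom h (ZMod 2) 0) = 1
    simp
  map_mul' a b := by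
    have h2 : ∀ u v : ZMod 2, v - u = u + v := by decide
    rcases a with a | a <;> rcases b with b | b <;>
      simp only [r_mul_r, r_mul_sr, sr_mul_r, sr_mul_sr, map_add, map_sub, h2, ofAdd_add]

/-- For n > 2, every non-abelian subgroup of the dihedral group of order 2n is self-normalizing if and only if n = 4 or n is odd. -/
theorem result (n : ℕ) (hn : 2 < n) :
    (∀ H : Subgroup (DihedralGroup n), ¬ IsMulCommutative H → Subgroup.normalizer (H : Set (DihedralGroup n)) = H) ↔
    (n = 4 ∨ Odd n) := by
  haveI : NeZero n := ⟨by omega⟩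
  constructor
  · intro hS
    by_contra hc
    push Not at hc
    have h2 : 2 ∣ n := even_iff_two_dvd.1 (Nat.not_odd_iff_even.1 hc.2)
    have h3 := hS (par h2).ker fun h => by
      have h4 := H5.isMulCommutative_iff_forall.1 h (r 2) (by
        change Multiplicative.ofAdd (ZMod.castHom h2 (ZMod 2) 2) = 1
        rw [map_ofNat]; decide) (sr 0) (by
        change Multiplicative.ofAdd (ZMod.castHom h2 (ZMod 2) 0) = 1
        simp)
      simp only [r_mul_sr, sr_mul_r, sr.injEq] at h4
      have h5 : ((4 : ℕ) : ZMod n) = 0 := by push_cast; linear_combination -h4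
      have h6 := Nat.le_of_dvd (by norm_num) ((ZMod.natCast_eq_zero_iff _ _).1 h5)
      have := hc.1
      omega
    rw [normalizer_eq_top] at h3
    have h4 : (r 1 : DihedralGroup n) ∈ (par h2).ker := h3 ▸ mem_top _
    change Multiplicative.ofAdd (ZMod.castHom h2 (ZMod 2) 1) = 1 at h4
    rw [map_one] at h4
    exact absurd h4 (by decide)
  · rintro (rfl | hodd)
    · intro H hH
      have h1 : Nat.card H ∣ 2 ^ 3 := by
        have := H.card_subgroup_dvd_card
        rwa [nat_card] at this
      obtain ⟨k, hk, hk'⟩ := (Nat.dvd_prime_pow Nat.prime_two).1 h1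
      haveI := Fact.mk Nat.prime_two
      interval_cases k
      · rw [pow_zero, card_eq_one] at hk'
        subst hk'
        exact absurd (inferInstance : IsMulCommutative _) hH
      · haveI := isCyclic_of_prime_card (p := 2) (by simpa using hk' : Nat.card H = 2)
        exact absurd (inferInstance : IsMulCommutative H) hH
      · exact absurd (IsPGroup.isMulCommutative_of_card_eq_prime_sq hk') hH
      · have : H = ⊤ := eq_top_of_card_eq _ (by rw [hk', nat_card]; rfl)
        subst this
        exact normalizer_eq_top _
    · have hc : Nat.card (zpowers (r 1 : DihedralGroup n)) = n := by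
        rw [Nat.card_zpowers, orderOf_r_one]
      have hi : (zpowers (r 1 : DihedralGroup n)).index = 2 := by
        have := (zpowers (r 1 : DihedralGroup n)).card_mul_index
        rw [hc, nat_card, mul_comm] at this
        exact Nat.eq_of_mul_eq_mul_right (by omega) this
      haveI := normal_of_index_eq_two hi
      refine H5.selfNorm_of_semidirect (x := sr 0) (A := zpowers (r 1)) Nat.prime_two
        inferInstance (k := 1) (by simp [orderOf_sr]) ?_ ?_ ?_ ?_
      · rw [hc]; exact hodd.not_two_dvd_nat
      · refine isComplement'_of_coprime ?_ ?_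
        · rw [hc, Nat.card_zpowers, orderOf_sr, nat_card]
        · rw [hc, Nat.card_zpowers, orderOf_sr]
          exact Nat.coprime_two_left.2 hodd
      · rw [sq, sr_mul_self]; exact one_mem _
      · rintro a ⟨i, rfl⟩ ha h
        simp only [r_one_zpow, inv_sr, sr_mul_r, sr_mul_sr, r.injEq] at ha h
        apply ha
        rw [one_def, r.injEq, ← ZMod.add_self_eq_zero_iff_eq_zero hodd]
        linear_combination -h

end Cfsg.Agent.S4074
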