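import Cfsg.Statements.S4075
import Cfsg.Agent.H5.SelfNorm

set_option autoImplicit false
open Cfsg

namespace Cfsg.Agent.S4075

open Subgroup

/-- Let G be a finite nilpotent group. Every non-abelian subgroup of G is self-normalizing if and only if G is abelian or G is a minimal non-abelian p-group for some prime p (non-abelian of prime-power order with every proper subgroup abelian). -/
theorem result {G : Type*} [Group G] [Finite G]
    [Group.IsNilpotent G] :
    (∀ H : Subgroup G, ¬ IsMulCommutative H → Subgroup.normalizer (H : Set G) = H) ↔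
    (IsMulCommutative G ∨ (IsPrimePow (Nat.card G) ∧ ¬ IsMulCommutative G ∧ ∀ H : Subgroup G, H ≠ ⊤ → IsMulCommutative H)) := by
  constructor
  · intro h
    by_cases hc : IsMulCommutative G
    · exact Or.inl hc
    have h1 : ∀ H : Subgroup G, H ≠ ⊤ → IsMulCommutative H := fun H hH => by
      by_contra h2
      exact (normalizerCondition_of_isNilpotent H (lt_top_iff_ne_top.2 hH)).ne' (h H h2)
    refine Or.inr ⟨?_, hc, h1⟩
    by_contra h2
    refine hc (H5.isMulCommutative_of_isNilpotent_of_sylow fun p hp P => h1 _ fun hP => ?_)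
    obtain ⟨k, hk⟩ := P.isPGroup'.exists_card_eq
    rw [hP, card_top] at hk
    rcases Nat.eq_zero_or_pos k with rfl | hk0
    · haveI := (Nat.card_eq_one_iff_unique.1 (by simpa using hk : Nat.card G = 1)).1
      exact hc ⟨⟨fun a b => Subsingleton.elim _ _⟩⟩
    · exact h2 ((isPrimePow_nat_iff _).2 ⟨p, k, hp.out, hk0, hk.symm⟩)
  · rintro (h | ⟨-, -, h⟩) H hH
    · exact absurd (inferInstance : IsMulCommutative H) hH
    · by_cases h1 : H = ⊤
      · rw [h1]; exact normalizer_eq_top ⊤
      · exact absurd (h H h1) hH

end Cfsg.Agent.S4075
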