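import Cfsg.Statements.S4079
import Cfsg.Agent.H5.MetaReg
import Cfsg.Agent.H5.SubConj
import Cfsg.Agent.H3.Taussky
import Cfsg.Agent.H2.MaxClass3
import Cfsg.Agent.H1.Semidirect
import Cfsg.Agent.H7.ClassNum

set_option autoImplicit false
open Cfsg

namespace Cfsg.Agent.S4079

open Subgroup SemidirectProduct
open scoped commutatorElement

theorem key3 {G : Type*} [Group G] [Finite G] (hG : IsPGroup 3 G) {H W : Subgroup G} [hHn : H.Normal]
    [W.Normal] (hWH : W ≤ H) (hW9 : Nat.card W ≤ 9) (hH : Nat.card H ≤ 9 * Nat.card W)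
    (hW3 : ∀ w ∈ W, w ^ 3 = 1) (hWc : W ≤ centralizer (H : Set G)) (hHH : ⁅H, H⁆ ≤ W) {b c : G}
    (hb : b ^ 3 = 1) (hc : c ∈ H) (hc3 : c ^ 3 ∈ W) (hc1 : c ^ 3 ≠ 1) (hbc : Commute b c)
    {y : G} (hy : y ∈ H) : y⁻¹ * (b * y * b⁻¹) ∈ W := by
  haveI := Fact.mk Nat.prime_three
  set U := zpowers c ⊔ W with hU
  have hUH : U ≤ H := sup_le (zpowers_le.2 hc) hWH
  have h1 : 3 * Nat.card W ≤ Nat.card U := H2.mul_card_le_of_lt (hG.to_subgroup U)
    (lt_of_le_of_ne le_sup_right fun h => hc1 (hW3 c (h ▸ mem_sup_left (mem_zpowers c))))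
  have hd : y⁻¹ * (b * y * b⁻¹) ∈ U := by
    rcases hUH.eq_or_lt with h | h
    · rw [h]; exact mul_mem (inv_mem hy) (hHn.conj_mem y hy b)
    set K := zpowers b ⊔ H with hK
    have hKU : K ≤ normalizer (U : Set G) := sup_le
      (H1.le_normalizer_sup (H1.le_normalizer_of_le_centralizer (zpowers_le.2
        (H3.mem_centralizer_zpowers_iff.2 (by rw [hbc.eq, mul_inv_cancel_right]))))
        le_normalizer_of_normal)
      (le_normalizer_iff_commutator_le_left.2 ((commutator_mono hUH le_rfl).trans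
        (hHH.trans le_sup_right)))
    haveI := H1.normal_subgroupOf_of_le hKU
    have hHK : H ≤ K := le_sup_right
    obtain ⟨M, -, -, h2, h3, h4⟩ := H3.exists_normal_card_eq_mul (hG.to_subgroup K)
      (M := U.subgroupOf K) (N := H.subgroupOf K) (lt_of_le_of_ne (comap_mono hUH) fun e => h.ne (by
        rw [← map_subgroupOf_eq_of_le (hUH.trans hHK), e, map_subgroupOf_eq_of_le hHK]))
    rw [H1.eq_of_le_of_card_le h2 (by
      rw [h3, H5.card_subgroupOf_of_le hHK, H5.card_subgroupOf_of_le (hUH.trans hHK)]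
      omega)] at h4
    have := h4 ⟨y⁻¹, hHK (inv_mem hy)⟩ (inv_mem hy) ⟨b, mem_sup_left (mem_zpowers b)⟩
    rw [mem_subgroupOf] at this
    simpa [mul_assoc] using this
  obtain ⟨_, ⟨e, rfl⟩, w, hw, hd'⟩ := mem_sup_of_normal_right.1 hd
  simp only at hd'
  have h2 : (w * b) ^ 3 = 1 := by
    have hreg := H5.isRegular_of_card_le (hG.to_subgroup (zpowers b ⊔ W)) (by
      refine (Nat.le_of_dvd (Nat.mul_pos Nat.card_pos Nat.card_pos)
        (H1.card_sup_dvd le_normalizer_of_normal)).trans ?_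
      have := Nat.le_of_dvd three_pos (orderOf_dvd_of_pow_eq_one hb)
      rw [Nat.card_zpowers]
      nlinarith)
    have h3 := (H7.regularOmega hreg 1).mul_mem (x := ⟨w, mem_sup_right hw⟩)
      (y := ⟨b, mem_sup_left (mem_zpowers b)⟩) (Subtype.ext (hW3 w hw)) (Subtype.ext hb)
    exact congrArg Subtype.val h3
  have h3 : (c ^ e * (w * b)) ^ 3 = 1 := by
    rw [← mul_assoc, hd', show y⁻¹ * (b * y * b⁻¹) * b = y⁻¹ * b * y⁻¹⁻¹ by group, conj_pow, hb]
    simp
  have h4 : Commute c (w * b) := Commute.mul_right (hWc hw c hc) hbc.symm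
  rw [(h4.zpow_left e).mul_pow, h2, mul_one, ← zpow_natCast, ← zpow_mul, mul_comm, zpow_mul,
    zpow_natCast, ← orderOf_dvd_iff_zpow_eq_one, orderOf_eq_prime (hW3 _ hc3) hc1] at h3
  obtain ⟨j, rfl⟩ := h3
  rw [← hd', zpow_mul, zpow_natCast]
  exact mul_mem (zpow_mem hc3 j) hw

theorem not_centralizes {G : Type*} [Group G] [Finite G] {n : ℕ} (h : H2.MaxClass 3 n G)
    (hn : 5 ≤ n) {L W : Subgroup G} [L.Normal] [W.Normal] (hL : L.index = 3)
    (hW : Nat.card W = 3 ^ 2) (hW3 : ∀ w ∈ W, w ^ 3 = 1) (hc : IsCyclic ↥⁅L, L⁆)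
    (hreg : ⁅L, L⁆ ≤ W → W ≤ centralizer (L : Set G)) {b : G} (hb : b ∉ L) :
    b ∉ centralizer (W : Set G) := by
  haveI := Fact.mk Nat.prime_three
  intro hbW
  have hWl : W = H2.lcs G (n - 3) := by
    have h1 := h.card_lcs (i := n - 3) (by omega)
    rw [show n - 1 - (n - 3) = 2 by omega] at h1
    exact (H1.eq_of_le_of_card_le (h.lcs_le_of_card_le (by omega) W (h1.trans hW.symm).le)
      (hW.trans h1.symm).le).symm
  have hC : ∀ x, x ∈ H2.tsc G (n - 3) ↔ x ∈ centralizer (W : Set G) := fun x => by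
    rw [H2.mem_tsc, h.lcs_eq_bot (i := n - 3 + 2) (by omega), ← hWl]
    simp only [mem_bot, commutatorElement_eq_one_iff_mul_comm]
    rfl
  have hLc := H3.isCoatom_of_index_prime (hL ▸ Nat.prime_three)
  have hL1 : H2.lcs G 1 ≤ L := H3.commutator_le_of_index_prime (hL ▸ Nat.prime_three)
  have hL2 : ¬ L ≤ H2.tsc G (n - 3) := fun h1 => hb ((hLc.le_iff.1 h1).resolve_left
    (h.isCoatom_tsc (by omega) (by omega)).1 ▸ (hC b).2 hbW)
  obtain ⟨s, hs, hs'⟩ : ∃ s ∈ L, s ∉ H2.lcs G 1 := by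
    by_contra h1
    push Not at h1
    exact hL2 (le_trans h1 (H2.lcs_one_le_tsc _))
  have hLs := h.sup_zpowers_eq_of_ne_top hLc.1 hL1 hs hs'
  by_cases hL3 : L ≤ H2.tsc G 1
  · obtain ⟨-, h1, h2, -⟩ := h.exceptional (i := n - 3) (by omega) fun h1 => hL2 (hL3.trans h1)
    obtain rfl : n = 6 := by omega
    have h3 : ⁅H2.lcs G 1, L⁆ ≤ W := hWl ▸ H2.le_tsc_iff.1 hL3
    refine hL2 fun x hx => (hC x).2 fun w hw => (hreg ?_ hw x hx).symm
    nth_rw 1 [← hLs]
    refine H7.commutator_sup_left_le _ _ _ _ h3 ?_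
    rw [← hLs]
    refine H7.commutator_sup_right_le _ _ _ _ ?_ ?_
    · rw [Subgroup.commutator_comm]
      exact (commutator_mono le_rfl (zpowers_le.2 hs)).trans h3
    · rw [H1.commutator_eq_bot_iff_le_centralizer'.2 (le_centralizer _)]
      exact bot_le
  have hu : H2.Unif s := (h.unif_iff' (by omega)).2
    ⟨fun h1 => hL3 (hLs ▸ sup_le (H2.lcs_one_le_tsc _) (zpowers_le.2 h1)),
      fun h1 => hL2 (hLs ▸ sup_le (H2.lcs_one_le_tsc _) (zpowers_le.2 h1))⟩
  obtain ⟨v, hv, hv'⟩ := h.exists_mem_not_mem (i := 1) (by omega)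
  have h1 := h.lcs_le_of_stable hu (U := ⁅L, L⁆) (fun u hu => commutator_mem_commutator
    (commutator_le_left L L hu) hs) (i := 2) (by omega) (commutator_mem_commutator (hL1 hv) hs)
    (H2.commutator_mem_lcs_succ hv s) (h.commutator_not_mem hu le_rfl (by omega) hv hv')
  have h2 : W ≤ ⁅L, L⁆ := hWl.le.trans ((H2.lcs_anti (by omega)).trans h1)
  have h3 := H5.card_le_of_isCyclic_of_pow_eq_one Nat.prime_three (Subgroup.isCyclic_of_le h2)
    fun x => Subtype.ext (hW3 x x.2)
  omega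

/-- Let p be an odd prime and L a finite metacyclic p-group with no cyclic subgroup of index p, and let a be an automorphism of L of order p. Then a moves some element of order p of L if and only if p = 3 and the semidirect product L ⋊ ⟨a⟩ (of order 3·#L) has maximal class, i.e. nilpotency class m where #L = 3^m. -/
theorem result {L : Type*} [Group L] [Finite L] {p : ℕ} [Fact p.Prime]
    (hp : p ≠ 2) (hL : IsPGroup p L) (hmc : Cfsg.IsMetacyclic L) (hnc : ∀ C : Subgroup L, IsCyclic C → C.index ≠ p)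
    (a : MulAut L) (ha : orderOf a = p) (m : ℕ) (hm : Nat.card L = p ^ m) :
    (∃ x : L, orderOf x = p ∧ a x ≠ x) ↔
    (p = 3 ∧ Group.nilpotencyClass (SemidirectProduct L ↥(Subgroup.zpowers a) (Subgroup.zpowers a).subtype) = m) := by
  have hp' : p.Prime := Fact.out
  haveI : Nontrivial L := by
    by_contra h
    rw [not_nontrivial_iff_subsingleton] at h
    rw [show a = 1 from MulEquiv.ext fun x => Subsingleton.elim _ _, orderOf_one] at ha
    exact hp'.one_lt.ne ha
  have hcyc := H5.isCyclic_commutator_of_isMetacyclic hmc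
  have hreg := H5.isRegular_of_isCyclic_commutator hp hL hcyc
  obtain ⟨hW2, hpow, hL4⟩ := H5.metacyclic_omega hmc hreg hnc
  have hH4 := H5.card_omega_two_le hreg
  set W := H7.regularOmega hreg 1 with hW
  set H := H7.regularOmega hreg 2 with hH
  have hWm : ∀ x, x ∈ W ↔ x ^ p = 1 := fun x => by rw [hW, H7.mem_regularOmega, pow_one]
  have hHm : ∀ x, x ∈ H ↔ x ^ p ∈ W := fun x => by
    rw [hH, H7.mem_regularOmega, hWm, ← pow_mul, sq]
  have hWH : W ≤ H := fun x hx => (hHm x).2 (pow_mem hx p)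
  haveI : Finite (MulAut L) := Finite.of_injective _ DFunLike.coe_injective
  set φ := (Subgroup.zpowers a).subtype with hφ
  let G := L ⋊[φ] (Subgroup.zpowers a)
  have hc : Nat.card G = p ^ (m + 1) := by
    rw [SemidirectProduct.card, Nat.card_zpowers, ha, hm, pow_succ]
  have hG : IsPGroup p G := IsPGroup.of_card hc
  have hm4 : 4 ≤ m := by rwa [hm, Nat.pow_le_pow_iff_right hp'.one_lt] at hL4
  set b : G := inr ⟨a, Subgroup.mem_zpowers a⟩ with hb
  have hb1 : b ^ p = 1 := by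
    rw [hb, ← map_pow, ← map_one inr]
    congr 1
    have := pow_orderOf_eq_one a
    rw [ha] at this
    exact Subtype.ext this
  have hba : ∀ x : L, b * inl x * b⁻¹ = inl (a x) := fun x => H1.inr_mul_inl_mul_inv (φ := φ) _ x
  have hchar : ∀ (U : Subgroup L) [U.Characteristic], (H1.sdL φ U).Normal := fun U hU =>
    H1.sdL_normal fun α x hx => characteristic_iff_le_comap.1 hU _ hx
  haveI := hchar W
  haveI := hchar H
  have hLi : (H1.sdL φ ⊤).index = p := by
    have := (H1.sdL φ ⊤).card_mul_index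
    rw [H1.card_sdL_top, hc, hm, pow_succ] at this
    exact Nat.eq_of_mul_eq_mul_left (pow_pos hp'.pos m) this
  have hcen : ∀ U : Subgroup L, ⁅U, U⁆ ≤ W → ∀ y ∈ U, ∀ x ∈ U, x * y ^ p = y ^ p * x :=
    fun U hU y hy x hx => by
      have := (H7.regular_commute_iff hreg y x 1).2 (by
        rw [pow_one, ← hWm]
        simpa [commutatorElement_def] using hU (commutator_mem_commutator (inv_mem hy) (inv_mem hx)))
      rw [pow_one] at this
      exact this.symm
  constructor
  · rintro ⟨x, hx, hax⟩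
    obtain ⟨y, rfl⟩ := hpow x (hx ▸ pow_orderOf_eq_one x)
    have hyW : y ^ p ∈ W := (hWm _).2 (orderOf_dvd_iff_pow_eq_one.1 hx.dvd)
    have hyH : y ∈ H := (hHm y).2 hyW
    have hp3 : p = 3 := by
      by_contra hp3
      have h5 : 5 ≤ p := hp'.five_le_of_ne_two_of_ne_three hp hp3
      have hK := H5.isRegular_of_card_le (hG.to_subgroup (zpowers b ⊔ H1.sdL φ H)) (by
        refine (Nat.le_of_dvd (Nat.mul_pos Nat.card_pos Nat.card_pos)
          (H1.card_sup_dvd le_normalizer_of_normal)).trans ?_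
        have := Nat.le_of_dvd hp'.pos (orderOf_dvd_of_pow_eq_one hb1)
        rw [Nat.card_zpowers, H1.card_sdL]
        refine (Nat.mul_le_mul this hH4).trans ?_
        rw [hW2, ← pow_mul, ← pow_succ']
        exact Nat.pow_le_pow_right hp'.pos h5)
      set b' : (zpowers b ⊔ H1.sdL φ H : Subgroup G) := ⟨b, mem_sup_left (mem_zpowers b)⟩
      set y' : (zpowers b ⊔ H1.sdL φ H : Subgroup G) :=
        ⟨inl y, mem_sup_right ((H1.inl_mem_sdL (φ := φ)).2 hyH)⟩
      have h1 := (H7.regular_commute_iff hK b' y' 1).1 (by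
        rw [pow_one, show b' ^ p = 1 from Subtype.ext hb1]; simp)
      have h2 := (H7.regular_commute_iff hK y' b' 1).2 (by
        rw [← inv_eq_one, ← inv_pow, ← h1]; congr 1; group)
      have h3 : (inl y : G) ^ p ^ 1 * b = b * inl y ^ p ^ 1 := congrArg Subtype.val h2
      rw [pow_one, ← map_pow] at h3
      exact hax (inl_injective (φ := φ) (by rw [← hba, ← h3, mul_inv_cancel_right]))
    subst hp3
    refine ⟨rfl, ?_⟩
    have hHH : ⁅H, H⁆ ≤ W := by
      have h1 : Nat.card (H.map (QuotientGroup.mk' W)) ∣ 3 ^ 2 := by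
        obtain ⟨k, hk⟩ := ((hL.to_subgroup H).map (QuotientGroup.mk' W)).exists_card_eq
        have h2 := H3.card_map_mk'_mul W hWH
        rw [hk, hW2] at h2
        rw [← h2, hW2, ← pow_add, ← pow_mul, Nat.pow_le_pow_iff_right (by norm_num)] at hH4
        exact hk ▸ pow_dvd_pow 3 (by omega)
      have h2 : IsMulCommutative (H.map (QuotientGroup.mk' W)) := by
        obtain ⟨k, hk, hk'⟩ := (Nat.dvd_prime_pow Nat.prime_three).1 h1
        interval_cases k
        · rw [pow_zero, card_eq_one] at hk'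
          rw [hk']; infer_instance
        · haveI := isCyclic_of_prime_card (p := 3) hk'
          infer_instance
        · exact IsPGroup.isMulCommutative_of_card_eq_prime_sq hk'
      rw [H7.commutator_le_iff_map_le_centralizer]
      exact le_centralizer _
    have hfix : ∀ c : L, a c = c → c ∈ W := by
      by_contra h
      push Not at h
      obtain ⟨c, hc1, hc2⟩ := h
      obtain ⟨k, hk1, hk2⟩ := H3.exists_pow_not_mem_pow_mem hL hc2
      have h1 := key3 hG (H := H1.sdL φ H) (W := H1.sdL φ W) (map_mono hWH)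
        (by rw [H1.card_sdL, hW2]; rfl) (by rw [H1.card_sdL, H1.card_sdL]; rw [hW2] at hH4 ⊢; omega)
        (by rintro _ ⟨w, hw, rfl⟩; rw [← map_pow, (hWm w).1 hw, map_one])
        (by
          rintro _ ⟨w, hw, rfl⟩ _ ⟨z, hz, rfl⟩
          obtain ⟨u, rfl⟩ := hpow w ((hWm w).1 hw)
          rw [← map_mul, ← map_mul, hcen H hHH u ((hHm u).2 hw) z hz])
        (by rw [← map_commutator]; exact map_mono hHH) hb1 (c := inl (c ^ 3 ^ k))
        ((H1.inl_mem_sdL (φ := φ)).2 ((hHm _).2 hk2)) (by rw [← map_pow]; exact (H1.inl_mem_sdL (φ := φ)).2 hk2)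
        (fun h => hk1 ((hWm _).2 (inl_injective (φ := φ) (by rw [map_pow, h, map_one]))))
        (mul_inv_eq_iff_eq_mul.1 (by rw [hba, map_pow a, hc1])) ((H1.inl_mem_sdL (φ := φ)).2 hyH)
      rw [hba, ← map_inv, ← map_mul, H1.inl_mem_sdL, hWm] at h1
      have h2 := (H7.regular_pow_eq_pow_iff' hreg y (a y) 1).2 (by rwa [pow_one])
      rw [pow_one, ← map_pow] at h2
      exact hax h2.symm
    have h1 : H1.sdL φ ⊤ ⊓ centralizer {b} < H1.sdL φ W := by
      refine lt_of_le_of_ne ?_ fun h => hax ?_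
      · rintro _ ⟨⟨z, -, rfl⟩, hz⟩
        exact (H1.inl_mem_sdL (φ := φ)).2 (hfix z ((H1.inl_mem_centralizer_inr (φ := φ)).1 hz))
      · exact (H1.inl_mem_centralizer_inr (φ := φ)).1 (h ▸ (H1.inl_mem_sdL (φ := φ)).2 hyW :
          inl (y ^ 3) ∈ H1.sdL φ ⊤ ⊓ centralizer {b}).2
    have h2 := H2.mul_card_le_of_lt (hG.to_subgroup _) h1
    have h3 := H7.card_le_index_mul_card_inf (H1.sdL φ ⊤) (centralizer {b})
    rw [H1.card_sdL, hW2] at h2
    rw [hLi] at h3
    exact (H2.MaxClass.mk (by omega) hc (H3.lcs_ne_bot_of_card_centralizer_le hc (by omega)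
      (h3.trans h2))).nilpotencyClass_eq
  · rintro ⟨rfl, hcl⟩
    have h1 := not_centralizes (H2.maxClass_of_nilpotencyClass (by omega) hc hcl) (by omega) hLi
      (W := H1.sdL φ W) (by rw [H1.card_sdL, hW2])
      (by rintro _ ⟨w, hw, rfl⟩; rw [← map_pow, (hWm w).1 hw, map_one])
      (by
        rw [← map_commutator]
        exact isCyclic_of_surjective _ (inl.subgroupMap_surjective (_root_.commutator L)))
      (fun h => by
        rw [← map_commutator] at h
        rintro _ ⟨w, hw, rfl⟩ _ ⟨z, hz, rfl⟩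
        obtain ⟨u, rfl⟩ := hpow w ((hWm w).1 hw)
        rw [← map_mul, ← map_mul, hcen ⊤ ((H1.sdL_le_sdL (φ := φ)).1 h) u (mem_top u) z hz])
      (b := b) (fun h => by
        have h2 : b ∈ H1.sdR φ ⊤ ⊓ H1.sdL φ ⊤ := ⟨(H1.inr_mem_sdR (φ := φ)).2 (mem_top _), h⟩
        rw [H1.sdR_inf_sdL, mem_bot, hb, map_eq_one_iff _ inr_injective] at h2
        rw [show a = 1 from congrArg Subtype.val h2, orderOf_one] at ha
        exact absurd ha (by decide))
    by_contra h
    push Not at h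
    apply h1
    rintro _ ⟨w, hw, rfl⟩
    rw [eq_comm, ← mul_inv_eq_iff_eq_mul, hba]
    by_cases hw1 : w = 1
    · simp [hw1]
    · rw [h w (orderOf_eq_prime ((hWm w).1 hw) hw1)]

end Cfsg.Agent.S4079
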