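import Cfsg.Statements.S4080
import Cfsg.Agent.H7.Regular
import Cfsg.Agent.H2.MaxClass
import Cfsg.Agent.H1.Semidirect

set_option autoImplicit false
open Cfsg

namespace Cfsg.Agent.S4080

open SemidirectProduct

theorem exists_eq_mul {p : ℕ} [hp : Fact p.Prime] (u : ZMod (p ^ 2)) (h : p • u = 0) :
    ∃ v : ZMod (p ^ 2), u = p • v := by
  haveI : NeZero (p ^ 2) := ⟨pow_ne_zero _ hp.out.ne_zero⟩
  obtain ⟨k, rfl⟩ := ZMod.natCast_zmod_surjective u
  rw [nsmul_eq_mul, ← Nat.cast_mul, ZMod.natCast_eq_zero_iff, sq] at h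
  obtain ⟨j, rfl⟩ := Nat.dvd_of_mul_dvd_mul_left hp.out.pos h
  exact ⟨j, by simp⟩

/-- Let p > 3 be a prime and L the direct product of two cyclic groups of order p². Every automorphism of L of order p fixes every element of order p of L. -/
theorem result {p : ℕ} [Fact p.Prime] (hp : 3 < p)
    (a : MulAut (Multiplicative (ZMod (p ^ 2) × ZMod (p ^ 2)))) (ha : orderOf a = p)
    (x : Multiplicative (ZMod (p ^ 2) × ZMod (p ^ 2))) (hx : orderOf x = p) : a x = x := by
  have hp' : p.Prime := Fact.out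
  haveI : NeZero (p ^ 2) := ⟨pow_ne_zero _ hp'.ne_zero⟩
  let L := Multiplicative (ZMod (p ^ 2) × ZMod (p ^ 2))
  have hx1 : x ^ p = 1 := by have := pow_orderOf_eq_one x; rwa [hx] at this
  obtain ⟨y, rfl⟩ : ∃ y : L, x = y ^ p := by
    have h1 : p • x.toAdd = 0 := by rw [← toAdd_pow, hx1, toAdd_one]
    obtain ⟨u, hu⟩ := exists_eq_mul x.toAdd.1 (congrArg Prod.fst h1)
    obtain ⟨v, hv⟩ := exists_eq_mul x.toAdd.2 (congrArg Prod.snd h1)
    exact ⟨Multiplicative.ofAdd (u, v), Multiplicative.toAdd.injective (Prod.ext hu hv)⟩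
  haveI : Finite (MulAut L) := Finite.of_injective _ DFunLike.coe_injective
  let G := L ⋊[(Subgroup.zpowers a).subtype] (Subgroup.zpowers a)
  have hc : Nat.card G = p ^ 5 := by
    rw [SemidirectProduct.card, Nat.card_zpowers, ha, Nat.card_congr Multiplicative.toAdd,
      Nat.card_prod, Nat.card_zmod]
    ring
  have hG : IsPGroup p G := IsPGroup.of_card hc
  have hreg : IsRegularPGroup p G := H7.isRegular_of_class_lt hG (by
    by_contra h
    have h1 := H2.pow_le_card_of_lcs_ne_bot hG (by omega) h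
    rw [hc, Nat.pow_le_pow_iff_right hp'.one_lt] at h1
    have : p ≠ 4 := by rintro rfl; exact absurd hp' (by decide)
    omega)
  set b : G := inr ⟨a, Subgroup.mem_zpowers a⟩ with hb
  have hb1 : b ^ p ^ 1 = 1 := by
    rw [pow_one, hb, ← map_pow, ← map_one inr]
    congr 1
    have := pow_orderOf_eq_one a
    rw [ha] at this
    exact Subtype.ext this
  have h1 := (H7.regular_commute_iff hreg b (inl y) 1).1 (by rw [hb1]; simp)
  have h2 := (H7.regular_commute_iff hreg (inl y) b 1).2 (by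
    rw [← inv_eq_one, ← inv_pow, ← h1]; congr 1; group)
  rw [pow_one, ← map_pow] at h2
  have h3 : (inl (a (y ^ p)) : G) = inl (y ^ p) := by
    have := inl_aut (φ := (Subgroup.zpowers a).subtype) ⟨a, Subgroup.mem_zpowers a⟩ (y ^ p)
    rw [map_inv, ← hb, ← h2, mul_inv_cancel_right] at this
    exact this
  exact inl_injective h3

end Cfsg.Agent.S4080
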