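import Cfsg.Statements.S4081
import Cfsg.Agent.H5.CycloMod
import Cfsg.Agent.H5.Misc
import Cfsg.Agent.H1.EAMod
import Cfsg.Agent.H9.FrobCompl
import Cfsg.Agent.H6.Burnside
import Cfsg.Agent.H8.PComplement

set_option autoImplicit false
open Cfsg

namespace Cfsg.Agent.S4081

open Subgroup
open scoped IsMulCommutative

theorem mk_eq_mk {G : Type*} [Group G] {a b : G} :
    (Quotient.mk'' a : MulAction.orbitRel.Quotient (MulAut G) G) = Quotient.mk'' b ↔
      ∃ α : MulAut G, α b = a := by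
  rw [Quotient.eq'']; rfl

theorem mk_ne {G : Type*} [Group G] {a b : G} (h : orderOf a ≠ orderOf b) :
    (Quotient.mk'' a : MulAction.orbitRel.Quotient (MulAut G) G) ≠ Quotient.mk'' b := by
  intro h1
  obtain ⟨α, rfl⟩ := mk_eq_mk.1 h1
  exact h (α.orderOf_eq b)

theorem card_eq_three_iff {G : Type*} [Group G] {a b : G} (ha : orderOf a ≠ 1) (hb : orderOf b ≠ 1)
    (hab : orderOf a ≠ orderOf b) : Nat.card (MulAction.orbitRel.Quotient (MulAut G) G) = 3 ↔
      ∀ g : G, g = 1 ∨ (∃ α : MulAut G, α a = g) ∨ ∃ α : MulAut G, α b = g := by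
  have h1 : ({Quotient.mk'' 1, Quotient.mk'' a, Quotient.mk'' b} :
      Set (MulAction.orbitRel.Quotient (MulAut G) G)).ncard = 3 :=
    Set.ncard_eq_three.2 ⟨_, _, _, mk_ne (by simpa using ha.symm), mk_ne (by simpa using hb.symm),
      mk_ne hab, rfl⟩
  rw [← Set.ncard_univ]
  constructor
  · intro h g
    have h2 := Set.eq_of_subset_of_ncard_le (Set.subset_univ _) (h.trans h1.symm).le
      (Set.finite_of_ncard_ne_zero (by omega))
    have h3 := h2.ge (Set.mem_univ (Quotient.mk'' g))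
    simp only [Set.mem_insert_iff, Set.mem_singleton_iff, mk_eq_mk, map_one] at h3
    rcases h3 with ⟨_, h⟩ | h | h
    · exact Or.inl h.symm
    · exact Or.inr (Or.inl h)
    · exact Or.inr (Or.inr h)
  · intro h
    rw [← h1]
    congr 1
    refine (Set.eq_univ_of_forall fun x => ?_).symm
    induction x using Quotient.inductionOn' with
    | h g =>
      simp only [Set.mem_insert_iff, Set.mem_singleton_iff, mk_eq_mk, map_one]
      rcases h g with h | h | h
      · exact Or.inl ⟨1, h.symm⟩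
      · exact Or.inr (Or.inl h)
      · exact Or.inr (Or.inr h)

theorem exists_aut_extend {G : Type*} [Group G] [Finite G] {N : Subgroup G} [N.Normal] {a : G}
    (hc : N.IsComplement' (zpowers a)) (ψ : N ≃* N) {k : ℕ} (hk : (orderOf a).Coprime k)
    (h : ∀ n : N, (ψ (MulAut.conjNormal a n) : G) = a ^ k * ψ n * (a ^ k)⁻¹) :
    ∃ α : MulAut G, (∀ n : N, α n = ψ n) ∧ α a = a ^ k := by
  have h1 : ∀ (i : ℕ) (n : N), (ψ (MulAut.conjNormal (a ^ i) n) : G) =
      (a ^ i) ^ k * ψ n * ((a ^ i) ^ k)⁻¹ := by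
    intro i
    induction i with
    | zero => simp
    | succ i ih =>
      intro n
      rw [pow_succ', map_mul, MulAut.mul_apply, h, ih, (Commute.self_pow a i).mul_pow]
      group
  let fg : zpowers a ≃* zpowers a := MulEquiv.ofBijective (powMonoidHom k)
    (Nat.Coprime.pow_left_bijective (by rwa [Nat.card_zpowers]))
  let e := SemidirectProduct.mulEquivSubgroup hc
  let c := SemidirectProduct.congr
    (φ₁ := (N.normalizerMonoidHom).comp (inclusion (N.normalizer_eq_top ▸ le_top)))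
    (φ₂ := (N.normalizerMonoidHom).comp (inclusion (N.normalizer_eq_top ▸ le_top))) ψ fg (by
      rintro ⟨g, hg⟩
      obtain ⟨i, rfl⟩ := (mem_powers_iff_mem_zpowers).2 hg
      ext n
      exact h1 i n)
  refine ⟨e.symm.trans (c.trans e), fun n => ?_, ?_⟩
  · have : e.symm n = SemidirectProduct.inl n := by
      rw [MulEquiv.symm_apply_eq]; simp [e]
    simp [this, e, c]
  · have : e.symm a = SemidirectProduct.inr ⟨a, mem_zpowers a⟩ := by
      rw [MulEquiv.symm_apply_eq]; simp [e]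
    simp [this, e, c, fg]
    rfl

theorem exists_mul_pow {G : Type*} [Group G] [Finite G] {N : Subgroup G} {a : G}
    (hc : N.IsComplement' (zpowers a)) (g : G) : ∃ u ∈ N, ∃ j : ℕ, g = u * a ^ j := by
  obtain ⟨⟨u, c⟩, rfl⟩ := (hc.existsUnique g).exists
  obtain ⟨j, hj⟩ := (mem_powers_iff_mem_zpowers).2 c.2
  exact ⟨u, u.2, j, by rw [← hj]⟩

theorem fwd {G : Type*} [Group G] [Finite G] {p q : ℕ} [hp : Fact p.Prime] [hq : Fact q.Prime]
    (hpq : p ≠ q) {b a : G} (hb : orderOf b = p) (ha : orderOf a = q)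
    (h : ∀ g : G, g = 1 ∨ (∃ α : MulAut G, α b = g) ∨ ∃ α : MulAut G, α a = g)
    (hO : pCore p G ≠ ⊥) :
    ∃ (p q n : ℕ) (_ : Fact p.Prime) (_ : Fact q.Prime), p ≠ q ∧ 1 ≤ n ∧ Nat.card G = p ^ n * q ∧
      (∀ P : Sylow p G, (P : Subgroup G).Normal ∧ Cfsg.IsElementaryAbelian p (P : Subgroup G)) ∧
      orderOf (p : ZMod q) = q - 1 ∧
      ∀ x y : G, orderOf x = q → orderOf y = p → x * y * x⁻¹ ≠ y := by
  have hc : p.Coprime q := (Nat.coprime_primes hp.out hq.out).2 hpq
  have hord : ∀ g : G, g = 1 ∨ orderOf g = p ∨ orderOf g = q := fun g => by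
    rcases h g with h | ⟨α, rfl⟩ | ⟨α, rfl⟩
    · exact Or.inl h
    · exact Or.inr (Or.inl ((α.orderOf_eq b).trans hb))
    · exact Or.inr (Or.inr ((α.orderOf_eq a).trans ha))
  have htr : ∀ g g' : G, orderOf g = orderOf g' → ∃ α : MulAut G, α g = g' := by
    intro g g' hg
    have hp1 := hp.out.one_lt
    have hq1 := hq.out.one_lt
    rcases h g with rfl | ⟨α, rfl⟩ | ⟨α, rfl⟩ <;> rcases h g' with rfl | ⟨β, rfl⟩ | ⟨β, rfl⟩ <;>
      first
      | exact ⟨1, rfl⟩
      | (simp only [MulEquiv.orderOf_eq, orderOf_one, ha, hb] at hg; omega)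
      | exact ⟨β * α⁻¹, by simp⟩
  have hpe : ∀ {r s : ℕ} [Fact r.Prime] [Fact s.Prime], r ≠ s → ∀ {P : Subgroup G}, IsPGroup r P →
      ∀ g ∈ P, orderOf g ≠ s := by
    intro r s hr hs hrs P hP g hg h1
    obtain ⟨k, hk⟩ := H8.exists_orderOf_eq_pow_of_mem hP hg
    exact hrs ((Nat.prime_dvd_prime_iff_eq hs.out hr.out).1
      (hs.out.dvd_of_dvd_pow (dvd_of_eq (h1.symm.trans hk)))).symm
  have hfpf : ∀ x y : G, orderOf x = q → orderOf y = p → x * y * x⁻¹ ≠ y := by
    intro x y hx hy h1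
    have h2 := Commute.orderOf_mul_eq_mul_orderOf_of_coprime (mul_inv_eq_iff_eq_mul.1 h1)
      (by rw [hx, hy]; exact hc.symm)
    rw [hx, hy] at h2
    have hp1 := hp.out.two_le
    have hq1 := hq.out.two_le
    rcases hord (x * y) with h3 | h3 | h3
    · rw [h3, orderOf_one] at h2; nlinarith
    · nlinarith
    · nlinarith
  set Z := H5.zOf (pCore p G) with hZ
  have hZp : IsPGroup p Z := (L.isPGroup_pCore p).to_le (H5.zOf_le _)
  have hZ1 : ∀ z ∈ Z, z = 1 ∨ orderOf z = p := fun z hz => by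
    rcases hord z with h | h | h
    · exact Or.inl h
    · exact Or.inr h
    · exact absurd h (hpe hpq hZp z hz)
  haveI := L.pCore_characteristic (G := G) hp.out
  haveI := (L.isPGroup_pCore (G := G) p).isNilpotent
  have hZne : Z ≠ ⊥ := H5.zOf_ne_bot hO
  have hZinv : ∀ α : MulAut G, ∀ z ∈ Z, α z ∈ Z := by
    intro α z hz
    have := mem_map_of_mem α.toMonoidHom hz
    rwa [hZ, ← H5.zOf_map_of_injective _ α.injective, characteristic_iff_map_eq.1 inferInstance α]
      at this
  have hZ2 : ∀ y : G, orderOf y = p → y ∈ Z := by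
    intro y hy
    obtain ⟨⟨z, hz⟩, hz1⟩ := ne_bot_iff_exists_ne_one.1 hZne
    obtain ⟨α, rfl⟩ := htr z y
      (((hZ1 z hz).resolve_left fun h => hz1 (Subtype.ext h)).trans hy.symm)
    exact hZinv α z hz
  have hZe : ∀ z ∈ Z, z ^ p = 1 := fun z hz => by
    rcases hZ1 z hz with rfl | h
    · simp
    · rw [← h, pow_orderOf_eq_one]
  have hPZ : ∀ P : Sylow p G, (P : Subgroup G) = Z := fun P =>
    (P.is_maximal' hZp fun g hg => by
      rcases hord g with rfl | h | h
      · exact one_mem _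
      · exact hZ2 g h
      · exact absurd h (hpe hpq P.isPGroup' g hg)).symm
  obtain ⟨Q, hQ⟩ := (H8.isPGroup_zpowers_of_orderOf (p := q) (k := 1)
    (ha.trans (pow_one q).symm)).exists_le_sylow
  haveI : Nontrivial Z := (Subgroup.nontrivial_iff_ne_bot Z).2 hZne
  have hQ1 : ∀ g ∈ (Q : Subgroup G), g ≠ 1 → orderOf g = q := fun g hg hg1 => by
    rcases hord g with h | h | h
    · exact absurd h hg1
    · exact absurd h (hpe hpq.symm Q.isPGroup' g hg)
    · exact h
  have hQa : (Q : Subgroup G) = zpowers a := by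
    refine le_antisymm (fun g hg => ?_) hQ
    have h1 := H9.isFrobAction_conjAction (B := (Q : Subgroup G)) (K := Z) le_normalizer_of_normal
      fun x hx hx1 k hk hxk => (hZ1 k hk).resolve_right fun h =>
        hfpf x k (hQ1 x hx hx1) h (mul_inv_eq_iff_eq_mul.2 hxk)
    obtain ⟨i, hi⟩ := h1.mem_zpowers_of_isPGroup hq.out (P := ⊤) (Q.isPGroup'.to_subgroup ⊤)
      (a := ⟨a, hQ (mem_zpowers a)⟩) (b := ⟨g, hg⟩) (mem_top _) (mem_top _)
      (by rw [← orderOf_coe]; exact ha) (Subtype.ext (by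
        by_cases hg1 : g = 1
        · simp [hg1]
        · exact orderOf_dvd_iff_pow_eq_one.1 (dvd_of_eq (hQ1 g hg hg1))))
    exact ⟨i, congrArg Subtype.val hi⟩
  obtain ⟨P⟩ : Nonempty (Sylow p G) := inferInstance
  have hidx : Z.index = q := by
    have h1 : Z.index = q ^ _ := Nat.eq_prime_pow_of_unique_prime_dvd index_ne_zero_of_finite
      fun {d} hd hdd => by
        haveI := Fact.mk hd
        obtain ⟨g, hg⟩ := exists_prime_orderOf_dvd_card' d (hdd.trans Z.index_dvd_card)
        rcases hord g with rfl | h | h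
        · exact absurd (orderOf_one.symm.trans hg).symm hd.one_lt.ne'
        · exact absurd (hPZ P ▸ hdd) (hg ▸ h ▸ P.not_dvd_index)
        · exact hg.symm.trans h
    refine Nat.dvd_antisymm ?_ ?_
    · have h2 := Q.pow_dvd_card_of_pow_dvd_card (h1 ▸ Z.index_dvd_card)
      rwa [← h1, hQa, Nat.card_zpowers, ha] at h2
    · obtain ⟨n, hn⟩ := hZp.exists_card_eq
      refine (Nat.Coprime.pow_right n hc.symm).dvd_of_dvd_mul_left ?_
      rw [← hn, card_mul_index, ← ha]
      exact orderOf_dvd_natCard a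
  obtain ⟨n, hn⟩ := hZp.exists_card_eq
  have hcard : Nat.card G = p ^ n * q := by rw [← hn, ← hidx, card_mul_index]
  refine ⟨p, q, n, hp, hq, hpq, ?_, hcard, fun P => ?_, ?_, hfpf⟩
  · rcases Nat.eq_zero_or_pos n with rfl | h
    · exact absurd (card_eq_one.1 (by simpa using hn)) hZne
    · exact h
  · rw [hPZ]
    exact ⟨inferInstance, inferInstance, hZe⟩
  have hcomp : Z.IsComplement' (zpowers a) := isComplement'_of_coprime
    (by rw [hn, Nat.card_zpowers, ha, hcard])
    (by rw [hn, Nat.card_zpowers, ha]; exact Nat.Coprime.pow_left n hc)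
  have hZe' : ∀ v : Z, v ^ p = 1 := fun v => Subtype.ext (hZe v v.2)
  let ρ := H1.autRep hZe' (H9.restrictAut (MonoidHom.id (MulAut G)) Z hZinv)
  haveI : Nontrivial (H1.EA Z hZe') := (H1.eaOf hZe').injective.nontrivial
  have hρ : ∀ (α : MulAut G) (v : Z), ρ α (H1.eaOf hZe' v) = H1.eaOf hZe' ⟨α v, hZinv α v v.2⟩ :=
    fun _ _ => rfl
  have hρ1 : ∀ u ∈ Z, ρ (MulAut.conj u) = 1 := fun u hu => by
    rw [H1.autRep_eq_one_iff]
    ext v
    change u * v * u⁻¹ = v
    rw [H5.isMulCommutative_iff_forall.1 inferInstance u hu v v.2, mul_inv_cancel_right]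
  have hρ2 : ∀ α : MulAut G, ρ α * ρ (MulAut.conj a) = ρ (MulAut.conj (α a)) * ρ α := fun α => by
    rw [← map_mul, ← map_mul]
    congr 1
    ext g
    simp
  have hρ3 : ∀ α : MulAut G, Function.Bijective (ρ α) := fun α =>
    (Module.End.isUnit_iff _).1 ((Group.isUnit α).map ρ)
  refine H5.orderOf_eq_of_transitive hpq (T := ρ (MulAut.conj a))
    (by rw [← map_pow, ← map_pow, ← ha, pow_orderOf_eq_one, map_one, map_one]) ?_ ?_ ?_
  · intro v hv
    obtain ⟨v, rfl⟩ := (H1.eaOf hZe').surjective v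
    rw [H1.eaOf_eq_zero]
    exact Subtype.ext ((hZ1 v v.2).resolve_right fun h => hfpf a v ha h
      (congrArg Subtype.val ((H1.eaOf hZe').injective ((hρ _ v).symm.trans hv))))
  · intro v w hv hw
    obtain ⟨v, rfl⟩ := (H1.eaOf hZe').surjective v
    obtain ⟨w, rfl⟩ := (H1.eaOf hZe').surjective w
    rw [Ne, H1.eaOf_eq_zero] at hv hw
    obtain ⟨α, hα⟩ := htr v w (((hZ1 v v.2).resolve_left fun h => hv (Subtype.ext h)).trans
      ((hZ1 w w.2).resolve_left fun h => hw (Subtype.ext h)).symm)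
    obtain ⟨u, hu, j, hj⟩ := exists_mul_pow hcomp (α a)
    refine ⟨ρ α, j, (hρ3 α).1, by rw [hρ]; congr 1; exact Subtype.ext hα, ?_⟩
    rw [hρ2, hj, map_mul, map_mul, hρ1 u hu, one_mul, map_pow, map_pow]
  · intro k hk hkq
    obtain ⟨α, hα⟩ := htr a (a ^ k) (Nat.Coprime.orderOf_pow (by
      rw [ha]; exact (Nat.coprime_of_lt_prime hk.ne' hkq hq.out))).symm
    exact ⟨ρ α, (hρ3 α).2, by rw [hρ2, hα, map_pow, map_pow]⟩

/-- Let G be a finite group whose order is not a prime power. Then the automorphism group of G has exactly three orbits on G if and only if there are distinct primes p, q with #G = pⁿ·q (n ≥ 1) such that G has a normal elementary abelian Sylow p-subgroup P, p is a primitive root modulo q (the multiplicative order of p mod q is q − 1), and every element of order q of G acts on P without non-identity fixed points. -/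
theorem result {G : Type*} [Group G] [Finite G] (hnpp : ¬ IsPrimePow (Nat.card G)) (hnt : Nat.card G ≠ 1) :
    Nat.card (MulAction.orbitRel.Quotient (MulAut G) G) = 3 ↔
    ∃ (p q n : ℕ) (_ : Fact p.Prime) (_ : Fact q.Prime), p ≠ q ∧ 1 ≤ n ∧ Nat.card G = p ^ n * q ∧
      (∀ P : Sylow p G, (P : Subgroup G).Normal ∧ Cfsg.IsElementaryAbelian p (P : Subgroup G)) ∧
      orderOf (p : ZMod q) = q - 1 ∧
      ∀ x y : G, orderOf x = q → orderOf y = p → x * y * x⁻¹ ≠ y := by
  constructor
  · intro h3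
    obtain ⟨r, hr, hrd⟩ := Nat.exists_prime_and_dvd hnt
    obtain ⟨s, hs, hsd, hsr⟩ : ∃ s : ℕ, s.Prime ∧ s ∣ Nat.card G ∧ s ≠ r := by
      by_contra h
      push Not at h
      exact hnpp (isPrimePow_iff_unique_prime_dvd.2 ⟨r, ⟨hr, hrd⟩, fun s hs => h s hs.1 hs.2⟩)
    haveI := Fact.mk hr
    haveI := Fact.mk hs
    obtain ⟨a, ha⟩ := exists_prime_orderOf_dvd_card' r hrd
    obtain ⟨b, hb⟩ := exists_prime_orderOf_dvd_card' s hsd
    have h := (card_eq_three_iff (ha ▸ hr.one_lt.ne') (hb ▸ hs.one_lt.ne')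
      (ha ▸ hb ▸ hsr.symm)).1 h3
    have h1 : ∀ t : ℕ, t.Prime → t ∣ Nat.card G → t = r ∨ t = s := by
      intro t ht htd
      haveI := Fact.mk ht
      obtain ⟨g, rfl⟩ := exists_prime_orderOf_dvd_card' t htd
      rcases h g with rfl | ⟨α, rfl⟩ | ⟨α, rfl⟩
      · exact absurd orderOf_one ht.one_lt.ne'
      · exact Or.inl ((α.orderOf_eq a).trans ha)
      · exact Or.inr ((α.orderOf_eq b).trans hb)
    haveI := H6.isSolvable_of_primes_two r s h1
    haveI : Nontrivial G := Finite.one_lt_card_iff_nontrivial.1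
      (hr.one_lt.trans_le (Nat.le_of_dvd Nat.card_pos hrd))
    have h2 := L.fittingSubgroup_ne_bot (G := G)
    rw [Ne, L.fittingSubgroup_eq_bot_iff] at h2
    push Not at h2
    obtain ⟨t, ht, ht1⟩ := h2
    haveI := Fact.mk ht
    obtain ⟨k, hk⟩ := (L.isPGroup_pCore (G := G) t).exists_card_eq
    have h4 : t ∣ Nat.card G := by
      refine dvd_trans (hk ▸ dvd_pow_self t ?_) (pCore t G).card_subgroup_dvd_card
      rintro rfl
      exact ht1 (card_eq_one.1 (by simpa using hk))
    rcases h1 t ht h4 with rfl | rfl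
    · exact fwd hsr.symm ha hb h ht1
    · exact fwd hsr hb ha (fun g => (h g).imp_right Or.symm) ht1
  · rintro ⟨p, q, n, hp, hq, hpq, hn, hcard, hP, ho, hfpf⟩
    have hc : p.Coprime q := (Nat.coprime_primes hp.out hq.out).2 hpq
    obtain ⟨a, ha⟩ := exists_prime_orderOf_dvd_card' (G := G) q (hcard ▸ Dvd.intro_left _ rfl)
    obtain ⟨b, hb⟩ := exists_prime_orderOf_dvd_card' (G := G) p
      (hcard ▸ (dvd_pow_self p (by omega)).mul_right q)
    obtain ⟨P, hbP⟩ := (H8.isPGroup_zpowers_of_orderOf (p := p) (k := 1)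
      (hb.trans (pow_one p).symm)).exists_le_sylow
    obtain ⟨hPn, hPc, hPe⟩ := hP P
    have hPcard : Nat.card (P : Subgroup G) = p ^ n := by
      rw [P.card_eq_multiplicity, hcard, Nat.factorization_mul (pow_pos hp.out.pos n).ne'
        hq.out.ne_zero, Finsupp.add_apply, Nat.factorization_eq_zero_of_not_dvd
          (hp.out.coprime_iff_not_dvd.1 hc), Nat.Prime.factorization_pow hp.out]
      simp
    set Z := (P : Subgroup G)
    have hcomp : Z.IsComplement' (zpowers a) := isComplement'_of_coprime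
      (by rw [hPcard, Nat.card_zpowers, ha, hcard])
      (by rw [hPcard, Nat.card_zpowers, ha]; exact Nat.Coprime.pow_left n hc)
    have hfix : ∀ x : G, orderOf x = q → ∀ v : Z, MulAut.conjNormal x v = v → v = 1 := by
      intro x hx v hv
      by_contra h
      exact hfpf x v hx (orderOf_eq_prime (hPe v v.2) fun h1 => h (Subtype.ext h1))
        (congrArg Subtype.val hv)
    have hZe' : ∀ v : Z, v ^ p = 1 := fun v => Subtype.ext (hPe v v.2)
    let ρ := H1.autRep hZe' (MulAut.conjNormal (H := Z))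
    obtain ⟨h1, ψ, h2⟩ := H5.exists_equiv_of_orderOf_eq hpq (T := ρ a)
      (by rw [← map_pow, ← ha, pow_orderOf_eq_one, map_one]) (fun v hv => by
        obtain ⟨v, rfl⟩ := (H1.eaOf hZe').surjective v
        rw [H1.eaOf_eq_zero]
        exact hfix a ha v ((H1.eaOf hZe').injective hv)) ho
    obtain ⟨β, -, hβ⟩ := exists_aut_extend hcomp (MulEquiv.toAdditive.symm ψ) (k := p)
      (ha ▸ hc.symm) fun v => by
        have := h2 (H1.eaOf hZe' v)
        rw [← map_pow] at this
        exact congrArg (fun x => ((H1.eaOf hZe').symm x : G)) this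
    have hβ' : ∀ i : ℕ, (β ^ i) a = a ^ p ^ i := fun i => by
      induction i with
      | zero => simp
      | succ i ih => rw [pow_succ', MulAut.mul_apply, ih, map_pow, hβ, ← pow_mul, ← pow_succ']
    refine (card_eq_three_iff (ha ▸ hq.out.one_lt.ne') (hb ▸ hp.out.one_lt.ne')
      (ha ▸ hb ▸ hpq.symm)).2 fun g => ?_
    obtain ⟨u, hu, j, rfl⟩ := exists_mul_pow hcomp g
    by_cases hj : q ∣ j
    · rw [orderOf_dvd_iff_pow_eq_one.1 (ha ▸ hj), mul_one]
      by_cases hu1 : u = 1
      · exact Or.inl hu1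
      refine Or.inr (Or.inr ?_)
      obtain ⟨φ, hφ1, hφ2⟩ := h1 (H1.eaOf hZe' ⟨b, hbP (mem_zpowers b)⟩) (H1.eaOf hZe' ⟨u, hu⟩)
        (by
          rw [Ne, H1.eaOf_eq_zero]
          intro h
          rw [show b = 1 from congrArg Subtype.val h, orderOf_one] at hb
          exact hp.out.one_lt.ne hb)
        (by rw [Ne, H1.eaOf_eq_zero]; exact fun h => hu1 (congrArg Subtype.val h))
      obtain ⟨α, hα, -⟩ := exists_aut_extend hcomp (MulEquiv.toAdditive.symm φ) (k := 1)
        (by simp) fun v => by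
          rw [pow_one]
          exact congrArg (fun x => ((H1.eaOf hZe').symm x : G)) (hφ2 (H1.eaOf hZe' v))
      exact ⟨α, (hα ⟨b, hbP (mem_zpowers b)⟩).trans
        (congrArg (fun x => ((H1.eaOf hZe').symm x : G)) hφ1)⟩
    · refine Or.inr (Or.inl ?_)
      have hcj : j.Coprime q := (hq.out.coprime_iff_not_dvd.2 hj).symm
      obtain ⟨i, hi⟩ := (mem_powers_iff_mem_zpowers).2 ((eq_top_of_card_eq
        (zpowers (ZMod.unitOfCoprime p hc)) (by
          rw [Nat.card_zpowers, H5.orderOf_unitOfCoprime, ho, Nat.card_eq_fintype_card,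
            ZMod.card_units])).ge (mem_top (ZMod.unitOfCoprime j hcj)))
      have h3 : a ^ p ^ i = a ^ j := by
        rw [pow_eq_pow_iff_modEq, ha, ← ZMod.natCast_eq_natCast_iff]
        simpa using congrArg Units.val hi
      obtain ⟨w, -, hw⟩ := H9.fpf_surj_on (hfix (a ^ j)
        ((Nat.Coprime.orderOf_pow (ha ▸ hcj.symm)).trans ha)) (L := ⊤) (fun _ _ => mem_top _)
        (mem_top ⟨u, hu⟩)
      refine ⟨MulAut.conj (w : G) * β ^ i, ?_⟩
      have h4 : (w : G) * (a ^ j * w * (a ^ j)⁻¹)⁻¹ = u := congrArg Subtype.val hw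
      rw [MulAut.mul_apply, hβ', h3, ← h4, MulAut.conj_apply]
      group

end Cfsg.Agent.S4081
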