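import Cfsg.Statements.S4082
import Cfsg.Agent.H5.PByCyclic
import Cfsg.Agent.H5.Real
import Cfsg.Agent.H1.Solv

set_option autoImplicit false
open Cfsg

namespace Cfsg.Agent.S4082

open Subgroup

theorem sq_eq_one {G : Type*} [Group G] [Finite G] {p : ℕ} [hp' : Fact p.Prime] (hp : p ≠ 2)
    (hR : ∀ H : Subgroup G, (∀ S : Sylow p ↥H, (S : Subgroup ↥H).Normal) →
        (∀ (S : Sylow p ↥H) [(S : Subgroup ↥H).Normal], IsCyclic (↥H ⧸ (S : Subgroup ↥H))) →
        IsCyclic H ∨ (∃ n : ℕ, Nonempty (H ≃* DihedralGroup (p ^ n))))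
    {Q : Subgroup G} (hQ : IsPGroup p Q) {x : G} (hx : x ∈ normalizer (Q : Set G))
    (hx' : x ∉ centralizer (Q : Set G)) : x * x = 1 := by
  obtain ⟨h1, h2⟩ := H5.sylow_of_sup_zpowers' hQ hx
  rcases hR _ h1 h2 with h | ⟨n, ⟨e⟩⟩
  · exact absurd (fun q hq => H5.isMulCommutative_iff_forall.1 (inferInstance :
      IsMulCommutative (zpowers x ⊔ Q : Subgroup G)) q (mem_sup_right hq) x
        (mem_sup_left (mem_zpowers x))) hx'
  · rcases hex : e ⟨x, mem_sup_left (mem_zpowers x)⟩ with i | i
    · refine absurd (fun q hq => ?_) hx'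
      rcases heq : e ⟨q, mem_sup_right hq⟩ with j | j
      · have : e (⟨q, mem_sup_right hq⟩ * ⟨x, mem_sup_left (mem_zpowers x)⟩) =
            e (⟨x, mem_sup_left (mem_zpowers x)⟩ * ⟨q, mem_sup_right hq⟩) := by
          rw [map_mul, map_mul, hex, heq, DihedralGroup.r_mul_r, DihedralGroup.r_mul_r, add_comm]
        exact congrArg Subtype.val (e.injective this)
      · have h3 := DihedralGroup.orderOf_sr j
        rw [← heq, MulEquiv.orderOf_eq, ← Subgroup.orderOf_coe] at h3
        obtain ⟨k, hk⟩ := H8.exists_orderOf_eq_pow_of_mem hQ hq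
        exact absurd ((Nat.prime_dvd_prime_iff_eq Nat.prime_two hp'.out).1
          (Nat.prime_two.dvd_of_dvd_pow (n := k) (hk.symm.trans h3).symm.dvd)).symm hp
    · have : e (⟨x, mem_sup_left (mem_zpowers x)⟩ * ⟨x, mem_sup_left (mem_zpowers x)⟩) = e 1 := by
        rw [map_mul, hex, DihedralGroup.sr_mul_self, map_one]
      exact congrArg Subtype.val (e.injective this)

theorem inverts {G : Type*} [Group G] {Q : Subgroup G}
    (h : ∀ x ∈ normalizer (Q : Set G), x ∉ centralizer (Q : Set G) → x * x = 1) {x : G}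
    (hx : x ∈ normalizer (Q : Set G)) (hx' : x ∉ centralizer (Q : Set G)) {c : G}
    (hc : c ∈ centralizer (Q : Set G)) : x * c * x⁻¹ = c⁻¹ := by
  have h1 := h x hx hx'
  have h2 := h (x * c) (mul_mem hx (centralizer_le_normalizer _ hc)) fun h =>
    hx' ((Subgroup.mul_mem_cancel_right _ hc).1 h)
  rw [← eq_inv_iff_mul_eq_one] at h1
  rw [← h1, eq_inv_iff_mul_eq_one, mul_assoc (x * c), h2]

/-- Let p be an odd prime and G a finite group with Sylow p-subgroup P. Say that G has restricted p-by-cyclic subgroups when every subgroup H of G whose Sylow p-subgroup is normal in H with cyclic quotient is itself cyclic or dihedral of order 2pⁿ for some n. Then G has restricted p-by-cyclic subgroups if and only if P is cyclic and one of the following holds: (1) N_G(P) = C_G(P); or (2) N_G(P)/C_G(P) has order 2 and, for the subgroup Q of order p of P, the centralizer C_G(Q) is abelian and every element of N_G(Q) outside C_G(Q) is an involution inverting every element of C_G(Q). -/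
theorem result {G : Type*} [Group G] [Finite G] {p : ℕ}
    [Fact p.Prime] (hp : p ≠ 2) (P : Sylow p G) :
    (∀ H : Subgroup G, (∀ S : Sylow p ↥H, (S : Subgroup ↥H).Normal) →
        (∀ (S : Sylow p ↥H) [(S : Subgroup ↥H).Normal], IsCyclic (↥H ⧸ (S : Subgroup ↥H))) →
        IsCyclic H ∨ (∃ n : ℕ, Nonempty (H ≃* DihedralGroup (p ^ n)))) ↔
    (IsCyclic P ∧
      (Subgroup.normalizer ((P : Subgroup G) : Set G) = Subgroup.centralizer ((P : Subgroup G) : Set G) ∨
       ((Subgroup.centralizer ((P : Subgroup G) : Set G)).relIndex (Subgroup.normalizer ((P : Subgroup G) : Set G)) = 2 ∧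
        ∀ Q : Subgroup G, Q ≤ P → Nat.card Q = p →
          IsMulCommutative ↥(Subgroup.centralizer (Q : Set G)) ∧
          ∀ x : G, x ∈ Subgroup.normalizer (Q : Set G) → x ∉ Subgroup.centralizer (Q : Set G) →
            orderOf x = 2 ∧ ∀ c : G, c ∈ Subgroup.centralizer (Q : Set G) → x * c * x⁻¹ = c⁻¹))) := by
  have hp' : p.Prime := Fact.out
  have hodd : Odd p := hp'.odd_of_ne_two hp
  constructor
  · intro hR
    have hP : IsCyclic P := by
      obtain ⟨h1, h2⟩ := H5.sylow_of_sup_zpowers' P.isPGroup' (one_mem _)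
      rcases hR _ h1 h2 with h | ⟨n, ⟨e⟩⟩
      · exact Subgroup.isCyclic_of_le (le_sup_right : (P : Subgroup G) ≤ zpowers 1 ⊔ P)
      · have h3 := Nat.card_congr e.toEquiv
        obtain ⟨k, hk⟩ := P.isPGroup'.exists_card_eq
        rw [DihedralGroup.nat_card, zpowers_one_eq_bot, bot_sup_eq, hk] at h3
        exact absurd (h3 ▸ hodd.pow) (by simp)
    refine ⟨hP, ?_⟩
    by_cases hN : normalizer ((P : Subgroup G) : Set G) = centralizer ((P : Subgroup G) : Set G)
    · exact Or.inl hN
    obtain ⟨a, ha, ha'⟩ := SetLike.exists_of_lt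
      (lt_of_le_of_ne (centralizer_le_normalizer _) (Ne.symm hN))
    have hinv : ∀ b ∈ normalizer ((P : Subgroup G) : Set G),
        b ∉ centralizer ((P : Subgroup G) : Set G) → ∀ y ∈ (P : Subgroup G), b * y * b⁻¹ = y⁻¹ :=
      fun b hb hb' y hy => inverts (fun x => sq_eq_one hp hR P.isPGroup') hb hb'
        fun z hz => H5.isMulCommutative_iff_forall.1 inferInstance z hz y hy
    refine Or.inr ⟨relIndex_eq_two_iff.2 ⟨a, ha, fun b hb => ?_⟩, fun Q hQ hQp => ?_⟩
    · by_cases hb' : b ∈ centralizer ((P : Subgroup G) : Set G)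
      · exact Or.inr ⟨hb', fun h => ha' ((Subgroup.mul_mem_cancel_left _ hb').1 h)⟩
      · refine Or.inl ⟨fun y hy => ?_, hb'⟩
        have h1 := hinv b hb hb' _ (inv_mem hy)
        rw [inv_inv, ← hinv a ha ha' y hy] at h1
        calc y * (b * a) = (b * (a * y * a⁻¹) * b⁻¹) * (b * a) := by rw [h1]
          _ = _ := by group
    have hQ' := P.isPGroup'.to_le hQ
    have h1 : ∀ x ∈ normalizer (Q : Set G), x ∉ centralizer (Q : Set G) → x * x = 1 :=
      fun x => sq_eq_one hp hR hQ'
    have haQ : a ∈ normalizer (Q : Set G) := mem_normalizer_fintype fun y hy => by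
      rw [hinv a ha ha' y (hQ hy)]; exact inv_mem hy
    have haQ' : a ∉ centralizer (Q : Set G) := fun h => by
      have : Q = ⊥ := eq_bot_iff.2 fun y hy => by
        have h2 := hinv a ha ha' y (hQ hy)
        rw [← h y hy, mul_inv_cancel_right] at h2
        obtain ⟨k, hk⟩ := H8.exists_orderOf_eq_pow_of_mem hQ' hy
        exact mem_bot.2 (H5.eq_one_of_odd_of_eq_inv (hk ▸ hodd.pow) h2)
      rw [this, card_bot] at hQp
      exact hp'.one_lt.ne hQp
    refine ⟨H5.isMulCommutative_iff_forall.2 fun c hc d hd => ?_, fun x hx hx' =>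
      ⟨orderOf_eq_prime (by rw [sq, h1 x hx hx']) fun h => hx' (h ▸ one_mem _),
        fun c hc => inverts h1 hx hx' hc⟩⟩
    have h2 := inverts h1 haQ haQ' (mul_mem hc hd)
    rw [← conj_mul, inverts h1 haQ haQ' hc, inverts h1 haQ haQ' hd, ← mul_inv_rev, inv_inj] at h2
    exact h2.symm
  · rintro ⟨hP, hcase⟩ H h1 h2
    obtain ⟨S⟩ : Nonempty (Sylow p H) := inferInstance
    haveI := h1 S
    obtain ⟨t, ht, hsup⟩ := H5.exists_coprime_sup_zpowers S (h2 S)
    have hS' := S.isPGroup'.map H.subtype
    obtain ⟨g, hg⟩ := H8.exists_conj_le_sylow P hS'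
    have hSc : IsCyclic S := by
      haveI := Subgroup.isCyclic_of_le (H1.map_conj_le_iff.2 hg)
      exact isCyclic_of_surjective _ (((S : Subgroup H).equivMapOfInjective _
        H.subtype_injective).trans (Subgroup.equivMapOfInjective _
          (MulAut.conj g).toMonoidHom (MulAut.conj g).injective)).symm.surjective
    have htc : (orderOf t).Coprime (Nat.card S) := H1.coprime_card_of_isPGroup S.isPGroup' ht
    by_cases htC : t ∈ centralizer ((S : Subgroup H) : Set H)
    · exact Or.inl (H5.isCyclic_of_sup_zpowers_of_coprime hSc htC htc hsup)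
    right
    obtain ⟨y, hyS, hyp, hyt⟩ : ∃ y ∈ (S : Subgroup H), y ^ p = 1 ∧ t * y ≠ y * t := by
      by_contra h
      push Not at h
      exact htC (H1.le_centralizer_of_centralizes_omega hp S.isPGroup' le_normalizer_of_normal
        (A := zpowers t) (by rwa [Nat.card_zpowers]) (fun y hy hyp => by
          rw [H1.mem_centralizer_iff_le, zpowers_le, mem_centralizer_singleton_iff]
          exact h y hy hyp) (mem_zpowers t))
    have hyo : orderOf y = p := orderOf_eq_prime hyp fun h => hyt (by simp [h])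
    have hty : t ∈ normalizer (zpowers y : Set H) := by
      rw [← H1.map_conj_eq_self_iff]
      exact H5.eq_of_le_isCyclic hSc (H1.map_conj_le_of_mem_normalizer (zpowers_le.2 hyS)
        (le_normalizer_of_normal (mem_top t))) (zpowers_le.2 hyS) (H1.card_map_conj _ _)
    let f : H →* G := (MulAut.conj g).toMonoidHom.comp H.subtype
    have hf : Function.Injective f := (MulAut.conj g).injective.comp H.subtype_injective
    have hfS : ∀ s ∈ (S : Subgroup H), f s ∈ (P : Subgroup G) := fun s hs =>
      hg s ⟨s, hs, rfl⟩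
    have hft : f t ∈ normalizer (zpowers (f y) : Set G) := by
      rw [← MonoidHom.map_zpowers]
      exact le_normalizer_map f ⟨t, hty, rfl⟩
    have hft' : f t ∉ centralizer (zpowers (f y) : Set G) := fun h =>
      hyt (hf (by rw [map_mul, map_mul, h _ (mem_zpowers _)]))
    have hfy : orderOf (f y) = p := (orderOf_injective f hf y).trans hyo
    rcases hcase with h | ⟨-, h⟩
    · exact absurd (H8.mem_centralizer_of_hasNPC (H8.hasNPC_of_normalizer_le_centralizer P h.le)
        (H8.isPGroup_zpowers_of_orderOf (k := 1) (by simpa using hfy)) hft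
        (by rwa [orderOf_injective f hf])) hft'
    obtain ⟨h3, h4⟩ := (h _ (zpowers_le.2 (hfS y hyS)) (by rw [Nat.card_zpowers, hfy])).2 _ hft hft'
    rw [orderOf_injective f hf] at h3
    obtain ⟨s, hs⟩ := (Subgroup.isCyclic_iff_exists_zpowers_eq_top _).1 hSc
    have hsS : s ∈ (S : Subgroup H) := hs ▸ mem_zpowers s
    obtain ⟨k, hk⟩ := H8.exists_orderOf_eq_pow_of_mem S.isPGroup' hsS
    refine ⟨k, H3.nonempty_mulEquiv_dihedral (x := s) (y := t) hk ?_ (fun h => htC ?_)
      (h3 ▸ pow_orderOf_eq_one t) (hf ?_)⟩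
    · apply H3.index_zpowers_eq_of_card
      rw [← card_top, ← hsup, H1.card_sup_of_coprime le_normalizer_of_normal
        (by rwa [Nat.card_zpowers]), Nat.card_zpowers, h3, ← hs, Nat.card_zpowers]
    · exact fun z hz => H5.isMulCommutative_iff_forall.1 inferInstance z hz t (hs ▸ h)
    · rw [map_mul, map_mul, map_inv, map_inv]
      exact h4 _ fun z hz => H5.isMulCommutative_iff_forall.1 inferInstance z
        (zpowers_le.2 (hfS y hyS) hz) _ (hfS s hsS)

end Cfsg.Agent.S4082
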