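import Cfsg.Statements.S4083
import Cfsg.Agent.H5.PByCyclic
import Cfsg.Agent.H7.AutPGroup
import Cfsg.Agent.L.Invol
import Cfsg.Agent.H5.Real
import Cfsg.Agent.H1.Solv

set_option autoImplicit false
open Cfsg

namespace Cfsg.Agent.S4083

open Subgroup

theorem dihedral_sub {G : Type*} [Group G] {n : ℕ} [Finite G] {S : Type*} [Group S]
    (e : G ≃* DihedralGroup (2 ^ n)) (f : S →* G) (hf : Function.Injective f) :
    IsCyclic S ∨ ∃ (m : ℕ) (x y : S), 1 ≤ m ∧ orderOf x = 2 ^ m ∧ (zpowers x).index = 2 ∧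
      y ∉ zpowers x ∧ y ^ 2 = 1 ∧ y * x * y⁻¹ = x⁻¹ := by
  haveI : Finite S := Finite.of_injective f hf
  obtain ⟨a, b, ha, hi, hb, hb2, hab⟩ := H3.exists_gens_of_mulEquiv_dihedral e
  set C := (zpowers a).comap f with hC
  haveI hCc : IsCyclic C := by
    haveI := Subgroup.isCyclic_of_le (map_comap_le f (zpowers a))
    exact isCyclic_of_surjective _ (C.equivMapOfInjective f hf).symm.surjective
  by_cases h : C = ⊤
  · left
    rw [h] at hCc
    exact isCyclic_of_surjective _ topEquiv.surjective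
  obtain ⟨y, -, hy⟩ := SetLike.exists_of_lt (lt_top_iff_ne_top.2 h)
  obtain ⟨x, hx⟩ := (Subgroup.isCyclic_iff_exists_zpowers_eq_top _).1 hCc
  have hCi : C.index = 2 := by
    have h1 : C.index ∣ 2 := by
      rw [hC, index_comap, ← hi]
      haveI := normal_of_index_eq_two hi
      exact relIndex_dvd_index_of_normal _ _
    exact ((Nat.dvd_prime Nat.prime_two).1 h1).resolve_left fun h2 => h (index_eq_one.1 h2)
  obtain ⟨i, hi'⟩ := H3.exists_eq_zpow_mul_of_index_two hi hb (g := f y) hy
  have hinv : ∀ j : ℤ, b * a ^ j * b⁻¹ = (a ^ j)⁻¹ := fun j => by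
    rw [← conj_zpow, hab, inv_zpow]
  have hy2 : y ^ 2 = 1 := hf (by
    rw [map_pow, hi', map_one, sq]
    calc a ^ i * b * (a ^ i * b) = a ^ i * (b * a ^ i * b⁻¹) * b ^ 2 := by rw [sq]; group
      _ = 1 := by rw [hinv, hb2]; group)
  obtain ⟨j, hj⟩ : f x ∈ zpowers a := (hx ▸ mem_zpowers x : x ∈ C)
  simp only at hj
  have hyx : y * x * y⁻¹ = x⁻¹ := hf (by
    rw [map_mul, map_mul, map_inv, map_inv, hi', ← hj]
    calc a ^ i * b * a ^ j * (a ^ i * b)⁻¹ = a ^ i * (b * a ^ j * b⁻¹) * (a ^ i)⁻¹ := by group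
      _ = _ := by rw [hinv]; group)
  obtain ⟨m, -, hm⟩ := (Nat.dvd_prime_pow Nat.prime_two).1
    (ha ▸ orderOf_injective f hf x ▸ orderOf_dvd_of_mem_zpowers ⟨j, hj⟩ : orderOf x ∣ 2 ^ n)
  rcases Nat.eq_zero_or_pos m with rfl | hm0
  · left
    haveI := Fact.mk Nat.prime_two
    refine isCyclic_of_prime_card (p := 2) ?_
    rw [← C.card_mul_index, hCi, ← hx, Nat.card_zpowers, hm]
    rfl
  · exact Or.inr ⟨m, x, y, hm0, hm, hx ▸ hCi, hx ▸ hy, hy2, hyx⟩

theorem exists_klein {S : Type*} [Group S] [Finite S] {m : ℕ} {x y : S} (hm : 1 ≤ m)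
    (hx : orderOf x = 2 ^ m) (hy : y ∉ zpowers x) (hy2 : y ^ 2 = 1) (h : y * x * y⁻¹ = x⁻¹) :
    ∃ K : Subgroup S, Nat.card K = 4 ∧ ∀ k ∈ K, k ^ 2 = 1 := by
  set z := x ^ 2 ^ (m - 1) with hz
  have hz2 : z ^ 2 = 1 := by
    rw [hz, ← pow_mul, ← pow_succ, Nat.sub_add_cancel hm, ← hx, pow_orderOf_eq_one]
  have hz1 : z ≠ 1 := pow_ne_one_of_lt_orderOf (by positivity)
    (hx ▸ Nat.pow_lt_pow_right one_lt_two (by omega))
  have hyz : y * z * y⁻¹ = z := by
    rw [hz, ← conj_pow, h, inv_pow, ← hz, inv_eq_iff_mul_eq_one, ← sq, hz2]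
  have hc : y ∈ centralizer (zpowers z : Set S) := H3.mem_centralizer_zpowers_iff.2 hyz
  haveI := Fact.mk Nat.prime_two
  refine ⟨zpowers z ⊔ zpowers y, ?_,
    (H3.isElementaryAbelian_sup_zpowers (H3.isElementaryAbelian_zpowers hz2) hc hy2).2⟩
  rw [H5.card_sup_zpowers' Nat.prime_two (centralizer_le_normalizer _ hc)
    (fun h => hy (zpowers_le.2 (pow_mem (mem_zpowers x) _) h)) hy2, Nat.card_zpowers,
    orderOf_eq_prime hz2 hz1]

/-- Let G be a finite group with Sylow 2-subgroup P. Every subgroup H of G whose Sylow 2-subgroup is normal in H with cyclic quotient is cyclic, dihedral of 2-power order, or isomorphic to the alternating group of degree 4, if and only if either P is cyclic, or P is dihedral (of order at least 4) and every elementary abelian subgroup K of order 4 of P satisfies C_G(K) = K. -/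
theorem result {G : Type*} [Group G] [Finite G] (P : Sylow 2 G) :
    (∀ H : Subgroup G, (∀ S : Sylow 2 ↥H, (S : Subgroup ↥H).Normal) →
        (∀ (S : Sylow 2 ↥H) [(S : Subgroup ↥H).Normal], IsCyclic (↥H ⧸ (S : Subgroup ↥H))) →
        IsCyclic H ∨ (∃ n : ℕ, Nonempty (H ≃* DihedralGroup (2 ^ n))) ∨ Nonempty (H ≃* alternatingGroup (Fin 4))) ↔
    (IsCyclic P ∨
      ((∃ n : ℕ, 1 ≤ n ∧ Nonempty ((P : Subgroup G) ≃* DihedralGroup (2 ^ n))) ∧
        ∀ K : Subgroup G, K ≤ P → Nat.card K = 4 → (∀ k ∈ K, k ^ 2 = 1) → Subgroup.centralizer (K : Set G) = K)) := by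
  haveI := Fact.mk Nat.prime_two
  constructor
  · intro hR
    obtain ⟨k, hk⟩ := P.isPGroup'.exists_card_eq
    obtain ⟨h1, h2⟩ := H5.sylow_of_sup_zpowers' P.isPGroup' (one_mem _)
    have h0 : zpowers (1 : G) ⊔ P = P := by rw [zpowers_one_eq_bot, bot_sup_eq]
    by_cases hP : IsCyclic P
    · exact Or.inl hP
    refine Or.inr ⟨?_, fun K hK hK4 hK2 => le_antisymm (fun c hc => ?_) fun a ha b hb =>
      L.commute_of_sq_eq_one (fun a ha => by rw [← sq, hK2 a ha]) hb ha⟩
    · rcases hR _ h1 h2 with h | ⟨n, ⟨e⟩⟩ | ⟨⟨e⟩⟩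
      · exact absurd (h0 ▸ h) hP
      · rcases Nat.eq_zero_or_pos n with rfl | hn
        · refine absurd (isCyclic_of_prime_card (p := 2) ?_) hP
          rw [← h0, Nat.card_congr e.toEquiv, DihedralGroup.nat_card]
          rfl
        · exact ⟨n, hn, ⟨(MulEquiv.subgroupCongr h0.symm).trans e⟩⟩
      · have h3 := Nat.card_congr e.toEquiv
        rw [h0, hk, nat_card_alternatingGroup, Nat.card_fin] at h3
        exact absurd (Nat.prime_three.dvd_of_dvd_pow (m := 2) (n := k) (by rw [h3]; decide))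
          (by decide)
    · have hKe : IsElementaryAbelian 2 K := ⟨H5.isMulCommutative_iff_forall.2 fun a ha b hb =>
        L.commute_of_sq_eq_one (fun a ha => by rw [← sq, hK2 a ha]) ha hb, hK2⟩
      have hcomm := H3.isMulCommutative_sup_zpowers hKe.1 hc
      rw [sup_comm] at hcomm
      obtain ⟨h1, h2⟩ := H5.sylow_of_sup_zpowers' (P.isPGroup'.to_le hK)
        (centralizer_le_normalizer _ hc)
      rcases hR _ h1 h2 with h | ⟨n, ⟨e⟩⟩ | ⟨⟨e⟩⟩
      · exact absurd (Subgroup.isCyclic_of_le (le_sup_right : K ≤ zpowers c ⊔ K))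
          (H3.not_isCyclic_of_isElementaryAbelian Nat.prime_two hKe (by omega))
      · have h3 := DihedralGroup.commutative_iff.1 (H5.isMulCommutative_of_mulEquiv e hcomm)
        have h4 := Nat.card_congr e.toEquiv
        rw [DihedralGroup.nat_card] at h4
        rw [H1.eq_of_le_of_card_le (le_sup_right : K ≤ zpowers c ⊔ K) (by omega)]
        exact mem_sup_left (mem_zpowers c)
      · have h3 := (H5.isMulCommutative_of_mulEquiv e hcomm).1.1
          ⟨Equiv.swap 0 1 * Equiv.swap 1 2, Equiv.Perm.mem_alternatingGroup.2 (by decide)⟩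
          ⟨Equiv.swap 1 2 * Equiv.swap 2 3, Equiv.Perm.mem_alternatingGroup.2 (by decide)⟩
        exact absurd (congrArg Subtype.val h3) (by decide)
  · intro hcase H h1 h2
    obtain ⟨S⟩ : Nonempty (Sylow 2 H) := inferInstance
    haveI := h1 S
    obtain ⟨t, ht, hsup⟩ := H5.exists_coprime_sup_zpowers S (h2 S)
    obtain ⟨g, hg⟩ := H8.exists_conj_le_sylow P (S.isPGroup'.map H.subtype)
    let f : H →* G := (MulAut.conj g).toMonoidHom.comp H.subtype
    have hf : Function.Injective f := (MulAut.conj g).injective.comp H.subtype_injective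
    have hfS : ∀ s ∈ (S : Subgroup H), f s ∈ (P : Subgroup G) := fun s hs => hg s ⟨s, hs, rfl⟩
    let f' : (S : Subgroup H) →* (P : Subgroup G) :=
      (f.comp (S : Subgroup H).subtype).codRestrict _ fun s => hfS s s.2
    have hf' : Function.Injective f' := fun a b h => Subtype.ext (hf (Subtype.ext_iff.1 h))
    have htc : (orderOf t).Coprime (Nat.card S) := H1.coprime_card_of_isPGroup S.isPGroup' ht
    have htn : t ∈ normalizer ((S : Subgroup H) : Set H) := le_normalizer_of_normal (mem_top t)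
    by_cases hSc : IsCyclic S
    · exact Or.inl (H5.isCyclic_of_sup_zpowers_of_coprime hSc
        (H5.mem_centralizer_of_isCyclic_two hSc S.isPGroup' htn ht) htc hsup)
    right
    obtain ⟨⟨n, -, ⟨e⟩⟩, hK⟩ := hcase.resolve_left fun h => hSc (isCyclic_of_injective f' hf')
    obtain ⟨m, x, y, hm, hx, hi, hy, hy2, hyx⟩ := (dihedral_sub e f' hf').resolve_left hSc
    obtain ⟨K, hK4, hK2⟩ := exists_klein hm hx hy hy2 hyx
    have hK' := hK (K.map (f.comp (S : Subgroup H).subtype)) (by
      rintro _ ⟨s, -, rfl⟩; exact hfS s s.2) (by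
      rw [card_map_of_injective (f := f.comp (S : Subgroup H).subtype)
        (hf.comp (S : Subgroup H).subtype_injective), hK4]) (by
      rintro _ ⟨s, hs, rfl⟩; rw [← map_pow, hK2 s hs, map_one])
    have hcen : ∀ u : H, (orderOf u).Coprime 2 → u ∈ centralizer ((S : Subgroup H) : Set H) →
        u = 1 := fun u hu huc => by
      have h3 : f u ∈ K.map (f.comp (S : Subgroup H).subtype) := by
        rw [← hK']
        rintro _ ⟨s, -, rfl⟩
        change f s * f u = f u * f s
        rw [← map_mul, huc s s.2, map_mul]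
      obtain ⟨s, -, hs⟩ := h3
      obtain ⟨k, hk⟩ := H8.exists_orderOf_eq_pow_of_mem S.isPGroup' s.2
      exact H8.eq_one_of_orderOf_pow_of_coprime ((hf hs : (s : H) = u) ▸ hk) hu
    by_cases ht1 : t = 1
    · left
      rw [ht1, zpowers_one_eq_bot, bot_sup_eq] at hsup
      obtain ⟨e'⟩ := H3.nonempty_mulEquiv_dihedral hx hi hy hy2 hyx
      exact ⟨m, ⟨(topEquiv.symm.trans (MulEquiv.subgroupCongr hsup.symm)).trans e'⟩⟩
    right
    have hcop : (Nat.card (zpowers t)).Coprime (Nat.card S) := by rwa [Nat.card_zpowers]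
    have hm1 : m = 1 := by
      by_contra hm1
      apply ht1 (hcen t ht _)
      set α := H1.conjAut (zpowers_le.2 htn) ⟨t, mem_zpowers t⟩ with hα
      have hαx : α x ∈ zpowers x := by
        by_contra h
        obtain ⟨i, hi'⟩ := H3.exists_eq_zpow_mul_of_index_two hi hy h
        have h3 : (α x) ^ 2 = 1 := by
          rw [hi', sq]
          calc x ^ i * y * (x ^ i * y) = x ^ i * (y * x ^ i * y⁻¹) * y ^ 2 := by rw [sq]; group
            _ = 1 := by rw [← conj_zpow, hyx, hy2]; group
        have h4 := orderOf_dvd_of_pow_eq_one h3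
        rw [MulEquiv.orderOf_eq, hx] at h4
        have := (Nat.pow_dvd_pow_iff_le_right one_lt_two (l := 1)).1 (by simpa using h4)
        omega
      set X : Subgroup H := zpowers (x : H) with hX
      have hXS : X ≤ S := zpowers_le.2 x.2
      have hXm : ∀ s : (S : Subgroup H), s ∈ zpowers x → (s : H) ∈ X := by
        rintro _ ⟨i, rfl⟩; exact ⟨i, rfl⟩
      have htX : t ∈ normalizer (X : Set H) :=
        H5.mem_normalizer_zpowers_of_conj_mem (hXm _ hαx)
      have h3 := H5.mem_centralizer_of_isCyclic_two (S := X) inferInstance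
        (S.isPGroup'.to_le hXS) htX ht
      refine H1.le_centralizer_of_commutator_le (zpowers_le.2 htn) hcop (H := X)
        (H1.commutator_zpowers_le htX fun s hs => ?_) (zpowers_le.2 h3) (mem_zpowers t)
      have h4 : (⟨s, hs⟩ : (S : Subgroup H)) * (α ⟨s, hs⟩)⁻¹ ∈ zpowers x := by
        rw [mul_mem_iff_of_index_two hi, Subgroup.inv_mem_iff]
        have h5 : (zpowers x).map (α : _ →* _) = zpowers x := H1.eq_of_le_of_card_le
          (by rw [MonoidHom.map_zpowers]; exact zpowers_le.2 hαx)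
          (card_map_of_injective α.injective).ge
        nth_rw 2 [← h5]
        exact (mem_map_iff_mem α.injective).symm
      have h5 := hXm _ h4
      rw [commutatorElement_def]
      convert h5 using 1
      simp [hα, H1.coe_conjAut, mul_assoc]
    subst hm1
    have hS4 : Nat.card S = 4 := by
      rw [← (zpowers x).card_mul_index, hi, Nat.card_zpowers, hx]; rfl
    have ht3 : orderOf t = 3 := by
      have hinj : Function.Injective (H1.conjAut (zpowers_le.2 htn)) := by
        rw [← MonoidHom.ker_eq_bot_iff, eq_bot_iff]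
        intro u hu
        exact Subtype.ext (hcen u (ht.coprime_dvd_left (orderOf_dvd_of_mem_zpowers u.2))
          ((H1.mem_ker_conjAut _).1 hu))
      have hSe : ∀ s : (S : Subgroup H), s ^ 2 = 1 := fun s =>
        hK2 s (eq_top_of_card_eq K (hK4.trans hS4.symm) ▸ mem_top s)
      have h3 := H7.card_mulAut_of_elementary (r := 2)
        (IsPGroup.isMulCommutative_of_card_eq_prime_sq (p := 2) hS4) hSe hS4
      have h4 := Subgroup.card_dvd_of_injective _ hinj
      rw [h3, Nat.card_zpowers] at h4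
      have h5 : orderOf t ∣ 3 := ht.dvd_of_dvd_mul_right (by simpa [Finset.prod_range_succ] using h4)
      exact ((Nat.dvd_prime Nat.prime_three).1 h5).resolve_left fun h => ht1 (orderOf_eq_one_iff.1 h)
    refine H5.nonempty_mulEquiv_alternating_four (T := zpowers t) ?_ (by
      rw [Nat.card_zpowers, ht3]) fun hn => ht1 (hcen t ht ?_)
    · rw [← card_top, ← hsup, H1.card_sup_of_coprime le_normalizer_of_normal hcop, hS4,
        Nat.card_zpowers, ht3]
    · exact L.le_centralizer_of_normal_of_inf_eq_bot (H1.inf_eq_bot_of_coprime' hcop)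
        (mem_zpowers t)

end Cfsg.Agent.S4083
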