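import Cfsg.Statements.S4084
import Cfsg.Agent.H1.Basic
-- import your own Cfsg.Agent.* helpers here

set_option autoImplicit false
open Cfsg

namespace Cfsg.Agent.S4084

theorem aux {G H : Type*} [Group G] [Finite G] [Group H] [Finite H] (e : G ≃ H)
    (he : ∀ x y : G, Commute x y ↔ Commute (e x) (e y))
    {p q : ℕ} (hp : p.Prime) (hq : q.Prime) (hpq : p ≠ q) (g : G) (hg : orderOf g = p * q) :
    ∃ h : H, orderOf h = p * q := by
  classical
  haveI := Fact.mk hp
  haveI := Fact.mk hq
  set A : Subgroup G := Subgroup.centralizer (Subgroup.centralizer ({g} : Set G) : Set G) with hA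
  set B : Subgroup H := Subgroup.centralizer (Subgroup.centralizer ({e g} : Set H) : Set H) with hB
  have hAB : ∀ x : G, x ∈ A ↔ e x ∈ B := by
    intro x
    simp only [hA, hB, Subgroup.mem_centralizer_iff, SetLike.mem_coe, Set.mem_singleton_iff,
      forall_eq]
    constructor
    · intro h y hy
      obtain ⟨y, rfl⟩ := e.surjective y
      exact (he y x).1 (h y ((he g y).2 hy))
    · intro h y hy
      exact (he y x).2 (h (e y) ((he g y).1 hy))
  have hcard : Nat.card A = Nat.card B := Nat.card_congr (e.subtypeEquiv hAB)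
  have hgA : g ∈ A := by
    simp only [hA, Subgroup.mem_centralizer_iff, SetLike.mem_coe, Set.mem_singleton_iff, forall_eq]
    intro h hh
    exact hh.symm
  have hdvd : p * q ∣ Nat.card B := by
    rw [← hcard, ← hg]
    exact A.orderOf_dvd_natCard hgA
  have hcomm : ∀ a ∈ B, ∀ b ∈ B, Commute a b := by
    intro a ha b hb
    have ha' : a ∈ Subgroup.centralizer ({e g} : Set H) := by
      rw [Subgroup.mem_centralizer_singleton_iff]
      exact (ha (e g) (Subgroup.mem_centralizer_singleton_iff.2 rfl)).symm
    exact hb a ha'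
  obtain ⟨a, ha⟩ := exists_prime_orderOf_dvd_card' (G := B) p ((dvd_mul_right p q).trans hdvd)
  obtain ⟨b, hb⟩ := exists_prime_orderOf_dvd_card' (G := B) q ((dvd_mul_left q p).trans hdvd)
  rw [← Subgroup.orderOf_coe] at ha hb
  refine ⟨a * b, ?_⟩
  rw [(hcomm a a.2 b b.2).orderOf_mul_eq_mul_orderOf_of_coprime, ha, hb]
  rw [ha, hb]
  exact (Nat.coprime_primes hp hq).2 hpq

/-- Let G and H be finite groups whose commuting graphs are isomorphic: there is a bijection e : G → H with x, y commuting exactly when e(x), e(y) commute. Then G and H have the same prime graph: for distinct primes p, q, G has an element of order pq if and only if H does (and #G = #H, so the prime divisors agree). -/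
theorem result {G H : Type*} [Group G] [Finite G] [Group H] [Finite H] (e : G ≃ H)
    (he : ∀ x y : G, Commute x y ↔ Commute (e x) (e y))
    {p q : ℕ} (hp : p.Prime) (hq : q.Prime) (hpq : p ≠ q) :
    (∃ g : G, orderOf g = p * q) ↔ (∃ h : H, orderOf h = p * q) := by
  constructor
  · rintro ⟨g, hg⟩
    exact aux e he hp hq hpq g hg
  · rintro ⟨g, hg⟩
    refine aux e.symm (fun x y => ?_) hp hq hpq g hg
    rw [he]; simp

end Cfsg.Agent.S4084
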