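import Cfsg.Statements.S4085
import Cfsg.Agent.H6.ZAction
-- import your own Cfsg.Agent.* helpers here

set_option autoImplicit false
open Cfsg

namespace Cfsg.Agent.S4085

open Subgroup

variable {G H : Type*} [Group G] [Finite G] [Group H] [Finite H]

/-- Comparability. -/
def C (a b : G) : Prop := a ∈ zpowers b ∨ b ∈ zpowers a

/-- Two different prime divisors. -/
def Two (n : ℕ) : Prop := ∃ r s : ℕ, r.Prime ∧ s.Prime ∧ r ≠ s ∧ r ∣ n ∧ s ∣ n

theorem Two.exists_ne {n : ℕ} (h : Two n) (r : ℕ) : ∃ s : ℕ, s.Prime ∧ s ≠ r ∧ s ∣ n := by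
  obtain ⟨a, b, ha, hb, hab, h1, h2⟩ := h
  by_cases h : a = r
  · exact ⟨b, hb, h ▸ hab.symm, h2⟩
  · exact ⟨a, ha, h, h1⟩

theorem Two.not_dvd {n r k : ℕ} (h : Two n) (hr : r.Prime) : ¬ n ∣ r ^ k := fun h1 => by
  obtain ⟨s, hs, h2, h3⟩ := h.exists_ne r
  exact h2 ((Nat.prime_dvd_prime_iff_eq hs hr).1 (hs.dvd_of_dvd_pow (h3.trans h1)))

theorem C_iff {x a b : G} (ha : a ∈ zpowers x) (hb : b ∈ zpowers x) :
    C a b ↔ orderOf a ∣ orderOf b ∨ orderOf b ∣ orderOf a :=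
  or_congr ⟨orderOf_dvd_of_mem_zpowers, H6.mem_zpowers_of_orderOf_dvd ha hb⟩
    ⟨orderOf_dvd_of_mem_zpowers, H6.mem_zpowers_of_orderOf_dvd hb ha⟩

theorem exists_order {x : G} {d : ℕ} (h : d ∣ orderOf x) : ∃ a ∈ zpowers x, orderOf a = d :=
  ⟨_, npow_mem_zpowers _ _, orderOf_pow_orderOf_div (orderOf_pos x).ne' h⟩

omit [Finite G] in
theorem C_congr {w x : G} (h : zpowers w = zpowers x) (v : G) : C v w ↔ C v x := by
  rw [C, C, h, ← zpowers_le (g := w), h, zpowers_le]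

theorem not_C_of_prime {a b : G} (ha : (orderOf a).Prime) (hb : (orderOf b).Prime)
    (h : orderOf a ≠ orderOf b) : ¬ C a b := by
  rintro (h1 | h1)
  · exact h ((Nat.prime_dvd_prime_iff_eq ha hb).1 (orderOf_dvd_of_mem_zpowers h1))
  · exact h ((Nat.prime_dvd_prime_iff_eq hb ha).1 (orderOf_dvd_of_mem_zpowers h1)).symm

theorem step {x w : G} (hx : Two (orderOf x)) (hw : w ∈ zpowers x) (h1 : w ≠ 1)
    (h2 : x ∉ zpowers w) : ∃ b ∈ zpowers x, ¬ C w b ∧
      ((orderOf b).Prime ∨ ∃ a ∈ zpowers x, (orderOf a).Prime ∧ ¬ C b a) := by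
  by_cases h : ∀ r : ℕ, r.Prime → r ∣ orderOf x → r ∣ orderOf w
  · have h3 : ¬ orderOf x ∣ orderOf w := fun h3 =>
      h2 (H6.mem_zpowers_of_orderOf_dvd (mem_zpowers x) hw h3)
    rw [Nat.dvd_iff_prime_pow_dvd_dvd] at h3
    push Not at h3
    obtain ⟨r, k, hr, h4, h5⟩ := h3
    obtain ⟨b, hb, hbo⟩ := exists_order h4
    obtain ⟨s, hs, h6, h7⟩ := hx.exists_ne r
    obtain ⟨a, ha, hao⟩ := exists_order h7
    have h8 : Two (orderOf w) := by
      obtain ⟨a, b, ha, hb, hab, h1, h2⟩ := hx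
      exact ⟨a, b, ha, hb, hab, h a ha h1, h b hb h2⟩
    refine ⟨b, hb, ?_, Or.inr ⟨a, ha, hao ▸ hs, ?_⟩⟩
    · rw [C_iff hw hb, hbo]
      exact not_or.2 ⟨h8.not_dvd hr, h5⟩
    · rw [C_iff hb ha, hbo, hao]
      rintro (h9 | h9)
      · obtain rfl | hk := Nat.eq_zero_or_pos k
        · simp at h5
        · exact h6 ((Nat.prime_dvd_prime_iff_eq hr hs).1 ((dvd_pow_self r hk.ne').trans h9)).symm
      · exact h6 ((Nat.prime_dvd_prime_iff_eq hs hr).1 (hs.dvd_of_dvd_pow h9))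
  · push Not at h
    obtain ⟨r, hr, h3, h4⟩ := h
    obtain ⟨b, hb, hbo⟩ := exists_order h3
    refine ⟨b, hb, ?_, Or.inl (hbo ▸ hr)⟩
    rw [C_iff hw hb, hbo]
    rintro (h5 | h5)
    · obtain h6 | h6 := (Nat.dvd_prime hr).1 h5
      · exact h1 (orderOf_eq_one_iff.1 h6)
      · exact h4 (h6 ▸ dvd_rfl)
    · exact h4 h5

theorem conn {x : G} (hx : Two (orderOf x)) (P : G → Prop)
    (hP : ∀ a ∈ zpowers x, ∀ b ∈ zpowers x, ¬ C a b → (P a ↔ P b))
    {w w' : G} (hw : w ∈ zpowers x) (h1 : w ≠ 1) (h2 : x ∉ zpowers w)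
    (hw' : w' ∈ zpowers x) (h1' : w' ≠ 1) (h2' : x ∉ zpowers w') : P w ↔ P w' := by
  have k1 : ∀ a ∈ zpowers x, ∀ b ∈ zpowers x, (orderOf a).Prime → (orderOf b).Prime →
      (P a ↔ P b) := by
    intro a ha b hb h3 h4
    by_cases h : orderOf a = orderOf b
    · obtain ⟨s, hs, h6, h7⟩ := hx.exists_ne (orderOf a)
      obtain ⟨c, hc, rfl⟩ := exists_order h7
      exact (hP a ha c hc (not_C_of_prime h3 hs h6.symm)).trans
        (hP c hc b hb (not_C_of_prime hs h4 (h ▸ h6)))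
    · exact hP a ha b hb (not_C_of_prime h3 h4 h)
  have k2 : ∀ w ∈ zpowers x, w ≠ 1 → x ∉ zpowers w →
      ∃ a ∈ zpowers x, (orderOf a).Prime ∧ (P w ↔ P a) := by
    intro w hw h1 h2
    obtain ⟨b, hb, h3, h4 | ⟨a, ha, h4, h5⟩⟩ := step hx hw h1 h2
    · exact ⟨b, hb, h4, hP w hw b hb h3⟩
    · exact ⟨a, ha, h4, (hP w hw b hb h3).trans (hP b hb a ha h5)⟩
  obtain ⟨a, ha, h3, h4⟩ := k2 w hw h1 h2
  obtain ⟨b, hb, h5, h6⟩ := k2 w' hw' h1' h2'
  exact (h4.trans (k1 a ha b hb h3 h5)).trans h6.symm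

theorem ncard_gen (x : G) : {g : G | zpowers g = zpowers x}.ncard = (orderOf x).totient := by
  classical
  haveI := Fintype.ofFinite (zpowers x)
  rw [← IsCyclic.card_orderOf_eq_totient (α := zpowers x)
    (by rw [← Nat.card_eq_fintype_card, Nat.card_zpowers]), ← Set.ncard_coe_finset,
    ← Set.ncard_image_of_injective _ Subtype.val_injective]
  congr 1
  ext g
  simp only [Set.mem_ofPred_eq, Finset.coe_filter, Finset.mem_univ, true_and, Set.mem_image]
  constructor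
  · intro h
    exact ⟨⟨g, h ▸ mem_zpowers g⟩, by
      rw [← orderOf_coe, ← Nat.card_zpowers, ← Nat.card_zpowers x, h], rfl⟩
  · rintro ⟨g, h, rfl⟩
    rw [← orderOf_coe] at h
    exact le_antisymm (zpowers_le.2 g.2)
      (zpowers_le.2 (H6.mem_zpowers_of_orderOf_dvd (mem_zpowers x) g.2 h.symm.dvd))

theorem case_two (e : G ≃ H) (he : ∀ a b, C a b ↔ C (e a) (e b)) {x : G}
    (hx : Two (orderOf x)) (hN : ∀ w, C w x → w ∈ zpowers x) (hy : Two (orderOf (e x))) :
    orderOf (e x) = orderOf x := by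
  have hN' : ∀ u, C u (e x) → e.symm u ∈ zpowers x := fun u hu =>
    hN _ ((he _ _).2 (by rwa [e.apply_symm_apply]))
  have k1 : ∀ w ∈ zpowers x, w ≠ 1 → x ∉ zpowers w → e w ∈ zpowers (e x) := by
    intro w hw h1 h2
    obtain ⟨r, s, hr, hs, hrs, h3, h4⟩ := hy
    obtain ⟨a, ha, rfl⟩ := exists_order h3
    obtain ⟨b, hb, rfl⟩ := exists_order h4
    have h5 : ¬ C (e.symm a) (e.symm b) := by
      rw [he, e.apply_symm_apply, e.apply_symm_apply]
      exact not_C_of_prime hr hs hrs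
    refine (conn hx (fun w => e w ∈ zpowers (e x)) ?_ hw h1 h2 (hN' a (Or.inl ha))
      (fun h => h5 (Or.inl (h ▸ one_mem _)))
      (fun h => h5 (Or.inr (zpowers_le.2 h (hN' b (Or.inl hb)))))).2
      (by rwa [e.apply_symm_apply])
    have k : ∀ a ∈ zpowers x, ∀ b ∈ zpowers x, ¬ C a b → e a ∈ zpowers (e x) →
        e b ∈ zpowers (e x) := by
      intro a _ b hb h h'
      refine ((he _ _).1 (Or.inl hb)).resolve_right fun h6 => h ((he _ _).2 ?_)
      exact Or.inl (zpowers_le.2 h6 h')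
    exact fun a ha b hb h => ⟨k a ha b hb h, k b hb a ha fun h' => h h'.symm⟩
  have k2 : ∀ u, e x ∈ zpowers u → e.symm u ≠ 1 → u ∈ zpowers (e x) := by
    intro u hu h1
    by_contra h2
    have h3 := hN' u (Or.inr hu)
    have h4 : x ∈ zpowers (e.symm u) := by
      by_contra h4
      exact h2 (by simpa using k1 _ h3 h1 h4)
    obtain ⟨v, hv, h5, -⟩ := step (x := u) (w := e x) (by
      obtain ⟨r, s, hr, hs, hrs, h3, h4⟩ := hy
      exact ⟨r, s, hr, hs, hrs, h3.trans (orderOf_dvd_of_mem_zpowers hu),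
        h4.trans (orderOf_dvd_of_mem_zpowers hu)⟩) hu (fun h => by
      rw [h, orderOf_one] at hy
      exact hy.not_dvd Nat.prime_two (k := 0) dvd_rfl) h2
    have h6 : C (e.symm v) (e.symm u) := (he _ _).2 (by simpa [C] using Or.inl hv)
    rw [C_congr (le_antisymm (zpowers_le.2 h3) (zpowers_le.2 h4)), he, e.apply_symm_apply] at h6
    exact h5 h6.symm
  have k3 : ∀ u, C u (e x) → u ∈ zpowers (e x) := by
    rintro u (hu | hu)
    · exact hu
    by_cases h1 : e.symm u = 1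
    · refine inv_mem_iff.1 (k2 u⁻¹ (by rwa [zpowers_inv]) fun h2 => ?_)
      have h3 : u⁻¹ = u := e.symm.injective (h2.trans h1.symm)
      refine hy.not_dvd Nat.prime_two (k := 1) ((orderOf_dvd_of_mem_zpowers hu).trans
        (orderOf_dvd_of_pow_eq_one ?_))
      rw [pow_one, pow_two, ← inv_eq_iff_mul_eq_one, h3]
    · exact k2 u hu h1
  rw [← Nat.card_zpowers, ← Nat.card_zpowers]
  exact (Nat.card_congr (e.subtypeEquiv fun a => ⟨fun h => k3 _ ((he _ _).1 (Or.inl h)),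
    fun h => hN _ ((he _ _).2 (Or.inl h))⟩)).symm

theorem case_one (e : G ≃ H) (he : ∀ a b, C a b ↔ C (e a) (e b)) {x : G} {p q : ℕ}
    (hp : p.Prime) (hq : q.Prime) (hpq : p < q) (hx : p * q ∣ orderOf x)
    (hN : ∀ w, C w x → w ∈ zpowers x) (hy : e x ≠ 1) : Two (orderOf (e x)) := by
  by_contra hy2
  obtain ⟨r, hr, hry⟩ := Nat.exists_prime_and_dvd (fun h => hy (orderOf_eq_one_iff.1 h))
  have hpow : ∀ n : ℕ, n ≠ 0 → r ∣ n → ¬ Two n → ∃ k, n = r ^ k := fun n hn h1 h2 =>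
    ⟨_, Nat.eq_prime_pow_of_unique_prime_dvd hn fun {d} hd h3 => by
      by_contra h4
      exact h2 ⟨d, r, hd, hr, h4, h3, h1⟩⟩
  obtain ⟨k, hk⟩ := hpow _ (orderOf_pos _).ne' hry hy2
  obtain ⟨a, ha, hao⟩ := exists_order ((dvd_mul_right p q).trans hx)
  obtain ⟨b, hb, hbo⟩ := exists_order ((dvd_mul_left q p).trans hx)
  have hab : ¬ C a b := not_C_of_prime (hao ▸ hp) (hbo ▸ hq) (by omega)
  -- twins of `e x`
  have k1 : ∀ g, (∀ v, C v g ↔ C v x) → e g ∈ zpowers (e a) ∧ ∃ j, orderOf (e g) = r ^ j := by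
    intro g hg
    have h1 : ∃ j, orderOf (e g) = r ^ j := by
      obtain h | h := (he _ _).1 ((hg x).2 (Or.inl (mem_zpowers x)))
      · refine hpow _ (orderOf_pos _).ne' (hry.trans (orderOf_dvd_of_mem_zpowers h)) fun h2 => ?_
        obtain ⟨v, hv, h3, -⟩ := step h2 h hy fun h4 =>
          h2.not_dvd hr (hk ▸ orderOf_dvd_of_mem_zpowers h4)
        have h5 : C (e.symm v) g := (he _ _).2 (by simpa [C] using Or.inl hv)
        rw [hg, he, e.apply_symm_apply] at h5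
        exact h3 h5.symm
      · obtain ⟨j, -, hj⟩ := (Nat.dvd_prime_pow hr).1 (hk ▸ orderOf_dvd_of_mem_zpowers h)
        exact ⟨j, hj⟩
    refine ⟨((he _ _).1 ((hg a).2 (Or.inl ha))).resolve_left fun h => hab ((he _ _).2 ?_), h1⟩
    obtain h2 | h2 := (he _ _).1 ((hg b).2 (Or.inl hb))
    · obtain ⟨j, hj⟩ := h1
      obtain ⟨i, -, hi⟩ := (Nat.dvd_prime_pow hr).1 (hj ▸ orderOf_dvd_of_mem_zpowers h)
      obtain ⟨l, -, hl⟩ := (Nat.dvd_prime_pow hr).1 (hj ▸ orderOf_dvd_of_mem_zpowers h2)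
      rw [C_iff h h2, hi, hl]
      exact (le_total i l).imp (pow_dvd_pow r) (pow_dvd_pow r)
    · exact Or.inl (zpowers_le.2 h2 h)
  -- twins of `e a`
  have k2 : (orderOf (e a)).totient ≤ p - 1 := by
    rw [← ncard_gen, ← Nat.totient_prime hp, ← hao, ← ncard_gen,
      ← Set.ncard_image_of_injective _ e.injective]
    refine Set.ncard_le_ncard fun u hu => ⟨e.symm u, ?_, e.apply_symm_apply u⟩
    have h1 : ∀ v, C v (e.symm u) ↔ C v a := fun v => by
      rw [he, e.apply_symm_apply, C_congr hu, ← he]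
    generalize e.symm u = c at h1
    have hc : c ∈ zpowers x := hN c ((h1 x).2 (Or.inr ha)).symm
    have h2 : p ∣ orderOf c := by
      obtain h | h := (h1 a).2 (Or.inl (mem_zpowers a))
      · exact hao ▸ orderOf_dvd_of_mem_zpowers h
      · obtain h3 | h3 := (Nat.dvd_prime hp).1 (hao ▸ orderOf_dvd_of_mem_zpowers h)
        · rw [orderOf_eq_one_iff] at h3
          exact (hab ((h1 b).1 (Or.inr (h3 ▸ one_mem _))).symm).elim
        · exact h3.symm.dvd
    obtain ⟨d, hd, hdo⟩ := exists_order hx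
    have h3 := (h1 d).2 ((C_iff hd ha).2 (Or.inr (by rw [hao, hdo]; exact dvd_mul_right _ _)))
    have h4 : ¬ q ∣ orderOf c := fun h =>
      hab ((h1 b).1 ((C_iff hb hc).2 (Or.inl (hbo ▸ h)))).symm
    rw [C_iff hd hc, hdo] at h3
    have h5 : orderOf c ∣ p := (Nat.Coprime.symm ((Nat.Prime.coprime_iff_not_dvd hq).2
      h4)).dvd_of_dvd_mul_right (h3.resolve_left fun h => h4 ((dvd_mul_left q p).trans h))
    exact le_antisymm (zpowers_le.2 (H6.mem_zpowers_of_orderOf_dvd hc ha (hao ▸ h5)))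
      (zpowers_le.2 (H6.mem_zpowers_of_orderOf_dvd ha hc (hao ▸ h2)))
  obtain ⟨z, hz, hzo⟩ := exists_order (Nat.ordProj_dvd (orderOf (e a)) r)
  have k3 : ∀ g, (∀ v, C v g ↔ C v x) → e g ∈ zpowers z := by
    intro g hg
    obtain ⟨h1, j, hj⟩ := k1 g hg
    refine H6.mem_zpowers_of_orderOf_dvd h1 hz ?_
    rw [hzo, hj]
    exact pow_dvd_pow r ((hr.pow_dvd_iff_le_factorization (orderOf_pos _).ne').1
      (hj ▸ orderOf_dvd_of_mem_zpowers h1))
  have k4 : ∃ c ∈ zpowers z, c ∉ e '' {g : G | zpowers g = zpowers x} := by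
    by_cases h : (1 : H) ∈ e '' {g : G | zpowers g = zpowers x}
    · obtain ⟨g, hg, h1⟩ := h
      refine ⟨e 1, k3 1 fun v => ⟨fun _ => ?_, fun _ => Or.inr (one_mem _)⟩, ?_⟩
      · rw [← C_congr hg, he, h1]
        exact Or.inr (one_mem _)
      · rintro ⟨g', h2, h3⟩
        rw [e.injective h3, Set.mem_ofPred_eq, zpowers_one_eq_bot, eq_comm, zpowers_eq_bot] at h2
        rw [h2, orderOf_one, Nat.dvd_one] at hx
        exact hq.one_lt.ne' (Nat.eq_one_of_mul_eq_one_left hx)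
    · exact ⟨1, one_mem _, h⟩
  obtain ⟨c, hc1, hc2⟩ := k4
  have k5 : (orderOf x).totient + 1 ≤ orderOf z := by
    rw [← ncard_gen, ← Set.ncard_image_of_injective _ e.injective,
      ← Set.ncard_insert_of_notMem hc2, ← Nat.card_zpowers, ← SetLike.coe_sort_coe,
      Nat.card_coe_set_eq]
    refine Set.ncard_le_ncard (Set.insert_subset hc1 ?_)
    rintro _ ⟨g, hg, rfl⟩
    exact k3 g (C_congr hg)
  have k6 : (p - 1) * (q - 1) ≤ (orderOf x).totient := by
    rw [← Nat.totient_prime hp, ← Nat.totient_prime hq,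
      ← Nat.totient_mul ((Nat.coprime_primes hp hq).2 hpq.ne)]
    exact Nat.le_of_dvd (Nat.totient_pos.2 (orderOf_pos x)) (Nat.totient_dvd_of_dvd hx)
  have k7 : (orderOf z).totient ≤ (orderOf (e a)).totient :=
    Nat.le_of_dvd (Nat.totient_pos.2 (orderOf_pos _))
      (Nat.totient_dvd_of_dvd (orderOf_dvd_of_mem_zpowers hz))
  have k8 : orderOf z ≤ 2 * (orderOf z).totient := by
    rw [hzo]
    generalize (orderOf (e a)).factorization r = j
    obtain rfl | hj := Nat.eq_zero_or_pos j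
    · simp
    · obtain ⟨j, rfl⟩ : ∃ i, j = i + 1 := ⟨j - 1, by omega⟩
      rw [Nat.totient_prime_pow_succ hr, pow_succ, mul_left_comm]
      have := hr.two_le
      exact Nat.mul_le_mul_left _ (by omega)
  have := hp.two_le
  have k9 : (p - 1) * 2 ≤ (p - 1) * (q - 1) := Nat.mul_le_mul_left _ (by omega)
  omega

theorem main (e : G ≃ H) (he : ∀ a b, C a b ↔ C (e a) (e b)) {p q : ℕ}
    (hp : p.Prime) (hq : q.Prime) (hpq : p < q) {g : G} (hg : orderOf g = p * q) :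
    ∃ h : H, orderOf h = p * q := by
  obtain ⟨K, hK, hmax⟩ := exists_maximal_ge_of_wellFoundedGT
    (fun K : Subgroup G => ∃ x, K = zpowers x) (zpowers g) ⟨g, rfl⟩
  have key : ∀ x, K = zpowers x → e x ≠ 1 → ∃ h : H, orderOf h = p * q := by
    rintro x rfl hy
    have hx : p * q ∣ orderOf x := hg ▸ orderOf_dvd_of_mem_zpowers (zpowers_le.1 hK)
    have hN : ∀ w, C w x → w ∈ zpowers x := by
      rintro w (h | h)
      · exact h
      · exact zpowers_le.1 (hmax.2 ⟨w, rfl⟩ (zpowers_le.2 h))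
    have h := case_two e he ⟨p, q, hp, hq, hpq.ne, (dvd_mul_right p q).trans hx,
      (dvd_mul_left q p).trans hx⟩ hN (case_one e he hp hq hpq hx hN hy)
    obtain ⟨h, -, h1⟩ := exists_order (h ▸ hx)
    exact ⟨h, h1⟩
  obtain ⟨x, hx⟩ := hmax.1
  by_cases h : e x = 1
  · refine key x⁻¹ (by rwa [zpowers_inv]) fun h1 => ?_
    have h2 : x⁻¹ = x := e.injective (h1.trans h.symm)
    have h3 : p * q ∣ 2 := by
      refine (hg ▸ orderOf_dvd_of_mem_zpowers (zpowers_le.1 (hx ▸ hK))).trans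
        (orderOf_dvd_of_pow_eq_one (x := x) ?_)
      rw [pow_two, ← inv_eq_iff_mul_eq_one, h2]
    have := Nat.le_of_dvd two_pos h3
    have := hp.two_le
    nlinarith
  · exact key x hx h

/-- Let G and H be finite groups whose power graphs are isomorphic: there is a bijection e : G → H such that, for all x, y, one of x, y is a power of the other exactly when one of e(x), e(y) is a power of the other. Then G and H have the same prime graph: for distinct primes p, q, G has an element of order pq if and only if H does. -/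
theorem result {G H : Type*} [Group G] [Finite G] [Group H] [Finite H] (e : G ≃ H)
    (he : ∀ x y : G, (x ∈ Subgroup.zpowers y ∨ y ∈ Subgroup.zpowers x) ↔
      (e x ∈ Subgroup.zpowers (e y) ∨ e y ∈ Subgroup.zpowers (e x)))
    {p q : ℕ} (hp : p.Prime) (hq : q.Prime) (hpq : p ≠ q) :
    (∃ g : G, orderOf g = p * q) ↔ (∃ h : H, orderOf h = p * q) := by
  have he' : ∀ a b : H, C a b ↔ C (e.symm a) (e.symm b) := fun a b => by
    rw [C, C, he, e.apply_symm_apply, e.apply_symm_apply]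
  obtain h | h := lt_or_gt_of_ne hpq
  · exact ⟨fun ⟨g, hg⟩ => main e he hp hq h hg, fun ⟨g, hg⟩ => main e.symm he' hp hq h hg⟩
  · rw [mul_comm]
    exact ⟨fun ⟨g, hg⟩ => main e he hq hp h hg, fun ⟨g, hg⟩ => main e.symm he' hq hp h hg⟩

end Cfsg.Agent.S4085
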