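import Cfsg.Statements.S4086
import Cfsg.Agent.H6.ZAction
-- import your own Cfsg.Agent.* helpers here

set_option autoImplicit false
open Cfsg

namespace Cfsg.Agent.S4086

/-- For a finite group G the following are equivalent: every non-identity element has prime-power order; whenever two elements generate a cyclic subgroup, one of them is a power of the other (the enhanced power graph of G coincides with its power graph). -/
theorem result {G : Type*} [Group G] [Finite G] :
    (∀ g : G, g ≠ 1 → IsPrimePow (orderOf g)) ↔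
    (∀ x y : G, IsCyclic ↥(Subgroup.closure ({x, y} : Set G)) → (x ∈ Subgroup.zpowers y ∨ y ∈ Subgroup.zpowers x)) := by
  constructor
  · intro h x y hc
    obtain ⟨g, hg⟩ := IsCyclic.exists_generator (α := Subgroup.closure ({x, y} : Set G))
    have hx : x ∈ Subgroup.closure ({x, y} : Set G) := Subgroup.subset_closure (by simp)
    have hy : y ∈ Subgroup.closure ({x, y} : Set G) := Subgroup.subset_closure (by simp)
    have hdx : orderOf x ∣ orderOf (g : G) := by
      have := orderOf_dvd_of_mem_zpowers (hg ⟨x, hx⟩)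
      rwa [← Subgroup.orderOf_coe, ← Subgroup.orderOf_coe g] at this
    have hdy : orderOf y ∣ orderOf (g : G) := by
      have := orderOf_dvd_of_mem_zpowers (hg ⟨y, hy⟩)
      rwa [← Subgroup.orderOf_coe, ← Subgroup.orderOf_coe g] at this
    by_cases hg1 : (g : G) = 1
    · left
      rw [hg1, orderOf_one, Nat.dvd_one, orderOf_eq_one_iff] at hdx
      rw [hdx]; exact one_mem _
    obtain ⟨p, k, hp, -, hk⟩ := (isPrimePow_nat_iff _).1 (h g hg1)
    rw [← hk] at hdx hdy
    obtain ⟨i, -, hi⟩ := (Nat.dvd_prime_pow hp).1 hdx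
    obtain ⟨j, -, hj⟩ := (Nat.dvd_prime_pow hp).1 hdy
    rcases le_total i j with hij | hij
    · left
      exact H6.mem_zpowers_of_orderOf_dvd hx hy (by rw [hi, hj]; exact pow_dvd_pow p hij)
    · right
      exact H6.mem_zpowers_of_orderOf_dvd hy hx (by rw [hi, hj]; exact pow_dvd_pow p hij)
  · intro h g hg
    have h0 : 0 < orderOf g := orderOf_pos g
    have h1 : orderOf g ≠ 1 := by rwa [Ne, orderOf_eq_one_iff]
    rw [isPrimePow_iff_unique_prime_dvd]
    obtain ⟨p, hp, hpd⟩ := Nat.exists_prime_and_dvd h1
    refine ⟨p, ⟨hp, hpd⟩, fun q ⟨hq, hqd⟩ => ?_⟩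
    have ha : orderOf (g ^ (orderOf g / p)) = p := orderOf_pow_orderOf_div h0.ne' hpd
    have hb : orderOf (g ^ (orderOf g / q)) = q := orderOf_pow_orderOf_div h0.ne' hqd
    have hle : Subgroup.closure ({g ^ (orderOf g / p), g ^ (orderOf g / q)} : Set G) ≤
        Subgroup.zpowers g := by
      rw [Subgroup.closure_le]
      rintro z (rfl | rfl) <;> exact Subgroup.npow_mem_zpowers _ _
    rcases h _ _ (Subgroup.isCyclic_of_le hle) with h2 | h2
    · have := orderOf_dvd_of_mem_zpowers h2
      rw [ha, hb] at this
      exact ((Nat.prime_dvd_prime_iff_eq hp hq).1 this).symm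
    · have := orderOf_dvd_of_mem_zpowers h2
      rw [ha, hb] at this
      exact (Nat.prime_dvd_prime_iff_eq hq hp).1 this

end Cfsg.Agent.S4086
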