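import Cfsg.Statements.S4087
import Cfsg.Agent.P4.Eppo
import Cfsg.Agent.H4.Higman

set_option autoImplicit false
open Cfsg

namespace Cfsg.Agent.S4087

open Cfsg.Agent.P4 Cfsg.Agent.FT Cfsg.Agent.L

/-- Let G be a finite group in which every non-identity element has prime-power order (its prime graph has no edges). Then the order of G has at most four distinct prime divisors; and if it has exactly four, then either G is isomorphic to PSL(3,4), or G has a normal 2-subgroup N with G/N isomorphic to the Suzuki group over the field with 8 or with 32 elements. -/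
theorem result {G : Type*} [Group G] [Finite G] (h : ∀ g : G, g ≠ 1 → IsPrimePow (orderOf g)) :
    (Nat.card G).primeFactors.card ≤ 4 ∧
    ((Nat.card G).primeFactors.card = 4 →
      (∃ (F : Type) (_ : Field F) (_ : Fintype F), Fintype.card F = 4 ∧
        Nonempty (G ≃* Matrix.ProjectiveSpecialLinearGroup (Fin 3) F)) ∨
      (∃ (N : Subgroup G) (_ : N.Normal), IsPGroup 2 ↥N ∧
        ∃ (F : Type) (_ : Field F) (_ : Fintype F),
          (Fintype.card F = 8 ∧ Nonempty (G ⧸ N ≃* ↥(Cfsg.Lie.Sz F 4))) ∨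
          (Fintype.card F = 32 ∧ Nonempty (G ⧸ N ≃* ↥(Cfsg.Lie.Sz F 8))))) := by
  replace h : EPPO G := h
  by_cases h3 : (Nat.card G).primeFactors.card ≤ 3
  · exact ⟨by omega, fun e => by omega⟩
  have hG : ¬ Group.IsSolvable G := fun e => h3 ((H4.card_primeFactors_le_two_of_isSolvable
    fun g p q hp hq hne e => H4.not_isPrimePow_mul_of_ne hp hq hne (e ▸ h g fun e' => by
      rw [e', orderOf_one, eq_comm, mul_eq_one] at e; exact hp.ne_one e.1)).trans (by decide))
  rcases h.cit.cases hG with ⟨-, _, _, _, _, _, q, a⟩ | ⟨Q, H, t, hz⟩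
  · rcases a.h₁.two_le.eq_or_lt with e | e
    · obtain ⟨t, u, hs⟩ := a.selfCent h.cit e.symm
      obtain ⟨S, x, z, s, hm⟩ := hs.exists_max2
      rcases h.cit.max2_cases hG hm with ⟨F, _, _, k, -, -, -, ⟨e⟩⟩ | ⟨N, h1, F, _, _, h2, ⟨e⟩⟩
      · exact absurd (h.le_three e) h3
      · have h4 := two_mul_card_of_equiv e (by rw [h2]; decide)
        have h5 := N.card_mul_index
        rw [h2] at h4
        rw [h1] at h5
        rw [show Nat.card G = 720 by omega] at h3
        exact absurd (by simp [Nat.primeFactors]) h3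
    · obtain rfl := a.eq_four h.cit e
      obtain ⟨n, hn, h1, h2⟩ := a.l34 h
      have : 0 < n := by have := Nat.card_pos (α := G); omega
      rw [h1] at h3 ⊢
      rcases hn.eq_or_lt with rfl | hn
      · exact ⟨by simp [Nat.primeFactors], fun _ => Or.inl ⟨_, inferInstance, inferInstance,
          L34.card_F4, h2 rfl⟩⟩
      · refine absurd ?_ h3
        interval_cases n <;> simp [Nat.primeFactors]
  have h1 := h.of_surjective _ (QuotientGroup.mk'_surjective (pCore 2 G))
  obtain ⟨k, hk⟩ := exists_card_eq_pow Nat.prime_two (isPGroup_pCore (G := G) 2)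
  rw [primeFactors_eq (hk ▸ (pCore 2 G).card_mul_index).symm (show 2 ∣ Nat.card (G ⧸ pCore 2 G) by
    rw [hz.card_G, mul_assoc]; exact hz.even.two_dvd.mul_right _)] at h3 ⊢
  rcases hz.main with ⟨n, -, -, -, -, -, ⟨e⟩⟩ | ⟨m, hm, h4, h5, ⟨e⟩⟩
  · exact absurd (h1.le_three e) h3
  let _ := Fintype.ofFinite (GaloisField 2 (2 * m + 1))
  have hF : Fintype.card (GaloisField 2 (2 * m + 1)) = 2 ^ (2 * m + 1) := by
    rw [← Nat.card_eq_fintype_card, GaloisField.card _ _ (by omega)]
  have := EPPO.sz hm hF (h1.of_surjective e.toMonoidHom e.surjective)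
  refine ⟨?_, fun _ => Or.inr ⟨_, inferInstance, isPGroup_pCore 2, GaloisField 2 (2 * m + 1),
    inferInstance, inferInstance, ?_⟩⟩
  · rw [hz.card_G, h4, h5]
    interval_cases m <;> simp [Nat.primeFactors]
  · interval_cases m
    exacts [Or.inl ⟨hF, ⟨e⟩⟩, Or.inr ⟨hF, ⟨e⟩⟩]

end Cfsg.Agent.S4087
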