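import Cfsg.Statements.S4089
import Cfsg.Agent.H6.Subnorm
-- import your own Cfsg.Agent.* helpers here

set_option autoImplicit false
open Cfsg

namespace Cfsg.Agent.S4089

/-- Let G be a finite group, p a prime and H a p-subgroup of G. Then the set of elements g of G such that H is subnormal in the subgroup generated by H and g is the union of the normalizers N_G(R) over the subgroups R of G containing H with R = O_p(N_G(R)); and this set does not change when H is replaced by the intersection of all Sylow p-subgroups of G containing H. -/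
theorem result {G : Type*} [Group G] [Finite G] (p : ℕ) [Fact p.Prime]
    (H : Subgroup G) (hH : IsPGroup p H) :
    {g : G | ((H).subgroupOf (H ⊔ Subgroup.zpowers g)).IsSubnormal} =
      {g : G | ∃ R : Subgroup G, H ≤ R ∧ (Cfsg.pCore p (Subgroup.normalizer (R : Set G))).map (Subgroup.normalizer (R : Set G)).subtype = R ∧ g ∈ Subgroup.normalizer (R : Set G)} ∧
    ∀ g : G, (((H).subgroupOf (H ⊔ Subgroup.zpowers g)).IsSubnormal ↔
      (((sInf {K : Subgroup G | ∃ Q : Sylow p G, H ≤ (Q : Subgroup G) ∧ K = (Q : Subgroup G)})).subgroupOf ((sInf {K : Subgroup G | ∃ Q : Sylow p G, H ≤ (Q : Subgroup G) ∧ K = (Q : Subgroup G)}) ⊔ Subgroup.zpowers g)).IsSubnormal) := by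
  constructor
  · ext g
    rw [Set.mem_ofPred_eq, H6.subnormal_iff hH]
    constructor
    · rintro ⟨R, hR⟩
      obtain ⟨T, -, hT⟩ := exists_maximal_ge_of_wellFoundedGT
        (fun R : Subgroup G => IsPGroup p R ∧ H ≤ R ∧ g ∈ Subgroup.normalizer (R : Set G)) R hR
      have h1 : T ≤ pCoreOf p (Subgroup.normalizer (T : Set G)) :=
        (H2.SnIn.of_normal Subgroup.le_normalizer le_rfl).le_pCoreOf hT.1.1
      exact ⟨T, hT.1.2.1, le_antisymm (hT.2 ⟨H2.isPGroup_pCoreOf p _, hT.1.2.1.trans h1,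
        H2.le_normalizer_pCoreOf p _ hT.1.2.2⟩ h1) h1, hT.1.2.2⟩
    · rintro ⟨R, h1, h2, h3⟩
      exact ⟨R, h2 ▸ H2.isPGroup_pCoreOf p _, h1, h3⟩
  · intro g
    have key : ∀ H : Subgroup G, IsPGroup p H → IsPGroup p
        (sInf {K : Subgroup G | ∃ Q : Sylow p G, H ≤ (Q : Subgroup G) ∧ K = (Q : Subgroup G)} :
          Subgroup G) := by
      intro H hH
      obtain ⟨Q, hQ⟩ := hH.exists_le_sylow
      exact Q.isPGroup'.to_le (sInf_le ⟨Q, hQ, rfl⟩)
    have key2 : ∀ H : Subgroup G, H ≤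
        sInf {K : Subgroup G | ∃ Q : Sylow p G, H ≤ (Q : Subgroup G) ∧ K = (Q : Subgroup G)} :=
      fun H => le_sInf fun K ⟨Q, h1, h2⟩ => h2 ▸ h1
    rw [H6.subnormal_iff hH, H6.subnormal_iff (key H hH)]
    refine ⟨fun ⟨R, h1, h2, h3⟩ => ⟨_, key R h1, sInf_le_sInf fun K ⟨Q, h4, h5⟩ =>
      ⟨Q, h2.trans h4, h5⟩, ?_⟩, fun ⟨R, h1, h2, h3⟩ => ⟨R, h1, (key2 H).trans h2, h3⟩⟩
    refine Subgroup.mem_normalizer_fintype fun x hx => ?_
    simp only [SetLike.mem_coe, Subgroup.mem_sInf] at hx ⊢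
    rintro _ ⟨Q, hQ, rfl⟩
    have := hx _ ⟨g⁻¹ • Q, fun y hy => ?_, rfl⟩
    · rw [Sylow.coe_subgroup_smul, Subgroup.mem_pointwise_smul_iff_inv_smul_mem] at this
      simpa using this
    · rw [Sylow.coe_subgroup_smul, Subgroup.mem_pointwise_smul_iff_inv_smul_mem]
      simpa using hQ ((Subgroup.mem_normalizer_iff.1 h3 y).1 hy)

end Cfsg.Agent.S4089
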