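import Cfsg.Statements.S4090
import Cfsg.Agent.H6.Subnorm2
-- import your own Cfsg.Agent.* helpers here

set_option autoImplicit false
open scoped BigOperators
open Cfsg

namespace Cfsg.Agent.S4090

open Subgroup

theorem aux {G : Type*} [Group G] [Finite G] (p : ℕ) [Fact p.Prime]
    (H : Subgroup G) (hH : IsPGroup p H) (P : Sylow p G) (n : ℕ) :
    ∀ (M : Fin (n + 1) → Subgroup G), M (Fin.last n) = ⊤ → Monotone M → (∀ i, (M i).Normal) →
    (∀ i : Fin n, (∃ m : ℕ, (M i.castSucc).relIndex (M i.succ) = p ^ m) ∨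
      ((M i.castSucc).relIndex (M i.succ)).Coprime p) →
    H6.cnt H ((P : Subgroup G) ⊔ M 0) = Nat.card ((P : Subgroup G) ⊔ M 0 : Subgroup G) *
        ∏ i : Fin n, (if ((M i.castSucc).relIndex (M i.succ)).Coprime p then
          Nat.card {u : G // u ∈ M i.succ ∧ ∀ h ∈ H, h * u * h⁻¹ * u⁻¹ ∈ M i.castSucc} /
            Nat.card (M i.castSucc)
          else 1) := by
  induction n with
  | zero =>
    intro M hn _ _ _
    rw [show M 0 = ⊤ from hn, sup_top_eq, H6.cnt_top]
    simp
  | succ n ih =>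
    intro M hn hmono hnormal hfac
    have h := ih (fun i => M i.succ) hn (fun i j hij => hmono (Fin.succ_le_succ_iff.2 hij))
      (fun i => hnormal _) (fun i => hfac i.succ)
    have h01 : M 0 ≤ M (Fin.succ 0) := hmono (Fin.zero_le _)
    haveI := hnormal 0
    haveI := hnormal (Fin.succ 0)
    rw [Fin.prod_univ_succ]
    simp only [Fin.castSucc_zero, ← Fin.succ_castSucc] at h ⊢
    by_cases hc : ((M 0).relIndex (M (Fin.succ 0))).Coprime p
    · erw [if_pos hc]
      have h1 := H6.cnt_mul_of_coprime P hH h01 hc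
      have h2 := H6.card_sup_mul_of_coprime P.isPGroup' h01 hc
      have h3 : Nat.card {u : G // u ∈ M (Fin.succ 0) ∧ ∀ h ∈ H, h * u * h⁻¹ * u⁻¹ ∈ M 0} =
          Nat.card (H6.secC H (M 0) (M (Fin.succ 0))) :=
        Nat.card_congr (Equiv.subtypeEquivRight fun u => H6.mem_secC.symm)
      obtain ⟨c, hc'⟩ := card_dvd_of_le (H6.le_secC (H := H) h01)
      rw [h3, hc', Nat.mul_div_cancel_left _ Nat.card_pos]
      refine Nat.eq_of_mul_eq_mul_right (Nat.card_pos (α := M (Fin.succ 0))) ?_
      rw [h1, h, hc']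
      have key : ∀ a b c d e f : ℕ, a * b = d * e → a * f * (b * c) = d * (c * f) * e :=
        fun a b c d e f h => by
          calc _ = a * b * (c * f) := by ring
            _ = _ := by rw [h]; ring
      exact key _ _ _ _ _ _ h2
    · erw [if_neg hc]
      obtain ⟨m, hm⟩ := (hfac 0).resolve_right hc
      rw [one_mul, H6.sylow_sup_eq_of_pow P h01 hm, h]

/-- Let G be a finite p-solvable group, H a p-subgroup of G and P a Sylow p-subgroup, and fix a chain of normal subgroups 1 = M₀ ≤ M₁ ≤ ⋯ ≤ Mₙ = G of G each of whose factors is a p-group or a p'-group. Then the number of elements g of G such that H is subnormal in the subgroup generated by H and g equals the order of P times the product, over the factors Mᵢ₊₁/Mᵢ of order prime to p, of the order of the centralizer of H in Mᵢ₊₁/Mᵢ (counted as the number of u ∈ Mᵢ₊₁ with [h, u] ∈ Mᵢ for all h ∈ H, divided by the order of Mᵢ). -/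
theorem result {G : Type*} [Group G] [Finite G] (p : ℕ) [Fact p.Prime]
    (hG : Cfsg.IsPSolvable p G) (H : Subgroup G) (hH : IsPGroup p H) (P : Sylow p G)
    (n : ℕ) (M : Fin (n + 1) → Subgroup G) (h0 : M 0 = ⊥) (hn : M (Fin.last n) = ⊤) (hmono : Monotone M)
    (hnormal : ∀ i, (M i).Normal)
    (hfac : ∀ i : Fin n, (∃ m : ℕ, (M i.castSucc).relIndex (M i.succ) = p ^ m) ∨ ((M i.castSucc).relIndex (M i.succ)).Coprime p) :
    Nat.card {g : G // ((H).subgroupOf (H ⊔ Subgroup.zpowers g)).IsSubnormal} =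
      Nat.card (P : Subgroup G) *
        ∏ i : Fin n, (if ((M i.castSucc).relIndex (M i.succ)).Coprime p then
          Nat.card {u : G // u ∈ M i.succ ∧ ∀ h ∈ H, h * u * h⁻¹ * u⁻¹ ∈ M i.castSucc} / Nat.card (M i.castSucc)
          else 1) := by
  have h := aux p H hH P n M hn hmono hnormal hfac
  rw [h0, sup_bot_eq] at h
  rw [H6.card_subnormalizer hH P, ← H6.card_conj_le_sylow, ← h, H6.cnt]

end Cfsg.Agent.S4090
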