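import Cfsg.Statements.S4091
import Cfsg.Agent.H6.Subnorm2
import Cfsg.Agent.H6.FixProd
import Cfsg.Agent.L.PiSep
-- import your own Cfsg.Agent.* helpers here

set_option autoImplicit false
open Cfsg

namespace Cfsg.Agent.S4091

open Subgroup H6

variable {G : Type*} [Group G] [Finite G] {p : ℕ} [hp : Fact p.Prime]

omit [Finite G] in
theorem card_secC (H A B : Subgroup G) [A.Normal] (hAB : A ≤ B) :
    Nat.card (secC H A B) = Nat.card A * Nat.card ↥(B.map (QuotientGroup.mk' A) ⊓
      centralizer ((H.map (QuotientGroup.mk' A) : Subgroup (G ⧸ A)) : Set (G ⧸ A))) := by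
  rw [← H1.card_mul_relIndex (le_secC (H := H) hAB)]
  congr 1
  have h := relIndex_ker (secC H A B) (QuotientGroup.mk' A)
  rw [QuotientGroup.ker_mk'] at h
  rw [h]
  congr 2
  refine le_antisymm (le_inf (map_mono inf_le_left) (map_le_iff_le_comap.2 inf_le_right)) ?_
  rintro _ ⟨⟨b, hb, rfl⟩, h⟩
  exact ⟨b, ⟨hb, h⟩, rfl⟩

theorem prod_secC_dvd (P : Subgroup G) [Fintype P] (hP : IsPGroup p P) (A B : Subgroup G)
    [A.Normal] [hB : B.Normal] (hAB : A ≤ B) (hc : (A.relIndex B).Coprime p) :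
    ∏ x : P, Nat.card (secC (zpowers (x : G)) A B) ^ p ∣
      Nat.card B ^ Nat.card P * Nat.card (secC P A B) ^ ((p - 1) * Nat.card P) := by
  set f := QuotientGroup.mk' A with hf
  haveI : (B.map f).Normal := hB.map _ (QuotientGroup.mk'_surjective A)
  let φ : P →* MulAut (B.map f) := (MulAut.conjNormal.comp f).comp P.subtype
  have h1 : Nat.card (B.map f) = A.relIndex B := by
    rw [← relIndex_ker, hf, QuotientGroup.ker_mk']
  have h2 : ∀ T : Subgroup P, Nat.card (secC (T.map P.subtype) A B) =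
      Nat.card A * Nat.card (H1.fixedSub φ T) := by
    intro T
    rw [card_secC _ _ _ hAB, inf_comm, ← subgroupOf_map_subtype,
      card_map_of_injective (subtype_injective _)]
    congr 3
    ext u
    rw [mem_subgroupOf, H1.mem_fixedSub, mem_centralizer_iff]
    constructor
    · intro h b hb
      exact Subtype.ext (mul_inv_eq_iff_eq_mul.2 (h _ ⟨_, ⟨b, hb, rfl⟩, rfl⟩))
    · rintro h _ ⟨_, ⟨b, hb, rfl⟩, rfl⟩
      exact mul_inv_eq_iff_eq_mul.1 (congrArg Subtype.val (h b hb))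
  have h3 := prod_card_fixed_dvd hP (B.map f) φ (h1 ▸ hc)
  have h4 : ∀ x : P, Nat.card (secC (zpowers (x : G)) A B) =
      Nat.card A * Nat.card (H1.fixedSub φ (zpowers x)) := fun x => by
    rw [← h2, MonoidHom.map_zpowers, coe_subtype]
  have h5 : Nat.card (secC P A B) = Nat.card A * Nat.card (H1.fixedSub φ ⊤) := by
    rw [← h2, ← MonoidHom.range_eq_map, range_subtype]
  simp only [h4, h5, mul_pow, Finset.prod_mul_distrib, Finset.prod_const, Finset.card_univ]
  rw [← H1.card_mul_relIndex hAB, ← h1, mul_pow, mul_mul_mul_comm, ← pow_add, ← pow_mul,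
    ← one_add_mul, Nat.add_sub_cancel' hp.1.one_le, ← Nat.card_eq_fintype_card]
  exact Nat.mul_dvd_mul_left _ h3

theorem prod_cnt_dvd (P : Sylow p G) [Fintype (P : Subgroup G)] {N : Subgroup G}
    (hN : L.SepUpTo {p} G N) :
    (∏ x : (P : Subgroup G), cnt (zpowers (x : G)) ((P : Subgroup G) ⊔ N) ^ p ∣
      Nat.card G ^ Nat.card (P : Subgroup G) *
        cnt P ((P : Subgroup G) ⊔ N) ^ ((p - 1) * Nat.card (P : Subgroup G))) →
    (∏ x : (P : Subgroup G), cnt (zpowers (x : G)) (P : Subgroup G) ^ p ∣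
      Nat.card G ^ Nat.card (P : Subgroup G) *
        cnt P (P : Subgroup G) ^ ((p - 1) * Nat.card (P : Subgroup G))) := by
  induction hN with
  | bot => rw [sup_bot_eq]; exact id
  | step A B hA hAB hB h ih =>
    haveI := hA.normal
    intro h1
    refine ih ?_
    obtain h | h := h
    · obtain ⟨m, hm⟩ := (L.isPiNum_singleton_iff hp.1 (L.relIndex_ne_zero _ _)).1 h
      rwa [sylow_sup_eq_of_pow P hAB hm]
    have hc := (L.isPiNum_compl_singleton_iff hp.1).1 h
    have h2 := mul_dvd_mul h1 (prod_secC_dvd P P.isPGroup' A B hAB hc)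
    rw [← Finset.prod_mul_distrib, mul_mul_mul_comm, ← mul_pow (cnt _ _),
      ← cnt_mul_of_coprime P P.isPGroup' hAB hc, Finset.prod_congr rfl fun x _ => by
        rw [← mul_pow, ← cnt_mul_of_coprime P (P.isPGroup'.to_le (zpowers_le.2 x.2)) hAB hc,
          mul_pow], Finset.prod_mul_distrib, Finset.prod_const, Finset.card_univ,
      ← Nat.card_eq_fintype_card, mul_pow, mul_mul_mul_comm, ← pow_add, ← pow_mul,
      ← one_add_mul, Nat.add_sub_cancel' hp.1.one_le] at h2
    exact Nat.dvd_of_mul_dvd_mul_right (Nat.pow_pos Nat.card_pos) h2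

omit [Finite G] in
theorem cnt_zpowers (x : G) (T : Subgroup G) :
    cnt (zpowers x) T = Nat.card {g : G // g * x * g⁻¹ ∈ T} :=
  Nat.card_congr (Equiv.subtypeEquivRight fun g => by
    rw [MonoidHom.map_zpowers, zpowers_le]; rfl)

theorem card_eq_sum (P : Sylow p G) [Fintype (P : Subgroup G)] :
    (Nat.card {g : G // ∃ k : ℕ, orderOf g = p ^ k} : ℝ) =
      Nat.card G * ∑ x : (P : Subgroup G), (cnt (zpowers (x : G)) P : ℝ)⁻¹ := by
  classical
  haveI := Fintype.ofFinite G
  have h1 : ∀ y : G, (if ∃ k : ℕ, orderOf y = p ^ k then (1 : ℝ) else 0) =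
      ∑ g : G, if g * y * g⁻¹ ∈ (P : Subgroup G) then (cnt (zpowers y) P : ℝ)⁻¹ else 0 := by
    intro y
    rw [← Finset.sum_filter, Finset.sum_const, nsmul_eq_mul, ← Fintype.card_subtype,
      ← Nat.card_eq_fintype_card, ← cnt_zpowers]
    split_ifs with h
    · obtain ⟨k, hk⟩ := h
      obtain ⟨g, -, hg⟩ := H1.exists_conj_le_sylow (H := ⊤) P.isPGroup'
        (by rw [relIndex_top_right]; exact P.not_dvd_index) le_top
        (IsPGroup.of_card (by rw [Nat.card_zpowers, hk]) : IsPGroup p (zpowers y))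
      haveI : Nonempty {g : G // (zpowers y).map (MulAut.conj g).toMonoidHom ≤ P} := ⟨⟨g, hg⟩⟩
      rw [mul_inv_cancel₀]
      exact Nat.cast_ne_zero.2 Nat.card_pos.ne'
    · haveI : IsEmpty {g : G // g * y * g⁻¹ ∈ (P : Subgroup G)} := ⟨fun ⟨g, hg⟩ => h (by
        obtain ⟨k, hk⟩ := IsPGroup.iff_orderOf.1 P.isPGroup' ⟨_, hg⟩
        rw [← orderOf_coe] at hk
        exact ⟨k, ((MulAut.conj g).orderOf_eq y).symm.trans hk⟩)⟩
      rw [cnt_zpowers, Nat.card_of_isEmpty, Nat.cast_zero, zero_mul]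
  have h2 : ∀ g : G, ∑ y : G,
      (if g * y * g⁻¹ ∈ (P : Subgroup G) then (cnt (zpowers y) P : ℝ)⁻¹ else 0) =
      ∑ x : (P : Subgroup G), (cnt (zpowers (x : G)) P : ℝ)⁻¹ := by
    intro g
    rw [← Finset.sum_filter]
    refine Finset.sum_bij' (fun y hy => ⟨g * y * g⁻¹, (Finset.mem_filter.1 hy).2⟩)
      (fun x _ => g⁻¹ * x * g) (fun _ _ => Finset.mem_univ _) (fun x _ => by simp [mul_assoc])
      (fun y _ => by simp [mul_assoc]) (fun x _ => by simp [mul_assoc]) fun y _ => ?_
    rw [cnt_zpowers, cnt_zpowers]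
    congr 2
    exact Nat.card_congr ((Equiv.mulRight g⁻¹).subtypeEquiv fun a => by simp [mul_assoc])
  rw [Nat.card_eq_fintype_card, Fintype.card_subtype, Finset.card_filter, Nat.cast_sum]
  simp only [Nat.cast_ite, Nat.cast_one, Nat.cast_zero, h1]
  rw [Finset.sum_comm, Finset.sum_congr rfl fun g _ => h2 g]
  simp

theorem amgm {ι : Type*} [Fintype ι] [Nonempty ι] (a : ι → ℝ) (ha : ∀ i, 0 < a i) :
    (Fintype.card ι : ℝ) ^ Fintype.card ι ≤ (∑ i, (a i)⁻¹) ^ Fintype.card ι * ∏ i, a i := by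
  have h0 : (0 : ℝ) < Fintype.card ι := Nat.cast_pos.2 Fintype.card_pos
  have h := Real.geom_mean_le_arith_mean Finset.univ (fun _ : ι => 1) (fun i => (a i)⁻¹)
    (fun _ _ => zero_le_one) (by simpa using Fintype.card_pos) (fun i _ => (inv_pos.2 (ha i)).le)
  simp only [Real.rpow_one, Finset.sum_const, Finset.card_univ, nsmul_eq_mul, mul_one,
    one_mul] at h
  have h1 : 0 < ∏ i, a i := Finset.prod_pos fun i _ => ha i
  have h2 := pow_le_pow_left₀ (by
    rw [Finset.prod_inv_distrib]; positivity) h (Fintype.card ι)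
  rw [Real.rpow_inv_natCast_pow (by rw [Finset.prod_inv_distrib]; positivity)
    Fintype.card_pos.ne', Finset.prod_inv_distrib, div_pow, le_div_iff₀ (by positivity),
    inv_mul_le_iff₀ h1] at h2
  rwa [mul_comm]

/-- Let G be a finite p-solvable group, P a Sylow p-subgroup of G, u the number of p-elements of G (elements of p-power order, the identity included) and n the number of Sylow p-subgroups of G. Then u/#P ≥ n^((p−1)/p), stated as u^p ≥ #P^p · n^(p−1). -/
theorem result {G : Type*} [Group G] [Finite G] (p : ℕ) [Fact p.Prime]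
    (hG : Cfsg.IsPSolvable p G) (P : Sylow p G) :
    Nat.card (P : Subgroup G) ^ p * Nat.card (Sylow p G) ^ (p - 1) ≤ Nat.card {g : G // ∃ k : ℕ, orderOf g = p ^ k} ^ p := by
  classical
  haveI := Fintype.ofFinite (P : Subgroup G)
  have h1 := Nat.le_of_dvd (Nat.mul_pos (Nat.pow_pos Nat.card_pos) (Nat.pow_pos ?_))
    (prod_cnt_dvd P ((L.isPSolvable_iff_piSep Fact.out).1 hG) (by
      simp only [sup_top_eq, cnt_top, Finset.prod_const, Finset.card_univ]
      rw [← pow_add, ← pow_mul, ← one_add_mul, Nat.add_sub_cancel' (Nat.Prime.one_le Fact.out),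
        Nat.card_eq_fintype_card (α := (P : Subgroup G))]))
  swap
  · haveI : Nonempty {g : G // (P : Subgroup G).map (MulAut.conj g).toMonoidHom ≤ P} :=
      ⟨⟨1, (H1.map_conj_one _).le⟩⟩
    exact Nat.card_pos
  have h2 : cnt (P : Subgroup G) P = Nat.card (normalizer ((P : Subgroup G) : Set G)) :=
    Nat.card_congr (Equiv.subtypeEquivRight fun g => by
      rw [← H1.map_conj_eq_self_iff]
      exact ⟨fun h => H1.eq_of_le_of_card_le h (H1.card_map_conj _ _).ge, fun h => h.le⟩)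
  have h3 := amgm (fun x : (P : Subgroup G) => (cnt (zpowers (x : G)) P : ℝ)) (fun x => by
    haveI : Nonempty {g : G // (zpowers (x : G)).map (MulAut.conj g).toMonoidHom ≤ P} :=
      ⟨⟨1, (H1.map_conj_one _).le.trans (zpowers_le.2 x.2)⟩⟩
    exact Nat.cast_pos.2 Nat.card_pos)
  have h4 := card_eq_sum P
  rw [← Nat.card_eq_fintype_card] at h3
  rw [h2, Finset.prod_pow] at h1
  rw [← card_normalizer_mul_card_sylow P] at h1 h4
  have h5 : 0 < Nat.card (normalizer ((P : Subgroup G) : Set G)) := Nat.card_pos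
  have h6 : 0 < Nat.card (Sylow p G) := Nat.card_pos
  have h7 : 0 < Nat.card (P : Subgroup G) := Nat.card_pos
  rw [← Nat.cast_prod] at h3
  generalize Nat.card (normalizer ((P : Subgroup G) : Set G)) = N at *
  generalize Nat.card (Sylow p G) = n at *
  generalize Nat.card (P : Subgroup G) = c at *
  generalize Nat.card {g : G // ∃ k : ℕ, orderOf g = p ^ k} = u at *
  generalize ∏ x : (P : Subgroup G), cnt (zpowers (x : G)) P = a at *
  generalize ∑ x : (P : Subgroup G), (cnt (zpowers (x : G)) P : ℝ)⁻¹ = s at *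
  have h8 : (N * n * c) ^ c ≤ u ^ c * a := by
    rw [← Nat.cast_le (α := ℝ)]
    push_cast at h4 ⊢
    rw [h4, mul_pow _ (c : ℝ), mul_pow _ s, mul_assoc]
    exact mul_le_mul_of_nonneg_left h3 (by positivity)
  obtain ⟨q, rfl⟩ : ∃ q, p = q + 1 := ⟨p - 1, (Nat.sub_add_cancel (Nat.Prime.one_le Fact.out)).symm⟩
  rw [Nat.add_sub_cancel] at h1 ⊢
  have h9 := (Nat.pow_le_pow_left h8 (q + 1)).trans ((mul_pow _ _ _).le.trans
    (Nat.mul_le_mul_left _ h1))
  rw [← Nat.pow_le_pow_iff_left h7.ne']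
  refine Nat.le_of_mul_le_mul_right ?_ (show 0 < (N * n) ^ c * N ^ (q * c) by positivity)
  calc _ = ((N * n * c) ^ c) ^ (q + 1) := by ring
    _ ≤ _ := h9
    _ = _ := by ring

end Cfsg.Agent.S4091
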