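import Cfsg.Statements.S4092
import Cfsg.Agent.H9.SylowLines
import Cfsg.Agent.H8.PComplement
import Cfsg.Agent.H1.Basic
-- import your own Cfsg.Agent.* helpers here

set_option autoImplicit false
open Cfsg

namespace Cfsg.Agent.S4092

/-- Let G be a finite group, p a prime and P a Sylow p-subgroup of G that is not normal in G. Then G has at least p·#P elements of p-power order (the identity included). -/
theorem result {G : Type*} [Group G] [Finite G] (p : ℕ) [Fact p.Prime]
    (P : Sylow p G) (hP : ¬ (P : Subgroup G).Normal) :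
    p * Nat.card (P : Subgroup G) ≤ Nat.card {g : G // ∃ k : ℕ, orderOf g = p ^ k} := by
  classical
  have hp : p.Prime := Fact.out
  haveI := Fintype.ofFinite G
  haveI := Fintype.ofFinite (Sylow p G)
  have hex : ∃ z : Sylow p G × Sylow p G, z.1 ≠ z.2 := by
    by_contra h
    push Not at h
    haveI : Subsingleton (Sylow p G) := ⟨fun a b => h (a, b)⟩
    exact hP (Sylow.normal_of_subsingleton P)
  obtain ⟨⟨Q, R⟩, hQR, hmax⟩ := Set.exists_max_image {z : Sylow p G × Sylow p G | z.1 ≠ z.2}
    (fun z => Nat.card ((z.1 : Subgroup G) ⊓ (z.2 : Subgroup G) : Subgroup G)) (Set.toFinite _) hex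
  have hQR' : Q ≠ R := hQR
  set D : Subgroup G := (Q : Subgroup G) ⊓ (R : Subgroup G) with hD
  have hinf : ∀ A B : Sylow p G, D ≤ A → D ≤ B → A ≠ B → (A : Subgroup G) ⊓ B = D := by
    intro A B hA hB hAB
    exact (H1.eq_of_le_of_card_le (le_inf hA hB) (hmax (A, B) hAB)).symm
  have hDp : IsPGroup p D := Q.isPGroup'.to_le inf_le_left
  set S : Finset (Sylow p G) := Finset.univ.filter (fun A => D ≤ A) with hS
  have hS1 : S.card ≡ 1 [MOD p] := by
    have := H9.ncard_sylow_ge_modEq_one hDp
    rwa [Set.ncard_eq_toFinset_card', Set.toFinset_setOf] at this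
  have hS2 : 1 < S.card := Finset.one_lt_card.2
    ⟨Q, by simp [hS, hD], R, by simp [hS, hD], hQR'⟩
  have hS3 : p + 1 ≤ S.card := by
    have := Nat.le_of_dvd (by omega) ((Nat.modEq_iff_dvd' hS2.le).1 hS1.symm)
    omega
  have hDlt : D < Q := by
    refine lt_of_le_of_ne inf_le_left fun h => hQR' ?_
    exact Sylow.ext (H1.eq_of_le_of_card_le (inf_eq_left.1 h) (H9.card_sylow_eq_card R Q).le)
  have hDc : p * Nat.card D ≤ Nat.card (P : Subgroup G) := by
    rw [H9.card_sylow_eq_card P Q]
    obtain ⟨i, hi⟩ := IsPGroup.iff_card.1 hDp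
    obtain ⟨j, hj⟩ := IsPGroup.iff_card.1 Q.isPGroup'
    have := H1.card_lt_of_lt hDlt
    rw [hi, hj] at this ⊢
    rw [← pow_succ']
    exact Nat.pow_le_pow_right hp.pos ((Nat.pow_lt_pow_iff_right hp.one_lt).1 this)
  let T : Sylow p G → Finset G := fun A => Finset.univ.filter (fun g => g ∈ (A : Subgroup G) ∧ g ∉ D)
  have hT : ∀ A ∈ S, (T A).card = Nat.card (P : Subgroup G) - Nat.card D := by
    intro A hA
    have hA' : D ≤ A := (Finset.mem_filter.1 hA).2
    have h1 : T A = Finset.univ.filter (fun g => g ∈ (A : Subgroup G)) \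
        Finset.univ.filter (fun g => g ∈ D) := by
      ext g; simp [T]
    rw [h1, Finset.card_sdiff_of_subset (fun g hg => by
      simp only [Finset.mem_filter, Finset.mem_univ, true_and] at hg ⊢; exact hA' hg),
      H9.card_sylow_eq_card P A, Nat.card_eq_fintype_card, Nat.card_eq_fintype_card,
      Fintype.card_subtype, Fintype.card_subtype]
  have h1 : (S.biUnion T).card = S.card * (Nat.card (P : Subgroup G) - Nat.card D) := by
    rw [Finset.card_biUnion, Finset.sum_congr rfl hT, Finset.sum_const, smul_eq_mul]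
    intro A hA B hB hAB
    rw [Function.onFun, Finset.disjoint_left]
    intro g h1 h2
    simp only [T, Finset.mem_filter, Finset.mem_univ, true_and] at h1 h2
    apply h1.2
    rw [← hinf A B (Finset.mem_filter.1 hA).2 (Finset.mem_filter.1 hB).2 hAB]
    exact ⟨h1.1, h2.1⟩
  have h2 : (S.biUnion T ∪ Finset.univ.filter (fun g => g ∈ D)).card =
      S.card * (Nat.card (P : Subgroup G) - Nat.card D) + Nat.card D := by
    rw [Finset.card_union_of_disjoint, h1, Nat.card_eq_fintype_card (α := D), Fintype.card_subtype]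
    rw [Finset.disjoint_left]
    intro g h1 h2
    simp only [T, Finset.mem_biUnion, Finset.mem_filter, Finset.mem_univ, true_and] at h1 h2
    obtain ⟨_, _, _, h⟩ := h1
    exact h h2
  have h3 : (S.biUnion T ∪ Finset.univ.filter (fun g => g ∈ D)).card ≤
      Nat.card {g : G // ∃ k : ℕ, orderOf g = p ^ k} := by
    rw [Nat.card_eq_fintype_card, Fintype.card_subtype]
    refine Finset.card_le_card fun g hg => ?_
    simp only [T, Finset.mem_union, Finset.mem_biUnion, Finset.mem_filter, Finset.mem_univ,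
      true_and] at hg ⊢
    rcases hg with ⟨A, -, h, -⟩ | h
    · exact H8.exists_orderOf_eq_pow_of_mem A.isPGroup' h
    · exact H8.exists_orderOf_eq_pow_of_mem hDp h
  refine le_trans ?_ (h2 ▸ h3)
  have h4 : Nat.card D ≤ Nat.card (P : Subgroup G) :=
    le_trans (Nat.le_mul_of_pos_left _ hp.pos) hDc
  obtain ⟨e, he⟩ := Nat.exists_eq_add_of_le h4
  rw [he, Nat.add_sub_cancel_left]
  rw [he] at hDc
  nlinarith [Nat.mul_le_mul_right e hS3]

end Cfsg.Agent.S4092
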