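import Cfsg.Statements.S4093
import Cfsg.Agent.H6.PiElem
import Cfsg.Agent.H1.Basic
-- import your own Cfsg.Agent.* helpers here

set_option autoImplicit false
open scoped BigOperators
open Cfsg

namespace Cfsg.Agent.S4093

/-- Let G be a finite group with a normal subgroup N complementing a Sylow p-subgroup P (a normal p-complement). Then the number of elements of G of p-power order equals the sum over x ∈ P of the index of C_N(x) in N. -/
theorem result {G : Type*} [Group G] [Finite G] (p : ℕ) [Fact p.Prime]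
    (P : Sylow p G) (N : Subgroup G) [N.Normal] (hNP : N.IsComplement' (P : Subgroup G)) :
    Nat.card {g : G // ∃ k : ℕ, orderOf g = p ^ k} =
      ∑ᶠ x : (P : Subgroup G), Nat.card N / Nat.card ↥(N ⊓ Subgroup.centralizer ({(x : G)} : Set G)) := by
  classical
  haveI := Fintype.ofFinite (P : Subgroup G)
  rw [finsum_eq_sum_of_fintype]
  have hdec : ∀ g : G, ∃ n ∈ N, ∃ x ∈ (P : Subgroup G), n * x = g := by
    intro g
    obtain ⟨⟨n, x⟩, h, -⟩ := (Subgroup.isComplement'_def.1 hNP).existsUnique g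
    exact ⟨n, n.2, x, x.2, h⟩
  let f : (Σ x : (P : Subgroup G), {g : G | ∃ n ∈ N, n * x * n⁻¹ = g}) →
      {g : G // ∃ k : ℕ, orderOf g = p ^ k} := fun z => ⟨z.2.1, by
    obtain ⟨n, -, hn⟩ := z.2.2
    rw [← hn]
    obtain ⟨k, hk⟩ := H8.exists_orderOf_eq_pow_of_mem P.isPGroup' z.1.2
    exact ⟨k, ((MulAut.conj n).orderOf_eq (z.1 : G)).trans hk⟩⟩
  have hf : Function.Bijective f := by
    constructor
    · rintro ⟨x, g, n, hn, rfl⟩ ⟨y, g', m, hm, rfl⟩ h
      have h1 : n * x * n⁻¹ = m * y * m⁻¹ := congrArg Subtype.val h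
      have h2 : x = y := by
        have h3 : (y : G) * (x : G)⁻¹ ∈ N ⊓ (P : Subgroup G) := by
          refine ⟨?_, (P : Subgroup G).mul_mem y.2 ((P : Subgroup G).inv_mem x.2)⟩
          have h4 : (y : G) * (x : G)⁻¹ = m⁻¹ * n * (x * (n⁻¹ * m) * (x : G)⁻¹) := by
            calc (y : G) * (x : G)⁻¹ = m⁻¹ * (m * y * m⁻¹) * m * (x : G)⁻¹ := by group
              _ = _ := by rw [← h1]; group
          rw [h4]
          exact N.mul_mem (N.mul_mem (N.inv_mem hm) hn)
            (Subgroup.Normal.conj_mem inferInstance _ (N.mul_mem (N.inv_mem hn) hm) _)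
        rw [hNP.disjoint.eq_bot, Subgroup.mem_bot, mul_inv_eq_one] at h3
        exact Subtype.ext h3.symm
      subst h2
      simp only [Sigma.mk.injEq, heq_eq_eq, true_and]
      exact Subtype.ext h1
    · rintro ⟨g, k, hk⟩
      obtain ⟨y, hy, hgy⟩ := H3.exists_isConj_mem_sylow P hk
      obtain ⟨c, rfl⟩ := isConj_iff.1 hgy.symm
      obtain ⟨n, hn, x, hx, rfl⟩ := hdec c
      exact ⟨⟨⟨x * y * x⁻¹, mul_mem (mul_mem hx hy) (inv_mem hx)⟩, n * x * y * (n * x)⁻¹, n, hn,
        by simp only; group⟩, rfl⟩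
  rw [← Nat.card_congr (Equiv.ofBijective f hf), Nat.card_sigma]
  refine Finset.sum_congr rfl fun x _ => ?_
  rw [Nat.card_coe_set_eq, H6.ncard_conj_orbit,
    ← H1.card_inf_mul_relIndex (Subgroup.centralizer ({(x : G)} : Set G)) N, inf_comm,
    Nat.mul_div_cancel_left _ Nat.card_pos]

end Cfsg.Agent.S4093
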