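import Cfsg.Statements.S4097
import Cfsg.Agent.H5.Kegel
import Cfsg.Agent.H6.Induction
import Cfsg.Agent.L.Fitting

set_option autoImplicit false
open Cfsg

namespace Cfsg.Agent.S4097

open Subgroup

universe u

theorem aux (n : ℕ) : ∀ (G : Type u) [Group G] [Finite G], Nat.card G = n → ∀ A : Subgroup G,
    Group.IsSolvable A → (∀ S : Subgroup G, A ≤ S → Group.IsSolvable S → ∀ a ∈ A, ∀ s ∈ S,
      a * s = s * a) → A ≤ center G := by
  induction n using Nat.strong_induction_on with
  | _ n ih =>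
  intro G _ _ hn A hA hc
  by_contra hne
  have hH : centralizer (A : Set G) ≠ ⊤ := fun e => hne fun a ha =>
    mem_center_iff.mpr fun g => ((e.ge (mem_top g)) a ha).symm
  have hA1 : A ≠ ⊥ := fun e => hne (e ▸ bot_le)
  have hAH : A ≤ centralizer (A : Set G) := fun x hx a ha => hc A le_rfl hA a ha x hx
  have h1 : ∀ M : Subgroup G, A ≤ M → M ≠ ⊤ → M ≤ centralizer (A : Set G) := by
    intro M hAM hM m hm a ha
    have := ih _ (hn ▸ lt_of_le_of_ne (card_le_card_group M) fun e => hM ((card_eq_iff_eq_top M).mp e))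
      M rfl (A.subgroupOf M) (solvable_of_solvable_injective (f := (subgroupOfEquivOfLe hAM).toMonoidHom)
        (subgroupOfEquivOfLe hAM).injective) fun S hS hsol a ha s hs =>
        Subtype.ext (hc (S.map M.subtype) (fun x hx => ⟨⟨x, hAM hx⟩, hS hx, rfl⟩)
          (L.isSolvable_map S _) a ha s ⟨s, hs, rfl⟩)
    exact congrArg Subtype.val (mem_center_iff.mp (this (show (⟨a, hAM ha⟩ : M) ∈ _ from ha))
      ⟨m, hm⟩).symm
  have h2 : ∀ N : Subgroup G, N.Normal → Group.IsSolvable N → ¬ A ≤ N := by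
    intro N hN hs hAN
    refine hne fun a ha => mem_center_iff.mpr fun g => ?_
    exact (hc (zpowers g ⊔ N) (hAN.trans le_sup_right)
      (L.isSolvable_sup_of_normal _ _ inferInstance hs) a ha g (mem_sup_left (mem_zpowers g))).symm
  have h3 : ∀ N : Subgroup G, N.Normal → Group.IsSolvable N → N = ⊥ := by
    intro N hN hs
    by_contra hN1
    have := ih _ (by
        rw [← hn, card_eq_card_quotient_mul_card_subgroup N]
        exact lt_mul_of_one_lt_right Nat.card_pos ((one_lt_card_iff_ne_bot N).mpr hN1))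
      (G ⧸ N) rfl (A.map (QuotientGroup.mk' N)) (L.isSolvable_map A _) (by
        rintro S hS hsol _ ⟨a, ha, rfl⟩ s hs
        obtain ⟨s, rfl⟩ := QuotientGroup.mk'_surjective N s
        rw [← map_mul, ← map_mul, hc (S.comap (QuotientGroup.mk' N)) (map_le_iff_le_comap.mp hS)
          (L.isSolvable_comap_mk' N S) a ha s hs])
    haveI hz : Group.IsSolvable (center (G ⧸ N)) := isSolvable_of_comm fun a b => mul_comm' a b
    exact h2 ((center (G ⧸ N)).comap (QuotientGroup.mk' N)) inferInstance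
      (L.isSolvable_comap_mk' N _) (map_le_iff_le_comap.mp this)
  have h4 : ∀ N : Subgroup G, N.Normal → N ≤ centralizer (A : Set G) → N = ⊥ := by
    intro N hN hle
    have hAC : A ≤ centralizer (N : Set G) := le_centralizer_iff.mp hle
    by_cases e : centralizer (N : Set G) = ⊤
    · haveI : IsMulCommutative N := ⟨⟨fun a b => Subtype.ext ((e.ge (mem_top b.1)) a a.2)⟩⟩
      exact h3 N hN (isSolvable_of_comm fun a b => mul_comm' a b)
    · exfalso
      refine h2 (centralizer (N : Set G) ⊓ centralizer (centralizer (N : Set G) : Set G))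
        inferInstance (isSolvable_of_comm fun a b => Subtype.ext (b.2.2 a a.2.1))
        (le_inf hAC (le_centralizer_iff.mp (h1 _ hAC e)))
  have h5 : ∀ Q : Subgroup G, Q ≤ centralizer (A : Set G) → Q ≠ ⊥ →
      normalizer (Q : Set G) ≤ centralizer (A : Set G) := fun Q hQ hQ1 =>
    h1 _ ((le_centralizer_iff.mp hQ).trans (centralizer_le_normalizer _)) fun e =>
      hQ1 (h4 Q (normalizer_eq_top_iff.mp e) hQ)
  have hfrob : IsFrobeniusComplement (centralizer (A : Set G)) := by
    refine H9.isFrobeniusComplement_iff.mpr ⟨fun e => hA1 (eq_bot_iff.mpr (e ▸ hAH)), hH, ?_⟩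
    intro g h hh hh1 hg
    have hz := h5 (zpowers h) (zpowers_le.mpr hh) (by simpa using hh1)
    have h6 : A.map (MulAut.conj g⁻¹).toMonoidHom ≤ centralizer (A : Set G) := by
      rintro _ ⟨a, ha, rfl⟩
      refine hz (centralizer_le_normalizer _ ?_)
      rintro _ ⟨k, rfl⟩
      refine (Commute.zpow_left ?_ k).eq
      have := hg a ha
      change h * (g⁻¹ * a * g⁻¹⁻¹) = g⁻¹ * a * g⁻¹⁻¹ * h
      calc h * (g⁻¹ * a * g⁻¹⁻¹) = g⁻¹ * ((g * h * g⁻¹) * a) * g := by group
        _ = _ := by rw [← this]; group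
    have h7 := h5 _ h6 (by rwa [Ne, map_eq_bot_iff_of_injective _ (MulAut.conj g⁻¹).injective])
    refine inv_mem_iff.mp (h5 _ le_rfl (fun e => hA1 (eq_bot_iff.mpr (e ▸ hAH))) ?_)
    refine mem_normalizer_fintype fun x hx => h7 (centralizer_le_normalizer _ ?_)
    rintro _ ⟨a, ha, rfl⟩
    have := hx a ha
    change g⁻¹ * a * g⁻¹⁻¹ * (g⁻¹ * x * g⁻¹⁻¹) = g⁻¹ * x * g⁻¹⁻¹ * (g⁻¹ * a * g⁻¹⁻¹)
    calc g⁻¹ * a * g⁻¹⁻¹ * (g⁻¹ * x * g⁻¹⁻¹) = g⁻¹ * (a * x) * g := by group
      _ = _ := by rw [this]; group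
  obtain ⟨K, hK, hker, -⟩ := H6.exists_frobeniusKernel hfrob
  haveI := H5.isNilpotent_frobeniusKernel hfrob hker
  exact H9.frob_kernel_ne_bot hfrob hker (h3 K hK inferInstance)

/-- Let A be a solvable subgroup of a finite group G such that A lies in the centre of every solvable subgroup of G containing A. Then A lies in the centre of G. -/
theorem result {G : Type*} [Group G] [Finite G]
    (A : Subgroup G) (hA : Group.IsSolvable A)
    (hc : ∀ S : Subgroup G, A ≤ S → Group.IsSolvable S → ∀ a ∈ A, ∀ s ∈ S, a * s = s * a) : A ≤ Subgroup.center G := by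
  exact aux _ G rfl A hA hc

end Cfsg.Agent.S4097
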