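import Cfsg.Statements.S4100
import Cfsg.Agent.L.Cert4

set_option autoImplicit false
open Cfsg

namespace Cfsg.Agent.S4100
open Equiv Subgroup Cert

theorem data {p m d : ℕ} (s : Perm (Fin m)) (h1 : Perm.sign s = 1) (h2 : orderOf s = p) (hd : m + 5 ≤ d) :
    ∃ (x : alternatingGroup (Fin d)) (X : Subgroup (alternatingGroup (Fin d))), orderOf x = p ∧
      ¬ Group.IsSolvable X ∧ (∀ g ∈ X, g * x = x * g) ∧ Nat.card X = 60 := by
  obtain ⟨ι, hi, hs⟩ := exists_emb (finSumFinEquiv.toEmbedding.trans (Fin.castLEEmb hd))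
  let ψ := ι.comp (Perm.sumCongrHom (Fin m) (Fin 5))
  have hψ : Function.Injective ψ := hi.comp Perm.sumCongrHom_injective
  have sg : ∀ a b, Perm.sign (ψ (a, b)) = Perm.sign a * Perm.sign b := fun a b => by
    simp [ψ, hs]
  let j : alternatingGroup (Fin 5) →* alternatingGroup (Fin d) :=
    ((ψ.comp (MonoidHom.inr _ _)).comp (alternatingGroup (Fin 5)).subtype).codRestrict _ fun x => by
      have := Perm.mem_alternatingGroup.1 x.2
      simp [Perm.mem_alternatingGroup, sg, this]
  have hj : Function.Injective j := fun a b e =>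
    Subtype.ext (Prod.ext_iff.1 (hψ (congrArg Subtype.val e))).2
  refine ⟨⟨ψ (s, 1), by simp [Perm.mem_alternatingGroup, sg, h1]⟩, j.range, ?_, fun h => ?_, ?_, ?_⟩
  · rw [Subgroup.orderOf_mk, orderOf_injective ψ hψ, Prod.orderOf_mk, orderOf_one, Nat.lcm_one_right, h2]
  · haveI : Group.IsSolvable (alternatingGroup (Fin 5)) :=
      Group.isSolvable_of_surjective (f := (MonoidHom.ofInjective hj).symm.toMonoidHom) (MulEquiv.surjective _)
    haveI : IsSimpleGroup (alternatingGroup (Fin 5)) := alternatingGroup.isSimpleGroup (by simp)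
    have := (IsSimpleGroup.comm_iff_isSolvable (G := alternatingGroup (Fin 5))).2 inferInstance
    have h4 := alternatingGroup.center_eq_bot (α := Fin 5) (by simp)
    rw [eq_top_iff' .. |>.2 fun a => mem_center_iff.2 fun g => this g a] at h4
    exact top_ne_bot h4
  · rintro _ ⟨g, rfl⟩
    apply Subtype.ext
    show ψ (1, g) * ψ (s, 1) = ψ (s, 1) * ψ (1, g)
    rw [← map_mul, ← map_mul]; simp
  · rw [← Nat.card_congr (MonoidHom.ofInjective hj).toEquiv]
    have := two_mul_nat_card_alternatingGroup (α := Fin 5)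
    rw [Nat.card_perm, Nat.card_fin] at this
    norm_num [Nat.factorial] at this ⊢; omega

/-- Let G be a finite group and p a prime other than 3 such that the centralizer of every non-central element of p-power order is solvable. Then every alternating group of degree at least 5 involved in G (as a section) has degree at most p + 4, or at most p + 6 = 8 when p = 2. -/
theorem result {G : Type*} [Group G] [Finite G] (p : ℕ) [Fact p.Prime] (hp3 : p ≠ 3)
    (h : ∀ x : G, x ∉ Subgroup.center G → (∃ k : ℕ, orderOf x = p ^ k) → Group.IsSolvable (Subgroup.centralizer ({x} : Set G)))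
    (d : ℕ) (hd : 5 ≤ d) (hinv : Cfsg.Involves (alternatingGroup (Fin d)) G) :
    d ≤ p + 4 + (if p = 2 then 2 else 0) := by
  by_contra! hlt
  have hp : p.Prime := Fact.out
  obtain ⟨K, R, _, ⟨e⟩⟩ := hinv
  have key : ∀ (m : ℕ) (s : Perm (Fin m)), Perm.sign s = 1 → orderOf s = p → m + 5 ≤ d →
      ((Nat.Coprime 60 p) ∨ ModFix p (alternatingGroup (Fin d))) → False := fun m s h1 h2 h3 h4 => by
    obtain ⟨x, X, hx, hX, hc, h60⟩ := data s h1 h2 h3
    obtain ⟨y, y1, ⟨k, y2⟩, y3⟩ := (bad_main hp (alternatingGroup.center_eq_bot (by simp; omega)) hx hX hc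
      (h60 ▸ h4) _ K (e.toMonoidHom.comp (QuotientGroup.mk' _)) rfl
      (e.surjective.comp (QuotientGroup.mk'_surjective _))).of_inj K.subtype_injective
    obtain ⟨l, -, hl⟩ := (Nat.dvd_prime_pow hp).1 (orderOf_dvd_of_pow_eq_one y2)
    exact y3 (h y y1 ⟨l, hl⟩)
  by_cases h2 : p = 2
  · subst h2
    exact key 4 (swap 0 1 * swap 2 3) (by simp) (orderOf_eq_prime (by decide) (by decide)) (by simp at hlt; omega)
      (Or.inr (modFix2 (by simp at hlt; omega)))
  rw [if_neg h2] at hlt
  refine key p (finRotate p) ?_ ?_ (by omega) ?_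
  · rw [sign_finRotate]
    exact Even.neg_one_pow (Nat.Odd.sub_odd (hp.odd_of_ne_two h2) odd_one)
  · rw [(isCycle_finRotate_of_le hp.two_le).orderOf, support_finRotate_of_le hp.two_le]; simp
  by_cases h5 : p = 5
  · subst h5; exact Or.inr (modFix5 (by omega))
  · left
    rw [show 60 = 2 ^ 2 * 3 * 5 by norm_num]
    refine Nat.Coprime.mul_left (Nat.Coprime.mul_left (Nat.Coprime.pow_left _ ?_) ?_) ?_ <;>
      exact (Nat.coprime_primes (by norm_num) hp).2 (by omega)

end Cfsg.Agent.S4100
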