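import Cfsg.Statements.S4105
import Cfsg.Agent.H6.ManyClasses
-- import your own Cfsg.Agent.* helpers here

set_option autoImplicit false
open Cfsg

namespace Cfsg.Agent.S4105

/-- Let G be a finite group, π a set of primes with least member p, m the π-part of the order of G and k the number of conjugacy classes of G consisting of π-elements. If k > m·(p² + p − 1)/p³, then G has an abelian Hall π-subgroup (an abelian subgroup of order m). -/
theorem result {G : Type*} [Group G] [Finite G]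
    (π : Set ℕ) (hπ : ∀ q ∈ π, q.Prime) (p : ℕ) (hp : p ∈ π) (hmin : ∀ q ∈ π, p ≤ q)
    (m : ℕ) (hm : m ∣ Nat.card G) (hmπ : ∀ q : ℕ, q.Prime → q ∣ m → q ∈ π)
    (hm' : ∀ q ∈ π, ¬ q ∣ Nat.card G / m)
    (k : ℕ) (hk : k = Nat.card {C : ConjClasses G // ∀ q : ℕ, q.Prime → (∃ g : G, ConjClasses.mk g = C ∧ q ∣ orderOf g) → q ∈ π})
    (hmany : m * (p ^ 2 + p - 1) < p ^ 3 * k) :
    ∃ H : Subgroup G, Nat.card H = m ∧ IsMulCommutative H := by
  have hp0 := (hπ p hp).pos
  have hlt : m < p * k := by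
    refine lt_of_mul_lt_mul_left (a := p ^ 2) ?_ (Nat.zero_le _)
    calc p ^ 2 * m = m * p ^ 2 := mul_comm _ _
      _ ≤ m * (p ^ 2 + p - 1) := Nat.mul_le_mul_left _ (by omega)
      _ < p ^ 3 * k := hmany
      _ = _ := by ring
  obtain ⟨H, h1, h2, h3, h4⟩ :=
    H6.exists_nilpotent_hall_of_lt_mul π p hmin m hm hmπ hm' k hk hlt
  exact ⟨H, h1, H6.isMulCommutative_of_lt_mul h4
    (h1 ▸ hmany.trans_le (Nat.mul_le_mul_left _ h3))⟩

end Cfsg.Agent.S4105
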