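import Cfsg.Statements.S4107
import Cfsg.Agent.L.Fitting
import Cfsg.Agent.H8.PComplement
-- import your own Cfsg.Agent.* helpers here

set_option autoImplicit false
open Cfsg

namespace Cfsg.Agent.S4107

/-- Let G be a finite group and N a proper non-trivial normal subgroup such that for every x outside N all elements of the coset xN have the same order as x. Then N ≤ F(G) or F(G) ≤ N, where F(G) is the Fitting subgroup; and if N is properly contained in F(G) then F(G) has prime-power order. -/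
theorem result {G : Type*} [Group G] [Finite G] (N : Subgroup G) [N.Normal] (hN1 : N ≠ ⊥) (hN2 : N ≠ ⊤)
    (heq : ∀ x : G, x ∉ N → ∀ n ∈ N, orderOf (x * n) = orderOf x) :
    (N ≤ Cfsg.fittingSubgroup G ∨ Cfsg.fittingSubgroup G ≤ N) ∧
    (N < Cfsg.fittingSubgroup G → IsPrimePow (Nat.card (Cfsg.fittingSubgroup G))) := by
  have key : ∀ p : ℕ, p.Prime → ¬ pCore p G ≤ N → IsPGroup p N := by
    intro p hp h
    haveI := Fact.mk hp
    obtain ⟨x, hx, hxN⟩ := SetLike.not_le_iff_exists.1 h
    obtain ⟨k, hk⟩ := H8.exists_orderOf_eq_pow_of_mem (L.isPGroup_pCore p) hx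
    intro n
    have h1 : (x * n) ^ p ^ k = 1 := by rw [← hk, ← heq x hxN n n.2, pow_orderOf_eq_one]
    have h2 : (n : G) ^ p ^ k ∈ pCore p G := by
      have h3 : ((x * n : G) : G ⧸ pCore p G) = ((n : G) : G ⧸ pCore p G) := by
        rw [QuotientGroup.mk_mul, (QuotientGroup.eq_one_iff x).2 hx, one_mul]
      rw [← QuotientGroup.eq_one_iff, QuotientGroup.mk_pow, ← h3, ← QuotientGroup.mk_pow, h1,
        QuotientGroup.mk_one]
    obtain ⟨j, hj⟩ := L.isPGroup_pCore p ⟨_, h2⟩
    refine ⟨k + j, Subtype.ext ?_⟩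
    rw [pow_add, pow_mul]
    have h4 : ((n : G) ^ p ^ k) ^ p ^ j = 1 := congrArg Subtype.val hj
    exact h4
  have hex : ¬ fittingSubgroup G ≤ N → ∃ p : ℕ, p.Prime ∧ IsPGroup p N := by
    intro h
    rw [L.fittingSubgroup_eq_iSup_pCore, iSup_le_iff, not_forall] at h
    obtain ⟨p, hp⟩ := h
    exact ⟨p, p.2, key p p.2 hp⟩
  constructor
  · by_cases h : fittingSubgroup G ≤ N
    · exact Or.inr h
    · obtain ⟨p, hp, hN⟩ := hex h
      exact Or.inl ((L.le_pCore inferInstance hN).trans (L.pCore_le_fittingSubgroup hp))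
  · intro h
    obtain ⟨p, hp, hN⟩ := hex (not_le_of_gt h)
    haveI := Fact.mk hp
    have h1 : fittingSubgroup G ≤ pCore p G := by
      rw [L.fittingSubgroup_eq_iSup_pCore, iSup_le_iff]
      rintro ⟨q, hq⟩
      by_cases hqp : q = p
      · exact hqp ▸ le_rfl
      by_cases h2 : pCore q G ≤ N
      · exact h2.trans (L.le_pCore inferInstance hN)
      · haveI := Fact.mk hq
        exact absurd (disjoint_self.1 (IsPGroup.disjoint_of_ne q p hqp N N (key q hq h2) hN)) hN1
    obtain ⟨k, hk⟩ := IsPGroup.iff_card.1 ((L.isPGroup_pCore p).to_le h1)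
    rw [hk]
    refine (isPrimePow_nat_iff _).2 ⟨p, k, hp, Nat.pos_of_ne_zero ?_, rfl⟩
    rintro rfl
    rw [pow_zero, Subgroup.card_eq_one] at hk
    exact not_lt_bot (hk ▸ h)

end Cfsg.Agent.S4107
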