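import Cfsg.Statements.S4108
import Cfsg.Agent.H9.FrobQuot
import Cfsg.Agent.H8.PComplement
-- import your own Cfsg.Agent.* helpers here

set_option autoImplicit false
open Cfsg

namespace Cfsg.Agent.S4108

/-- Let G be a finite group, p a prime and N a proper non-trivial normal p-subgroup such that for every x outside N all elements of the coset xN have the same order as x. Then every non-trivial subgroup H of G of order prime to p acts fixed-point-freely on N: NH is a Frobenius group with complement H and kernel N. -/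
theorem result {G : Type*} [Group G] [Finite G] (N : Subgroup G) [N.Normal] (hN1 : N ≠ ⊥) (hN2 : N ≠ ⊤)
    (heq : ∀ x : G, x ∉ N → ∀ n ∈ N, orderOf (x * n) = orderOf x)
    (p : ℕ) [Fact p.Prime] (hNp : IsPGroup p N) :
    ∀ H : Subgroup G, H ≠ ⊥ → (Nat.card H).Coprime p →
      Cfsg.IsFrobeniusComplement (H.subgroupOf (N ⊔ H)) ∧ Cfsg.frobeniusKernel (H.subgroupOf (N ⊔ H)) = (N.subgroupOf (N ⊔ H) : Set ↥(N ⊔ H)) := by
  intro H hH1 hH
  refine H9.frob_sup_of_fpf hN1 hH1 (by rw [Subgroup.normalizer_eq_top]; exact le_top) ?_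
  intro b hb hb1 k hk hc
  have hp : p.Prime := Fact.out
  have hbo : (orderOf b).Coprime p := Nat.Coprime.coprime_dvd_left (H.orderOf_dvd_natCard hb) hH
  obtain ⟨j, hj⟩ := H8.exists_orderOf_eq_pow_of_mem hNp hk
  have hbN : b ∉ N := fun h => by
    obtain ⟨i, hi⟩ := H8.exists_orderOf_eq_pow_of_mem hNp h
    exact hb1 (H8.eq_one_of_orderOf_pow_of_coprime hi hbo)
  have h1 := heq b hbN k hk
  rw [(show Commute b k from hc).orderOf_mul_eq_mul_orderOf_of_coprime
    (by rw [hj]; exact hbo.pow_right j)] at h1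
  have h0 : 0 < orderOf b := orderOf_pos b
  rw [← orderOf_eq_one_iff]
  exact Nat.eq_of_mul_eq_mul_left h0 (by rw [h1, mul_one])

end Cfsg.Agent.S4108
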