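import Cfsg.Statements.S4115
import Cfsg.Agent.H6.TIPartition
import Cfsg.Agent.H6.TIHall
import Cfsg.Agent.H6.Induction
import Cfsg.Agent.H6.PiElem
import Cfsg.Agent.H6.ManyClasses
-- import your own Cfsg.Agent.* helpers here

set_option autoImplicit false
universe u
open Cfsg

namespace Cfsg.Agent.S4115

/-- Let G be a finite group and H a subgroup that meets each of its conjugates by elements outside N_G(H) trivially and whose order is coprime to its index in N_G(H). Then H has a normal complement in N_G(H) if and only if H has a normal complement in G. Moreover, if H is not normal in G and has a normal complement in N_G(H), then H is isomorphic to a Frobenius complement of some finite Frobenius group. -/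
theorem result {G : Type u} [Group G] [Finite G] (H : Subgroup G)
    (hTI : Cfsg.IsTISubset (H : Set G)) (hHall : (Nat.card H).Coprime (H.subgroupOf (Subgroup.normalizer (H : Set G))).index) :
    ((∃ K : Subgroup (Subgroup.normalizer (H : Set G)), K.Normal ∧ K.IsComplement' (H.subgroupOf (Subgroup.normalizer (H : Set G)))) ↔
      (∃ N : Subgroup G, N.Normal ∧ N.IsComplement' H)) ∧
    (¬ H.Normal → (∃ K : Subgroup (Subgroup.normalizer (H : Set G)), K.Normal ∧ K.IsComplement' (H.subgroupOf (Subgroup.normalizer (H : Set G)))) →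
      ∃ (F : Type u) (_ : Group F) (_ : Finite F) (C : Subgroup F), Cfsg.IsFrobeniusComplement C ∧ Nonempty (H ≃* C)) := by
  have hH := H6.coprime_index_of_TI hTI hHall
  have hle : H ≤ Subgroup.normalizer (H : Set G) := Subgroup.le_normalizer
  have hiff : (∃ K : Subgroup (Subgroup.normalizer (H : Set G)), K.Normal ∧
      K.IsComplement' (H.subgroupOf (Subgroup.normalizer (H : Set G)))) →
      (∃ N : Subgroup G, N.Normal ∧ N.IsComplement' H) := by
    rintro ⟨K, hKn, hK⟩
    have hKc : (Nat.card K).Coprime (Nat.card H) := by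
      rw [← hK.index_eq_card]; exact hHall.symm
    have hsub : (K.map (Subgroup.normalizer (H : Set G)).subtype).subgroupOf
        (Subgroup.normalizer (H : Set G)) = K :=
      Subgroup.comap_map_eq_self_of_injective (Subgroup.subtype_injective _) K
    obtain ⟨N, hN, -, h1, h2⟩ := H6.exists_normal_of_wielandt
      (Subgroup.map_subtype_le K) (by rw [hsub]; exact hKn) (fun g hg x hx hgx => by
        obtain ⟨⟨k, h⟩, hkh, -⟩ := (Subgroup.isComplement'_def.1 hK).existsUnique ⟨x, hx⟩
        have hc : Commute (k : Subgroup.normalizer (H : Set G)) h :=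
          L.commute_of_normal_of_inf_eq_bot hK.disjoint.eq_bot k.2 h.2
        have hh : ((h : Subgroup.normalizer (H : Set G)) : G) ∈ H := h.2
        have h3 := H9.mem_zpowers_mul_of_coprime' hc (Nat.Coprime.coprime_dvd_left
          (K.orderOf_dvd_natCard k.2) (Nat.Coprime.coprime_dvd_right (by
            rw [← Subgroup.orderOf_coe]; exact H.orderOf_dvd_natCard hh) hKc))
        simp only at hkh
        rw [hkh] at h3
        obtain ⟨i, hi⟩ := h3
        have h4 : x ^ i = h := congrArg Subtype.val hi
        have h5 : g * h * g⁻¹ ∈ Subgroup.normalizer (H : Set G) := by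
          rw [← h4, ← conj_zpow]; exact zpow_mem hgx i
        have h6 : (⟨_, h5⟩ : Subgroup.normalizer (H : Set G)) ∈
            H.subgroupOf (Subgroup.normalizer (H : Set G)) := by
          refine H8.mem_of_coprime_index ?_
          rw [← Subgroup.orderOf_coe, H6.orderOf_conj']
          exact Nat.Coprime.coprime_dvd_left (H.orderOf_dvd_natCard hh) hHall
        have h7 : ((h : Subgroup.normalizer (H : Set G)) : G) = 1 := hTI g hg _ hh h6
        refine ⟨k, k.2, ?_⟩
        have h8 : ((k : Subgroup.normalizer (H : Set G)) : G) * h = x := congrArg Subtype.val hkh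
        rw [h7, mul_one] at h8
        exact h8)
    refine ⟨N, hN, Subgroup.isComplement'_of_disjoint_and_mul_eq_univ ?_ ?_⟩
    · rw [Subgroup.disjoint_def]
      intro x hx1 hx2
      have h3 : x ∈ N ⊓ Subgroup.normalizer (H : Set G) := ⟨hx1, hle hx2⟩
      rw [h1] at h3
      obtain ⟨y, hy, rfl⟩ := h3
      exact congrArg Subtype.val (Subgroup.disjoint_def.1 hK.disjoint hy hx2)
    · rw [← Subgroup.normal_mul, ← Subgroup.coe_top]
      congr 1
      rw [eq_top_iff, ← h2, sup_le_iff]
      refine ⟨le_sup_left, fun x hx => ?_⟩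
      obtain ⟨⟨k, h⟩, hkh, -⟩ := (Subgroup.isComplement'_def.1 hK).existsUnique ⟨x, hx⟩
      have h8 : ((k : Subgroup.normalizer (H : Set G)) : G) * h = x := congrArg Subtype.val hkh
      rw [← h8]
      refine mul_mem (Subgroup.mem_sup_left ?_) (Subgroup.mem_sup_right h.2)
      have : ((k : Subgroup.normalizer (H : Set G)) : G) ∈ N ⊓ Subgroup.normalizer (H : Set G) :=
        h1 ▸ ⟨k, k.2, rfl⟩
      exact this.1
  refine ⟨⟨hiff, ?_⟩, fun hnn hK => ?_⟩
  · rintro ⟨N, hN, hNH⟩
    refine ⟨N.subgroupOf _, inferInstance,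
      Subgroup.isComplement'_of_disjoint_and_mul_eq_univ ?_ ?_⟩
    · rw [Subgroup.disjoint_def]
      intro x hx1 hx2
      exact Subtype.ext (Subgroup.disjoint_def.1 hNH.disjoint hx1 hx2)
    · rw [Set.eq_univ_iff_forall]
      intro x
      obtain ⟨⟨n, h⟩, hnh, -⟩ := (Subgroup.isComplement'_def.1 hNH).existsUnique (x : G)
      simp only at hnh
      have hn : (n : G) ∈ Subgroup.normalizer (H : Set G) := by
        rw [eq_mul_inv_of_mul_eq hnh]
        exact mul_mem x.2 (inv_mem (hle h.2))
      exact ⟨⟨n, hn⟩, n.2, ⟨h, hle h.2⟩, h.2, Subtype.ext hnh⟩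
  · obtain ⟨N, hN, hNH⟩ := hiff hK
    have hd : H ⊓ N = ⊥ := hNH.disjoint.symm.eq_bot
    obtain ⟨V, _, _, _, φ, hφ⟩ := H6.exists_isFrobAction_of_centralizer_le (H := H) (N := N)
      Subgroup.le_normalizer_of_normal (by rw [← hNH.index_eq_card]; exact hH)
      (fun h hh h1 => (inf_le_inf_left _ (H6.centralizer_le_of_TI hTI hh h1)).trans
        (H6.inf_normalizer_le_centralizer hd)) (fun h => hnn (by
          rw [← Subgroup.normalizer_eq_top_iff, eq_top_iff, ← hNH.sup_eq_top]
          exact sup_le (h.trans (Subgroup.centralizer_le_normalizer _)) hle))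
    haveI : Nontrivial H := (Subgroup.nontrivial_iff_ne_bot H).2 fun h => hnn (h ▸ inferInstance)
    exact ⟨V ⋊[φ] H, inferInstance, Finite.of_equiv _ SemidirectProduct.equivProd.symm, _,
      H9.frob_semidirect φ hφ, ⟨MonoidHom.ofInjective SemidirectProduct.inr_injective⟩⟩

end Cfsg.Agent.S4115
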