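import Cfsg.Statements.S4116
import Cfsg.Agent.H6.TIPartition
import Cfsg.Agent.H6.TIHall
import Cfsg.Agent.H7.ClassProd
import Cfsg.Agent.H6.ManyClasses
-- import your own Cfsg.Agent.* helpers here

set_option autoImplicit false
open Cfsg

namespace Cfsg.Agent.S4116

/-- Let G be a finite group with a subgroup H whose order is coprime to its index (a Hall subgroup) and which meets each of its conjugates by elements outside N_G(H) trivially. Then every subgroup of G whose order is divisible only by primes dividing the order of H lies in a conjugate of H. -/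
theorem result {G : Type*} [Group G] [Finite G] (H : Subgroup G)
    (hHall : (Nat.card H).Coprime H.index) (hTI : Cfsg.IsTISubset (H : Set G))
    (K : Subgroup G) (hK : ∀ q : ℕ, q.Prime → q ∣ Nat.card K → q ∣ Nat.card H) :
    ∃ g : G, K ≤ H.map (MulAut.conj g).toMonoidHom := by
  have hB : ∀ (a : G) (k x : K), x ≠ 1 → a⁻¹ * x * a ∈ H → a⁻¹ * (k * x * k⁻¹ : K) * a ∈ H →
      a⁻¹ * k * a ∈ H := by
    intro a k x hx h1 h2
    have h3 : a⁻¹ * k * a ∈ Subgroup.normalizer (H : Set G) :=
      H6.mem_normalizer_of_TI hTI h1 (fun h => hx (Subtype.ext (by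
        simpa [mul_assoc, inv_mul_eq_one] using h))) (by
        convert h2 using 1
        push_cast
        group)
    have h4 : (⟨_, h3⟩ : Subgroup.normalizer (H : Set G)) ∈
        H.subgroupOf (Subgroup.normalizer (H : Set G)) := by
      refine H8.mem_of_coprime_index (Nat.coprime_of_dvd fun q hq h5 h6 => ?_)
      rw [← Subgroup.orderOf_coe] at h5
      have h7 : orderOf (a⁻¹ * k * a) = orderOf (k : G) := by
        simpa using H6.orderOf_conj' a⁻¹ (k : G)
      have h8 := hK q hq ((h7 ▸ h5).trans (K.orderOf_dvd_natCard k.2))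
      exact hq.one_lt.ne' (Nat.eq_one_of_dvd_coprimes hHall h8
        (h6.trans (Subgroup.relIndex_dvd_index_of_le Subgroup.le_normalizer)))
    exact h4
  obtain ⟨g, hg⟩ := H6.exists_eq_top_of_partition
    (fun g : G => (H.map (MulAut.conj g).toMonoidHom).subgroupOf K) (fun k hk => by
      obtain ⟨q, hq, hd⟩ := Nat.exists_prime_and_dvd (n := orderOf k) (by simpa using hk)
      haveI := Fact.mk hq
      have h1 : orderOf (k ^ (orderOf k / q)) = q := orderOf_pow_orderOf_div (orderOf_pos k).ne' hd
      obtain ⟨g, hg⟩ := H7.exists_conj_mem_of_not_dvd_index (q := q) (k := 1)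
        (u := ((k ^ (orderOf k / q) : K) : G)) (by rw [Subgroup.orderOf_coe, h1, pow_one])
        (C := H) (fun h => hq.one_lt.ne' (Nat.eq_one_of_dvd_coprimes hHall
          (hK q hq (hd.trans (orderOf_dvd_natCard k))) h))
      refine ⟨g⁻¹, ?_⟩
      rw [Subgroup.mem_subgroupOf, H1.mem_map_conj]
      refine hB g⁻¹ k (k ^ (orderOf k / q)) (fun h => ?_) (by simpa using hg) ?_
      · rw [h, orderOf_one] at h1
        exact hq.one_lt.ne h1
      · rw [((Commute.refl k).pow_right _).eq, mul_inv_cancel_right]
        simpa using hg)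
    (fun a g h hh h1 hg => by
      rw [Subgroup.mem_subgroupOf, H1.mem_map_conj] at hh hg ⊢
      exact hB a g h h1 hh hg)
    (fun a b x hx ha hb y hy => by
      rw [Subgroup.mem_subgroupOf, H1.mem_map_conj] at ha hb hy ⊢
      have h3 : b⁻¹ * a ∈ Subgroup.normalizer (H : Set G) :=
        H6.mem_normalizer_of_TI hTI ha (fun h => hx (Subtype.ext (by
          simpa [mul_assoc, inv_mul_eq_one] using h))) (by
          convert hb using 1
          group)
      have := (Subgroup.mem_normalizer_iff.1 h3 _).1 hy
      convert this using 1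
      group)
    (fun a g => ⟨(g : G)⁻¹ * a, fun x => by
      rw [Subgroup.mem_subgroupOf, H1.mem_map_conj, Subgroup.mem_subgroupOf, H1.mem_map_conj]
      push_cast
      simp [mul_assoc]⟩)
  exact ⟨g, Subgroup.subgroupOf_eq_top.1 hg⟩

end Cfsg.Agent.S4116
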