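import Cfsg.Statements.S4117
import Cfsg.Agent.H6.ZAction
import Cfsg.Agent.H1.Semidirect
-- import your own Cfsg.Agent.* helpers here

set_option autoImplicit false
open Cfsg

namespace Cfsg.Agent.S4117

/-- Let A be a finite group acting on the finite group G by automorphisms with the orders of A and G coprime, and suppose every Sylow subgroup of G is cyclic. Then the fixed-point subgroup C_G(A) is a Hall subgroup of G (its order is coprime to its index), the subgroup [G, A] generated by the elements g⁻¹·a(g) is cyclic and normal with [G, A] ∩ C_G(A) = 1 and [G, A]·C_G(A) = G. -/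
theorem result {G A : Type*} [Group G] [Finite G] [Group A] [Finite A]
    [MulDistribMulAction A G] (hcop : (Nat.card A).Coprime (Nat.card G))
    (hcyc : ∀ (p : ℕ) [Fact p.Prime] (P : Sylow p G), IsCyclic (P : Subgroup G)) :
    (Nat.card (MulAction.fixedPoints A G : Set G)).Coprime (Nat.card G / Nat.card (MulAction.fixedPoints A G : Set G)) ∧
    IsCyclic (Subgroup.closure {y : G | ∃ (a : A) (g : G), y = g⁻¹ * a • g}) ∧
    (Subgroup.closure {y : G | ∃ (a : A) (g : G), y = g⁻¹ * a • g}).Normal ∧
    (Subgroup.closure {y : G | ∃ (a : A) (g : G), y = g⁻¹ * a • g} : Set G) ∩ MulAction.fixedPoints A G = {1} ∧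
    Subgroup.closure {y : G | ∃ (a : A) (g : G), y = g⁻¹ * a • g} ⊔ Subgroup.closure (MulAction.fixedPoints A G) = ⊤ := by
  let φ : A →* MulAut G := MulDistribMulAction.toMulAut A G
  have hZ : IsZGroup G := ⟨fun p hp P => by have := Fact.mk hp; exact hcyc p P⟩
  have hZ' : IsZGroup (H1.sdL φ ⊤) := IsZGroup.of_injective (G' := G)
    (f := (Subgroup.subtype ⊤).comp ((⊤ : Subgroup G).equivMapOfInjective _
      SemidirectProduct.inl_injective).symm.toMonoidHom)
    (Subtype.val_injective.comp (MulEquiv.injective _))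
  have hC : (MulAction.fixedPoints A G : Set G) = H1.fixedSub φ ⊤ := by
    ext g
    rw [SetLike.mem_coe, H1.mem_fixedSub_top]
    rfl
  have hD : Subgroup.closure {y : G | ∃ (a : A) (g : G), y = g⁻¹ * a • g} = H1.commSub φ ⊤ ⊤ := by
    rw [H1.commSub]
    congr 1
    ext y
    simp [φ]
  have hN := H1.sdR_le_normalizer_top (φ := φ) ⊤
  have hc := H1.coprime_sd (φ := φ) hcop
  have h1 := H6.coprime_centralizer_commutator_of_isZGroup hN hc
  have h2 := H6.card_commutator_mul_card_of_isZGroup hN hc
  have h3 := H6.isCyclic_commutator_of_isZGroup hN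
  have h4 := H6.centralizer_inf_commutator_eq_bot_of_isZGroup hN hc
  have h5 := Subgroup.normalizer_commutator_ge_left (H1.sdL φ ⊤) (H1.sdR φ ⊤)
  rw [H1.commutator_sdL_sdR] at h1 h2 h3 h4 h5
  rw [H1.sdL_top_inf_centralizer, H1.card_sdL, H1.card_sdL] at h1 h2
  rw [H1.card_sdL_top] at h2
  rw [inf_comm, H1.sdL_inf_centralizer, H1.sdL_eq_bot] at h4
  rw [H1.sdL_le_normalizer_iff, top_le_iff, Subgroup.normalizer_eq_top_iff] at h5
  rw [hC, hD, Subgroup.closure_eq]
  refine ⟨?_, ?_, h5, ?_, H1.aut_commSub_sup_fixedSub φ hcop (Or.inr inferInstance)⟩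
  · change (Nat.card (H1.fixedSub φ ⊤)).Coprime (_ / Nat.card (H1.fixedSub φ ⊤))
    rwa [← h2, Nat.mul_div_cancel_left _ Nat.card_pos]
  · exact isCyclic_of_surjective (hH := h3) _ ((H1.commSub φ ⊤ ⊤).equivMapOfInjective _
      (SemidirectProduct.inl_injective (φ := φ))).symm.surjective
  · rw [← Subgroup.coe_inf, h4, Subgroup.coe_bot]

end Cfsg.Agent.S4117
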