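import Cfsg.Statements.S4120
import Cfsg.Agent.P11.Main
import Cfsg.Agent.H5.Kegel

set_option autoImplicit false
open Cfsg

namespace Cfsg.Agent.S4120

/-- Let the finite group A act faithfully on the finite group G by automorphisms, and suppose A is a Frobenius group with kernel F and complement H such that F fixes only the identity of G. If the fixed-point subgroup C_G(H) is nilpotent, then G is nilpotent. -/
theorem result {G A : Type*} [Group G] [Finite G] [Group A] [Finite A] [MulDistribMulAction A G] [FaithfulSMul A G]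
    (Fk Hc : Subgroup A) [Fk.Normal] (hHc : Cfsg.IsFrobeniusComplement Hc) (hker : Cfsg.frobeniusKernel Hc = (Fk : Set A))
    (hCF : ∀ g : G, (∀ f ∈ Fk, f • g = g) → g = 1) (hnil : Group.IsNilpotent (Subgroup.closure {g : G | ∀ h ∈ Hc, h • g = g})) : Group.IsNilpotent G := by
  have hF := H5.isNilpotent_frobeniusKernel hHc hker
  have hs : P11.SR Fk Hc := ⟨fun h _ f hf => Subgroup.Normal.conj_mem inferInstance f hf h,
    fun h hh h1 f hf hc =>
      H9.frob_eq_one_of_commute hHc hh h1 ((H9.frob_kernel_mem_iff hker).1 hf) hc⟩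
  refine P11.Hyp.nilpotent (φ := MulDistribMulAction.toMulAut A G) hF hs ⟨hCF, ?_⟩
  have e : Subgroup.closure {g : G | ∀ h ∈ Hc, h • g = g} =
      H1.fixedSub (MulDistribMulAction.toMulAut A G) Hc :=
    Subgroup.closure_eq (H1.fixedSub (MulDistribMulAction.toMulAut A G) Hc)
  rwa [e] at hnil

end Cfsg.Agent.S4120
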