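import Cfsg.Statements.S4125
import Cfsg.Agent.H6.PowOrbit2
import Cfsg.Agent.S3972
import Cfsg.Agent.L.PiSep
import Cfsg.Agent.H7.Ito
import Cfsg.Agent.H7.Comm
import Cfsg.Agent.H7.ClassProd
import Cfsg.Agent.H6.ClassLemmas
import Cfsg.Agent.H6.Kazarin
import Cfsg.Agent.H1.Abelian
import Cfsg.Agent.H1.Solv
import Cfsg.Agent.H8.PComplement
-- import your own Cfsg.Agent.* helpers here

set_option autoImplicit false
open Cfsg

namespace Cfsg.Agent.S4125

open Subgroup H7
open scoped commutatorElement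

variable {G : Type*} [Group G] [Finite G] {q : ℕ} [hq : Fact q.Prime]

omit hq in
theorem pow_of_commute {x y : G} {k l : ℕ} (hq : q.Prime) (hx : orderOf x = q ^ k)
    (hy : orderOf y = q ^ l) (h : Commute x y) : ∃ j, orderOf (x * y) = q ^ j :=
  ((Nat.dvd_prime_pow hq).1 (h.orderOf_mul_dvd_mul_orderOf.trans
    (by rw [hx, hy, ← pow_add]))).imp fun _ h => h.2

theorem mem_center_of {x w : G} {k s b : ℕ} (hx : orderOf x = q ^ k) (hs : s.Prime) (hsq : s ≠ q)
    (hw : cs w = s ^ b) (h1 : (cs x).Coprime (cs w)) (h2 : (cs x).Coprime (cs (x * w))) :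
    x ∈ center G := by
  obtain ⟨M, hM, h3, h4⟩ := exists_normal_classStab w
  have h5 : M ≤ centralizer ({x} : Set G) :=
    le_of_normal_of_coprime_index (Nat.Coprime.coprime_dvd_left h3 h1.symm)
  rw [mem_center_iff]
  intro g
  have h6 := h4 x h1 h2 g
  have h7 := Commute.orderOf_mul_eq_mul_orderOf_of_coprime
    (mem_centralizer_singleton_iff.1 (h5 h6)).symm (Nat.Coprime.coprime_dvd_right
      ((M.orderOf_dvd_natCard h6).trans h3) (by
        rw [hx, hw]; exact ((Nat.coprime_primes hq.1 hs).2 hsq.symm).pow _ _))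
  rw [mul_inv_cancel_left, show orderOf (g * x * g⁻¹) = orderOf x from
    (MulAut.conj g).orderOf_eq x] at h7
  have h8 : x⁻¹ * (g * x * g⁻¹) = 1 := orderOf_eq_one_iff.1
    (Nat.eq_of_mul_eq_mul_left (orderOf_pos x) (by rw [← h7, mul_one]))
  exact mul_inv_eq_iff_eq_mul.1 (inv_mul_eq_one.1 h8).symm

theorem mem_pCore_of {x w : G} {k b : ℕ} (hx : orderOf x = q ^ k)
    (hw : cs w = q ^ b) (h1 : (cs x).Coprime (cs w)) (h2 : (cs x).Coprime (cs (x * w))) :
    x ∈ pCore q G := by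
  obtain ⟨M, hM, h3, h4⟩ := exists_normal_classStab w
  obtain ⟨j, -, hj⟩ := (Nat.dvd_prime_pow hq.1).1 (hw ▸ h3)
  refine L.le_pCore (N := zpowers x ⊔ M) ⟨fun y hy g => ?_⟩
    ((IsPGroup.of_card (by rw [Nat.card_zpowers, hx])).to_sup_of_normal_right
      (IsPGroup.of_card hj)) (mem_sup_left (mem_zpowers x))
  refine (sup_le (zpowers_le.2 ?_) fun m hm => mem_sup_right (hM.conj_mem m hm g) :
    zpowers x ⊔ M ≤ (zpowers x ⊔ M).comap (MulAut.conj g).toMonoidHom) hy
  simpa using mul_mem (mem_sup_left (mem_zpowers x)) (mem_sup_right (h4 x h1 h2 g))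

theorem sylow_le_centralizer (Q : Sylow q G) (E : Subgroup G) (hE : ¬ (Q : Subgroup G) ≤ E)
    (h : ∀ u ∈ (Q : Subgroup G), u ∉ E → ∃ c, cs u = q ^ c) {s : ℕ} [hs : Fact s.Prime]
    (hsq : s ≠ q) (R : Sylow s G) : (Q : Subgroup G) ≤ centralizer ((R : Subgroup G) : Set G) := by
  by_contra hcon
  rw [← subgroupOf_eq_top] at hcon hE
  haveI := Q.isPGroup'.isNilpotent
  obtain ⟨M, hM, h1⟩ := (eq_top_or_exists_le_coatom _).resolve_left hcon
  haveI := NormalizerCondition.normal_of_coatom M Group.normalizerCondition_of_isNilpotent hM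
  refine hM.1 (eq_top_of_compl_subset hE fun u hu => ?_)
  obtain ⟨c, hc⟩ := h u u.2 hu
  obtain ⟨g, hg⟩ := H7.exists_conj_mem_centralizer_sylow R (x := u) (by
    rw [show (centralizer ({(u : G)} : Set G)).index = q ^ c from hc]
    exact fun h2 => hsq ((Nat.prime_dvd_prime_iff_eq hs.1 hq.1).1 (hs.1.dvd_of_dvd_pow h2)))
  obtain ⟨w, hw, h2⟩ := H9.exists_sylow_conj_eq hc Q g⁻¹
  rw [inv_inv] at h2
  have h3 : (⟨w, hw⟩ : (Q : Subgroup G)) * u * (⟨w, hw⟩ : (Q : Subgroup G))⁻¹ ∈ M :=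
    h1 (mem_subgroupOf.2 (by simpa [h2] using hg))
  simpa [mul_assoc] using Normal.conj_mem' inferInstance _ h3 ⟨w, hw⟩

theorem sylow_eq_pCore (Q : Sylow q G) (h : ∀ x : G, ∀ k, orderOf x = q ^ k → x ∈ pCore q G) :
    (Q : Subgroup G) = pCore q G := by
  refine le_antisymm (fun x hx => ?_) (L.pCore_le_sylow Q)
  obtain ⟨k, hk⟩ := H8.exists_orderOf_eq_pow_of_mem Q.isPGroup' hx
  exact h x k hk

theorem exists_prime (hB : ∀ x : G, (∃ k : ℕ, orderOf x = q ^ k) →
    ∃ (r : ℕ) (a : ℕ), r.Prime ∧ cs x = r ^ a) :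
    ∃ p : ℕ, p.Prime ∧ ∀ x : G, (∃ k : ℕ, orderOf x = q ^ k) → ∃ a, cs x = p ^ a := by
  have hc : ∀ x : G, x ∈ center G → ∀ p : ℕ, ∃ a, cs x = p ^ a := fun x hx p =>
    ⟨0, H9.index_centralizer_eq_one_iff.2 hx⟩
  have hcop : ∀ {r s : ℕ} (a b : ℕ), r.Prime → s.Prime → r ≠ s → (r ^ a).Coprime (s ^ b) :=
    fun a b hr hs h => ((Nat.coprime_primes hr hs).2 h).pow a b
  have hnd : ∀ {s : ℕ} (b : ℕ), s.Prime → s ≠ q → ¬ q ∣ s ^ b := fun b hs h h1 =>
    h ((Nat.prime_dvd_prime_iff_eq hq.1 hs).1 (hq.1.dvd_of_dvd_pow h1)).symm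
  have hcm : ∀ x y : G, ∀ k, orderOf x = q ^ k → ∀ r s a b : ℕ, r.Prime → s.Prime → r ≠ s →
      s ≠ q → cs x = r ^ a → cs y = s ^ b → Commute x y := by
    intro x y k hx r s a b hr hs h1 h2 h3 h4
    simpa using commute_conj_of_primePow hx (h4 ▸ hnd b hs h2)
      (by rw [h3, h4]; exact hcop a b hr hs h1) 1 1
  by_cases h : ∃ x : G, (∃ k : ℕ, orderOf x = q ^ k) ∧ x ∉ center G ∧ ∃ a, cs x = q ^ a
  · obtain ⟨x, ⟨k, hk⟩, hxc, a, ha⟩ := h
    refine ⟨q, hq.1, fun y hy => ?_⟩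
    obtain ⟨Q⟩ : Nonempty (Sylow q G) := inferInstance
    have h1 := sylow_eq_pCore Q fun y l hl => by
      obtain ⟨s, b, hs, hb⟩ := hB y ⟨l, hl⟩
      by_cases hsq : s = q
      · exact H9.mem_pCore_of_index_centralizer_eq_pow hl (hsq ▸ hb)
      have h1 := hcm x y k hk q s a b hq.1 hs (Ne.symm hsq) hsq ha hb
      obtain ⟨t, c, ht, hc⟩ := hB _ (pow_of_commute hq.1 hk hl h1)
      have h2 : (cs x).Coprime (cs y) := by rw [ha, hb]; exact hcop a b hq.1 hs (Ne.symm hsq)
      by_cases htq : t = q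
      · refine mem_pCore_of hl ha h2.symm ?_
        rw [← h1.eq, hb, hc, htq]
        exact hcop _ _ hs hq.1 hsq
      · refine (hxc (mem_center_of hk hs hsq hb h2 ?_)).elim
        rw [ha, hc]
        exact hcop _ _ hq.1 ht (Ne.symm htq)
    haveI : (Q : Subgroup G).Normal := h1 ▸ inferInstance
    have h2 : ∀ u : G, ¬ q ∣ cs u → u ∈ centralizer ((Q : Subgroup G) : Set G) := fun u hu => by
      obtain ⟨Q', hQ'⟩ := H9.not_dvd_index_iff_exists_sylow_le.1 hu
      haveI := Q.unique_of_normal inferInstance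
      rw [Subsingleton.elim Q' Q] at hQ'
      exact H1.mem_centralizer_iff_le.2 hQ'
    obtain ⟨s, b, hs, hb⟩ := hB y hy
    by_cases hsq : s = q
    · exact ⟨b, hsq ▸ hb⟩
    haveI := Fact.mk hs
    obtain ⟨R⟩ : Nonempty (Sylow s G) := inferInstance
    have h3 := sylow_le_centralizer Q (centralizer ((Q : Subgroup G) : Set G)) (fun h3 => hxc (by
      have h4 := h3 (h1 ▸ H9.mem_pCore_of_index_centralizer_eq_pow hk ha)
      rw [← H9.index_centralizer_eq_one_iff]
      refine Nat.eq_one_of_dvd_coprimes (k := cs x) (a := q ^ a) (b := (Q : Subgroup G).index)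
        ((hq.1.coprime_iff_not_dvd.2 Q.not_dvd_index).pow_left a) ha.dvd
        (index_dvd_of_le (H1.mem_centralizer_iff_le.1 h4)))) (fun u hu huc => by
      obtain ⟨t, c, ht, hc⟩ := hB u (H8.exists_orderOf_eq_pow_of_mem Q.isPGroup' hu)
      by_cases htq : t = q
      · exact ⟨c, htq ▸ hc⟩
      · exact (huc (h2 u (hc ▸ hnd c ht htq))).elim) hsq R
    obtain ⟨l, hl⟩ := hy
    have h4 : y ∈ (Q : Subgroup G) := H9.mem_sylow_of_mem_normalizer Q hl
      (le_normalizer_of_normal (mem_top y))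
    refine ⟨0, Nat.eq_one_of_dvd_coprimes (k := cs y) (a := s ^ b) (b := (R : Subgroup G).index)
      ((hs.coprime_iff_not_dvd.2 R.not_dvd_index).pow_left b) hb.dvd
      (index_dvd_of_le (H1.mem_centralizer_iff_le.1 (h3 h4)))⟩
  push Not at h
  by_cases h' : ∃ x : G, (∃ k : ℕ, orderOf x = q ^ k) ∧ x ∉ center G
  · obtain ⟨x, ⟨k, hk⟩, hxc⟩ := h'
    obtain ⟨r, a, hr, ha⟩ := hB x ⟨k, hk⟩
    have hrq : r ≠ q := fun h1 => h x ⟨k, hk⟩ hxc a (h1 ▸ ha)
    refine ⟨r, hr, fun y ⟨l, hl⟩ => ?_⟩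
    by_cases hyc : y ∈ center G
    · exact hc y hyc r
    obtain ⟨s, b, hs, hb⟩ := hB y ⟨l, hl⟩
    have hsq : s ≠ q := fun h1 => h y ⟨l, hl⟩ hyc b (h1 ▸ hb)
    by_cases hrs : r = s
    · exact ⟨b, hrs ▸ hb⟩
    have h1 := hcm x y k hk r s a b hr hs hrs hsq ha hb
    obtain ⟨t, c, ht, hc⟩ := hB _ (pow_of_commute hq.1 hk hl h1)
    have h2 : (cs x).Coprime (cs y) := by rw [ha, hb]; exact hcop a b hr hs hrs
    by_cases htr : t = r
    · refine (hyc (mem_center_of hl hr hrq ha h2.symm ?_)).elim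
      rw [← h1.eq, hb, hc, htr]
      exact hcop _ _ hs hr (Ne.symm hrs)
    · refine (hxc (mem_center_of hk hs hsq hb h2 ?_)).elim
      rw [ha, hc]
      exact hcop _ _ hr ht (Ne.symm htr)
  · push Not at h'
    exact ⟨q, hq.1, fun x hx => hc x (h' x hx) q⟩

theorem isSolvable_of_normal {p : ℕ} (hp : p.Prime) (hpq : p ≠ q) (Q : Sylow q G)
    [hn : (Q : Subgroup G).Normal] (hab : IsMulCommutative (Q : Subgroup G))
    (hO : pPrimeCore q G = ⊥) (h : ∀ x ∈ (Q : Subgroup G), ∃ a, cs x = p ^ a) :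
    Group.IsSolvable G := by
  have hcm : ∀ a ∈ (Q : Subgroup G), ∀ b ∈ (Q : Subgroup G), a * b = b * a := fun a ha b hb =>
    congrArg Subtype.val (mul_comm' (⟨a, ha⟩ : (Q : Subgroup G)) ⟨b, hb⟩)
  haveI := H1.isSolvable_of_isMulCommutative hab
  have hC := L.centralizer_pCore_le hq.1 ((L.isPSolvable_iff_piSep hq.1).2
    (L.PiSep.of_normal_of_quotient (Q : Subgroup G) (L.piSep_of_isSolvable _)
      (L.piSep_of_isPiNum_compl ((L.isPiNum_compl_singleton_iff hq.1).2
        (hq.1.coprime_iff_not_dvd.2 Q.not_dvd_index).symm)))) hO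
  rw [L.pCore_eq_of_sylow_normal Q hn] at hC
  let V : Subgroup G :=
    { carrier := {v | v ∈ (Q : Subgroup G) ∧ v ^ q = 1}
      one_mem' := ⟨one_mem _, one_pow _⟩
      mul_mem' := fun {a b} ha hb => ⟨mul_mem ha.1 hb.1, by
        rw [Commute.mul_pow (hcm a ha.1 b hb.1), ha.2, hb.2, one_mul]⟩
      inv_mem' := fun {a} ha => ⟨inv_mem ha.1, by rw [inv_pow, ha.2, inv_one]⟩ }
  haveI : V.Normal := ⟨fun v hv g => ⟨hn.conj_mem v hv.1 g, by
    rw [conj_pow, hv.2, mul_one, mul_inv_cancel]⟩⟩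
  have hV : ∀ a b : V, a * b = b * a := fun a b => Subtype.ext (hcm a a.2.1 b b.2.1)
  letI : CommGroup V := { mul_comm := hV }
  let φ : G ⧸ (Q : Subgroup G) →* MulAut V := QuotientGroup.lift _ MulAut.conjNormal fun x hx =>
    MulEquiv.ext fun v => Subtype.ext (mul_inv_eq_iff_eq_mul.2 (hcm x hx v v.2.1))
  refine L.isSolvable_of_normal_of_quotient (Q : Subgroup G)
    (H1.isSolvable_of_isMulCommutative hab) (H6.isSolvable_of_forall_perfect fun D hD => ?_)
  have h1 := H6.le_ker_of_orbits (fun p m hp hm hΩ G h1 h2 g hg =>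
    (S3972.result p m hp hm hΩ G h1 h2 g hg).2) hp hq.1 hpq φ (fun v => Subtype.ext v.2.2)
    Q.not_dvd_index (fun v => by
      obtain ⟨a, ha⟩ := h v v.2.1
      refine ⟨a, ?_⟩
      rw [← ha, ← index_comap_of_surjective _ (QuotientGroup.mk'_surjective (Q : Subgroup G)), cs]
      congr 1
      ext g
      rw [mem_centralizer_singleton_iff, ← mul_inv_eq_iff_eq_mul]
      exact Subtype.ext_iff) hD
  refine eq_bot_iff.2 fun d hd => ?_
  obtain ⟨y, hy, rfl⟩ := H9.exists_coprime_map_eq (QuotientGroup.mk'_surjective (Q : Subgroup G))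
    hq.1 (y := d) (Nat.Coprime.coprime_dvd_left (orderOf_dvd_natCard d)
      (hq.1.coprime_iff_not_dvd.2 Q.not_dvd_index).symm)
  refine (QuotientGroup.eq_one_iff y).2 (hC (zpowers_le.1
    (H1.le_centralizer_of_abelian_of_prime_order hab le_normalizer_of_normal
      (H1.coprime_card_of_isPGroup Q.isPGroup' (by rwa [Nat.card_zpowers])) fun v hv h2 => ?_)))
  obtain ⟨k, hk⟩ := H8.exists_orderOf_eq_pow_of_mem Q.isPGroup' hv
  have h3 : orderOf v = q := (Nat.prime_dvd_prime_iff_eq h2 hq.1).1 (h2.dvd_of_dvd_pow hk.dvd)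
  rw [H1.centralizer_zpowers', mem_centralizer_singleton_iff]
  exact (mul_inv_eq_iff_eq_mul.1 (congrArg Subtype.val (DFunLike.congr_fun (h1 hd)
    (⟨v, hv, h3 ▸ pow_orderOf_eq_one v⟩ : V)))).symm

/-- Let G be a finite group and q a prime dividing its order such that every element of q-power order has a conjugacy class of prime-power size. Then G is q-solvable of q-length 1: there are normal subgroups K ≤ L of G with K of order prime to q, L/K a q-group and L of index prime to q. Moreover there is a prime p such that every element of q-power order has a class of p-power size (one prime serving for all of them), and for a Sylow q-subgroup Q: if p = q then Q is normal with a normal complement (a direct factor), while if p ≠ q then Q is abelian, the product of Q with the largest normal p-subgroup O_p(G) is normal in G, and G/O_{q'}(G) is solvable, where O_{q'}(G) is the largest normal subgroup of order prime to q. -/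
theorem result {G : Type*} [Group G] [Finite G] (q : ℕ) [Fact q.Prime] (hq : q ∣ Nat.card G)
    (hBaer : ∀ x : G, (∃ k : ℕ, orderOf x = q ^ k) → ∃ (r : ℕ) (a : ℕ), r.Prime ∧ (Subgroup.centralizer ({x} : Set G)).index = r ^ a) (Q : Sylow q G) :
    (∃ K L : Subgroup G, K.Normal ∧ L.Normal ∧ K ≤ L ∧ (Nat.card K).Coprime q ∧ (∃ m : ℕ, K.relIndex L = q ^ m) ∧ L.index.Coprime q) ∧
    ∃ p : ℕ, p.Prime ∧ (∀ x : G, (∃ k : ℕ, orderOf x = q ^ k) → ∃ a : ℕ, (Subgroup.centralizer ({x} : Set G)).index = p ^ a) ∧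
      (p = q → (Q : Subgroup G).Normal ∧ ∃ N : Subgroup G, N.Normal ∧ N.IsComplement' (Q : Subgroup G)) ∧
      (p ≠ q → IsMulCommutative (Q : Subgroup G) ∧ (Cfsg.pCore p G ⊔ (Q : Subgroup G)).Normal ∧
        ∀ _h : (Cfsg.pPrimeCore q G).Normal, Group.IsSolvable (G ⧸ Cfsg.pPrimeCore q G)) := by
  have hq' : q.Prime := Fact.out
  obtain ⟨p, hp, h⟩ := exists_prime hBaer
  have hi : (Q : Subgroup G).index.Coprime q := (hq'.coprime_iff_not_dvd.2 Q.not_dvd_index).symm
  have k1 : p = q → (Q : Subgroup G).Normal ∧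
      ∃ N : Subgroup G, N.Normal ∧ N.IsComplement' (Q : Subgroup G) := by
    rintro rfl
    have h1 := sylow_eq_pCore Q fun x k hk => by
      obtain ⟨a, ha⟩ := h x ⟨k, hk⟩
      exact H9.mem_pCore_of_index_centralizer_eq_pow hk ha
    haveI : (Q : Subgroup G).Normal := h1 ▸ inferInstance
    have h2 := H6.le_centralizer_pResidual_of_class (Q : Subgroup G) Q.isPGroup' fun x hx _ =>
      h x (H8.exists_orderOf_eq_pow_of_mem Q.isPGroup' hx)
    obtain ⟨P, N, h3, h4⟩ := H6.hasNPC_of_coprime_class (G := G) (p := p) fun y hy h3 =>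
      Q.not_dvd_index (h3.trans (index_dvd_of_le (H1.mem_centralizer_iff_le.1
        (le_centralizer_iff.1 h2 (H8.mem_pResidual_of_coprime hy)))))
    haveI := Q.unique_of_normal inferInstance
    exact ⟨inferInstance, N, h3, Subsingleton.elim P Q ▸ h4⟩
  have k2 : p ≠ q → IsMulCommutative (Q : Subgroup G) ∧
      (Cfsg.pCore p G ⊔ (Q : Subgroup G)).Normal := by
    intro hpq
    haveI := Fact.mk hp
    have h1 : ∀ x ∈ (Q : Subgroup G), ∃ a, cs x = p ^ a := fun x hx =>
      h x (H8.exists_orderOf_eq_pow_of_mem Q.isPGroup' hx)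
    constructor
    · refine ⟨⟨fun a b => Subtype.ext ?_⟩⟩
      obtain ⟨i, hi⟩ := h1 a a.2
      obtain ⟨j, hj⟩ := h1 b b.2
      obtain ⟨i', -, hi'⟩ := (Nat.dvd_prime_pow hp).1
        ((H9.index_centralizer_mk_dvd (pCore p G) (a : G)).trans hi.dvd)
      obtain ⟨j', -, hj'⟩ := (Nat.dvd_prime_pow hp).1
        ((H9.index_centralizer_mk_dvd (pCore p G) (b : G)).trans hj.dvd)
      have h2 := (H6.mem_fitting_inf_centralizer_of_index_centralizer hp hj'
        (L.pCore_quotient_pCore hp)).2 _ (H6.mem_fitting_inf_centralizer_of_index_centralizer hp hi'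
        (L.pCore_quotient_pCore hp)).1
      rw [coe_mul, coe_mul, ← commutatorElement_eq_one_iff_mul_comm, ← mem_bot,
        ← (IsPGroup.disjoint_of_ne p q hpq _ _ (L.isPGroup_pCore p) Q.isPGroup').eq_bot]
      exact ⟨(commutatorElement_mem_iff_commute _ _ _).2 h2, (⁅a, b⁆).2⟩
    · have h2 := sylow_eq_pCore (Q.mapSurjective (QuotientGroup.mk'_surjective (pCore p G)))
        fun x k hk => by
        obtain ⟨y, hy, rfl⟩ := H9.exists_pElement_map_eq (QuotientGroup.mk'_surjective (pCore p G))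
          hq' hk
        obtain ⟨i, hi⟩ := h y hy
        obtain ⟨i', -, hi'⟩ := (Nat.dvd_prime_pow hp).1
          ((H9.index_centralizer_mk_dvd (pCore p G) y).trans hi.dvd)
        exact L.mem_pCore_of_mem_fittingSubgroup hq' (hk ▸ pow_orderOf_eq_one _)
          (H6.mem_fitting_inf_centralizer_of_index_centralizer hp hi'
            (L.pCore_quotient_pCore hp)).1
      have h3 := congrArg (comap (QuotientGroup.mk' (pCore p G))) h2
      rw [Sylow.coe_mapSurjective, comap_map_eq, QuotientGroup.ker_mk', sup_comm] at h3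
      rw [h3]
      infer_instance
  refine ⟨?_, p, hp, h, k1, fun hpq => ⟨(k2 hpq).1, (k2 hpq).2, fun _ => ?_⟩⟩
  · obtain ⟨m, hm⟩ := Q.isPGroup'.exists_card_eq
    by_cases hpq : p = q
    · exact ⟨⊥, Q, inferInstance, (k1 hpq).1, bot_le, by simp, ⟨m, by rwa [relIndex_bot_left]⟩, hi⟩
    · haveI := Fact.mk hp
      refine ⟨pCore p G, pCore p G ⊔ Q, inferInstance, (k2 hpq).2, le_sup_left, ?_, ?_,
        hi.coprime_dvd_left (index_dvd_of_le le_sup_right)⟩
      · exact (H1.coprime_card_of_isPGroup (L.isPGroup_pCore p)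
          ((Nat.coprime_primes hq' hp).2 (Ne.symm hpq))).symm
      · rw [relIndex_sup_left]
        exact ((Nat.dvd_prime_pow hq').1 (hm ▸ relIndex_dvd_card _ _)).imp fun _ h => h.2
  · set f := QuotientGroup.mk' (pPrimeCore q G) with hf
    have hf' : Function.Surjective f := QuotientGroup.mk'_surjective _
    haveI := (k2 hpq).1
    haveI : ((Q.mapSurjective hf' : Sylow q _) : Subgroup (G ⧸ pPrimeCore q G)).Normal := by
      have := (k2 hpq).2.map f hf'
      rwa [Subgroup.map_sup, (Subgroup.map_eq_bot_iff _).2 (by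
        rw [hf, QuotientGroup.ker_mk']; exact L.pCore_le_pPrimeCore hp hq' hpq), bot_sup_eq] at this
    refine isSolvable_of_normal hp hpq (Q.mapSurjective hf') (by
      rw [Sylow.coe_mapSurjective]; infer_instance) (L.pPrimeCore_quotient_pPrimeCore hq') ?_
    rintro _ ⟨x, hx, rfl⟩
    obtain ⟨a, ha⟩ := h x (H8.exists_orderOf_eq_pow_of_mem Q.isPGroup' hx)
    exact ((Nat.dvd_prime_pow hp).1 ((H9.index_centralizer_map_dvd hf' x).trans ha.dvd)).imp fun _ h => h.2

end Cfsg.Agent.S4125
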