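import Cfsg.Statements.S4126
import Cfsg.Agent.H6.ClassLemmas
-- import your own Cfsg.Agent.* helpers here

set_option autoImplicit false
open Cfsg

namespace Cfsg.Agent.S4126

/-- Let G be a finite group and p a prime. Suppose every element of order p, and when p = 2 also every element of order 4, has a conjugacy class of p-power size. Then G has a normal p-complement. -/
theorem result {G : Type*} [Group G] [Finite G] (p : ℕ) [Fact p.Prime]
    (h : ∀ x : G, (orderOf x = p ∨ (p = 2 ∧ orderOf x = 4)) → ∃ a : ℕ, (Subgroup.centralizer ({x} : Set G)).index = p ^ a) :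
    Cfsg.HasNormalPComplement p G := by
  have hp : p.Prime := Fact.out
  have hcl : ∀ x : G, (x ^ p = 1 ∨ (p = 2 ∧ x ^ 4 = 1)) → (∃ k, orderOf x = p ^ k) ∧
      ∃ a : ℕ, (Subgroup.centralizer ({x} : Set G)).index = p ^ a := by
    intro x hx
    by_cases h1 : x = 1
    · exact ⟨⟨0, by simp [h1]⟩, 0, H9.index_centralizer_eq_one_iff.2 (h1 ▸ one_mem _)⟩
    by_cases h2 : x ^ p = 1
    · have := orderOf_eq_prime h2 h1
      exact ⟨⟨1, by rw [this, pow_one]⟩, h x (Or.inl this)⟩
    obtain ⟨rfl, h3⟩ := hx.resolve_left h2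
    have : orderOf x = 2 ^ (1 + 1) := orderOf_eq_prime_pow (by simpa using h2) h3
    exact ⟨⟨_, this⟩, h x (Or.inr ⟨rfl, this⟩)⟩
  have h1 := H6.le_centralizer_pResidual_of_class (pCore p G) (L.isPGroup_pCore p)
    (fun x _ hx => (hcl x hx).2)
  by_contra hcon
  obtain ⟨H, P, g, q, k, -, hI⟩ := H8.exists_subgroup_itoData hcon
  apply hI.not_mem
  intro x hx
  have h2 : (x : G) ^ p = 1 ∨ (p = 2 ∧ (x : G) ^ 4 = 1) := by
    by_cases hp2 : p = 2
    · exact Or.inr ⟨hp2, congrArg Subtype.val (hI.pow_four_eq_one hp2 hx)⟩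
    · exact Or.inl (congrArg Subtype.val (hI.pow_eq_one_of_odd hp2 hx))
  obtain ⟨⟨j, hj⟩, a, ha⟩ := hcl x h2
  have h3 := h1 (H9.mem_pCore_of_index_centralizer_eq_pow hj ha) g
    (H8.mem_pResidual_of_coprime (by rw [Subgroup.orderOf_coe]; exact hI.coprime))
  exact Subtype.ext h3.symm

end Cfsg.Agent.S4126
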