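import Cfsg.Statements.S4127
import Cfsg.Agent.H6.ClassLemmas
-- import your own Cfsg.Agent.* helpers here

set_option autoImplicit false
open Cfsg

namespace Cfsg.Agent.S4127

/-- Let G be a finite group, p a prime and p^a the largest power of p dividing the size of any conjugacy class of G. If some element of p-power order has a conjugacy class of size exactly p^a, then G has a normal p-complement. -/
theorem result {G : Type*} [Group G] [Finite G] (p : ℕ) [Fact p.Prime]
    (a : ℕ) (hmax : ∀ y : G, ¬ p ^ (a + 1) ∣ (Subgroup.centralizer ({y} : Set G)).index)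
    (hx : ∃ x : G, (∃ k : ℕ, orderOf x = p ^ k) ∧ (Subgroup.centralizer ({x} : Set G)).index = p ^ a) :
    Cfsg.HasNormalPComplement p G := by
  have hp : p.Prime := Fact.out
  obtain ⟨x, ⟨k, hk⟩, hx⟩ := hx
  set C := Subgroup.centralizer ({x} : Set G) with hC
  have hCn : HasNormalPComplement p C := by
    refine H6.hasNPC_of_coprime_class fun y hy hd => hmax (x * y) ?_
    rw [← Subgroup.orderOf_coe] at hy
    rw [H9.centralizer_mul_of_coprime (Subgroup.mem_centralizer_singleton_iff.1 y.2).symm
      (by rw [hk]; exact hy.symm.pow_left k), ← hC,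
      ← Subgroup.relIndex_mul_index (inf_le_left (b := Subgroup.centralizer ({(y : G)} : Set G))),
      hx, pow_succ', Subgroup.inf_relIndex_left]
    rw [H9.centralizer_coe_subgroupOf] at hd
    exact Nat.mul_dvd_mul_right hd _
  have hxV : x ∈ pCore p G := H9.mem_pCore_of_index_centralizer_eq_pow hk hx
  set D := Subgroup.centralizer (pCore p G : Set G) with hD
  have hDC : D ≤ C := Subgroup.centralizer_le (Set.singleton_subset_iff.2 hxV)
  refine H8.hasNPC_of_normal_hasNPC D (H8.hasNPC_of_le hCn hDC) ?_
  rw [H8.isPGroup_quotient_iff_index]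
  refine ⟨_, Nat.eq_prime_pow_of_unique_prime_dvd Subgroup.index_ne_zero_of_finite ?_⟩
  intro q hq hd
  by_contra hqp
  haveI := Fact.mk hq
  obtain ⟨Q, hQ⟩ := (H9.not_dvd_index_iff_exists_sylow_le (p := q) (H := C)).1 (fun h => hqp
    ((Nat.prime_dvd_prime_iff_eq hq hp).1 (hq.dvd_of_dvd_pow (hx ▸ h))))
  have hcop : (Nat.card (Q : Subgroup G)).Coprime p := by
    obtain ⟨j, hj⟩ := IsPGroup.iff_card.1 Q.isPGroup'
    rw [hj]
    exact ((Nat.coprime_primes hq hp).2 hqp).pow_left j
  have hQD : (Q : Subgroup G) ≤ D := by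
    refine H1.pxq_lemma (P := Subgroup.zpowers x) (H8.isPGroup_zpowers_of_orderOf hk)
      (L.isPGroup_pCore p) Subgroup.le_normalizer_of_normal Subgroup.le_normalizer_of_normal
      (Subgroup.zpowers_le.2 fun y hy => Subgroup.mem_centralizer_singleton_iff.1 (hQ hy))
      (H1.coprime_card_of_isPGroup (L.isPGroup_pCore p) hcop) ?_
    refine Subgroup.le_centralizer_iff.1 fun g hg => ?_
    have h1 : Subgroup.centralizer (Subgroup.zpowers x : Set G) = C := by
      refine le_antisymm (Subgroup.centralizer_le
        (Set.singleton_subset_iff.2 (Subgroup.mem_zpowers x))) ?_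
      exact Subgroup.le_centralizer_iff.1 (Subgroup.zpowers_le.2 fun y hy =>
        Subgroup.mem_centralizer_singleton_iff.1 hy)
    rw [h1]
    exact H8.mem_centralizer_of_hasNPC_subgroup hCn ((L.isPGroup_pCore p).to_le inf_le_left)
      inf_le_right (hQ hg) (H1.le_normalizer_inf Subgroup.le_normalizer_of_normal
        Subgroup.le_normalizer (hQ hg))
      (Nat.Coprime.coprime_dvd_left ((Q : Subgroup G).orderOf_dvd_natCard hg) hcop)
  exact Q.not_dvd_index (hd.trans (Subgroup.index_dvd_of_le hQD))

end Cfsg.Agent.S4127
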