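import Cfsg.Statements.S4130
import Cfsg.Agent.H6.SqFree
import Cfsg.Agent.H6.FourClass
import Cfsg.Agent.FT.Final
-- import your own Cfsg.Agent.* helpers here

set_option autoImplicit false
open Cfsg

namespace Cfsg.Agent.S4130

open Subgroup Cfsg.Agent.FT

/-- Let G be a finite group all of whose conjugacy class sizes are square-free. Then G is supersolvable, G/F(G) and the derived subgroup G′ are cyclic of square-free order (F(G) the Fitting subgroup, which is normal), F(G) has nilpotency class at most 2, and G is metabelian. -/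
theorem result {G : Type*} [Group G] [Finite G]
    (h : ∀ x : G, Squarefree (Subgroup.centralizer ({x} : Set G)).index) :
    Cfsg.IsSupersolvable G ∧ (Cfsg.fittingSubgroup G).Normal ∧
    (∀ _h : (Cfsg.fittingSubgroup G).Normal, IsCyclic (G ⧸ Cfsg.fittingSubgroup G) ∧ Squarefree (Cfsg.fittingSubgroup G).index) ∧
    IsCyclic (commutator G) ∧ Squarefree (Nat.card (commutator G)) ∧
    Subgroup.upperCentralSeries ↥(Cfsg.fittingSubgroup G) 2 = ⊤ ∧ commutator ↥(commutator G) = ⊥ := by
  have hs := H6.isSolvable_of_not_four_dvd feit_thompson G fun x hx =>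
    Nat.squarefree_iff_prime_squarefree.1 (h x) 2 Nat.prime_two hx
  have hn := H6.SqF.isNilpotent_der G h hs
  have hq := H6.SqF.squarefree_der h hn
  have hc := isCyclic_of_isNilpotent_of_isZGroup hn (IsZGroup.of_squarefree hq)
  have hF := H6.fitting_eq_cent_der hc hq
  refine ⟨H6.isSupersolvable_of_isCyclic_der hc, inferInstance, fun _ => ?_, hc, hq, ?_, ?_⟩
  · obtain ⟨z, hz⟩ := isCyclic_iff_zpowers.1 hc
    have h1 : Squarefree (fittingSubgroup G).index := by
      rw [hF, ← hz, cent_zpowers]
      exact h z
    haveI : IsZGroup (G ⧸ fittingSubgroup G) := IsZGroup.of_squarefree h1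
    haveI : IsMulCommutative (G ⧸ fittingSubgroup G) :=
      Normal.quotient_commutative_iff_commutator_le.2 (L.le_fittingSubgroup inferInstance hn)
    haveI : Group.IsNilpotent (G ⧸ fittingSubgroup G) := by
      letI : CommGroup (G ⧸ fittingSubgroup G) := { mul_comm := fun a b => mul_comm' a b }
      infer_instance
    exact ⟨inferInstance, h1⟩
  · refine eq_top_iff.2 fun x _ => Subgroup.mem_upperCentralSeries_succ_iff.2 fun y => ?_
    rw [Subgroup.upperCentralSeries_one]
    refine mem_center_iff.2 fun w => Subtype.ext ?_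
    exact (mem_cent.1 (hF.le w.2) _ (commutator_mem_commutator (mem_top (x : G))
      (mem_top (y : G)))).symm
  · exact comm_eq_bot_iff.2 fun x _ => mem_cent.2 fun y _ => mul_comm' y x

end Cfsg.Agent.S4130
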