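import Cfsg.Statements.S4133
import Cfsg.Agent.H6.AGroup2
import Cfsg.Agent.H6.PowOrbit1
import Cfsg.Agent.H6.Induction
import Cfsg.Agent.H9.ClassSize
import Cfsg.Agent.H7.TwoGen
import Cfsg.Agent.FT.Final
-- import your own Cfsg.Agent.* helpers here

set_option autoImplicit false
open Cfsg

namespace Cfsg.Agent.S4133

open Subgroup Cfsg.Agent.FT

theorem solv_of_normal_perfect {H : Type*} [Group H] [Finite H]
    (h : ∀ D : Subgroup H, D.Normal → ⁅D, D⁆ = D → D = ⊥) : Group.IsSolvable H := by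
  obtain ⟨_, ⟨n, rfl⟩, hn⟩ := (wellFounded_lt (α := Subgroup H)).has_min
    (Set.range (derivedSeries H)) ⟨_, 0, rfl⟩
  refine ⟨n, h _ inferInstance ?_⟩
  exact (eq_of_le_of_not_lt (commutator_le_left _ _) (hn _ ⟨n + 1, rfl⟩))

theorem center_inf_comm {G : Type*} [Group G] [Finite G] (hA : H6.AGrp G) {z : G}
    (hz : z ∈ center G) (hz' : z ∈ commutator G) : z = 1 := by
  by_contra h1
  obtain ⟨p, hp, hd⟩ := Nat.exists_prime_and_dvd (mt orderOf_eq_one_iff.1 h1)
  haveI := Fact.mk hp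
  obtain ⟨P⟩ : Nonempty (Sylow p G) := inferInstance
  have h2 := orderOf_pow_orderOf_div (orderOf_pos z).ne' hd
  have h3 := H7.eq_one_of_mem_center_of_mem_commutator P (hA p hp _ P.isPGroup')
    (pow_mem hz (orderOf z / p)) (pow_mem hz' _) (k := 1)
    (by rw [pow_one]; exact orderOf_dvd_iff_pow_eq_one.1 h2.dvd)
  rw [h3, orderOf_one] at h2
  exact hp.one_lt.ne h2

/-- Let G be a finite group all of whose Sylow subgroups are abelian, and let 2^a be the largest power of 2 dividing the size of any conjugacy class of G. If some element has a conjugacy class of size exactly 2^a, then G is solvable. -/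
theorem result {G : Type*} [Group G] [Finite G]
    (hA : ∀ (p : ℕ) [Fact p.Prime] (P : Sylow p G), IsMulCommutative (P : Subgroup G))
    (a : ℕ) (hmax : ∀ y : G, ¬ 2 ^ (a + 1) ∣ (Subgroup.centralizer ({y} : Set G)).index) (hx : ∃ x : G, (Subgroup.centralizer ({x} : Set G)).index = 2 ^ a) :
    Group.IsSolvable G := by
  haveI : Fact (Nat.Prime 2) := ⟨Nat.prime_two⟩
  have hAG : H6.AGrp G := fun p hp P hP => by
    haveI := Fact.mk hp
    obtain ⟨S, hS⟩ := hP.exists_le_sylow
    exact isMulComm_of_le hS (hA p S)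
  obtain ⟨x, hx⟩ := hx
  set X := normalClosure ({x} : Set G)
  have hxX : x ∈ X := subset_normalClosure rfl
  set N := centralizer (X : Set G)
  have hNC : N ≤ 𝐂[x] := cent_le_cent1 hxX
  obtain ⟨P, hP⟩ := exists_isSyl Nat.prime_two 𝐂[x]
  have hPN : P ≤ N := by
    obtain ⟨S, hS⟩ := hP.pgrp.exists_le_sylow
    refine le_centralizer_iff.1 ((closure_le _).2 fun y hy => ?_)
    obtain ⟨_, rfl, hc⟩ := Group.mem_conjugatesOfSet_iff.1 hy
    obtain ⟨g, rfl⟩ := isConj_iff.1 hc
    obtain ⟨u, hu, e⟩ := H9.exists_sylow_conj_eq hx S g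
    rw [← e]
    refine mem_cent.2 fun w hw => ?_
    have c1 : Commute w u := hAG.commute Nat.prime_two S.isPGroup' (hS hw) hu
    exact (c1.mul_right (mem_cent1_iff_commute.1 (hP.le hw)).symm).mul_right c1.inv_right
  have hQ : Group.IsSolvable (G ⧸ N) := by
    refine H6.AGrp.isSolvable_of_hall feit_thompson _
      (hAG.of_surjective (QuotientGroup.mk'_surjective N)) ⟨𝐂[x].map (QuotientGroup.mk' N), ?_, ?_⟩
    · rw [← relIndex_ker, QuotientGroup.ker_mk']
      exact Nat.odd_iff.2 (Nat.two_dvd_ne_zero.1 fun h2 =>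
        hP.ndvd (h2.trans (relIndex_dvd_of_le_left _ hPN)))
    · obtain ⟨m, -, hm⟩ := (Nat.dvd_prime_pow Nat.prime_two).1
        (hx ▸ index_map_dvd 𝐂[x] (QuotientGroup.mk'_surjective N))
      exact ⟨m, hm⟩
  refine solv_of_normal_perfect fun M hM hMM => ?_
  have hMN : M ≤ N := by
    have := H6.le_ker_of_perfect (QuotientGroup.mk' N) hMM
    rwa [QuotientGroup.ker_mk'] at this
  have hcomm : ∀ z : M, z ∈ commutator M := fun z => by
    have : (commutator M).map M.subtype = M := by rw [map_subtype_commutator, hMM]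
    obtain ⟨w, hw, e⟩ := this.ge z.2
    rwa [← Subtype.ext e]
  have hZ : ∀ z ∈ M, (∀ m ∈ M, m * z = z * m) → z = 1 := fun z hz hc =>
    congrArg Subtype.val (center_inf_comm (hAG.subgroup M) (z := ⟨z, hz⟩)
      (mem_center_iff.2 fun m => Subtype.ext (hc m m.2)) (hcomm _))
  have hodd : ∀ y : M, ¬ 2 ∣ 𝐂[y].index := by
    intro y h2
    have hyC : (y : G) ∈ 𝐂[x] := hNC (hMN y.2)
    have e1 : 𝐂[x * y] = 𝐂[(y : G)] ⊓ 𝐂[x] := by
      refine le_antisymm (fun g hg => ?_) fun g hg => mem_cent1_iff_commute.2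
        ((mem_cent1_iff_commute.1 hg.2).mul_left (mem_cent1_iff_commute.1 hg.1))
      have e := mem_cent1_iff_conj.1 hg
      have e2 : x⁻¹ * (g * x * g⁻¹) = y * (g * y * g⁻¹)⁻¹ := by
        rw [eq_mul_inv_iff_mul_eq, mul_assoc, inv_mul_eq_iff_eq_mul, ← e]
        group
      have h3 : x⁻¹ * (g * x * g⁻¹) ∈ X :=
        mul_mem (inv_mem hxX) (normalClosure_normal.conj_mem _ hxX g)
      have h4 := hZ _ (e2 ▸ mul_mem y.2 (inv_mem (hM.conj_mem _ y.2 g)))
        fun m hm => (mem_cent.1 (hMN hm) _ h3).symm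
      refine ⟨mem_cent1_iff_conj.2 ?_, mem_cent1_iff_conj.2 (inv_mul_eq_one.1 h4).symm⟩
      rw [e2] at h4
      exact (mul_inv_eq_one.1 h4).symm
    refine hmax (x * y) ?_
    rw [e1, ← relIndex_mul_index (inf_le_right (a := 𝐂[(y : G)])), hx, pow_succ', inf_relIndex_right]
    refine Nat.mul_dvd_mul_right (h2.trans ?_) _
    rw [H9.centralizer_coe_subgroupOf]
    haveI : (M.subgroupOf 𝐂[x]).Normal := hM.subgroupOf _
    have := H9.relIndex_dvd_index_of_normal_right (𝐂[(y : G)].subgroupOf 𝐂[x]) (M.subgroupOf 𝐂[x])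
    rwa [relIndex_subgroupOf (hMN.trans hNC)] at this
  obtain ⟨T⟩ : Nonempty (Sylow 2 M) := inferInstance
  have hT : centralizer ((T : Subgroup M) : Set M) = ⊤ := by
    refine H6.eq_top_of_forall_exists_conj_mem _ fun y => ?_
    obtain ⟨R, hR⟩ := H9.not_dvd_index_iff_exists_sylow_le.1 (hodd y)
    obtain ⟨g, rfl⟩ := MulAction.exists_smul_eq M T R
    refine ⟨g, mem_cent.2 fun t ht => ?_⟩
    have := mem_cent1.1 (hR (show g * t * g⁻¹ ∈ (g • T : Sylow 2 M) from
      (smul_mem_pointwise_smul t (MulAut.conj g) (T : Subgroup M) ht)))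
    calc t * (g⁻¹ * y * g) = g⁻¹ * (g * t * g⁻¹ * y) * g := by group
      _ = g⁻¹ * y * g * t := by rw [← this]; group
  have hT1 : (T : Subgroup M) = ⊥ := eq_bot_iff.2 fun t ht =>
    center_inf_comm (hAG.subgroup M) (mem_center_iff.2 fun m =>
      (mem_cent.1 (hT ▸ mem_top m : m ∈ centralizer ((T : Subgroup M) : Set M)) t ht).symm)
      (hcomm t)
  have hMo := T.not_dvd_index
  rw [hT1, index_bot] at hMo
  have hs := feit_thompson M (Nat.odd_iff.2 (Nat.two_dvd_ne_zero.1 hMo))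
  by_contra h1
  haveI := (nontrivial_iff_ne_bot M).2 h1
  exact (Group.IsSolvable.commutator_lt_top_of_nontrivial M).ne (eq_top_iff.2 fun z _ => hcomm z)

end Cfsg.Agent.S4133
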