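import Cfsg.Statements.S4134
import Cfsg.Agent.H6.TwoSizes
import Cfsg.Agent.H3.PBasic
import Cfsg.Agent.H3.Cover
-- import your own Cfsg.Agent.* helpers here

set_option autoImplicit false
open Cfsg

namespace Cfsg.Agent.S4134

open scoped commutatorElement in
theorem aux {G : Type*} [Group G] [Finite G] [Group.IsNilpotent G] (n : ℕ)
    (h : ∀ x : G, (Subgroup.centralizer ({x} : Set G)).index = 1 ∨
      (Subgroup.centralizer ({x} : Set G)).index = n) :
    ∃ A : Subgroup G, A.Normal ∧ IsMulCommutative A ∧ ∀ (p k : ℕ) (y : G), p.Prime →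
      orderOf y = p ^ k → y ^ p ∈ A := by
  have hm : ∀ x, x ∉ Subgroup.center G → (Subgroup.centralizer ({x} : Set G)).index = n :=
    fun x hc => (h x).resolve_left fun h' => hc (H9.index_centralizer_eq_one_iff.1 h')
  obtain ⟨A, hA, hab, hC⟩ := H3.exists_selfCentralizing_normal (G := G)
  have hcen : ∀ t ∈ A, ∀ x : G, ⁅t, x⁆ ∈ Subgroup.center G := by
    intro t ht x
    by_cases hx : x ∈ Subgroup.center G
    · rw [commutatorElement_eq_one_iff_mul_comm.2 (Subgroup.mem_center_iff.1 hx t)]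
      exact one_mem _
    by_contra hc
    have h1 := H7.card_centralizer_lt_of_commutator A hab hx ht
    have h2 := (Subgroup.centralizer ({x} : Set G)).card_mul_index
    have h3 := (Subgroup.centralizer ({⁅t, x⁆} : Set G)).card_mul_index
    rw [hm x hx, ← h3, hm _ hc] at h2
    have h4 : 0 < n := hm x hx ▸ Nat.pos_of_ne_zero Subgroup.index_ne_zero_of_finite
    exact h1.ne (Nat.eq_of_mul_eq_mul_right h4 h2)
  refine ⟨A, hA, hab, fun p k y hp hy => ?_⟩
  rw [← hC]
  intro t ht
  have e1 : ∀ (a : ℕ) (x : G), ⁅t ^ a, x⁆ = ⁅t, x⁆ ^ a := fun a x =>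
    H1.commutatorElement_pow_left_of_central (Subgroup.mem_center_iff.1 (hcen t ht x) t) a
  have e2 : ∀ a : ℕ, ⁅t, y ^ a⁆ = ⁅t, y⁆ ^ a := fun a => by
    rw [← commutatorElement_inv, H1.commutatorElement_pow_left_of_central, ← inv_pow,
      commutatorElement_inv]
    rw [← commutatorElement_inv]
    exact Commute.inv_right (Subgroup.mem_center_iff.1 (hcen t ht y) y)
  rw [← commutatorElement_eq_one_iff_mul_comm, e2]
  by_contra hne
  have h1 : t ^ p ∉ Subgroup.center G := fun hc => hne (by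
    rw [← e1, commutatorElement_eq_one_iff_mul_comm]
    exact (Subgroup.mem_center_iff.1 hc y).symm)
  have h2 : Subgroup.centralizer ({t} : Set G) = Subgroup.centralizer ({t ^ p} : Set G) :=
    H6.eq_of_le_of_index_le (H9.centralizer_le_of_mem_zpowers (Subgroup.npow_mem_zpowers t p))
      (by rw [hm _ h1, hm t fun hc => h1 (pow_mem hc p)])
  have h3 : orderOf ⁅t, y⁆ ∣ p ^ k := by
    rw [orderOf_dvd_iff_pow_eq_one, ← e2, ← hy, pow_orderOf_eq_one, commutatorElement_one_right]
  obtain ⟨j, -, hj⟩ := (Nat.dvd_prime_pow hp).1 h3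
  obtain _ | j := j
  · rw [pow_zero, orderOf_eq_one_iff] at hj
    exact hne (by rw [hj, one_pow])
  have h4 : y ^ p ^ j ∈ Subgroup.centralizer ({t ^ p} : Set G) := by
    rw [Subgroup.mem_centralizer_singleton_iff, eq_comm, ← commutatorElement_eq_one_iff_mul_comm,
      e1, e2, ← pow_mul, ← pow_succ, ← hj, pow_orderOf_eq_one]
  rw [← h2, Subgroup.mem_centralizer_singleton_iff, eq_comm,
    ← commutatorElement_eq_one_iff_mul_comm, e2, ← orderOf_dvd_iff_pow_eq_one, hj] at h4
  exact absurd (Nat.le_of_dvd (pow_pos hp.pos j) h4)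
    (not_le.2 (Nat.pow_lt_pow_right hp.one_lt (Nat.lt_succ_self j)))

/-- Let G be a finite group whose conjugacy classes have exactly two sizes, 1 and n > 1. Then n is a power of a prime p and G is the direct product of a p-group and an abelian group of order prime to p: its Sylow p-subgroup P is normal with an abelian normal complement centralizing it; moreover P has an abelian normal subgroup A with P/A of exponent dividing p. -/
theorem result {G : Type*} [Group G] [Finite G] (n : ℕ) (hn : 1 < n)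
    (h : ∀ x : G, (Subgroup.centralizer ({x} : Set G)).index = 1 ∨ (Subgroup.centralizer ({x} : Set G)).index = n) (hex : ∃ x : G, (Subgroup.centralizer ({x} : Set G)).index = n) :
    ∃ (p : ℕ) (_ : Fact p.Prime) (a : ℕ), n = p ^ a ∧ ∀ P : Sylow p G, (P : Subgroup G).Normal ∧
      (∃ N : Subgroup G, N.Normal ∧ N.IsComplement' (P : Subgroup G) ∧ IsMulCommutative N ∧
        ∀ x ∈ N, ∀ y ∈ (P : Subgroup G), x * y = y * x) ∧
      ∃ A : Subgroup (P : Subgroup G), A.Normal ∧ IsMulCommutative A ∧ ∀ y : (P : Subgroup G), y ^ p ∈ A := by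
  have hm : ∀ x, x ∉ Subgroup.center G → (Subgroup.centralizer ({x} : Set G)).index = n :=
    fun x hc => (h x).resolve_left fun h' => hc (H9.index_centralizer_eq_one_iff.1 h')
  obtain ⟨p, hp, R, hR⟩ : ∃ (p : ℕ) (_ : Fact p.Prime) (R : Sylow p G),
      ¬ (R : Subgroup G) ≤ Subgroup.center G := by
    by_contra hcon
    push Not at hcon
    have h1 : Subgroup.center G = ⊤ := L.eq_top_of_forall_sylow_le fun p hp _ =>
      ⟨default, hcon p hp _⟩
    obtain ⟨x, hx⟩ := hex
    rw [H9.index_centralizer_eq_one_iff.2 (h1 ▸ Subgroup.mem_top x)] at hx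
    exact hn.ne hx
  haveI : Group.IsNilpotent G := by
    haveI := H6.isNilpotent_of_two_sizes R hR ⊤ le_top n fun x _ => h x
    exact Group.nilpotent_of_mulEquiv Subgroup.topEquiv
  obtain ⟨x, hxR, hxc⟩ := SetLike.not_le_iff_exists.1 hR
  obtain ⟨i, hi⟩ := H8.exists_orderOf_eq_pow_of_mem R.isPGroup' hxR
  have hcomm : ∀ a b : G, (orderOf a).Coprime (orderOf b) → Commute a b := fun a b hab =>
    H3.commute_of_coprime_of_isNilpotent (A := ⊤) inferInstance (Subgroup.mem_top a)
      (Subgroup.mem_top b) hab (pow_orderOf_eq_one a) (pow_orderOf_eq_one b)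
  have hcen : ∀ y : G, (orderOf y).Coprime p → y ∈ Subgroup.center G := by
    intro y hy
    have hxy : (orderOf x).Coprime (orderOf y) := by rw [hi]; exact hy.symm.pow_left i
    have h1 := H9.centralizer_mul_of_coprime (hcomm x y hxy) hxy
    have h2 : x * y ∉ Subgroup.center G := fun h' => hxc
      (Subgroup.zpowers_le.2 h' (H9.mem_zpowers_mul_of_coprime (hcomm x y hxy) hxy))
    have h3 := H6.eq_of_le_of_index_le (H := Subgroup.centralizer ({x * y} : Set G))
      (K := Subgroup.centralizer ({x} : Set G)) (h1 ▸ inf_le_left) (by rw [hm _ h2, hm x hxc])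
    rw [h1, inf_eq_left] at h3
    rw [Subgroup.mem_center_iff]
    intro g
    obtain ⟨a, b, -, -, rfl, -, ⟨k, hk⟩, hb⟩ := H8.exists_pPart_pPrimePart hp.out g
    refine Commute.mul_left (hcomm a y (by rw [hk]; exact hy.symm.pow_left k)) ?_
    exact Subgroup.mem_centralizer_singleton_iff.1 (h3 (Subgroup.mem_centralizer_singleton_iff.2
      (hcomm b x (by rw [hi]; exact hb.pow_right i))))
  obtain ⟨Q, N, hN, hNQ⟩ := H8.hasNPC_of_isNilpotent (G := G) p
  have hNc : N ≤ Subgroup.center G := fun y hy => hcen y (Nat.Coprime.coprime_dvd_left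
    (N.orderOf_dvd_natCard hy) (by
      rw [← hNQ.index_eq_card]
      exact ((hp.out.coprime_iff_not_dvd).2 Q.not_dvd_index).symm))
  obtain ⟨j, hj⟩ := IsPGroup.iff_card.1 Q.isPGroup'
  have h5 : n ∣ p ^ j := by
    rw [← hj, ← hNQ.symm.index_eq_card, ← hm x hxc]
    exact Subgroup.index_dvd_of_le (hNc.trans (Subgroup.center_le_centralizer _))
  obtain ⟨a, -, ha⟩ := (Nat.dvd_prime_pow hp.out).1 h5
  refine ⟨p, hp, a, ha, fun P => ?_⟩
  have hPn : (P : Subgroup G).Normal := L.isNilpotent_iff_sylow_normal.1 inferInstance p hp P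
  haveI := P.unique_of_normal hPn
  refine ⟨hPn, ⟨N, hN, Subsingleton.elim Q P ▸ hNQ,
    ⟨⟨fun a b => Subtype.ext (Subgroup.mem_center_iff.1 (hNc b.2) a)⟩⟩,
    fun x hx y _ => (Subgroup.mem_center_iff.1 (hNc hx) y).symm⟩, ?_⟩
  obtain ⟨A, hA, hab, hA'⟩ := aux n h
  refine ⟨A.subgroupOf P, inferInstance, inferInstance, fun y => ?_⟩
  obtain ⟨k, hk⟩ := H8.exists_orderOf_eq_pow_of_mem P.isPGroup' y.2
  exact hA' p k y hp.out hk

end Cfsg.Agent.S4134
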