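import Cfsg.Statements.S4136
import Cfsg.Agent.P26.C

set_option autoImplicit false
open Cfsg

namespace Cfsg.Agent.S4136

/-- Let G be a finite group and m a natural number such that every element of prime-power order has a conjugacy class of size 1 or m. Then G is solvable. -/
theorem result {G : Type*} [Group G] [Finite G] (m : ℕ)
    (h : ∀ x : G, (∃ (r : ℕ) (k : ℕ), r.Prime ∧ orderOf x = r ^ k) → (Subgroup.centralizer ({x} : Set G)).index = 1 ∨ (Subgroup.centralizer ({x} : Set G)).index = m) : Group.IsSolvable G :=
  P26.main (m := m) fun x hx => (h x hx).imp_left H9.index_centralizer_eq_one_iff.1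

end Cfsg.Agent.S4136
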