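import Cfsg.Statements.S4138
import Cfsg.Agent.H6.TwoSizes
import Cfsg.Agent.H8.ClassGraph
import Cfsg.Agent.H9.FrobKernel
import Cfsg.Agent.L.BaerSuzuki
-- import your own Cfsg.Agent.* helpers here

set_option autoImplicit false
open Cfsg

namespace Cfsg.Agent.S4138

open Subgroup H7
open scoped commutatorElement

variable {G : Type*} [Group G] [Finite G]

theorem cs_le_mul {s w : G} (hc : (cs s).Coprime (cs w)) : cs w ≤ cs (s * w) := by
  rw [cs, cs, H6.index_centralizer_eq_ncard, H6.index_centralizer_eq_ncard]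
  refine Set.ncard_le_ncard_of_injOn (fun z => s * z) ?_ (mul_right_injective s).injOn
  intro z hz
  obtain ⟨g, rfl⟩ := isConj_iff.1 hz
  obtain ⟨k, h1, h2⟩ := exists_conj_pair hc 1 g
  refine isConj_iff.2 ⟨k, ?_⟩
  rw [one_mul, inv_one, mul_one] at h1
  rw [← h2]
  conv_rhs => rw [← h1]
  group

omit [Finite G] in
theorem cs_inv (s : G) : cs s⁻¹ = cs s := by
  rw [cs, cs]
  congr 1
  exact le_antisymm (H9.centralizer_le_of_mem_zpowers (by simp))
    (H9.centralizer_le_of_mem_zpowers (inv_mem (mem_zpowers s)))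

omit [Finite G] in
theorem centralizer_mul_central {a z : G} (hz : z ∈ center G) :
    centralizer ({a * z} : Set G) = centralizer ({a} : Set G) := by
  ext g
  rw [mem_centralizer_singleton_iff, mem_centralizer_singleton_iff, ← mul_assoc, mul_assoc a z g,
    ← mem_center_iff.1 hz g, ← mul_assoc, mul_left_inj]

omit [Finite G] in
theorem commute_of_central {a b : G} (h : ⁅a, b⁆ ∈ center G)
    (hc : (orderOf a).Coprime (orderOf b)) : Commute a b := by
  have h1 : ⁅a, b⁆ ^ orderOf a = 1 := by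
    rw [← H1.commutatorElement_pow_left_of_central (mem_center_iff.1 h a), pow_orderOf_eq_one,
      commutatorElement_one_left]
  have h2 : ⁅b, a⁆ ^ orderOf b = 1 := by
    rw [← H1.commutatorElement_pow_left_of_central (by
      rw [← commutatorElement_inv]; exact Commute.inv_right (mem_center_iff.1 h b)),
      pow_orderOf_eq_one, commutatorElement_one_left]
  rw [← commutatorElement_inv, inv_pow, inv_eq_one] at h2
  exact commutatorElement_eq_one_iff_mul_comm.1 (orderOf_eq_one_iff.1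
    (Nat.eq_one_of_dvd_coprimes hc (orderOf_dvd_of_pow_eq_one h1) (orderOf_dvd_of_pow_eq_one h2)))

theorem aux {m n : ℕ} (hn : 1 < n) (hcop : m.Coprime n) (htop : ∀ z : G, cs z ≤ m)
    (hsec : ∀ z : G, cs z ≠ m → cs z ≤ n) (M : Subgroup G) [hM : M.Normal]
    (hab : ∀ a ∈ M, ∀ b ∈ M, a * b = b * a) (hM1 : ∀ s : G, (cs s).Coprime m → s ∈ M)
    (hP1 : ∀ s ∈ M, L.IsPiNum {q | q ∣ m}ᶜ (orderOf s) → s ∈ center G)
    {x : G} (hx : cs x = n) (hxπ : L.IsPiNum {q | q ∣ m} (orderOf x)) :
    centralizer ({x} : Set G) = M ∧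
    (∀ h : G, L.IsPiNum {q | q ∣ m}ᶜ (orderOf h) → h ∉ center G → cs h = m) ∧
    ∀ w : G, cs w = m → ∀ e ∈ centralizer ({w} : Set G), L.IsPiNum {q | q ∣ m} (orderOf e) →
      e ∈ center G := by
  set π : Set ℕ := {q | q ∣ m} with hπ
  set A := centralizer ({x} : Set G) with hA
  have hnm : ¬ n ∣ m := fun h => hn.ne' (Nat.eq_one_of_dvd_coprimes hcop h dvd_rfl)
  have hnπ : L.IsPiNum πᶜ n := fun q hq h1 h2 =>
    hq.one_lt.ne' (Nat.eq_one_of_dvd_coprimes hcop h2 h1)
  have hxM : x ∈ M := hM1 x (hx ▸ hcop.symm)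
  have hMA : M ≤ A := fun a ha => mem_centralizer_singleton_iff.2 (hab a ha x hxM)
  let M₀ : Subgroup G :=
    { carrier := {s | ∀ w, cs w = m ↔ cs (s * w) = m}
      one_mem' := fun w => by rw [one_mul]
      mul_mem' := fun {a b} ha hb w => by rw [mul_assoc, ← ha, ← hb]
      inv_mem' := fun {a} ha w => by rw [ha (a⁻¹ * w), mul_inv_cancel_left] }
  have hM₀ : ∀ s : G, (cs s).Coprime m → s ∈ M₀ := by
    have key : ∀ s w : G, (cs s).Coprime m → cs w = m → cs (s * w) = m := fun s w h1 h2 =>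
      le_antisymm (htop _) (h2 ▸ cs_le_mul (h2 ▸ h1))
    intro s hs w
    refine ⟨key s w hs, fun h => ?_⟩
    have := key s⁻¹ _ (by rwa [cs_inv]) h
    rwa [inv_mul_cancel_left] at this
  haveI hM₀n : M₀.Normal := ⟨fun s hs g w => by
    have h1 : cs (g⁻¹ * w * g⁻¹⁻¹) = cs w := H9.index_centralizer_conj g⁻¹ w
    have h2 : cs (g * (s * (g⁻¹ * w * g⁻¹⁻¹)) * g⁻¹) = cs (s * (g⁻¹ * w * g⁻¹⁻¹)) :=
      H9.index_centralizer_conj g _
    rw [← h1, hs, ← h2, show g * (s * (g⁻¹ * w * g⁻¹⁻¹)) * g⁻¹ = g * s * g⁻¹ * w by group]⟩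
  let Mπ : Subgroup G :=
    { carrier := {u | u ∈ M ∧ L.IsPiNum π (orderOf u)}
      one_mem' := ⟨one_mem _, by rw [orderOf_one]; exact L.isPiNum_one _⟩
      mul_mem' := fun {a b} ha hb => ⟨mul_mem ha.1 hb.1, (ha.2.mul hb.2).of_dvd
        (Commute.orderOf_mul_dvd_mul_orderOf (hab a ha.1 b hb.1))⟩
      inv_mem' := fun {a} ha => ⟨inv_mem ha.1, by rw [orderOf_inv]; exact ha.2⟩ }
  haveI : Mπ.Normal := ⟨fun s hs g => ⟨hM.conj_mem s hs.1 g, by
    rw [show orderOf (g * s * g⁻¹) = orderOf s from (MulAut.conj g).orderOf_eq s]; exact hs.2⟩⟩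
  set U := M₀ ⊓ Mπ with hU
  have hxU : x ∈ U := ⟨hM₀ x (hx ▸ hcop.symm), hxM, hxπ⟩
  have hUM : U ≤ M := fun u hu => hu.2.1
  have hUπ : L.IsPiNum π (Nat.card U) :=
    L.isPiSubgroup_iff_isPiNum.1 (L.isPiSubgroup_iff_orderOf.2 fun u hu => hu.2.2)
  have hUab : IsMulCommutative U := ⟨⟨fun a b => Subtype.ext (hab a (hUM a.2) b (hUM b.2))⟩⟩
  -- (b)
  have hb : ∀ t ∈ A, L.IsPiNum πᶜ (orderOf t) → t ∈ center G := by
    intro t ht htπ
    have h1 := H9.centralizer_mul_of_coprime (mem_centralizer_singleton_iff.1 ht).symm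
      (hxπ.coprime htπ)
    have h2 : n ∣ cs (x * t) := hx ▸ index_dvd_of_le (h1 ▸ inf_le_left)
    have h3 := H6.eq_of_le_of_index_le (H := centralizer ({x * t} : Set G)) (K := A)
      (h1 ▸ inf_le_left) ((hsec _ fun h => hnm (h ▸ h2)).trans hx.ge)
    rw [h1, inf_eq_left] at h3
    exact hP1 t (hM1 t (Nat.Coprime.coprime_dvd_left (hx ▸ index_dvd_of_le h3) hcop.symm)) htπ
  -- a big element `a` and a commuting element of coprime order
  have hbig : ∀ a e : G, cs a = m → Commute a e → (orderOf a).Coprime (orderOf e) →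
      centralizer ({a} : Set G) ≤ centralizer ({e} : Set G) := by
    intro a e ha hc hco
    have h1 := H9.centralizer_mul_of_coprime hc hco
    have h3 := H6.eq_of_le_of_index_le (H := centralizer ({a * e} : Set G))
      (K := centralizer ({a} : Set G)) (h1 ▸ inf_le_left) ((htop _).trans ha.ge)
    rwa [h1, inf_eq_left] at h3
  -- (c)
  have hc : ∀ w ∈ A, cs w ≠ m := by
    intro w hw hwm
    obtain ⟨a, z, ha, hz, rfl, -, haπ, hzπ⟩ := H6.exists_piPart π w
    rw [cs, centralizer_mul_central (hb z (zpowers_le.2 hw hz) hzπ)] at hwm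
    obtain ⟨p, hp, hpn⟩ := Nat.exists_prime_and_dvd hn.ne'
    haveI := Fact.mk hp
    obtain ⟨P, hP⟩ := (H9.not_dvd_index_iff_exists_sylow_le (p := p)).1
      (fun h => hnπ p hp hpn (show p ∣ m from hwm ▸ h))
    refine H9.not_dvd_index_iff_exists_sylow_le.2 ⟨P, fun e he => ?_⟩ (hx ▸ hpn)
    obtain ⟨k, hk⟩ := H8.exists_orderOf_eq_pow_of_mem P.isPGroup' he
    have h1 := hbig a e hwm (mem_centralizer_singleton_iff.1 (hP he)).symm (by
      rw [hk]
      exact (((hp.coprime_iff_not_dvd).2 fun h => hnπ p hp hpn (haπ p hp h)).symm).pow_right k)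
    exact mem_centralizer_singleton_iff.2 (mem_centralizer_singleton_iff.1 (h1
      (mem_centralizer_singleton_iff.2
        (mem_centralizer_singleton_iff.1 (zpowers_le.2 hw ha)).symm))).symm
  -- (d)
  have hd : ∀ h : G, L.IsPiNum πᶜ (orderOf h) → h ∉ center G → cs h = m := by
    intro h hh hhc
    have hhA : h ∉ A := fun h' => hhc (hb h h' hh)
    have hco : (Nat.card (zpowers h)).Coprime (Nat.card U) := by
      rw [Nat.card_zpowers]; exact (hUπ.coprime hh).symm
    obtain ⟨g, hg, w, hw, hgw⟩ := H1.exists_centralizer_mul_commutator (A := zpowers h) (G := U)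
      le_normalizer_of_normal hco (Or.inl (H1.isSolvable_of_isMulCommutative inferInstance)) hxU
    set W := ⁅U, zpowers h⁆ with hW
    have hWU : W ≤ U := commutator_le_left _ _
    have hgh : Commute g h := (hg.2 h (mem_zpowers h)).symm
    have hw1 : w ≠ 1 := by
      rintro rfl
      rw [mul_one] at hgw
      exact hhA (mem_centralizer_singleton_iff.2 (hgw ▸ hgh.symm))
    have h1 := H9.centralizer_mul_of_coprime hgh (hg.1.2.2.coprime hh)
    set Γ := centralizer ({g * h} : Set G) with hΓ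
    have h2 : A.relIndex Γ < Nat.card W := by
      have h3 : A.relIndex Γ = (centralizer ({w} : Set G)).relIndex Γ := by
        rw [← inf_relIndex_right, ← inf_relIndex_right (centralizer ({w} : Set G))]
        congr 1
        ext c
        simp only [mem_inf, and_congr_left_iff, hA, mem_centralizer_singleton_iff]
        intro hc
        rw [h1] at hc
        rw [hgw, ← mul_assoc, mem_centralizer_singleton_iff.1 hc.1, mul_assoc, mul_assoc,
          mul_right_inj]
      rw [h3, ← H6.ncard_conj_orbit, ← SetLike.coe_sort_coe, Nat.card_coe_set_eq]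
      refine Set.ncard_lt_ncard ⟨?_, fun h' => ?_⟩
      · rintro _ ⟨c, hc, rfl⟩
        rw [h1] at hc
        refine H1.conj_mem_of_le_normalizer (A := centralizer ({h} : Set G))
          (H1.le_normalizer_commutator le_normalizer_of_normal
            (H1.le_normalizer_of_le_centralizer (le_centralizer_iff.1 ?_))) hc.2 hw
        exact zpowers_le.2 fun y hy => mem_centralizer_singleton_iff.1 hy
      · obtain ⟨c, -, hc⟩ := h' W.one_mem
        exact hw1 (by simpa using hc)
    have h4 : Nat.card W ≤ (centralizer ({h} : Set G)).relIndex A := by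
      have h5 := H1.card_inf_mul_relIndex (centralizer ({h} : Set G)) W
      have h6 : centralizer ({h} : Set G) ⊓ W = ⊥ := by
        rw [eq_bot_iff, ← H1.centralizer_inf_commutator_eq_bot hUab le_normalizer_of_normal hco]
        refine inf_le_inf_right _ (le_centralizer_iff.1 ?_)
        exact zpowers_le.2 fun y hy => mem_centralizer_singleton_iff.1 hy
      rw [h6, card_bot, one_mul] at h5
      rw [← h5]
      exact relIndex_le_of_le_right (hWU.trans (hUM.trans hMA)) (L.relIndex_ne_zero _ _)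
    have h7 : Nat.card Γ < Nat.card A := by
      rw [← H1.card_inf_mul_relIndex A Γ, ← H1.card_inf_mul_relIndex (centralizer ({h} : Set G)) A]
      refine Nat.mul_lt_mul_of_le_of_lt (card_le_of_le ?_) (h2.trans_le h4) Nat.card_pos
      exact le_inf (inf_le_right.trans (h1 ▸ inf_le_right)) inf_le_left
    refine (hg.1.1 h).2 ?_
    by_contra h8
    have h9 := Nat.mul_lt_mul_of_lt_of_le h7 (hsec _ h8) (by omega)
    rw [Γ.card_mul_index, ← hx, A.card_mul_index] at h9
    exact lt_irrefl _ h9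
  -- (e)
  have he : ∀ e : G, L.IsPiNum π (orderOf e) → cs e ∣ m → e ∈ center G := by
    intro e heπ hem
    have hco : (cs e).Coprime (cs x) := hx ▸ Nat.Coprime.coprime_dvd_left hem hcop
    have heA : e ∈ A := by
      refine zpowers_le.1 (H1.le_of_forall_isPGroup_le fun s hs P hP1 hP2 _ u hu => ?_)
      haveI := Fact.mk hs
      obtain ⟨k, hk⟩ := H8.exists_orderOf_eq_pow_of_mem hP2 hu
      obtain rfl | hk0 := Nat.eq_zero_or_pos k
      · rw [orderOf_eq_one_iff.1 hk]; exact one_mem _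
      have h1 := commute_conj_of_primePow (w := x) hk (fun h => hnπ s hs (hx ▸ h) (heπ s hs
        ((hk ▸ dvd_pow_self s hk0.ne').trans (orderOf_dvd_of_mem_zpowers (hP1 hu)))))
        (Nat.Coprime.coprime_dvd_left (H9.index_centralizer_dvd_of_mem_zpowers (hP1 hu)) hco) 1 1
      simpa [hA, mem_centralizer_singleton_iff] using h1.eq
    have h1 : cs (e * x) = n := le_antisymm
      (hsec _ (hc _ (A.mul_mem heA (hMA hxM)))) (hx ▸ cs_le_mul hco)
    obtain ⟨M', hM', h2, h3⟩ := exists_normal_classStab x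
    have h4 : M' ≤ centralizer ({e} : Set G) :=
      le_of_normal_of_coprime_index (Nat.Coprime.coprime_dvd_left h2 hco.symm)
    rw [mem_center_iff]
    intro g
    have h5 := h3 e hco (by rw [h1, ← hx]; exact hco) g
    have h6 := Commute.orderOf_mul_eq_mul_orderOf_of_coprime
      (mem_centralizer_singleton_iff.1 (h4 h5)).symm
      (heπ.coprime (hnπ.of_dvd (hx ▸ (M'.orderOf_dvd_natCard h5).trans h2)))
    rw [mul_inv_cancel_left, show orderOf (g * e * g⁻¹) = orderOf e from
      (MulAut.conj g).orderOf_eq e] at h6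
    have h7 : e⁻¹ * (g * e * g⁻¹) = 1 := orderOf_eq_one_iff.1
      (Nat.eq_of_mul_eq_mul_left (orderOf_pos e) (by rw [← h6, mul_one]))
    exact mul_inv_eq_iff_eq_mul.1 (inv_mul_eq_one.1 h7).symm
  -- (g)
  have hg : ∀ w : G, cs w = m → ∀ e ∈ centralizer ({w} : Set G), L.IsPiNum π (orderOf e) →
      e ∈ center G := by
    intro w hw e hew heπ
    obtain ⟨a, b, ha, -, rfl, hab', haπ, hbπ⟩ := H6.exists_piPart π w
    have h1 := he a haπ (hw ▸ H9.index_centralizer_dvd_of_mem_zpowers ha)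
    rw [cs, hab'.eq, centralizer_mul_central h1] at hw
    rw [hab'.eq, centralizer_mul_central h1] at hew
    exact he e heπ (hw ▸ index_dvd_of_le (hbig b e hw
      (mem_centralizer_singleton_iff.1 hew).symm (heπ.coprime hbπ).symm))
  -- (i)
  have hi : ∀ g : G, L.IsPiNum π (orderOf g) → g ∈ M := by
    intro g hgπ
    by_cases hgc : g ∈ center G
    · exact hM1 g (by rw [cs, H9.index_centralizer_eq_one_iff.2 hgc]; exact Nat.coprime_one_left m)
    have h1 : n.Coprime (A.relIndex (centralizer ({g} : Set G))) := by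
      refine Nat.coprime_of_dvd fun p hp h1 h2 => ?_
      haveI := Fact.mk hp
      obtain ⟨S, hS1, hS2, hS3⟩ := H1.exists_sylow_le p (centralizer ({g} : Set G))
      refine hS3 (h2.trans (relIndex_dvd_of_le_left _ fun s hs => center_le_centralizer _ ?_))
      by_contra hsc
      obtain ⟨k, hk⟩ := H8.exists_orderOf_eq_pow_of_mem hS2 hs
      refine hgc (hg s (hd s (fun q hq hqd => ?_) hsc) g (mem_centralizer_singleton_iff.2
        (mem_centralizer_singleton_iff.1 (hS1 hs)).symm) hgπ)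
      rw [(Nat.prime_dvd_prime_iff_eq hq hp).1 (hq.dvd_of_dvd_pow (hk ▸ hqd))]
      exact hnπ p hp h1
    have h2 : n ∣ cs g := by
      refine h1.dvd_of_dvd_mul_left ?_
      rw [← inf_relIndex_right, relIndex_mul_index inf_le_right]
      exact hx ▸ index_dvd_of_le inf_le_left
    have h3 : cs g = n := le_antisymm (hsec g fun h => hnm (h ▸ h2))
      (Nat.le_of_dvd (Nat.pos_of_ne_zero index_ne_zero_of_finite) h2)
    exact hM1 g (h3 ▸ hcop.symm)
  refine ⟨le_antisymm (fun a ha => ?_) hMA, hd, hg⟩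
  obtain ⟨b, c, -, hc', rfl, -, hbπ, hcπ⟩ := H6.exists_piPart π a
  refine M.mul_mem (hi b hbπ) (hM1 c ?_)
  rw [cs, H9.index_centralizer_eq_one_iff.2 (hb c (zpowers_le.2 ha hc') hcπ)]
  exact Nat.coprime_one_left m

/-- Let G be a finite group whose two largest conjugacy class sizes m > n > 1 are coprime, and let x, y ∈ G have classes of sizes n and m respectively. Then C_G(x) and C_G(y) are abelian, and G/Z(G) is a Frobenius group with kernel C_G(x)/Z(G) and complement C_G(y)/Z(G). -/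
theorem result {G : Type*} [Group G] [Finite G] (m n : ℕ) (hmn : n < m) (hn : 1 < n)
    (hcop : m.Coprime n) (htop : ∀ z : G, (Subgroup.centralizer ({z} : Set G)).index ≤ m) (hsecond : ∀ z : G, (Subgroup.centralizer ({z} : Set G)).index < m → (Subgroup.centralizer ({z} : Set G)).index ≤ n)
    (x y : G) (hx : (Subgroup.centralizer ({x} : Set G)).index = n) (hy : (Subgroup.centralizer ({y} : Set G)).index = m) :
    IsMulCommutative (Subgroup.centralizer ({x} : Set G)) ∧ IsMulCommutative (Subgroup.centralizer ({y} : Set G)) ∧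
    Cfsg.IsFrobeniusComplement ((Subgroup.centralizer ({y} : Set G)).map (QuotientGroup.mk' (Subgroup.center G))) ∧
    Cfsg.frobeniusKernel ((Subgroup.centralizer ({y} : Set G)).map (QuotientGroup.mk' (Subgroup.center G))) =
      ((Subgroup.centralizer ({x} : Set G)).map (QuotientGroup.mk' (Subgroup.center G)) : Set (G ⧸ Subgroup.center G)) := by
  obtain ⟨M, hM, hab, hM1, hM2⟩ := H8.exists_bhm (b := y) (fun z => hy ▸ htop z)
  rw [hy] at hM1 hM2
  have hP1 : ∀ s ∈ M, L.IsPiNum {q | q ∣ m}ᶜ (orderOf s) → s ∈ center G := by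
    intro s hs hsπ
    rw [mem_center_iff]
    intro g
    rw [eq_comm, ← commutatorElement_eq_one_iff_mul_comm, ← orderOf_eq_one_iff]
    have h1 : ⁅s, g⁆ = s * (g * s⁻¹ * g⁻¹) := by rw [commutatorElement_def]; group
    have h2 := Commute.orderOf_mul_dvd_mul_orderOf (hab s hs _ (hM.conj_mem _ (M.inv_mem hs) g))
    rw [← h1, show orderOf (g * s⁻¹ * g⁻¹) = orderOf s⁻¹ from (MulAut.conj g).orderOf_eq _,
      orderOf_inv] at h2
    exact Nat.coprime_self _ |>.1 (L.IsPiNum.coprime (π := {q | q ∣ m})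
      (fun q _ hq => hq.trans (hM2 s hs g)) ((hsπ.mul hsπ).of_dvd h2))
  obtain ⟨x₁, x₂, -, hx₂, rfl, -, hx₁π, hx₂π⟩ := H6.exists_piPart {q | q ∣ m} x
  have h0 := centralizer_mul_central (a := x₁)
    (hP1 x₂ (zpowers_le.2 (hM1 _ (hx ▸ hcop.symm)) hx₂) hx₂π)
  rw [h0] at hx ⊢
  obtain ⟨hA, hd, hg⟩ := aux hn hcop htop
    (fun z hz => hsecond z (lt_of_le_of_ne (htop z) hz)) M hab hM1 hP1 hx hx₁π
  rw [hA]
  set B := centralizer ({y} : Set G) with hB
  have hZB : center G ≤ B := center_le_centralizer _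
  have hdec : ∀ h ∈ B, ∃ b z : G, h = b * z ∧ z ∈ center G ∧
      L.IsPiNum {q | q ∣ m}ᶜ (orderOf b) := by
    intro h hh
    obtain ⟨a, b, ha, -, rfl, hc, haπ, hbπ⟩ := H6.exists_piPart {q | q ∣ m} h
    exact ⟨b, a, hc.eq, hg y hy a (zpowers_le.2 hh ha) haπ, hbπ⟩
  haveI : (M.map (QuotientGroup.mk' (center G))).Normal :=
    hM.map _ (QuotientGroup.mk'_surjective _)
  have hF := H9.frob_and_kernel_of_isComplement' (K := M.map (QuotientGroup.mk' (center G)))
    (H := B.map (QuotientGroup.mk' (center G)))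
    (isComplement'_of_disjoint_and_mul_eq_univ ?_ ?_) ?_ ?_ ?_
  · refine ⟨⟨⟨fun a b => Subtype.ext (hab a a.2 b b.2)⟩⟩, ⟨⟨fun h k => Subtype.ext ?_⟩⟩, hF⟩
    by_cases hh : (h : G) ∈ center G
    · exact (mem_center_iff.1 hh k).symm
    have h1 : centralizer ({(h : G)} : Set G) ≤ B := by
      intro g hg
      have h2 := H9.frob_mem_of_commute hF.1 (g := QuotientGroup.mk' _ g) ⟨h, h.2, rfl⟩
        (fun h' => hh ((QuotientGroup.eq_one_iff _).1 h')) (by
          rw [← map_mul, mem_centralizer_singleton_iff.1 hg, map_mul])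
      rwa [← mem_comap, comap_map_eq_self (by rw [QuotientGroup.ker_mk']; exact hZB)] at h2
    obtain ⟨b, z, hbz, hz, hb⟩ := hdec h h.2
    have h3 := H6.eq_of_le_of_index_le h1 (by
      rw [hy, hbz, centralizer_mul_central hz]
      exact (hd b hb fun h' => hh (by rw [hbz]; exact mul_mem h' hz)).le)
    have h4 : (k : G) ∈ centralizer ({(h : G)} : Set G) := by rw [h3]; exact k.2
    exact (mem_centralizer_singleton_iff.1 h4).symm
  · rw [disjoint_def]
    rintro _ ⟨a, ha, rfl⟩ h2
    rw [← mem_comap, comap_map_eq_self (by rw [QuotientGroup.ker_mk']; exact hZB)] at h2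
    obtain ⟨b, z, hbz, hz, hb⟩ := hdec a h2
    refine (QuotientGroup.eq_one_iff _).2 (hbz ▸ mul_mem (hP1 b ?_ hb) hz)
    rw [eq_mul_inv_of_mul_eq hbz.symm]
    refine M.mul_mem ha (M.inv_mem (hM1 z ?_))
    rw [H9.index_centralizer_eq_one_iff.2 hz]
    exact Nat.coprime_one_left m
  · rw [Set.eq_univ_iff_forall]
    intro g
    obtain ⟨g, rfl⟩ := QuotientGroup.mk'_surjective _ g
    obtain ⟨a, ha, b, hb, rfl⟩ := H9.exists_mul_eq_of_coprime_index (H := M) (K := B)
      (by rw [← hA, hx, hy]; exact hcop.symm) g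
    exact ⟨_, ⟨a, ha, rfl⟩, _, ⟨b, hb, rfl⟩, (map_mul _ _ _).symm⟩
  · intro h
    have h1 := (le_iff_map_mk'_eq_bot _ _).2 h (hM1 x₁ (hx ▸ hcop.symm))
    rw [H9.index_centralizer_eq_one_iff.2 h1] at hx
    exact hn.ne hx
  · intro h
    have h1 := (le_iff_map_mk'_eq_bot _ _).2 h (mem_centralizer_singleton_iff.2 rfl)
    rw [hB, H9.index_centralizer_eq_one_iff.2 h1] at hy
    omega
  · rintro _ ⟨h, hh, rfl⟩ h1 _ ⟨k, hk, rfl⟩ hc
    obtain ⟨b, z, rfl, hz, hb⟩ := hdec h hh
    obtain ⟨a, c, -, hc', rfl, -, haπ, hcπ⟩ := H6.exists_piPart {q | q ∣ m} k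
    have hcZ := hP1 c (zpowers_le.2 hk hc') hcπ
    rw [QuotientGroup.mk'_apply, QuotientGroup.mk_mul_of_mem _ hz] at h1 hc
    rw [QuotientGroup.mk'_apply, QuotientGroup.mk_mul_of_mem _ hcZ] at hc ⊢
    have h2 := commute_of_central ((commutatorElement_mem_iff_commute _ b a).2 hc)
      (haπ.coprime hb).symm
    exact (QuotientGroup.eq_one_iff _).2 (hg b
      (hd b hb fun h' => h1 ((QuotientGroup.eq_one_iff _).2 h')) a
      (mem_centralizer_singleton_iff.2 h2.symm) haπ)

end Cfsg.Agent.S4138
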