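import Cfsg.Statements.S4139
import Cfsg.Agent.H6.ClassLemmas
import Cfsg.Agent.H9.FixCount
import Cfsg.Agent.H7.ClassAux
import Cfsg.Agent.H3.PBasic
-- import your own Cfsg.Agent.* helpers here

set_option autoImplicit false
open Cfsg

namespace Cfsg.Agent.S4139

open Subgroup
open scoped commutatorElement

universe u

theorem dvd_ncard_of_conj {G : Type*} [Group G] [Finite G] {d : ℕ} (X : Set G)
    (hX : ∀ g, ∀ x ∈ X, g * x * g⁻¹ ∈ X) (hd : ∀ x ∈ X, d ∣ (centralizer ({x} : Set G)).index) :
    d ∣ X.ncard := by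
  refine H9.dvd_ncard_of_invariant (G := ConjAct G) X (fun g x hx => hX _ x hx) fun x hx => ?_
  have h1 : (Subgroup.centralizer ({x} : Set G)).index =
      (MulAction.stabilizer (ConjAct G) x).index := by
    rw [Subgroup.centralizer_eq_comap_stabilizer]
    exact Subgroup.index_comap_of_surjective _
      (f := (ConjAct.toConjAct : G ≃* ConjAct G).toMonoidHom) ConjAct.toConjAct.surjective
  exact h1 ▸ hd x hx

/-- The elements whose class size is a power of `p`. -/
def Sp (p : ℕ) (G : Type*) [Group G] : Set G := {x | ∃ a, (centralizer ({x} : Set G)).index = p ^ a}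

theorem exists_central {G : Type*} [Group G] [Finite G] {p : ℕ} [hp : Fact p.Prime]
    (h : p ∣ (Sp p G).ncard) : ∃ z : G, orderOf z = p ∧ z ∈ center G := by
  have h1 : (center G : Set G) ⊆ Sp p G := fun x hx =>
    ⟨0, H9.index_centralizer_eq_one_iff.2 hx⟩
  have h2 : p ∣ (Sp p G \ center G).ncard := by
    refine dvd_ncard_of_conj _ (fun g x hx => ⟨?_, fun h => hx.2 ?_⟩) fun x hx => ?_
    · obtain ⟨a, ha⟩ := hx.1
      exact ⟨a, by rw [H9.index_centralizer_conj, ha]⟩
    · simpa [mul_assoc] using Normal.conj_mem (inferInstance : (center G).Normal) _ h g⁻¹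
    · obtain ⟨a, ha⟩ := hx.1
      rw [ha]
      refine dvd_pow_self p ?_
      rintro rfl
      exact hx.2 (H9.index_centralizer_eq_one_iff.1 ha)
  rw [← Set.ncard_sdiff_add_ncard_of_subset h1] at h
  obtain ⟨z, hz⟩ := exists_prime_orderOf_dvd_card' (G := center G) p ((Nat.dvd_add_right h2).1 h)
  exact ⟨z, by rwa [orderOf_coe], z.2⟩

theorem ncard_Sp {G : Type*} [Group G] [Finite G] {p : ℕ} [hp : Fact p.Prime] (Z : Subgroup G)
    [Z.Normal] (hZ : Z ≤ center G) (hZp : Nat.card Z = p) :
    (Sp p G).ncard = p * (Sp p (G ⧸ Z)).ncard := by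
  rw [← hZp, ← Nat.card_coe_set_eq, ← Nat.card_coe_set_eq, ← QuotientGroup.card_preimage_mk, hZp]
  congr 2
  ext x
  constructor
  · rintro ⟨a, ha⟩
    have := H9.index_centralizer_mk_dvd Z x
    rw [ha] at this
    obtain ⟨b, -, hb⟩ := (Nat.dvd_prime_pow hp.out).1 this
    exact ⟨b, hb⟩
  · rintro ⟨a, ha⟩
    refine ⟨_, Nat.eq_prime_pow_of_unique_prime_dvd index_ne_zero_of_finite ?_⟩
    intro q hq hd
    by_contra hqp
    haveI := Fact.mk hq
    obtain ⟨Q', hQ'⟩ := (H9.not_dvd_index_iff_exists_sylow_le (p := q)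
      (H := centralizer ({(x : G ⧸ Z)} : Set (G ⧸ Z)))).1 (fun h => hqp
      ((Nat.prime_dvd_prime_iff_eq hq hp.out).1 (hq.dvd_of_dvd_pow (ha ▸ h))))
    obtain ⟨Q, rfl⟩ := Sylow.mapSurjective_surjective (QuotientGroup.mk'_surjective Z) q Q'
    refine H9.not_dvd_index_iff_exists_sylow_le.2 ⟨Q, fun g hg => ?_⟩ hd
    have h1 : ⁅g, x⁆ ∈ Z := (H7.commutatorElement_mem_iff_commute Z g x).2
      (mem_centralizer_singleton_iff.1 (hQ' ⟨g, hg, rfl⟩))
    obtain ⟨k, hk⟩ := H8.exists_orderOf_eq_pow_of_mem Q.isPGroup' hg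
    have h2 : ⁅g, x⁆ ^ q ^ k = 1 := by
      rw [← H1.commutatorElement_pow_left_of_central (mem_center_iff.1 (hZ h1) g), ← hk,
        pow_orderOf_eq_one, commutatorElement_one_left]
    rw [mem_centralizer_singleton_iff, ← commutatorElement_eq_one_iff_mul_comm,
      ← orderOf_eq_one_iff]
    exact Nat.eq_one_of_dvd_coprimes (((Nat.coprime_primes hq hp.out).2 hqp).pow_left k)
      (orderOf_dvd_of_pow_eq_one h2) (hZp ▸ Z.orderOf_dvd_natCard h1)

theorem hasNPC_of_dvd {p : ℕ} [hp : Fact p.Prime] (G : Type u) [Group G] [Finite G] :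
    (∀ k, p ^ k ∣ Nat.card G → p ^ k ∣ (Sp p G).ncard) → HasNormalPComplement p G := by
  refine L.induction_on_card (P := fun G _ _ =>
    (∀ k, p ^ k ∣ Nat.card G → p ^ k ∣ (Sp p G).ncard) → HasNormalPComplement p G) G ?_
  intro G _ _ ih h
  by_cases hd : p ∣ Nat.card G
  swap
  · exact H8.hasNPC_of_not_dvd hd
  obtain ⟨z, hz, hzc⟩ := exists_central (p := p) (G := G) (by simpa using h 1 (by simpa using hd))
  haveI := H3.zpowers_normal_of_mem_center hzc
  have hZ : Nat.card (zpowers z) = p := by rw [Nat.card_zpowers, hz]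
  refine H8.hasNPC_of_quotient_central (zpowers z) (zpowers_le.2 hzc)
    (ih _ (L.card_quotient_lt _ fun h => hp.out.one_lt.ne' (by rw [← hZ, h, card_bot])) ?_)
  intro k hk
  have h1 := h (k + 1) (by
    rw [card_eq_card_quotient_mul_card_subgroup (zpowers z), hZ, pow_succ]
    exact Nat.mul_dvd_mul_right hk p)
  rw [ncard_Sp _ (zpowers_le.2 hzc) hZ, pow_succ'] at h1
  exact Nat.dvd_of_mul_dvd_mul_left hp.out.pos h1

theorem dvd_of_isNilpotent {p : ℕ} [hp : Fact p.Prime] (k : ℕ) :
    ∀ (G : Type u) [Group G] [Finite G] [Group.IsNilpotent G], p ^ k ∣ Nat.card G →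
      p ^ k ∣ (Sp p G).ncard := by
  induction k with
  | zero => intro G _ _ _ _; simp
  | succ k ih =>
    intro G _ _ _ h
    obtain ⟨P⟩ : Nonempty (Sylow p G) := inferInstance
    haveI : (P : Subgroup G).Normal := L.isNilpotent_iff_sylow_normal.1 inferInstance p hp P
    obtain ⟨w, hwP, hw1, hwc⟩ := H3.exists_mem_center_of_normal (P : Subgroup G)
      (H7.sylow_ne_bot_of_dvd P ((dvd_pow_self p k.succ_ne_zero).trans h))
    obtain ⟨j, hj⟩ := H8.exists_orderOf_eq_pow_of_mem P.isPGroup' hwP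
    have hd : p ∣ orderOf w := by
      rw [hj]
      refine dvd_pow_self p ?_
      rintro rfl
      exact hw1 (orderOf_eq_one_iff.1 hj)
    have hz := orderOf_pow_orderOf_div (orderOf_pos w).ne' hd
    have hzc := (center G).pow_mem hwc (orderOf w / p)
    set z := w ^ (orderOf w / p)
    haveI := H3.zpowers_normal_of_mem_center hzc
    have hZ : Nat.card (zpowers z) = p := by rw [Nat.card_zpowers, hz]
    rw [ncard_Sp _ (zpowers_le.2 hzc) hZ, pow_succ']
    refine Nat.mul_dvd_mul_left p (ih _ ?_)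
    rw [card_eq_card_quotient_mul_card_subgroup (zpowers z), hZ, pow_succ] at h
    exact Nat.dvd_of_mul_dvd_mul_right hp.out.pos h

/-- Let G and H be finite groups such that for every natural number k, G and H have the same number of conjugacy classes of size k. If H is nilpotent then G is nilpotent. -/
theorem result {G H : Type*} [Group G] [Finite G] [Group H] [Finite H]
    (hH : Group.IsNilpotent H)
    (h : ∀ k : ℕ, Nat.card {C : ConjClasses G // Nat.card C.carrier = k} = Nat.card {C : ConjClasses H // Nat.card C.carrier = k}) :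
    Group.IsNilpotent G := by
  have h1 : ∀ k : ℕ, Nonempty ({C : ConjClasses G // Nat.card C.carrier = k} ≃
      {C : ConjClasses H // Nat.card C.carrier = k}) := fun k => Finite.card_eq.1 (h k)
  let σ : ConjClasses G ≃ ConjClasses H := Equiv.ofFiberEquiv fun k => (h1 k).some
  have hσ : ∀ C, Nat.card (σ C).carrier = Nat.card C.carrier := fun C =>
    Equiv.ofFiberEquiv_map (f := fun C : ConjClasses G => Nat.card C.carrier)
      (g := fun C : ConjClasses H => Nat.card C.carrier) _ C
  have h2 : ∀ C : ConjClasses H, Nonempty ({g : G // σ (ConjClasses.mk g) = C} ≃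
      {g : H // ConjClasses.mk g = C}) := by
    intro C
    obtain ⟨C, rfl⟩ := σ.surjective C
    rw [← Finite.card_eq]
    simp only [σ.apply_eq_iff_eq]
    simp only [← ConjClasses.mem_carrier_iff_mk_eq]
    exact (hσ C).symm
  let e : G ≃ H := Equiv.ofFiberEquiv fun C => (h2 C).some
  have he : ∀ g, (centralizer ({e g} : Set H)).index = (centralizer ({g} : Set G)).index := by
    intro g
    have : ConjClasses.mk (e g) = σ (ConjClasses.mk g) :=
      Equiv.ofFiberEquiv_map (f := fun g : G => σ (ConjClasses.mk g)) (g := ConjClasses.mk) _ g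
    rw [← H7.card_carrier_eq_index, ← H7.card_carrier_eq_index, this, hσ]
  refine H8.isNilpotent_of_forall_hasNPC fun p hp _ => ?_
  haveI := Fact.mk hp
  refine hasNPC_of_dvd G fun k hk => ?_
  have h3 : (Sp p G).ncard = (Sp p H).ncard := by
    rw [← Nat.card_coe_set_eq, ← Nat.card_coe_set_eq]
    exact Nat.card_congr (e.subtypeEquiv fun g => by simp only [Sp, Set.mem_ofPred_eq, he])
  rw [h3]
  exact dvd_of_isNilpotent k H (Nat.card_congr e ▸ hk)

end Cfsg.Agent.S4139
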