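import Cfsg.Statements.S4143
import Cfsg.Agent.H3.Taussky

set_option autoImplicit false
open Cfsg

namespace Cfsg.Agent.S4143

open Subgroup
open scoped commutatorElement


/-- Let X be a finite p-group of order p^n containing a non-abelian subgroup B of order p³ with C_X(B) ≤ B. Then X has nilpotency class n − 1 (maximal class). -/
theorem result {X : Type*} [Group X] [Finite X] {p : ℕ} [Fact p.Prime] (n : ℕ) (hX : Nat.card X = p ^ n)
    (B : Subgroup X) (hB : Nat.card B = p ^ 3) (hBna : ¬ IsMulCommutative B) (hC : Subgroup.centralizer (B : Set X) ≤ B) :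
    Group.nilpotencyClass X = n - 1 := by
  have hp1 := (Fact.out : p.Prime).one_lt
  have hP : IsPGroup p X := IsPGroup.of_card hX
  have hna : ¬ IsMulCommutative X := fun h => hBna inferInstance
  have h3 := H3.three_le_of_not_isMulCommutative hX hna
  have hM : H2.MaxClass p 3 B := ⟨le_rfl, hB, mt H2.isMulCommutative_iff_lcs_one.2 hBna⟩
  have hZB : center X ≤ B := (center_le_centralizer _).trans hC
  have hCB : Nat.card (centralizer (B : Set X)) ≤ p := by
    rw [← hM.card_center, ← Nat.card_congr (subgroupOfEquivOfLe hC).toEquiv]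
    exact card_le_of_le fun c hc => mem_center_iff.2 fun g => Subtype.ext (hc g g.2)
  have hZ1 := H3.center_ne_bot' hP (hX ▸ (Nat.one_lt_pow (by omega) hp1).ne')
  have hZC : center X = centralizer (B : Set X) :=
    eq_of_le_of_card_ge (center_le_centralizer _) (hCB.trans hZ1)
  have hZ : Nat.card (center X) = p := le_antisymm (hZC ▸ hCB) hZ1
  -- generators of `B` modulo the centre
  obtain ⟨a, haB, ha⟩ := SetLike.exists_of_lt (lt_of_le_of_ne hZB fun e => by
    rw [e, hB] at hZ
    have := Nat.pow_right_injective hp1 (hZ.trans (pow_one p).symm)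
    omega)
  obtain ⟨b, hbB, hb⟩ : ∃ b ∈ B, b ∉ centralizer ({a} : Set X) := by
    by_contra! h
    exact ha (hZC ▸ fun b hb => mem_centralizer_singleton_iff.1 (h b hb))
  have hA : center X ⊔ zpowers a ≤ B := sup_le hZB (zpowers_le.2 haB)
  have hA2 := H2.mul_card_le_of_lt (hP.to_subgroup (center X ⊔ zpowers a))
    (lt_of_le_of_ne le_sup_left fun e : center X = _ => ha (e ▸ mem_sup_right (mem_zpowers a)))
  have hgen := H2.sup_zpowers_eq_of_card (hP.to_subgroup B) hA
    (by rw [hB, pow_succ' p 2, sq, ← hZ]; exact Nat.mul_le_mul_left _ (hZ ▸ hA2)) hbB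
    (fun h => hb ((sup_le (center_le_centralizer _)
      (zpowers_le.2 (mem_centralizer_singleton_iff.2 rfl))) h))
  have hCab : centralizer ({a} : Set X) ⊓ centralizer ({b} : Set X) ≤ center X := by
    rintro c ⟨h1, h2⟩
    have : B ≤ centralizer ({c} : Set X) := by
      rw [← hgen]
      exact sup_le (sup_le (center_le_centralizer _) (zpowers_le.2
        (mem_centralizer_singleton_iff.2 (mem_centralizer_singleton_iff.1 h1).symm)))
        (zpowers_le.2 (mem_centralizer_singleton_iff.2 (mem_centralizer_singleton_iff.1 h2).symm))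
    rw [hZC]
    exact fun g hg => mem_centralizer_singleton_iff.1 (this hg)
  set D := H2.cmod (center X) a ⊓ H2.cmod (center X) b with hD
  have hD1 := H2.relIndex_centralizer_le_card (H := D) (N := center X) (x := a)
    fun g hg => H2.mem_cmod.1 hg.1
  have hD2 := H2.relIndex_centralizer_le_card (H := centralizer ({a} : Set X) ⊓ D)
    (N := center X) (x := b) fun g hg => H2.mem_cmod.1 hg.2.2
  have hD3 := H3.card_inf_mul_relIndex (centralizer ({a} : Set X)) D
  have hD4 := H3.card_inf_mul_relIndex (centralizer ({b} : Set X)) (centralizer ({a} : Set X) ⊓ D)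
  have hD5 : Nat.card (centralizer ({b} : Set X) ⊓ (centralizer ({a} : Set X) ⊓ D) : Subgroup X)
      ≤ p := hZ ▸ card_le_of_le fun c hc => hCab ⟨hc.2.1, hc.1⟩
  have hD6 : Nat.card D ≤ Nat.card B := by
    rw [← hD3, ← hD4, hB, pow_succ, sq]
    rw [hZ] at hD1 hD2
    exact Nat.mul_le_mul (Nat.mul_le_mul hD5 hD2) hD1
  have hcomm : ∀ g ∈ B, ∀ k ∈ B, ⁅g, k⁆ ∈ center X := fun g hg k hk => by
    have h1 := H2.commutator_mem_lcs_one (⟨g, hg⟩ : B) ⟨k, hk⟩
    have h2 : H2.lcs B 1 = center B := hM.center_eq.symm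
    rw [h2] at h1
    rw [hZC]
    exact fun w hw => congrArg Subtype.val (mem_center_iff.1 h1 ⟨w, hw⟩)
  have hBD : B = D := eq_of_le_of_card_ge
    (fun g hg => ⟨H2.mem_cmod.2 (hcomm g hg a haB), H2.mem_cmod.2 (hcomm g hg b hbB)⟩) hD6
  have hQ : Nat.card (X ⧸ center X) = p ^ (n - 1) := by
    have := (center X).index_mul_card
    rw [hZ, hX, show n = (n - 1) + 1 by omega, pow_succ] at this
    exact Nat.eq_of_mul_eq_mul_right (by omega) this
  have hB' : Nat.card (B.map (QuotientGroup.mk' (center X))) = p ^ 2 := by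
    have := H3.card_map_mk'_mul (center X) hZB
    rw [hZ, hB, pow_succ] at this
    exact Nat.eq_of_mul_eq_mul_right (by omega) this
  have h4 := H3.lcs_ne_bot_of_selfCentralizing hQ (by omega) hB'.le (fun c hc => by
    obtain ⟨c, rfl⟩ := QuotientGroup.mk'_surjective _ c
    refine mem_map_of_mem _ (hBD ▸ ⟨?_, ?_⟩)
    · exact mem_centralizer_singleton_iff.2 (hc _ (mem_map_of_mem _ haB)).symm
    · exact mem_centralizer_singleton_iff.2 (hc _ (mem_map_of_mem _ hbB)).symm)
  rw [← H2.map_lcs_of_surjective (QuotientGroup.mk'_surjective _), Ne,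
      ← H7.le_iff_map_mk'_eq_bot] at h4
  refine H2.MaxClass.nilpotencyClass_eq (p := p) ⟨h3, hX, fun e => h4 (H2.lcs_le_center ?_)⟩
  rwa [show n - 1 - 2 + 1 = n - 2 by omega]

end Cfsg.Agent.S4143
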