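import Cfsg.Statements.S4144
import Cfsg.Agent.H2.Engel

set_option autoImplicit false
open Cfsg

namespace Cfsg.Agent.S4144

/-- Let X be a finite p-group of order p^n, n ≥ 2, of nilpotency class n − 1 (maximal class), and H any subgroup of X. Then the index in H of the subgroup generated by the p-th powers of elements of H is at most p^p. -/
theorem result {X : Type*} [Group X] [Finite X] {p : ℕ} [Fact p.Prime] (n : ℕ) (hn : 2 ≤ n) (hX : Nat.card X = p ^ n)
    (hmax : Group.nilpotencyClass X = n - 1) (H : Subgroup X) :
    (Subgroup.closure {y : X | ∃ h ∈ H, y = h ^ p}).relIndex H ≤ p ^ p := by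
  have hp : p.Prime := Fact.out
  have he : Subgroup.closure {y : X | ∃ h ∈ H, y = h ^ p} = powerClosure p 1 H := by
    simp [powerClosure]
  rw [he]
  have h1 := H3.card_mul_relIndex (H3.powerClosure_le p 1 H)
  have h0 : 0 < Nat.card (powerClosure p 1 H) := Nat.card_pos
  by_cases h : p + 1 ≤ n
  · have := H2.Engel.card_le_mho
      (H2.maxClass_of_nilpotencyClass (by have := hp.two_le; omega) hX hmax) h H
    nlinarith
  · have h2 := Subgroup.card_le_card_group H
    have h3 : p ^ n ≤ p ^ p := Nat.pow_le_pow_right hp.pos (by omega)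
    nlinarith

end Cfsg.Agent.S4144
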