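import Cfsg.Statements.S4145
import Cfsg.Agent.H6.ClassLemmas
import Cfsg.Agent.H8.Tate
import Cfsg.Agent.H3.PBasic
import Cfsg.Agent.H5.ThompsonCore
-- import your own Cfsg.Agent.* helpers here

set_option autoImplicit false
open Cfsg

namespace Cfsg.Agent.S4145

theorem aux {G : Type*} [Group G] [Finite G] (p : ℕ) [hp : Fact p.Prime]
    (P : Sylow p G) (hP : IsCyclic (P : Subgroup G)) (Z : Subgroup G) [Z.Normal]
    (hZ : IsPGroup p Z) (hZ1 : Z ≠ ⊥) : IsPSolvable p G := by
  have hZP : Z ≤ P := (L.le_pCore inferInstance hZ).trans (L.pCore_le_sylow P)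
  set C := Subgroup.centralizer (Z : Set G) with hC
  have hPC : (P : Subgroup G) ≤ C := fun x hx z hz =>
    congrArg Subtype.val (mul_comm' (⟨z, hZP hz⟩ : (P : Subgroup G)) ⟨x, hx⟩)
  obtain ⟨k, hk⟩ := IsPGroup.iff_card.1 hZ
  obtain ⟨z, hz⟩ := exists_prime_orderOf_dvd_card' (G := Z) p (by
    rw [hk]
    refine dvd_pow_self p ?_
    rintro rfl
    exact hZ1 (Subgroup.card_eq_one.1 (by simpa using hk)))
  have h1 : HasNormalPComplement p C := by
    refine H6.hasNPC_of_isCyclic_of_central (P.subtype hPC)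
      (isCyclic_of_surjective _ (Subgroup.subgroupOfEquivOfLe hPC).symm.surjective)
      (z := ⟨z, hPC (hZP z.2)⟩) (by
        rw [← Subgroup.orderOf_coe, ← hz]; exact Subgroup.orderOf_coe z) ?_
    rw [Subgroup.mem_center_iff]
    intro g
    exact Subtype.ext (g.2 z z.2).symm
  refine L.IsPSolvable.of_normal_of_quotient hp.out C (H5.isPSolvable_of_hasNPC h1)
    (H5.isPSolvable_of_hasNPC (H8.hasNPC_of_not_dvd fun h => P.not_dvd_index
      (h.trans (Subgroup.index_dvd_of_le hPC))))

/-- Let G be a finite group with a cyclic Sylow p-subgroup and H a normal subgroup such that p divides both the order of H and the index of H. Then H has a normal p-complement and G is p-solvable. -/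
theorem result {G : Type*} [Group G] [Finite G] (p : ℕ) [Fact p.Prime]
    (P : Sylow p G) (hP : IsCyclic (P : Subgroup G)) (H : Subgroup G) [H.Normal] (h1 : p ∣ Nat.card H) (h2 : p ∣ H.index) :
    Cfsg.HasNormalPComplement p H ∧ Cfsg.IsPSolvable p G := by
  have hp : p.Prime := Fact.out
  have hH : HasNormalPComplement p H := by
    refine H8.hasNPC_of_normal_of_le_frattini P H ?_
    have hne : H.subgroupOf (P : Subgroup G) ≠ ⊤ := fun h => P.not_dvd_index
      (h2.trans (Subgroup.index_dvd_of_le (Subgroup.subgroupOf_eq_top.1 h)))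
    obtain ⟨g, hg⟩ := IsCyclic.exists_generator (α := (P : Subgroup G))
    intro x hx
    obtain ⟨i, rfl⟩ := hg x
    by_cases hi : (p : ℤ) ∣ i
    · obtain ⟨j, rfl⟩ := hi
      show g ^ _ ∈ _
      rw [mul_comm, zpow_mul, zpow_natCast]
      exact H3.pow_mem_frattini P.isPGroup' _
    · exfalso
      apply hne
      rw [eq_top_iff]
      intro y _
      refine Subgroup.zpowers_le.2 ?_ (hg y)
      obtain ⟨k, hk⟩ := IsPGroup.iff_orderOf.1 P.isPGroup' g
      refine H8.mem_of_pow_mem_of_coprime (n := i.natAbs) ?_ ?_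
      · rw [hk]
        exact ((hp.coprime_iff_not_dvd).2 (fun h => hi (Int.natCast_dvd.2 h))).pow_left k
      · rcases Int.natAbs_eq i with h | h
        · rw [← zpow_natCast, ← h]; exact hx
        · rw [← zpow_natCast, ← inv_mem_iff, ← zpow_neg, ← h]; exact hx
  refine ⟨hH, ?_⟩
  set K := pPrimeCore p G with hK
  refine L.IsPSolvable.of_normal_of_quotient hp K
    (H5.isPSolvable_of_hasNPC (H8.hasNPC_of_coprime (L.coprime_card_pPrimeCore p))) ?_
  refine aux p (P.mapSurjective (QuotientGroup.mk'_surjective K))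
    (isCyclic_of_surjective _ ((QuotientGroup.mk' K).subgroupMap_surjective P))
    (H.map (QuotientGroup.mk' K)) ?_ ?_
  · rintro ⟨_, x, hx, rfl⟩
    obtain ⟨a, b, -, hb, rfl, -, ⟨k, hk⟩, hb'⟩ := H8.exists_pPart_pPrimePart hp x
    have h3 : (⟨b, Subgroup.zpowers_le.2 hx hb⟩ : H) ∈ pPrimeCore p H :=
      H8.hasNPC_iff_forall_mem_pPrimeCore.1 hH _ (by rwa [← Subgroup.orderOf_coe])
    have h4 : b ∈ (pPrimeCore p H).map H.subtype := ⟨_, h3, rfl⟩
    rw [L.map_subtype_pPrimeCore hp] at h4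
    refine ⟨k, Subtype.ext ?_⟩
    change ((a * b : G) : G ⧸ K) ^ p ^ k = 1
    rw [QuotientGroup.mk_mul_of_mem a h4.1, ← QuotientGroup.mk_pow, ← hk, pow_orderOf_eq_one,
      QuotientGroup.mk_one]
  · intro h
    exact L.not_dvd_card_pPrimeCore hp
      (h1.trans (Subgroup.card_dvd_of_le ((H7.le_iff_map_mk'_eq_bot H K).2 h)))

end Cfsg.Agent.S4145
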