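import Cfsg.Statements.S4147
import Cfsg.Agent.H7.TwoC

set_option autoImplicit false
open Cfsg

namespace Cfsg.Agent.S4147

/-- Let G be a finite group in which every conjugacy class size is divisible by at most two distinct primes. Then G is solvable, or G is the direct product of its centre and a subgroup isomorphic to the alternating group A₅ or to PSL₂(8). -/
theorem result {G : Type*} [Group G] [Finite G]
    (h : ∀ x : G, ((Subgroup.centralizer ({x} : Set G)).index).primeFactors.card ≤ 2) :
    Group.IsSolvable G ∨ ∃ S : Subgroup G, S.Normal ∧ Subgroup.center G ⊓ S = ⊥ ∧ Subgroup.center G ⊔ S = ⊤ ∧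
      (Nonempty (S ≃* alternatingGroup (Fin 5)) ∨ Nonempty (S ≃* Matrix.ProjectiveSpecialLinearGroup (Fin 2) (GaloisField 2 3))) := by
  by_cases hs : Group.IsSolvable G
  · exact Or.inl hs
  obtain ⟨S, hS, h3⟩ := H7.Two.exists_t3 G h hs
  have := Fact.mk Nat.prime_two
  exact Or.inr ⟨S, hS, (H7.Two.H2.split h h3).1, (H7.Two.H2.split h h3).2, h3.good.1⟩

end Cfsg.Agent.S4147
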