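import Cfsg.Statements.S4149
import Cfsg.Agent.H9.ClassSize
import Cfsg.Agent.H8.PComplement
-- import your own Cfsg.Agent.* helpers here

set_option autoImplicit false
open Cfsg

namespace Cfsg.Agent.S4149

open Subgroup in
theorem two_mul_card_le {G : Type*} [Group G] [Finite G] {r : ℕ} (hr : r.Prime)
    (h : ¬ HasNormalPComplement r G) :
    2 * {x : G | ¬ r ∣ (centralizer ({x} : Set G)).index}.ncard ≤ Nat.card G := by
  have := Fact.mk hr
  obtain ⟨R⟩ : Nonempty (Sylow r G) := inferInstance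
  have hN : ¬ normalizer ((R : Subgroup G) : Set G) ≤ centralizer ((R : Subgroup G) : Set G) :=
    fun h' => h (H8.hasNPC_of_normalizer_le_centralizer R h')
  set N := normalizer ((R : Subgroup G) : Set G) with hNdef
  set C := centralizer ((R : Subgroup G) : Set G) with hCdef
  have hCN : C ≤ N := centralizer_le_normalizer _
  have h1 : 2 * Nat.card C ≤ Nat.card N := by
    have h2 : C.relIndex N * Nat.card C = Nat.card N := by
      rw [← Nat.card_congr (subgroupOfEquivOfLe hCN).toEquiv]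
      exact index_mul_card _
    have h3 : C.relIndex N ≠ 1 := fun h => hN (relIndex_eq_one.mp h)
    have h4 : C.relIndex N ≠ 0 := index_ne_zero_of_finite
    rw [← h2]
    exact Nat.mul_le_mul_right _ (by omega)
  let f : (G ⧸ N) × C → G := fun s => s.1.out * s.2 * s.1.out⁻¹
  have h2 : {x : G | ¬ r ∣ (centralizer ({x} : Set G)).index} ⊆ Set.range f := by
    intro x hx
    obtain ⟨R', hR'⟩ := H9.not_dvd_index_iff_exists_sylow_le.mp hx
    obtain ⟨g, rfl⟩ := MulAction.exists_smul_eq G R R'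
    obtain ⟨n, hn⟩ := QuotientGroup.mk_out_eq_mul N g
    refine ⟨(g, ⟨(g * n)⁻¹ * x * (g * n), fun y hy => ?_⟩), ?_⟩
    · have h3 : (g * n) * y * (g * n)⁻¹ ∈ ((g • R : Sylow r G) : Subgroup G) := by
        have h4 : (n : G) * y * (n : G)⁻¹ ∈ (R : Subgroup G) := (mem_normalizer_iff.mp n.2 y).mp hy
        have h5 : g * ((n : G) * y * (n : G)⁻¹) * g⁻¹ ∈ ((g • R : Sylow r G) : Subgroup G) :=
          Set.smul_mem_smul_set (a := MulAut.conj g) h4
        simpa [mul_assoc] using h5
      have h4 := mem_centralizer_singleton_iff.mp (hR' h3)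
      calc y * ((g * n)⁻¹ * x * (g * n))
          = (g * n)⁻¹ * ((g * n) * y * (g * n)⁻¹ * x) * (g * n) := by group
        _ = _ := by rw [h4]; group
    · simp only [f, hn]
      group
  have h3 : (Set.range f).ncard ≤ N.index * Nat.card C := by
    rw [← Set.image_univ, index, ← Nat.card_prod, ← Set.ncard_univ]
    exact Set.ncard_image_le
  calc _ ≤ 2 * (N.index * Nat.card C) := Nat.mul_le_mul_left _ ((Set.ncard_le_ncard h2).trans h3)
    _ = N.index * (2 * Nat.card C) := by ring
    _ ≤ N.index * Nat.card N := Nat.mul_le_mul_left _ h1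
    _ = _ := N.index_mul_card

/-- Let G be a finite group that has a normal p-complement for at most one prime p dividing its order, and let σ be a natural number such that every conjugacy class size of G has at most σ distinct prime divisors. Then the number of primes dividing at least one conjugacy class size of G is at most 2σ. -/
theorem result {G : Type*} [Group G] [Finite G] (σ : ℕ)
    (hσ : ∀ x : G, ((Subgroup.centralizer ({x} : Set G)).index).primeFactors.card ≤ σ)
    (hnil : ∀ p q : ℕ, p.Prime → q.Prime → p ∣ Nat.card G → q ∣ Nat.card G →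
      Cfsg.HasNormalPComplement p G → Cfsg.HasNormalPComplement q G → p = q) :
    Nat.card {p : ℕ | p.Prime ∧ ∃ x : G, p ∣ (Subgroup.centralizer ({x} : Set G)).index} ≤ 2 * σ := by
  classical
  let _ := Fintype.ofFinite G
  let idx : G → ℕ := fun x => (Subgroup.centralizer ({x} : Set G)).index
  have hidx : ∀ x, idx x ≠ 0 := fun x => Subgroup.index_ne_zero_of_finite
  let ρ : Finset ℕ := Finset.univ.biUnion fun x : G => (idx x).primeFactors
  have hρ : {p : ℕ | p.Prime ∧ ∃ x : G, p ∣ (Subgroup.centralizer ({x} : Set G)).index} = ρ := by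
    ext p
    simp only [ρ, Set.mem_ofPred_eq, Finset.coe_biUnion, Finset.coe_univ, Set.mem_univ,
      Set.iUnion_true, Set.mem_iUnion, Finset.mem_coe, Nat.mem_primeFactors]
    exact ⟨fun ⟨h1, x, h2⟩ => ⟨x, h1, h2, hidx x⟩, fun ⟨x, h1, h2, _⟩ => ⟨h1, x, h2⟩⟩
  have hmem : ∀ r ∈ ρ, r.Prime ∧ ∃ x : G, r ∣ idx x := fun r hr => by
    have : r ∈ (ρ : Set ℕ) := hr
    rwa [← hρ] at this
  rw [hρ, Nat.card_coe_set_eq, Set.ncard_coe_finset]
  let A : ℕ → ℕ := fun r => (Finset.univ.filter fun x => r ∣ idx x).card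
  have h1 : ∑ r ∈ ρ, A r ≤ Nat.card G * σ := by
    simp only [A, Finset.card_filter]
    rw [Finset.sum_comm, Nat.card_eq_fintype_card, ← Finset.card_univ, ← smul_eq_mul,
      ← Finset.sum_const]
    refine Finset.sum_le_sum fun x _ => le_trans ?_ (hσ x)
    rw [← Finset.card_filter]
    refine Finset.card_le_card fun r hr => ?_
    obtain ⟨h2, h3⟩ := Finset.mem_filter.mp hr
    exact Nat.mem_primeFactors.mpr ⟨(hmem r h2).1, h3, hidx x⟩
  have h2 : ∀ r ∈ ρ, ¬ HasNormalPComplement r G → Nat.card G ≤ 2 * A r := by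
    intro r hr h
    have h3 := two_mul_card_le (hmem r hr).1 h
    have h4 := Finset.card_filter_add_card_filter_not (s := Finset.univ) (fun x => r ∣ idx x)
    have h5 : {x : G | ¬ r ∣ (Subgroup.centralizer ({x} : Set G)).index}.ncard =
        (Finset.univ.filter fun x => ¬ r ∣ idx x).card := by
      rw [← Set.ncard_coe_finset]
      congr 1
      ext x
      simp [idx]
    rw [Finset.card_univ, ← Nat.card_eq_fintype_card] at h4
    simp only [A]
    omega
  have hG : 0 < Nat.card G := Nat.card_pos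
  have hdvd : ∀ r ∈ ρ, r ∣ Nat.card G := fun r hr => by
    obtain ⟨-, x, hx⟩ := hmem r hr
    exact hx.trans (Subgroup.index_dvd_card _)
  rcases ρ.eq_empty_or_nonempty with h0 | ⟨r₀, hr₀⟩
  · simp [h0]
  obtain ⟨r₁, hr₁, hr₁'⟩ : ∃ r₁ ∈ ρ, ∀ r ∈ ρ.erase r₁, ¬ HasNormalPComplement r G := by
    by_cases h : ∃ r ∈ ρ, HasNormalPComplement r G
    · obtain ⟨r₁, hr₁, h⟩ := h
      refine ⟨r₁, hr₁, fun r hr h' => (Finset.mem_erase.mp hr).1 ?_⟩
      have hr' := Finset.mem_of_mem_erase hr
      exact hnil r r₁ (hmem r hr').1 (hmem r₁ hr₁).1 (hdvd r hr') (hdvd r₁ hr₁) h' h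
    · exact ⟨r₀, hr₀, fun r hr h' => h ⟨r, Finset.mem_of_mem_erase hr, h'⟩⟩
  have h3 : (ρ.erase r₁).card * Nat.card G ≤ 2 * ∑ r ∈ ρ.erase r₁, A r := by
    rw [Finset.mul_sum, ← smul_eq_mul, ← Finset.sum_const]
    exact Finset.sum_le_sum fun r hr => h2 r (Finset.mem_of_mem_erase hr) (hr₁' r hr)
  have h4 : 0 < A r₁ := by
    obtain ⟨-, x, hx⟩ := hmem r₁ hr₁
    exact Finset.card_pos.mpr ⟨x, Finset.mem_filter.mpr ⟨Finset.mem_univ _, hx⟩⟩
  have h5 := Finset.add_sum_erase ρ A hr₁
  have h6 := Finset.card_erase_add_one hr₁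
  have h7 : (ρ.erase r₁).card * Nat.card G < 2 * σ * Nat.card G := by nlinarith
  have h8 := lt_of_mul_lt_mul_right h7 (Nat.zero_le _)
  omega

end Cfsg.Agent.S4149
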