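import Cfsg.Statements.S4150
import Cfsg.Agent.H6.TwoPrimes
import Cfsg.Agent.H6.PrimePairs
-- import your own Cfsg.Agent.* helpers here

set_option autoImplicit false
open Cfsg

namespace Cfsg.Agent.S4150

open Equiv Equiv.Perm in
theorem aux (m : ℕ) {p q : ℕ} (hp : p.Prime) (hq : q.Prime) (hpq : p < q) (hm : m ≤ 2 * p)
    (hq5 : 5 ≤ q) (h1 : p + 3 ≤ q ∨ (p = 3 ∧ q = 5) ∨ (p = 5 ∧ q = 7) ∨ (p = 11 ∧ q = 13))
    (h2 : m = 2 * p → q + 3 ≤ 2 * p ∨ (p = 3 ∧ q = 5))
    (x y : alternatingGroup (Fin m)) (hx : orderOf x = p) (hy : orderOf y = q) :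
    ∃ d : ℕ, 5 ≤ d ∧ Nonempty (Subgroup.closure ({x, y} : Set (alternatingGroup (Fin m))) ≃*
      alternatingGroup (Fin d)) := by
  classical
  let s : Finset (Fin m) := (x : Perm (Fin m)).support ∪ (y : Perm (Fin m)).support
  obtain ⟨x', hx'⟩ := (alternatingGroup.mem_range_ofSubtype_iff s x).mpr Finset.subset_union_left
  obtain ⟨y', hy'⟩ := (alternatingGroup.mem_range_ofSubtype_iff s y).mpr Finset.subset_union_right
  have hsm : Fintype.card s ≤ m := by
    rw [Fintype.card_coe]
    simpa using Finset.card_le_univ s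
  have hord : ∀ z : alternatingGroup s, orderOf (z : Perm s) =
      orderOf (alternatingGroup.ofSubtype s z) := fun z => by
    rw [orderOf_injective _ alternatingGroup.ofSubtype_injective, Subgroup.orderOf_coe]
  have hsupp : (x' : Perm s).support ∪ (y' : Perm s).support = Finset.univ := by
    rw [Finset.eq_univ_iff_forall]
    rintro ⟨a, ha⟩
    have key : ∀ z : alternatingGroup s,
        a ∈ ((alternatingGroup.ofSubtype s z : alternatingGroup (Fin m)) : Perm (Fin m)).support →
        (⟨a, ha⟩ : s) ∈ (z : Perm s).support := fun z hz => by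
      rw [alternatingGroup.coe_ofSubtype, support_ofSubtype, Finset.mem_map] at hz
      obtain ⟨b, hb, rfl⟩ := hz
      simp only [mem_support] at hb ⊢
      exact hb
    rcases Finset.mem_union.mp ha with h | h
    · exact Finset.mem_union_left _ (key x' (hx' ▸ h))
    · exact Finset.mem_union_right _ (key y' (hy' ▸ h))
  obtain ⟨h3, h4⟩ := H6.closure_pair_cases x'.2 y'.2 hp hq (by rw [hord, hx', hx])
    (by rw [hord, hy', hy]) hsupp hpq (hsm.trans hm) h1 (fun h => h2 (by omega))
  have e1 : (Subgroup.closure ({x', y'} : Set (alternatingGroup s))).map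
      (alternatingGroup.ofSubtype s) = Subgroup.closure {x, y} := by
    rw [MonoidHom.map_closure, Set.image_pair, hx', hy']
  have e2 : (Subgroup.closure ({x', y'} : Set (alternatingGroup s))).map
      (alternatingGroup s).subtype = Subgroup.closure {(x' : Perm s), (y' : Perm s)} := by
    rw [MonoidHom.map_closure, Set.image_pair]
    rfl
  let e : Subgroup.closure ({x, y} : Set (alternatingGroup (Fin m))) ≃*
      Subgroup.closure ({(x' : Perm s), (y' : Perm s)} : Set (Perm s)) :=
    (MulEquiv.subgroupCongr e1.symm).trans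
      ((Subgroup.equivMapOfInjective _ _ alternatingGroup.ofSubtype_injective).symm.trans
        ((Subgroup.equivMapOfInjective _ _ (alternatingGroup s).subtype_injective).trans
          (MulEquiv.subgroupCongr e2)))
  rcases h4 with h4 | ⟨⟨h4⟩⟩
  · exact ⟨Fintype.card s, hq5.trans h3, ⟨e.trans ((MulEquiv.subgroupCongr h4).trans
      (Fintype.equivFin s).altCongrHom)⟩⟩
  · exact ⟨5, le_rfl, ⟨e.trans h4⟩⟩

/-- Let m ≥ 5. Then there are primes p < q with m/2 ≤ p and q ≤ m such that any two elements x, y of the alternating group of degree m with x of order p and y of order q generate a subgroup isomorphic to an alternating group of some degree d ≥ 5. -/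
theorem result (m : ℕ) (hm : 5 ≤ m) :
    ∃ p q : ℕ, p.Prime ∧ q.Prime ∧ m ≤ 2 * p ∧ p < q ∧ q ≤ m ∧
      ∀ x y : alternatingGroup (Fin m), orderOf x = p → orderOf y = q →
        ∃ d : ℕ, 5 ≤ d ∧ Nonempty (Subgroup.closure ({x, y} : Set (alternatingGroup (Fin m))) ≃* alternatingGroup (Fin d)) := by
  by_cases h1 : 17 ≤ m
  · obtain ⟨p, q, hp, hq, h2, h3, h4⟩ := H6.exists_prime_pair h1
    exact ⟨p, q, hp, hq, h2.le, by omega, h4,
      aux m hp hq (by omega) h2.le (by omega) (Or.inl h3) (by omega)⟩
  by_cases h2 : 15 ≤ m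
  · exact ⟨11, 13, by norm_num, by norm_num, by omega, by omega, by omega,
      aux m (by norm_num) (by norm_num) (by omega) (by omega) (by omega) (by omega) (by omega)⟩
  by_cases h3 : 11 ≤ m
  · exact ⟨7, 11, by norm_num, by norm_num, by omega, by omega, by omega,
      aux m (by norm_num) (by norm_num) (by omega) (by omega) (by omega) (by omega) (by omega)⟩
  by_cases h4 : 7 ≤ m
  · exact ⟨5, 7, by norm_num, by norm_num, by omega, by omega, by omega,
      aux m (by norm_num) (by norm_num) (by omega) (by omega) (by omega) (by omega) (by omega)⟩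
  · exact ⟨3, 5, by norm_num, by norm_num, by omega, by omega, by omega,
      aux m (by norm_num) (by norm_num) (by omega) (by omega) (by omega) (by omega) (by omega)⟩

end Cfsg.Agent.S4150
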