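import Cfsg.Statements.S4151
import Cfsg.Agent.H6.TIHall
-- import your own Cfsg.Agent.* helpers here

set_option autoImplicit false
open Cfsg

namespace Cfsg.Agent.S4151

/-- Let G be a finite group and H a non-normal subgroup meeting each of its conjugates by elements outside N_G(H) trivially, with the order of H coprime to its index in N_G(H), such that G is π-separable for π the set of primes dividing the order of H (G has a chain of normal subgroups from 1 to G each of whose factors has order divisible only by primes dividing the order of H or coprime to it). Suppose a Sylow 2-subgroup of H is abelian and Q is a complement of H in N_G(H). Then C_H(Q), the subgroup of elements of H commuting with Q, has order coprime to its index in G and has a normal complement in G. -/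
theorem result {G : Type*} [Group G] [Finite G] (H : Subgroup G)
    (hTI : Cfsg.IsTISubset (H : Set G)) (hnn : ¬ H.Normal)
    (hHall : (Nat.card H).Coprime (H.subgroupOf (Subgroup.normalizer (H : Set G))).index)
    (hsep : ∃ (n : ℕ) (M : Fin (n + 1) → Subgroup G), M 0 = ⊥ ∧ M (Fin.last n) = ⊤ ∧ Monotone M ∧ (∀ i, (M i).Normal) ∧
      ∀ i : Fin n, (∀ q : ℕ, q.Prime → q ∣ (M i.castSucc).relIndex (M i.succ) → q ∣ Nat.card H) ∨
        ((M i.castSucc).relIndex (M i.succ)).Coprime (Nat.card H))
    (h2 : ∀ P : Sylow 2 H, IsMulCommutative (P : Subgroup H))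
    (Q : Subgroup G) (hQ : Q ≤ Subgroup.normalizer (H : Set G)) (hQH : Q ⊓ H = ⊥) (hQH' : Q ⊔ H = Subgroup.normalizer (H : Set G)) :
    (Nat.card ↥(H ⊓ Subgroup.centralizer (Q : Set G))).Coprime (H ⊓ Subgroup.centralizer (Q : Set G)).index ∧
    ∃ N : Subgroup G, N.Normal ∧ N.IsComplement' (H ⊓ Subgroup.centralizer (Q : Set G)) := by
  have hc : (Nat.card H).Coprime H.index := H6.coprime_index_of_TI hTI hHall
  have hH := H6.isPiHall_of_coprime hc
  have hs := H6.piSep_of_chain hsep
  have hZ := H6.isZGroup_of_TI hTI hnn hH hs h2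
  have htop := H6.piCore_sup_normalizer_of_TI hTI hnn hH hs
  set O := piCore {q | q ∣ Nat.card H}ᶜ G with hO
  have hcQ : (Nat.card Q).Coprime (Nat.card H) := by
    have h1 := H1.card_sup_of_inf_eq_bot hQ hQH
    rw [hQH', ← H1.card_mul_relIndex Subgroup.le_normalizer, mul_comm] at h1
    rw [← Nat.eq_of_mul_eq_mul_right Nat.card_pos h1]
    exact hHall.symm
  have hQD : Q ≤ Subgroup.normalizer ((⁅H, Q⁆ : Subgroup G) : Set G) :=
    H1.le_normalizer_commutator_self
  have hHM : H ≤ Subgroup.normalizer ((Q ⊔ ⁅H, Q⁆ : Subgroup G) : Set G) := by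
    rw [Subgroup.le_normalizer_iff_commutator_le_right]
    refine H1.commutator_sup_le (le_sup_left.trans Subgroup.le_normalizer)
      (le_sup_right.trans Subgroup.le_normalizer) le_sup_right (le_trans ?_ le_sup_right)
    exact Subgroup.le_normalizer_iff_commutator_le_right.mp
      (Subgroup.normalizer_commutator_ge_left H Q)
  have hN : ((Q ⊔ ⁅H, Q⁆) ⊔ O).Normal := by
    rw [← Subgroup.normalizer_eq_top_iff, eq_top_iff, ← htop, ← hQH']
    exact sup_le (le_sup_right.trans Subgroup.le_normalizer)
      (sup_le ((le_sup_left.trans le_sup_left).trans Subgroup.le_normalizer)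
        (H1.le_normalizer_sup hHM Subgroup.le_normalizer_of_normal))
  have hcop : (Nat.card (H ⊓ Subgroup.centralizer (Q : Set G) : Subgroup G)).Coprime
      (Nat.card ((Q ⊔ ⁅H, Q⁆) ⊔ O : Subgroup G)) := by
    refine Nat.Coprime.coprime_dvd_right (H1.card_sup_dvd Subgroup.le_normalizer_of_normal)
      (Nat.Coprime.mul_right (Nat.Coprime.coprime_dvd_right (H1.card_sup_dvd hQD)
        (Nat.Coprime.mul_right (H1.coprime_of_le hcQ.symm inf_le_left le_rfl)
          (H6.coprime_centralizer_commutator_of_isZGroup hQ hcQ))) ?_)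
    exact L.IsPiSubgroup.coprime (L.IsPiSubgroup.mono inf_le_left hH.1) (L.isPiSubgroup_piCore _)
  have hsup : (H ⊓ Subgroup.centralizer (Q : Set G)) ⊔ ((Q ⊔ ⁅H, Q⁆) ⊔ O) = ⊤ := by
    rw [eq_top_iff, ← htop, ← hQH']
    refine sup_le (le_sup_right.trans le_sup_right)
      (sup_le ((le_sup_left.trans le_sup_left).trans le_sup_right) ?_)
    refine (H1.commutator_sup_centralizer hQ hcQ (Or.inr inferInstance)).ge.trans ?_
    exact sup_le ((le_sup_right.trans le_sup_left).trans le_sup_right) le_sup_left
  have hcomp : ((Q ⊔ ⁅H, Q⁆) ⊔ O).IsComplement' (H ⊓ Subgroup.centralizer (Q : Set G)) := by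
    refine Subgroup.isComplement'_of_coprime ?_ hcop.symm
    rw [mul_comm, ← H1.card_sup_of_coprime Subgroup.le_normalizer_of_normal hcop, hsup,
      Subgroup.card_top]
  exact ⟨hcomp.index_eq_card ▸ hcop, _, hN, hcomp⟩

end Cfsg.Agent.S4151
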