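import Cfsg.Statements.S4153
import Cfsg.Agent.H9.SylowLines
import Cfsg.Agent.H9.ClassSize
import Cfsg.Agent.H8.PComplement
import Cfsg.Agent.H1.Basic
import Cfsg.Agent.H9.SylowNum
-- import your own Cfsg.Agent.* helpers here

set_option autoImplicit false
open Cfsg

namespace Cfsg.Agent.S4153

/-- Let G be a finite group, p a prime, N a normal subgroup, P a Sylow p-subgroup of G and P̄ a Sylow p-subgroup of G/N. Count the elements of p-power order, the identity included. Then (number of such elements of G/N)/#P̄ ≤ (number of such elements of G)/#P, stated as a cross-multiplied inequality, with equality when N is central. -/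
theorem result {G : Type*} [Group G] [Finite G] (p : ℕ) [Fact p.Prime] (N : Subgroup G) [N.Normal]
    (P : Sylow p G) (Pbar : Sylow p (G ⧸ N)) :
    Nat.card {g : (G ⧸ N) // ∃ k : ℕ, orderOf g = p ^ k} * Nat.card (P : Subgroup G) ≤ Nat.card {g : G // ∃ k : ℕ, orderOf g = p ^ k} * Nat.card (Pbar : Subgroup (G ⧸ N)) ∧
    (N ≤ Subgroup.center G → Nat.card {g : (G ⧸ N) // ∃ k : ℕ, orderOf g = p ^ k} * Nat.card (P : Subgroup G) = Nat.card {g : G // ∃ k : ℕ, orderOf g = p ^ k} * Nat.card (Pbar : Subgroup (G ⧸ N))) := by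
  classical
  have hp : p.Prime := Fact.out
  haveI := Fintype.ofFinite G
  haveI := Fintype.ofFinite (G ⧸ N)
  have hcard : ∀ Q : Sylow p G, Nat.card (Q : Subgroup G) =
      Nat.card (Pbar : Subgroup (G ⧸ N)) * Nat.card ((Q : Subgroup G) ⊓ N : Subgroup G) := by
    intro Q
    rw [H9.card_sylow_eq_card Pbar (Q.mapSurjective (QuotientGroup.mk'_surjective N)),
      Sylow.coe_mapSurjective, ← L.relIndex_eq_card_map_mk', inf_comm, mul_comm,
      H1.card_inf_mul_relIndex]
  have hcard' : ∀ Q : Sylow p G, Nat.card ((Q : Subgroup G) ⊓ N : Subgroup G) =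
      Nat.card ((P : Subgroup G) ⊓ N : Subgroup G) := by
    intro Q
    refine Nat.eq_of_mul_eq_mul_left (Nat.card_pos (α := (Pbar : Subgroup (G ⧸ N)))) ?_
    rw [← hcard, ← hcard, H9.card_sylow_eq_card]
  set A := Finset.univ.filter (fun g : G => ∃ k : ℕ, orderOf g = p ^ k) with hA
  set B := Finset.univ.filter (fun g : G ⧸ N => ∃ k : ℕ, orderOf g = p ^ k) with hB
  have hAB : A.card = ∑ q ∈ B, (A.filter (fun g : G => (g : G ⧸ N) = q)).card := by
    refine Finset.card_eq_sum_card_fiberwise fun g hg => ?_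
    simp only [hA, hB, Finset.coe_filter, Finset.mem_univ, true_and, Set.mem_ofPred_eq] at hg ⊢
    obtain ⟨k, hk⟩ := hg
    have := orderOf_map_dvd (QuotientGroup.mk' N) g
    rw [hk] at this
    obtain ⟨i, -, hi⟩ := (Nat.dvd_prime_pow hp).1 this
    exact ⟨i, hi⟩
  have key : ∀ q ∈ B, Nat.card ((P : Subgroup G) ⊓ N : Subgroup G) ≤
      (A.filter (fun g : G => (g : G ⧸ N) = q)).card ∧ (N ≤ Subgroup.center G →
      (A.filter (fun g : G => (g : G ⧸ N) = q)).card =
        Nat.card ((P : Subgroup G) ⊓ N : Subgroup G)) := by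
    intro q hq
    obtain ⟨k, hk⟩ := (Finset.mem_filter.1 hq).2
    obtain ⟨x, ⟨m, hm⟩, rfl⟩ := H9.exists_pElement_map_eq (QuotientGroup.mk'_surjective N) hp hk
    obtain ⟨Q, hQ⟩ := (H8.isPGroup_zpowers_of_orderOf hm).exists_le_sylow
    have hxQ : x ∈ (Q : Subgroup G) := hQ (Subgroup.mem_zpowers x)
    rw [← hcard' Q, Nat.card_eq_fintype_card, Fintype.card_subtype,
      ← Finset.card_image_of_injective _ (mul_right_injective x)]
    have hsub : (Finset.univ.filter (fun g => g ∈ (Q : Subgroup G) ⊓ N)).image (fun g => x * g) ⊆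
        A.filter (fun g : G => (g : G ⧸ N) = QuotientGroup.mk' N x) := by
      intro y hy
      simp only [hA, Finset.mem_image, Finset.mem_filter, Finset.mem_univ, true_and] at hy ⊢
      obtain ⟨n, hn, rfl⟩ := hy
      exact ⟨H8.exists_orderOf_eq_pow_of_mem Q.isPGroup' (mul_mem hxQ hn.1),
        QuotientGroup.mk_mul_of_mem x hn.2⟩
    refine ⟨Finset.card_le_card hsub, fun hZ => ?_⟩
    congr 1
    refine Finset.Subset.antisymm (fun y hy => ?_) hsub
    simp only [hA, Finset.mem_image, Finset.mem_filter, Finset.mem_univ, true_and] at hy ⊢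
    obtain ⟨⟨j, hj⟩, hy⟩ := hy
    have hn : x⁻¹ * y ∈ N := QuotientGroup.eq.1 hy.symm
    refine ⟨x⁻¹ * y, ⟨?_, hn⟩, by group⟩
    have hc : Commute x⁻¹ y := by
      have h1 := Subgroup.mem_center_iff.1 (hZ hn) y
      exact (mul_right_cancel (b := y) (by rw [mul_assoc y, h1])).symm
    have h2 := hc.orderOf_mul_dvd_mul_orderOf
    rw [orderOf_inv, hm, hj, ← pow_add] at h2
    obtain ⟨i, -, hi⟩ := (Nat.dvd_prime_pow hp).1 h2
    exact H9.mem_sylow_of_mem_normalizer Q hi (Subgroup.center_le_normalizer _ (hZ hn))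
  have e1 : Nat.card {g : G // ∃ k : ℕ, orderOf g = p ^ k} = A.card := by
    rw [Nat.card_eq_fintype_card, Fintype.card_subtype]
  have e2 : Nat.card {g : G ⧸ N // ∃ k : ℕ, orderOf g = p ^ k} = B.card := by
    rw [Nat.card_eq_fintype_card, Fintype.card_subtype]
  rw [e1, e2, hcard P, hAB]
  constructor
  · rw [mul_comm (Nat.card _), ← mul_assoc]
    refine Nat.mul_le_mul_right _ ?_
    rw [← smul_eq_mul, ← Finset.sum_const]
    exact Finset.sum_le_sum fun q hq => (key q hq).1
  · intro hZ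
    rw [mul_comm (Nat.card _), ← mul_assoc, Finset.sum_congr rfl fun q hq => (key q hq).2 hZ,
      Finset.sum_const, smul_eq_mul]

end Cfsg.Agent.S4153
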