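import Cfsg.Statements.S4154
import Cfsg.Agent.H1.Basic

set_option autoImplicit false
open Cfsg

namespace Cfsg.Agent.S4154

/-- Let G be a finite group and α an automorphism of G such that every element of G is the product of an element fixed by α and an element of the form g⁻¹α(g). If N is a normal α-invariant subgroup, then the automorphism ᾱ induced on G/N has the same property, and every coset fixed by ᾱ contains an element fixed by α (so the fixed points of ᾱ are the images of the fixed points of α). -/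
theorem result {G : Type*} [Group G] [Finite G] (α : MulAut G)
    (hccp : ∀ x : G, ∃ c g : G, α c = c ∧ x = c * (g⁻¹ * α g))
    (N : Subgroup G) [N.Normal] (hN : ∀ n ∈ N, α n ∈ N) :
    (∀ x : G, ∃ c g : G, c⁻¹ * α c ∈ N ∧ x⁻¹ * (c * (g⁻¹ * α g)) ∈ N) ∧
    (∀ x : G, x⁻¹ * α x ∈ N → ∃ c : G, α c = c ∧ c⁻¹ * x ∈ N) := by
  refine ⟨fun x => ?_, fun x hx => ?_⟩
  · obtain ⟨c, g, hc, rfl⟩ := hccp x
    exact ⟨c, g, by rw [hc]; simp, by simp⟩
  · classical
    -- the induced automorphism on the quotient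
    let β : G ⧸ N →* G ⧸ N := QuotientGroup.map N N α.toMonoidHom (fun n hn => hN n hn)
    have hβ : ∀ g : G, β (g : G ⧸ N) = ((α g : G) : G ⧸ N) := fun g => rfl
    let C : Subgroup G := MonoidHom.eqLocus α.toMonoidHom (MonoidHom.id G)
    let Cb : Subgroup (G ⧸ N) := MonoidHom.eqLocus β (MonoidHom.id _)
    let A : Subgroup (G ⧸ N) := C.map (QuotientGroup.mk' N)
    have hA : A ≤ Cb := by
      rintro _ ⟨c, hc, rfl⟩
      have hc' : α c = c := hc
      show β (c : G ⧸ N) = (c : G ⧸ N)
      rw [hβ, hc']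
    -- the map from A × (right cosets of Cb) onto G/N
    let d : Quotient (QuotientGroup.rightRel Cb) → G ⧸ N :=
      Quotient.lift (fun g => g⁻¹ * β g) (fun a b hab => by
        have h1 : b * a⁻¹ ∈ Cb := QuotientGroup.rightRel_apply.1 hab
        have h2 : β (b * a⁻¹) = b * a⁻¹ := h1
        rw [map_mul, map_inv] at h2
        have h3 : β b = b * a⁻¹ * β a := by rw [← h2]; group
        show a⁻¹ * β a = b⁻¹ * β b
        rw [h3]; group)
    let F : A × Quotient (QuotientGroup.rightRel Cb) → G ⧸ N := fun q => q.1 * d q.2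
    have hF : Function.Surjective F := by
      intro y
      induction y using QuotientGroup.induction_on with | H y => ?_
      obtain ⟨c, g, hc, rfl⟩ := hccp y
      refine ⟨(⟨(c : G ⧸ N), c, hc, rfl⟩, Quotient.mk _ (g : G ⧸ N)), ?_⟩
      show (c : G ⧸ N) * ((g : G ⧸ N)⁻¹ * β g) = _
      rw [hβ]; rfl
    have h1 := Nat.card_le_card_of_surjective F hF
    rw [Nat.card_prod, Nat.card_congr (QuotientGroup.quotientRightRelEquivQuotientLeftRel Cb),
      ← Cb.card_mul_index] at h1
    have h2 : Nat.card Cb ≤ Nat.card A :=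
      Nat.le_of_mul_le_mul_right h1 (Nat.pos_of_ne_zero Subgroup.index_ne_zero_of_finite)
    have h3 : A = Cb := Subgroup.eq_of_le_of_card_ge hA h2
    have h4 : (x : G ⧸ N) ∈ Cb := by
      show β (x : G ⧸ N) = (x : G ⧸ N)
      rw [hβ, eq_comm, QuotientGroup.eq]
      exact hx
    rw [← h3] at h4
    obtain ⟨c, hc, hcx⟩ := h4
    exact ⟨c, hc, QuotientGroup.eq.1 hcx⟩

end Cfsg.Agent.S4154
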