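import Cfsg.Statements.S4155
import Cfsg.Agent.H9.FrobCompl
import Cfsg.Agent.H3.RankOne
import Cfsg.Agent.H8.PComplement
import Cfsg.Agent.L.MinNormal

set_option autoImplicit false
open Cfsg

namespace Cfsg.Agent.S4155

open Subgroup

/-- Let G be a finite group and N a proper non-trivial normal nilpotent subgroup whose order is not a prime power, such that for every x outside N all elements of the coset xN have the same order as x. Then N is the Fitting subgroup of G, and for every prime q every Sylow q-subgroup of G/N is cyclic or generalized quaternion. -/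
theorem result {G : Type*} [Group G] [Finite G] (N : Subgroup G) [N.Normal] (hN1 : N ≠ ⊥) (hN2 : N ≠ ⊤)
    (heq : ∀ x : G, x ∉ N → ∀ n ∈ N, orderOf (x * n) = orderOf x)
    (hnil : Group.IsNilpotent N) (hnpp : ¬ IsPrimePow (Nat.card N)) :
    N = Cfsg.fittingSubgroup G ∧
    ∀ (q : ℕ) [Fact q.Prime] (Q : Sylow q (G ⧸ N)), IsCyclic (Q : Subgroup (G ⧸ N)) ∨ ∃ n : ℕ, Nonempty ((Q : Subgroup (G ⧸ N)) ≃* QuaternionGroup (2 ^ n)) := by
  have hNF : N ≤ fittingSubgroup G := L.le_fittingSubgroup inferInstance hnil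
  have hr : ∀ q : ℕ, q.Prime → ∃ r : ℕ, r.Prime ∧ r ≠ q ∧ r ∣ Nat.card N := by
    intro q hq
    by_contra h
    push Not at h
    apply hnpp
    have h0 : Nat.card N ≠ 0 := Nat.card_pos.ne'
    have h1 := Nat.eq_prime_pow_of_unique_prime_dvd (p := q) h0 (fun {d} hd hdd => by
      by_contra hne; exact h d hd hne hdd)
    refine (isPrimePow_nat_iff _).2 ⟨q, _, hq, ?_, h1.symm⟩
    rw [Nat.pos_iff_ne_zero]
    intro h2
    rw [h2, pow_zero] at h1
    exact hN1 (card_eq_one.1 h1)
  have hfpf : ∀ q r : ℕ, q.Prime → r.Prime → r ≠ q → ∀ x : G, x ∉ N → (∃ k, orderOf x = q ^ k) →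
      ∀ v ∈ N, v ∈ pCore r G → Commute x v → v = 1 := by
    rintro q r hq hr hne x hx ⟨k, hk⟩ v hv hv' hc
    haveI := Fact.mk hr
    obtain ⟨j, hj⟩ := H8.exists_orderOf_eq_pow_of_mem (L.isPGroup_pCore r) hv'
    have h1 := heq x hx v hv
    rw [hc.orderOf_mul_eq_mul_orderOf_of_coprime (by
      rw [hk, hj]; exact Nat.coprime_pow_primes k j hq hr hne.symm)] at h1
    exact orderOf_eq_one_iff.1 (Nat.eq_of_mul_eq_mul_left (orderOf_pos x) (by rw [h1, mul_one]))
  have hR : ∀ r : ℕ, r.Prime → r ∣ Nat.card N → pCore r G ⊓ N ≠ ⊥ := by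
    intro r hr hd h
    haveI := Fact.mk hr
    obtain ⟨v, hv⟩ := exists_prime_orderOf_dvd_card' (G := N) r hd
    have h1 : (v : G) ∈ pCore r G ⊓ N := by
      refine mem_inf.2 ⟨L.mem_pCore_of_mem_fittingSubgroup hr (k := 1) ?_ (hNF v.2), v.2⟩
      rw [pow_one, ← hv, ← coe_pow, pow_orderOf_eq_one, coe_one]
    rw [h, mem_bot] at h1
    have : v = 1 := Subtype.ext h1
    rw [this, orderOf_one] at hv
    exact hr.one_lt.ne hv
  refine ⟨le_antisymm hNF ?_, fun q hq Q => ?_⟩
  · rw [L.fittingSubgroup_eq_iSup_pCore, iSup_le_iff]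
    intro q x hx
    by_contra hxN
    obtain ⟨r, hr1, hr2, hr3⟩ := hr q q.2
    apply hR r hr1 hr3
    rw [eq_bot_iff]
    intro v hv
    haveI := Fact.mk q.2
    refine hfpf q r q.2 hr1 hr2 x hxN (H8.exists_orderOf_eq_pow_of_mem (L.isPGroup_pCore q) hx)
      v hv.2 hv.1 ?_
    exact L.pPrimeCore_le_centralizer_pCore q.2 (L.pCore_le_pPrimeCore hr1 q.2 hr2 hv.1) x hx
  · obtain ⟨r, hr1, hr2, hr3⟩ := hr q hq.out
    let V : Subgroup G := (pCore r G ⊓ N) ⊓ centralizer (N : Set G)
    have hV : V ≠ ⊥ := L.inf_centralizer_ne_bot_of_isNilpotent inf_le_right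
      le_normalizer_of_normal (hR r hr1 hr3)
    haveI := (nontrivial_iff_ne_bot V).2 hV
    let φ : G ⧸ N →* MulAut V := QuotientGroup.lift N (MulAut.conjNormal (H := V)) (by
      intro n hn
      rw [MonoidHom.mem_ker]
      ext v
      simp only [MulAut.conjNormal_apply, MulAut.one_apply]
      rw [v.2.2 n hn]; simp)
    have hφ : H9.IsFrobAction (φ.comp (Q : Subgroup (G ⧸ N)).subtype) := by
      intro a ha v hv
      obtain ⟨y, hy⟩ := QuotientGroup.mk_surjective (a : G ⧸ N)
      obtain ⟨x, b, hx, hb, e, hc, hk, hcop⟩ := H8.exists_pPart_pPrimePart hq.out y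
      have hyv : y * v = v * y := by
        have h1 : φ (y : G ⧸ N) v = v := by rw [hy]; exact hv
        have h2 : y * v * y⁻¹ = v := congrArg Subtype.val h1
        exact mul_inv_eq_iff_eq_mul.1 h2
      have hbN : b ∈ N := by
        rw [← QuotientGroup.eq_one_iff]
        have h1 : (b : G ⧸ N) ∈ (Q : Subgroup (G ⧸ N)) := by
          obtain ⟨i, rfl⟩ := hb
          simp only [QuotientGroup.mk_zpow, hy]
          exact zpow_mem a.2 i
        obtain ⟨j, hj⟩ := H8.exists_orderOf_eq_pow_of_mem Q.isPGroup' h1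
        exact H8.eq_one_of_orderOf_pow_of_coprime hj
          (hcop.coprime_dvd_left (orderOf_map_dvd (QuotientGroup.mk' N) b))
      have hxN : x ∉ N := by
        intro h
        apply ha
        apply Subtype.ext
        rw [← hy, e]
        exact (QuotientGroup.eq_one_iff _).2 (N.mul_mem h hbN)
      refine Subtype.ext (hfpf q r hq.out hr1 hr2 x hxN hk v v.2.1.2 v.2.1.1 ?_)
      obtain ⟨i, rfl⟩ := hx
      exact (show Commute y v from hyv).zpow_left i
    rcases H3.isCyclic_or_quaternion_of_abelian_cyclic Q.isPGroup' (fun A hA =>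
      (hφ.subtype A).isCyclic_of_comm) with h | ⟨-, k, -, h⟩
    · exact Or.inl h
    · exact Or.inr ⟨k, h⟩

end Cfsg.Agent.S4155
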