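import Cfsg.Statements.S4156


set_option autoImplicit false
open Cfsg

namespace Cfsg.Agent.S4156

/-- embedding of `F^n` onto the sum-zero vectors of `F^(n+1)` -/
noncomputable def iota (n : ℕ) (F : Type*) [Field F] : (Fin n → F) →ₗ[F] (Fin (n + 1) → F) where
  toFun x := Fin.snoc (α := fun _ => F) x (-∑ i, x i)
  map_add' x y := by
    ext j
    refine Fin.lastCases ?_ (fun j => ?_) j
    · simp [Finset.sum_add_distrib, add_comm]
    · simp
  map_smul' c x := by
    ext j
    refine Fin.lastCases ?_ (fun j => ?_) j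
    · simp [Finset.mul_sum]
    · simp

theorem iota_castSucc (n : ℕ) (F : Type*) [Field F] (x : Fin n → F) (i : Fin n) :
    iota n F x i.castSucc = x i := by simp [iota]

theorem sum_iota (n : ℕ) (F : Type*) [Field F] (x : Fin n → F) : ∑ j, iota n F x j = 0 := by
  rw [Fin.sum_univ_castSucc]
  simp [iota]

theorem iota_restrict (n : ℕ) (F : Type*) [Field F] (v : Fin (n + 1) → F) (hv : ∑ j, v j = 0) :
    iota n F (fun i => v i.castSucc) = v := by
  ext j
  refine Fin.lastCases ?_ (fun j => ?_) j
  · rw [Fin.sum_univ_castSucc] at hv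
    simp only [iota, LinearMap.coe_mk, AddHom.coe_mk, Fin.snoc_last]
    linear_combination -hv
  · simp [iota]

/-- the deleted permutation module -/
noncomputable def rho (n : ℕ) (F : Type*) [Field F] :
    Equiv.Perm (Fin (n + 1)) →* Module.End F (Fin n → F) where
  toFun σ := (LinearMap.funLeft F F Fin.castSucc).comp
    ((LinearMap.funLeft F F σ.symm).comp (iota n F))
  map_one' := by
    refine LinearMap.ext fun x => funext fun i => ?_
    exact iota_castSucc n F x i
  map_mul' σ τ := by
    refine LinearMap.ext fun x => funext fun i => ?_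
    show iota n F x ((σ * τ).symm i.castSucc) =
      iota n F (fun i => (fun j => iota n F x (τ.symm j)) i.castSucc) (σ.symm i.castSucc)
    rw [iota_restrict n F (fun j => iota n F x (τ.symm j))]
    · rfl
    · rw [Equiv.sum_comp τ.symm (iota n F x), sum_iota]

theorem rho_apply (n : ℕ) (F : Type*) [Field F] (σ : Equiv.Perm (Fin (n + 1))) (x : Fin n → F)
    (i : Fin n) : rho n F σ x i = iota n F x (σ.symm i.castSucc) := rfl

/-- Let n ≥ 5 and F a finite field. Then the projective special linear group PSL_n(F) contains a subgroup isomorphic to the alternating group of degree n + 1. -/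
theorem result (n : ℕ) (hn : 5 ≤ n) (F : Type*) [Field F] [Finite F] :
    ∃ f : alternatingGroup (Fin (n + 1)) →* Matrix.ProjectiveSpecialLinearGroup (Fin n) F, Function.Injective f := by
  classical
  have h5 : 5 ≤ Nat.card (Fin (n + 1)) := by simp; omega
  have := alternatingGroup.isSimpleGroup h5
  let M : alternatingGroup (Fin (n + 1)) →* Matrix (Fin n) (Fin n) F :=
    ((LinearMap.toMatrixAlgEquiv' (R := F) (n := Fin n)).toMonoidHom.comp (rho n F)).comp
      (alternatingGroup (Fin (n + 1))).subtype
  have hM : ∀ σ : alternatingGroup (Fin (n + 1)), ∀ i j, M σ i j =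
      iota n F (Pi.single j 1) ((σ : Equiv.Perm (Fin (n + 1))).symm i.castSucc) := by
    intro σ i j
    show LinearMap.toMatrixAlgEquiv' (rho n F σ) i j = _
    rw [LinearMap.toMatrixAlgEquiv'_apply, rho_apply]
  have hdet : ∀ σ, (M σ).det = 1 := by
    intro σ
    let d : alternatingGroup (Fin (n + 1)) →* Fˣ := (Matrix.detMonoidHom.comp M).toHomUnits
    have h1 := Abelianization.commutator_subset_ker d
    rw [commutator_alternatingGroup_eq_top h5] at h1
    have h2 : d σ = 1 := h1 (Subgroup.mem_top σ)
    exact congrArg Units.val h2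
  let M' : alternatingGroup (Fin (n + 1)) →* Matrix.SpecialLinearGroup (Fin n) F :=
    { toFun := fun σ => ⟨M σ, hdet σ⟩
      map_one' := Subtype.ext (map_one M)
      map_mul' := fun σ τ => Subtype.ext (map_mul M σ τ) }
  refine ⟨(QuotientGroup.mk' _).comp M', ?_⟩
  rw [← MonoidHom.ker_eq_bot_iff]
  refine (Subgroup.Normal.eq_bot_or_eq_top inferInstance).resolve_right fun h => ?_
  let a : Fin n := ⟨0, by omega⟩
  let b : Fin n := ⟨1, by omega⟩
  let c : Fin n := ⟨2, by omega⟩
  have hab : a ≠ b := by simp [a, b]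
  have hac : a ≠ c := by simp [a, c]
  have hbc : b ≠ c := by simp [b, c]
  have hab' : a.castSucc ≠ b.castSucc := fun h => hab (Fin.castSucc_injective _ h)
  have hac' : a.castSucc ≠ c.castSucc := fun h => hac (Fin.castSucc_injective _ h)
  have hbc' : b.castSucc ≠ c.castSucc := fun h => hbc (Fin.castSucc_injective _ h)
  let σ : alternatingGroup (Fin (n + 1)) :=
    ⟨Equiv.swap a.castSucc b.castSucc * Equiv.swap b.castSucc c.castSucc, by
      rw [Equiv.Perm.mem_alternatingGroup, map_mul, Equiv.Perm.sign_swap hab',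
        Equiv.Perm.sign_swap hbc']
      simp⟩
  have h1 : σ ∈ ((QuotientGroup.mk' (Subgroup.center (Matrix.SpecialLinearGroup (Fin n) F))).comp
      M').ker := by rw [h]; trivial
  rw [MonoidHom.mem_ker, MonoidHom.comp_apply, QuotientGroup.mk'_apply, QuotientGroup.eq_one_iff,
    Matrix.SpecialLinearGroup.mem_center_iff] at h1
  obtain ⟨r, -, hr⟩ := h1
  have h2 : Matrix.scalar (Fin n) r b a = M σ b a := congrFun (congrFun hr b) a
  rw [hM] at h2
  have h3 : (σ : Equiv.Perm (Fin (n + 1))).symm b.castSucc = a.castSucc := by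
    rw [Equiv.symm_apply_eq]
    show b.castSucc = Equiv.swap a.castSucc b.castSucc (Equiv.swap b.castSucc c.castSucc a.castSucc)
    rw [Equiv.swap_apply_of_ne_of_ne hab' hac', Equiv.swap_apply_left]
  rw [h3, iota_castSucc] at h2
  simp [hab.symm] at h2

end Cfsg.Agent.S4156
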