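import Cfsg.Statements.S4157
import Cfsg.Agent.H4.SubCount2
import Cfsg.Agent.H2.MaxClass

set_option autoImplicit false
open Cfsg

namespace Cfsg.Agent.S4157

open Subgroup Cfsg.Agent.H4
open scoped commutatorElement Pointwise

variable {G : Type*} [Group G]

theorem even_card_cyclic [Finite G] (Q : Subgroup G → Prop) (n : ℕ) (ρ : G)
    (h : ∀ x : G, orderOf x = n → Q (zpowers x) → orderOf (x * ρ) = n ∧ Q (zpowers (x * ρ)) ∧
      zpowers (x * ρ * ρ) = zpowers x ∧ ρ ∉ zpowers x ∧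
        ∀ y, zpowers y = zpowers x → y * ρ ∈ zpowers (x * ρ)) :
    2 ∣ Nat.card {C : Subgroup G // (IsCyclic C ∧ Nat.card C = n) ∧ Q C} := by
  classical
  have hgen : ∀ C : {C : Subgroup G // (IsCyclic C ∧ Nat.card C = n) ∧ Q C},
      ∃ x, zpowers x = C.1 := fun C => (Subgroup.isCyclic_iff_exists_zpowers_eq_top C.1).1 C.2.1.1
  choose g hg using hgen
  have hord : ∀ C, orderOf (g C) = n := fun C => by rw [← Nat.card_zpowers, hg, C.2.1.2]
  have hQ : ∀ C, Q (zpowers (g C)) := fun C => by rw [hg]; exact C.2.2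
  let f : {C : Subgroup G // (IsCyclic C ∧ Nat.card C = n) ∧ Q C} →
      {C : Subgroup G // (IsCyclic C ∧ Nat.card C = n) ∧ Q C} := fun C =>
    ⟨zpowers (g C * ρ), ⟨inferInstance, by
      rw [Nat.card_zpowers]; exact (h _ (hord C) (hQ C)).1⟩, (h _ (hord C) (hQ C)).2.1⟩
  have hf : Function.Involutive f := by
    intro C
    apply Subtype.ext
    obtain ⟨h1, h2, h3, -, -⟩ := h _ (hord C) (hQ C)
    have h4 := (h _ h1 h2).2.2.2.2 (g (f C)) (hg (f C))
    rw [h3, hg] at h4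
    refine eq_of_le_of_card_ge ((zpowers_le).2 h4) ?_
    rw [C.2.1.2, (f (f C)).2.1.2]
  have := Fintype.ofFinite {C : Subgroup G // (IsCyclic C ∧ Nat.card C = n) ∧ Q C}
  have h1 := Equiv.Perm.card_fixedPoints_modEq (f := f) (p := 2)
    (n := 1) (funext hf)
  have h2 : IsEmpty (Function.fixedPoints f) := ⟨fun C => by
    have h3 : zpowers (g C.1 * ρ) = C.1.1 := congrArg Subtype.val C.2
    refine (h _ (hord C.1) (hQ C.1)).2.2.2.1 ?_
    rw [← hg] at h3
    exact (mul_mem_cancel_left (mem_zpowers _)).1 (h3 ▸ mem_zpowers (g C.1 * ρ))⟩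
  rw [Fintype.card_eq_zero (α := Function.fixedPoints _)] at h1
  rw [Nat.card_eq_fintype_card]
  exact (Nat.modEq_zero_iff_dvd).1 h1

theorem orderOf_eq_of_pow_eq {x y : G} {j : ℕ} (hx : orderOf x = 2 ^ (j + 1))
    (h : y ^ 2 ^ j = x ^ 2 ^ j) : orderOf y = 2 ^ (j + 1) := by
  refine orderOf_eq_prime_pow ?_ ?_
  · rw [h]
    refine pow_ne_one_of_lt_orderOf (by positivity) ?_
    rw [hx]; exact Nat.pow_lt_pow_right one_lt_two j.lt_succ_self
  · rw [pow_succ, pow_mul, h, ← pow_mul, ← pow_succ, ← hx, pow_orderOf_eq_one]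

theorem eq_pow_of_mem_zpowers {x z : G} {j : ℕ} (hx : orderOf x = 2 ^ (j + 1))
    (hz : orderOf z = 2) (h : z ∈ zpowers x) : z = x ^ 2 ^ j := by
  have hfin : IsOfFinOrder x := orderOf_pos_iff.1 (hx ▸ by positivity)
  obtain ⟨k, rfl⟩ := hfin.mem_powers_iff_mem_zpowers.2 h
  simp only at hz ⊢
  have h1 : 2 ^ (j + 1) ∣ k * 2 := by
    rw [← hx, orderOf_dvd_iff_pow_eq_one, pow_mul, ← hz, pow_orderOf_eq_one]
  rw [pow_succ] at h1
  obtain ⟨l, rfl⟩ := Nat.dvd_of_mul_dvd_mul_right two_pos h1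
  have h2 : (x ^ 2 ^ j) ^ 2 = 1 := by rw [← pow_mul, ← pow_succ, ← hx, pow_orderOf_eq_one]
  rcases Nat.even_or_odd' l with ⟨t, rfl | rfl⟩
  · rw [pow_mul, pow_mul, h2, one_pow, orderOf_one] at hz
    omega
  · rw [pow_mul, pow_succ, pow_mul, h2, one_pow, one_mul]

theorem exists_odd_pow [Finite G] {x y : G} {j : ℕ} (hx : orderOf x = 2 ^ (j + 1))
    (h : zpowers y = zpowers x) : ∃ u : ℕ, y = x ^ (2 * u + 1) := by
  obtain ⟨k, rfl⟩ := mem_powers_iff_mem_zpowers.2 (h ▸ mem_zpowers y : y ∈ zpowers x)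
  simp only at h ⊢
  rcases Nat.even_or_odd' k with ⟨t, rfl | rfl⟩
  · exfalso
    have h1 : orderOf (x ^ (2 * t)) = 2 ^ (j + 1) := by
      rw [← Nat.card_zpowers, h, Nat.card_zpowers, hx]
    have h2 : orderOf (x ^ (2 * t)) ∣ 2 ^ j := by
      rw [orderOf_dvd_iff_pow_eq_one, ← pow_mul, mul_right_comm, ← pow_succ', pow_mul, ← hx,
        pow_orderOf_eq_one, one_pow]
    rw [h1, Nat.pow_dvd_pow_iff_le_right one_lt_two] at h2
    omega
  · exact ⟨t, rfl⟩

theorem mem_zpowers_two {z g : G} (hz : orderOf z = 2) (h : g ∈ zpowers z) : g = 1 ∨ g = z := by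
  have hfin : IsOfFinOrder z := orderOf_pos_iff.1 (hz ▸ two_pos)
  obtain ⟨k, rfl⟩ := hfin.mem_powers_iff_mem_zpowers.2 h
  have h2 : z ^ 2 = 1 := hz ▸ pow_orderOf_eq_one z
  rcases Nat.even_or_odd' k with ⟨t, rfl | rfl⟩
  · left; simp only; rw [pow_mul, h2, one_pow]
  · right; simp only; rw [pow_succ, pow_mul, h2, one_pow, one_mul]

theorem even_not_mem [Finite G] {z : G} (hz : orderOf z = 2) (hc : z ∈ center G) (j : ℕ) :
    2 ∣ Nat.card {C : Subgroup G // (IsCyclic C ∧ Nat.card C = 2 ^ (j + 2)) ∧ ¬ z ∈ C} := by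
  have h2 : z ^ 2 = 1 := hz ▸ pow_orderOf_eq_one z
  refine even_card_cyclic (fun C => z ∉ C) _ z fun x hx hzx => ?_
  have hcm : Commute x z := mem_center_iff.1 hc x
  have h1 : (x * z) ^ 2 ^ (j + 1) = x ^ 2 ^ (j + 1) := by
    rw [hcm.mul_pow, pow_succ' 2 j, pow_mul z, h2, one_pow, mul_one]
  have h3 := orderOf_eq_of_pow_eq hx h1
  refine ⟨h3, fun h => hzx ?_, by rw [mul_assoc, ← pow_two, h2, mul_one], hzx, fun y hy => ?_⟩
  · rw [eq_pow_of_mem_zpowers h3 hz h, h1]
    exact pow_mem (mem_zpowers x) _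
  · obtain ⟨u, rfl⟩ := exists_odd_pow hx hy
    refine ⟨(2 * u + 1 : ℕ), ?_⟩
    simp only [zpow_natCast]
    rw [hcm.mul_pow, pow_succ z, pow_mul z, h2, one_pow, one_mul]

theorem even_mem [Finite G] {z : G} (hz : orderOf z = 2) (hc : z ∈ center G) (j : ℕ) {ρ : G}
    (hρ : ∀ g : G, ρ * g * ρ⁻¹ * g⁻¹ ∈ zpowers z) (hρ2 : ρ ^ 2 ∈ zpowers z)
    (Q : Subgroup G → Prop) (h : ∀ x : G, orderOf x = 2 ^ (j + 2) → x ^ 2 ^ (j + 1) = z →
      Q (zpowers x) → (x * ρ) ^ 2 ^ (j + 1) = z ∧ Q (zpowers (x * ρ)) ∧ ρ ∉ zpowers x) :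
    2 ∣ Nat.card {C : Subgroup G // (IsCyclic C ∧ Nat.card C = 2 ^ (j + 2)) ∧ (z ∈ C ∧ Q C)} := by
  have h2 : z ^ 2 = 1 := hz ▸ pow_orderOf_eq_one z
  have hn := H3.zpowers_normal_of_mem_center hc
  refine even_card_cyclic (fun C => z ∈ C ∧ Q C) _ ρ fun x hx hzx => ?_
  have h0 := (eq_pow_of_mem_zpowers hx hz hzx.1).symm
  obtain ⟨h1, h3, h4⟩ := h x hx h0 hzx.2
  have h5 : z ∈ zpowers (x * ρ) := h1 ▸ pow_mem (mem_zpowers _) _
  refine ⟨orderOf_eq_of_pow_eq hx (h1.trans h0.symm), ⟨h5, h3⟩, ?_, h4, fun y hy => ?_⟩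
  · rw [mul_assoc, ← pow_two]
    rcases mem_zpowers_two hz hρ2 with h6 | h6
    · rw [h6, mul_one]
    · rw [h6]
      refine eq_of_le_of_card_ge ((zpowers_le).2 (mul_mem (mem_zpowers x) hzx.1)) ?_
      have hcm : Commute x z := mem_center_iff.1 hc x
      rw [Nat.card_zpowers, Nat.card_zpowers, hx, orderOf_eq_of_pow_eq hx]
      rw [hcm.mul_pow, pow_succ' 2 j, pow_mul z, h2, one_pow, mul_one]
  · obtain ⟨u, rfl⟩ := exists_odd_pow hx hy
    have hcm : Commute (x : G ⧸ zpowers z) (ρ : G ⧸ zpowers z) := by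
      have := (QuotientGroup.eq_one_iff _).2 (hρ x)
      simp only [QuotientGroup.mk_mul, QuotientGroup.mk_inv] at this
      rw [mul_inv_eq_one, mul_inv_eq_iff_eq_mul] at this
      exact this.symm
    have h6 : (ρ : G ⧸ zpowers z) ^ 2 = 1 := (QuotientGroup.eq_one_iff _).2 hρ2
    have h7 : (((x * ρ) ^ (2 * u + 1) : G) : G ⧸ zpowers z) = ((x ^ (2 * u + 1) * ρ : G) : G ⧸ _) := by
      simp only [QuotientGroup.mk_mul, QuotientGroup.mk_pow]
      rw [hcm.mul_pow, pow_succ (ρ : G ⧸ zpowers z), pow_mul (ρ : G ⧸ zpowers z), h6, one_pow,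
        one_mul]
    have h8 := (zpowers_le.2 h5) (QuotientGroup.eq.1 h7)
    exact (mul_mem_cancel_left (inv_mem (pow_mem (mem_zpowers _) _))).1 h8

theorem nilpotencyClass_eq [Finite G] {n : ℕ} (hn : 2 ≤ n) (hG : Nat.card G = 2 ^ (n + 1))
    {x y : G} (hx : orderOf x = 2 ^ n) {e : ℤ} (h : y * x * y⁻¹ = x ^ (2 * e + 1)) (he : Odd e) :
    Group.nilpotencyClass G = n := by
  have hP : IsPGroup 2 G := IsPGroup.of_card hG
  have := hP.isNilpotent
  have h1 : ∀ i : ℕ, x ^ (2 * e) ^ i ∈ H2.lcs G i := by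
    intro i
    induction i with
    | zero => exact mem_top _
    | succ i ih =>
      have := H2.commutator_mem_lcs_succ' ih y
      rwa [commutatorElement_def, H3.conj_zpow_of_conj h, ← zpow_sub,
        show (2 * e + 1) * (2 * e) ^ i - (2 * e) ^ i = (2 * e) ^ (i + 1) by ring] at this
  apply le_antisymm
  · rw [← Subgroup.lowerCentralSeries_eq_bot_iff_nilpotencyClass_le]
    by_contra hne
    have := H2.pow_le_card_of_lcs_ne_bot hP (by omega) hne
    rw [hG, Nat.pow_le_pow_iff_right one_lt_two] at this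
    omega
  · by_contra hlt
    have h2 : H2.lcs G (n - 1) = ⊥ :=
      Subgroup.lowerCentralSeries_eq_bot_iff_nilpotencyClass_le.2 (by omega)
    have h3 := h1 (n - 1)
    rw [h2, mem_bot, ← orderOf_dvd_iff_zpow_eq_one, hx, mul_pow] at h3
    obtain ⟨k, rfl⟩ := Nat.exists_eq_add_of_le' (by omega : 1 ≤ n)
    rw [Nat.add_sub_cancel] at h3
    push_cast at h3
    rw [pow_succ] at h3
    have h4 := Int.dvd_of_mul_dvd_mul_left (by positivity) h3
    exact (Int.not_even_iff_odd.2 (he.pow (n := k))) (even_iff_two_dvd.2 h4)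

theorem comm_or {z ρ : G} (hz : orderOf z = 2)
    (hρ : ∀ g : G, ρ * g * ρ⁻¹ * g⁻¹ ∈ zpowers z) (g : G) : ρ * g = g * ρ ∨ ρ * g = z * (g * ρ) := by
  rcases mem_zpowers_two hz (hρ g) with h | h
  · left
    rwa [mul_inv_eq_one, mul_inv_eq_iff_eq_mul] at h
  · right
    rw [← h]; group

theorem le_centralizer_iff' {x ρ : G} : zpowers x ≤ centralizer ({ρ} : Set G) ↔ x * ρ = ρ * x := by
  rw [zpowers_le, mem_centralizer_singleton_iff]

theorem even_mem_four [Finite G] {z r : G} (hz : orderOf z = 2) (hc : z ∈ center G) {ρ : G}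
    (hρ : ∀ g : G, ρ * g * ρ⁻¹ * g⁻¹ ∈ zpowers z) (hρ2 : ρ ^ 2 ∈ zpowers z)
    (hρr : ρ * r = r * ρ) (hρz : ρ ∉ zpowers z) :
    2 ∣ Nat.card {C : Subgroup G // (IsCyclic C ∧ Nat.card C = 2 ^ (0 + 2)) ∧ (z ∈ C ∧
      (¬ C ≤ centralizer ({r} : Set G) ∧ (C ≤ centralizer ({ρ} : Set G) ↔ ρ ^ 2 = 1)))} := by
  have h2 : z ^ 2 = 1 := hz ▸ pow_orderOf_eq_one z
  have hz1 : z ≠ 1 := fun h => by rw [h, orderOf_one] at hz; omega
  refine even_mem hz hc 0 hρ hρ2 _ fun x hx hx2 hQ => ?_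
  simp only [le_centralizer_iff'] at hQ ⊢
  simp only [zero_add, pow_one] at hx2 ⊢
  obtain ⟨h3, h4⟩ := hQ
  refine ⟨?_, ⟨fun h => h3 ?_, ?_⟩, fun h => ?_⟩
  · rcases comm_or hz hρ x with h | h
    · rw [(show Commute x ρ from h.symm).mul_pow, hx2, h4.1 h.symm, mul_one]
    · have h5 : ρ ^ 2 = z := (mem_zpowers_two hz hρ2).resolve_left fun h5 => hz1 (by
        rw [← h4.2 h5] at h
        simpa using h.symm)
      calc (x * ρ) ^ 2 = x * (ρ * x) * ρ := by rw [pow_two]; group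
        _ = (x * z) * x * (ρ * ρ) := by rw [h]; group
        _ = z * x ^ 2 * ρ ^ 2 := by rw [mem_center_iff.1 hc x, pow_two, pow_two]; group
        _ = z := by rw [hx2, h5, ← pow_two, h2, one_mul]
  · rw [mul_assoc, hρr, ← mul_assoc, ← mul_assoc] at h
    exact mul_right_cancel h
  · rw [← h4, ← mul_assoc]
    exact mul_left_inj ρ
  · obtain ⟨k, hk⟩ := mem_powers_iff_mem_zpowers.2 h
    simp only at hk
    rcases Nat.even_or_odd' k with ⟨t, rfl | rfl⟩
    · rw [pow_mul, hx2] at hk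
      exact hρz (hk ▸ pow_mem (mem_zpowers z) t)
    · rw [pow_succ, pow_mul, hx2] at hk
      apply h3
      have h5 : z ^ t ∈ center G := pow_mem hc t
      rw [← hk, mul_assoc, ← mul_assoc r, mem_center_iff.1 h5 r, mul_assoc] at hρr
      exact mul_left_cancel hρr

theorem even_card_cyclic_of_class [Finite G] {m : ℕ} (hG : Nat.card G = 2 ^ m) (hnc : ¬ IsCyclic G)
    (h2 : Group.nilpotencyClass G ≠ m - 1) (j : ℕ) :
    2 ∣ Nat.card {C : Subgroup G // IsCyclic C ∧ Nat.card C = 2 ^ (j + 2)} := by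
  have hP : IsPGroup 2 G := IsPGroup.of_card hG
  have hcl : ∀ (n : ℕ) (x y : G) (e : ℤ), 2 ≤ n → orderOf x = 2 ^ n → (zpowers x).index = 2 →
      y * x * y⁻¹ = x ^ (2 * e + 1) → Odd e → False := by
    intro n x y e hn hx hi h he
    have h1 : Nat.card G = 2 ^ (n + 1) := by
      rw [← (zpowers x).card_mul_index, Nat.card_zpowers, hx, hi, pow_succ]
    apply h2
    rw [nilpotencyClass_eq hn h1 hx h he, Nat.pow_right_injective le_rfl (hG.symm.trans h1),
      Nat.add_sub_cancel]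
  by_cases hA : ∀ A : Subgroup G, A.Normal → IsMulCommutative A → IsCyclic A
  · exfalso
    rcases H3.normal_abelian_cyclic_cases hP hA with h | ⟨-, n, x, y, hn, hx, hi, -, h⟩
    · exact hnc h
    rcases h with ⟨-, h⟩ | ⟨-, h⟩ | ⟨h3, -, h⟩
    · exact hcl n x y (-1) hn hx hi (by simpa using h) (by decide)
    · exact hcl n x y (-1) hn hx hi (by simpa using h) (by decide)
    · obtain ⟨k, rfl⟩ := Nat.exists_eq_add_of_le' h3
      refine hcl _ x y (2 ^ (k + 1) - 1) hn hx hi ?_ ?_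
      · rw [h, ← zpow_natCast]
        congr 1
        rw [Nat.cast_sub Nat.one_le_two_pow]
        push_cast
        ring
      · exact Even.sub_odd (by simp [pow_succ]) odd_one
  push Not at hA
  obtain ⟨A, hA1, hA2, hA3⟩ := hA
  obtain ⟨E, hE1, -, hE2, hE3⟩ := H3.exists_normal_elementary_sq_le hP A hA2 hA3
  obtain ⟨z, hzE, hc, hz⟩ := H3.exists_central_orderOf_eq_prime hP E (by
    rintro rfl
    simp at hE3)
  have hZ := H3.zpowers_normal_of_mem_center hc
  have hz2 : z ^ 2 = 1 := hz ▸ pow_orderOf_eq_one z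
  have hz1 : z ≠ 1 := fun h => by rw [h, orderOf_one] at hz; omega
  have hex : ∀ (N : Subgroup G) [N.Normal], zpowers z < N → ∃ w ∈ N, w ∉ zpowers z ∧
      w ^ 2 ∈ zpowers z ∧ ∀ g : G, w * g * w⁻¹ * g⁻¹ ∈ zpowers z := by
    intro N _ hN
    obtain ⟨K, -, h1, h3, h4, h5⟩ := H3.exists_normal_card_eq_mul hP hN
    have h6 : ¬ K ≤ zpowers z := fun h => by
      have := card_le_of_le h
      have := Nat.card_pos (α := zpowers z)
      omega
    obtain ⟨w, hw, hw'⟩ := SetLike.not_le_iff_exists.1 h6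
    refine ⟨w, h3 hw, hw', ?_, h5 w hw⟩
    have h7 : (zpowers z).relIndex K = 2 := by
      have := H1.card_mul_relIndex h1
      rw [h4, mul_comm] at this
      exact Nat.eq_of_mul_eq_mul_right Nat.card_pos this
    exact sq_mem_of_index_two h7 ⟨w, hw⟩
  obtain ⟨r, hrE, hrz, -, hr⟩ := hex E (lt_of_le_of_ne ((zpowers_le).2 hzE) fun h => by
    rw [← h, Nat.card_zpowers, hz] at hE3
    omega)
  have hr2 : r ^ 2 = 1 := hE2.2 r hrE
  have hr1 : orderOf r = 2 := orderOf_eq_prime hr2 fun h => hrz (h ▸ one_mem _)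
  have hrx : ∀ x : G, orderOf x = 2 ^ (j + 2) → x ^ 2 ^ (j + 1) = z → r ∉ zpowers x :=
    fun x hx hxz h => hrz (by rw [eq_pow_of_mem_zpowers hx hr1 h, hxz]; exact mem_zpowers z)
  rw [card_subtype_eq_add (fun C : Subgroup G => IsCyclic C ∧ Nat.card C = 2 ^ (j + 2))
    (fun C => z ∈ C)]
  refine Nat.dvd_add ?_ (even_not_mem hz hc j)
  rcases Nat.eq_zero_or_pos j with rfl | hj
  swap
  · have := even_mem hz hc j hr (hr2 ▸ one_mem _) (fun _ => True) fun x hx hxz _ => by
      refine ⟨?_, trivial, hrx x hx hxz⟩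
      obtain ⟨i, rfl⟩ := Nat.exists_eq_add_of_le' hj
      rw [← hxz, pow_succ' 2 (i + 1), pow_mul, pow_mul]
      rcases comm_or hz hr x with h | h
      · rw [(show Commute x r from h.symm).mul_pow, hr2, mul_one]
      · have h5 : (x * r) ^ 2 = x ^ 2 * z := by
          calc (x * r) ^ 2 = x * (r * x) * r := by rw [pow_two]; group
            _ = x * (z * x) * (r * r) := by rw [h]; group
            _ = x ^ 2 * z := by
              rw [← pow_two r, hr2, ← mem_center_iff.1 hc x, pow_two]; group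
        rw [h5, (show Commute (x ^ 2) z from mem_center_iff.1 hc _).mul_pow, pow_succ' 2 i,
          pow_mul z, hz2, one_pow, mul_one]
    simpa using this
  rw [card_subtype_eq_add (fun C : Subgroup G => (IsCyclic C ∧ Nat.card C = 2 ^ (0 + 2)) ∧ z ∈ C)
    (fun C => C ≤ centralizer ({r} : Set G))]
  refine Nat.dvd_add ?_ ?_
  · have := even_mem hz hc 0 hr (hr2 ▸ one_mem _) (fun C => C ≤ centralizer ({r} : Set G))
      fun x hx hxz hQ => by
        rw [le_centralizer_iff'] at hQ ⊢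
        refine ⟨?_, by rw [← mul_assoc, hQ], hrx x hx hxz⟩
        rw [(show Commute x r from hQ).mul_pow, hxz, zero_add, pow_one, hr2, mul_one]
    simpa only [and_assoc] using this
  have hrc : ∀ g : G, MulAut.conj g • centralizer ({r} : Set G) = centralizer ({r} : Set G) := by
    have : (centralizer ({r} : Set G)).Normal := ⟨fun n hn g => by
      rw [mem_centralizer_singleton_iff] at hn ⊢
      rcases comm_or hz hr g with h | h
      · calc g * n * g⁻¹ * r = g * (n * r) * g⁻¹ := by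
              rw [mul_assoc, mul_assoc, mul_assoc, mul_assoc]
              congr 2
              rw [inv_mul_eq_iff_eq_mul, ← mul_assoc, ← h, mul_inv_cancel_right]
          _ = r * (g * n * g⁻¹) := by rw [hn, ← mul_assoc, ← h]; group
      · calc g * n * g⁻¹ * r = g * (n * z * r) * g⁻¹ := by
              rw [mul_assoc, mul_assoc, mul_assoc, mul_assoc, mul_assoc]
              congr 2
              rw [inv_mul_eq_iff_eq_mul, ← mul_assoc, mem_center_iff.1 hc g, mul_assoc,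
                ← mul_assoc g, ← mul_assoc z, ← h, mul_inv_cancel_right]
          _ = r * (g * n * g⁻¹) := by
              rw [mem_center_iff.1 hc n, mul_assoc z, hn, ← mul_assoc r, ← mul_assoc r, h,
                ← mul_assoc g, mem_center_iff.1 hc g]
              group⟩
    exact fun g => Normal.conj_smul_eq_self g _
  by_cases hN : ∃ C : Subgroup G, (((IsCyclic C ∧ Nat.card C = 2 ^ (0 + 2)) ∧ z ∈ C) ∧
      ¬ C ≤ centralizer ({r} : Set G)) ∧ ⊤ ≤ normalizer (C : Set G)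
  swap
  · have h1 := card_modEq_card_normalized (hP.to_subgroup ⊤)
      (fun C : Subgroup G => ((IsCyclic C ∧ Nat.card C = 2 ^ (0 + 2)) ∧ z ∈ C) ∧
        ¬ C ≤ centralizer ({r} : Set G)) (fun g _ C hC => by
          refine ⟨⟨⟨(equivSMul _ C).isCyclic.1 hC.1.1.1, by rw [card_conj_smul, hC.1.1.2]⟩, ?_⟩,
            fun h => hC.2 ?_⟩
          · refine ⟨z, hC.1.2, ?_⟩
            simp [mem_center_iff.1 hc g]
          · rwa [← hrc g, pointwise_smul_le_pointwise_smul_iff] at h)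
    have h3 : Nat.card {C : Subgroup G // (((IsCyclic C ∧ Nat.card C = 2 ^ (0 + 2)) ∧ z ∈ C) ∧
        ¬ C ≤ centralizer ({r} : Set G)) ∧ ⊤ ≤ normalizer (C : Set G)} = 0 :=
      Nat.card_eq_zero.2 (Or.inl ⟨fun C => hN ⟨C.1, C.2⟩⟩)
    rw [h3] at h1
    exact (Nat.modEq_zero_iff_dvd).1 h1
  obtain ⟨C, ⟨⟨⟨hC1, hC2⟩, hC3⟩, hC4⟩, hC5⟩ := hN
  have hCn : C.Normal := normalizer_eq_top_iff.1 (top_le_iff.1 hC5)
  obtain ⟨x, rfl⟩ := (Subgroup.isCyclic_iff_exists_zpowers_eq_top C).1 hC1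
  rw [Nat.card_zpowers] at hC2
  rw [le_centralizer_iff'] at hC4
  have hxz := (eq_pow_of_mem_zpowers hC2 hz hC3).symm
  rw [pow_one] at hxz
  have hrx' : r * x = z * (x * r) := (comm_or hz hr x).resolve_left fun h => hC4 h.symm
  have hn1 : (centralizer ({x} : Set G)).Normal := by
    rw [← H3.centralizer_zpowers]; infer_instance
  have hn2 : (centralizer ({r} : Set G)).Normal := Normal.of_conjugate_fixed hrc
  have hle : zpowers z ≤ centralizer ({x} : Set G) ⊓ centralizer ({r} : Set G) := by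
    rw [zpowers_le]
    exact ⟨center_le_centralizer _ hc, center_le_centralizer _ hc⟩
  have hidx : ∀ ρ : G, (∀ g : G, ρ * g = g * ρ ∨ ρ * g = z * (g * ρ)) →
      (centralizer ({ρ} : Set G)).index ≤ 2 := by
    intro ρ h
    rcases eq_or_ne (centralizer ({ρ} : Set G)) ⊤ with h1 | h1
    · rw [h1, index_top]; omega
    obtain ⟨a, ha⟩ : ∃ a, a ∉ centralizer ({ρ} : Set G) := by
      by_contra hcon
      push Not at hcon
      exact h1 ((eq_top_iff' _).2 hcon)
    refine (index_eq_two_iff_exists_notMem_and.2 ⟨a, ha, fun b => ?_⟩).le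
    simp only [mem_centralizer_singleton_iff] at ha ⊢
    rcases h b with h3 | h3
    · exact Or.inr h3.symm
    · left
      have h4 := (h a).resolve_left fun h => ha h.symm
      rw [← mul_assoc, h3, mul_assoc z, mul_assoc b ρ, h4, ← mul_assoc b, mem_center_iff.1 hc b,
        mul_assoc z b, ← mul_assoc z z, ← pow_two, hz2, one_mul, mul_assoc]
  have hlt : zpowers z < centralizer ({x} : Set G) ⊓ centralizer ({r} : Set G) := by
    refine lt_of_le_of_ne hle fun h => ?_
    have h1 := index_inf_le (H := centralizer ({x} : Set G)) (K := centralizer ({r} : Set G))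
    have h3 := hidx r (comm_or hz hr)
    have h4 := hidx x fun g => by
      have h5 : zpowers (g⁻¹ * x * g) = zpowers x := by
        refine eq_of_le_of_card_ge ((zpowers_le).2 (hCn.conj_mem' x (mem_zpowers x) g)) ?_
        rw [Nat.card_zpowers, Nat.card_zpowers]
        simpa using (orderOf_conj' g⁻¹ x).ge
      obtain ⟨u, hu⟩ := exists_odd_pow hC2 h5
      rw [pow_succ, pow_mul, hxz, mul_assoc, inv_mul_eq_iff_eq_mul] at hu
      rcases mem_zpowers_two hz (pow_mem (mem_zpowers z) u) with h6 | h6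
      · left; rw [hu, h6, one_mul]
      · right; rw [hu, h6, ← mul_assoc, mem_center_iff.1 hc g, mul_assoc]
    rw [← h] at h1
    have h5 := (zpowers z).card_mul_index
    rw [Nat.card_zpowers, hz] at h5
    have h6 := (zpowers x).card_mul_index
    rw [Nat.card_zpowers, hC2] at h6
    have h7 : (zpowers z).index ≤ 4 := h1.trans (Nat.mul_le_mul h4 h3)
    have h8 : (zpowers x).index ≠ 1 := fun h => hnc (by
      rw [index_eq_one] at h
      exact isCyclic_iff_exists_zpowers_eq_top.2 ⟨x, h⟩)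
    have h9 : (zpowers x).index ≠ 0 := index_ne_zero_of_finite
    refine hcl 2 x r (-1) le_rfl hC2 (by omega) ?_ (by decide)
    rw [hrx', ← hxz, mul_assoc, mul_inv_cancel_right, ← pow_succ]
    rw [← zpow_natCast, H3.zpow_eq_zpow_iff_dvd, hC2]
    decide
  obtain ⟨w, ⟨hwx, hwr⟩, hwz, hw2, hw⟩ := hex _ hlt
  replace hwx : w * x = x * w := mem_centralizer_singleton_iff.1 hwx
  replace hwr : w * r = r * w := mem_centralizer_singleton_iff.1 hwr
  have hwr2 : (w * r) ^ 2 = w ^ 2 := by rw [(show Commute w r from hwr).mul_pow, hr2, mul_one]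
  have e1 := even_mem_four (r := r) hz hc hw hw2 hwr hwz
  have e2 := even_mem_four (r := r) (ρ := w * r) hz hc (fun g => by
    have := mul_mem (hZ.conj_mem _ (hr g) w) (hw g)
    simpa [mul_assoc] using this) (hwr2 ▸ hw2) (by rw [← mul_assoc, hwr]) (fun h => hC4 (by
      have h1 : w * r ∈ center G := (zpowers_le.2 hc) h
      have h3 := mem_center_iff.1 h1 x
      rw [← mul_assoc, ← hwx, mul_assoc, mul_assoc] at h3
      exact mul_left_cancel h3))
  rw [card_subtype_eq_add (fun C : Subgroup G => ((IsCyclic C ∧ Nat.card C = 2 ^ (0 + 2)) ∧ z ∈ C) ∧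
    ¬ C ≤ centralizer ({r} : Set G)) (fun C => C ≤ centralizer ({w} : Set G) ↔ w ^ 2 = 1)]
  refine Nat.dvd_add (by simpa only [and_assoc] using e1) ?_
  rw [card_congr_prop fun C => ?_] at e2
  · exact e2
  simp only [and_assoc]
  refine and_congr_right fun h1 => and_congr_right fun _ => and_congr_right fun _ =>
    and_congr_right fun h3 => ?_
  obtain ⟨y, rfl⟩ := (Subgroup.isCyclic_iff_exists_zpowers_eq_top C).1 h1
  simp only [le_centralizer_iff'] at h3 ⊢
  have h4 := (comm_or hz hr y).resolve_left fun h => h3 h.symm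
  have h5 : y * (w * r) = w * r * y ↔ ¬ y * w = w * y := by
    rw [mul_assoc, h4]
    rcases comm_or hz hw y with h | h
    · rw [← mul_assoc, ← h, mul_assoc, mul_right_inj]
      simp [hz1]
    · rw [← mul_assoc w, mem_center_iff.1 hc w, mul_assoc z, ← mul_assoc w, h, mul_assoc z,
        ← mul_assoc z, ← pow_two, hz2, one_mul, mul_assoc]
      simp [hz1]
  rw [hwr2, h5]
  tauto


/-- Let G be a finite p-group of order p^m that is not cyclic and, when p = 2, not of maximal class (nilpotency class m − 1). Then for every 1 ≤ k < m the number of subgroups of G of order p^k is congruent to 1 + p modulo p². -/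
theorem result {G : Type*} [Group G] [Finite G] {p : ℕ} [Fact p.Prime] (m : ℕ)
    (hG : Nat.card G = p ^ m) (hnc : ¬ IsCyclic G) (h2 : p = 2 → Group.nilpotencyClass G ≠ m - 1)
    (k : ℕ) (hk1 : 1 ≤ k) (hk2 : k < m) :
    Nat.card {H : Subgroup G // Nat.card H = p ^ k} ≡ 1 + p [MOD p ^ 2] := by
  by_cases hp2 : p = 2
  · subst hp2
    have h1 := kulakoff_formula m G hG hk2
    obtain ⟨j, rfl⟩ := Nat.exists_eq_add_of_le' hk1
    obtain ⟨c, hc⟩ := even_card_cyclic_of_class hG hnc (h2 rfl) j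
    rw [hc] at h1
    simp only [Nat.ModEq] at h1 ⊢
    omega
  · exact kulakoff hp2 hG hnc hk1 hk2

end Cfsg.Agent.S4157
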