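import Cfsg.Statements.S4161
import Cfsg.Agent.H7.ClassProd
import Cfsg.Agent.H1.Abelian
import Cfsg.Agent.H8.MaxSolv
import Cfsg.Agent.L.BaerSuzuki

set_option autoImplicit false
open Cfsg

namespace Cfsg.Agent.S4161

open Subgroup H7
open scoped commutatorElement

section
variable {G : Type*} [Group G] [Finite G] {p q : ℕ}

theorem cs_dvd_of_mem_zpowers {x y : G} (h : y ∈ zpowers x) : cs y ∣ cs x :=
  H9.index_centralizer_dvd_of_mem_zpowers h

theorem cs_left_dvd {a b : G} (hab : Commute a b) (hc : (orderOf a).Coprime (orderOf b)) :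
    cs a ∣ cs (a * b) := cs_dvd_of_mem_zpowers (H9.mem_zpowers_mul_of_coprime hab hc)

theorem cs_right_dvd {a b : G} (hab : Commute a b) (hc : (orderOf a).Coprime (orderOf b)) :
    cs b ∣ cs (a * b) := cs_dvd_of_mem_zpowers (H9.mem_zpowers_mul_of_coprime' hab hc)

theorem not_dvd_cs_of_commute [Fact p.Prime] (P : Sylow p G) {x : G} (g : G)
    (h : ∀ b ∈ (P : Subgroup G), Commute (g * b * g⁻¹) x) : ¬ p ∣ cs x := by
  have : cs x = cs (g⁻¹ * x * g⁻¹⁻¹) := (H9.index_centralizer_conj g⁻¹ x).symm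
  rw [this]
  refine H9.not_dvd_index_iff_exists_sylow_le.2 ⟨P, fun b hb => ?_⟩
  rw [mem_centralizer_singleton_iff]
  have := ((h b hb).map (MulAut.conj g⁻¹)).eq
  simpa [mul_assoc] using this

/-- The setting: `P` is central in its normalizer. -/
structure Setting (p : ℕ) [Fact p.Prime] (P : Sylow p G) (N : Subgroup G) : Prop where
  normal : N.Normal
  comm : (P : Subgroup G) ≤ centralizer ((P : Subgroup G) : Set G)
  cop : (Nat.card N).Coprime p
  fac : ∀ g : G, ∃ n ∈ N, ∃ h ∈ centralizer ((P : Subgroup G) : Set G), g = n * h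
  self : ⁅N, (P : Subgroup G)⁆ = N
  res : (Nat.card (pResidual p G)).Coprime p
  le : N ≤ pResidual p G

theorem exists_setting [hp : Fact p.Prime] (P : Sylow p G)
    (h : normalizer ((P : Subgroup G) : Set G) ≤ centralizer ((P : Subgroup G) : Set G)) :
    ∃ N, Setting p P N := by
  have hK := H8.hasNPC_iff_coprime_pResidual.1 (H8.hasNPC_of_normalizer_le_centralizer P h)
  set K := pResidual p G with hKdef
  have hPK : (P : Subgroup G) ≤ normalizer (K : Set G) := by
    rw [normalizer_eq_top K]; exact le_top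
  have hcop : (Nat.card (P : Subgroup G)).Coprime (Nat.card K) := by
    obtain ⟨n, hn⟩ := IsPGroup.iff_card.1 P.isPGroup'
    rw [hn]; exact Nat.Coprime.pow_left n hK.symm
  have hsol : Group.IsSolvable (P : Subgroup G) ∨ Group.IsSolvable K :=
    Or.inl (H1.isSolvable_of_isPGroup P.isPGroup')
  have hsup : (P : Subgroup G) ⊔ K = ⊤ := H8.sylow_sup_pResidual P
  have hle : ⁅K, (P : Subgroup G)⁆ ≤ K := H1.commutator_le_of_le_normalizer hPK
  refine ⟨⁅K, (P : Subgroup G)⁆, ?_, le_normalizer.trans h,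
    hK.coprime_dvd_left (card_dvd_of_le hle), fun g => ?_,
    H1.commutator_commutator_eq hPK hcop, hK, hle⟩
  · rw [← normalizer_eq_top_iff, eq_top_iff, ← hsup]
    exact sup_le (normalizer_commutator_ge_right _ _) (normalizer_commutator_ge_left _ _)
  · obtain ⟨k, hk, a, ha, rfl⟩ := (H1.mem_sup_iff_of_le_normalizer' hPK).1
      (show g ∈ (P : Subgroup G) ⊔ K by rw [hsup]; trivial)
    obtain ⟨n, hn, c, hc, rfl⟩ := H1.exists_commutator_mul_centralizer hPK hcop hsol hk
    exact ⟨n, hn, c * a, mul_mem hc.2 (h (le_normalizer ha)), mul_assoc _ _ _⟩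

variable [hp : Fact p.Prime] {P : Sylow p G} {N : Subgroup G}

theorem Setting.exists_conj (S : Setting p P N) {x : G} (hx : ¬ p ∣ cs x) :
    ∃ n ∈ N, n⁻¹ * x * n ∈ centralizer ((P : Subgroup G) : Set G) := by
  obtain ⟨g, hg⟩ := exists_conj_mem_centralizer_sylow P hx
  obtain ⟨n, hn, h, hh, rfl⟩ := S.fac g
  refine ⟨n, hn, ?_⟩
  have := mul_mem (mul_mem hh hg) (inv_mem hh)
  simpa [mul_assoc] using this

theorem Setting.conj_mem (S : Setting p P N) (g : G) {a : G} (ha : a ∈ (P : Subgroup G)) :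
    g * a * g⁻¹ * a⁻¹ ∈ N := by
  have := S.normal
  obtain ⟨n, hn, h, hh, rfl⟩ := S.fac g
  have e : h * a = a * h := (hh a ha).symm
  have : n * h * a * (n * h)⁻¹ * a⁻¹ = n * (a * n⁻¹ * a⁻¹) := by
    rw [mul_assoc n h a, e]; group
  rw [this]
  exact mul_mem hn (S.normal.conj_mem _ (inv_mem hn) a)

/-- Case I -/
theorem Setting.dvd_cs_mul (S : Setting p P N) {a : G} (ha : a ∈ (P : Subgroup G)) {n : G}
    (hn : n ∈ N) : cs a ∣ cs (n * a) := by
  obtain ⟨u, v, hu, -, huv, -, ⟨k, hk⟩, hv⟩ := H8.exists_pPart_pPrimePart hp.out (n * a)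
  obtain ⟨g, hg⟩ := exists_conj_mem_of_not_dvd_index hk P.not_dvd_index
  have hK : (pResidual p G).Normal := inferInstance
  have h1 : g * u * g⁻¹ * a⁻¹ ∈ pResidual p G := by
    have e : u = n * a * v⁻¹ := by rw [huv]; group
    have : g * u * g⁻¹ * a⁻¹ = (g * n * g⁻¹) * (g * a * g⁻¹ * a⁻¹) *
        ((a * g) * v⁻¹ * (a * g)⁻¹) := by rw [e]; group
    rw [this]
    exact mul_mem (mul_mem (hK.conj_mem _ (S.le hn) g) (S.le (S.conj_mem g ha)))
      (hK.conj_mem _ (inv_mem (H8.mem_pResidual_of_coprime hv)) _)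
  have h2 : g * u * g⁻¹ * a⁻¹ = 1 := by
    obtain ⟨j, hj⟩ := H8.exists_orderOf_eq_pow_of_mem P.isPGroup' (mul_mem hg (inv_mem ha))
    exact H8.eq_one_of_orderOf_pow_of_coprime hj
      (S.res.coprime_dvd_left (orderOf_dvd_natCard _ h1))
  rw [mul_inv_eq_one] at h2
  have h3 : cs a = cs u := by rw [← h2, cs, H9.index_centralizer_conj]
  rw [h3]
  exact cs_dvd_of_mem_zpowers hu

theorem Setting.exists_w [hq : Fact q.Prime] (S : Setting p P N) (hpq : p ≠ q)
    (H : ∀ x y : G, p ∣ cs x → q ∣ cs y → (cs x).Coprime (cs y))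
    (hp' : ∃ x : G, p ∣ cs x) (hq' : ∃ y : G, q ∣ cs y) : ∃ w : G, ∀ n ∈ N, q ∣ cs (n * w) := by
  have := S.normal
  by_cases hI : ∃ a ∈ (P : Subgroup G), q ∣ cs a
  · obtain ⟨a, ha, h⟩ := hI
    exact ⟨a, fun n hn => h.trans (S.dvd_cs_mul ha hn)⟩
  push Not at hI
  by_contra hc
  push Not at hc
  have hXq : ∀ x : G, p ∣ cs x → ¬ q ∣ cs x := fun x h1 h2 =>
    hp.out.ne_one (Nat.eq_one_of_dvd_coprimes (H x x h1 h2) h1 h1)
  have hcop : p.Coprime q := (Nat.coprime_primes hp.out hq.out).2 hpq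
  -- a `p'`-element of `Y` centralizing `P`
  obtain ⟨y, hyK, hy⟩ : ∃ y ∈ pResidual p G, q ∣ cs y := by
    by_contra h
    push Not at h
    obtain ⟨y, hy⟩ := hq'
    obtain ⟨Q⟩ : Nonempty (Sylow q G) := inferInstance
    have hQK : (Q : Subgroup G) ≤ pResidual p G := fun u hu => by
      obtain ⟨j, hj⟩ := H8.exists_orderOf_eq_pow_of_mem Q.isPGroup' hu
      exact H8.mem_pResidual_of_coprime (by rw [hj]; exact hcop.symm.pow_left j)
    have hKQ : pResidual p G ≤ centralizer ((Q : Subgroup G) : Set G) := fun k hk u hu => by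
      obtain ⟨j, hj⟩ := H8.exists_orderOf_eq_pow_of_mem Q.isPGroup' hu
      exact (commute_of_not_dvd_cs_normal _ h (hQK hu) hj k hk).symm
    have hPQ : (P : Subgroup G) ≤ centralizer ((Q : Subgroup G) : Set G) := fun a ha u hu => by
      obtain ⟨Q', hQ'⟩ := H9.not_dvd_index_iff_exists_sylow_le.1 (hI a ha)
      rw [sylow_eq_of_le_centralizer _ Q hQK hKQ Q'] at hQ'
      exact mem_centralizer_singleton_iff.1 (hQ' hu)
    refine H9.not_dvd_index_iff_exists_sylow_le.2 ⟨Q, fun u hu => ?_⟩ hy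
    have : y ∈ centralizer ((Q : Subgroup G) : Set G) := by
      apply sup_le hPQ hKQ
      rw [H8.sylow_sup_pResidual P]; trivial
    exact mem_centralizer_singleton_iff.2 (this u hu)
  have hα : ∀ b ∈ (P : Subgroup G), ∀ x : G, p ∣ cs x → (cs x).Coprime (cs b) := by
    intro b hb x hx
    obtain ⟨n, -, hn⟩ := S.exists_conj (fun h => hXq y h hy)
    set y' := n⁻¹ * y * n with hy'
    have h1 : q ∣ cs y' := by
      have := H9.index_centralizer_conj n⁻¹ y
      rw [inv_inv] at this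
      rw [cs, this]; exact hy
    have h2 : y' ∈ pResidual p G := (inferInstance : (pResidual p G).Normal).conj_mem' y hyK n
    obtain ⟨j, hj⟩ := H8.exists_orderOf_eq_pow_of_mem P.isPGroup' hb
    have h3 : (orderOf y').Coprime (orderOf b) := by
      rw [hj]
      exact (S.res.coprime_dvd_left (orderOf_dvd_natCard _ h2)).pow_right j
    have h4 : Commute y' b := (hn b hb).symm
    exact (H x _ hx (h1.trans (cs_left_dvd h4 h3))).coprime_dvd_right (cs_right_dvd h4 h3)
  have hβ : ∀ (u x : G) (k : ℕ), orderOf u = q ^ k → p ∣ cs x → cs u ∣ cs x →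
      ∀ b ∈ (P : Subgroup G), ∀ g h : G, Commute (g * u * g⁻¹) (h * b * h⁻¹) :=
    fun u x k hu hx hux b hb => commute_conj_of_primePow hu (hI b hb)
      ((hα b hb x hx).coprime_dvd_left hux)
  obtain ⟨x, hx, hxq⟩ : ∃ x : G, p ∣ cs x ∧ (orderOf x).Coprime q := by
    obtain ⟨x, hx⟩ := hp'
    obtain ⟨u, v, hu, -, huv, -, ⟨k, hk⟩, hv⟩ := H8.exists_pPart_pPrimePart hq.out x
    refine ⟨v, ?_, hv⟩
    by_contra h
    obtain ⟨g, hg⟩ := exists_conj_mem_centralizer_sylow P h
    refine not_dvd_cs_of_commute P g (fun b hb => ?_) hx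
    rw [huv]
    refine Commute.mul_right ?_ ?_
    · have := hβ u x k hk hx (cs_dvd_of_mem_zpowers hu) b hb 1 g
      simpa using this.symm
    · have := (show Commute b (g⁻¹ * v * g) from hg b hb).map (MulAut.conj g)
      simpa [mul_assoc] using this
  -- all `q`-elements commute with all conjugates of `P`
  have hγ : ∀ (u : G) (k : ℕ), orderOf u = q ^ k →
      ∀ b ∈ (P : Subgroup G), ∀ h : G, Commute u (h * b * h⁻¹) := by
    intro u k hu b hb h
    obtain ⟨g, hg⟩ := exists_conj_mem_of_not_dvd_index hu (hXq x hx)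
    have ho : orderOf (g * u * g⁻¹) = q ^ k := by
      rw [← hu]; exact (MulAut.conj g).orderOf_eq u
    have h1 : Commute x (g * u * g⁻¹) := (mem_centralizer_singleton_iff.1 hg).symm
    have h2 : (orderOf x).Coprime (orderOf (g * u * g⁻¹)) := by
      rw [ho]; exact hxq.pow_right k
    have := hβ _ _ k ho (hx.trans (cs_left_dvd h1 h2)) (cs_right_dvd h1 h2) b hb g⁻¹ h
    simpa [mul_assoc] using this
  have hδ : ∀ (u : G) (k : ℕ), orderOf u = q ^ k → N ≤ centralizer {u} := by
    intro u k hu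
    rw [← S.self, commutator_le]
    intro n _ b hb
    rw [mem_centralizer_singleton_iff, commutatorElement_def]
    have h1 := hγ u k hu b hb 1
    rw [one_mul, inv_one, mul_one] at h1
    exact ((hγ u k hu b hb n).mul_right h1.inv_right).symm
  have hNq : ¬ q ∣ Nat.card N := by
    obtain ⟨R⟩ : Nonempty (Sylow q N) := inferInstance
    have h1 := H8.hasNPC_iff_not_dvd_pResidual.1 (H8.hasNPC_of_normalizer_le_centralizer R
      (fun m _ r hr => by
        obtain ⟨j, hj⟩ := H8.exists_orderOf_eq_pow_of_mem R.isPGroup' hr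
        exact Subtype.ext (mem_centralizer_singleton_iff.1
          (hδ r j (by rw [← hj, orderOf_coe]) m.2)).symm))
    have h2 : N ≤ pResidualOf q N := by
      have hn := H8.pResidualOf_normal q N
      conv_lhs => rw [← S.self]
      rw [commutator_le]
      intro m hm b hb
      obtain ⟨u, v, hu, hv, huv, -, ⟨k, hk⟩, hv'⟩ := H8.exists_pPart_pPrimePart hq.out m
      have h3 := hγ u k hk b hb 1
      rw [one_mul, inv_one, mul_one] at h3
      have h4 : v ∈ pResidualOf q N :=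
        H8.mem_pResidualOf_of_coprime ((zpowers_le.2 hm) hv) hv'
      have : ⁅m, b⁆ = u * (v * (b * v⁻¹ * b⁻¹)) * u⁻¹ := by
        calc ⁅m, b⁆ = u * v * b * v⁻¹ * (u⁻¹ * b⁻¹) := by rw [huv, commutatorElement_def]; group
          _ = _ := by rw [h3.inv_inv.eq]; group
      rw [this]
      exact hn.conj_mem _ (mul_mem h4 (hn.conj_mem _ (inv_mem h4) b)) u
    intro h
    apply h1
    have h3 := card_dvd_of_le h2
    rw [pResidualOf, card_map_of_injective N.subtype_injective] at h3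
    exact h.trans h3
  obtain ⟨y₀, hy₀⟩ := hq'
  obtain ⟨Q⟩ : Nonempty (Sylow q G) := inferInstance
  refine H9.not_dvd_index_iff_exists_sylow_le.2 ⟨Q, fun u hu => ?_⟩ hy₀
  obtain ⟨k, hk⟩ := H8.exists_orderOf_eq_pow_of_mem Q.isPGroup' hu
  have hcen : ∀ z : G ⧸ N, ¬ q ∣ cs z := by
    intro z hz
    obtain ⟨w, rfl⟩ := QuotientGroup.mk_surjective z
    obtain ⟨n, hn, h⟩ := hc w
    apply h
    refine hz.trans ?_
    have : (w : G ⧸ N) = ((n * w : G) : G ⧸ N) := by
      rw [QuotientGroup.mk_mul, (QuotientGroup.eq_one_iff n).2 hn, one_mul]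
    rw [this]
    exact H9.index_centralizer_mk_dvd N _
  obtain ⟨j, -, hj⟩ := (Nat.dvd_prime_pow hq.out).1
    (hk ▸ orderOf_map_dvd (QuotientGroup.mk' N) u)
  have h1 := commute_of_not_dvd_cs_normal (⊤ : Subgroup (G ⧸ N)) (fun z _ => hcen z)
    (mem_top _) hj (QuotientGroup.mk' N y₀) (mem_top _)
  have h2 : y₀ * u * y₀⁻¹ * u⁻¹ ∈ N := by
    rw [← QuotientGroup.eq_one_iff]
    exact commutatorElement_eq_one_iff_commute.2 h1
  have h3 : Commute (y₀ * u * y₀⁻¹ * u⁻¹) u := mem_centralizer_singleton_iff.1 (hδ u k hk h2)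
  have h4 : Commute (y₀ * u * y₀⁻¹) u⁻¹ := by
    have := (h3.mul_left (Commute.refl u)).inv_right
    simpa using this
  have h5 : (y₀ * u * y₀⁻¹ * u⁻¹) ^ q ^ k = 1 := by
    rw [h4.mul_pow, conj_pow, inv_pow, ← hk, pow_orderOf_eq_one]
    simp
  have h6 : orderOf (y₀ * u * y₀⁻¹ * u⁻¹) = 1 :=
    Nat.eq_one_of_dvd_coprimes (Nat.Coprime.pow_left k
      ((Nat.Prime.coprime_iff_not_dvd hq.out).2 hNq)) (orderOf_dvd_of_pow_eq_one h5)
      (orderOf_dvd_natCard _ h2)
  rw [orderOf_eq_one_iff, mul_inv_eq_one, mul_inv_eq_iff_eq_mul] at h6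
  exact mem_centralizer_singleton_iff.2 h6.symm

theorem Setting.solvable [hq : Fact q.Prime] (S : Setting p P N) (hpq : p ≠ q)
    (H : ∀ x y : G, p ∣ cs x → q ∣ cs y → (cs x).Coprime (cs y))
    (hp' : ∃ x : G, p ∣ cs x) (hq' : ∃ y : G, q ∣ cs y) : Group.IsSolvable G := by
  have := S.normal
  have hXq : ∀ x : G, p ∣ cs x → ¬ q ∣ cs x := fun x h1 h2 =>
    hp.out.ne_one (Nat.eq_one_of_dvd_coprimes (H x x h1 h2) h1 h1)
  obtain ⟨w, hw⟩ := S.exists_w hpq H hp' hq'
  have hw1 : q ∣ cs w := by simpa using hw 1 (one_mem _)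
  obtain ⟨M, hM, hMw, hMx⟩ := exists_normal_classStab w
  set C := centralizer ((P : Subgroup G) : Set G) with hC
  -- `N ≤ M ⊓ C(M)`
  have hNM : N ≤ M ⊓ centralizer (M : Set G) := by
    let Z : Subgroup G := centralizer (M : Set G) ⊓ (center (G ⧸ M)).comap (QuotientGroup.mk' M)
    have hZ : Z.Normal := inferInstance
    have h1 : (C ⊔ Z).subgroupOf N = ⊤ := by
      apply H6.eq_top_of_forall_exists_conj_mem
      intro n
      by_cases hn : p ∣ cs (n : G)
      · refine ⟨1, ?_⟩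
        rw [mem_subgroupOf]
        simp only [inv_one, one_mul, mul_one]
        refine mem_sup_right (mem_inf.2 ⟨?_, ?_⟩)
        · intro m hm
          exact mem_centralizer_singleton_iff.1 (le_of_normal_of_coprime_index
            ((H n w hn hw1).symm.coprime_dvd_left hMw) hm)
        · rw [mem_comap, mem_center_iff]
          intro z
          obtain ⟨g, rfl⟩ := QuotientGroup.mk'_surjective M z
          have := hMx n (H n w hn hw1) (H n _ hn (hw n n.2)) g
          rw [← QuotientGroup.eq] at this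
          rw [← mul_inv_eq_iff_eq_mul]
          exact this.symm
      · obtain ⟨m, hm, h⟩ := S.exists_conj hn
        exact ⟨⟨m, hm⟩, mem_sup_left h⟩
    conv_lhs => rw [← S.self]
    rw [commutator_le]
    intro n hn b hb
    have h2 : (⟨n, hn⟩ : N) ∈ (C ⊔ Z).subgroupOf N := by rw [h1]; trivial
    obtain ⟨z, hz, c, hc, e⟩ := (H1.mem_sup_iff_of_le_normalizer'
      (by rw [normalizer_eq_top Z]; exact le_top)).1 h2
    have e' : n = z * c := e.symm
    have h3 : ⁅n, b⁆ = z * (b * z⁻¹ * b⁻¹) := by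
      rw [e', commutatorElement_def, mul_assoc z c b, ← hc b hb]; group
    rw [h3]
    refine mem_inf.2 ⟨?_, (mul_mem hz (hZ.conj_mem _ (inv_mem hz) b)).1⟩
    rw [← QuotientGroup.eq_one_iff]
    have h4 := mem_center_iff.1 (mem_comap.1 hz.2) (QuotientGroup.mk' M b)
    show QuotientGroup.mk' M (z * (b * z⁻¹ * b⁻¹)) = 1
    simp only [map_mul, map_inv]
    rw [← mul_assoc, ← mul_assoc, ← h4]
    group
  have hNN : N ≤ centralizer (N : Set G) := fun n hn m hm => (hNM hn).2 m (hNM hm).1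
  have hNX : ∀ x : G, p ∣ cs x → N ≤ centralizer {x} := fun x hx =>
    le_of_normal_of_coprime_index ((H x w hx hw1).symm.coprime_dvd_left
      ((card_dvd_of_le (hNM.trans inf_le_left)).trans hMw))
  have hNC : ∀ n ∈ N, n ∈ C → n = 1 := by
    have h1 := H1.centralizer_inf_commutator_eq_bot (A := (P : Subgroup G)) (V := N)
      ⟨⟨fun a b => Subtype.ext (hNN b.2 a a.2)⟩⟩ (by rw [normalizer_eq_top N]; exact le_top) (by
        obtain ⟨n, hn⟩ := IsPGroup.iff_card.1 P.isPGroup'
        rw [hn]; exact Nat.Coprime.pow_left n S.cop.symm)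
    rw [S.self] at h1
    intro n hn hc
    rw [← mem_bot, ← h1]
    exact ⟨hc, hn⟩
  have hF0 : ∀ h ∈ C, ∀ n ∈ N, (∀ m ∈ N, n ≠ m * h * m⁻¹ * h⁻¹) → p ∣ cs (n * h) := by
    intro h hh n hn hne
    by_contra hc
    obtain ⟨m, hm, h1⟩ := S.exists_conj hc
    have h2 := hNC (m⁻¹ * (n * h) * m * h⁻¹) (by
      have : m⁻¹ * (n * h) * m * h⁻¹ = m⁻¹ * n * (h * m * h⁻¹) := by group
      rw [this]
      exact mul_mem (mul_mem (inv_mem hm) hn) (S.normal.conj_mem m hm h)) (mul_mem h1 (inv_mem hh))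
    apply hne m hm
    calc n = m * (m⁻¹ * (n * h) * m * h⁻¹) * h * m⁻¹ * h⁻¹ := by group
      _ = _ := by rw [h2, mul_one]
  set D := centralizer (N : Set G) with hD
  have hA : ∀ g : G, g ∉ D → ∀ m ∈ N, Commute m g → m = 1 := by
    intro g hg m₀ hm₀ hc
    obtain ⟨n₀, hn₀, h, hh, rfl⟩ := S.fac g
    by_contra hm1
    have hc' : Commute m₀ h := by
      have := (show Commute m₀ n₀ from hNN hn₀ m₀ hm₀).inv_right.mul_right hc
      rwa [inv_mul_cancel_left] at this
    let φ : N → N := fun m => ⟨m * h * m⁻¹ * h⁻¹, by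
      rw [mul_assoc, mul_assoc, ← mul_assoc h]
      exact mul_mem m.2 (S.normal.conj_mem _ (inv_mem m.2) h)⟩
    have hφ : ¬ Function.Surjective φ := by
      rw [← Finite.injective_iff_surjective]
      intro hi
      have : φ ⟨m₀, hm₀⟩ = φ 1 := Subtype.ext (by
        show m₀ * h * m₀⁻¹ * h⁻¹ = 1 * h * 1⁻¹ * h⁻¹
        rw [hc'.eq]; group)
      exact hm1 (congrArg Subtype.val (hi this))
    obtain ⟨n, hn⟩ := not_forall.1 hφ
    have h1 := hNX _ (hF0 h hh n n.2 fun m hm e => hn ⟨⟨m, hm⟩, Subtype.ext e.symm⟩)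
    apply hg
    refine mul_mem (hNN hn₀) fun m hm => ?_
    have := (show Commute m n from hNN n.2 m hm).inv_right.mul_right
      (show Commute m (n * h) from mem_centralizer_singleton_iff.1 (h1 hm))
    rwa [inv_mul_cancel_left] at this
  have hN1 : N ≠ ⊥ := by
    intro h0
    obtain ⟨x, hx⟩ := hp'
    refine not_dvd_cs_of_commute P 1 (fun b hb => ?_) hx
    obtain ⟨n, hn, h, hh, rfl⟩ := S.fac x
    rw [h0, mem_bot] at hn
    rw [hn, one_mul, one_mul, inv_one, mul_one]
    exact hh b hb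
  obtain ⟨⟨n₀, hn₀⟩, hn₀1⟩ := ne_bot_iff_exists_ne_one.1 hN1
  have hn₀1' : n₀ ≠ 1 := fun h => hn₀1 (Subtype.ext h)
  have hB0 : ∀ n ∈ N, n ≠ 1 → ∀ d ∈ C, d ∈ D → p ∣ cs (n * d) := by
    intro n hn hn1 d hd hdD
    refine hF0 d hd n hn fun m hm e => hn1 ?_
    rw [e, hdD m hm]; group
  have hB : ∀ c ∈ D, ∃ x : G, p ∣ cs x ∧ cs c ∣ cs x := by
    intro c hc
    obtain ⟨n, hn, d, hd, rfl⟩ := S.fac c
    have hdD : d ∈ D := (mul_mem_cancel_left (hNN hn)).1 hc
    by_cases hn1 : n = 1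
    · refine ⟨n₀ * d, hB0 n₀ hn₀ hn₀1' d hd hdD, ?_⟩
      rw [hn1, one_mul]
      refine index_dvd_of_le fun g hg => ?_
      obtain ⟨m, hm, h, hh, rfl⟩ := S.fac g
      rw [mem_centralizer_singleton_iff] at hg ⊢
      have h1 : h * d * h⁻¹ * d⁻¹ = 1 := by
        refine hNC _ ?_ (mul_mem (mul_mem (mul_mem hh hd) (inv_mem hh)) (inv_mem hd))
        have : h * d * h⁻¹ * d⁻¹ = (h * n₀⁻¹ * h⁻¹) * m⁻¹ * (m * h * (n₀ * d)) * h⁻¹ * d⁻¹ := by
          group
        rw [this, hg]
        have : h * n₀⁻¹ * h⁻¹ * m⁻¹ * (n₀ * d * (m * h)) * h⁻¹ * d⁻¹ =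
            h * n₀⁻¹ * h⁻¹ * m⁻¹ * n₀ * (d * m * d⁻¹) := by group
        rw [this]
        exact mul_mem (mul_mem (mul_mem (S.normal.conj_mem _ (inv_mem hn₀) h) (inv_mem hm)) hn₀)
          (S.normal.conj_mem _ hm d)
      exact (Commute.mul_left (show Commute m d from hdD m hm)
        (commutatorElement_eq_one_iff_commute.1 h1)).eq
    · exact ⟨n * d, hB0 n hn hn1 d hd hdD, dvd_rfl⟩
  have hn₀X : p ∣ cs n₀ := by simpa using hB0 n₀ hn₀ hn₀1' 1 (one_mem _) (one_mem _)
  have hCn : centralizer {n₀} ≤ D := by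
    intro g hg
    by_contra h
    exact hn₀1' (hA g h n₀ hn₀ (mem_centralizer_singleton_iff.1 hg).symm)
  have hDtop : D ≠ ⊤ := by
    intro h
    apply hN1
    rw [← S.self, H1.commutator_eq_bot_iff_le_centralizer', ← hD, h]
    exact le_top
  obtain ⟨E, hE, hEY⟩ : ∃ E : Subgroup G, E ≠ ⊤ ∧ ∀ g, g ∉ E → q ∣ cs g := by
    by_cases hqN : q ∣ Nat.card N
    · refine ⟨D, hDtop, fun g hg => hqN.trans ?_⟩
      refine dvd_trans ?_ (H9.relIndex_dvd_index_of_normal_right _ N)
      rw [← inf_relIndex_right, show centralizer {g} ⊓ N = ⊥ from ?_, relIndex_bot_left]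
      rw [eq_bot_iff]
      intro m hm
      exact hA g hg m hm.2 (mem_centralizer_singleton_iff.1 hm.1)
    · obtain ⟨Q, hQ⟩ := H9.not_dvd_index_iff_exists_sylow_le.1 (hXq n₀ hn₀X)
      have hQD := hQ.trans hCn
      have hDQ : D ≤ centralizer ((Q : Subgroup G) : Set G) := fun k hk u hu => by
        obtain ⟨j, hj⟩ := H8.exists_orderOf_eq_pow_of_mem Q.isPGroup' hu
        refine (commute_of_not_dvd_cs_normal D (fun c hc h => ?_) (hQD hu) hj k hk).symm
        obtain ⟨x, hx, hcx⟩ := hB c hc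
        exact hXq x hx (h.trans hcx)
      refine ⟨centralizer ((Q : Subgroup G) : Set G), fun h => ?_, fun g hg => ?_⟩
      · obtain ⟨y, hy⟩ := hq'
        refine H9.not_dvd_index_iff_exists_sylow_le.2 ⟨Q, fun u hu => ?_⟩ hy
        have : y ∈ centralizer ((Q : Subgroup G) : Set G) := by rw [h]; trivial
        exact mem_centralizer_singleton_iff.2 (this u hu)
      · by_contra h
        obtain ⟨Q', hQ'⟩ := H9.not_dvd_index_iff_exists_sylow_le.1 h
        rw [sylow_eq_of_le_centralizer D Q hQD hDQ Q'] at hQ'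
        exact hg fun u hu => mem_centralizer_singleton_iff.1 (hQ' hu)
  have hquot : Group.IsSolvable (G ⧸ D) := by
    have h1 : (center (G ⧸ D)).comap (QuotientGroup.mk' D) = ⊤ := by
      refine eq_top_of_compl_subset hE fun y hy => ?_
      rw [mem_comap, mem_center_iff]
      intro z
      obtain ⟨g, rfl⟩ := QuotientGroup.mk'_surjective D z
      obtain ⟨c, hc, d, hd, rfl⟩ :=
        H9.exists_mul_eq_of_coprime_index (H n₀ y hn₀X (hEY y hy)) g
      have h2 : QuotientGroup.mk' D c = 1 := (QuotientGroup.eq_one_iff c).2 (hCn hc)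
      rw [map_mul, h2, one_mul, ← map_mul, ← map_mul, mem_centralizer_singleton_iff.1 hd]
    refine Group.isSolvable_of_comm fun a b => ?_
    obtain ⟨g, rfl⟩ := QuotientGroup.mk'_surjective D b
    have : g ∈ (center (G ⧸ D)).comap (QuotientGroup.mk' D) := by rw [h1]; trivial
    exact mem_center_iff.1 this a
  have hDsol : Group.IsSolvable D := by
    refine Group.isSolvable_of_comm fun a b => Subtype.ext ?_
    have : (b : G) ∈ centralizer {(a : G)} := by
      refine L.mem_of_forall_pPart_mem (isOfFinOrder_of_finite _) fun s hs u hu ⟨k, hk⟩ => ?_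
      have := Fact.mk hs
      have huD : u ∈ D := (zpowers_le.2 b.2) hu
      obtain ⟨j, -, hj⟩ := (Nat.dvd_prime_pow hs).1 (orderOf_dvd_of_pow_eq_one hk)
      rw [mem_centralizer_singleton_iff]
      by_cases h : ∀ c ∈ D, ¬ s ∣ cs c
      · exact (commute_of_not_dvd_cs_normal D h huD hj a a.2).symm
      · push Not at h
        obtain ⟨c, hc, hsc⟩ := h
        obtain ⟨x, hx, hcx⟩ := hB c hc
        obtain ⟨x', hx', hux⟩ := hB u huD
        have h1 : centralizer {u} = ⊤ := by
          refine eq_top_of_compl_subset hE fun y hy => ?_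
          have := commute_conj_of_primePow (w := y) hj (fun hsy => hs.ne_one
            (Nat.eq_one_of_dvd_coprimes (H x y hx (hEY y hy)) (hsc.trans hcx) hsy))
            ((H x' y hx' (hEY y hy)).coprime_dvd_left hux) 1 1
          rw [mem_centralizer_singleton_iff]
          simpa using this.symm.eq
        have : (a : G) ∈ centralizer {u} := by rw [h1]; trivial
        exact (mem_centralizer_singleton_iff.1 this).symm
    exact (mem_centralizer_singleton_iff.1 this).symm
  exact Group.isSolvable_of_ker_le_range D.subtype (QuotientGroup.mk' D) (by simp)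

end

/-- Let G be a finite non-solvable group and p ≠ q primes each dividing the size of some conjugacy class of G. Then either some class size is divisible by pq, or there is a prime r, different from p and q, such that some class size is divisible by pr and some class size is divisible by rq. -/
theorem result {G : Type*} [Group G] [Finite G] (hG : ¬ Group.IsSolvable G)
    (p q : ℕ) (hp : p.Prime) (hq : q.Prime) (hpq : p ≠ q) (hp' : ∃ x : G, p ∣ (Subgroup.centralizer ({x} : Set G)).index) (hq' : ∃ x : G, q ∣ (Subgroup.centralizer ({x} : Set G)).index) :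
    (∃ x : G, p * q ∣ (Subgroup.centralizer ({x} : Set G)).index) ∨ ∃ r : ℕ, r.Prime ∧ r ≠ p ∧ r ≠ q ∧ (∃ x : G, p * r ∣ (Subgroup.centralizer ({x} : Set G)).index) ∧ (∃ y : G, r * q ∣ (Subgroup.centralizer ({y} : Set G)).index) := by
  by_contra hc
  push Not at hc
  obtain ⟨h1, h2⟩ := hc
  apply hG
  have := Fact.mk hp
  have := Fact.mk hq
  have hcop : p.Coprime q := (Nat.coprime_primes hp hq).2 hpq
  have H : ∀ x y : G, p ∣ cs x → q ∣ cs y → (cs x).Coprime (cs y) := by
    intro x y hx hy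
    refine Nat.coprime_of_dvd fun r hr hrx hry => ?_
    by_cases hrp : r = p
    · exact h1 y (hcop.mul_dvd_of_dvd_of_dvd (hrp ▸ hry) hy)
    by_cases hrq : r = q
    · exact h1 x (hcop.mul_dvd_of_dvd_of_dvd hx (hrq ▸ hrx))
    exact h2 r hr hrp hrq ⟨x, ((Nat.coprime_primes hp hr).2 (Ne.symm hrp)).mul_dvd_of_dvd_of_dvd
      hx hrx⟩ y (((Nat.coprime_primes hr hq).2 hrq).mul_dvd_of_dvd_of_dvd hry hy)
  obtain ⟨P⟩ : Nonempty (Sylow p G) := inferInstance
  obtain ⟨Q⟩ : Nonempty (Sylow q G) := inferInstance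
  rcases H7.normalizer_le_centralizer_or (fun x => by
    by_contra hc
    push Not at hc
    exact h1 x (hcop.mul_dvd_of_dvd_of_dvd hc.1 hc.2)) P Q with h | h
  · obtain ⟨N, S⟩ := exists_setting P h
    exact S.solvable hpq H hp' hq'
  · obtain ⟨N, S⟩ := exists_setting Q h
    exact S.solvable hpq.symm (fun x y hx hy => (H y x hy hx).symm) hq' hp'

end Cfsg.Agent.S4161
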