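import Cfsg.Statements.S4162
import Cfsg.Agent.P27.Main
import Cfsg.Agent.P27.Five
import Cfsg.Agent.P27.Lin
import Cfsg.Agent.P27.Reg
import Cfsg.Agent.P27.N4
import Cfsg.Agent.P27.NS

set_option autoImplicit false
open Cfsg

namespace Cfsg.Agent.S4162

/-- Let G be a non-trivial finite solvable group in which distinct conjugacy classes have distinct sizes. Then G is isomorphic to the symmetric group of degree 3. -/
theorem result {G : Type*} [Group G] [Finite G] [Nontrivial G] (hG : Group.IsSolvable G)
    (h : Function.Injective fun C : ConjClasses G => Nat.card C.carrier) : Nonempty (G ≃* Equiv.Perm (Fin 3)) := by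
  exact P27.main (P27.fiveStmt (P27.nsStmt (P27.d1Stmt P27.trStmt)) (P27.regStmt P27.trStmt P27.linStmt))
    (P27.n4Stmt P27.egStmt) hG h

end Cfsg.Agent.S4162
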