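import Cfsg.Statements.S4169
import Cfsg.Agent.H7.Ito
import Cfsg.Agent.H3.PBasic

set_option autoImplicit false
open Cfsg

namespace Cfsg.Agent.S4169

/-- Let P be a finite p-group whose conjugacy classes have exactly two sizes (1 and one other value). Then P has nilpotency class at most 3. -/
theorem result {P : Type*} [Group P] [Finite P] {p : ℕ} [Fact p.Prime] (hP : IsPGroup p P)
    (m : ℕ) (hm : 1 < m) (h : ∀ x : P, (Subgroup.centralizer ({x} : Set P)).index = 1 ∨ (Subgroup.centralizer ({x} : Set P)).index = m) :
    upperCentralSeries P 3 = ⊤ := by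
  change Subgroup.upperCentralSeries P 3 = ⊤
  have := hP.isNilpotent
  obtain ⟨A, hA1, hA2, hA3⟩ := H3.exists_selfCentralizing_normal (G := P)
  rw [← Subgroup.lowerCentralSeries_eq_bot_iff_upperCentralSeries_eq_top, ← Subgroup.closure_univ]
  apply H7.lowerCentralSeries_three_eq_bot A hA2 hA3
  intro x _ y hy
  rw [← H9.index_centralizer_eq_one_iff]
  rcases h x with hx | hx <;> rcases h y with h2 | h2 <;> omega

end Cfsg.Agent.S4169
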