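import Cfsg.Statements.S4170
import Cfsg.Agent.P6.SE

set_option autoImplicit false
open scoped Pointwise
open Cfsg

namespace Cfsg.Agent.S4170

open Subgroup MulAction Cfsg.Agent.FT

theorem aux {G Ω : Type*} [Group G] [Finite G] [Finite Ω] [MulAction G Ω] {p : ℕ} (hp : p.Prime)
    {x : G} (hx : orderOf x = p) {c : Ω} (hc : x • c ≠ c) : ∃ Δ₁ Δ₂ : Set Ω, Δ₁.Nonempty ∧
      Δ₂.Nonempty ∧ Disjoint Δ₁ Δ₂ ∧ p ∣ (stabilizer G Δ₁ ⊓ stabilizer G Δ₂).index := by
  obtain ⟨C, hC⟩ : ∃ C, C = {d | ∃ y ∈ zpowers x, y • c = d} := ⟨_, rfl⟩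
  have cC : c ∈ C := hC ▸ ⟨1, one_mem _, one_smul _ _⟩
  have hz : Nat.card (zpowers x) = p := (Nat.card_zpowers x).trans hx
  have r : ∀ K : Subgroup G, x ∉ K → K.relIndex (zpowers x) = p := fun K h =>
    ((Nat.dvd_prime hp).1 (hz ▸ relIndex_dvd_card K _)).resolve_left fun e =>
      h (relIndex_eq_one.1 e (mem_zpowers x))
  have h1 : (C \ {c}).ncard < p := by
    rw [← r (stabilizer G c) hc, ← P6.ncard_orbit, ← hC]
    exact Set.ncard_lt_ncard (Set.sdiff_singleton_ssubset.2 cC)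
  refine ⟨C \ {c}, {c}, ⟨x • c, hC ▸ ⟨x, mem_zpowers x, rfl⟩, hc⟩, ⟨c, rfl⟩,
    Set.disjoint_sdiff_left, ?_⟩
  obtain ⟨P, hP⟩ := exists_isSyl hp (stabilizer G (C \ {c}) ⊓ stabilizer G ({c} : Set Ω))
  have h2 : P ≤ fixingSubgroup G C := fun y hy => (mem_fixingSubgroup_iff G).2 fun d hd => by
    rcases eq_or_ne d c with rfl | e
    · exact Set.singleton_injective (Set.smul_set_singleton.symm.trans (hP.le hy).2)
    have := Fact.mk hp
    obtain ⟨n, hn⟩ := hP.pgrp.exists_card_eq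
    obtain ⟨k, -, hk⟩ := (Nat.dvd_prime_pow hp).1 (hn ▸ relIndex_dvd_card (stabilizer G d) P)
    have h3 := (Set.ncard_le_ncard (show {b | ∃ y ∈ P, y • d = b} ⊆ C \ {c} from by
      rintro _ ⟨z, hz, rfl⟩
      exact (hP.le hz).1.le (Set.smul_mem_smul_set ⟨hd, e⟩))).trans_lt h1
    rw [P6.ncard_orbit, hk] at h3
    obtain rfl : k = 0 := by
      by_contra k0
      exact h3.not_ge (Nat.le_self_pow k0 p)
    exact relIndex_eq_one.1 hk hy
  have h3 : zpowers x ≤ 𝐍(fixingSubgroup G C) := fun z hz => mem_norm_of_conj_le (by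
    rintro _ ⟨y, hy, rfl⟩
    refine (mem_fixingSubgroup_iff G).2 fun d hd => ?_
    have : z⁻¹ • d ∈ C := by
      rw [hC] at hd ⊢
      obtain ⟨w, hw, rfl⟩ := hd
      exact ⟨_, mul_mem (inv_mem hz) hw, mul_smul _ _ _⟩
    show (z * y * z⁻¹) • d = d
    rw [mul_smul, mul_smul, (mem_fixingSubgroup_iff G).1 hy _ this, smul_inv_smul])
  have h4 := (relIndex_dvd_index_of_le (le_sup_left (b := zpowers x))).trans
    (index_dvd_of_le h2)
  rw [relIndex_sup_of_norm h3, r _ fun k => hc ((mem_fixingSubgroup_iff G).1 k c cC),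
    ← relIndex_mul_index hP.le] at h4
  exact (hp.dvd_mul.1 h4).resolve_left hP.ndvd

/-- Let p be an odd prime and G a nontrivial group of permutations of a finite set Ω that is generated by its elements of p-power order. Then Ω has two disjoint nonempty subsets Δ₁ and Δ₂ such that the index in G of the subgroup of elements mapping Δ₁ onto Δ₁ and Δ₂ onto Δ₂ (and hence also the complement of their union onto itself) is divisible by p. -/
theorem result {Ω : Type*} [Fintype Ω] (p : ℕ) [Fact p.Prime] (hp : p ≠ 2) (G : Subgroup (Equiv.Perm Ω)) (hG : G ≠ ⊥) (hgen : Subgroup.closure {g : G | ∃ k : ℕ, orderOf g = p ^ k} = ⊤) :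
    ∃ Δ₁ Δ₂ : Set Ω, Δ₁.Nonempty ∧ Δ₂.Nonempty ∧ Disjoint Δ₁ Δ₂ ∧ p ∣ (MulAction.stabilizer G Δ₁ ⊓ MulAction.stabilizer G Δ₂).index := by
  classical
  have hd : p ∣ Nat.card G := by
    by_contra h
    have := (nontrivial_iff_ne_bot G).2 hG
    refine bot_ne_top (α := Subgroup G) (top_le_iff.1 (hgen ▸ (closure_le _).2 ?_))
    rintro g ⟨_ | k, hk⟩
    · exact orderOf_eq_one_iff.1 hk
    · exact (h ((dvd_pow_self p k.succ_ne_zero).trans (hk ▸ orderOf_dvd_natCard g))).elim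
  obtain ⟨x, hx⟩ := exists_prime_orderOf_dvd_card' p hd
  obtain ⟨c, hc⟩ : ∃ c : Ω, x • c ≠ c := by
    by_contra h
    push Not at h
    rw [show x = 1 from Subtype.ext (Equiv.ext h), orderOf_one] at hx
    exact (Fact.out : p.Prime).one_lt.ne hx
  exact aux Fact.out hx hc

end Cfsg.Agent.S4170
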