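import Cfsg.Statements.S4172
import Cfsg.Agent.H7.TwoGen

set_option autoImplicit false
open Cfsg

namespace Cfsg.Agent.S4172

open Subgroup
open scoped commutatorElement IsMulCommutative Pointwise

theorem abel_case {G : Type*} [Group G] [Finite G] (p : ℕ) [hp : Fact p.Prime] (P : Sylow p G)
    (hcore : Cfsg.pPrimeCore p G = ⊥)
    (hfrat : ((frattini ↥(P : Subgroup G)).map (P : Subgroup G).subtype).normalCore = ⊥)
    {N : Subgroup G} (hN : L.IsMinNormal N) (huniq : ∀ K : Subgroup G, K.Normal → K ≠ ⊥ → N ≤ K)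
    (hab : IsMulCommutative N) {x : G} (hx : (N ⊓ P) ⊔ zpowers x = P) :
    centralizer (N : Set G) ≤ N := by
  haveI := hN.1
  have hFp : fittingSubgroup G = pCore p G := L.fittingSubgroup_eq_pCore hp.out hcore
  have hFP : fittingSubgroup G ≤ P := hFp ▸ L.pCore_le_sylow P
  have hNP : N ≤ P := (L.le_fittingSubgroup hN.1 (L.isNilpotent_of_isMulCommutative N)).trans hFP
  rw [inf_eq_left.2 hNP] at hx
  set C := centralizer (N : Set G) with hC
  have hNC : N ≤ C := le_centralizer N
  -- elements of `C ⊓ P`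
  have hdec : ∀ c ∈ C, c ∈ P → ∃ n ∈ N, ∃ y ∈ zpowers x, y ∈ C ∧ c = n * y := by
    intro c hc hcP
    have : c ∈ N ⊔ zpowers x := by rw [hx]; exact hcP
    rw [← SetLike.mem_coe, normal_mul] at this
    obtain ⟨n, hn, y, hy, rfl⟩ := this
    refine ⟨n, hn, y, hy, ?_, rfl⟩
    have := C.mul_mem (C.inv_mem (hNC hn)) hc
    simpa using this
  obtain ⟨Q, hQ⟩ := H8.exists_sylow_eq_subgroupOf P C
  have hQab : IsMulCommutative (Q : Subgroup C) := by
    refine ⟨⟨fun a b => ?_⟩⟩
    have ha : ((a : C) : G) ∈ P := hQ.le a.2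
    have hb : ((b : C) : G) ∈ P := hQ.le b.2
    obtain ⟨n, hn, y, ⟨i, rfl⟩, hy, e1⟩ := hdec _ (a : C).2 ha
    obtain ⟨m, hm, z, ⟨j, rfl⟩, hz, e2⟩ := hdec _ (b : C).2 hb
    apply Subtype.ext; apply Subtype.ext
    show ((a : C) : G) * ((b : C) : G) = ((b : C) : G) * ((a : C) : G)
    rw [e1, e2]
    have c1 : Commute n m := hNC hm n hn
    have c2 : Commute n (x ^ j) := hz n hn
    have c3 : Commute m (x ^ i) := hy m hm
    have c4 : Commute (x ^ i) (x ^ j) := Commute.zpow_zpow_self x i j
    exact (c1.mul_right c2).mul_left (c3.symm.mul_right c4)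
  have hC' : ⁅C, C⁆ = ⊥ := by
    by_contra h
    have h1 := huniq _ inferInstance h
    apply hN.2.1
    rw [eq_bot_iff]
    intro z hz
    obtain ⟨k, hk⟩ := P.isPGroup' ⟨z, hNP hz⟩
    have h2 : (⟨z, hNC hz⟩ : C) = 1 := by
      apply H7.eq_one_of_mem_center_of_mem_commutator Q hQab (k := k)
      · rw [mem_center_iff]
        intro c
        exact Subtype.ext (c.2 z hz).symm
      · have := h1 hz
        rw [← map_subtype_commutator] at this
        obtain ⟨w, hw, e⟩ := this
        have : w = ⟨z, hNC hz⟩ := Subtype.ext e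
        rwa [← this]
      · exact Subtype.ext (by simpa using congrArg Subtype.val hk)
    exact congrArg Subtype.val h2
  have hCC : C ≤ centralizer (C : Set G) := commutator_eq_bot_iff_le_centralizer.1 hC'
  haveI hCab : IsMulCommutative C := ⟨⟨fun a b => Subtype.ext (hCC b.2 a a.2)⟩⟩
  have hCP : C ≤ P := (L.le_fittingSubgroup inferInstance
    (L.isNilpotent_of_isMulCommutative C)).trans hFP
  have hexp : ∀ c ∈ C, c ^ p = 1 := by
    intro c hc
    rw [← mem_bot, ← hfrat]
    intro g
    have h1 : g * c * g⁻¹ ∈ C := (inferInstance : C.Normal).conj_mem c hc g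
    refine ⟨⟨_, hCP h1⟩ ^ p, H7.pow_mem_frattini P.isPGroup' _, ?_⟩
    simp [conj_pow]
  by_cases hd : zpowers x ⊓ N = ⊥
  · have hcop : (Nat.card N).Coprime (P : Subgroup G).index := by
      obtain ⟨k, hk⟩ := IsPGroup.iff_card.1 (P.isPGroup'.to_le hNP)
      rw [hk]
      exact ((Nat.Prime.coprime_iff_not_dvd hp.out).2 P.not_dvd_index).pow_left k
    obtain ⟨H, hH⟩ := H7.gaschutz N hd (by rw [sup_comm]; exact hx) hcop
    have hn : (C ⊓ H).Normal := ⟨by
      intro c hc g
      obtain ⟨⟨h, n⟩, e⟩ := hH.2 g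
      have e' : (h : G) * n = g := e
      have : g * c * g⁻¹ = h * c * (h : G)⁻¹ := by
        rw [← e']
        have := hc.1 n n.2
        simp only [mul_inv_rev, mul_assoc]
        rw [← mul_assoc (n : G), this]
        simp [mul_assoc]
      rw [this]
      exact ⟨(inferInstance : C.Normal).conj_mem c hc.1 _,
        H.mul_mem (H.mul_mem h.2 hc.2) (H.inv_mem h.2)⟩⟩
    have hb : C ⊓ H = ⊥ := by
      by_contra h
      have h1 := (huniq _ hn h).trans inf_le_right
      exact hN.2.1 (disjoint_self.1 (hH.disjoint.mono_left h1))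
    intro c hc
    obtain ⟨⟨h, n⟩, e⟩ := hH.2 c
    have e' : (h : G) * n = c := e
    have h1 : (h : G) ∈ C ⊓ H := by
      refine mem_inf.2 ⟨?_, h.2⟩
      have := C.mul_mem hc (C.inv_mem (hNC n.2))
      rw [← e'] at this
      simpa using this
    rw [hb, mem_bot] at h1
    rw [← e', h1, one_mul]
    exact n.2
  · obtain ⟨⟨y, hy⟩, hy1⟩ := (Subgroup.ne_bot_iff_exists_ne_one).1 hd
    have hy1' : y ≠ 1 := fun h => hy1 (Subtype.ext h)
    have ho : orderOf y = p := orderOf_eq_prime (hexp y (hNC hy.2)) hy1'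
    intro c hc
    obtain ⟨n, hn, z, hz, hzC, rfl⟩ := hdec c hc (hCP hc)
    refine N.mul_mem hn ?_
    have : z ∈ zpowers y := H6.mem_zpowers_of_orderOf_dvd hz hy.1
      (ho ▸ orderOf_dvd_of_pow_eq_one (hexp z hzC))
    exact (zpowers_le.2 hy.2) this

theorem not_hasNPC_of_simple {G : Type*} [Group G] [Finite G] (p : ℕ) [hp : Fact p.Prime]
    [IsSimpleGroup G] (hna : ¬ IsMulCommutative G) (hd : p ∣ Nat.card G) :
    ¬ HasNormalPComplement p G := by
  intro h
  rw [H8.hasNPC_iff_isPGroup_quotient_pPrimeCore] at h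
  rcases (inferInstance : (pPrimeCore p G).Normal).eq_bot_or_eq_top with h1 | h1
  · have h2 : IsPGroup p G := h.of_injective (QuotientGroup.mk' _) (by
      rw [← MonoidHom.ker_eq_bot_iff, QuotientGroup.ker_mk', h1])
    haveI := h2.isNilpotent
    exact hna ⟨⟨IsSimpleGroup.comm_iff_isSolvable.2 inferInstance⟩⟩
  · have := L.not_dvd_card_pPrimeCore (G := G) hp.out
    rw [h1, card_top] at this
    exact this hd

/-- Let p be a prime and G a finite group with a non-commutative Sylow p-subgroup P whose Frattini subgroup has index p² in P (P is generated by two elements). Suppose G has no nontrivial normal subgroup of order prime to p and the Frattini subgroup of P contains no nontrivial normal subgroup of G. Then the generalized Fitting subgroup F*(G) is the unique minimal normal subgroup of G, the image of P in G/F*(G) is cyclic, and if F*(G) is not commutative then P permutes the components of G transitively by conjugation. -/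
theorem result {G : Type*} [Group G] [Finite G] (p : ℕ) [Fact p.Prime] (P : Sylow p G) (hna : ¬ IsMulCommutative (P : Subgroup G)) (hgen : (frattini ↥(P : Subgroup G)).index = p ^ 2) (hcore : Cfsg.pPrimeCore p G = ⊥) (hfrat : ((frattini ↥(P : Subgroup G)).map (P : Subgroup G).subtype).normalCore = ⊥) [hFn : (Cfsg.generalizedFittingSubgroup G).Normal] :
    (Cfsg.generalizedFittingSubgroup G ≠ ⊥ ∧ ∀ K : Subgroup G, K.Normal → K ≠ ⊥ → Cfsg.generalizedFittingSubgroup G ≤ K) ∧
      IsCyclic ↥((P : Subgroup G).map (QuotientGroup.mk' (Cfsg.generalizedFittingSubgroup G))) ∧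
      (¬ IsMulCommutative (Cfsg.generalizedFittingSubgroup G) → ∀ K L : Subgroup G, Cfsg.IsComponent K → Cfsg.IsComponent L → ∃ x ∈ (P : Subgroup G), L = K.map (MulAut.conj x).toMonoidHom) := by
  have hp : p.Prime := Fact.out
  have hA : ∀ K : Subgroup G, K.Normal → K ≠ ⊥ →
      ¬ K.subgroupOf P ≤ frattini (P : Subgroup G) := by
    intro K hK hne h
    have h1 := H8.hasNPC_of_normal_of_le_frattini P K h
    rw [H8.hasNPC_iff_isPGroup_quotient_pPrimeCore] at h1
    have h2 : pPrimeCore p K = ⊥ := by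
      have := L.map_subtype_pPrimeCore hp K
      rw [hcore, bot_inf_eq] at this
      exact (map_eq_bot_iff_of_injective _ K.subtype_injective).1 this
    have h3 : IsPGroup p K := h1.of_injective (QuotientGroup.mk' _) (by
      rw [← MonoidHom.ker_eq_bot_iff, QuotientGroup.ker_mk', h2])
    have h4 : K ≤ P := (L.le_pCore hK h3).trans (L.pCore_le_sylow P)
    apply hne
    rw [eq_bot_iff, ← hfrat]
    apply normal_le_normalCore.2
    intro x hx
    exact ⟨⟨x, h4 hx⟩, h hx, rfl⟩
  have hP' : ⁅(P : Subgroup G), (P : Subgroup G)⁆ ≠ ⊥ := by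
    intro h
    have := commutator_eq_bot_iff_le_centralizer.1 h
    exact hna ⟨⟨fun a b => Subtype.ext (this b.2 a a.2)⟩⟩
  have hB : ∀ K : Subgroup G, (P : Subgroup G) ≤ normalizer (K : Set G) →
      ¬ K.subgroupOf P ≤ frattini (P : Subgroup G) → ⁅(P : Subgroup G), (P : Subgroup G)⁆ ≤ K := by
    intro K hK h
    obtain ⟨x, hx, h1⟩ := H7.exists_inf_sup_zpowers hgen K h
    exact H7.commutator_le_of_inf_sup_zpowers hK hx h1
  have hB' : ∀ K : Subgroup G, K.Normal → K ≠ ⊥ → ⁅(P : Subgroup G), (P : Subgroup G)⁆ ≤ K :=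
    fun K hK hne => hB K le_normalizer_of_normal (hA K hK hne)
  have htop : (⊤ : Subgroup G) ≠ ⊥ := fun h => hP' (eq_bot_iff.2 (h ▸ le_top))
  obtain ⟨N, hN, -⟩ := L.exists_isMinNormal_le (⊤ : Subgroup G) htop
  haveI := hN.1
  have huniq : ∀ K : Subgroup G, K.Normal → K ≠ ⊥ → N ≤ K := by
    intro K hK hne
    refine (hN.inf_eq_bot_or_le K).resolve_left fun h => hP' ?_
    rw [eq_bot_iff, ← h]
    exact le_inf (hB' N hN.1 hN.2.1) (hB' K hK hne)
  obtain ⟨x, hxP, hx⟩ := H7.exists_inf_sup_zpowers hgen N (hA N hN.1 hN.2.1)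
  have hFbot : ¬ IsMulCommutative N → fittingSubgroup G = ⊥ := by
    intro hab
    by_contra h
    have h1 := huniq _ inferInstance h
    haveI : Group.IsNilpotent N := L.isNilpotent_of_le h1
    exact hab hN.isMulCommutative_of_isSolvable
  have hncl : ¬ IsMulCommutative N → ∀ K : Subgroup G, IsComponent K →
      K ⊓ centralizer (K : Set G) = ⊥ ∧ normalClosure (K : Set G) = N := by
    intro hab K hK
    have h1 : K ⊓ centralizer (K : Set G) = ⊥ := by
      have := (H2.compIn_top_iff.2 hK).inf_centralizer_le_fittingOf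
      rw [H2.fittingOf_top, hFbot hab] at this
      exact eq_bot_iff.2 this
    have h2 := H2.isMinNormal_normalClosure_of_isComponent hK h1
    exact ⟨h1, ((h2.2.2 N hN.1 (huniq _ h2.1 h2.2.1)).resolve_left hN.2.1).symm⟩
  have hF : generalizedFittingSubgroup G = N := by
    refine le_antisymm ?_ (H2.IsMinNormal_le_generalizedFittingSubgroup hN)
    by_cases hab : IsMulCommutative N
    · refine le_trans (sup_le ?_ hN.fittingSubgroup_le_centralizer)
        (abel_case p P hcore hfrat hN huniq hab hx)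
      exact H2.layer_le_centralizer_fittingSubgroup.trans (centralizer_le
        (L.le_fittingSubgroup hN.1 (L.isNilpotent_of_isMulCommutative N)))
    · refine sup_le (sSup_le fun K hK => ?_) (by rw [hFbot hab]; exact bot_le)
      rw [← (hncl hab K hK).2]
      exact le_normalClosure
  refine ⟨⟨hF ▸ hN.2.1, fun K hK hne => hF ▸ huniq K hK hne⟩, ?_, fun hab K L' hK hL => ?_⟩
  · have : (P : Subgroup G).map (QuotientGroup.mk' (generalizedFittingSubgroup G)) =
        zpowers (QuotientGroup.mk' (generalizedFittingSubgroup G) x) := by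
      rw [← hx, Subgroup.map_sup, MonoidHom.map_zpowers, (Subgroup.map_eq_bot_iff _).2, bot_sup_eq]
      rw [QuotientGroup.ker_mk', hF]
      exact inf_le_left
    rw [this]
    infer_instance
  · rw [hF] at hab
    by_contra hne
    push Not at hne
    have hconj : ∀ (g : G) (M : Subgroup G), IsComponent M → IsComponent (MulAut.conj g • M) :=
      fun g M hM => H2.compIn_top_iff.1
        ((H2.compIn_top_iff.2 hM).conj_of_mem_normalizer (le_normalizer (mem_top g)))
    -- every component has order divisible by `p` and no normal complement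
    have hnpc : ∀ M : Subgroup G, IsComponent M → ¬ HasNormalPComplement p M := by
      intro M hM
      haveI := H2.isSimpleGroup_of_isQuasisimple hM.2
        ((H2.center_eq_bot_iff_inf_centralizer M).2 (hncl hab M hM).1)
      refine not_hasNPC_of_simple p (H2.QS.not_isMulCommutative hM.2) ?_
      by_contra hd
      have := H2.le_pPrimeCore_of_isSubnormal hM.1 ((Nat.Prime.coprime_iff_not_dvd hp).2 hd).symm
      rw [hcore] at this
      exact H2.QS.ne_bot hM.2 (eq_bot_iff.2 this)
    let S1 : Set (Subgroup G) := {M | ∃ x ∈ (P : Subgroup G), M = MulAut.conj x • K}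
    let S2 : Set (Subgroup G) := {M | IsComponent M ∧ M ∉ S1}
    have hS1 : ∀ M ∈ S1, IsComponent M := by
      rintro _ ⟨x, -, rfl⟩; exact hconj x K hK
    have hinv1 : ∀ g ∈ (P : Subgroup G), ∀ M ∈ S1, MulAut.conj g • M ∈ S1 := by
      rintro g hg _ ⟨x, hx, rfl⟩
      exact ⟨g * x, mul_mem hg hx, by rw [H2.conj_smul_mul]⟩
    have hinv2 : ∀ g ∈ (P : Subgroup G), ∀ M ∈ S2, MulAut.conj g • M ∈ S2 := by
      rintro g hg M ⟨h1, h2⟩
      refine ⟨hconj g M h1, fun h => h2 ?_⟩
      have := hinv1 g⁻¹ (inv_mem hg) _ h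
      rwa [H2.conj_smul_inv_cancel] at this
    have key : ∀ S : Set (Subgroup G), (∀ g ∈ (P : Subgroup G), ∀ M ∈ S, MulAut.conj g • M ∈ S) →
        ∀ M ∈ S, IsComponent M → ⁅(P : Subgroup G), (P : Subgroup G)⁆ ≤ sSup S := by
      intro S hS M hM hM'
      have hn : (P : Subgroup G) ≤ normalizer ((sSup S : Subgroup G) : Set G) :=
        H2.le_normalizer_sSup (fun g hg M hM => le_sSup (hS g hg M hM))
      refine hB _ hn fun h => hnpc M hM' ?_
      exact H8.hasNPC_of_le (H7.hasNPC_of_le_normalizer_of_le_frattini P _ hn h) (le_sSup hM)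
    have k1 := key S1 hinv1 K ⟨1, one_mem _, (H2.conj_smul_one K).symm⟩ hK
    have k2 := key S2 hinv2 L' ⟨hL, fun ⟨x, hx, e⟩ => hne x hx e⟩ hL
    have hc : sSup S1 ≤ centralizer ((sSup S2 : Subgroup G) : Set G) := by
      refine sSup_le fun M hM => le_centralizer_iff.1 (sSup_le fun M' hM' => ?_)
      exact (H2.compIn_top_iff.2 hM'.1).le_centralizer_of_ne (H2.compIn_top_iff.2 (hS1 M hM))
        (fun e => hM'.2 (e ▸ hM))
    have hNle : N ≤ sSup S1 ⊔ sSup S2 := by
      rw [← hF]
      refine sup_le (sSup_le fun M hM => ?_) (by rw [hFbot hab]; exact bot_le)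
      by_cases h : M ∈ S1
      · exact (le_sSup h).trans le_sup_left
      · exact (le_sSup (show M ∈ S2 from ⟨hM, h⟩)).trans le_sup_right
    have hcen : ⁅(P : Subgroup G), (P : Subgroup G)⁆ ≤ centralizer (N : Set G) := by
      refine le_centralizer_iff.1 (hNle.trans (sup_le ?_ ?_))
      · exact hc.trans (centralizer_le k2)
      · exact (le_centralizer_iff.1 hc).trans (centralizer_le k1)
    have h1 := huniq _ inferInstance (fun h : centralizer (N : Set G) = ⊥ =>
      hP' (eq_bot_iff.2 (h ▸ hcen)))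
    exact hab ⟨⟨fun a b => Subtype.ext (h1 b.2 a a.2)⟩⟩

end Cfsg.Agent.S4172
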