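import Cfsg.Statements.S4178


set_option autoImplicit false
open Cfsg

namespace Cfsg.Agent.S4178

theorem aux {F V : Type*} [Field F] [Fintype F] [AddCommGroup V] [Module F V] [FiniteDimensional F V]
    (H : Subgroup (V ≃ₗ[F] V)) (W U : Submodule F V) (hWU : W < U)
    (hW : ∀ h ∈ H, ∀ w ∈ W, h w ∈ W) (hU : ∀ h ∈ H, ∀ w ∈ U, h w ∈ U) :
    (Subgroup.closure {h : ↥H | ∃ v : V, v ≠ 0 ∧ (h : V ≃ₗ[F] V) v = v}).index + 1 ≤
      Fintype.card F ^ Module.finrank F (U.map W.mkQ) := by
  classical
  have : Finite V := Module.finite_of_finite F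
  have : Finite (V ⧸ W) := Module.finite_of_finite F
  obtain ⟨v, hvU, hvW⟩ := SetLike.exists_of_lt hWU
  let S : Subgroup H :=
    { carrier := {h | (h : V ≃ₗ[F] V) v - v ∈ W}
      one_mem' := by simp
      mul_mem' := fun {x y} hx hy => by
        simp only [Set.mem_setOf_eq] at hx hy ⊢
        have := W.add_mem (hW x x.2 _ hy) hx
        rw [map_sub] at this
        simpa using this
      inv_mem' := fun {x} hx => by
        simp only [Set.mem_setOf_eq] at hx ⊢
        have := W.neg_mem (hW _ (x⁻¹).2 _ hx)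
        rw [map_sub] at this
        simpa using this }
  have hS : S ≤ Subgroup.closure {h : ↥H | ∃ v : V, v ≠ 0 ∧ (h : V ≃ₗ[F] V) v = v} := by
    intro h hh
    apply Subgroup.subset_closure
    by_contra hne
    simp only [Set.mem_setOf_eq, not_exists, not_and] at hne
    let T : V →ₗ[F] V := (h : V ≃ₗ[F] V).toLinearMap - LinearMap.id
    have hT : ∀ x, T x = (h : V ≃ₗ[F] V) x - x := fun x => rfl
    have hTinj : Function.Injective T := by
      rw [injective_iff_map_eq_zero]
      intro x hx
      by_contra hx0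
      exact hne x hx0 (sub_eq_zero.1 (by rw [← hT, hx]))
    let T' : W →ₗ[F] W := T.restrict (fun x hx => by
      rw [hT]; exact W.sub_mem (hW h h.2 x hx) hx)
    have hT'inj : Function.Injective T' := fun x y hxy =>
      Subtype.ext (hTinj (congrArg Subtype.val hxy))
    obtain ⟨w, hw⟩ := (LinearMap.injective_iff_surjective.1 hT'inj) ⟨T v, hh⟩
    have : (w : V) = v := hTinj (congrArg Subtype.val hw)
    exact hvW (this ▸ w.2)
  let f : H ⧸ S → {x : U.map W.mkQ // x ≠ 0} := Quotient.lift
    (fun h => ⟨⟨W.mkQ ((h : V ≃ₗ[F] V) v), Submodule.mem_map_of_mem (hU h h.2 v hvU)⟩, fun h0 => by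
      have h1 : W.mkQ ((h : V ≃ₗ[F] V) v) = 0 := congrArg Subtype.val h0
      rw [Submodule.mkQ_apply, Submodule.Quotient.mk_eq_zero] at h1
      have := hW _ (h⁻¹).2 _ h1
      exact hvW (by simpa using this)⟩) (fun x y hxy => by
      have h : ((x⁻¹ * y : H) : V ≃ₗ[F] V) v - v ∈ W := QuotientGroup.leftRel_apply.1 hxy
      refine Subtype.ext (Subtype.ext ?_)
      show W.mkQ _ = W.mkQ _
      rw [Submodule.mkQ_apply, Submodule.mkQ_apply, eq_comm, Submodule.Quotient.eq]
      have := hW x x.2 _ h
      rw [map_sub] at this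
      simpa using this)
  have hf : Function.Injective f := by
    intro x y
    induction x using QuotientGroup.induction_on with | H x => ?_
    induction y using QuotientGroup.induction_on with | H y => ?_
    intro h
    have h' : W.mkQ ((x : V ≃ₗ[F] V) v) = W.mkQ ((y : V ≃ₗ[F] V) v) :=
      congrArg Subtype.val (congrArg Subtype.val h)
    rw [Submodule.mkQ_apply, Submodule.mkQ_apply, eq_comm, Submodule.Quotient.eq] at h'
    rw [QuotientGroup.eq]
    show ((x⁻¹ * y : H) : V ≃ₗ[F] V) v - v ∈ W
    have := hW _ (x⁻¹).2 _ h'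
    rw [map_sub] at this
    simpa using this
  have h1 := Nat.card_le_card_of_injective f hf
  have h2 : Nat.card {x : U.map W.mkQ // x ≠ 0} + 1 = Nat.card (U.map W.mkQ) := by
    have := Fintype.ofFinite (U.map W.mkQ)
    rw [Nat.card_eq_fintype_card, Nat.card_eq_fintype_card, Fintype.card_subtype_compl,
      Fintype.card_subtype_eq]
    have : 0 < Fintype.card (U.map W.mkQ) := Fintype.card_pos
    omega
  have h3 : Nat.card (U.map W.mkQ) = Fintype.card F ^ Module.finrank F (U.map W.mkQ) := by
    rw [Module.natCard_eq_pow_finrank (K := F), Nat.card_eq_fintype_card]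
  have : Finite (H ⧸ S) := Finite.of_injective f hf
  have h4 := Nat.le_of_dvd (show 0 < S.index from Nat.card_pos) (Subgroup.index_dvd_of_le hS)
  have h5 : S.index = Nat.card (H ⧸ S) := rfl
  rw [← h3, ← h2]
  omega

/-- Let F be a finite field with q elements, V a non-zero finite-dimensional F-space of dimension d, H a group of invertible linear maps of V, and R the subgroup of H generated by the elements of H that fix some non-zero vector (have eigenvalue 1). Then the index of R in H is at most q^d − 1; and if H leaves invariant some proper non-zero subspace, the index is at most q^(d/2) − 1. -/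
theorem result {F V : Type*} [Field F] [Fintype F] [AddCommGroup V] [Module F V] [FiniteDimensional F V] [Nontrivial V]
    (H : Subgroup (V ≃ₗ[F] V)) :
    (Subgroup.closure {h : ↥H | ∃ v : V, v ≠ 0 ∧ (h : V ≃ₗ[F] V) v = v}).index ≤ Fintype.card F ^ Module.finrank F V - 1 ∧
    ((∃ W : Submodule F V, W ≠ ⊥ ∧ W ≠ ⊤ ∧ ∀ h ∈ H, ∀ w ∈ W, h w ∈ W) →
      ((Subgroup.closure {h : ↥H | ∃ v : V, v ≠ 0 ∧ (h : V ≃ₗ[F] V) v = v}).index : ℝ) ≤ Real.sqrt ((Fintype.card F : ℝ) ^ Module.finrank F V) - 1) := by
  have hq : 1 ≤ Fintype.card F := Fintype.card_pos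
  refine ⟨?_, ?_⟩
  · have := aux H ⊥ ⊤ bot_lt_top (fun h _ w hw => by rw [Submodule.mem_bot] at hw; simp [hw])
      (fun _ _ _ _ => trivial)
    have h2 : Module.finrank F ((⊤ : Submodule F V).map (⊥ : Submodule F V).mkQ) ≤
        Module.finrank F V := (Submodule.finrank_map_le _ _).trans (by simp)
    have := this.trans (Nat.pow_le_pow_right hq h2)
    omega
  · rintro ⟨W, hW0, hW1, hW⟩
    obtain ⟨e, he, hle⟩ : ∃ e : ℕ, 2 * e ≤ Module.finrank F V ∧
        (Subgroup.closure {h : ↥H | ∃ v : V, v ≠ 0 ∧ (h : V ≃ₗ[F] V) v = v}).index + 1 ≤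
          Fintype.card F ^ e := by
      by_cases h : 2 * Module.finrank F W ≤ Module.finrank F V
      · have := aux H ⊥ W (bot_lt_iff_ne_bot.2 hW0)
          (fun h _ w hw => by rw [Submodule.mem_bot] at hw; simp [hw]) hW
        refine ⟨_, ?_, this⟩
        have := Submodule.finrank_map_le (⊥ : Submodule F V).mkQ W
        omega
      · have := aux H W ⊤ (lt_top_iff_ne_top.2 hW1) hW (fun _ _ _ _ => trivial)
        refine ⟨_, ?_, this⟩
        have h1 := Submodule.finrank_le ((⊤ : Submodule F V).map W.mkQ)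
        have h2 := Submodule.finrank_quotient_add_finrank W
        omega
    rw [le_sub_iff_add_le]
    apply Real.le_sqrt_of_sq_le
    have h1 : ((Subgroup.closure {h : ↥H | ∃ v : V, v ≠ 0 ∧ (h : V ≃ₗ[F] V) v = v}).index + 1) ^ 2
        ≤ Fintype.card F ^ Module.finrank F V :=
      calc _ ≤ (Fintype.card F ^ e) ^ 2 := Nat.pow_le_pow_left hle 2
        _ = Fintype.card F ^ (2 * e) := by rw [← pow_mul, mul_comm]
        _ ≤ _ := Nat.pow_le_pow_right hq he
    exact_mod_cast h1

end Cfsg.Agent.S4178
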