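import Cfsg.Statements.S4181
import Cfsg.Agent.H8.PComplement

set_option autoImplicit false
open Cfsg

namespace Cfsg.Agent.S4181

open scoped Pointwise Classical

section
variable {G : Type*} [Group G]

/-- conjugate subgroup -/
def cj (g : G) (X : Subgroup G) : Subgroup G := MulAut.conj g • X

theorem mem_cj {g x : G} {X : Subgroup G} : x ∈ cj g X ↔ g⁻¹ * x * g ∈ X := by
  unfold cj
  rw [Subgroup.mem_pointwise_smul_iff_inv_smul_mem]
  simp [MulAut.smul_def]

theorem cj_mul (g h : G) (X : Subgroup G) : cj (g * h) X = cj g (cj h X) := by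
  unfold cj; rw [map_mul, mul_smul]

theorem cj_one (X : Subgroup G) : cj 1 X = X := by
  unfold cj; rw [map_one, one_smul]

theorem cj_le_cj {g : G} {X Y : Subgroup G} : cj g X ≤ cj g Y ↔ X ≤ Y :=
  Subgroup.pointwise_smul_le_pointwise_smul_iff

theorem cj_inf (g : G) (X Y : Subgroup G) : cj g (X ⊓ Y) = cj g X ⊓ cj g Y :=
  Subgroup.smul_inf _ _ _

theorem cj_of_mem {g : G} {X : Subgroup G} (h : g ∈ X) : cj g X = X :=
  Subgroup.conj_smul_eq_self_of_mem h

theorem cj_inv_cj (g : G) (X : Subgroup G) : cj g⁻¹ (cj g X) = X := by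
  rw [← cj_mul, inv_mul_cancel, cj_one]

theorem cj_cj_inv (g : G) (X : Subgroup G) : cj g (cj g⁻¹ X) = X := by
  rw [← cj_mul, mul_inv_cancel, cj_one]

theorem cj_eq_iff {g : G} {X : Subgroup G} : cj g X = X ↔ g ∈ Subgroup.normalizer (X : Set G) := by
  rw [Subgroup.mem_normalizer_iff'']
  constructor
  · intro h n
    rw [← mem_cj, h]
  · intro h
    ext x
    rw [mem_cj, ← h]

variable (p : ℕ) [hp : Fact p.Prime] [Finite G]

/-- the Sylow subgroups of `G` inside `X` -/
noncomputable def syl (X : Subgroup G) : Finset (Sylow p G) :=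
  (Set.toFinite {Q : Sylow p G | (Q : Subgroup G) ≤ X}).toFinset

variable {p}

theorem mem_syl {X : Subgroup G} {Q : Sylow p G} : Q ∈ syl p X ↔ (Q : Subgroup G) ≤ X := by
  simp [syl]

theorem syl_mono {X Y : Subgroup G} (h : X ≤ Y) : syl p X ⊆ syl p Y :=
  fun _ hQ => mem_syl.2 ((mem_syl.1 hQ).trans h)

omit hp [Finite G] in
theorem coe_smul (g : G) (Q : Sylow p G) : ((g • Q : Sylow p G) : Subgroup G) = cj g Q :=
  Sylow.coe_subgroup_smul

theorem syl_cj (g : G) (X : Subgroup G) : syl p (cj g X) = (syl p X).image (g • ·) := by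
  ext Q
  rw [Finset.mem_image, mem_syl]
  constructor
  · intro h
    refine ⟨g⁻¹ • Q, mem_syl.2 ?_, smul_inv_smul g Q⟩
    rw [coe_smul, ← cj_le_cj (g := g), cj_cj_inv]; exact h
  · rintro ⟨R, hR, rfl⟩
    rw [coe_smul]; exact cj_le_cj.2 (mem_syl.1 hR)

theorem card_syl_cj (g : G) (X : Subgroup G) : (syl p (cj g X)).card = (syl p X).card := by
  rw [syl_cj, Finset.card_image_of_injective _ (MulAction.injective g)]

variable (p) in
/-- the subgroup generated by the Sylow subgroups of `G` inside `X` -/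
def cl (X : Subgroup G) : Subgroup G := ⨆ (Q : Sylow p G) (_ : (Q : Subgroup G) ≤ X), (Q : Subgroup G)

omit hp [Finite G] in
theorem cl_le (X : Subgroup G) : cl p X ≤ X := iSup₂_le fun _ h => h

omit hp [Finite G] in
theorem le_cl {X : Subgroup G} {Q : Sylow p G} (h : (Q : Subgroup G) ≤ X) :
    (Q : Subgroup G) ≤ cl p X :=
  le_iSup₂_of_le (f := fun (Q : Sylow p G) (_ : (Q : Subgroup G) ≤ X) => (Q : Subgroup G)) Q h le_rfl

omit hp [Finite G] in
theorem cl_le_of {X Y : Subgroup G} (h : ∀ Q : Sylow p G, (Q : Subgroup G) ≤ X → (Q : Subgroup G) ≤ Y) :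
    cl p X ≤ Y := iSup₂_le h

theorem syl_cl (X : Subgroup G) : syl p (cl p X) = syl p X := by
  ext Q; rw [mem_syl, mem_syl]; exact ⟨fun h => h.trans (cl_le X), le_cl⟩

theorem cl_congr {X Y : Subgroup G} (h : syl p X = syl p Y) : cl p X = cl p Y :=
  le_antisymm (cl_le_of fun _ hQ => le_cl (mem_syl.1 (h ▸ mem_syl.2 hQ)))
    (cl_le_of fun _ hQ => le_cl (mem_syl.1 (h.symm ▸ mem_syl.2 hQ)))

theorem cl_cl (X : Subgroup G) : cl p (cl p X) = cl p X := cl_congr (syl_cl X)

omit hp [Finite G] in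
theorem cl_cj_le (g : G) (X : Subgroup G) : cl p (cj g X) ≤ cj g (cl p X) := by
  refine cl_le_of fun Q hQ => ?_
  have : ((g⁻¹ • Q : Sylow p G) : Subgroup G) ≤ X := by
    rw [coe_smul, ← cj_le_cj (g := g), cj_cj_inv]; exact hQ
  have h2 := le_cl this
  rwa [coe_smul, ← cj_le_cj (g := g), cj_cj_inv] at h2

omit hp [Finite G] in
theorem cl_cj (g : G) (X : Subgroup G) : cl p (cj g X) = cj g (cl p X) := by
  refine le_antisymm (cl_cj_le g X) ?_
  have := cl_cj_le (p := p) g⁻¹ (cj g X)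
  rw [cj_inv_cj] at this
  rw [← cj_le_cj (g := g⁻¹), cj_inv_cj]; exact this

theorem exists_conj {L : Subgroup G} {P Q : Sylow p G} (hP : (P : Subgroup G) ≤ L)
    (hQ : (Q : Subgroup G) ≤ L) : ∃ g ∈ L, g • P = Q := by
  obtain ⟨h, hh⟩ := MulAction.exists_smul_eq L (P.subtype hP) (Q.subtype hQ)
  rw [Sylow.smul_subtype] at hh
  exact ⟨h, h.2, Sylow.subtype_injective hh⟩

/-- a `p`-element normalizing a subgroup that contains a Sylow subgroup lies in it -/
theorem mem_of_norm {M : Subgroup G} {Q : Sylow p G} (hQ : (Q : Subgroup G) ≤ M) {y : G} {k : ℕ}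
    (hy : orderOf y = p ^ k) (hn : y ∈ Subgroup.normalizer (M : Set G)) : y ∈ M := by
  have h1 : ¬ p ∣ M.index := fun h => Q.not_dvd_index (h.trans (Subgroup.index_dvd_of_le hQ))
  have h2 : ¬ p ∣ (M.subgroupOf (Subgroup.normalizer (M : Set G))).index := by
    intro h
    apply h1
    rw [← Subgroup.relIndex_mul_index (Subgroup.le_normalizer (H := M))]
    exact h.mul_right _
  have : (⟨y, hn⟩ : Subgroup.normalizer (M : Set G)) ∈
      M.subgroupOf (Subgroup.normalizer (M : Set G)) := by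
    apply H8.mem_of_coprime_index
    rw [← Subgroup.orderOf_coe]
    change (orderOf y).Coprime _
    rw [hy]
    exact ((Nat.Prime.coprime_iff_not_dvd hp.out).2 h2).pow_left k
  exact this

/-- the class of `M` under `L` -/
noncomputable def orb (L M : Subgroup G) : Finset (Subgroup G) :=
  (Set.toFinite {N : Subgroup G | ∃ g ∈ L, N = cj g M}).toFinset

omit hp in
theorem mem_orb {L M N : Subgroup G} : N ∈ orb L M ↔ ∃ g ∈ L, N = cj g M := by simp [orb]

omit hp in
theorem orb_inv {L M N : Subgroup G} {g : G} (hg : g ∈ L) (hN : N ∈ orb L M) :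
    cj g N ∈ orb L M := by
  obtain ⟨h, hh, rfl⟩ := mem_orb.1 hN
  exact mem_orb.2 ⟨g * h, L.mul_mem hg hh, (cj_mul _ _ _).symm⟩

/-- double counting -/
theorem sum_card_syl {L : Subgroup G} {P : Sylow p G} (hP : (P : Subgroup G) ≤ L)
    (S : Finset (Subgroup G)) (hS : ∀ g ∈ L, ∀ N ∈ S, cj g N ∈ S) :
    ∑ M ∈ S, (syl p (L ⊓ M)).card =
      (syl p L).card * (S.filter fun M => (P : Subgroup G) ≤ M).card := by
  have h1 : ∀ M, (syl p (L ⊓ M)).card =
      ∑ Q ∈ syl p L, if (Q : Subgroup G) ≤ M then 1 else 0 := by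
    intro M
    rw [← Finset.card_filter]
    congr 1
    ext Q
    simp only [mem_syl, Finset.mem_filter, le_inf_iff]
  simp_rw [h1]
  rw [Finset.sum_comm, ← smul_eq_mul, ← Finset.sum_const]
  refine Finset.sum_congr rfl fun Q hQ => ?_
  rw [← Finset.card_filter]
  obtain ⟨g, hg, rfl⟩ := exists_conj hP (mem_syl.1 hQ)
  symm
  refine Finset.card_bij (fun M _ => cj g M) ?_ ?_ ?_
  · intro M hM
    rw [Finset.mem_filter] at hM ⊢
    exact ⟨hS g hg M hM.1, by rw [coe_smul]; exact cj_le_cj.2 hM.2⟩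
  · intro M _ N _ e
    rw [← cj_inv_cj g M, e, cj_inv_cj]
  · intro N hN
    rw [Finset.mem_filter] at hN
    refine ⟨cj g⁻¹ N, Finset.mem_filter.2 ⟨hS _ (L.inv_mem hg) _ hN.1, ?_⟩, cj_cj_inv _ _⟩
    have := hN.2
    rwa [coe_smul, ← cj_le_cj (g := g⁻¹), cj_inv_cj] at this

variable (p) in
/-- the excess -/
noncomputable def E (L X : Subgroup G) : ℤ :=
  ((p : ℤ) - 1) * (syl p L).card - (2 * p - 1) * (syl p (L ⊓ X)).card

variable (p) in
noncomputable def D (P : Sylow p G) (S : Finset (Subgroup G)) : ℤ :=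
  ((p : ℤ) - 1) * S.card - (2 * p - 1) * (S.filter fun M => (P : Subgroup G) ≤ M).card

theorem sum_E {L : Subgroup G} {P : Sylow p G} (hP : (P : Subgroup G) ≤ L)
    (S : Finset (Subgroup G)) (hS : ∀ g ∈ L, ∀ N ∈ S, cj g N ∈ S) :
    ∑ M ∈ S, E p L M = (syl p L).card * D p P S := by
  unfold E D
  rw [Finset.sum_sub_distrib, Finset.sum_const, ← Finset.mul_sum, ← Nat.cast_sum,
    sum_card_syl hP S hS]
  push_cast
  simp only [nsmul_eq_mul]
  ring

theorem E_cj {L : Subgroup G} {g : G} (hg : g ∈ L) (M : Subgroup G) :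
    E p L (cj g M) = E p L M := by
  unfold E
  have : L ⊓ cj g M = cj g (L ⊓ M) := by rw [cj_inf, cj_of_mem hg]
  rw [this, card_syl_cj]

theorem sum_E_orb (L M : Subgroup G) :
    ∑ N ∈ orb L M, E p L N = (orb L M).card * E p L M := by
  rw [← nsmul_eq_mul, ← Finset.sum_const]
  refine Finset.sum_congr rfl fun N hN => ?_
  obtain ⟨g, hg, rfl⟩ := mem_orb.1 hN
  exact E_cj hg M

theorem E_congr {L X Y : Subgroup G} (h : syl p (L ⊓ X) = syl p (L ⊓ Y)) : E p L X = E p L Y := by
  unfold E; rw [h]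

theorem syl_inf_cl {L' L T : Subgroup G} (h : L' ≤ L) :
    syl p (L' ⊓ cl p (L ⊓ T)) = syl p (L' ⊓ T) := by
  ext Q
  simp only [mem_syl, le_inf_iff]
  exact ⟨fun hh => ⟨hh.1, (hh.2.trans (cl_le _)).trans inf_le_right⟩,
    fun hh => ⟨hh.1, le_cl (le_inf (hh.1.trans h) hh.2)⟩⟩

omit hp in
theorem cj_pow_injOn {M : Subgroup G} {y : G} {k : ℕ} (hp : p.Prime) (hy : orderOf y = p ^ k)
    (hn : y ∉ Subgroup.normalizer (M : Set G)) :
    Set.InjOn (fun i : ℕ => cj (y ^ i) M) (Finset.range p : Set ℕ) := by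
  have key : ∀ i j : ℕ, i < j → j < p → cj (y ^ i) M ≠ cj (y ^ j) M := by
    intro i j hij hj e
    obtain ⟨d, rfl⟩ := Nat.exists_eq_add_of_lt hij
    have : cj (y ^ (d + 1)) M = M := by
      have e2 : cj (y ^ i)⁻¹ (cj (y ^ i) M) = cj (y ^ i)⁻¹ (cj (y ^ (i + d + 1)) M) := by rw [e]
      rw [cj_inv_cj, ← cj_mul, add_assoc, pow_add, inv_mul_cancel_left] at e2
      exact e2.symm
    apply hn
    refine H8.mem_of_pow_mem_of_coprime (n := d + 1) ?_ (cj_eq_iff.1 this)
    rw [hy]
    refine Nat.Coprime.pow_left k ((Nat.Prime.coprime_iff_not_dvd hp).2 ?_)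
    intro hd
    have := Nat.le_of_dvd (Nat.succ_pos d) hd
    omega
  intro i hi j hj e
  simp only [Finset.coe_range, Set.mem_Iio] at hi hj
  rcases lt_trichotomy i j with h | h | h
  · exact absurd e (key i j h hj)
  · exact h
  · exact absurd e.symm (key j i h hi)

/-- the descent step -/
theorem step {L L' T : Subgroup G} (hle : L' ≤ L) (hcl : cl p L' = L')
    {P : Sylow p G} (hP : (P : Subgroup G) ≤ L')
    (ih : ∀ X, ¬ L' ≤ X → 0 ≤ E p L' X) (hT : ¬ L' ≤ T)
    (hmax : (syl p (L ⊓ T)).card ≤ (syl p L').card) (hpos : (syl p (L ⊓ T)).Nonempty) {j : ℕ}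
    (hj : j + 2 ≤ p)
    (hD : ((orb L (cl p (L ⊓ T))).card : ℤ) * E p L T < j * p * (syl p L).card) :
    (syl p (L' ⊓ T)).Nonempty ∧
      ((orb L' (cl p (L' ⊓ T))).card : ℤ) * E p L' T < (j + 1 : ℕ) * p * (syl p L').card := by
  set M := cl p (L ⊓ T) with hM
  have hνL : (0 : ℤ) < (syl p L).card := by
    exact_mod_cast Finset.card_pos.2 ⟨P, mem_syl.2 (hP.trans hle)⟩
  have hνL' : (0 : ℤ) < (syl p L').card := by
    exact_mod_cast Finset.card_pos.2 ⟨P, mem_syl.2 hP⟩
  have hEM : E p L M = E p L T := E_congr (syl_inf_cl le_rfl)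
  have hEM' : E p L' M = E p L' T := E_congr (syl_inf_cl hle)
  have h1 : ((syl p L).card : ℤ) * D p P (orb L M) = (orb L M).card * E p L T := by
    rw [← sum_E (hP.trans hle) _ fun g hg N hN => orb_inv hg hN, sum_E_orb, hEM]
  have hD' : D p P (orb L M) < j * p := by
    by_contra hh
    push Not at hh
    have := mul_le_mul_of_nonneg_left hh hνL.le
    linarith
  have h2 : ∑ N ∈ orb L M, E p L' N = (syl p L').card * D p P (orb L M) :=
    sum_E hP _ fun g hg N hN => orb_inv (hle hg) hN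
  have hsub : orb L' M ⊆ orb L M := by
    intro N hN
    obtain ⟨g, hg, rfl⟩ := mem_orb.1 hN
    exact mem_orb.2 ⟨g, hle hg, rfl⟩
  have hML' : ¬ L' ≤ M := fun h => hT (h.trans ((cl_le _).trans inf_le_right))
  -- members of the big class containing `L'` equal `L'`
  have huniq : ∀ N ∈ orb L M, L' ≤ N → N = L' := by
    intro N hN h
    obtain ⟨g, hg, rfl⟩ := mem_orb.1 hN
    have e1 : syl p L' = syl p (cj g M) := by
      refine Finset.eq_of_subset_of_card_le (syl_mono h) ?_
      rw [card_syl_cj, hM, syl_cl]; exact hmax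
    rw [← hcl, cl_congr e1, cl_cj, hM, cl_cl]
  have hEL : E p L' L' = - p * (syl p L').card := by
    unfold E; rw [inf_idem]; ring
  have h3 : - (p : ℤ) * (syl p L').card ≤ ∑ N ∈ orb L M \ orb L' M, E p L' N := by
    by_cases hmem : L' ∈ orb L M \ orb L' M
    · rw [← Finset.add_sum_erase _ _ hmem, hEL]
      have : 0 ≤ ∑ N ∈ (orb L M \ orb L' M).erase L', E p L' N := by
        refine Finset.sum_nonneg fun N hN => ih N fun h => ?_
        rw [Finset.mem_erase, Finset.mem_sdiff] at hN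
        exact hN.1 (huniq N hN.2.1 h)
      linarith
    · have : 0 ≤ ∑ N ∈ orb L M \ orb L' M, E p L' N := by
        refine Finset.sum_nonneg fun N hN => ih N fun h => ?_
        have e := huniq N (Finset.mem_sdiff.1 hN).1 h
        exact hmem (e ▸ hN)
      have : (0 : ℤ) ≤ p * (syl p L').card := by positivity
      linarith
  have h4 : ((orb L' M).card : ℤ) * E p L' T < (j + 1 : ℕ) * p * (syl p L').card := by
    have e := Finset.sum_sdiff hsub (f := fun N => E p L' N)
    rw [sum_E_orb, hEM', h2] at e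
    have := mul_lt_mul_of_pos_left hD' hνL'
    push_cast
    nlinarith
  have hE0 : 0 ≤ E p L' T := ih T hT
  refine ⟨?_, lt_of_le_of_lt (mul_le_mul_of_nonneg_right ?_ hE0) h4⟩
  · by_contra hne
    rw [Finset.not_nonempty_iff_eq_empty] at hne
    have hET : E p L' T = (p - 1) * (syl p L').card := by
      unfold E; rw [hne]; simp
    obtain ⟨Q, hQ⟩ := hpos
    have hQM : (Q : Subgroup G) ≤ M := le_cl (mem_syl.1 hQ)
    have : ∃ y ∈ P, y ∉ Subgroup.normalizer (M : Set G) := by
      by_contra hh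
      push Not at hh
      have : P ∈ syl p (L' ⊓ T) := by
        rw [← syl_inf_cl hle, mem_syl]
        refine le_inf hP fun y hy => ?_
        obtain ⟨k, hk⟩ := H8.exists_orderOf_eq_pow_of_mem P.isPGroup' hy
        exact mem_of_norm hQM hk (hh y hy)
      rw [hne] at this
      exact Finset.notMem_empty _ this
    obtain ⟨y, hy, hyn⟩ := this
    obtain ⟨k, hk⟩ := H8.exists_orderOf_eq_pow_of_mem P.isPGroup' hy
    have hcard : p ≤ (orb L' M).card := by
      have := Finset.card_le_card_of_injOn (s := Finset.range p) (t := orb L' M)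
        (fun i : ℕ => cj (y ^ i) M)
        (fun i _ => mem_orb.2 ⟨y ^ i, L'.pow_mem (hP hy) i, rfl⟩) (cj_pow_injOn hp.out hk hyn)
      rwa [Finset.card_range] at this
    rw [hET] at h4
    have hcard' : (p : ℤ) ≤ (orb L' M).card := by exact_mod_cast hcard
    have hj' : (j : ℤ) + 2 ≤ p := by exact_mod_cast hj
    push_cast at h4
    have hp0 : (0 : ℤ) < p := by exact_mod_cast hp.out.pos
    have a1 : (p : ℤ) * ((p - 1) * (syl p L').card) ≤
        (orb L' M).card * ((p - 1) * (syl p L').card) :=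
      mul_le_mul_of_nonneg_right hcard' (mul_nonneg (by linarith) hνL'.le)
    have a2 : ((j : ℤ) + 1) * (p * (syl p L').card) ≤ (p - 1) * (p * (syl p L').card) :=
      mul_le_mul_of_nonneg_right (by linarith) (by positivity)
    nlinarith
  · have : (orb L' (cl p (L' ⊓ T))).card ≤ (orb L' M).card := by
      refine Finset.card_le_card_of_surjOn (fun N => cl p (L' ⊓ N)) ?_
      intro N hN
      obtain ⟨g, hg, rfl⟩ := mem_orb.1 hN
      refine ⟨cj g M, mem_orb.2 ⟨g, hg, rfl⟩, ?_⟩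
      have e : L' ⊓ cj g M = cj g (L' ⊓ M) := by rw [cj_inf, cj_of_mem hg]
      simp only
      rw [e, cl_cj, cl_congr (syl_inf_cl hle)]
    exact_mod_cast this

theorem exists_y {M : Subgroup G} {y₀ : G} {k : ℕ} (hk : orderOf y₀ = p ^ k)
    (hn : y₀ ∉ Subgroup.normalizer (M : Set G)) :
    ∃ y ∈ Subgroup.zpowers y₀, y ∉ Subgroup.normalizer (M : Set G) ∧
      y ^ p ∈ Subgroup.normalizer (M : Set G) := by
  have hex : ∃ n : ℕ, y₀ ^ p ^ n ∈ Subgroup.normalizer (M : Set G) :=
    ⟨k, by rw [← hk, pow_orderOf_eq_one]; exact one_mem _⟩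
  have h0 : Nat.find hex ≠ 0 := by
    intro e
    have := Nat.find_spec hex
    rw [e, pow_zero, pow_one] at this
    exact hn this
  obtain ⟨n, hn'⟩ := Nat.exists_eq_succ_of_ne_zero h0
  refine ⟨y₀ ^ p ^ n, Subgroup.pow_mem _ (Subgroup.mem_zpowers _) _,
    Nat.find_min hex (by omega), ?_⟩
  have := Nat.find_spec hex
  rwa [hn', pow_succ, pow_mul] at this

theorem no_common {M : Subgroup G} {y : G} {k : ℕ} (hk : orderOf y = p ^ k)
    (hn : y ∉ Subgroup.normalizer (M : Set G)) (hp' : y ^ p ∈ Subgroup.normalizer (M : Set G))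
    {Q : Sylow p G} (hQ : ∀ i < p, (Q : Subgroup G) ≤ cj (y ^ i) M) : False := by
  set K : Subgroup G := ⨅ i : ℕ, cj (y ^ i) M with hK
  have hmod : ∀ i : ℕ, cj (y ^ i) M = cj (y ^ (i % p)) M := by
    intro i
    conv_lhs => rw [← Nat.mod_add_div i p, pow_add, cj_mul, pow_mul,
      cj_eq_iff.2 (Subgroup.pow_mem _ hp' _)]
  have hQK : (Q : Subgroup G) ≤ K :=
    le_iInf fun i => by rw [hmod]; exact hQ _ (Nat.mod_lt _ hp.out.pos)
  have hle : cj y K ≤ K := by
    refine le_iInf fun i => ?_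
    have e : cj (y ^ i) M = cj y (cj (y ^ (i + p - 1)) M) := by
      have := hp.out.pos
      rw [← cj_mul, ← pow_succ', show i + p - 1 + 1 = i + p by omega, pow_add, cj_mul,
        cj_eq_iff.2 hp']
    rw [e]
    exact cj_le_cj.2 (iInf_le _ _)
  have hle' : K ≤ cj y K := by
    rw [← cj_le_cj (g := y⁻¹), cj_inv_cj]
    refine le_iInf fun i => ?_
    have e : cj (y ^ i) M = cj y⁻¹ (cj (y ^ (i + 1)) M) := by
      rw [← cj_mul, pow_succ', inv_mul_cancel_left]
    rw [e]
    exact cj_le_cj.2 (iInf_le _ _)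
  have hy : y ∈ K := mem_of_norm hQK hk (cj_eq_iff.1 (le_antisymm hle hle'))
  have : K ≤ M := by
    have := iInf_le (fun i : ℕ => cj (y ^ i) M) 0
    rwa [pow_zero, cj_one] at this
  exact hn (Subgroup.le_normalizer (this hy))

theorem main (n : ℕ) : ∀ L₀ : Subgroup G, Nat.card L₀ = n → cl p L₀ = L₀ →
    ∀ X, ¬ L₀ ≤ X → 0 ≤ E p L₀ X := by
  induction n using Nat.strong_induction_on with
  | _ n ih =>
  intro L₀ hn hcl X hX
  by_contra hneg
  push Not at hneg
  have hp1 : (1 : ℤ) < p := by exact_mod_cast hp.out.one_lt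
  set M₀ := cl p (L₀ ⊓ X) with hM₀
  have hM₀L : M₀ ≤ L₀ := (cl_le _).trans inf_le_left
  have hEM₀ : E p L₀ M₀ < 0 := by rw [hM₀, E_congr (syl_inf_cl le_rfl)]; exact hneg
  have hLM₀ : ¬ L₀ ≤ M₀ := fun h => hX (h.trans ((cl_le _).trans inf_le_right))
  have hne : (syl p M₀).Nonempty := by
    by_contra hh
    rw [Finset.not_nonempty_iff_eq_empty] at hh
    unfold E at hEM₀
    rw [inf_eq_right.2 hM₀L, hh] at hEM₀
    have : (0 : ℤ) ≤ (p - 1) * (syl p L₀).card := mul_nonneg (by linarith) (by positivity)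
    simp at hEM₀
    linarith
  obtain ⟨Q₀, hQ₀⟩ := hne
  have hQ₀M := mem_syl.1 hQ₀
  have : ∃ P : Sylow p G, (P : Subgroup G) ≤ L₀ ∧ ∃ y ∈ P, y ∉ Subgroup.normalizer (M₀ : Set G) := by
    by_contra hh
    push Not at hh
    apply hLM₀
    rw [← hcl]
    refine cl_le_of fun P hP y hy => ?_
    obtain ⟨k, hk⟩ := H8.exists_orderOf_eq_pow_of_mem P.isPGroup' hy
    exact mem_of_norm hQ₀M hk (hh P hP y hy)
  obtain ⟨P, hP, y₀, hy₀, hy₀n⟩ := this
  obtain ⟨k₀, hk₀⟩ := H8.exists_orderOf_eq_pow_of_mem P.isPGroup' hy₀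
  obtain ⟨y, hy, hyn, hyp⟩ := exists_y hk₀ hy₀n
  have hyP : y ∈ (P : Subgroup G) := (Subgroup.zpowers_le.2 hy₀) hy
  obtain ⟨k, hk⟩ := H8.exists_orderOf_eq_pow_of_mem P.isPGroup' hyP
  set T : ℕ → Subgroup G := fun i => cj (y ^ i) M₀ with hT
  have hyL : ∀ i : ℕ, y ^ i ∈ L₀ := fun i => L₀.pow_mem (hP hyP) i
  have hTL : ∀ i, T i ≤ L₀ := fun i => by
    rw [← cj_of_mem (hyL i)]; exact cj_le_cj.2 hM₀L
  have hTne : ∀ i, ¬ L₀ ≤ T i := fun i h => hLM₀ (by
    rw [← cj_le_cj (g := y ^ i), cj_of_mem (hyL i)]; exact h)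
  have stage : ∀ j ≤ p, ∃ L : Subgroup G, L ≤ L₀ ∧ cl p L = L ∧ (syl p L).Nonempty ∧
      j ≤ ((Finset.range p).filter fun i => L ≤ T i).card ∧
      ∀ i < p, ¬ L ≤ T i → (syl p (L ⊓ T i)).Nonempty ∧
        ((orb L (cl p (L ⊓ T i))).card : ℤ) * E p L (T i) < j * p * (syl p L).card := by
    intro j
    induction j with
    | zero =>
      intro _
      refine ⟨L₀, le_rfl, hcl, ⟨P, mem_syl.2 hP⟩, Nat.zero_le _, fun i _ _ => ⟨?_, ?_⟩⟩
      · rw [inf_eq_right.2 (hTL i), ← Finset.card_pos, card_syl_cj, Finset.card_pos]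
        exact ⟨Q₀, hQ₀⟩
      · have e : E p L₀ (T i) = E p L₀ M₀ := E_cj (hyL i) M₀
        rw [e]
        have : (0 : ℤ) < (orb L₀ (cl p (L₀ ⊓ T i))).card := by
          exact_mod_cast Finset.card_pos.2 ⟨_, mem_orb.2 ⟨1, one_mem _, rfl⟩⟩
        simp only [Nat.cast_zero, zero_mul]
        exact mul_neg_of_pos_of_neg this hEM₀
    | succ j ihj =>
      intro hj
      obtain ⟨L, hL, hLcl, hLne, hcnt, hrem⟩ := ihj (by omega)
      by_cases hall : ∀ i < p, L ≤ T i
      · refine ⟨L, hL, hLcl, hLne, ?_, fun i hi h => absurd (hall i hi) h⟩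
        rw [Finset.filter_true_of_mem fun i hi => hall i (Finset.mem_range.1 hi),
          Finset.card_range]
        exact hj
      push Not at hall
      obtain ⟨i₁, hi₁, hi₁'⟩ := hall
      obtain ⟨s, hs, hsmax⟩ := Finset.exists_max_image
        ((Finset.range p).filter fun i => ¬ L ≤ T i) (fun i => (syl p (L ⊓ T i)).card)
        ⟨i₁, Finset.mem_filter.2 ⟨Finset.mem_range.2 hi₁, hi₁'⟩⟩
      rw [Finset.mem_filter, Finset.mem_range] at hs
      set L' := cl p (L ⊓ T s) with hL'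
      have hL'L : L' ≤ L := (cl_le _).trans inf_le_left
      have hL'T : L' ≤ T s := (cl_le _).trans inf_le_right
      have hL'ne : (syl p L').Nonempty := by rw [hL', syl_cl]; exact (hrem s hs.1 hs.2).1
      have hsub : insert s ((Finset.range p).filter fun i => L ≤ T i) ⊆
          (Finset.range p).filter fun i => L' ≤ T i := by
        intro i hi
        rw [Finset.mem_insert, Finset.mem_filter] at hi
        rcases hi with rfl | hi
        · exact Finset.mem_filter.2 ⟨Finset.mem_range.2 hs.1, hL'T⟩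
        · exact Finset.mem_filter.2 ⟨hi.1, hL'L.trans hi.2⟩
      have hcnt' : j + 1 ≤ ((Finset.range p).filter fun i => L' ≤ T i).card := by
        have := Finset.card_le_card hsub
        have hnot : s ∉ (Finset.range p).filter fun i => L ≤ T i :=
          fun h => hs.2 (Finset.mem_filter.1 h).2
        rw [Finset.card_insert_of_notMem hnot] at this
        omega
      refine ⟨L', hL'L.trans hL, cl_cl _, hL'ne, hcnt', fun i hi h => ?_⟩
      obtain ⟨P', hP'⟩ := hL'ne
      have hlt : L' < L₀ := lt_of_le_of_ne (hL'L.trans hL) fun e => hTne s (e ▸ hL'T)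
      have hcard : Nat.card L' < n := by
        rw [← hn]
        exact lt_of_le_of_ne (Subgroup.card_le_of_le hlt.le)
          fun e => hlt.ne (Subgroup.eq_of_le_of_card_ge hlt.le e.ge)
      have hLT : ¬ L ≤ T i := fun hh => h (hL'L.trans hh)
      have hj2 : j + 2 ≤ p := by
        have : ((Finset.range p).filter fun i => L' ≤ T i).card < (Finset.range p).card :=
          Finset.card_lt_card ⟨Finset.filter_subset _ _, fun hh =>
            h (Finset.mem_filter.1 (hh (Finset.mem_range.2 hi))).2⟩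
        rw [Finset.card_range] at this
        omega
      refine step hL'L (cl_cl _) (mem_syl.1 hP') (ih _ hcard L' rfl (cl_cl _)) h ?_
        (hrem i hi hLT).1 hj2 (hrem i hi hLT).2
      rw [hL', syl_cl]
      exact hsmax i (Finset.mem_filter.2 ⟨Finset.mem_range.2 hi, hLT⟩)
  obtain ⟨L, -, -, ⟨Q, hQ⟩, hcnt, -⟩ := stage p le_rfl
  have hall : ((Finset.range p).filter fun i => L ≤ T i) = Finset.range p :=
    Finset.eq_of_subset_of_card_le (Finset.filter_subset _ _) (by rwa [Finset.card_range])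
  refine no_common hk hyn hyp (Q := Q) fun i hi => (mem_syl.1 hQ).trans ?_
  have : i ∈ (Finset.range p).filter fun i => L ≤ T i := by
    rw [hall]; exact Finset.mem_range.2 hi
  exact (Finset.mem_filter.1 this).2

end

/-- Let p be a prime and G a finite group generated by its elements of p-power order, and let H be a proper subgroup of G containing a Sylow p-subgroup of G. Then 2p − 1 times the number of Sylow p-subgroups of H is at most p − 1 times the number of Sylow p-subgroups of G. -/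
theorem result {G : Type*} [Group G] [Finite G] (p : ℕ) [Fact p.Prime] (hgen : Subgroup.closure {g : G | ∃ k : ℕ, orderOf g = p ^ k} = ⊤)
    (H : Subgroup G) (hH : H ≠ ⊤) (P : Sylow p G) (hP : (P : Subgroup G) ≤ H) :
    (2 * p - 1) * Nat.card (Sylow p ↥H) ≤ (p - 1) * Nat.card (Sylow p G) := by
  have hp : p.Prime := Fact.out
  have hcl : cl p (⊤ : Subgroup G) = ⊤ := by
    rw [eq_top_iff, ← hgen, Subgroup.closure_le]
    rintro g ⟨k, hk⟩
    obtain ⟨Q, hQ⟩ := (H8.isPGroup_zpowers_of_orderOf hk).exists_le_sylow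
    rw [hgen]
    exact le_cl (X := ⊤) (Q := Q) le_top (hQ (Subgroup.mem_zpowers g))
  have h := main (p := p) _ ⊤ rfl hcl H (fun h => hH (eq_top_iff.2 h))
  unfold E at h
  rw [top_inf_eq] at h
  have h1 : (syl p (⊤ : Subgroup G)).card = Nat.card (Sylow p G) := by
    have := Fintype.ofFinite (Sylow p G)
    rw [Nat.card_eq_fintype_card, ← Finset.card_univ]
    congr 1
    ext Q; simp [mem_syl]
  have h2 : Nat.card (Sylow p H) ≤ (syl p H).card := by
    rw [← Nat.card_eq_finsetCard]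
    refine Nat.card_le_card_of_surjective
      (fun Q : syl p H => Q.1.subtype (mem_syl.1 Q.2)) fun R => ?_
    obtain ⟨g, hg⟩ := MulAction.exists_smul_eq H (P.subtype hP) R
    rw [Sylow.smul_subtype] at hg
    exact ⟨⟨_, mem_syl.2 (Sylow.smul_le hP g)⟩, hg⟩
  refine (Nat.mul_le_mul_left _ h2).trans ?_
  rw [← h1]
  have h3 := hp.one_le
  zify [h3, show 1 ≤ 2 * p by omega]
  linarith

end Cfsg.Agent.S4181
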