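import Cfsg.Statements.S4182
import Cfsg.Agent.H8.PComplement
import Cfsg.Agent.L.MinNormal

set_option autoImplicit false
open Cfsg
open scoped Pointwise

namespace Cfsg.Agent.S4182

universe u

open Subgroup in
theorem pgroup_case {G : Type*} [Group G] [Finite G] {p : ℕ} [hp : Fact p.Prime]
    (hG : IsPGroup p G) {ι : Type*} [Fintype ι] (K : ι → Subgroup G) (hK : ∀ i, K i ≠ ⊤)
    (hcov : ∀ g : G, ∃ i, g ∈ K i) : p + 1 ≤ Fintype.card ι := by
  classical
  haveI := Fintype.ofFinite G
  by_contra hc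
  push Not at hc
  have hidx : ∀ i, Nat.card (K i) * p ≤ Nat.card G := by
    intro i
    rw [← (K i).card_mul_index]
    refine Nat.mul_le_mul_left _ ?_
    obtain ⟨n, hn⟩ := hG.index (K i)
    rcases n with _ | n
    · exact absurd (index_eq_one.1 (by simpa using hn)) (hK i)
    · rw [hn]; exact Nat.le_self_pow (by omega) p
  have h1 : (Finset.univ : Finset G).erase 1 ⊆
      Finset.univ.biUnion fun i => (Finset.univ.filter (· ∈ K i)).erase 1 := by
    intro g hg
    obtain ⟨i, hi⟩ := hcov g
    simp only [Finset.mem_biUnion, Finset.mem_erase, Finset.mem_filter, Finset.mem_univ,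
      true_and, and_true] at hg ⊢
    exact ⟨i, hg, hi⟩
  have h2 := (Finset.card_le_card h1).trans Finset.card_biUnion_le
  rw [Finset.card_erase_of_mem (Finset.mem_univ _), Finset.card_univ] at h2
  have h3 : ∀ i, ((Finset.univ.filter (· ∈ K i)).erase 1).card * p + p ≤ Fintype.card G := by
    intro i
    rw [Finset.card_erase_of_mem (by simp [(K i).one_mem]), ← Fintype.card_subtype,
      ← Nat.card_eq_fintype_card, ← Nat.card_eq_fintype_card]
    have h4 := hidx i
    have h5 : 0 < Nat.card (K i) := Nat.card_pos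
    obtain ⟨m, hm⟩ : ∃ m, Nat.card (K i) = m + 1 := ⟨Nat.card (K i) - 1, by omega⟩
    rw [hm] at h4 ⊢
    rw [Nat.add_sub_cancel]
    nlinarith
  have h4 := Finset.sum_le_sum fun i (_ : i ∈ (Finset.univ : Finset ι)) => h3 i
  rw [Finset.sum_add_distrib, ← Finset.sum_mul, Finset.sum_const, Finset.sum_const,
    Finset.card_univ, smul_eq_mul, smul_eq_mul] at h4
  obtain ⟨i₀, -⟩ := hcov 1
  have h5 : 1 ≤ Fintype.card ι := Fintype.card_pos_iff.2 ⟨i₀⟩
  have h6 := h3 i₀
  have h7 := hp.out.two_le
  generalize Fintype.card ι = n at *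
  generalize (∑ i, ((Finset.univ.filter (· ∈ K i)).erase 1).card) = s at *
  generalize Fintype.card G = N at *
  obtain ⟨N', rfl⟩ : ∃ N', N = N' + 1 := ⟨N - 1, by omega⟩
  rw [Nat.add_sub_cancel] at h2
  have h8 : n * (N' + 1) ≤ n + p * N' := by nlinarith
  nlinarith

open Subgroup in
theorem main (p : ℕ) [hp : Fact p.Prime] {ι : Type*} [Fintype ι] (n : ℕ) :
    ∀ (G : Type u) [Group G] [Finite G], Nat.card G = n →
      closure {g : G | ∃ k : ℕ, orderOf g = p ^ k} = ⊤ → ∀ K : ι → Subgroup G, (∀ i, K i ≠ ⊤) →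
      (∀ g : G, (∃ k : ℕ, orderOf g = p ^ k) → ∃ i, g ∈ K i) → p + 1 ≤ Fintype.card ι := by
  induction n using Nat.strong_induction_on with
  | _ n ih =>
  intro G _ _ hn hgen K hK hcov
  by_contra hc
  push Not at hc
  let cl : Subgroup G → Subgroup G := fun L => closure {g : G | g ∈ L ∧ ∃ k : ℕ, orderOf g = p ^ k}
  have hcl : ∀ L, cl L ≤ L := fun L => (closure_le _).2 fun g hg => hg.1
  have hcl2 : ∀ L, cl L ≤ cl (cl L) := fun L => closure_mono fun g hg => ⟨subset_closure hg, hg.2⟩
  have hmono : ∀ L L', L ≤ L' → cl L ≤ cl L' := fun L L' h =>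
    closure_mono fun g hg => ⟨h hg.1, hg.2⟩
  have key : ∀ L : Subgroup G, L ≠ ⊤ → L ≤ cl L → ∃ i, L ≤ K i := by
    intro L hL h
    by_contra hcon
    push Not at hcon
    refine absurd (ih _ (hn ▸ Agent.L.card_lt_of_ne_top hL) L rfl ?_ (fun i => (K i).subgroupOf L)
      (fun i e => hcon i (subgroupOf_eq_top.1 e)) ?_) (by omega)
    · apply map_injective L.subtype_injective
      rw [MonoidHom.map_closure, ← MonoidHom.range_eq_map, range_subtype]
      refine le_antisymm ((closure_le _).2 ?_) (h.trans (closure_mono ?_))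
      · rintro _ ⟨g, -, rfl⟩
        exact g.2
      · rintro g ⟨hg, k, hk⟩
        exact ⟨⟨g, hg⟩, ⟨k, by rw [orderOf_mk, hk]⟩, rfl⟩
    · rintro g ⟨k, hk⟩
      exact hcov g ⟨k, by rw [orderOf_coe, hk]⟩
  obtain ⟨P⟩ := (inferInstance : Nonempty (Sylow p G))
  by_cases hP : (P : Subgroup G) = ⊤
  · have hG : IsPGroup p G := (hP ▸ P.isPGroup').of_equiv topEquiv
    exact absurd (pgroup_case hG K hK fun g => hcov g (IsPGroup.iff_orderOf.1 hG g)) (by omega)
  obtain ⟨M, ⟨hM1, hM2, hM3⟩, hmax⟩ := Set.exists_max_image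
    {M : Subgroup G | M ≠ ⊤ ∧ M ≤ cl M ∧ ¬ p ∣ M.index} (fun M => Nat.card M) (Set.toFinite _)
    ⟨P, hP, fun g hg => subset_closure ⟨hg, H8.exists_orderOf_eq_pow_of_mem P.isPGroup' hg⟩,
      P.not_dvd_index⟩
  have hconj : ∀ g : G, ∃ i, MulAut.conj g • M = cl (K i) := by
    intro g
    have h1 : MulAut.conj g • M ≤ cl (MulAut.conj g • M) := by
      calc MulAut.conj g • M ≤ MulAut.conj g • cl M := pointwise_smul_le_pointwise_smul_iff.2 hM2
        _ ≤ _ := by
          simp only [cl]
          rw [smul_closure]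
          refine closure_mono ?_
          rintro _ ⟨a, ⟨ha, k, hk⟩, rfl⟩
          exact ⟨smul_mem_pointwise_smul _ _ _ ha, k, (MulEquiv.orderOf_eq (MulAut.conj g) a).trans hk⟩
    have hi : (MulAut.conj g • M).index = M.index := index_map_equiv M (MulAut.conj g)
    obtain ⟨i, hi'⟩ := key _ (fun e => hM1 (index_eq_one.1 (by rw [← hi, e, index_top]))) h1
    have h2 : MulAut.conj g • M ≤ cl (K i) := h1.trans (hmono _ _ hi')
    refine ⟨i, eq_of_le_of_card_ge h2 ((hmax _ ⟨fun e => hK i (top_le_iff.1 (e ▸ hcl _)), hcl2 _,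
      fun hd => hM3 (hi ▸ hd.trans (index_dvd_of_le h2))⟩).trans_eq ?_)⟩
    exact Nat.card_congr (Subgroup.equivSMul (MulAut.conj g) M).toEquiv
  have hN : (normalizer (M : Set G)).index ≤ Fintype.card ι := by
    choose f hf using hconj
    rw [← Nat.card_eq_fintype_card, index]
    refine Nat.card_le_card_of_injective (fun q => f q.out) fun a b e => ?_
    have h1 : MulAut.conj a.out • M = MulAut.conj b.out • M := by rw [hf, hf]; exact congrArg _ (congrArg _ e)
    rw [← a.out_eq, ← b.out_eq]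
    refine QuotientGroup.eq.2 ?_
    have h2 : MulAut.conj (a.out⁻¹ * b.out) • M = M := by
      rw [map_mul, map_inv, mul_smul, ← h1, inv_smul_smul]
    rw [mem_normalizer_iff_conj_image_eq]
    exact congrArg SetLike.coe h2
  have hN2 : (normalizer (M : Set G)).index < p := by
    refine lt_of_le_of_ne (by omega) fun e => hM3 ?_
    exact e ▸ index_dvd_of_le le_normalizer
  have hall : ∀ g : G, (∃ k : ℕ, orderOf g = p ^ k) → g ∈ normalizer (M : Set G) := by
    rintro g ⟨k, hk⟩
    have h1 : (normalizer (M : Set G)).relIndex (zpowers g) ∣ p ^ k := by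
      rw [← hk, ← Nat.card_zpowers]
      exact relIndex_dvd_card _ _
    have h2 : (normalizer (M : Set G)).relIndex (zpowers g) ≤ (normalizer (M : Set G)).index := by
      rw [← relIndex_top_right]
      exact relIndex_le_of_le_right le_top index_ne_zero_of_finite
    obtain ⟨j, -, hj⟩ := (Nat.dvd_prime_pow hp.out).1 h1
    rcases j with _ | j
    · exact relIndex_eq_one.1 (by simpa using hj) (mem_zpowers g)
    · have := Nat.le_self_pow (n := j + 1) (by omega) p
      omega
  haveI : M.Normal := normalizer_eq_top_iff.1 (top_le_iff.1 (hgen ▸ (closure_le _).2 hall))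
  refine hM1 (top_le_iff.1 (hgen ▸ (closure_le _).2 ?_))
  rintro g ⟨k, hk⟩
  refine H8.mem_of_coprime_index ?_
  rw [hk]
  exact ((Nat.Prime.coprime_iff_not_dvd hp.out).2 hM3).pow_left _

/-- Let p be a prime and G a finite group generated by its p-elements. If a finite family of proper subgroups of G covers the set of p-elements of G (every element of p-power order lies in one of them), then the family has at least p + 1 members. -/
theorem result {G : Type*} [Group G] [Finite G] (p : ℕ) [Fact p.Prime] (hgen : Subgroup.closure {g : G | ∃ k : ℕ, orderOf g = p ^ k} = ⊤)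
    {ι : Type*} [Fintype ι] (K : ι → Subgroup G) (hK : ∀ i, K i ≠ ⊤)
    (hcov : ∀ g : G, (∃ k : ℕ, orderOf g = p ^ k) → ∃ i, g ∈ K i) :
    p + 1 ≤ Fintype.card ι := by
  exact main p _ G rfl hgen K hK hcov

end Cfsg.Agent.S4182
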