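import Cfsg.Statements.S4184
import Cfsg.Agent.H7.ClassAux

set_option autoImplicit false
open Cfsg

namespace Cfsg.Agent.S4184

open Subgroup

/-- `n` carries the whole `S`-part of `m`. -/
def Full (m : ℕ) (S : Set ℕ) (n : ℕ) : Prop := ∀ r ∈ S, r.Prime → ¬ r ∣ m / n

theorem Full.of_dvd {m n n' : ℕ} {S : Set ℕ} (h : Full m S n) (h1 : n ∣ n') (h2 : n' ∣ m) :
    Full m S n' := fun r hr hp hd => h r hr hp (hd.trans (Nat.div_dvd_div_left h2 h1))

theorem not_full {m n r : ℕ} {S : Set ℕ} (hr : r ∈ S) (hp : r.Prime) (hrm : r ∣ m) (hn : n ∣ m)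
    (hrn : ¬ r ∣ n) : ¬ Full m S n := fun h => by
  obtain ⟨k, rfl⟩ := hn
  have hn0 : 0 < n := Nat.pos_of_ne_zero fun e => hrn (e ▸ dvd_zero r)
  have := h r hr hp
  rw [Nat.mul_div_cancel_left _ hn0] at this
  exact ((Nat.Prime.dvd_mul hp).1 hrm).elim hrn this

theorem Full.factorization_eq {m n r : ℕ} {S : Set ℕ} (h : Full m S n) (hr : r ∈ S)
    (hp : r.Prime) (hm : m ≠ 0) (hn : n ∣ m) : n.factorization r = m.factorization r := by
  obtain ⟨k, rfl⟩ := hn
  have hn0 : n ≠ 0 := left_ne_zero_of_mul hm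
  have := h r hr hp
  rw [Nat.mul_div_cancel_left _ (Nat.pos_of_ne_zero hn0)] at this
  rw [Nat.factorization_mul hn0 (right_ne_zero_of_mul hm), Finsupp.add_apply,
    Nat.factorization_eq_zero_of_not_dvd this, add_zero]

theorem div_index {M : Type*} [Group M] [Finite M] (H : Subgroup M) :
    Nat.card M / H.index = Nat.card H := by
  rw [← H.card_mul_index, Nat.mul_div_cancel _ (Nat.pos_of_ne_zero FiniteIndex.index_ne_zero)]

theorem key {G : Type*} [Group G] [Finite G] (hZG : Subgroup.center G = ⊥) (m : ℕ) (hm : m ≠ 0)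
    (S : Set ℕ) (h0 : ∀ x : G, (centralizer ({x} : Set G)).index ∣ m)
    (h1 : ∀ x : G, (centralizer ({x} : Set G)).index ≠ 1 →
      Full m S (centralizer ({x} : Set G)).index ∨ Full m Sᶜ (centralizer ({x} : Set G)).index)
    (h2 : ∀ x : G, ¬ (Full m S (centralizer ({x} : Set G)).index ∧
      Full m Sᶜ (centralizer ({x} : Set G)).index))
    (q : ℕ) (hq : q.Prime) (hqS : q ∉ S) (hqm : q ∣ m) (hqG : q ∣ Nat.card G)
    (p : ℕ) (hp : p.Prime) (hpS : p ∈ S) (hpm : p ∣ m) :
    (Nat.card G).factorization p ≤ m.factorization p := by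
  have := Fact.mk hp
  have := Fact.mk hq
  by_contra hlt
  push Not at hlt
  have hne : ∀ x : G, x ≠ 1 → (centralizer ({x} : Set G)).index ≠ 1 := fun x hx h => by
    rw [H9.index_centralizer_eq_one_iff, hZG, mem_bot] at h; exact hx h
  have hfac : ∀ x : G, Full m S (centralizer ({x} : Set G)).index →
      (Nat.card (centralizer ({x} : Set G))).factorization p + m.factorization p =
        (Nat.card G).factorization p := fun x hx => by
    rw [← hx.factorization_eq hpS hp hm (h0 x), ← (centralizer ({x} : Set G)).card_mul_index,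
      Nat.factorization_mul Nat.card_pos.ne' FiniteIndex.index_ne_zero, Finsupp.add_apply]
  obtain ⟨Q⟩ : Nonempty (Sylow q G) := inferInstance
  obtain ⟨z, hzQ, hz1, hzc⟩ := H7.exists_ne_one_central_of_isPGroup Q.isPGroup'
    (H7.sylow_ne_bot_of_dvd Q hqG)
  have hzF : Full m S (centralizer ({z} : Set G)).index :=
    (h1 z (hne z hz1)).resolve_right (not_full hqS hq hqm (h0 z)
      (H9.not_dvd_index_iff_exists_sylow_le.2 ⟨Q, hzc⟩))
  obtain ⟨j, hj⟩ := H7.exists_orderOf_eq_pow_of_mem Q.isPGroup' hzQ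
  have hpq : p ≠ q := fun e => hqS (e ▸ hpS)
  -- a `p`-element commuting with `z` has `S`-full class
  have hcomm : ∀ u : G, (∃ k, orderOf u = p ^ k) → u ∈ centralizer ({z} : Set G) →
      ¬ Full m Sᶜ (centralizer ({u} : Set G)).index := by
    rintro u ⟨k, hk⟩ hu hF
    have hc : Commute u z := mem_centralizer_singleton_iff.1 hu
    have hcop : (orderOf u).Coprime (orderOf z) := by
      rw [hk, hj]; exact Nat.Coprime.pow _ _ ((Nat.coprime_primes hp hq).2 hpq)
    exact h2 (u * z) ⟨hzF.of_dvd (H9.index_centralizer_dvd_of_mem_zpowers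
      (H9.mem_zpowers_mul_of_coprime' hc hcop)) (h0 _), hF.of_dvd
      (H9.index_centralizer_dvd_of_mem_zpowers (H9.mem_zpowers_mul_of_coprime hc hcop)) (h0 _)⟩
  obtain ⟨P₀, hP1, hP2, hP3⟩ := H1.exists_sylow_le p (centralizer ({z} : Set G))
  have hc0 := (H7.not_dvd_relIndex_iff_factorization hp hP1).1 hP3
  have hz := hfac z hzF
  have hP0 : P₀ ≠ ⊥ := by
    rintro rfl
    rw [card_bot, Nat.factorization_one, Finsupp.zero_apply] at hc0
    omega
  obtain ⟨u, huP, hu1, huc⟩ := H7.exists_ne_one_central_of_isPGroup hP2 hP0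
  have huF := (h1 u (hne u hu1)).resolve_right
    (hcomm u (H7.exists_orderOf_eq_pow_of_mem hP2 huP) (hP1 huP))
  have hu := hfac u huF
  have hP4 : ¬ p ∣ P₀.relIndex (centralizer ({u} : Set G)) :=
    (H7.not_dvd_relIndex_iff_factorization hp huc).2 (by omega)
  obtain ⟨P, hP⟩ := hP2.exists_le_sylow
  obtain ⟨w, hwP, hw1, hwc⟩ := H7.exists_ne_one_central_of_isPGroup P.isPGroup'
    (fun e => hP0 (eq_bot_iff.2 (e ▸ hP)))
  have hw : zpowers w ⊔ P₀ = P₀ := H1.sylow_maximal hP4 le_sup_right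
    (sup_le (zpowers_le_of_mem (mem_centralizer_singleton_iff.2
      (mem_centralizer_singleton_iff.1 (hwc (hP huP))).symm)) huc)
    (P.isPGroup'.to_le (sup_le (zpowers_le_of_mem hwP) hP))
  have hwP0 : w ∈ P₀ := hw ▸ mem_sup_left (mem_zpowers w)
  exact hcomm w (H7.exists_orderOf_eq_pow_of_mem hP2 hwP0) (hP1 hwP0)
    ((h1 w (hne w hw1)).resolve_left (not_full hpS hp hpm (h0 w)
      (H9.not_dvd_index_iff_exists_sylow_le.2 ⟨P, hwc⟩)))

theorem le_part {M : Type*} [Group M] [Finite M] (hZM : Subgroup.center M = ⊥)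
    (S : Set ℕ) (h1 : ∀ x : M, (centralizer ({x} : Set M)).index ≠ 1 →
      Full (Nat.card M) S (centralizer ({x} : Set M)).index ∨
        Full (Nat.card M) Sᶜ (centralizer ({x} : Set M)).index)
    (q : ℕ) (hq : q.Prime) (hqS : q ∉ S) (hqm : q ∣ Nat.card M) :
    ∃ x : M, Full (Nat.card M) S (centralizer ({x} : Set M)).index := by
  have := Fact.mk hq
  obtain ⟨Q⟩ : Nonempty (Sylow q M) := inferInstance
  obtain ⟨z, hzQ, hz1, hzc⟩ := H7.exists_ne_one_central_of_isPGroup Q.isPGroup'
    (H7.sylow_ne_bot_of_dvd Q hqm)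
  refine ⟨z, (h1 z fun h => ?_).resolve_right (not_full hqS hq hqm (index_dvd_card _)
      (H9.not_dvd_index_iff_exists_sylow_le.2 ⟨Q, hzc⟩))⟩
  rw [H9.index_centralizer_eq_one_iff, hZM, mem_bot] at h; exact hz1 h

/-- Let G and M be finite groups with trivial centres and the same set of conjugacy class sizes, and suppose the prime graph of M is disconnected: the prime divisors of #M split into two non-empty parts such that M has no element of order pq with p in one part and q in the other. Then #G = #M. -/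
theorem result {G M : Type*}
    [Group G] [Finite G] [Group M] [Finite M] (hZG : Subgroup.center G = ⊥) (hZM : Subgroup.center M = ⊥)
    (h : Set.range (fun g : G => (Subgroup.centralizer ({g} : Set G)).index) = Set.range (fun g : M => (Subgroup.centralizer ({g} : Set M)).index))
    (hdisc : ∃ A : Set ℕ, (∃ a ∈ A, a.Prime ∧ a ∣ Nat.card M) ∧ (∃ b ∉ A, b.Prime ∧ b ∣ Nat.card M) ∧
      ∀ a ∈ A, ∀ b ∉ A, a.Prime → b.Prime → a ∣ Nat.card M → b ∣ Nat.card M → ¬ ∃ x : M, orderOf x = a * b) :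
    Nat.card G = Nat.card M := by
  obtain ⟨A, ⟨a, haA, ha, haM⟩, ⟨b, hbA, hb, hbM⟩, hAB⟩ := hdisc
  have hGM : ∀ x : G, ∃ y : M, (centralizer ({y} : Set M)).index =
      (centralizer ({x} : Set G)).index := fun x => (h.le ⟨x, rfl⟩ :)
  have hMG : ∀ y : M, ∃ x : G, (centralizer ({x} : Set G)).index =
      (centralizer ({y} : Set M)).index := fun y => (h.ge ⟨y, rfl⟩ :)
  have hm : Nat.card M ≠ 0 := Nat.card_pos.ne'
  have M1 : ∀ x : M, (centralizer ({x} : Set M)).index ≠ 1 →
      Full (Nat.card M) A (centralizer ({x} : Set M)).index ∨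
        Full (Nat.card M) Aᶜ (centralizer ({x} : Set M)).index := by
    intro x hx
    have hx1 : x ≠ 1 := by
      rintro rfl
      exact hx (H9.index_centralizer_eq_one_iff.2 (one_mem _))
    obtain ⟨r, hr, hrx⟩ := Nat.exists_prime_and_dvd (fun e => hx1 (orderOf_eq_one_iff.1 e))
    have := Fact.mk hr
    obtain ⟨y, hy⟩ := exists_prime_orderOf_dvd_card' (G := zpowers x) r
      (by rwa [Nat.card_zpowers])
    rw [← orderOf_coe] at hy
    have hrM : r ∣ Nat.card M := hrx.trans (orderOf_dvd_natCard x)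
    have key2 : ∀ s : ℕ, s.Prime → s ≠ r → s ∣ Nat.card M / (centralizer ({x} : Set M)).index →
        s ∣ Nat.card M ∧ ∃ w : M, orderOf w = r * s := by
      intro s hs hsr hd
      rw [div_index] at hd
      have := Fact.mk hs
      obtain ⟨w, hw⟩ := exists_prime_orderOf_dvd_card' (G := centralizer ({x} : Set M)) s hd
      rw [← orderOf_coe] at hw
      refine ⟨hd.trans (card_subgroup_dvd_card _), y * w, ?_⟩
      have hc : Commute (y : M) w :=
        (mem_centralizer_singleton_iff.1 (H9.centralizer_le_of_mem_zpowers y.2 w.2)).symm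
      rw [hc.orderOf_mul_eq_mul_orderOf_of_coprime
        (by rw [hy, hw]; exact (Nat.coprime_primes hr hs).2 hsr.symm), hy, hw]
    by_cases hrA : r ∈ A
    · right
      intro s hsA hs hd
      obtain ⟨h3, h4⟩ := key2 s hs (fun e => hsA (e ▸ hrA)) hd
      exact hAB r hrA s hsA hr hs hrM h3 h4
    · left
      intro s hsA hs hd
      obtain ⟨h3, w, h4⟩ := key2 s hs (fun e => hrA (e ▸ hsA)) hd
      exact hAB s hsA r hrA hs hr h3 hrM ⟨w, by rw [h4, mul_comm]⟩
  have M2 : ∀ x : M, ¬ (Full (Nat.card M) A (centralizer ({x} : Set M)).index ∧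
      Full (Nat.card M) Aᶜ (centralizer ({x} : Set M)).index) := by
    rintro x ⟨h3, h4⟩
    have hne : Nat.card M / (centralizer ({x} : Set M)).index ≠ 1 := by
      rw [div_index, Ne, Subgroup.card_eq_one]
      intro e
      have hx : x = 1 := mem_bot.1 (e ▸ mem_centralizer_singleton_iff.2 rfl)
      subst hx
      have : (⊤ : Subgroup M) = ⊥ := by
        rw [← e, eq_comm, centralizer_eq_top_iff_subset]; simp
      have h5 : Nat.card M = 1 := by rw [← card_top, this, card_bot]
      rw [h5] at haM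
      exact ha.one_lt.ne' (Nat.dvd_one.1 haM)
    obtain ⟨r, hr, hd⟩ := Nat.exists_prime_and_dvd hne
    by_cases hrA : r ∈ A
    · exact h3 r hrA hr hd
    · exact h4 r hrA hr hd
  have hdvd : Nat.card M ∣ Nat.card G := by
    rw [← Nat.factorization_prime_le_iff_dvd hm Nat.card_pos.ne']
    intro p hp
    obtain ⟨S, hpS, x, hx⟩ : ∃ S : Set ℕ, p ∈ S ∧
        ∃ x : M, Full (Nat.card M) S (centralizer ({x} : Set M)).index := by
      by_cases hpA : p ∈ A
      · exact ⟨A, hpA, le_part hZM A M1 b hb hbA hbM⟩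
      · exact ⟨Aᶜ, hpA, le_part hZM Aᶜ (fun x hx => by simpa [or_comm] using M1 x hx)
          a ha (by simpa using haA) haM⟩
    rw [← hx.factorization_eq hpS hp hm (index_dvd_card _)]
    obtain ⟨y, hy⟩ := hMG x
    rw [← hy]
    exact (Nat.factorization_prime_le_iff_dvd FiniteIndex.index_ne_zero Nat.card_pos.ne').2
      (index_dvd_card _) p hp
  have G0 : ∀ x : G, (centralizer ({x} : Set G)).index ∣ Nat.card M := fun x => by
    obtain ⟨y, hy⟩ := hGM x; rw [← hy]; exact index_dvd_card _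
  have G1 : ∀ x : G, (centralizer ({x} : Set G)).index ≠ 1 →
      Full (Nat.card M) A (centralizer ({x} : Set G)).index ∨
        Full (Nat.card M) Aᶜ (centralizer ({x} : Set G)).index := fun x => by
    obtain ⟨y, hy⟩ := hGM x; rw [← hy]; exact M1 y
  have G2 : ∀ x : G, ¬ (Full (Nat.card M) A (centralizer ({x} : Set G)).index ∧
        Full (Nat.card M) Aᶜ (centralizer ({x} : Set G)).index) := fun x => by
    obtain ⟨y, hy⟩ := hGM x; rw [← hy]; exact M2 y
  refine Nat.dvd_antisymm ?_ hdvd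
  rw [← Nat.factorization_prime_le_iff_dvd Nat.card_pos.ne' hm]
  intro p hp
  by_cases hpM : p ∣ Nat.card M
  · by_cases hpA : p ∈ A
    · exact key hZG _ hm A G0 G1 G2 b hb hbA hbM (hbM.trans hdvd) p hp hpA hpM
    · exact key hZG _ hm Aᶜ G0 (fun x hx => by simpa [or_comm] using G1 x hx)
        (fun x => by simpa [and_comm] using G2 x) a ha (by simpa using haA) haM
        (haM.trans hdvd) p hp hpA hpM
  · have := Fact.mk hp
    obtain ⟨P⟩ : Nonempty (Sylow p G) := inferInstance
    have h3 := H7.sylow_le_center_of_not_dvd_class (fun x hd => hpM (hd.trans (G0 x))) P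
    rw [hZG, le_bot_iff] at h3
    rw [Nat.factorization_eq_zero_of_not_dvd fun hd => H7.sylow_ne_bot_of_dvd P hd h3]
    exact Nat.zero_le _

end Cfsg.Agent.S4184
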