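import Cfsg.Statements.S4186


set_option autoImplicit false
open Cfsg

namespace Cfsg.Agent.S4186

/-- Let T and X be subgroups of a group with T a finite 2-group normalizing X but not centralizing it. Then some element of T inverts some non-identity element of X under conjugation. -/
theorem result {G : Type*} [Group G] (T X : Subgroup G) [Finite ↥T] (hT : IsPGroup 2 ↥T) (hTN : T ≤ Subgroup.normalizer (X : Set G)) (hTC : ¬ T ≤ Subgroup.centralizer (X : Set G)) : ∃ t ∈ T, ∃ x ∈ X, x ≠ 1 ∧ t * x * t⁻¹ = x⁻¹ := by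
  classical
  obtain ⟨t, ht, htC⟩ : ∃ t ∈ T, t ∉ Subgroup.centralizer (X : Set G) := by
    by_contra h
    push Not at h
    exact hTC h
  have hex : ∃ k : ℕ, t ^ 2 ^ k ∈ Subgroup.centralizer (X : Set G) := by
    obtain ⟨k, hk⟩ := hT ⟨t, ht⟩
    refine ⟨k, ?_⟩
    have : t ^ 2 ^ k = 1 := congrArg Subtype.val hk
    rw [this]; exact one_mem _
  have h0 : Nat.find hex ≠ 0 := by
    intro h
    have := Nat.find_spec hex
    rw [h] at this
    exact htC (by simpa using this)
  obtain ⟨k, hk⟩ := Nat.exists_eq_succ_of_ne_zero h0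
  have h1 := Nat.find_spec hex
  have h2 := Nat.find_min hex (show k < Nat.find hex by omega)
  rw [hk, pow_succ, pow_mul] at h1
  set s := t ^ 2 ^ k with hs
  have hsT : s ∈ T := T.pow_mem ht _
  rw [Subgroup.mem_centralizer_iff] at h1 h2
  push Not at h2
  obtain ⟨x, hx, hxs⟩ := h2
  have hsx : s * x * s⁻¹ ∈ X := (Subgroup.mem_normalizer_iff.1 (hTN hsT) x).1 hx
  refine ⟨s, hsT, x⁻¹ * (s * x * s⁻¹), X.mul_mem (X.inv_mem hx) hsx, ?_, ?_⟩
  · intro h
    apply hxs
    have : s * x * s⁻¹ = x := (inv_mul_eq_one.1 h).symm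
    calc x * s = (s * x * s⁻¹) * s := by rw [this]
      _ = s * x := by group
  · have := h1 x hx
    calc s * (x⁻¹ * (s * x * s⁻¹)) * s⁻¹ = s * x⁻¹ * s⁻¹ * (s ^ 2 * x) * s⁻¹ * s⁻¹ := by
          rw [pow_two]; group
      _ = (x⁻¹ * (s * x * s⁻¹))⁻¹ := by rw [← this, pow_two]; group

end Cfsg.Agent.S4186
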