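import Cfsg.Statements.S4187
import Cfsg.Agent.H7.RealF
import Cfsg.Agent.FT.Final

set_option autoImplicit false
open Cfsg

namespace Cfsg.Agent.S4187

/-- Let G be a finite group. Call an element real when it is conjugate to its inverse, and consider the graph whose vertices are the primes dividing the size of some conjugacy class of real elements, two distinct primes being adjacent when their product divides such a class size. If this graph is disconnected — its vertex set splits into two non-empty parts such that no real class size is divisible by a prime from each part — then G is solvable. -/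
theorem result {G : Type*} [Group G] [Finite G] (π₁ π₂ : Set ℕ) (h₁ : π₁.Nonempty) (h₂ : π₂.Nonempty) (hcover : ∀ q : ℕ, q.Prime → (∃ n ∈ {n : ℕ | ∃ x : G, IsConj x x⁻¹ ∧ (Subgroup.centralizer ({x} : Set G)).index = n}, q ∣ n) → q ∈ π₁ ∨ q ∈ π₂) (hsub : ∀ q ∈ π₁ ∪ π₂, q.Prime ∧ ∃ n ∈ {n : ℕ | ∃ x : G, IsConj x x⁻¹ ∧ (Subgroup.centralizer ({x} : Set G)).index = n}, q ∣ n) (hdisj : Disjoint π₁ π₂) (hnoedge : ∀ a ∈ π₁, ∀ b ∈ π₂, ∀ n ∈ {n : ℕ | ∃ x : G, IsConj x x⁻¹ ∧ (Subgroup.centralizer ({x} : Set G)).index = n}, ¬ (a ∣ n ∧ b ∣ n)) : Group.IsSolvable G := by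
  obtain ⟨-, ρ, h2, hH, w, hww, hw, hwZ⟩ := H7.RD.setup' h₁ h₂ hcover hsub hdisj hnoedge
  exact H7.RD.solvable_main FT.feit_thompson h2 hH hww hw hwZ

end Cfsg.Agent.S4187
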