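import Cfsg.Statements.S4188
import Cfsg.Agent.H7.TwoGroupRank

set_option autoImplicit false
open Cfsg

namespace Cfsg.Agent.S4188

open Subgroup
open scoped IsMulCommutative

/-- Let G be a finite group that is the semidirect product of a normal abelian subgroup N of odd order by a 2-subgroup P, and suppose N is the unique minimal normal subgroup of G. Then the index of the Frattini subgroup of P in P is at most #N − 1. -/
theorem result {G : Type*} [Group G] [Finite G] (N P : Subgroup G) (hN : N.Normal) (hNab : IsMulCommutative ↥N) (hNodd : Odd (Nat.card ↥N)) (hP : IsPGroup 2 ↥P) (hdisj : N ⊓ P = ⊥) (hprod : N ⊔ P = ⊤) (hmin : N ≠ ⊥ ∧ ∀ M : Subgroup G, M.Normal → M ≠ ⊥ → N ≤ M) : (frattini ↥P).index ≤ Nat.card ↥N - 1 := by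
  haveI := (nontrivial_iff_ne_bot N).2 hmin.1
  let ρ : P →* MulAut N := (MulAut.conjNormal (H := N)).comp P.subtype
  have hρ : Function.Injective ρ := by
    rw [injective_iff_map_eq_one]
    have hn : (centralizer (N : Set G) ⊓ P).Normal := ⟨by
      intro c hc g
      have : g ∈ P ⊔ N := by rw [sup_comm, hprod]; trivial
      rw [← SetLike.mem_coe, mul_normal] at this
      obtain ⟨h, hh, n, hn, rfl⟩ := this
      have e : h * n * c * (h * n)⁻¹ = h * c * h⁻¹ := by
        have := hc.1 n hn
        simp only [mul_inv_rev, mul_assoc]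
        rw [← mul_assoc n, this]
        simp [mul_assoc]
      rw [e]
      exact ⟨(inferInstance : (centralizer (N : Set G)).Normal).conj_mem c hc.1 _,
        P.mul_mem (P.mul_mem hh hc.2) (P.inv_mem hh)⟩⟩
    have hb : centralizer (N : Set G) ⊓ P = ⊥ := by
      by_contra h
      have h1 := (hmin.2 _ hn h).trans inf_le_right
      rw [inf_eq_left.2 h1] at hdisj
      exact hmin.1 hdisj
    intro g hg
    have : (g : G) ∈ centralizer (N : Set G) ⊓ P := by
      refine mem_inf.2 ⟨fun n hn => ?_, g.2⟩
      have := congrArg (fun θ : MulAut N => (θ ⟨n, hn⟩ : G)) hg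
      simp only [ρ, MonoidHom.comp_apply, coe_subtype, MulAut.conjNormal_apply,
        MulAut.one_apply] at this
      exact (mul_inv_eq_iff_eq_mul.1 this).symm
    rw [hb] at this
    exact Subtype.ext this
  have h1 := H7.three_mul_index_frattini_le hNodd ρ hρ hP
  have h2 := H7.three_le_card_of_odd hNodd
  omega

end Cfsg.Agent.S4188
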