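import Cfsg.Statements.S4192
import Cfsg.Agent.H7.RealF
import Cfsg.Agent.FT.Final

set_option autoImplicit false
open Cfsg

namespace Cfsg.Agent.S4192

/-- Let G be a finite group; call an element real when it is conjugate to its inverse, and say that the real-class-size graph of a group is disconnected when the primes dividing its real class sizes split into two non-empty disjoint parts with no real class size divisible by a prime from each part. If the real-class-size graph of G is disconnected, then some real class size of G is even, and either the Sylow 2-subgroups of G are normal, or the subgroup K generated by the 2-elements of G (the smallest normal subgroup of odd index) again has a disconnected real-class-size graph and every real class size of K is odd or a power of 2. -/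
theorem result {G : Type*} [Group G] [Finite G] (h : (∃ π₁ π₂ : Set ℕ, π₁.Nonempty ∧ π₂.Nonempty ∧ Disjoint π₁ π₂ ∧ (∀ q ∈ π₁ ∪ π₂, q.Prime ∧ ∃ n ∈ {n : ℕ | ∃ x : G, IsConj x x⁻¹ ∧ (Subgroup.centralizer ({x} : Set G)).index = n}, q ∣ n) ∧ (∀ q : ℕ, q.Prime → (∃ n ∈ {n : ℕ | ∃ x : G, IsConj x x⁻¹ ∧ (Subgroup.centralizer ({x} : Set G)).index = n}, q ∣ n) → q ∈ π₁ ∨ q ∈ π₂) ∧ ∀ a ∈ π₁, ∀ b ∈ π₂, ∀ n ∈ {n : ℕ | ∃ x : G, IsConj x x⁻¹ ∧ (Subgroup.centralizer ({x} : Set G)).index = n}, ¬ (a ∣ n ∧ b ∣ n))) : (∃ n ∈ {n : ℕ | ∃ x : G, IsConj x x⁻¹ ∧ (Subgroup.centralizer ({x} : Set G)).index = n}, 2 ∣ n) ∧ ((∀ P : Sylow 2 G, (P : Subgroup G).Normal) ∨ ((∃ π₁ π₂ : Set ℕ, π₁.Nonempty ∧ π₂.Nonempty ∧ Disjoint π₁ π₂ ∧ (∀ q ∈ π₁ ∪ π₂, q.Prime ∧ ∃ n ∈ {n : ℕ | ∃ x : ↥(Subgroup.closure {g : G | ∃ k : ℕ, orderOf g = 2 ^ k}), IsConj x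 x⁻¹ ∧ (Subgroup.centralizer ({x} : Set ↥(Subgroup.closure {g : G | ∃ k : ℕ, orderOf g = 2 ^ k}))).index = n}, q ∣ n) ∧ (∀ q : ℕ, q.Prime → (∃ n ∈ {n : ℕ | ∃ x : ↥(Subgroup.closure {g : G | ∃ k : ℕ, orderOf g = 2 ^ k}), IsConj x x⁻¹ ∧ (Subgroup.centralizer ({x} : Set ↥(Subgroup.closure {g : G | ∃ k : ℕ, orderOf g = 2 ^ k}))).index = n}, q ∣ n) → q ∈ π₁ ∨ q ∈ π₂) ∧ ∀ a ∈ π₁, ∀ b ∈ π₂, ∀ n ∈ {n : ℕ | ∃ x : ↥(Subgroup.closure {g : G | ∃ k : ℕ, orderOf g = 2 ^ k}), IsConj x x⁻¹ ∧ (Subgroup.centralizer ({x} : Set ↥(Subgroup.closure {g : G | ∃ k : ℕ, orderOf g = 2 ^ k}))).index = n}, ¬ (a ∣ n ∧ b ∣ n)) ∧ ∀ n ∈ {n : ℕ | ∃ x : ↥(Subgroup.closure {g : G | ∃ k : ℕ, orderOf g = 2 ^ k}), IsConj x x⁻¹ ∧ (Subgroup.centralizer ({x} : Set ↥(Subgroup.closure {g : G | ∃ k : ℕ, orderOf g = 2 ^ k}))).index = n}, Odd n ∨ ∃ j : ℕ, n = 2 ^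 j)) := by
  obtain ⟨π₁, π₂, h₁, h₂, hdisj, hsub, hcover, hnoedge⟩ := h
  obtain ⟨⟨y₀, g₀, hg₀, hy₀⟩, ρ, h2, hH, w, hww, hw, hwZ⟩ :=
    H7.RD.setup' h₁ h₂ hcover hsub hdisj hnoedge
  refine ⟨⟨_, ⟨y₀, isConj_iff.2 ⟨g₀, hg₀⟩, rfl⟩, hy₀⟩, ?_⟩
  by_cases hc : ∀ y g : G, Odd (orderOf y) → g * y * g⁻¹ = y⁻¹ → y = 1
  · exact Or.inl (H5.sylow_two_normal_of_not_real hc)
  right
  push Not at hc
  obtain ⟨y, g, hy, hg, hy1⟩ := hc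
  haveI := H7.RD.solvable_main FT.feit_thompson h2 hH hww hw hwZ
  obtain ⟨⟨x₁, hx₁, hd₁⟩, ⟨x₂, hx₂, q, hq, hq2, hd₂⟩, h3⟩ :=
    H7.RD.structure_K h2 hH hww hw hwZ hy hy1 hg _ rfl
  refine ⟨⟨{2}, {q | q.Prime ∧ q ≠ 2 ∧ ∃ x : ↥(Subgroup.closure {g : G | ∃ k : ℕ, orderOf g = 2 ^ k}),
    IsConj x x⁻¹ ∧ q ∣ H7.cs x}, ⟨2, rfl⟩, ⟨q, hq, hq2, x₂, hx₂, hd₂⟩, ?_, ?_, ?_, ?_⟩, ?_⟩
  · exact Set.disjoint_left.2 fun a ha hb => hb.2.1 ha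
  · rintro r (rfl | ⟨h1, -, x, hx, hd⟩)
    · exact ⟨Nat.prime_two, _, ⟨x₁, hx₁, rfl⟩, hd₁⟩
    · exact ⟨h1, _, ⟨x, hx, rfl⟩, hd⟩
  · rintro r hr ⟨_, ⟨x, hx, rfl⟩, hd⟩
    by_cases hr2 : r = 2
    · exact Or.inl hr2
    · exact Or.inr ⟨hr, hr2, x, hx, hd⟩
  · rintro _ rfl b ⟨hb, hb2, -⟩ _ ⟨x, hx, rfl⟩ ⟨h4, h5⟩
    rcases h3 x hx with h | ⟨j, h⟩
    · exact (Nat.not_even_iff_odd.2 h) (even_iff_two_dvd.2 h4)
    · exact hb2 ((Nat.prime_dvd_prime_iff_eq hb Nat.prime_two).1 (hb.dvd_of_dvd_pow (n := j) (by rw [← h]; exact h5)))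
  · rintro _ ⟨x, hx, rfl⟩
    exact h3 x hx

end Cfsg.Agent.S4192
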