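import Cfsg.Statements.S4194
import Cfsg.Agent.H7.CaminaHerzog

set_option autoImplicit false
open Cfsg

namespace Cfsg.Agent.S4194

/-- A finite group G has commutative Sylow 2-subgroups if and only if every 2-element of G (element of order a power of 2) is 2-central, that is, its centralizer contains a Sylow 2-subgroup of G. -/
theorem result {G : Type*} [Group G] [Finite G] (P : Sylow 2 G) :
    IsMulCommutative (P : Subgroup G) ↔ ∀ x : G, (∃ k : ℕ, orderOf x = 2 ^ k) → (∃ Q : Sylow 2 G, (Q : Subgroup G) ≤ Subgroup.centralizer ({x} : Set G)) := by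
  constructor
  · rintro h1 x ⟨k, hk⟩
    have hx : IsPGroup 2 (Subgroup.zpowers x) := IsPGroup.of_card (by rw [Nat.card_zpowers, hk])
    obtain ⟨Q, hQ⟩ := hx.exists_le_sylow
    obtain ⟨g, rfl⟩ := MulAction.exists_smul_eq G P Q
    have hmem : ∀ y : G, y ∈ ((g • P : Sylow 2 G) : Subgroup G) ↔ g⁻¹ * y * g ∈ (P : Subgroup G) := by
      intro y
      rw [Sylow.coe_subgroup_smul, Subgroup.mem_pointwise_smul_iff_inv_smul_mem]
      simp
    have hxP := (hmem x).1 (hQ (Subgroup.mem_zpowers x))
    refine ⟨g • P, fun y hy => ?_⟩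
    rw [Subgroup.mem_centralizer_singleton_iff]
    have := congrArg Subtype.val (mul_comm' (⟨_, (hmem y).1 hy⟩ : (P : Subgroup G)) ⟨_, hxP⟩)
    simp only [Subgroup.coe_mul] at this
    calc y * x = g * ((g⁻¹ * y * g) * (g⁻¹ * x * g)) * g⁻¹ := by group
      _ = x * y := by rw [this]; group
  · intro h
    refine H7.sylow_two_comm_of_odd_class (fun x hx hd => ?_) P
    obtain ⟨Q, hQ⟩ := h x hx
    exact Q.not_dvd_index (hd.trans (Subgroup.index_dvd_of_le hQ))

end Cfsg.Agent.S4194
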