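import Cfsg.Statements.S4211
import Cfsg.Agent.H1.PAction
import Cfsg.Agent.H1.Abelian
import Cfsg.Agent.H3.DQ
import Cfsg.Agent.H8.PComplement

set_option autoImplicit false
open Cfsg

namespace Cfsg.Agent.S4211

open Subgroup
open scoped commutatorElement

section
variable {G : Type*} [Group G]

theorem comm_mem_left (hn : ∀ H : Subgroup G, H.Normal) (x y : G) : ⁅x, y⁆ ∈ zpowers x := by
  rw [commutatorElement_def, mul_assoc, mul_assoc, ← mul_assoc y]
  exact mul_mem (mem_zpowers x) ((hn _).conj_mem _ (inv_mem (mem_zpowers x)) y)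

theorem comm_mem_right (hn : ∀ H : Subgroup G, H.Normal) (x y : G) : ⁅x, y⁆ ∈ zpowers y := by
  rw [commutatorElement_def]
  exact mul_mem ((hn _).conj_mem _ (mem_zpowers y) x) (inv_mem (mem_zpowers y))

theorem commute_of_mem_zpowers {x a : G} (h : a ∈ zpowers x) : Commute x a := by
  obtain ⟨n, rfl⟩ := h
  exact (Commute.refl x).zpow_right n

theorem zpowers_split {u a : G} (h : a ∈ zpowers u) : ∃ b ∈ zpowers (u ^ 2), a = b ∨ a = b * u := by
  obtain ⟨n, rfl⟩ := h
  obtain ⟨k, hk | hk⟩ := Int.even_or_odd' n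
  · exact ⟨(u ^ 2) ^ k, ⟨k, rfl⟩, Or.inl (by
      show u ^ n = _
      rw [hk, zpow_mul]; norm_cast)⟩
  · exact ⟨(u ^ 2) ^ k, ⟨k, rfl⟩, Or.inr (by
      show u ^ n = _
      rw [hk, zpow_add_one, zpow_mul]; norm_cast)⟩

theorem eq_of_mem_zpowers_sq {t b : G} (ht : t ^ 2 = 1) (h : b ∈ zpowers t) : b = 1 ∨ b = t := by
  obtain ⟨c, hc, h | h⟩ := zpowers_split h
  · rw [ht, zpowers_one_eq_bot, mem_bot] at hc
    exact Or.inl (h.trans hc)
  · rw [ht, zpowers_one_eq_bot, mem_bot] at hc
    exact Or.inr (by rw [h, hc, one_mul])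

theorem commute_of_sq (hn : ∀ H : Subgroup G, H.Normal) {t : G} (ht : t ^ 2 = 1) (g : G) :
    Commute g t := by
  rcases eq_of_mem_zpowers_sq ht (comm_mem_right hn g t) with h | h
  · exact commutatorElement_eq_one_iff_commute.1 h
  · rw [commutatorElement_def, mul_inv_eq_iff_eq_mul, ← pow_two, ht, mul_inv_eq_one,
      mul_eq_left] at h
    rw [h]; exact Commute.one_right g

theorem aux_min [Finite G] (hn : ∀ H : Subgroup G, H.Normal) (T : ℕ → Prop)
    (hT : ∀ a b, a ∣ b → T b → T a) {x y : G} (hx : T (orderOf x)) (hy : T (orderOf y))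
    (hxy : ¬ Commute x y)
    (hmin : ∀ u v : G, T (orderOf u) → T (orderOf v) →
      orderOf u + orderOf v < orderOf x + orderOf y → Commute u v)
    (hle : orderOf y ≤ orderOf x) :
    orderOf x = 4 ∧ orderOf y = 4 ∧ x ^ 2 = ⁅y, x⁆ ∧ y ^ 2 = ⁅y, x⁆ := by
  set c := ⁅y, x⁆ with hc
  have hcx : c ∈ zpowers x := comm_mem_right hn y x
  have hcy : c ∈ zpowers y := comm_mem_left hn y x
  have hc1 : c ≠ 1 := fun h => hxy (commutatorElement_eq_one_iff_commute.1 h).symm
  have hlt : ∀ (z : G) (q : ℕ), q.Prime → q ∣ orderOf z → orderOf (z ^ q) < orderOf z := by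
    intro z q hq hd
    rw [orderOf_pow_of_dvd hq.ne_zero hd]
    exact Nat.div_lt_self (orderOf_pos z) hq.one_lt
  have h1 : ∀ q : ℕ, q.Prime → q ∣ orderOf y → c ^ q = 1 := by
    intro q hq hd
    rw [hc, ← H1.commutatorElement_pow_left_of_central (commute_of_mem_zpowers hcy),
      commutatorElement_eq_one_iff_commute]
    have := hlt y q hq hd
    exact (hmin x (y ^ q) hx (hT _ _ (orderOf_pow_dvd q) hy) (by omega)).symm
  have h2 : ∀ q : ℕ, q.Prime → q ∣ orderOf x → c ^ q = 1 := by
    intro q hq hd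
    rw [hc, ← commutatorElement_inv, inv_pow,
      ← H1.commutatorElement_pow_left_of_central (commute_of_mem_zpowers (comm_mem_left hn x y)),
      inv_eq_one, commutatorElement_eq_one_iff_commute]
    have := hlt x q hq hd
    exact hmin (x ^ q) y (hT _ _ (orderOf_pow_dvd q) hx) hy (by omega)
  have hco : orderOf c ∣ orderOf x := orderOf_dvd_of_mem_zpowers hcx
  obtain ⟨p, hp, hpc⟩ := Nat.exists_prime_and_dvd (show orderOf c ≠ 1 by simpa using hc1)
  have := Fact.mk hp
  have hcp : orderOf c = p := orderOf_eq_prime (h2 p hp (hpc.trans hco)) hc1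
  have hpow : ∀ z : G, c ∈ zpowers z → (∀ q : ℕ, q.Prime → q ∣ orderOf z → c ^ q = 1) →
      ∃ r, orderOf z = p ^ (r + 1) ∧ zpowers (z ^ p ^ r) = zpowers c := by
    intro z hz h
    have e1 : orderOf z = p ^ (orderOf z).primeFactorsList.length :=
      Nat.eq_prime_pow_of_unique_prime_dvd (orderOf_pos z).ne' fun {q} hq hd => by
        have := orderOf_dvd_of_pow_eq_one (h q hq hd)
        rw [hcp] at this
        exact ((Nat.prime_dvd_prime_iff_eq hp hq).1 this).symm
    generalize (orderOf z).primeFactorsList.length = k at e1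
    have hd : p ∣ orderOf z := hcp ▸ orderOf_dvd_of_mem_zpowers hz
    rcases k with _ | r
    · rw [e1, pow_zero, Nat.dvd_one] at hd
      exact absurd hd hp.ne_one
    refine ⟨r, e1, (eq_of_le_of_card_ge ?_ ?_).symm⟩
    · rw [zpowers_le]
      obtain ⟨n, hn⟩ := mem_powers_iff_mem_zpowers.2 hz
      have hn' : z ^ n = c := hn
      have h3 : orderOf z ∣ n * p := by
        rw [orderOf_dvd_iff_pow_eq_one, pow_mul, hn', ← hcp, pow_orderOf_eq_one]
      rw [e1, pow_succ, Nat.mul_dvd_mul_iff_right hp.pos] at h3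
      obtain ⟨t, rfl⟩ := h3
      rw [← hn', pow_mul]
      exact pow_mem (mem_zpowers _) t
    · rw [Nat.card_zpowers, Nat.card_zpowers, hcp, orderOf_pow_of_dvd (pow_pos hp.pos r).ne'
        (by rw [e1]; exact pow_dvd_pow p (Nat.le_succ r)), e1, pow_succ,
        Nat.mul_div_cancel_left _ (pow_pos hp.pos r)]
  obtain ⟨r, hr, hr'⟩ := hpow x hcx h2
  obtain ⟨s, hs, hs'⟩ := hpow y hcy h1
  have hsr : s ≤ r := by
    rw [hr, hs] at hle
    have := (Nat.pow_le_pow_iff_right hp.one_lt).1 hle
    omega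
  obtain ⟨m, hm⟩ : ∃ m : ℕ, (x ^ p ^ r) ^ m = (y ^ p ^ s)⁻¹ := by
    apply mem_powers_iff_mem_zpowers.2
    rw [hr', ← hs']
    exact inv_mem (mem_zpowers _)
  have key : ¬ p ∣ p ^ (r - s) * (p ^ s).choose 2 := by
    intro hd
    set a := p ^ (r - s) * m with ha
    have e1 : ⁅y, x ^ a⁆ = c ^ a := by
      rw [← commutatorElement_inv,
        H1.commutatorElement_pow_left_of_central (commute_of_mem_zpowers (comm_mem_left hn x y)),
        ← inv_pow, commutatorElement_inv]
    have e2 : (x ^ a * y) ^ p ^ s = 1 := by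
      rw [H1.mul_pow_of_central (commute_of_mem_zpowers (comm_mem_right hn _ _))
        (commute_of_mem_zpowers (comm_mem_left hn _ _)), e1, ← pow_mul, ← pow_mul]
      have : a * p ^ s = p ^ r * m := by
        rw [ha, mul_right_comm, ← pow_add, Nat.sub_add_cancel hsr]
      rw [this, pow_mul, hm, inv_mul_cancel, one_mul, ← orderOf_dvd_iff_pow_eq_one, hcp, ha,
        mul_right_comm]
      exact hd.mul_right m
    have e3 : orderOf (x ^ a * y) ∣ p ^ s := orderOf_dvd_of_pow_eq_one e2
    have e4 : p ^ s < orderOf y := by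
      rw [hs]; exact Nat.pow_lt_pow_right hp.one_lt (Nat.lt_succ_self s)
    have e5 := Nat.le_of_dvd (pow_pos hp.pos s) e3
    have e6 := hmin x (x ^ a * y) hx
      (hT _ _ (e3.trans (by rw [hs]; exact pow_dvd_pow p (Nat.le_succ s))) hy) (by omega)
    apply hxy
    have := ((Commute.refl x).pow_right a).inv_right.mul_right e6
    rwa [inv_mul_cancel_left] at this
  have hrs : r = s := by
    by_contra hne
    exact key (Dvd.dvd.mul_right (dvd_pow_self p (by omega)) _)
  subst hrs
  rw [Nat.sub_self, pow_zero, one_mul] at key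
  have hr0 : r ≠ 0 := by
    rintro rfl
    exact key (by simp)
  have hp2 : p = 2 := by
    by_contra hne
    apply key
    have h3 : p ∣ 2 * (p ^ r).choose 2 := by
      rw [Nat.choose_two_right, Nat.mul_div_cancel' (Nat.even_mul_pred_self _).two_dvd]
      exact Dvd.dvd.mul_right (dvd_pow_self p hr0) _
    rcases (Nat.Prime.dvd_mul hp).1 h3 with h | h
    · exact absurd ((Nat.prime_dvd_prime_iff_eq hp Nat.prime_two).1 h) hne
    · exact h
  subst hp2
  have hr1 : r = 1 := by
    by_contra hne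
    apply key
    obtain ⟨k, rfl⟩ : ∃ k, r = k + 2 := ⟨r - 2, by omega⟩
    rw [Nat.choose_two_right]
    refine ⟨2 ^ k * (2 ^ (k + 2) - 1), ?_⟩
    rw [Nat.div_eq_iff_eq_mul_left two_pos (Nat.even_mul_pred_self _).two_dvd]
    ring
  subst hr1
  have hc2 : c ^ 2 = 1 := by rw [← hcp, pow_orderOf_eq_one]
  have h5 : ∀ z : G, zpowers (z ^ 2 ^ 1) = zpowers c → z ^ 2 = c := by
    intro z hz
    rw [pow_one] at hz
    refine (eq_of_mem_zpowers_sq hc2 (hz ▸ mem_zpowers _)).resolve_left fun h => hc1 ?_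
    rw [h, zpowers_one_eq_bot] at hz
    exact zpowers_eq_bot.1 hz.symm
  exact ⟨hr, hs, h5 x hr', h5 y hs'⟩

theorem exists_pair [Finite G] (hn : ∀ H : Subgroup G, H.Normal) (T : ℕ → Prop)
    (hT : ∀ a b, a ∣ b → T b → T a) (h : ∃ x y : G, T (orderOf x) ∧ T (orderOf y) ∧ ¬ Commute x y) :
    ∃ x y : G, T (orderOf x) ∧ ¬ Commute x y ∧
      orderOf x = 4 ∧ orderOf y = 4 ∧ x ^ 2 = ⁅y, x⁆ ∧ y ^ 2 = ⁅y, x⁆ := by
  classical
  have hex : ∃ n, ∃ x y : G, T (orderOf x) ∧ T (orderOf y) ∧ ¬ Commute x y ∧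
      orderOf x + orderOf y = n := by
    obtain ⟨x, y, h1, h2, h3⟩ := h
    exact ⟨_, x, y, h1, h2, h3, rfl⟩
  obtain ⟨x, y, h1, h2, h3, h4⟩ := Nat.find_spec hex
  have hmin : ∀ u v : G, T (orderOf u) → T (orderOf v) →
      orderOf u + orderOf v < orderOf x + orderOf y → Commute u v := by
    intro u v hu hv hlt
    by_contra hc
    exact Nat.find_min hex (h4 ▸ hlt) ⟨u, v, hu, hv, hc, rfl⟩
  rcases le_total (orderOf y) (orderOf x) with hle | hle
  · exact ⟨x, y, h1, h3, aux_min hn T hT h1 h2 h3 hmin hle⟩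
  · exact ⟨y, x, h2, fun h => h3 h.symm, aux_min hn T hT h2 h1 (fun h => h3 h.symm)
      (fun u v hu hv hlt => hmin u v hu hv (by omega)) hle⟩

end

/-- A finite non-abelian group in which every subgroup is normal is the internal direct product of a subgroup isomorphic to the quaternion group of order `8`, an elementary abelian `2`-subgroup and an abelian subgroup of odd order. -/
theorem result {G : Type*} [Group G] [Finite G] (hna : ¬ IsMulCommutative G) (hn : ∀ H : Subgroup G, H.Normal) : ∃ Q E A : Subgroup G, Nonempty (Q ≃* QuaternionGroup 2) ∧ Cfsg.IsElementaryAbelian 2 E ∧ IsMulCommutative A ∧ Odd (Nat.card A) ∧ E ⊓ A = ⊥ ∧ Q ⊓ (E ⊔ A) = ⊥ ∧ Q ⊔ (E ⊔ A) = ⊤ := by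
  have hodd : ∀ a b : G, Odd (orderOf a) → Odd (orderOf b) → Commute a b := by
    by_contra hc
    push Not at hc
    obtain ⟨x, y, h1, -, h2, -⟩ := exists_pair hn Odd (fun a b h hb => hb.of_dvd_nat h) hc
    rw [h2] at h1
    exact absurd h1 (by decide)
  obtain ⟨x, y, -, hxy, hx4, hy4, hx2, hy2⟩ := exists_pair hn (fun _ => True) (fun _ _ _ _ => trivial)
    (by
      by_contra hc
      push Not at hc
      exact hna ⟨⟨fun a b => hc a b trivial trivial⟩⟩)
  set c := ⁅y, x⁆ with hc
  have hc1 : c ≠ 1 := fun h => hxy (commutatorElement_eq_one_iff_commute.1 h).symm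
  have hx41 : x ^ 4 = 1 := by rw [← hx4, pow_orderOf_eq_one]
  have hy41 : y ^ 4 = 1 := by rw [← hy4, pow_orderOf_eq_one]
  have hc2 : c ^ 2 = 1 := by rw [← hx2, ← pow_mul, hx41]
  have hcc : ∀ g, Commute g c := commute_of_sq hn hc2
  have hcz : ∀ b ∈ zpowers c, ∀ g, Commute g b := by
    rintro _ ⟨n, rfl⟩ g
    exact (hcc g).zpow_right n
  have hyx : y * x * y⁻¹ = x⁻¹ := by
    have : y * x * y⁻¹ = c * x := by rw [hc, commutatorElement_def]; group
    rw [this, ← hx2, eq_inv_iff_mul_eq_one, ← pow_succ, ← pow_succ, hx41]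
  have hxy' : x * y * x⁻¹ = y⁻¹ := by
    have : x * y * x⁻¹ = c⁻¹ * y := by rw [hc, commutatorElement_def]; group
    rw [this, ← hy2]; group
  have hax : ∀ a ∈ zpowers x, Commute a y → a ∈ zpowers c := by
    intro a ha hay
    obtain ⟨b, hb, h | h⟩ := zpowers_split ha
    · rwa [h, ← hx2]
    · rw [hx2] at hb
      exfalso; apply hxy
      have := (hcz b hb y).symm.inv_left.mul_left hay
      rwa [h, inv_mul_cancel_left] at this
  have hay : ∀ a ∈ zpowers y, Commute a x → a ∈ zpowers c := by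
    intro a ha hay
    obtain ⟨b, hb, h | h⟩ := zpowers_split ha
    · rwa [h, ← hy2]
    · rw [hy2] at hb
      exfalso; apply hxy
      have := (hcz b hb x).symm.inv_left.mul_left hay
      rw [h, inv_mul_cancel_left] at this
      exact this.symm
  have hnorm : ∀ H K : Subgroup G, H ≤ normalizer (K : Set G) := fun H K => by
    have := hn K
    rw [normalizer_eq_top K]; exact le_top
  let Q := zpowers x ⊔ zpowers y
  have hxQ : x ∈ Q := mem_sup_left (mem_zpowers x)
  have hyQ : y ∈ Q := mem_sup_right (mem_zpowers y)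
  have hcQ : zpowers c ≤ Q := by
    rw [zpowers_le, ← hx2]; exact pow_mem hxQ 2
  have hinf : zpowers x ⊓ zpowers y = zpowers c := by
    apply le_antisymm
    · intro a ha
      exact hax a ha.1 (commute_of_mem_zpowers ha.2).symm
    · rw [zpowers_le]
      exact ⟨hx2 ▸ pow_mem (mem_zpowers x) 2, hy2 ▸ pow_mem (mem_zpowers y) 2⟩
  have hcardQ : Nat.card Q = 8 := by
    have := H1.card_sup_mul_card_inf (hnorm (zpowers x) (zpowers y))
    rw [hinf, Nat.card_zpowers, Nat.card_zpowers, Nat.card_zpowers, hx4, hy4,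
      orderOf_eq_prime hc2 hc1] at this
    show Nat.card (zpowers x ⊔ zpowers y : Subgroup G) = 8
    omega
  let E0 : Subgroup G :=
    { carrier := {g | g ^ 2 = 1}
      one_mem' := by simp
      mul_mem' := fun {a b} ha hb => by
        simp only [Set.mem_setOf_eq] at ha hb ⊢
        rw [(commute_of_sq hn hb a).mul_pow, ha, hb, one_mul]
      inv_mem' := fun {a} ha => by
        simp only [Set.mem_setOf_eq] at ha ⊢
        rw [inv_pow, ha, inv_one] }
  have hE0 : IsElementaryAbelian 2 E0 :=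
    ⟨⟨⟨fun a b => Subtype.ext (commute_of_sq hn b.2 a)⟩⟩, fun a ha => ha⟩
  obtain ⟨E, hE, hE1, hE2⟩ := H1.exists_complement_of_isElementaryAbelian Nat.prime_two hE0
    (U := zpowers c) (by rw [zpowers_le]; exact hc2)
  let A : Subgroup G :=
    { carrier := {g | Odd (orderOf g)}
      one_mem' := by simp
      mul_mem' := fun {a b} ha hb =>
        (Odd.mul ha hb).of_dvd_nat (hodd a b ha hb).orderOf_mul_dvd_mul_orderOf
      inv_mem' := fun {a} ha => by
        simp only [Set.mem_setOf_eq] at ha ⊢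
        rwa [orderOf_inv] }
  have hA1 : ∀ a ∈ A, ∀ k : ℕ, a ^ 2 ^ k = 1 → a = 1 := by
    intro a ha k h
    rw [← orderOf_eq_one_iff]
    exact (Nat.Coprime.pow_right k (Nat.coprime_two_right.2 ha)).eq_one_of_dvd
      (orderOf_dvd_of_pow_eq_one h)
  refine ⟨Q, E, A, ?_, ⟨⟨⟨fun a b => Subtype.ext (commute_of_sq hn (hE b.2) a)⟩⟩,
    fun a ha => hE ha⟩, ⟨⟨fun a b => Subtype.ext (hodd a b a.2 b.2)⟩⟩, ?_, ?_, ?_, ?_⟩
  · have ho : orderOf (⟨x, hxQ⟩ : Q) = 2 * 2 := by rw [orderOf_mk, hx4]
    refine H3.nonempty_mulEquiv_quaternion (x := ⟨x, hxQ⟩) (y := ⟨y, hyQ⟩) ho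
      (H3.index_zpowers_eq_of_card (by rw [ho, hcardQ])) ?_ (Subtype.ext (hy2.trans hx2.symm))
      (Subtype.ext hyx)
    intro h
    exact hxy (congrArg Subtype.val (commute_of_mem_zpowers h))
  · rw [← Nat.not_even_iff_odd, even_iff_two_dvd]
    intro h
    obtain ⟨a, ha⟩ := exists_prime_orderOf_dvd_card' 2 h
    have h1 : Odd (orderOf (a : G)) := a.2
    rw [orderOf_coe, ha] at h1
    exact absurd h1 (by decide)
  · rw [eq_bot_iff]
    intro a ha
    exact hA1 a ha.2 1 (hE ha.1)
  · rw [eq_bot_iff]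
    rintro g ⟨hgQ, hg⟩
    obtain ⟨e, he, a, ha, rfl⟩ := (H1.mem_sup_iff_of_le_normalizer (hnorm E A)).1 hg
    have he2 : e ^ 2 = 1 := hE he
    have h8 : (e * a) ^ 8 = 1 := by
      have := pow_card_eq_one' (x := (⟨e * a, hgQ⟩ : Q))
      rw [hcardQ] at this
      exact congrArg Subtype.val this
    rw [(commute_of_sq hn he2 a).symm.mul_pow, show 8 = 2 * 4 from rfl, pow_mul, he2, one_pow,
      one_mul] at h8
    have ha1 := hA1 a ha 3 h8
    subst ha1
    rw [mul_one] at hgQ ⊢
    obtain ⟨u, hu, v, hv, huv⟩ := (H1.mem_sup_iff_of_le_normalizer (hnorm _ _)).1 hgQ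
    have hu' : u ∈ zpowers c := hax u hu (by
      have := (commute_of_sq hn he2 y).symm.mul_left (commute_of_mem_zpowers hv).symm.inv_left
      rwa [← huv, mul_inv_cancel_right] at this)
    have hv' : v ∈ zpowers c := hay v hv (by
      have := (commute_of_mem_zpowers hu).symm.inv_left.mul_left (commute_of_sq hn he2 x).symm
      rwa [← huv, inv_mul_cancel_left] at this)
    rw [← hE1]
    exact ⟨huv ▸ mul_mem hu' hv', he⟩
  · have hcent : ∀ h : G, Commute h x → Commute h y → h ∈ Q ⊔ (E ⊔ A) := by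
      intro h hhx hhy
      obtain ⟨u, v, hu, hv, huv, -, ⟨k, hk⟩, hv'⟩ := H8.exists_pPart_pPrimePart Nat.prime_two h
      have h4 : ∀ w : G, Commute w x → Commute w y → w ^ 4 = 1 → w ^ 2 = 1 := by
        intro w hwx hwy hw
        have e1 : ⁅y * w, x⁆ = c := by
          rw [hc, commutatorElement_def, commutatorElement_def, mul_assoc y w x, hwx.eq]
          group
        have e2 : ((y * w) ^ 2) ^ 2 = 1 := by
          rw [← pow_mul, hwy.symm.mul_pow, hy41, hw, one_mul]
        obtain ⟨b, hb, e | e⟩ := zpowers_split (e1 ▸ comm_mem_left hn (y * w) x)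
        · rcases eq_of_mem_zpowers_sq e2 hb with e3 | e3
          · exact absurd (e.trans e3) hc1
          · rw [e3, hwy.symm.mul_pow, hy2] at e
            exact (mul_eq_left.1 e.symm)
        · exfalso
          have hbx : Commute x b := by
            obtain ⟨n, rfl⟩ := hb
            exact (commute_of_sq hn e2 x).zpow_right n
          apply hxy
          have := (hbx.inv_right.mul_right (hcc x)).mul_right hwx.symm.inv_right
          rwa [e, inv_mul_cancel_left, mul_inv_cancel_right] at this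
      have h5 : ∀ j : ℕ, u ^ 2 ^ j = 1 → u ^ 2 = 1 := by
        have hux : Commute u x := by obtain ⟨n, rfl⟩ := hu; exact hhx.zpow_left n
        have huy : Commute u y := by obtain ⟨n, rfl⟩ := hu; exact hhy.zpow_left n
        intro j
        induction j with
        | zero => intro e; rw [pow_zero, pow_one] at e; rw [e, one_pow]
        | succ j ih =>
          intro e
          rcases j with _ | j
          · simpa using e
          · apply ih
            rw [pow_succ, pow_mul]
            refine h4 _ (hux.pow_left _) (huy.pow_left _) ?_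
            rw [← pow_mul, ← e]
            congr 1
            ring
      have hu0 : u ∈ E0 := h5 k (by rw [← hk, pow_orderOf_eq_one])
      rw [← hE2] at hu0
      rw [huv]
      exact mul_mem (sup_le_sup hcQ le_sup_left hu0)
        (mem_sup_right (mem_sup_right (Nat.coprime_two_right.1 hv')))
    have hcomm : ∀ z : G, z ^ 2 = c → (∀ a ∈ zpowers z, a ^ 2 = 1 → a ∈ zpowers c) →
        ∀ g : G, g * z * g⁻¹ = z ∨ g * z * g⁻¹ = z⁻¹ := by
      intro z hz hzc g
      have h1 : ⁅z, g⁆ ^ 2 = 1 := by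
        rw [← H1.commutatorElement_pow_left_of_central
          (commute_of_mem_zpowers (comm_mem_left hn z g)), hz, commutatorElement_eq_one_iff_commute]
        exact (hcc g).symm
      rcases eq_of_mem_zpowers_sq hc2 (hzc _ (comm_mem_left hn z g) h1) with h | h
      · left
        rw [(commutatorElement_eq_one_iff_commute.1 h).symm.eq, mul_inv_cancel_right]
      · right
        rw [← hz, commutatorElement_def] at h
        have : g * z * g⁻¹ = (z⁻¹ * (z * g * z⁻¹ * g⁻¹))⁻¹ := by group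
        rw [this, h]; group
    have hgx := hcomm x hx2 fun a ha h => hax a ha (commute_of_sq hn h y).symm
    have hgy := hcomm y hy2 fun a ha h => hay a ha (commute_of_sq hn h x).symm
    have step : ∀ h : G, Commute h x → h ∈ Q ⊔ (E ⊔ A) := by
      intro h hhx
      rcases hgy h with e | e
      · exact hcent h hhx (mul_inv_eq_iff_eq_mul.1 e)
      · have := hcent (h * x) (hhx.mul_left (Commute.refl x)) (by
          apply mul_inv_eq_iff_eq_mul.1
          have : h * x * y * (h * x)⁻¹ = (h * (x * y * x⁻¹)⁻¹ * h⁻¹)⁻¹ := by group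
          rw [this, hxy', inv_inv, e, inv_inv])
        exact (mul_mem_cancel_right (mem_sup_left hxQ)).1 this
    rw [eq_top_iff]
    intro h _
    rcases hgx h with e | e
    · exact step h (mul_inv_eq_iff_eq_mul.1 e)
    · have := step (h * y) (by
        apply mul_inv_eq_iff_eq_mul.1
        have : h * y * x * (h * y)⁻¹ = (h * (y * x * y⁻¹)⁻¹ * h⁻¹)⁻¹ := by group
        rw [this, hyx, inv_inv, e, inv_inv])
      exact (mul_mem_cancel_right (mem_sup_left hyQ)).1 this

end Cfsg.Agent.S4211
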