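import Cfsg.Statements.S4231
import Cfsg.Agent.H8.AltAut
import Cfsg.Agent.H8.PComplement

set_option autoImplicit false
open Cfsg

namespace Cfsg.Agent.S4231

open Equiv Equiv.Perm in
theorem aux (n : ℕ) (hn : 5 ≤ n) (G : Subgroup (MulAut (alternatingGroup (Fin n))))
    (hG : (MulAut.conj : alternatingGroup (Fin n) →* MulAut (alternatingGroup (Fin n))).range ≤ G)
    (p q : ℕ) [hp : Fact p.Prime] [hq : Fact q.Prime] (hpq : p < q)
    (h : ∀ g : G, orderOf g ≠ p * q) (Q : Sylow q G) : IsMulCommutative (Q : Subgroup G) := by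
  have hp2 := hp.out.two_le
  have hinj : Function.Injective
      (MulAut.conj : alternatingGroup (Fin n) →* MulAut (alternatingGroup (Fin n))) := by
    rw [injective_iff_map_eq_one]
    intro g hg
    rw [← Subgroup.mem_bot, ← alternatingGroup.center_eq_bot (by simp; omega),
      Subgroup.mem_center_iff]
    intro x
    have := MulEquiv.congr_fun hg x
    rw [MulAut.conj_apply, MulAut.one_apply, mul_inv_eq_iff_eq_mul] at this
    exact this.symm
  have hcop : p.Coprime q := (Nat.coprime_primes hp.out hq.out).2 hpq.ne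
  have hqo : Odd q := hq.out.odd_of_ne_two (by omega)
  by_cases hlt : n < 3 * q
  · have h1 : (Q : Subgroup G).map G.subtype ≤ (MulAut.conj :
        alternatingGroup (Fin n) →* MulAut (alternatingGroup (Fin n))).range := by
      rintro _ ⟨x, hx, rfl⟩
      obtain ⟨j, hj⟩ := H8.exists_orderOf_eq_pow_of_mem Q.isPGroup' hx
      exact H8.inner_of_orderOf_eq_pow (by simpa using hn) hq.out (by omega) (by simpa using hlt)
        (j := j) (by rw [← hj]; exact Subgroup.orderOf_coe x)
    have h2 := Subgroup.card_dvd_of_le h1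
    rw [Subgroup.card_map_of_injective G.subtype_injective,
      ← Nat.card_congr (MonoidHom.ofInjective hinj).toEquiv] at h2
    have h3 := h2.trans (Subgroup.card_subgroup_dvd_card _)
    obtain ⟨k, hk⟩ := IsPGroup.iff_card.1 Q.isPGroup'
    rw [hk, Nat.card_perm, Nat.card_eq_fintype_card, Fintype.card_fin,
      hq.out.pow_dvd_factorial_iff (b := 2)
        (Nat.log_lt_of_lt_pow (by omega) (by nlinarith))] at h3
    have h4 : k ≤ 2 := by
      have : n / q < 3 := (Nat.div_lt_iff_lt_mul hq.out.pos).2 hlt
      simp at h3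
      omega
    by_cases h5 : k = 2
    · exact IsPGroup.isMulCommutative_of_card_eq_prime_sq (h5 ▸ hk)
    · have : IsCyclic (Q : Subgroup G) := isCyclic_of_card_dvd_prime (p := q) (by
        rw [hk]
        exact (pow_dvd_pow q (show k ≤ 1 by omega)).trans (by simp))
      infer_instance
  · exfalso
    obtain ⟨g, hg, hg2⟩ : ∃ g : Perm (Fin n), sign g = 1 ∧ orderOf g = p * q := by
      by_cases hp2 : p = 2
      · subst hp2
        obtain ⟨g, hg⟩ := (exists_with_cycleType_iff (Fin n) (m := {2, 2, q})).2
          ⟨by simp; omega, by simp; omega⟩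
        refine ⟨g, ?_, ?_⟩
        · rw [sign_of_cycleType, hg]
          apply Even.neg_one_pow
          obtain ⟨m, hm⟩ := hqo
          exact ⟨m + 4, by simp; omega⟩
        · rw [← lcm_cycleType, hg, ← hcop.lcm_eq_mul]
          simp [← lcm_assoc, lcm_eq_nat_lcm]
      · obtain ⟨g, hg⟩ := (exists_with_cycleType_iff (Fin n) (m := {p, q})).2
          ⟨by simp; omega, by simp; omega⟩
        refine ⟨g, ?_, ?_⟩
        · rw [sign_of_cycleType, hg]
          apply Even.neg_one_pow
          obtain ⟨m, hm⟩ := hqo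
          obtain ⟨m', hm'⟩ := hp.out.odd_of_ne_two hp2
          exact ⟨m + m' + 2, by simp; omega⟩
        · rw [← lcm_cycleType, hg, ← hcop.lcm_eq_mul]
          simp [lcm_eq_nat_lcm]
    refine h ⟨MulAut.conj (⟨g, hg⟩ : alternatingGroup (Fin n)), hG ⟨_, rfl⟩⟩ ?_
    rw [← Subgroup.orderOf_coe, orderOf_injective _ hinj, ← Subgroup.orderOf_coe, hg2]

/-- Let n ≥ 5 and let G be a group of automorphisms of the alternating group of degree n containing all inner automorphisms. If p ≠ q are primes and G has no element of order pq, then every Sylow p-subgroup of G is abelian or every Sylow q-subgroup of G is abelian. -/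
theorem result (n : ℕ) (hn : 5 ≤ n) (G : Subgroup (MulAut (alternatingGroup (Fin n))))
    (hG : (MulAut.conj : alternatingGroup (Fin n) →* MulAut (alternatingGroup (Fin n))).range ≤ G)
    (p q : ℕ) [Fact p.Prime] [Fact q.Prime] (hpq : p ≠ q) (h : ∀ g : G, orderOf g ≠ p * q) :
    (∀ P : Sylow p G, IsMulCommutative (P : Subgroup G)) ∨ (∀ Q : Sylow q G, IsMulCommutative (Q : Subgroup G)) := by
  rcases lt_or_gt_of_ne hpq with h1 | h1
  · exact Or.inr (aux n hn G hG p q h1 h)
  · exact Or.inl (aux n hn G hG q p h1 (by rwa [mul_comm]))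

end Cfsg.Agent.S4231
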