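import Cfsg.Statements.S4236
import Cfsg.Agent.H9.SylowLines
import Cfsg.Agent.H8.Pronormal

set_option autoImplicit false
open Cfsg

namespace Cfsg.Agent.S4236

open Subgroup MulAction in
theorem simple_case {S : Type*} [Group S] [Finite S] [IsSimpleGroup S] (hS : ¬ IsMulCommutative S)
    (hn : Nat.card (Sylow 17 S) = 35) : False := by
  have : Fact (Nat.Prime 17) := ⟨by norm_num⟩
  obtain ⟨P⟩ : Nonempty (Sylow 17 S) := inferInstance
  have hfaith : FaithfulSMul S (Sylow 17 S) := H9.faithfulSMul_sylow (by rw [hn]; norm_num)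
  have hidx : (normalizer ((P : Subgroup S) : Set S)).index = 35 := by
    rw [← hn]; exact P.card_eq_index_normalizer.symm
  have h7 : 17 ∣ Nat.card S := by
    by_contra h
    have h1 : Nat.card P = 1 := by
      rw [P.card_eq_multiplicity, Nat.factorization_eq_zero_of_not_dvd h, pow_zero]
    have h2 : (P : Subgroup S) = ⊥ := card_eq_one.1 h1
    have h3 : ((P : Subgroup S)).Normal := h2 ▸ inferInstance
    rw [normalizer_eq_top (P : Subgroup S), index_top] at hidx
    omega
  have hP : Nat.card P = 17 := H9.card_sylow_eq_prime_of_le_sq hS h7 (by rw [hn]; norm_num) P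
  obtain ⟨c, hc⟩ := exists_prime_orderOf_dvd_card' (G := P) 17 hP.symm.dvd
  have hc' : orderOf (c : S) = 17 ^ 1 := by rw [orderOf_coe, hc, pow_one]
  have hc1 : (c : S) ≠ 1 := by
    intro h; rw [h, orderOf_one] at hc'; omega
  have hfix := H9.fixedBy_sylow_eq_singleton P hP c.2 hc1
  -- the centralizer of `P` is a `7`-group
  have hC : ∀ q : ℕ, q.Prime → q ∣ Nat.card (centralizer ((P : Subgroup S) : Set S)) → q = 17 := by
    intro q hq hd
    have : Fact q.Prime := ⟨hq⟩
    obtain ⟨w, hw⟩ := exists_prime_orderOf_dvd_card' q hd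
    have hw' : orderOf (w : S) = q ^ 1 := by rw [orderOf_coe, hw, pow_one]
    have hw1 : (w : S) ≠ 1 := by
      intro h; rw [h, orderOf_one, pow_one] at hw'; exact hq.one_lt.ne hw'
    have hcomm : Commute (w : S) c := (w.2 c c.2).symm
    have h1 := H9.ncard_fixedBy_modEq_of_commute (Ω := Sylow 17 S) hc' hcomm
    have h2 : fixedBy (Sylow 17 S) (w : S) ∩ fixedBy (Sylow 17 S) (c : S) = {P} := by
      rw [hfix, Set.inter_eq_right, Set.singleton_subset_iff, mem_fixedBy,
        Sylow.smul_eq_iff_mem_normalizer]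
      exact centralizer_le_normalizer _ w.2
    rw [h2, Set.ncard_singleton] at h1
    have h3 := H9.ncard_fixedBy_lt (Ω := Sylow 17 S) hw1
    have h4 := (Nat.modEq_iff_dvd' h3.le).1 (H9.card_modEq_ncard_fixedBy (Ω := Sylow 17 S) hw').symm
    rw [hn] at h3 h4
    unfold Nat.ModEq at h1
    have h5 : (fixedBy (Sylow 17 S) (w : S)).ncard = 1 ∨ (fixedBy (Sylow 17 S) (w : S)).ncard = 18 := by
      omega
    rcases h5 with h5 | h5
    · rw [h5] at h4
      rcases (Nat.Prime.dvd_mul hq (m := 2) (n := 17)).1 h4 with h | h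
      · exfalso
        have hq2 : q = 2 := (Nat.prime_dvd_prime_iff_eq hq Nat.prime_two).1 h
        subst hq2
        have := H9.four_dvd_of_sq_eq_one (Ω := Sylow 17 S) (H9.commutator_eq_top_of_simple hS)
          (t := (w : S)) (by rw [← pow_one 2, ← hw', pow_orderOf_eq_one])
        rw [hn, h5] at this
        omega
      · exact (Nat.prime_dvd_prime_iff_eq hq (by norm_num)).1 h
    · rw [h5] at h4
      exact (Nat.prime_dvd_prime_iff_eq hq (by norm_num)).1 h4
  obtain ⟨k, hk1, hk2, -, hk⟩ := H9.exists_card_normalizer_eq_of_simple hS P hP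
  have h2 : 2 ∣ Nat.card S := by
    refine Dvd.dvd.trans ?_ ((Dvd.intro_left _ hk.symm).trans (card_subgroup_dvd_card _))
    have : k ≤ 16 := Nat.le_of_dvd (by norm_num) hk1
    interval_cases k <;> simp_all
  obtain ⟨T, hT⟩ := (H8.exists_sylow_le_iff (p := 2)
    (K := normalizer ((P : Subgroup S) : Set S))).2 (by rw [hidx]; norm_num)
  have hPc : IsCyclic (P : Subgroup S) := isCyclic_of_prime_card hP
  have hAc : IsCyclic (MulAut (P : Subgroup S)) := by
    have : IsCyclic (ZMod (Nat.card (P : Subgroup S)))ˣ := ZMod.isCyclic_units_prime (by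
      rw [hP]; norm_num)
    exact isCyclic_of_injective (IsCyclic.mulAutMulEquiv (P : Subgroup S)).toMonoidHom
      (IsCyclic.mulAutMulEquiv (P : Subgroup S)).injective
  have hTc : IsCyclic (T : Subgroup S) := by
    refine isCyclic_of_injective ((P : Subgroup S).normalizerMonoidHom.comp (inclusion hT)) ?_
    rw [injective_iff_map_eq_one]
    intro x hx
    have h3 : (x : S) ∈ centralizer ((P : Subgroup S) : Set S) := by
      have : inclusion hT x ∈ (P : Subgroup S).normalizerMonoidHom.ker := hx
      rwa [normalizerMonoidHom_ker] at this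
    obtain ⟨j, hj⟩ := H8.exists_orderOf_eq_pow_of_mem T.isPGroup' x.2
    refine Subtype.ext (H8.eq_one_of_orderOf_pow_of_coprime hj ?_)
    refine (Nat.prime_two.coprime_iff_not_dvd.2 fun hd => ?_).symm
    have := hC 2 Nat.prime_two (hd.trans (orderOf_dvd_natCard _ h3))
    omega
  exact H9.not_hasNPC_of_simple hS h2
    (H8.hasNPC_of_isCyclic_minFac ((Nat.minFac_eq_two_iff _).2 h2) T hTc)

/-- No finite group has exactly 35 Sylow 17-subgroups. -/
theorem result {G : Type*} [Group G] [Finite G] : Nat.card (Sylow 17 G) ≠ 35 := by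
  intro hn
  have : Fact (Nat.Prime 17) := ⟨by norm_num⟩
  obtain ⟨S, _, _, hS, hS', h, -, -⟩ := H9.exists_simple_of_card_sylow hn (by norm_num) (by
    intro m hm hp
    have h3 := hp 7 (by norm_num)
    have h5 := hp 5 (by norm_num)
    have f3 : (7 : ℕ).factorization 7 = 1 := Nat.Prime.factorization_self (by norm_num)
    have f5 : (5 : ℕ).factorization 5 = 1 := Nat.Prime.factorization_self (by norm_num)
    have f35 : (35 : ℕ).factorization 5 = 1 := by
      rw [show 35 = 5 * 7 by norm_num, Nat.factorization_mul (by norm_num) (by norm_num),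
        Finsupp.add_apply, f5, Nat.factorization_eq_zero_of_not_dvd (by norm_num)]
    have : m = 1 ∨ m = 5 ∨ m = 7 ∨ m = 35 := by
      have : m ≤ 35 := Nat.le_of_dvd (by norm_num) hm
      interval_cases m <;> simp_all
    rcases this with rfl | rfl | rfl | rfl
    · rfl
    · rw [f5] at h5; exact absurd h5 (by decide)
    · rw [f3] at h3; exact absurd h3 (by decide)
    · rw [f35] at h5; exact absurd h5 (by decide)) (by
    intro x hx hx'
    have : x ≤ 35 := Nat.le_of_dvd (by norm_num) hx
    unfold Nat.ModEq at hx'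
    have : x = 1 ∨ x = 18 ∨ x = 35 := by omega
    rcases this with rfl | rfl | rfl <;> simp_all)
  exact simple_case hS' h

end Cfsg.Agent.S4236
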