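import Cfsg.Statements.S4237
import Cfsg.Agent.H4.SubCount2

set_option autoImplicit false
open Cfsg

namespace Cfsg.Agent.S4237


/-- Let G be a finite group, p a prime and a a natural number such that p^(a+1) divides the order of G. Then the number of subgroups of G of order p^a is congruent to 1 or to 1 + p modulo p². -/
theorem result {G : Type*} [Group G] [Finite G] (p a : ℕ) (hp : p.Prime) (hdvd : p ^ (a + 1) ∣ Nat.card G) :
    Nat.card {H : Subgroup G // Nat.card H = p ^ a} ≡ 1 [MOD p ^ 2] ∨
      Nat.card {H : Subgroup G // Nat.card H = p ^ a} ≡ 1 + p [MOD p ^ 2] := by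
  have hfp := Fact.mk hp
  by_cases hp2 : p = 2
  · subst hp2
    have h := H4.card_subgroup_pow_modEq hp ((pow_dvd_pow 2 a.le_succ).trans hdvd)
    simp only [Nat.ModEq] at h ⊢
    omega
  obtain ⟨P⟩ : Nonempty (Sylow p G) := inferInstance
  have h := H4.card_subgroup_pow_modEq_sylow hdvd P
  obtain ⟨n, hn⟩ := IsPGroup.iff_card.1 P.isPGroup'
  have han : a + 1 ≤ n := by
    rw [← Nat.pow_dvd_pow_iff_le_right hp.one_lt, ← hn]
    exact P.pow_dvd_card_of_pow_dvd_card hdvd
  by_cases hc : IsCyclic P
  · left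
    rwa [H4.card_subgroup_eq_one_of_isCyclic (G := P) (hn ▸ pow_dvd_pow p (by omega))] at h
  rcases Nat.eq_zero_or_pos a with rfl | ha
  · left
    have : Nat.card {H : Subgroup G // Nat.card H = p ^ 0} = 1 := by
      rw [Nat.card_eq_one_iff_exists]
      exact ⟨⟨⊥, by simp⟩, fun H => Subtype.ext (Subgroup.card_eq_one.1 (by simpa using H.2))⟩
    rw [this]
  · right
    exact h.trans (H4.kulakoff hp2 hn hc ha han)

end Cfsg.Agent.S4237
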