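import Cfsg.Statements.S4238
import Cfsg.Agent.H8.Schmidt

set_option autoImplicit false
open Cfsg

namespace Cfsg.Agent.S4238

/-- Let G be a finite group and p a prime. Then G has a normal p-complement if and only if every section K = H/N of G (N a normal subgroup of a subgroup H) whose largest normal subgroup of order prime to p is trivial contains an element whose order equals the exponent of K. -/
theorem result {G : Type*} [Group G] [Finite G] (p : ℕ) [Fact p.Prime] :
    Cfsg.HasNormalPComplement p G ↔
      ∀ (H : Subgroup G) (N : Subgroup H) [N.Normal], Cfsg.pPrimeCore p (H ⧸ N) = ⊥ →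
        ∃ k : H ⧸ N, orderOf k = Monoid.exponent (H ⧸ N) := by
  constructor
  · intro h H N _ hb
    have h1 := H8.hasNPC_quotient (H8.hasNPC_subgroup h H) N
    rw [H8.hasNPC_iff_pResidual_eq_pPrimeCore, hb, H8.pResidual_eq_bot_iff Fact.out,
      isPGroup_iff_exponent_eq_pow] at h1
    obtain ⟨n, hn⟩ := h1
    obtain ⟨g, hg⟩ := (Fact.out : p.Prime).exists_orderOf_eq_pow_factorization_exponent (H ⧸ N)
    refine ⟨g, ?_⟩
    rw [hg, hn, Nat.factorization_pow_self Fact.out]
  · intro h
    have hp : p.Prime := Fact.out
    by_contra hc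
    obtain ⟨H, P, g, q, k, hmin, hd⟩ := H8.exists_subgroup_itoData hc
    have := hd.normal
    set π := QuotientGroup.mk' (Subgroup.center H) with hπ
    have hs : Function.Surjective π := QuotientGroup.mk'_surjective _
    have hone : ∀ x : H, π x = 1 ↔ x ∈ Subgroup.center H := fun x => QuotientGroup.eq_one_iff x
    have hPZ : ¬ (P : Subgroup H) ≤ Subgroup.center H := fun hle =>
      hd.not_mem fun x hx => (Subgroup.mem_center_iff.1 (hle hx) g).symm
    obtain ⟨x, hxP, hxZ⟩ := SetLike.not_le_iff_exists.1 hPZ
    have hx1 : π x ≠ 1 := fun he => hxZ ((hone x).1 he)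
    obtain ⟨j, hj⟩ := H8.exists_orderOf_eq_pow_of_mem P.isPGroup' hxP
    have hxp : ¬ (orderOf (π x)).Coprime p := fun hco => hx1 (by
      rw [← orderOf_eq_one_iff]
      exact Nat.eq_one_of_dvd_coprimes (hco.pow_right j) dvd_rfl (hj ▸ orderOf_map_dvd π x))
    -- a proper normal subgroup of `K` has a normal complement
    have hprop : ∀ C : Subgroup (H ⧸ Subgroup.center H), C ≠ ⊤ → HasNormalPComplement p C := by
      intro C hC
      have h1 : C.comap π ≠ ⊤ := fun he => hC (by
        rw [← Subgroup.map_comap_eq_self_of_surjective hs C, he,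
          Subgroup.map_top_of_surjective _ hs])
      have := hmin.2 _ h1
      have := H8.hasNPC_map (H8.hasNPC_of_isNilpotent (G := C.comap π) p) π
      rwa [Subgroup.map_comap_eq_self_of_surjective hs] at this
    have hcore : pPrimeCore p (H ⧸ Subgroup.center H) = ⊥ := by
      set M := (pPrimeCore p (H ⧸ Subgroup.center H)).comap π
      have hMP : M ⊓ P ≤ Subgroup.center H := by
        intro y hy
        rw [← hone, ← orderOf_eq_one_iff]
        obtain ⟨i, hi⟩ := H8.exists_orderOf_eq_pow_of_mem P.isPGroup' hy.2
        exact Nat.eq_one_of_dvd_coprimes ((L.coprime_card_pPrimeCore p).pow_right i)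
          (Subgroup.orderOf_dvd_natCard _ hy.1) (hi ▸ orderOf_map_dvd π y)
      -- `M` is central modulo the centre, acts trivially on `P`
      rw [eq_bot_iff]
      intro b hb
      obtain ⟨b, rfl⟩ := hs b
      rw [Subgroup.mem_bot]
      by_contra hb1
      -- `M P` contains the commutator subgroup; if proper it is nilpotent
      have hgM : g ∉ M := fun hg => by
        have := hd.eq_top_of_mem M hg
        exact hPZ fun y hy => hMP ⟨this ▸ Subgroup.mem_top y, hy⟩
      -- write `b = u * g ^ n`
      have hb2 : b ∈ (P : Subgroup H) ⊔ Subgroup.zpowers g := hd.sup ▸ Subgroup.mem_top b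
      rw [← SetLike.mem_coe, Subgroup.normal_mul] at hb2
      obtain ⟨u, hu, _, ⟨n, rfl⟩, rfl⟩ := hb2
      have hgq : π g ^ q = 1 := by rw [← map_pow, hone]; exact hd.pow_central
      by_cases hqn : (q : ℤ) ∣ n
      · obtain ⟨m, rfl⟩ := hqn
        have h1 : π (g ^ ((q : ℤ) * m)) = 1 := by
          rw [map_zpow, zpow_mul, zpow_natCast, hgq, one_zpow]
        apply hb1
        have h2 : π (u * g ^ ((q : ℤ) * m)) = π u := by rw [map_mul, h1, mul_one]
        have h3 : u ∈ M := by
          change π u ∈ pPrimeCore p _
          rw [← h2]; exact hb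
        change π (u * g ^ ((q : ℤ) * m)) = 1
        rw [h2, hone]
        exact hMP ⟨h3, hu⟩
      · -- then `M P = H`, so `[P, H] ≤ M ∩ P`-type contradiction
        have h1 : g ∈ (P : Subgroup H) ⊔ M := by
          have h2 : g ^ n ∈ (P : Subgroup H) ⊔ M := by
            have := mul_mem (Subgroup.mem_sup_left (T := M) (inv_mem hu))
              (Subgroup.mem_sup_right (S := (P : Subgroup H)) (show u * g ^ n ∈ M from hb))
            simpa using this
          have h3 : g ^ n.natAbs ∈ (P : Subgroup H) ⊔ M := by
            rcases Int.natAbs_eq n with he | he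
            · rw [← zpow_natCast, ← he]; exact h2
            · rw [← zpow_natCast, ← inv_mem_iff, ← zpow_neg, ← he]; exact h2
          apply H8.mem_of_pow_mem_of_coprime _ h3
          rw [hd.order]
          exact (hd.prime.coprime_iff_not_dvd.2 fun hh => hqn (Int.natCast_dvd.2 hh)).pow_left k
        apply hPZ
        rw [← hd.commutator_eq, Subgroup.commutator_le]
        intro a ha y hy
        have h2 : y ∈ (P : Subgroup H) ⊔ M := (Subgroup.zpowers_le.2 h1) hy
        rw [← SetLike.mem_coe, Subgroup.normal_mul] at h2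
        obtain ⟨v, hv, m, hm, rfl⟩ := h2
        have h3 : a * (v * m) * a⁻¹ * (v * m)⁻¹ =
            (a * v * a⁻¹ * v⁻¹) * (v * (a * m * a⁻¹ * m⁻¹) * v⁻¹) := by group
        change a * (v * m) * a⁻¹ * (v * m)⁻¹ ∈ _
        rw [h3]
        refine mul_mem (hd.commutatorElement_mem_center ha hv)
          ((inferInstance : (Subgroup.center H).Normal).conj_mem _ (hMP (Subgroup.mem_inf.2 ⟨?_, ?_⟩)) v)
        · exact mul_mem ((inferInstance : M.Normal).conj_mem _ hm a) (inv_mem hm)
        · have := mul_mem ha (this.conj_mem _ (inv_mem ha) m)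
          simpa [mul_assoc] using this
    obtain ⟨y, hy⟩ := h H (Subgroup.center H) hcore
    obtain ⟨a, b, ha, hb, hab, hcomm, ⟨i, hi⟩, hbp⟩ := H8.exists_pPart_pPrimePart hp y
    have haP : a ∈ (P : Subgroup H).map π := by
      have h1 : ((P.mapSurjective hs : Sylow p (H ⧸ Subgroup.center H)) :
          Subgroup (H ⧸ Subgroup.center H)).Normal :=
        Subgroup.Normal.map this π hs
      obtain ⟨Q, hQ⟩ := (H8.isPGroup_zpowers_of_orderOf hi).exists_le_sylow
      have := Sylow.unique_of_normal _ h1
      have h2 : Q = P.mapSurjective hs := Subsingleton.elim _ _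
      rw [h2] at hQ
      exact hQ (Subgroup.mem_zpowers a)
    by_cases ha1 : a = 1
    · apply hxp
      rw [ha1, one_mul] at hab
      rw [← hab, hy] at hbp
      exact Nat.Coprime.coprime_dvd_left (Monoid.order_dvd_exponent _) hbp
    obtain ⟨a, haP, rfl⟩ := haP
    set C := Subgroup.centralizer ({π a} : Set (H ⧸ Subgroup.center H)) with hC
    have hmemC : ∀ y : H, π y ∈ C ↔ a * y * a⁻¹ * y⁻¹ ∈ Subgroup.center H := by
      intro y
      rw [Subgroup.mem_centralizer_singleton_iff, ← hone]
      simp only [map_mul, map_inv, mul_inv_eq_iff_eq_mul, one_mul]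
      exact eq_comm
    have hCn : C.Normal := by
      apply Subgroup.Normal.of_commutator_le
      rw [commutator_def, ← Subgroup.map_top_of_surjective _ hs, ← Subgroup.map_commutator,
        ← commutator_def, hd.commutator_eq_sylow]
      rintro _ ⟨y, hy, rfl⟩
      exact (hmemC y).2 (hd.commutatorElement_mem_center haP hy)
    have hCt : C ≠ ⊤ := by
      intro hCt
      let X : Subgroup H := (P : Subgroup H) ⊓ (Subgroup.center _).comap π
      have hX : X < P := by
        refine lt_of_le_of_ne inf_le_left fun he => hPZ ?_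
        rw [← hd.commutator_eq, Subgroup.commutator_le]
        intro u hu y _
        have h1 : π u ∈ Subgroup.center _ := (he.ge hu).2
        rw [← hone, map_commutatorElement, commutatorElement_eq_one_iff_mul_comm]
        exact (Subgroup.mem_center_iff.1 h1 _).symm
      apply ha1
      rw [hone]
      refine hd.le_center X hX ⟨haP, ?_⟩
      change π a ∈ Subgroup.center _
      rw [Subgroup.mem_center_iff]
      intro z
      exact Subgroup.mem_centralizer_singleton_iff.1 (hCt ▸ Subgroup.mem_top z : z ∈ C)
    have hbC : b ∈ C := Subgroup.mem_centralizer_singleton_iff.2 hcomm.symm.eq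
    have hb1 : b = 1 := by
      have h1 := H8.hasNPC_iff_forall_mem_pPrimeCore.1 (hprop C hCt) ⟨b, hbC⟩ (by simpa using hbp)
      have h2 : b ∈ (pPrimeCore p C).map C.subtype := ⟨_, h1, rfl⟩
      rw [L.map_subtype_pPrimeCore hp, hcore] at h2
      exact h2.1
    rw [hb1, mul_one] at hab
    rw [hab, hi] at hy
    apply hd.not_mem
    have h1 : π g = 1 := by
      rw [← orderOf_eq_one_iff]
      exact Nat.eq_one_of_dvd_coprimes (hd.coprime.pow_right i) (orderOf_map_dvd π g)
        (hy ▸ Monoid.order_dvd_exponent _)
    exact fun z _ => Subgroup.mem_center_iff.1 ((hone g).1 h1) z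

end Cfsg.Agent.S4238
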