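import Cfsg.Statements.S4241
import Cfsg.Agent.P20.R0
import Cfsg.Agent.P20.R1
import Cfsg.Agent.P20.Core
import Cfsg.Agent.P20.C1
import Cfsg.Agent.P20.C2
import Cfsg.Agent.P20.C3
import Cfsg.Agent.P20.Cnt
import Cfsg.Agent.P20.D1
import Cfsg.Agent.P20.D2
import Cfsg.Agent.P20.D3

set_option autoImplicit false
open Cfsg

namespace Cfsg.Agent.S4241

/-- Let a finite group A act by automorphisms on a finite group G of order coprime to that of A, and let p be a prime dividing the order of G. If every maximal A-invariant proper subgroup of G whose order is divisible by p is nilpotent, then G is solvable. -/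
theorem result {A G : Type*} [Group A] [Group G] [Finite A] [Finite G] [MulDistribMulAction A G]
    (hcop : (Nat.card A).Coprime (Nat.card G)) (p : ℕ) (hp : p.Prime) (hpG : p ∣ Nat.card G)
    (hmax : ∀ H : Subgroup G, H ≠ ⊤ → (∀ a : A, ∀ x ∈ H, a • x ∈ H) →
      (∀ K : Subgroup G, H < K → (∀ a : A, ∀ x ∈ K, a • x ∈ K) → K = ⊤) → p ∣ Nat.card H → Group.IsNilpotent H) :
    Group.IsSolvable G :=
  P20.app (MulDistribMulAction.toMulAut A G)
    (P20.intStmt (P20.r1Stmt (P20.coreStmt (P20.c1Stmt (P20.diStmt (P20.d2aStmt P20.d1Stmt)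
      (P20.d2bStmt P20.d1Stmt))) P20.c2Stmt (P20.c3Stmt P20.cntStmt))) _) hcop p hp hpG hmax

end Cfsg.Agent.S4241
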