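import Cfsg.Statements.S4242
import Cfsg.Agent.H8.Schmidt
import Cfsg.Agent.H2.Radical
import Cfsg.Agent.H5.Kegel

set_option autoImplicit false
open Cfsg

namespace Cfsg.Agent.S4242

/-- Let G be a finite group and p a prime dividing its order. Every maximal subgroup of G of order divisible by p is nilpotent if and only if G is nilpotent, or G is a minimal non-nilpotent group, or G is the internal direct product of a normal subgroup of order p and a normal minimal non-nilpotent subgroup of order prime to p. -/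
theorem result {G : Type*} [Group G] [Finite G] (p : ℕ) (hp : p.Prime) (hpG : p ∣ Nat.card G) :
    (∀ M : Subgroup G, IsCoatom M → p ∣ Nat.card M → Group.IsNilpotent M) ↔
      (Group.IsNilpotent G ∨ Cfsg.IsMinimalNonNilpotent G ∨
        ∃ Z K : Subgroup G, Z.Normal ∧ K.Normal ∧ Z ⊓ K = ⊥ ∧ Z ⊔ K = ⊤ ∧ Nat.card Z = p ∧
          Cfsg.IsMinimalNonNilpotent K ∧ ¬ p ∣ Nat.card K) := by
  have := Fact.mk hp
  constructor
  · intro h
    have h' : ∀ H : Subgroup G, H ≠ ⊤ → p ∣ Nat.card H → Group.IsNilpotent H := by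
      intro H hH hd
      obtain ⟨M, hM, hHM⟩ := (eq_top_or_exists_le_coatom H).resolve_left hH
      have := h M hM (hd.trans (Subgroup.card_dvd_of_le hHM))
      exact L.isNilpotent_of_le hHM
    by_cases hall : ∀ M : Subgroup G, IsCoatom M → Group.IsNilpotent M
    · by_cases hn : Group.IsNilpotent G
      · exact Or.inl hn
      refine Or.inr (Or.inl ⟨hn, fun H hH => ?_⟩)
      obtain ⟨M, hM, hHM⟩ := (eq_top_or_exists_le_coatom H).resolve_left hH
      have := hall M hM
      exact L.isNilpotent_of_le hHM
    push Not at hall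
    obtain ⟨M, hM, hMn⟩ := hall
    have hpM : ¬ p ∣ Nat.card M := fun hd => hMn (h M hM hd)
    have hcM : (Nat.card M).Coprime p := (hp.coprime_iff_not_dvd.2 hpM).symm
    have hcent : ∀ X L : Subgroup G, IsPGroup p X → X ≠ ⊥ → L ≤ M → X ⊔ L ≠ ⊤ →
        Group.IsNilpotent L ∧ L ≤ Subgroup.centralizer (X : Set G) := by
      intro X L hX hXb hL hne
      have hd : p ∣ Nat.card X := hX.card_eq_or_dvd.resolve_left fun h1 =>
        hXb (Subgroup.card_eq_one.1 h1)
      have := h' _ hne (hd.trans (Subgroup.card_dvd_of_le le_sup_left))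
      refine ⟨Cfsg.Agent.L.isNilpotent_of_le (le_sup_right : L ≤ X ⊔ L), fun y hy => ?_⟩
      obtain ⟨S, hS1, hS2, hS3, hS4⟩ := H1.exists_sylow_of_le (le_sup_left : X ≤ X ⊔ L) hX
      have hSn : (S.subgroupOf (X ⊔ L)).Normal := by
        have h1 : IsPGroup p (S.subgroupOf (X ⊔ L)) := hS3.comap_subtype
        exact (inferInstance : ((h1.toSylow hS4 : Sylow p ↥(X ⊔ L)) : Subgroup ↥(X ⊔ L)).Normal)
      have h2 := H8.mem_centralizer_of_hasNPC_subgroup (H8.hasNPC_of_isNilpotent p) hS3 hS2
        (Subgroup.mem_sup_right hy) (Subgroup.le_normalizer_of_normal_subgroupOf hS2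
          (Subgroup.mem_sup_right hy))
        (Nat.Coprime.coprime_dvd_left (Subgroup.orderOf_dvd_natCard _ (hL hy)) hcM)
      exact Subgroup.centralizer_le hS1 h2
    have hcore : pCore p G ≠ ⊥ := by
      intro hb
      have h1 : HasNormalPComplement p G := by
        apply H8.hasNPC_of_normalizers'
        intro X hX hXb
        have hd : p ∣ Nat.card X := hX.card_eq_or_dvd.resolve_left fun h1 =>
          hXb (Subgroup.card_eq_one.1 h1)
        have := h' (Subgroup.normalizer (X : Set G)) (fun he => hXb (le_bot_iff.1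
          (hb ▸ L.le_pCore (Subgroup.normalizer_eq_top_iff.1 he) hX)))
          (hd.trans (Subgroup.card_dvd_of_le Subgroup.le_normalizer))
        exact H8.hasNPC_of_isNilpotent p
      have h2 := H8.hasNPC_iff_not_dvd_pResidual.1 h1
      have h3 : M = pResidual p G := by
        refine ((hM.le_iff_eq fun he => h2 ?_).1 fun x hx => H8.mem_pResidual_of_coprime
          (Nat.Coprime.coprime_dvd_left (Subgroup.orderOf_dvd_natCard _ hx) hcM)).symm
        rw [he, Subgroup.card_top]; exact hpG
      have hMnorm : M.Normal := h3 ▸ inferInstance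
      obtain ⟨P⟩ : Nonempty (Sylow p G) := inferInstance
      have hPb := P.ne_bot_of_dvd_card hpG
      obtain ⟨m, hm⟩ := IsPGroup.iff_card.1 P.isPGroup'
      have hcop : (Nat.card P).Coprime (Nat.card M) := by rw [hm]; exact hcM.symm.pow_left m
      have h4 : M ≤ Subgroup.centralizer ((P : Subgroup G) : Set G) := by
        apply H5.le_of_forall_prime_exists
        intro q hq
        have := Fact.mk hq
        have := P.isPGroup'.isNilpotent
        obtain ⟨Q, hQ1, hQ2, hQ3, hQ4⟩ := H1.exists_invariant_sylow (A := (P : Subgroup G)) (G := M)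
          Subgroup.le_normalizer_of_normal hcop (Or.inl inferInstance) q
        refine ⟨Q, (hcent P Q P.isPGroup' hPb hQ1 fun he => hMn ?_).2, hQ3⟩
        have h5 := H1.dedekind_right hQ4 hQ1
        rw [he, inf_top_eq, (Subgroup.disjoint_of_coprime_natCard hcop.symm).eq_bot,
          bot_sup_eq] at h5
        rw [h5]
        exact hQ2.isNilpotent
      have h5 : (P : Subgroup G).Normal := by
        rw [← Subgroup.normalizer_eq_top_iff, eq_top_iff, ← H8.sylow_sup_pResidual P, ← h3]
        exact sup_le Subgroup.le_normalizer (h4.trans (Subgroup.centralizer_le_normalizer _))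
      exact hPb (le_bot_iff.1 (hb ▸ L.le_pCore h5 P.isPGroup'))
    set Z := pCore p G with hZ
    have hZp : IsPGroup p Z := L.isPGroup_pCore p
    obtain ⟨m, hm⟩ := IsPGroup.iff_card.1 hZp
    have hcop : (Nat.card Z).Coprime (Nat.card M) := by rw [hm]; exact hcM.symm.pow_left m
    have hdis : Z ⊓ M = ⊥ := (Subgroup.disjoint_of_coprime_natCard hcop).eq_bot
    have hsup : ∀ Y : Subgroup G, Y ≤ Z → Y ≠ ⊥ → Y ⊔ M = ⊤ := by
      intro Y hY hYb
      apply hM.2
      refine lt_of_le_of_ne le_sup_right fun he => hYb ?_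
      rw [eq_bot_iff, ← hdis]
      exact le_inf hY (he ▸ le_sup_left)
    have hprop : ∀ L : Subgroup G, L < M → Z ⊔ L ≠ ⊤ := by
      intro L hL he
      have h5 := H1.dedekind_left (A := L) (N := Z) Subgroup.le_normalizer_of_normal hL.le
      rw [sup_comm L Z, he, inf_top_eq, inf_comm, hdis, sup_bot_eq] at h5
      exact hL.ne h5.symm
    have hMZ : M ≤ Subgroup.centralizer (Z : Set G) := by
      intro x hx
      refine (hcent Z (Subgroup.zpowers x) hZp hcore (Subgroup.zpowers_le.2 hx)
        (hprop _ (lt_of_le_of_ne (Subgroup.zpowers_le.2 hx) fun he => hMn ?_))).2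
        (Subgroup.mem_zpowers x)
      rw [← he]
      exact L.isNilpotent_of_isMulCommutative _
    have hMnorm : M.Normal := by
      rw [← Subgroup.normalizer_eq_top_iff, eq_top_iff, ← hsup Z le_rfl hcore]
      exact sup_le ((Subgroup.le_centralizer_iff.1 hMZ).trans
        (Subgroup.centralizer_le_normalizer _)) Subgroup.le_normalizer
    refine Or.inr (Or.inr ⟨Z, M, inferInstance, hMnorm, hdis, hsup Z le_rfl hcore, ?_,
      ⟨hMn, fun L hL => ?_⟩, hpM⟩)
    · have hd : p ∣ Nat.card Z := hZp.card_eq_or_dvd.resolve_left fun h1 =>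
        hcore (Subgroup.card_eq_one.1 h1)
      obtain ⟨z, hz⟩ := exists_prime_orderOf_dvd_card' p hd
      have hz' : orderOf (z : G) = p := by rw [Subgroup.orderOf_coe, hz]
      have h1 : Subgroup.zpowers (z : G) ≠ ⊥ := by
        rw [Ne, Subgroup.zpowers_eq_bot]
        intro h1
        rw [h1, orderOf_one] at hz'
        exact hp.ne_one hz'.symm
      have h2 := H1.dedekind_left (A := Subgroup.zpowers (z : G)) (N := M) (S := Z)
        Subgroup.le_normalizer_of_normal (Subgroup.zpowers_le.2 z.2)
      rw [hsup _ (Subgroup.zpowers_le.2 z.2) h1, inf_top_eq, hdis, sup_bot_eq] at h2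
      rw [h2, Nat.card_zpowers, hz']
    · have := (hcent Z (L.map M.subtype) hZp hcore (Subgroup.map_subtype_le _)
        (hprop _ (H8.map_subtype_lt hL))).1
      exact Group.nilpotent_of_mulEquiv (L.equivMapOfInjective _ M.subtype_injective).symm
  · rintro (h | h | ⟨Z, K, hZ, hK, hdis, hsup, hcard, hmin, hpK⟩) M hM hd
    · infer_instance
    · exact h.2 M hM.1
    have hZM : Z ≤ M := by
      apply L.le_of_isPiSubgroup_of_index (π := {p})
      · rw [L.isPiSubgroup_singleton_iff hp]
        exact IsPGroup.of_card (n := 1) (by rw [hcard, pow_one])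
      · intro q _ hq hqd
        rw [Set.mem_singleton_iff] at hq
        subst hq
        have h1 := L.card_mul_card_eq_card_sup_mul_card_inf Z K Subgroup.le_normalizer_of_normal
        rw [hsup, hdis, Subgroup.card_top, Subgroup.card_bot, mul_one, hcard,
          ← M.card_mul_index] at h1
        have h2 : q * q ∣ q * Nat.card K := h1 ▸ Nat.mul_dvd_mul hd hqd
        exact hpK (Nat.dvd_of_mul_dvd_mul_left hp.pos h2)
    have h1 := H1.dedekind_left (A := Z) (N := K) Subgroup.le_normalizer_of_normal hZM
    rw [hsup, inf_top_eq] at h1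
    have h2 : (M ⊓ K).subgroupOf K ≠ ⊤ := by
      rw [Ne, Subgroup.subgroupOf_eq_top]
      intro hle
      exact hM.1 (top_le_iff.1 (hsup ▸ sup_le hZM (hle.trans inf_le_left)))
    have h3 := hmin.2 _ h2
    have h4 : Group.IsNilpotent (M ⊓ K : Subgroup G) :=
      Group.nilpotent_of_mulEquiv (Subgroup.subgroupOfEquivOfLe inf_le_right)
    rw [h1]
    refine H2.isNilpotent_sup_of_le_normalizer ?_ Subgroup.le_normalizer_of_normal
      (IsPGroup.isNilpotent (IsPGroup.of_card (n := 1) (by rw [hcard, pow_one]))) h4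
    exact ((L.le_centralizer_of_normal_of_inf_eq_bot hdis).trans
      (Subgroup.centralizer_le inf_le_right)).trans (Subgroup.centralizer_le_normalizer _)

end Cfsg.Agent.S4242
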