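import Cfsg.Statements.S4244
import Cfsg.Agent.H2.Radical

set_option autoImplicit false
open Cfsg

namespace Cfsg.Agent.S4244

open Subgroup

/-- Let H be a subnormal subgroup of a finite group G. Then for every subgroup K of G the index of H ∩ K in H divides the index of K in G. -/
theorem result {G : Type*} [Group G] [Finite G] (H : Subgroup G) (hH : H.IsSubnormal) (K : Subgroup G) :
    (H ⊓ K).relIndex H ∣ K.index := by
  have h := H2.snIn_top_iff.2 hH
  suffices key : K.relIndex H ∣ K.relIndex ⊤ by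
    rwa [relIndex_top_right, ← inf_relIndex_left] at key
  induction h with
  | refl => exact dvd_rfl
  | step A B hAB hn hB ih =>
    refine dvd_trans ?_ (ih (H2.snIn_top_iff.1 hB))
    have h1 : K ⊓ B ≤ normalizer (A : Set G) := inf_le_right.trans hn
    have h2 := H1.card_sup_mul_card_inf h1
    have h3 := H1.card_inf_mul_relIndex K A
    have h4 := H1.card_inf_mul_relIndex K B
    have h5 := H1.card_mul_relIndex (sup_le inf_le_right hAB : (K ⊓ B) ⊔ A ≤ B)
    rw [inf_assoc, inf_eq_right.2 hAB] at h2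
    refine ⟨((K ⊓ B) ⊔ A).relIndex B, ?_⟩
    have p1 : 0 < Nat.card (K ⊓ A : Subgroup G) := Nat.card_pos
    have p2 : 0 < Nat.card (K ⊓ B : Subgroup G) := Nat.card_pos
    apply Nat.eq_of_mul_eq_mul_left (Nat.mul_pos p1 p2)
    calc _ = Nat.card (K ⊓ A : Subgroup G) * Nat.card B := by rw [mul_assoc, h4]
      _ = (Nat.card ((K ⊓ B) ⊔ A : Subgroup G) * Nat.card (K ⊓ A : Subgroup G)) *
            ((K ⊓ B) ⊔ A).relIndex B := by rw [← h5]; ring
      _ = _ := by rw [h2, ← h3]; ring

end Cfsg.Agent.S4244
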