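import Cfsg.Statements.S4245
import Cfsg.Agent.H8.Pronormal
import Cfsg.Agent.H6.Burnside

set_option autoImplicit false
open Cfsg

namespace Cfsg.Agent.S4245

/-- cyclic-by-(cyclic `2`-group) -/
def Q (A : Type*) [Group A] : Prop :=
  ∃ (B : Subgroup A) (_ : B.Normal), IsCyclic B ∧ IsCyclic (A ⧸ B) ∧ IsPGroup 2 (A ⧸ B)

theorem Q.of_injective {A A' : Type*} [Group A] [Group A'] (h : Q A) (f : A' →* A)
    (hf : Function.Injective f) : Q A' := by
  obtain ⟨B, hB, h1, h2, h3⟩ := h
  have hi : Function.Injective (QuotientGroup.map (B.comap f) B f le_rfl) := by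
    rw [← MonoidHom.ker_eq_bot_iff, QuotientGroup.ker_map]
    exact QuotientGroup.map_mk'_self _
  exact ⟨B.comap f, inferInstance, isCyclic_of_injective (f.subgroupComap B)
    (fun a b hab => Subtype.ext (hf (congrArg Subtype.val hab))), isCyclic_of_injective _ hi,
    h3.of_injective _ hi⟩

theorem Q.of_surjective {A A' : Type*} [Group A] [Group A'] (h : Q A) (f : A →* A')
    (hf : Function.Surjective f) : Q A' := by
  obtain ⟨B, hB, h1, h2, h3⟩ := h
  have hn := hB.map f hf
  have hs : Function.Surjective (QuotientGroup.map B (B.map f) f (Subgroup.le_comap_map f B)) :=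
    QuotientGroup.map_surjective_of_surjective B (B.map f) f
      (QuotientGroup.mk_surjective.comp hf) _
  exact ⟨B.map f, hn, isCyclic_of_surjective _ (f.subgroupMap_surjective B),
    isCyclic_of_surjective _ hs, h3.of_surjective _ hs⟩

open Subgroup in
theorem simple_case {G : Type*} [Group G] [Finite G] [IsSimpleGroup G] (A : Subgroup G) {p s : ℕ}
    (hp : p.Prime) (hA : A.index = p ^ s) (h : Q A) : Group.IsSolvable G := by
  by_contra hsol
  have hna : ¬ IsMulCommutative G := fun hc =>
    hsol (Group.isSolvable_of_comm fun a b => hc.is_comm.comm a b)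
  have key : ∀ (q k : ℕ), q.Prime → ∀ X : Subgroup G, X.index = q ^ k → ∀ g : G,
      X ≤ centralizer {g} → g = 1 := by
    intro q k hq X hX g hg
    obtain ⟨j, -, hj⟩ := (Nat.dvd_prime_pow hq).1 (hX ▸ index_dvd_of_le hg)
    exact H6.eq_one_of_isSimpleGroup_of_index_centralizer hna hq hj
  have key2 : ∀ (q k : ℕ), q.Prime → ∀ X : Subgroup G, X.index = q ^ k → ¬ IsCyclic X := by
    intro q k hq X hX hc
    have h1 : X = ⊥ := by
      rw [eq_bot_iff]
      intro g hg
      refine key q k hq X hX g fun y hy => mem_centralizer_singleton_iff.2 ?_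
      exact congrArg Subtype.val (hc.isMulCommutative.is_comm.comm (⟨y, hy⟩ : X) ⟨g, hg⟩)
    rw [h1, index_bot] at hX
    have := Fact.mk hq
    have := (IsPGroup.of_card hX).isNilpotent
    exact hsol inferInstance
  obtain ⟨B, hB, h1, h2, h3⟩ := h
  obtain ⟨r, hr⟩ := IsPGroup.iff_card.1 h3
  have hBc : IsCyclic (B.map A.subtype) := isCyclic_of_surjective _ (A.subtype.subgroupMap_surjective B)
  have hBi : (B.map A.subtype).index = 2 ^ r * p ^ s := by rw [index_map_subtype, hA, ← hr]; rfl
  by_cases hp2 : p = 2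
  · subst hp2
    exact key2 2 (r + s) hp _ (by rw [hBi, pow_add]) hBc
  have hodd : ¬ 2 ∣ Nat.card B := by
    intro hd
    obtain ⟨t, ht⟩ := exists_prime_orderOf_dvd_card' 2 hd
    have h4 : ((t : A) : G) = 1 := by
      refine key p s hp A hA _ fun a ha => mem_centralizer_singleton_iff.2 ?_
      let t' : B := ⟨⟨a, ha⟩ * t * (⟨a, ha⟩ : A)⁻¹, hB.conj_mem _ t.2 _⟩
      have ht' : orderOf t' = 2 := by
        rw [← ht, ← Subgroup.orderOf_coe, ← Subgroup.orderOf_coe t]
        exact (MulAut.conj (⟨a, ha⟩ : A)).orderOf_eq _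
      have hcard : Nat.card {x : B // orderOf x = 2} = 1 := by
        have := Fintype.ofFinite B
        classical
        have := IsCyclic.card_orderOf_eq_totient (α := B) (d := 2) (by simpa using hd)
        rw [Nat.totient_two] at this
        rw [Nat.card_eq_fintype_card, Fintype.card_subtype, this]
      have := (Nat.card_eq_one_iff_unique.1 hcard).1.elim ⟨t', ht'⟩ ⟨t, ht⟩
      have := congrArg (fun x : {x : B // orderOf x = 2} => ((x.1 : A) : G)) this
      simpa [t', mul_inv_eq_iff_eq_mul] using this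
    have h5 : t = 1 := Subtype.ext (Subtype.ext h4)
    rw [h5, orderOf_one] at ht
    omega
  by_cases h2G : 2 ∣ Nat.card G
  · obtain ⟨P, hP⟩ := (H8.exists_sylow_le_iff (p := 2) (K := A)).2 (by
      rw [hA]
      exact fun hd => hp2 ((Nat.prime_dvd_prime_iff_eq Nat.prime_two hp).1
        (Nat.prime_two.dvd_of_dvd_pow hd)).symm)
    have hPc : IsCyclic (P : Subgroup G) := by
      refine isCyclic_of_injective ((QuotientGroup.mk' B).comp (inclusion hP)) ?_
      rw [injective_iff_map_eq_one]
      intro x hx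
      have h4 : inclusion hP x ∈ B := (QuotientGroup.eq_one_iff _).1 hx
      obtain ⟨k, hk⟩ := H8.exists_orderOf_eq_pow_of_mem P.isPGroup' x.2
      have h5 := Subgroup.orderOf_dvd_natCard B h4
      rw [← Subgroup.orderOf_coe] at h5
      exact Subtype.ext (H8.eq_one_of_orderOf_pow_of_coprime hk (Nat.Coprime.coprime_dvd_left h5
        (Nat.prime_two.coprime_iff_not_dvd.2 hodd).symm))
    have h4 := H8.hasNPC_iff_not_dvd_pResidual.1
      (H8.hasNPC_of_isCyclic_minFac ((Nat.minFac_eq_two_iff _).2 h2G) P hPc)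
    rcases (inferInstance : (Cfsg.pResidual 2 G).Normal).eq_bot_or_eq_top with h5 | h5
    · have := ((H8.pResidual_eq_bot_iff Nat.prime_two).1 h5).isNilpotent
      exact hsol inferInstance
    · rw [h5, card_top] at h4
      exact h4 h2G
  · have h4 : r = 0 := by
      by_contra hne
      exact h2G (((dvd_pow_self 2 hne).mul_right _).trans (hBi ▸ index_dvd_card _))
    exact key2 p s hp _ (by rw [hBi, h4, pow_zero, one_mul]) hBc

universe u in
open Subgroup in
theorem main {G : Type u} [Group G] [Finite G] (A : Subgroup G) {p s : ℕ}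
    (hp : p.Prime) (hA : A.index = p ^ s) (h : Q A) : Group.IsSolvable G := by
  induction hn : Nat.card G using Nat.strong_induction_on generalizing G s with
  | _ n ih =>
  subst hn
  rcases subsingleton_or_nontrivial G with hG | hG
  · infer_instance
  by_cases hs : IsSimpleGroup G
  · exact simple_case A hp hA h
  obtain ⟨N, hN, h1, h2⟩ : ∃ N : Subgroup G, N.Normal ∧ N ≠ ⊥ ∧ N ≠ ⊤ := by
    by_contra hc
    push Not at hc
    exact hs ⟨fun N hN => or_iff_not_imp_left.2 (hc N hN)⟩
  obtain ⟨i, -, hi⟩ := (Nat.dvd_prime_pow hp).1 (hA ▸ H8.relIndex_dvd_index_of_normal_right A N)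
  obtain ⟨j, -, hj⟩ := (Nat.dvd_prime_pow hp).1
    (hA ▸ index_map_dvd A (QuotientGroup.mk'_surjective N))
  have s1 : Group.IsSolvable N := ih _ (by
      have := H8.card_lt_of_lt (lt_top_iff_ne_top.2 h2)
      rwa [card_top] at this) (A.subgroupOf N) hi
    (h.of_injective (N.subtype.subgroupComap A)
      fun a b hab => Subtype.ext (Subtype.ext (congrArg (fun x : A => (x : G)) hab))) rfl
  have s2 : Group.IsSolvable (G ⧸ N) := ih _ (by
      have h3 := N.card_mul_index
      have h4 : 1 < Nat.card N := (one_lt_card_iff_ne_bot N).2 h1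
      have h5 : 0 < N.index := Nat.pos_of_ne_zero index_ne_zero_of_finite
      change N.index < _
      nlinarith) (A.map (QuotientGroup.mk' N)) hj
    (h.of_surjective _ ((QuotientGroup.mk' N).subgroupMap_surjective A)) rfl
  exact Group.isSolvable_of_ker_le_range N.subtype (QuotientGroup.mk' N) (by simp)

/-- Let G be a finite group with a subgroup A of prime-power index. Suppose A has a normal cyclic subgroup B such that A/B is cyclic of order a power of 2. Then G is solvable. -/
theorem result {G : Type*} [Group G] [Finite G] (A : Subgroup G) (p s : ℕ) (hp : p.Prime) (hA : A.index = p ^ s)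
    (B : Subgroup A) [B.Normal] (hB : IsCyclic B) (hAB : IsCyclic (A ⧸ B)) (r : ℕ) (hr : Nat.card (A ⧸ B) = 2 ^ r) :
    Group.IsSolvable G := by
  exact main A hp hA ⟨B, inferInstance, hB, hAB, IsPGroup.of_card hr⟩

end Cfsg.Agent.S4245
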