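import Cfsg.Statements.S4248
import Cfsg.Agent.H5.Part6

set_option autoImplicit false
open Cfsg

namespace Cfsg.Agent.S4248

/-- Let G be a finite group admitting a nontrivial partition: a family of at least two nontrivial subgroups such that every non-identity element of G lies in exactly one member. Then G is isomorphic to the symmetric group of degree 4; or, for some prime p, the Hughes subgroup generated by the elements g with g^p ≠ 1 is proper (G a p-group or a group of Hughes–Thompson type); or G is a Frobenius group; or G is isomorphic to PSL(2, q) with q ≥ 4, to PGL(2, q) with q ≥ 5 odd, or to a Suzuki group. -/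
theorem result {G : Type*} [Group G] [Finite G] (S : Set (Subgroup G)) (hS2 : ∃ H ∈ S, ∃ K ∈ S, H ≠ K)
    (hS1 : ∀ H ∈ S, H ≠ ⊥) (hpart : ∀ g : G, g ≠ 1 → ∃! H : Subgroup G, H ∈ S ∧ g ∈ H) :
    Nonempty (G ≃* Equiv.Perm (Fin 4)) ∨
    (∃ p : ℕ, p.Prime ∧ Subgroup.closure {g : G | g ^ p ≠ 1} ≠ ⊤) ∨
    (∃ H : Subgroup G, Cfsg.IsFrobeniusComplement H) ∨
    (∃ (F : Type) (_ : Field F) (_ : Fintype F), 4 ≤ Fintype.card F ∧
        Nonempty (G ≃* Matrix.ProjectiveSpecialLinearGroup (Fin 2) F)) ∨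
    (∃ (F : Type) (_ : Field F) (_ : Fintype F), 5 ≤ Fintype.card F ∧ Odd (Fintype.card F) ∧
        Nonempty (G ≃* (GL (Fin 2) F ⧸ Subgroup.center (GL (Fin 2) F)))) ∨
    Cfsg.Lie.IsoSuzuki G := by
  classical
  obtain ⟨H, hH, K, hK, hHK⟩ := hS2
  have key : ∀ L ∈ S, ∀ y : G, y ≠ 1 → y ∈ L → ∀ L' ∈ S, y ∈ L' → L = L' :=
    fun L hL y hy h L' hL' h' => (hpart y hy).unique ⟨hL, h⟩ ⟨hL', h'⟩
  have hex : ∀ L ∈ S, ∃ y ∈ L, y ≠ 1 := fun L hL => by
    obtain ⟨⟨y, hy⟩, h1⟩ := Subgroup.ne_bot_iff_exists_ne_one.1 (hS1 L hL)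
    exact ⟨y, hy, fun e => h1 (Subtype.ext e)⟩
  obtain ⟨a, ha, ha1⟩ := hex H hH
  obtain ⟨b, hb, hb1⟩ := hex K hK
  have : Nontrivial G := ⟨⟨a, 1, ha1⟩⟩
  have hd : ∀ x : G, ∃ L : Subgroup G, x ∈ L ∧ (x ≠ 1 → L ∈ S) := fun x => by
    by_cases hx : x = 1
    · exact ⟨⊤, trivial, fun h => absurd hx h⟩
    · obtain ⟨L, hL, -⟩ := hpart x hx
      exact ⟨L, hL.2, fun _ => hL.1⟩
  choose d hd1 hd2 using hd
  have h := H5.partition_classification (d := d) ⟨hd1, fun x y hx hy h =>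
    key _ (hd2 y hy) y hy (hd1 y) _ (hd2 x hx) h⟩ fun x hx e => hHK
      ((key _ hH a ha1 ha _ (hd2 x hx) (e ▸ Subgroup.mem_top a)).trans
        (key _ hK b hb1 hb _ (hd2 x hx) (e ▸ Subgroup.mem_top b)).symm)
  exact h.imp_right (Or.imp_right (Or.imp_right fun h => h.1))

end Cfsg.Agent.S4248
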