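import Cfsg.Statements.S4249
import Cfsg.Agent.H5.Kegel
import Cfsg.Agent.H5.NilpMax
import Cfsg.Agent.H9.FrobCompl

set_option autoImplicit false
open Cfsg

namespace Cfsg.Agent.S4249

open Subgroup in
theorem normal_hughes {G : Type*} [Group G] (p : ℕ) :
    (Subgroup.closure {g : G | g ^ p ≠ 1}).Normal := by
  have h : Subgroup.closure {g : G | g ^ p ≠ 1} = normalClosure {g : G | g ^ p ≠ 1} := by
    apply le_antisymm closure_le_normalClosure
    unfold normalClosure
    apply Subgroup.closure_mono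
    intro x hx
    obtain ⟨a, ha, hc⟩ := Group.mem_conjugatesOfSet_iff.1 hx
    obtain ⟨c, rfl⟩ := isConj_iff.1 hc
    intro h1
    apply ha
    rwa [conj_pow, H9.conj_eq_one_iff] at h1
  rw [h]
  infer_instance

/-- Let G be a finite group and p a prime such that G is not a p-group, and suppose the Hughes subgroup H_p(G), generated by all elements g with g^p ≠ 1, is a proper subgroup. Then H_p(G) is nilpotent and has index p in G. -/
theorem result {G : Type*} [Group G] [Finite G] (p : ℕ) (hp : p.Prime) (hG : ¬ IsPGroup p G)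
    (hH : Subgroup.closure {g : G | g ^ p ≠ 1} ≠ ⊤) :
    Group.IsNilpotent (Subgroup.closure {g : G | g ^ p ≠ 1}) ∧ (Subgroup.closure {g : G | g ^ p ≠ 1}).index = p := by
  have := Fact.mk hp
  set H := Subgroup.closure {g : G | g ^ p ≠ 1} with hHdef
  have hn : H.Normal := normal_hughes p
  have hout : ∀ y : G, y ∉ H → y ^ p = 1 := fun y hy => by
    by_contra h
    exact hy (Subgroup.subset_closure h)
  obtain ⟨y, hy⟩ : ∃ y : G, y ∉ H := by
    by_contra h
    push Not at h
    exact hH ((Subgroup.eq_top_iff' H).2 h)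
  have hnil : Group.IsNilpotent H := H5.isNilpotent_of_coset_pow hp H y
    (by rw [Subgroup.normalizer_eq_top_iff.2 hn]; trivial)
    (fun g hg => hout _ fun h => hy ((H.mul_mem_cancel_left hg).1 h))
  refine ⟨hnil, ?_⟩
  have hQ : ∀ x : G ⧸ H, x ^ p = 1 := by
    intro x
    obtain ⟨g, rfl⟩ := QuotientGroup.mk'_surjective H x
    by_cases hg : g ∈ H
    · have : QuotientGroup.mk' H g = 1 := (QuotientGroup.eq_one_iff g).2 hg
      rw [this, one_pow]
    · rw [← map_pow, hout g hg, map_one]
  have hQp : IsPGroup p (G ⧸ H) := fun x => ⟨1, by rw [pow_one, hQ]⟩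
  -- a prime `q ≠ p` dividing the order of `H`
  obtain ⟨q, hq, hqp, hqd⟩ : ∃ q : ℕ, q.Prime ∧ q ≠ p ∧ q ∣ Nat.card H := by
    by_contra h
    push Not at h
    apply hG
    have h1 : IsPGroup p H := by
      rw [← L.isPiSubgroup_singleton_iff hp]
      intro q hq hd
      by_contra hne
      exact h q hq hne hd
    obtain ⟨a, ha⟩ := h1.exists_card_eq
    obtain ⟨b, hb⟩ := hQp.exists_card_eq
    exact IsPGroup.of_card (n := b + a) (by
      rw [Subgroup.card_eq_card_quotient_mul_card_subgroup H, ha, hb, pow_add])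
  have := Fact.mk hq
  obtain ⟨Q, hQH, hQq, hQi⟩ := H1.exists_sylow_le q H
  have hQb : Q ≠ ⊥ := by
    rintro rfl
    exact hQi (by rwa [Subgroup.relIndex_bot_left])
  have hHQ := H5.le_normalizer_sylow_of_isNilpotent hQH hQq hQi
  have hQn : Q.Normal := by
    rw [← Subgroup.normalizer_eq_top_iff, eq_top_iff]
    intro x _
    obtain ⟨g, hg, hgx⟩ := H1.frattini_argument hQH hQq hQi (x := x)
      (by rw [Subgroup.normalizer_eq_top_iff.2 hn]; trivial)
    exact (Subgroup.mul_mem_cancel_left _ (hHQ hg)).1 hgx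
  have hQnil := hQq.isNilpotent
  set V := H5.zOf Q with hV
  have hVb : V ≠ ⊥ := H5.zOf_ne_bot hQb
  have hHV : H ≤ Subgroup.centralizer (V : Set G) := by
    intro m hm
    obtain ⟨u, hu, w, -, hw, -, rfl⟩ := H5.exists_mul_centralizer_of_isNilpotent hQH hQq hQi hm
    exact mul_mem (H5.le_centralizer_zOf Q hu) (Subgroup.centralizer_le (H5.zOf_le Q) hw)
  let φ : G ⧸ H →* MulAut V := QuotientGroup.lift H (MulAut.conjNormal (H := V)) (by
    intro m hm
    rw [MonoidHom.mem_ker]
    ext v
    change m * v * m⁻¹ = v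
    rw [← hHV hm v v.2, mul_inv_cancel_right])
  have hφ : H9.IsFrobAction φ := by
    intro a ha v hv
    obtain ⟨g, rfl⟩ := QuotientGroup.mk'_surjective H a
    have hg : g ∉ H := fun h => ha ((QuotientGroup.eq_one_iff g).2 h)
    have h1 : g * v * g⁻¹ = v := congrArg Subtype.val hv
    have h2 : Commute (v : G) g := (mul_inv_eq_iff_eq_mul.1 h1).symm
    have hvH : (v : G) ∈ H := hQH (H5.zOf_le Q v.2)
    have h3 := hout ((v : G) * g) fun h => hg ((H.mul_mem_cancel_left hvH).1 h)
    rw [h2.mul_pow, hout g hg, mul_one] at h3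
    obtain ⟨k, hk⟩ := H8.exists_orderOf_eq_pow_of_mem hQq (H5.zOf_le Q v.2)
    exact Subtype.ext (H8.eq_one_of_orderOf_pow_of_coprime hk (Nat.Coprime.coprime_dvd_left
      (orderOf_dvd_of_pow_eq_one h3) ((Nat.coprime_primes hp hq).2 hqp.symm)))
  have : Nontrivial V := (Subgroup.nontrivial_iff_ne_bot V).2 hVb
  have hy1 : (QuotientGroup.mk' H y) ≠ 1 := fun h => hy ((QuotientGroup.eq_one_iff y).1 h)
  have hyo : orderOf (QuotientGroup.mk' H y) = p := orderOf_eq_prime (hQ _) hy1
  have htop : Subgroup.zpowers (QuotientGroup.mk' H y) = ⊤ := by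
    rw [eq_top_iff]
    intro b _
    exact hφ.mem_zpowers_of_isPGroup hp (hQp.to_subgroup ⊤) trivial trivial hyo (hQ b)
  rw [Subgroup.index, ← Subgroup.card_top, ← htop, Nat.card_zpowers, hyo]

end Cfsg.Agent.S4249
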