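import Cfsg.Statements.S4250
import Cfsg.Agent.H8.Frobenius

set_option autoImplicit false
open Cfsg

namespace Cfsg.Agent.S4250

/-- Let P be a Sylow p-subgroup of a finite group G. Call an intersection H = P ∩ Q with a Sylow p-subgroup Q tame when N_P(H) and N_Q(H) are Sylow p-subgroups of N_G(H). Then P ∩ G′ is generated by [P, N_G(P)] together with the commutator subgroups [P ∩ Q, ⟨x⟩] for all tame intersections P ∩ Q and all p-elements x of N_G(P ∩ Q). -/
theorem result {G : Type*} [Group G] [Finite G] (p : ℕ) [Fact p.Prime] (P : Sylow p G) :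
    (P : Subgroup G) ⊓ commutator G =
      ⁅(P : Subgroup G), Subgroup.normalizer ((P : Subgroup G) : Set G)⁆ ⊔
        ⨆ (Q : Sylow p G) (_ : (¬ p ∣ ((P : Subgroup G) ⊓ Subgroup.normalizer (((P : Subgroup G) ⊓ (Q : Subgroup G) : Subgroup G) : Set G)).relIndex (Subgroup.normalizer (((P : Subgroup G) ⊓ (Q : Subgroup G) : Subgroup G) : Set G)) ∧ ¬ p ∣ ((Q : Subgroup G) ⊓ Subgroup.normalizer (((P : Subgroup G) ⊓ (Q : Subgroup G) : Subgroup G) : Set G)).relIndex (Subgroup.normalizer (((P : Subgroup G) ⊓ (Q : Subgroup G) : Subgroup G) : Set G))))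
          (x : G) (_ : x ∈ Subgroup.normalizer (((P : Subgroup G) ⊓ (Q : Subgroup G) : Subgroup G) : Set G) ∧ ∃ k : ℕ, orderOf x = p ^ k),
          ⁅(P : Subgroup G) ⊓ (Q : Subgroup G), Subgroup.zpowers x⁆ := by
  rw [inf_comm, Subgroup.commutator_inf_eq_focalSubgroup]
  apply le_antisymm
  · set K := ⁅(P : Subgroup G), Subgroup.normalizer ((P : Subgroup G) : Set G)⁆ ⊔ _ with hK
    rw [Subgroup.focalSubgroup_def, Subgroup.closure_le]
    rintro _ ⟨hg, x, hx, u, rfl⟩
    have h3 : u * x * u⁻¹ ∈ (P : Subgroup G) := by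
      have : u * x * u⁻¹ = (x * u * x⁻¹ * u⁻¹)⁻¹ * x := by group
      rw [this]
      exact mul_mem (inv_mem hg) hx
    have := H8.alperin_induction P (fun D g => ∀ d ∈ D, d * g * d⁻¹ * g⁻¹ ∈ K)
      (fun D D' g hle h d hd => h d (hle hd))
      (fun D g k h1 h2 d hd => by
        have := K.mul_mem (h1 d hd) (h2 _ (H8.conj_mem_conj_smul g hd))
        convert this using 1
        group)
      (fun d _ => by simpa using K.one_mem)
      (fun Q _ hQ y hy1 hy2 d hd => by
        apply Subgroup.mem_sup_right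
        refine Subgroup.mem_iSup_of_mem Q (Subgroup.mem_iSup_of_mem hQ
          (Subgroup.mem_iSup_of_mem y (Subgroup.mem_iSup_of_mem ⟨hy1, hy2⟩ ?_)))
        exact Subgroup.commutator_mem_commutator hd (Subgroup.mem_zpowers y))
      (fun y hy d hd => Subgroup.mem_sup_left (Subgroup.commutator_mem_commutator hd hy))
      (Subgroup.zpowers x) ((Subgroup.zpowers_le).2 hx) u (by
        rw [H8.conj_smul_eq_map, MonoidHom.map_zpowers]; exact (Subgroup.zpowers_le).2 h3)
    exact this x (Subgroup.mem_zpowers x)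
  · rw [← Subgroup.commutator_inf_eq_focalSubgroup]
    refine le_inf (sup_le (Subgroup.commutator_mono le_top le_top) (iSup_le fun Q => iSup_le fun _ =>
      iSup_le fun x => iSup_le fun _ => Subgroup.commutator_mono le_top le_top)) (sup_le ?_
      (iSup_le fun Q => iSup_le fun _ => iSup_le fun x => iSup_le fun hx => ?_))
    · exact Subgroup.le_normalizer_iff_commutator_le_left.1 le_rfl
    · exact (Subgroup.le_normalizer_iff_commutator_le_left.1
        ((Subgroup.zpowers_le).2 hx.1)).trans inf_le_left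

end Cfsg.Agent.S4250
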