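import Cfsg.Statements.S4252
import Cfsg.Agent.H9.FrobBasic

set_option autoImplicit false
open Cfsg

namespace Cfsg.Agent.S4252

/-- Let a finite group G act on a finite set Ω with more than one point, transitively but not regularly, so that no non-identity element of G fixes two distinct points. Then the stabilizer H of any point is a Frobenius complement in G (nontrivial, proper, meeting its other conjugates trivially), and the Frobenius kernel of G with respect to H (the identity together with the elements lying in no conjugate of H) is exactly the set consisting of the identity and the elements fixing no point. -/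
theorem result {G Ω : Type*} [Group G] [Finite G] [Fintype Ω] [MulAction G Ω] (hΩ : 1 < Fintype.card Ω)
    (htrans : ∀ α β : Ω, ∃ g : G, g • α = β) (hnreg : ∃ g : G, g ≠ 1 ∧ ∃ α : Ω, g • α = α)
    (hfix : ∀ g : G, g ≠ 1 → ∀ α β : Ω, g • α = α → g • β = β → α = β) (α : Ω) :
    Cfsg.IsFrobeniusComplement (MulAction.stabilizer G α) ∧
      Cfsg.frobeniusKernel (MulAction.stabilizer G α) = {g : G | g = 1 ∨ ∀ ω : Ω, g • ω ≠ ω} := by
  have hconj : ∀ g x : G, g⁻¹ * x * g ∈ MulAction.stabilizer G α ↔ x • g • α = g • α := by
    intro g x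
    rw [MulAction.mem_stabilizer_iff, mul_smul, mul_smul, inv_smul_eq_iff]
  constructor
  · rw [H9.isFrobeniusComplement_iff]
    refine ⟨?_, ?_, ?_⟩
    · obtain ⟨g, hg, β, hβ⟩ := hnreg
      obtain ⟨k, rfl⟩ := htrans α β
      intro hb
      have := (hconj k g).2 hβ
      rw [hb, Subgroup.mem_bot] at this
      apply hg
      have h2 : g = k * (k⁻¹ * g * k) * k⁻¹ := by group
      rw [h2, this]; simp
    · intro ht
      obtain ⟨β, hβ⟩ := Fintype.exists_ne_of_one_lt_card hΩ α
      obtain ⟨k, rfl⟩ := htrans α β
      exact hβ (show k ∈ MulAction.stabilizer G α by rw [ht]; trivial)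
    · intro g h hh h1 hg
      have h2 := (hconj g⁻¹ h).1 (by simpa using hg)
      have h3 := hfix h h1 _ _ hh h2
      rw [MulAction.mem_stabilizer_iff]
      nth_rewrite 1 [h3]
      simp
  · ext x
    rw [H9.mem_frobeniusKernel, Set.mem_ofPred_eq]
    refine or_congr Iff.rfl ⟨fun h ω => ?_, fun h g => ?_⟩
    · obtain ⟨k, rfl⟩ := htrans α ω
      exact fun he => h k ((hconj k x).2 he)
    · exact fun he => h _ ((hconj g x).1 he)

end Cfsg.Agent.S4252
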