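import Cfsg.Statements.S4253
import Cfsg.Agent.H8.Frobenius

set_option autoImplicit false
open Cfsg
open scoped Pointwise

namespace Cfsg.Agent.S4253

/-- Let H be a Frobenius complement in a finite group G (a nontrivial proper subgroup meeting each conjugate gHg⁻¹ with g outside H trivially). Then in the action of G on the left cosets of H by left multiplication, no non-identity element of G fixes two distinct cosets. -/
theorem result {G : Type*} [Group G] [Finite G] (H : Subgroup G) (hH : Cfsg.IsFrobeniusComplement H)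
    (g : G) (hg : g ≠ 1) (a b : G ⧸ H) (ha : g • a = a) (hb : g • b = b) : a = b := by
  obtain ⟨a, rfl⟩ := QuotientGroup.mk_surjective a
  obtain ⟨b, rfl⟩ := QuotientGroup.mk_surjective b
  rw [MulAction.Quotient.smul_mk, QuotientGroup.eq, smul_eq_mul] at ha hb
  rw [QuotientGroup.eq]
  by_contra hc
  have h1 := hH.2.2 _ hc
  have h2 : (g * a)⁻¹ * a ∈ H ⊓ MulAut.conj (a⁻¹ * b) • H := by
    refine ⟨ha, H8.mem_conj_smul_iff.2 ?_⟩
    convert hb using 1
    group
  rw [h1, Subgroup.mem_bot] at h2
  apply hg
  have : g = a * ((g * a)⁻¹ * a)⁻¹ * a⁻¹ := by group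
  rw [this, h2]; simp

end Cfsg.Agent.S4253
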