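import Cfsg.Statements.S4261
import Cfsg.Agent.H8.MaxSolv

set_option autoImplicit false
open Cfsg

namespace Cfsg.Agent.S4261

/-- Let M be a maximal subgroup of a finite solvable group G such that x^[G : M] lies in M for every x in G. Then M is normal in G. -/
theorem result {G : Type*} [Group G] [Finite G] (hG : Group.IsSolvable G) (M : Subgroup G) (hM : IsCoatom M)
    (hexp : ∀ x : G, x ^ M.index ∈ M) : M.Normal := by
  obtain ⟨p, k, hp, hk⟩ := H8.exists_index_eq_prime_pow_of_isCoatom hM
  apply H8.normal_of_isCoatom_of_pResidual_le hp hM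
  rw [pResidual, Subgroup.closure_le]
  intro g hg
  exact H8.mem_of_pow_mem_of_coprime (n := M.index) (by rw [hk]; exact Nat.Coprime.pow_right k hg)
    (hexp g)

end Cfsg.Agent.S4261
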