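import Cfsg.Statements.S4262
import Cfsg.Agent.H5.NilpMax
import Cfsg.Agent.H9.ClassSize

set_option autoImplicit false
open Cfsg

namespace Cfsg.Agent.S4262

theorem isNilpotent_of_pResidual_le_center {G : Type*} [Group G] [Finite G] {p : ℕ} (hp : p.Prime)
    (h : pResidual p G ≤ Subgroup.center G) : Group.IsNilpotent G := by
  have := Fact.mk hp
  exact Group.of_quotient_center_nilpotent
    ((H8.isPGroup_quotient_iff_pResidual_le hp).2 h).isNilpotent

/-- Let G be a finite group in which the centralizer of every non-central element is a maximal subgroup of G. Then G is solvable. -/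
theorem result {G : Type*} [Group G] [Finite G]
    (h : ∀ g : G, g ∉ Subgroup.center G → IsCoatom (Subgroup.centralizer ({g} : Set G))) :
    Group.IsSolvable G := by
  by_cases hc : ∃ x : G, x ∉ Subgroup.center G ∧ ∃ q k : ℕ, q.Prime ∧ ¬ q ∣ 2 ∧ orderOf x = q ^ k
  · obtain ⟨x, hx, q, k, hq, hq2, hk⟩ := hc
    have hM := h x hx
    have key : ∀ y ∈ Subgroup.centralizer ({x} : Set G), (orderOf y).Coprime q →
        Subgroup.centralizer ({x} : Set G) ≤ Subgroup.centralizer ({y} : Set G) := by
      intro y hy hyq
      have hcomm : Commute x y := (Subgroup.mem_centralizer_singleton_iff.1 hy).symm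
      have h1 := H9.centralizer_mul_of_coprime hcomm (by rw [hk]; exact hyq.symm.pow_left k)
      have h2 : x * y ∉ Subgroup.center G := by
        intro hxy
        rw [← H9.index_centralizer_eq_one_iff, Subgroup.index_eq_one, h1] at hxy
        exact hM.1 (top_le_iff.1 (hxy.ge.trans inf_le_left))
      have h3 := ((h _ h2).le_iff_eq hM.1).1 (h1.le.trans inf_le_left)
      rw [h3, h1]
      exact inf_le_right
    refine H5.isSolvable_of_nilpotent_coatom hM (isNilpotent_of_pResidual_le_center hq ?_) ?_
    · rw [pResidual, Subgroup.closure_le]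
      intro y hy
      rw [SetLike.mem_coe, Subgroup.mem_center_iff]
      intro z
      exact Subtype.ext (Subgroup.mem_centralizer_singleton_iff.1
        (key y y.2 (by simpa using hy) z.2))
    · rintro a ha b hb c - ⟨j, hj⟩ - -
      have h1 := Subgroup.mem_centralizer_singleton_iff.1 (key a ha (by
        rw [hj]; exact ((hq.coprime_iff_not_dvd.2 hq2).symm).pow_left j) hb)
      rw [commutatorElement_eq_one_iff_mul_comm.2 h1.symm]
      exact Commute.one_left c
  · push Not at hc
    have := isNilpotent_of_pResidual_le_center (G := G) Nat.prime_two (by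
      rw [← H8.pResidualOf_top]
      apply H8.pResidualOf_le_of_forall_primePow
      intro g _ q k hq hq2 hk
      by_contra hg
      exact hc g hg q k hq hq2 hk)
    infer_instance

end Cfsg.Agent.S4262
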