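import Cfsg.Statements.S4263
import Cfsg.Agent.H8.Frobenius
import Cfsg.Agent.L.BaerSuzuki

set_option autoImplicit false
open Cfsg

namespace Cfsg.Agent.S4263

theorem pow_index_mem_of_isNilpotent {G : Type*} [Group G] [Finite G] [Group.IsNilpotent G]
    (H : Subgroup G) (x : G) : x ^ H.index ∈ H := by
  induction hn : H.index using Nat.strong_induction_on generalizing H with
  | _ n ih =>
    by_cases hH : H = ⊤
    · rw [hH]; trivial
    have hlt := Group.normalizerCondition_of_isNilpotent (G := G) H (lt_top_iff_ne_top.2 hH)
    set N := Subgroup.normalizer (H : Set G)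
    have h1 : H.relIndex N * N.index = H.index := Subgroup.relIndex_mul_index hlt.le
    have h2 : N.index < n := by
      have h3 : 1 < H.relIndex N := by
        have h4 : H.relIndex N ≠ 1 := fun h => hlt.not_ge (Subgroup.relIndex_eq_one.1 h)
        have h5 : H.relIndex N ≠ 0 := Subgroup.index_ne_zero_of_finite
        omega
      have h4 : N.index ≠ 0 := Subgroup.index_ne_zero_of_finite
      rw [← hn, ← h1]
      exact lt_mul_left (Nat.pos_of_ne_zero h4) h3
    have h3 := ih _ h2 N rfl
    have h4 := (H.subgroupOf N).pow_index_mem ⟨_, h3⟩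
    rw [Subgroup.mem_subgroupOf] at h4
    rw [← hn, ← h1, mul_comm, pow_mul]
    exact h4

/-- Let G be a finite group. An element x lies in the Fitting subgroup F(G) if and only if, for every subgroup H of G, the power x^[G : H] lies in H. -/
theorem result {G : Type*} [Group G] [Finite G] (x : G) :
    x ∈ Cfsg.fittingSubgroup G ↔ ∀ H : Subgroup G, x ^ H.index ∈ H := by
  constructor
  · intro hx H
    have h1 := pow_index_mem_of_isNilpotent (H.subgroupOf (fittingSubgroup G)) ⟨x, hx⟩
    rw [Subgroup.mem_subgroupOf] at h1
    obtain ⟨k, hk⟩ := H8.relIndex_dvd_index_of_normal_right H (fittingSubgroup G)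
    rw [hk, pow_mul]
    exact H.pow_mem h1 k
  · intro h
    have key : ∀ y ∈ Subgroup.zpowers x, ∀ p k : ℕ, p.Prime → orderOf y = p ^ k →
        y ∈ fittingSubgroup G := by
      rintro y ⟨m, rfl⟩ p k hp hk
      have := Fact.mk hp
      apply L.pCore_le_fittingSubgroup hp
      rw [L.mem_pCore_iff]
      intro P
      apply H8.mem_of_pow_mem_of_coprime (H := (P : Subgroup G)) (n := (P : Subgroup G).index)
      · rw [hk]; exact (hp.coprime_iff_not_dvd.2 P.not_dvd_index).pow_left k
      · have := (P : Subgroup G).zpow_mem (h P) m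
        rwa [← zpow_natCast, ← zpow_mul, mul_comm, zpow_mul, zpow_natCast] at this
    have := H8.pResidualOf_le_of_forall_primePow (p := 1) (H := Subgroup.zpowers x)
      (K := fittingSubgroup G) fun g hg q k hq _ hk => key g hg q k hq hk
    exact this (H8.mem_pResidualOf_of_coprime (Subgroup.mem_zpowers x) (by simp))

end Cfsg.Agent.S4263
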