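import Cfsg.Statements.S4265
import Cfsg.Agent.H5.KR5

set_option autoImplicit false
open Cfsg

namespace Cfsg.Agent.S4265

/-- Let G be a finite solvable subgroup of GL_r(ℂ), r ≥ 1, with Fitting subgroup F(G) normal in G. Then for every subgroup H of G the quotient H/(H ∩ F(G)) has at most 3^{r−1} conjugacy classes. -/
theorem result (r : ℕ) (hr : 1 ≤ r) (G : Subgroup (GL (Fin r) ℂ)) [Finite ↥G] (hsolv : Group.IsSolvable ↥G) [hF : (Cfsg.fittingSubgroup ↥G).Normal] (H : Subgroup ↥G) : Nat.card (ConjClasses (↥H ⧸ (Cfsg.fittingSubgroup ↥G).subgroupOf H)) ≤ 3 ^ (r - 1) := by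
  have : Nonempty (Fin r) := ⟨⟨0, hr⟩⟩
  let ρ : G →* Module.End ℂ (Fin r → ℂ) :=
    (Matrix.toLinAlgEquiv' (R := ℂ) (n := Fin r)).toMonoidHom.comp
      ((Units.coeHom _).comp G.subtype)
  have hρ : Function.Injective ρ := (Matrix.toLinAlgEquiv' (R := ℂ) (n := Fin r)).injective.comp
    (Units.val_injective.comp G.subtype_injective)
  obtain ⟨F, h1, ⟨n, h2⟩, h3⟩ := H5.KRel.main r (Fin r → ℂ) ρ (by simp)
  rw [(MonoidHom.ker_eq_bot_iff ρ).2 hρ, le_bot_iff] at h2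
  have h4 := L.le_fittingSubgroup h1 ((Subgroup.isNilpotent_iff_lowerCentralSeries F).2 ⟨n, h2⟩)
  exact h3 _ H (QuotientGroup.mk' _) le_top (QuotientGroup.mk'_surjective _)
    fun h hh => (QuotientGroup.eq_one_iff h).2 (h4 hh)

end Cfsg.Agent.S4265
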