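import Cfsg.Statements.S4269
import Cfsg.Agent.H8.Pronormal
import Cfsg.Agent.H1.Coprime

set_option autoImplicit false
open Cfsg

namespace Cfsg.Agent.S4269

/-- Let G be a finite group, V an abelian normal subgroup and H a subgroup with HV = G. Then H is pronormal in G (H and gHg⁻¹ are conjugate inside the subgroup they generate, for every g) if and only if every H-invariant subgroup U of V satisfies U = N_U(H)·[H, U], that is, U is the join of U ∩ N_G(H) and the commutator subgroup [H, U]. -/
theorem result {G : Type*} [Group G] [Finite G]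
    (V : Subgroup G) [V.Normal] (hV : IsMulCommutative ↥V) (H : Subgroup G) (hHV : H ⊔ V = ⊤) :
    Cfsg.IsPronormal H ↔
      ∀ U : Subgroup G, U ≤ V → (∀ h ∈ H, U.map (MulAut.conj h).toMonoidHom = U) →
        U = (U ⊓ Subgroup.normalizer (H : Set G)) ⊔ ⁅H, U⁆ := by
  open scoped Pointwise commutatorElement in
  constructor
  · intro hH U hUV hU
    have hU' : ∀ h ∈ H, ∀ u ∈ U, h * u * h⁻¹ ∈ U := fun h hh u hu => by
      rw [← hU h hh]
      exact H8.conj_mem_conj_smul h hu
    have hc : ⁅H, U⁆ ≤ U := Subgroup.commutator_le.2 fun h hh u hu =>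
      mul_mem (hU' h hh u hu) (inv_mem hu)
    refine le_antisymm (fun u hu => ?_) (sup_le inf_le_left hc)
    obtain ⟨x, hx, he⟩ := H8.isPronormal_iff.1 hH u
    have h1 : H ⊔ MulAut.conj u • H ≤ ⁅H, U⁆ ⊔ H := by
      refine sup_le le_sup_right (H8.conj_smul_le_iff.2 fun h hh => ?_)
      have : u * h * u⁻¹ = ⁅h, u⁆⁻¹ * h := by simp [commutatorElement_def, mul_assoc]
      rw [this]
      exact mul_mem (Subgroup.mem_sup_left (inv_mem (Subgroup.commutator_mem_commutator hh hu)))
        (Subgroup.mem_sup_right hh)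
    have h2 := h1 hx
    rw [← SetLike.mem_coe, Subgroup.coe_mul_of_right_le_normalizer_left _ _
      (Subgroup.normalizer_commutator_ge_left _ _)] at h2
    obtain ⟨w, hw, h, hh, rfl⟩ := h2
    have h3 : w⁻¹ * u ∈ Subgroup.normalizer (H : Set G) := by
      rw [H8.mem_normalizer_iff_conj_smul_eq, ← H8.conj_smul_conj_smul, he,
        H8.conj_smul_conj_smul, inv_mul_cancel_left]
      exact H8.mem_normalizer_iff_conj_smul_eq.1 (Subgroup.le_normalizer hh)
    have h4 := mul_mem (Subgroup.mem_sup_right (S := U ⊓ Subgroup.normalizer (H : Set G)) hw)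
      (Subgroup.mem_sup_left (Subgroup.mem_inf.2 ⟨mul_mem (inv_mem (hc hw)) hu, h3⟩))
    simpa using h4
  · intro hU g
    have hg : g ∈ V ⊔ H := by rw [sup_comm, hHV]; trivial
    rw [← SetLike.mem_coe, Subgroup.normal_mul] at hg
    obtain ⟨v, hv, h, hh, rfl⟩ := hg
    refine H8.PnAt.mul_normalizer (Subgroup.le_normalizer hh) ?_
    have hVn : V.Normal := inferInstance
    have hcomm : ∀ a ∈ V, ∀ b ∈ V, a * b = b * a := fun a ha b hb =>
      congrArg Subtype.val (hV.is_comm.comm (⟨a, ha⟩ : V) ⟨b, hb⟩)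
    let U : Subgroup G :=
      { carrier := {u | u ∈ V ∧ ∀ h ∈ H, ⁅h, u⁆ ∈ H ⊔ MulAut.conj v • H}
        one_mem' := ⟨one_mem _, fun h _ => by simp⟩
        mul_mem' := by
          rintro a b ⟨ha, ha'⟩ ⟨hb, hb'⟩
          refine ⟨mul_mem ha hb, fun h hh => ?_⟩
          have e : ⁅h, a * b⁆ = ⁅h, a⁆ * ⁅h, b⁆ := by
            have := hcomm a ha _ (mul_mem (hVn.conj_mem b hb h) (inv_mem hb))
            calc ⁅h, a * b⁆ = ⁅h, a⁆ * (a * (h * b * h⁻¹ * b⁻¹)) * a⁻¹ := by
                  simp only [commutatorElement_def]; group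
              _ = ⁅h, a⁆ * ⁅h, b⁆ := by rw [this]; simp only [commutatorElement_def]; group
          rw [e]
          exact mul_mem (ha' h hh) (hb' h hh)
        inv_mem' := by
          rintro a ⟨ha, ha'⟩
          refine ⟨inv_mem ha, fun h hh => ?_⟩
          have e : ⁅h, a⁻¹⁆ = ⁅h, a⁆⁻¹ := by
            have := hcomm a ha _ (hVn.conj_mem _ (inv_mem ha) h)
            simp only [commutatorElement_def, mul_inv_rev, inv_inv]
            rw [← this]; group
          rw [e]
          exact inv_mem (ha' h hh) }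
    have hUH : ∀ h ∈ H, ∀ u ∈ U, h * u * h⁻¹ ∈ U := by
      rintro k hk u ⟨hu, hu'⟩
      refine ⟨hVn.conj_mem u hu k, fun h hh => ?_⟩
      have := mul_mem (mul_mem (Subgroup.mem_sup_left hk)
        (hu' _ (mul_mem (mul_mem (inv_mem hk) hh) hk))) (Subgroup.mem_sup_left (inv_mem hk))
      convert this using 1
      simp only [commutatorElement_def]; group
    have h1 := hU U (fun u hu => hu.1) (fun h hh => by
      apply H8.mem_normalizer_iff_conj_smul_eq.1
      exact Subgroup.mem_normalizer_fintype (hUH h hh))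
    have hvU : v ∈ U := by
      refine ⟨hv, fun h hh => ?_⟩
      have := mul_mem (Subgroup.mem_sup_left (T := MulAut.conj v • H) hh)
        (Subgroup.mem_sup_right (H8.conj_mem_conj_smul v (inv_mem hh)))
      simpa [commutatorElement_def, mul_assoc] using this
    have hc : ⁅H, U⁆ ≤ U := Subgroup.commutator_le.2 fun h hh u hu =>
      mul_mem (hUH h hh u hu) (inv_mem hu)
    have hcJ : ⁅H, U⁆ ≤ H ⊔ MulAut.conj v • H := Subgroup.commutator_le.2 fun h hh u hu =>
      hu.2 h hh
    rw [h1, sup_comm, ← SetLike.mem_coe, Subgroup.coe_mul_of_right_le_normalizer_left _ _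
      (inf_le_left.trans H1.le_normalizer_commutator_self)] at hvU
    obtain ⟨w, hw, n, hn, he⟩ := hvU
    refine ⟨w, hcJ hw, ?_⟩
    simp only at he
    nth_rewrite 1 [← he]
    rw [← H8.conj_smul_conj_smul, H8.mem_normalizer_iff_conj_smul_eq.1 hn.2]

end Cfsg.Agent.S4269
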