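import Cfsg.Statements.S4270
import Cfsg.Agent.H8.Pronormal

set_option autoImplicit false
open Cfsg

namespace Cfsg.Agent.S4270

open Cfsg.Agent.H8 Subgroup in
theorem not_dvd_index_normalizer {G : Type*} [Group G] [Finite G] {p : ℕ} [Fact p.Prime]
    {A T : Subgroup G} [A.Normal] (hTA : T ≤ A) (hT : IsPGroup p T) (hTi : ¬ p ∣ T.relIndex A) :
    ¬ p ∣ (normalizer (T : Set G)).index := by
  obtain ⟨S, hS⟩ := hT.exists_le_sylow
  have h1 : (S : Subgroup G) ⊓ A ≤ T := by
    have h2 : T ≤ (S : Subgroup G) ⊓ A := le_inf hS hTA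
    obtain ⟨k, hk⟩ := IsPGroup.iff_card.1 (S.isPGroup'.to_le (inf_le_left : (S : Subgroup G) ⊓ A ≤ S))
    have h3 : T.relIndex ((S : Subgroup G) ⊓ A) ∣ p ^ k := hk ▸ relIndex_dvd_card _ _
    have h4 := not_dvd_relIndex_of_le h2 inf_le_right hTi
    have h5 := Nat.eq_one_of_dvd_coprimes
      ((((Fact.out : p.Prime).coprime_iff_not_dvd.2 h4).symm).pow_right k) dvd_rfl h3
    exact relIndex_eq_one.1 h5
  have h2 : T = (S : Subgroup G) ⊓ A := le_antisymm (le_inf hS hTA) h1
  have h3 : (S : Subgroup G) ≤ normalizer (T : Set G) := by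
    rw [h2]
    exact (le_inf le_normalizer le_normalizer_of_normal).trans inf_normalizer_le_normalizer_inf
  exact fun hd => S.not_dvd_index (hd.trans (index_dvd_of_le h3))

/-- Let p be a prime and G a finite group with a normal subgroup A such that, both in A and in G/A, every subgroup containing a Sylow p-subgroup of that group is pronormal in that group. Let T be a Sylow p-subgroup of A. Then every subgroup of G containing a Sylow p-subgroup of G is pronormal in G if and only if (i) every subgroup of N_G(T)/T containing a Sylow p-subgroup of N_G(T)/T is pronormal there, and (ii) for every subgroup H of G containing a Sylow p-subgroup of G, the image of N_G(H) in G/A is the full normalizer of the image of H. (Pronormal: H and gHg⁻¹ are conjugate inside the subgroup they generate, for every g.) -/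
theorem result {G : Type*} [Group G] [Finite G] {p : ℕ} [Fact p.Prime]
    (A : Subgroup G) [A.Normal] (hA : (∀ K : Subgroup ↥A, (∃ P : Sylow p ↥A, (P : Subgroup ↥A) ≤ K) → Cfsg.IsPronormal K)) (hQ : (∀ K : Subgroup (G ⧸ A), (∃ P : Sylow p (G ⧸ A), (P : Subgroup (G ⧸ A)) ≤ K) → Cfsg.IsPronormal K))
    (T : Subgroup G) (hT : ∃ P : Sylow p ↥A, (P : Subgroup ↥A).map A.subtype = T) [(T.subgroupOf (Subgroup.normalizer (T : Set G))).Normal] :
    (∀ K : Subgroup G, (∃ P : Sylow p G, (P : Subgroup G) ≤ K) → Cfsg.IsPronormal K) ↔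
      ((∀ K : Subgroup (↥(Subgroup.normalizer (T : Set G)) ⧸ T.subgroupOf (Subgroup.normalizer (T : Set G))), (∃ P : Sylow p (↥(Subgroup.normalizer (T : Set G)) ⧸ T.subgroupOf (Subgroup.normalizer (T : Set G))), (P : Subgroup (↥(Subgroup.normalizer (T : Set G)) ⧸ T.subgroupOf (Subgroup.normalizer (T : Set G)))) ≤ K) → Cfsg.IsPronormal K) ∧
        ∀ K : Subgroup G, (∃ P : Sylow p G, (P : Subgroup G) ≤ K) →
          (Subgroup.normalizer (K : Set G)).map (QuotientGroup.mk' A) = Subgroup.normalizer ((K.map (QuotientGroup.mk' A) : Subgroup (G ⧸ A)) : Set (G ⧸ A))) := by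
  open scoped Pointwise in
  obtain ⟨P, hP⟩ := hT
  have hTA : T ≤ A := hP ▸ Subgroup.map_subtype_le _
  have hTp : IsPGroup p T := hP ▸ P.isPGroup'.map _
  have hTi : ¬ p ∣ T.relIndex A := by
    rw [← hP, Subgroup.relIndex, Subgroup.subgroupOf, Subgroup.comap_map_eq_self_of_injective
      A.subtype_injective]
    exact P.not_dvd_index
  have hNi := not_dvd_index_normalizer hTA hTp hTi
  simp only [H8.exists_sylow_le_iff] at hA hQ ⊢
  constructor
  · intro h
    constructor
    · intro K hK g
      obtain ⟨g, rfl⟩ := QuotientGroup.mk'_surjective _ g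
      rw [← Subgroup.map_comap_eq_self_of_surjective (QuotientGroup.mk'_surjective _) K]
      refine H8.PnAt.map _ (H8.PnAt.of_map (Subgroup.subtype _) (by simp) (h _ ?_ _))
      rw [Subgroup.index_map_subtype, Subgroup.index_comap_of_surjective _
        (QuotientGroup.mk'_surjective _)]
      exact fun hd => ((Fact.out : p.Prime).dvd_mul.1 hd).elim hK hNi
    · intro K hK
      refine le_antisymm (Subgroup.le_normalizer_map _) fun g hg => ?_
      obtain ⟨g, rfl⟩ := QuotientGroup.mk'_surjective _ g
      obtain ⟨x, hx, he⟩ := h K hK g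
      have h1 : QuotientGroup.mk' A x ∈ K.map (QuotientGroup.mk' A) := by
        have := Subgroup.mem_map_of_mem (QuotientGroup.mk' A) hx
        rw [Subgroup.map_sup] at this
        change _ ∈ _ ⊔ Subgroup.map _ (MulAut.conj g • K) at this
        rwa [H8.map_conj_smul, H8.mem_normalizer_iff_conj_smul_eq.1 hg, sup_idem] at this
      obtain ⟨k, hk, hkx⟩ := h1
      have h2 : x⁻¹ * g ∈ Subgroup.normalizer (K : Set G) := by
        rw [H8.mem_normalizer_iff_conj_smul_eq, ← H8.conj_smul_conj_smul]
        change MulAut.conj g • K = MulAut.conj x • K at he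
        rw [he, H8.conj_smul_conj_smul, inv_mul_cancel, H8.conj_one_smul]
      refine ⟨k * (x⁻¹ * g), mul_mem (Subgroup.le_normalizer hk) h2, ?_⟩
      rw [map_mul, hkx, ← map_mul, mul_inv_cancel_left]
  · rintro ⟨h1, h2⟩
    have main : ∀ K : Subgroup G, ¬ p ∣ K.index → T ≤ K →
        ¬ p ∣ K.relIndex (Subgroup.normalizer (T : Set G)) → Cfsg.IsPronormal K := by
      intro K hK hTK hKN g
      have hBi : ¬ p ∣ K.relIndex A := fun hd =>
        hK (hd.trans (H8.relIndex_dvd_index_of_normal_right K A))
      have hB : ∀ a ∈ A, H8.PnAt (K ⊓ A) a := fun a ha =>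
        (H8.pnAt_subgroupOf_iff inf_le_right (g := ⟨a, ha⟩)).1 (hA _ (by
          rw [Subgroup.inf_subgroupOf_right]; exact hBi) _)
      have hM : ∀ a ∈ Subgroup.normalizer (T : Set G),
          H8.PnAt (K ⊓ Subgroup.normalizer (T : Set G)) a := fun a ha =>
        (H8.pnAt_subgroupOf_iff inf_le_right (g := ⟨a, ha⟩)).1 (H8.PnAt.of_map
          (QuotientGroup.mk' (T.subgroupOf (Subgroup.normalizer (T : Set G))))
          (by
            rw [QuotientGroup.ker_mk']
            exact Subgroup.subgroupOf_mono _ (le_inf hTK Subgroup.le_normalizer))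
          (h1 _ (fun hd => hKN (by
            have := hd.trans (Subgroup.index_map_dvd _ (QuotientGroup.mk'_surjective _))
            rwa [Subgroup.inf_subgroupOf_right] at this)) _))
      have hKB : K ≤ Subgroup.normalizer ((K ⊓ A : Subgroup G) : Set G) :=
        (le_inf Subgroup.le_normalizer Subgroup.le_normalizer_of_normal).trans
          Subgroup.inf_normalizer_le_normalizer_inf
      have hTB : ¬ p ∣ T.relIndex (K ⊓ A) :=
        H8.not_dvd_relIndex_of_le (le_inf hTK hTA) inf_le_right hTi
      have hKeq : K = (K ⊓ A) ⊔ (K ⊓ Subgroup.normalizer (T : Set G)) := by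
        refine le_antisymm (fun k hk => ?_) (sup_le inf_le_left inf_le_left)
        obtain ⟨b, hb, he⟩ := H1.frattini_argument (le_inf hTK hTA) hTp hTB (hKB hk)
        have := mul_mem (Subgroup.mem_sup_left (T := K ⊓ Subgroup.normalizer (T : Set G))
          (inv_mem hb)) (Subgroup.mem_sup_right ⟨mul_mem hb.1 hk, he⟩)
        simpa using this
      -- last step
      have s3 : ∀ a ∈ Subgroup.normalizer ((K ⊓ A : Subgroup G) : Set G),
          a ∈ Subgroup.normalizer (T : Set G) → H8.PnAt K a := by
        intro a ha ha'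
        obtain ⟨z, hz, he⟩ := hM a ha'
        have hz1 : z ∈ Subgroup.normalizer ((K ⊓ A : Subgroup G) : Set G) := by
          refine (sup_le (inf_le_left.trans hKB) (H8.conj_smul_le_iff.2 fun y hy => ?_) :
            _ ≤ Subgroup.normalizer ((K ⊓ A : Subgroup G) : Set G)) hz
          exact mul_mem (mul_mem ha (hKB hy.1)) (inv_mem ha)
        refine ⟨z, sup_le_sup inf_le_left
          (Subgroup.pointwise_smul_le_pointwise_smul_iff.2 inf_le_left) hz, ?_⟩
        rw [hKeq, Subgroup.smul_sup, Subgroup.smul_sup, he,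
          H8.mem_normalizer_iff_conj_smul_eq.1 ha, H8.mem_normalizer_iff_conj_smul_eq.1 hz1]
      have s2 : ∀ a ∈ Subgroup.normalizer ((K ⊓ A : Subgroup G) : Set G), H8.PnAt K a := by
        intro a ha
        obtain ⟨b, hb, he⟩ := H1.frattini_argument (le_inf hTK hTA) hTp hTB ha
        refine H8.PnAt.of_inv_mul (x := b⁻¹) (Subgroup.mem_sup_left (inv_mem hb.1)) ?_
        rw [inv_inv]
        exact s3 _ (mul_mem (Subgroup.le_normalizer hb) ha) he
      have s1 : ∀ a ∈ A, H8.PnAt K a := by
        intro a ha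
        obtain ⟨y, hy, he⟩ := hB a ha
        refine H8.PnAt.of_inv_mul (sup_le_sup inf_le_left
          (Subgroup.pointwise_smul_le_pointwise_smul_iff.2 inf_le_left) hy) (s2 _ ?_)
        rw [H8.mem_normalizer_iff_conj_smul_eq, ← H8.conj_smul_conj_smul, he,
          H8.conj_smul_conj_smul, inv_mul_cancel, H8.conj_one_smul]
      obtain ⟨x, hx, he⟩ := H8.PnAt.exists_of_map (QuotientGroup.mk' A) (H := K) (g := g)
        (hQ _ (fun hd => hK (hd.trans (Subgroup.index_map_dvd _ (QuotientGroup.mk'_surjective _)))) _)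
      refine H8.PnAt.of_inv_mul hx ?_
      have h3 : QuotientGroup.mk' A (x⁻¹ * g) ∈
          Subgroup.normalizer ((K.map (QuotientGroup.mk' A) : Subgroup (G ⧸ A)) : Set (G ⧸ A)) := by
        rw [H8.map_conj_smul, H8.map_conj_smul] at he
        rw [H8.mem_normalizer_iff_conj_smul_eq, map_mul, ← H8.conj_smul_conj_smul, he,
          H8.conj_smul_conj_smul, map_inv, inv_mul_cancel, H8.conj_one_smul]
      rw [← h2 K hK] at h3
      obtain ⟨n, hn, hne⟩ := h3
      have h4 : x⁻¹ * g * n⁻¹ ∈ A := by
        rw [← QuotientGroup.eq_one_iff, ← QuotientGroup.mk'_apply, map_mul, map_inv, hne,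
          mul_inv_cancel]
      have := (s1 _ h4).mul_normalizer hn
      rwa [inv_mul_cancel_right] at this
    intro K hK
    obtain ⟨S, hS⟩ := H8.exists_sylow_le_iff.2 hK
    obtain ⟨S', hS'⟩ := H8.exists_sylow_le_iff.2 hNi
    obtain ⟨t, rfl⟩ := MulAction.exists_smul_eq G S S'
    apply H8.isPronormal_of_conj t
    have h3 : ((t • S : Sylow p G) : Subgroup G) ≤ MulAut.conj t • K := by
      rw [Sylow.coe_subgroup_smul]
      exact Subgroup.pointwise_smul_le_pointwise_smul_iff.2 hS
    have h4 : T ≤ ((t • S : Sylow p G) : Subgroup G) := by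
      have h5 := (IsPGroup.to_sup_of_normal_right' (t • S).isPGroup' hTp hS')
      have := (t • S).is_maximal' h5 le_sup_left
      exact this ▸ le_sup_right
    refine main _ (H8.exists_sylow_le_iff.1 ⟨_, h3⟩) (h4.trans h3) fun hd => ?_
    apply (t • S).not_dvd_index
    exact (hd.trans (Subgroup.relIndex_dvd_of_le_left _ h3)).trans
      (Subgroup.relIndex_dvd_index_of_le hS')

end Cfsg.Agent.S4270
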