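import Cfsg.Statements.S4284
import Cfsg.Agent.H8.ClassMN2
import Cfsg.Agent.S3866
import Cfsg.Agent.H8.Alperin

set_option autoImplicit false
open Cfsg

namespace Cfsg.Agent.S4284

open Subgroup H7 H8

theorem relIndex_eq {G : Type*} [Group G] [Finite G] {K X : Subgroup G} [K.Normal] {p c i n : ℕ}
    (hK : (Nat.card K).Coprime p) (hc : K.index = p ^ c) (hX : X.index = p ^ i * n)
    (hn : n.Coprime p) : X.relIndex K = n := by
  apply Nat.dvd_antisymm
  · have h1 := H9.relIndex_dvd_index_of_normal_right X K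
    rw [hX] at h1
    exact ((hK.coprime_dvd_left (relIndex_dvd_card X K)).pow_right i).dvd_of_dvd_mul_left h1
  · have h1 := relIndex_mul_index (inf_le_right : X ⊓ K ≤ K)
    rw [inf_relIndex_right, hc] at h1
    have h2 : n ∣ X.relIndex K * p ^ c := by
      rw [h1]
      exact (hX ▸ dvd_mul_left n (p ^ i) : n ∣ X.index).trans (index_dvd_of_le inf_le_left)
    exact (hn.pow_right c).dvd_of_dvd_mul_right h2

theorem relIndex_congr {G : Type*} [Group G] {K X Y : Subgroup G} (h : X ⊓ K = Y ⊓ K) :
    X.relIndex K = Y.relIndex K := by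
  rw [← inf_relIndex_right, h, inf_relIndex_right]

/-- Let G be a finite group with no nontrivial abelian direct factor whose conjugacy class sizes are exactly 1, m and m·n with m, n > 1 coprime. Then m is a prime p dividing n − 1; the elements whose class has size 1 or p form an abelian normal subgroup of index p; G has a normal p-complement; and the commutator subgroup of a Sylow p-subgroup of G has order p. -/
theorem result {G : Type*} [Group G] [Finite G] (hnodf : ∀ A B : Subgroup G, A.Normal → B.Normal → A ⊓ B = ⊥ → A ⊔ B = ⊤ → IsMulCommutative A → A = ⊥) (m n : ℕ) (hm : 1 < m) (hn : 1 < n) (hcop : m.Coprime n) (h : Set.range (fun x : G => (Subgroup.centralizer ({x} : Set G)).index) = ({1, m, m * n} : Set ℕ)) : m.Prime ∧ m ∣ n - 1 ∧ (∃ M : Subgroup G, M.Normal ∧ (M : Set G) = {x : G | (Subgroup.centralizer ({x} : Set G)).index = 1 ∨ (Subgroup.centralizer ({x} : Set G)).index = m} ∧ M.index = m ∧ IsMulCommutative M) ∧ (∃ N : Subgroup G, N.Normal ∧ (Nat.card N).Coprime m ∧ ∃ a : ℕ, N.index = m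 ^ a) ∧ ∀ P : Sylow m G, Nat.card (commutator (P : Subgroup G)) = m := by
  have H : MNHyp G m n := ⟨hm, hn, hcop, fun z => by
    have : cs z ∈ ({1, m, m * n} : Set ℕ) := h ▸ ⟨z, rfl⟩
    simpa using this, by
    have : m * n ∈ ({1, m, m * n} : Set ℕ) := by simp
    rw [← h] at this
    exact this⟩
  obtain ⟨p, a, k, x, hp, hma, hx, ho⟩ := H.exists_pow (by
    have : m ∈ ({1, m, m * n} : Set ℕ) := by simp
    rw [← h] at this
    exact this)
  have := Fact.mk hp
  have hpm : p ∣ m := by
    rw [hma]
    refine dvd_pow_self p ?_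
    rintro rfl
    rw [pow_zero] at hma
    omega
  have hnp : n.Coprime p := (hcop.coprime_dvd_left hpm).symm
  have hxZ := H.not_mem_of_eq_m hx
  obtain ⟨S, K, hD⟩ := H.exists_dec hpm hxZ ho
  have hxS : x ∈ S := (hD.memS x).2 ⟨mem_cent_self x, k, ho⟩
  obtain ⟨c, hc⟩ : ∃ c, K.index = p ^ c := by
    obtain ⟨j, hj⟩ := hD.relIndex_K
    refine ⟨j + a, ?_⟩
    rw [← relIndex_mul_index hD.K_le, hj, pow_add, ← hma, ← hx]
  have hnb : ∀ y : G, K ≤ centralizer ({y} : Set G) → cs y ≠ m * n := by
    intro y hy e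
    have h1 : n ∣ p ^ c := by
      rw [← hc]
      exact (e ▸ dvd_mul_left n m : n ∣ cs y).trans (index_dvd_of_le hy)
    have := (hnp.pow_right c).eq_one_of_dvd h1
    omega
  obtain ⟨w, hwK, hwZ⟩ : ∃ w ∈ K, w ∉ center G := by
    by_contra hcon
    push Not at hcon
    obtain ⟨y, hy⟩ := H.exb
    exact hnb y (fun g hg => center_le_cent y (hcon g hg)) hy
  have hSV : S ≤ pCore p G := by
    intro u hu
    obtain ⟨j, hj⟩ := ((hD.memS u).1 hu).2
    have h1 : cs u ∣ p ^ c := hc ▸ index_dvd_of_le
      (hD.K_le_centralizer.trans (centralizer_le (Set.singleton_subset_iff.2 hu)))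
    obtain ⟨i, -, hi⟩ := (Nat.dvd_prime_pow hp).1 h1
    exact H9.mem_pCore_of_index_centralizer_eq_pow hj hi
  have hNSK : normalizer (S : Set G) ≤ normalizer (K : Set G) := fun g hg =>
    hD.mem_normalizer_K fun y hy => centralizer_le (Set.singleton_subset_iff.2 hxS)
      ((mem_normalizer_iff.1 (H1.normalizer_le_normalizer_centralizer S hg) y).1
        (hD.K_le_centralizer hy))
  have hSbig : Big p S := (H.big hpm hxZ).of_not_dvd hp hD.S_le hD.not_dvd_relIndex
  have hSc : ∀ y ∈ K, S ≤ centralizer ({y} : Set G) := fun y hy =>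
    hD.S_le_centralizer.trans (centralizer_le (Set.singleton_subset_iff.2 hy))
  have hdisj : ∀ X : Subgroup G, IsPGroup p X → K ⊓ X = ⊥ := by
    intro X hX
    obtain ⟨j, hj⟩ := IsPGroup.iff_card.1 hX
    exact H1.inf_eq_bot_of_coprime' (hj ▸ hD.coprime.pow_right j)
  have hSn : S.Normal := by
    have : S = pCore p G := by
      by_contra hne
      obtain ⟨t, ht, htS⟩ := SetLike.exists_of_lt (H8.lt_inf_normalizer_of_isPGroup
        (L.isPGroup_pCore p) (lt_of_le_of_ne hSV hne))
      have h1 : t ∈ pCore p G ⊓ normalizer (K : Set G) := ⟨ht.1, hNSK ht.2⟩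
      rw [H1.inf_normalizer_eq_inf_centralizer le_normalizer_of_normal
        (hdisj _ (L.isPGroup_pCore p))] at h1
      obtain ⟨j, hj⟩ := H8.exists_orderOf_eq_pow_of_mem (L.isPGroup_pCore p) ht.1
      exact htS (hSbig.mem hp hj ht.2 hwZ (hSc w hwK)
        (centralizer_le (Set.singleton_subset_iff.2 hwK) h1.2))
    rw [this]; infer_instance
  have hKn : K.Normal := by
    rw [← normalizer_eq_top_iff, eq_top_iff]
    exact fun g _ => hNSK (le_normalizer_of_normal (mem_top g))
  have hCn : (centralizer ({x} : Set G)).Normal := by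
    rw [← hD.sup_eq]; infer_instance
  have hmp : m = p := by
    obtain ⟨P⟩ : Nonempty (Sylow p G) := inferInstance
    have hSP := hD.isPGroup.le_sylow_of_normal P
    obtain ⟨u, hu, h1, h2, h3⟩ := exists_second_center P.isPGroup' hSP le_normalizer_of_normal
      (fun h => hxZ (h hxS))
    have h4 := H.not_sq_dvd hpm P (hSP hu) h1 h2 h3 (mem_cent_comm.1 (hSc w hwK hu)) hwZ
      ((hD.memK w).1 hwK).2
    rcases a with _ | _ | a
    · rw [pow_zero] at hma; omega
    · simpa using hma
    · exact absurd (hma ▸ pow_dvd_pow p (by omega)) h4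
  subst hmp
  have hKle : ∀ y : G, cs y ∣ m → K ≤ centralizer ({y} : Set G) := fun y hy =>
    le_of_normal_of_coprime_index (hD.coprime.coprime_dvd_right hy)
  have hT : ∀ P : Sylow m G, ∃ t ∈ (P : Subgroup G), t ∉ centralizer ({x} : Set G) ∧
      cs t = m * n ∧ centralizer ({t} : Set G) ⊓ K = center G ⊓ K := by
    intro P
    have hPD : ¬ (P : Subgroup G) ≤ centralizer ({x} : Set G) := fun h =>
      P.not_dvd_index ((hx ▸ hpm : m ∣ cs x).trans (index_dvd_of_le h))
    obtain ⟨t, htP, htD⟩ := SetLike.not_le_iff_exists.1 hPD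
    obtain ⟨j, hj⟩ := H8.exists_orderOf_eq_pow_of_mem P.isPGroup' htP
    have h1 : centralizer ({t} : Set G) ⊓ K ≤ center G := by
      intro y hy
      by_contra hyZ
      exact htD (hD.S_le (hSbig.mem hp hj (le_normalizer_of_normal (mem_top t)) hyZ (hSc y hy.2)
        (mem_cent_comm.1 hy.1)))
    refine ⟨t, htP, htD, ?_, le_antisymm (le_inf h1 inf_le_right)
      (inf_le_inf_right _ (center_le_cent t))⟩
    refine (H.cases fun h => htD (center_le_cent x h)).resolve_left fun e => ?_
    exact hwZ (h1 ⟨hKle t e.dvd hwK, hwK⟩)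
  obtain ⟨P⟩ : Nonempty (Sylow m G) := inferInstance
  obtain ⟨t, htP, htD, htb, htK⟩ := hT P
  have hZK : (center G).relIndex K = n := by
    rw [← relIndex_congr htK]
    exact relIndex_eq hD.coprime hc (i := 1) (by rw [pow_one]; exact htb) hnp
  have hKa : ∀ y ∈ K, y ∉ center G → centralizer ({x} : Set G) = centralizer ({y} : Set G) := by
    intro y hy hyZ
    have h1 : cs y = m := by
      refine (H.cases hyZ).resolve_right fun e => hyZ ?_
      have h2 := relIndex_eq hD.coprime hc (i := 1) (X := centralizer ({y} : Set G))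
        (by rw [pow_one]; exact e) hnp
      have h3 : (center G).subgroupOf K = (centralizer ({y} : Set G)).subgroupOf K :=
        eq_of_le_of_index_eq (comap_mono (center_le_cent y)) (hZK.trans h2.symm)
      have : (⟨y, hy⟩ : K) ∈ (center G).subgroupOf K := h3 ▸ mem_cent_self y
      exact this
    refine H.eq_of_eq_m hx hyZ ?_
    rw [← hD.sup_eq]
    exact sup_le (hSc y hy) (hKle y h1.dvd)
  have hKc : ∀ y ∈ K, centralizer ({x} : Set G) ≤ centralizer ({y} : Set G) := by
    intro y hy
    by_cases hyZ : y ∈ center G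
    · rw [centralizer_eq_top_iff_subset.2 (Set.singleton_subset_iff.2 hyZ)]
      exact le_top
    · exact (hKa y hy hyZ).le
  have hSa : ∀ u ∈ S, centralizer ({x} : Set G) ≤ centralizer ({u} : Set G) := by
    intro u hu
    obtain ⟨j, hj⟩ := ((hD.memS u).1 hu).2
    have hwu : Commute w u := (hD.comm u hu w hwK).symm
    have hcu : (orderOf w).Coprime (orderOf u) := hj ▸ ((hD.memK w).1 hwK).2.pow_right j
    have h1 := H9.centralizer_mul_of_coprime hwu hcu
    have h2 : cs (w * u) = m := by
      refine (H.cases (MNHyp.not_mem_mul hwZ hwu hcu)).resolve_right (hnb _ ?_)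
      rw [h1]
      exact le_inf (hD.K_le.trans (hKc w hwK))
        (hD.K_le_centralizer.trans (centralizer_le (Set.singleton_subset_iff.2 hu)))
    rw [hKa w hwK hwZ, ← H.eq_of_eq_m h2 hwZ (h1 ▸ inf_le_left), h1]
    exact inf_le_right
  have hCa : ∀ g ∈ centralizer ({x} : Set G),
      centralizer ({x} : Set G) ≤ centralizer ({g} : Set G) := by
    intro g hg y hy
    obtain ⟨u, hu, v, hv, rfl⟩ := hD.exists_mul hg
    rw [mem_centralizer_singleton_iff]
    exact (Commute.mul_right (mem_centralizer_singleton_iff.1 (hSa u hu hy))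
      (mem_centralizer_singleton_iff.1 (hKc v hv hy))).eq
  refine ⟨hp, ?_, ⟨centralizer ({x} : Set G), hCn, ?_, hx, ?_⟩, ⟨K, hKn, hD.coprime, c, hc⟩, ?_⟩
  · have h1 := card_sylow_modEq_one m G
    rw [P.card_eq_index_normalizer] at h1
    have h2 : normalizer ((P : Subgroup G) : Set G) ⊔ K = ⊤ := by
      rw [← index_eq_one]
      exact Nat.eq_one_of_dvd_coprimes ((hp.coprime_iff_not_dvd.2 P.not_dvd_index).pow_left c)
        (hc ▸ index_dvd_of_le le_sup_right)
        (index_dvd_of_le (le_normalizer.trans le_sup_left))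
    have h3 := relIndex_eq_relIndex_sup (normalizer ((P : Subgroup G) : Set G)) K
      le_normalizer_of_normal
    rw [h2, relIndex_top_right] at h3
    have h4 : normalizer ((P : Subgroup G) : Set G) ⊓ K = center G ⊓ K := by
      rw [inf_comm, H1.inf_normalizer_eq_inf_centralizer le_normalizer_of_normal
        (by rw [inf_comm]; exact hdisj _ P.isPGroup')]
      apply le_antisymm
      · rw [← htK, inf_comm]
        exact inf_le_inf_right _ (centralizer_le (Set.singleton_subset_iff.2 htP))
      · rw [inf_comm]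
        exact inf_le_inf_left _ (center_le_centralizer _)
    rw [relIndex_congr h4, hZK] at h3
    exact (Nat.modEq_iff_dvd' hn.le).1 (h3 ▸ h1 : n ≡ 1 [MOD m]).symm
  · ext g
    constructor
    · intro hg
      have h1 : cs g ∣ m := hx ▸ index_dvd_of_le (hCa g hg)
      exact (Nat.dvd_prime hp).1 h1
    · intro hg
      have h1 : cs g ∣ m := by
        rcases hg with hg | hg
        · exact (show cs g = 1 from hg) ▸ one_dvd m
        · exact (show cs g = m from hg).dvd
      rw [hKa w hwK hwZ]
      exact mem_cent_comm.1 (hKle g h1 hwK)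
  · exact ⟨⟨fun a b => Subtype.ext (mem_centralizer_singleton_iff.1 (hCa b b.2 a.2))⟩⟩
  · intro Q
    obtain ⟨s, hsQ, hsD, hsb, -⟩ := hT Q
    have hSQ := hD.isPGroup.le_sylow_of_normal Q
    have h1 : (S.subgroupOf Q).index = m := by
      have e : S.relIndex Q = (centralizer ({x} : Set G)).relIndex Q :=
        relIndex_congr (le_antisymm (inf_le_inf_right _ hD.S_le) (le_inf
          (hD.le_of_isPGroup (Q.isPGroup'.to_le inf_le_right) inf_le_left) inf_le_right))
      have h2 : S.relIndex Q ∣ m := by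
        rw [e]
        exact (relIndex_dvd_index_of_normal _ _).trans hx.dvd
      refine ((Nat.dvd_prime hp).1 h2).resolve_left fun h3 => ?_
      exact hsD (hD.S_le (relIndex_eq_one.1 h3 hsQ))
    have h2 : S.subgroupOf Q ⊔ zpowers (⟨s, hsQ⟩ : Q) = ⊤ :=
      (H3.isCoatom_of_index_prime (h1.symm ▸ hp)).2 _ (lt_of_le_of_ne le_sup_left fun e =>
        hsD (hD.S_le (show (⟨s, hsQ⟩ : Q) ∈ S.subgroupOf Q from
          e ▸ mem_sup_right (mem_zpowers _))))
    have h3 := S3866.card_commutator_mul (S.subgroupOf Q)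
      ⟨⟨fun a b => Subtype.ext (Subtype.ext
        (mem_centralizer_singleton_iff.1 (hSa _ b.2 (hD.S_le a.2))))⟩⟩ _ h2
    have h4 : (centralizer ({s} : Set G)).relIndex S = m := by
      obtain ⟨i, hi⟩ := hD.isPGroup.index ((centralizer ({s} : Set G)).subgroupOf S)
      have e1 : m ^ i ∣ m * n := hi ▸ hsb ▸ H9.relIndex_dvd_index_of_normal_right _ S
      have e2 : (centralizer ({s} : Set G)).relIndex S ∣ m :=
        (show (centralizer ({s} : Set G)).relIndex S = m ^ i from hi) ▸
          (hnp.symm.pow_left i).dvd_of_dvd_mul_right e1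
      refine ((Nat.dvd_prime hp).1 e2).resolve_left fun h5 => ?_
      exact hsD (mem_cent_comm.1 (relIndex_eq_one.1 h5 hxS))
    rw [H9.centralizer_coe_subgroupOf, show S.subgroupOf Q ⊓ (centralizer ({s} : Set G)).subgroupOf Q =
        (S ⊓ centralizer ({s} : Set G)).subgroupOf Q from rfl,
      Nat.card_congr (subgroupOfEquivOfLe (inf_le_left.trans hSQ)).toEquiv,
      Nat.card_congr (subgroupOfEquivOfLe hSQ).toEquiv,
      ← H1.card_inf_mul_relIndex (centralizer ({s} : Set G)) S, h4, inf_comm, mul_comm] at h3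
    exact Nat.eq_of_mul_eq_mul_left Nat.card_pos h3

end Cfsg.Agent.S4284
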