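import Cfsg.Statements.S4291
import Cfsg.Agent.H8.FCStruct

set_option autoImplicit false
open Cfsg

namespace Cfsg.Agent.S4291

open Subgroup

theorem not_isZGroup {T : Type*} [Group T] [Finite T] {u v : T} (hu : u * u = 1) (hv : v * v = 1)
    (hu1 : u ≠ 1) (hv1 : v ≠ 1) (huv : u ≠ v) (hc : u * v = v * u) {K : Subgroup T} (huK : u ∈ K)
    (hvK : v ∈ K) : ¬ IsZGroup K := fun h => by
  have ou : orderOf u = 2 := orderOf_eq_prime (by rw [sq, hu]) hu1
  have ov : orderOf v = 2 := orderOf_eq_prime (by rw [sq, hv]) hv1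
  have hP : IsPGroup 2 (zpowers (⟨u, huK⟩ : K) ⊔ zpowers (⟨v, hvK⟩ : K) : Subgroup K) := by
    refine (H8.isPGroup_zpowers_of_orderOf (k := 1) (by rw [orderOf_mk, ou]; rfl)).to_sup_of_normal_left'
      (H8.isPGroup_zpowers_of_orderOf (k := 1) (by rw [orderOf_mk, ov]; rfl)) ?_
    rw [zpowers_le]
    refine centralizer_le_normalizer _ ?_
    rintro _ ⟨k, rfl⟩
    exact (Commute.zpow_left (Subtype.ext hc) k).eq
  have := hP.isCyclic_of_isZGroup
  have h1 := H6.mem_zpowers_of_orderOf_dvd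
    (P := zpowers (⟨u, huK⟩ : K) ⊔ zpowers (⟨v, hvK⟩ : K)) (mem_sup_left (mem_zpowers _))
    (mem_sup_right (mem_zpowers _)) (by rw [orderOf_mk, orderOf_mk, ou, ov])
  obtain ⟨k, hk⟩ := mem_zpowers_iff.1 h1
  have hk' : v ^ k = u := congrArg Subtype.val hk
  rw [← zpow_mod_orderOf, ov] at hk'
  rcases Int.emod_two_eq_zero_or_one k with e | e
  · rw [show ((2 : ℕ) : ℤ) = 2 from rfl, e, zpow_zero] at hk'
    exact hu1 hk'.symm
  · rw [show ((2 : ℕ) : ℤ) = 2 from rfl, e, zpow_one] at hk'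
    exact huv hk'.symm

/-- No nontrivial normal subgroup has cyclic Sylow subgroups. -/
def Rigid (T : Type*) [Group T] : Prop := ∀ K : Subgroup T, K.Normal → IsZGroup K → K = ⊥

theorem four_check : ∀ g : Equiv.Perm (Fin 4), g ≠ 1 → ∃ h : Equiv.Perm (Fin 4),
    Equiv.Perm.sign h = 1 ∧ g * (h * g⁻¹ * h⁻¹) ≠ 1 ∧
      g * (h * g⁻¹ * h⁻¹) * (g * (h * g⁻¹ * h⁻¹)) = 1 := by decide +kernel

theorem four_check2 : ∀ t : Equiv.Perm (Fin 4), t ≠ 1 → t * t = 1 → ∃ h : Equiv.Perm (Fin 4),
    Equiv.Perm.sign h = 1 ∧ t ≠ h * t * h⁻¹ ∧ t * (h * t * h⁻¹) = h * t * h⁻¹ * t := by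
  decide +kernel

theorem rigid_four (A : Subgroup (Equiv.Perm (Fin 4))) (hA : alternatingGroup (Fin 4) ≤ A) :
    Rigid A := fun K hK hZ => by
  by_contra hne
  obtain ⟨⟨g, hg⟩, hg1⟩ := ne_bot_iff_exists_ne_one.1 hne
  obtain ⟨h, hh, h1, h2⟩ := four_check g fun e => hg1 (Subtype.ext (Subtype.ext e))
  obtain ⟨h', hh', h3, h4⟩ := four_check2 _ h1 h2
  have ht : g * ((⟨h, hA hh⟩ : A) * g⁻¹ * (⟨h, hA hh⟩ : A)⁻¹) ∈ K :=
    mul_mem hg (hK.conj_mem _ (inv_mem hg) _)
  refine not_isZGroup (Subtype.ext h2) (Subtype.ext ?_) (fun e => h1 (congrArg Subtype.val e))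
    (fun e => h1 ?_) (fun e => h3 (congrArg Subtype.val e)) (Subtype.ext h4) ht
    (hK.conj_mem _ ht ⟨h', hA hh'⟩) hZ
  · change h' * _ * h'⁻¹ * (h' * _ * h'⁻¹) = 1
    rw [conj_mul]
    exact conj_eq_one_iff.2 h2
  · exact conj_eq_one_iff.1 (congrArg Subtype.val e)

theorem rigid_of_equiv {T T' : Type*} [Group T] [Group T'] (e : T ≃* T') (h : Rigid T) :
    Rigid T' := fun K hK hZ => by
  have := h (K.comap e.toMonoidHom) inferInstance (IsZGroup.of_injective
    (f := e.toMonoidHom.subgroupComap K) fun x y hxy =>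
      Subtype.ext (e.injective (congrArg Subtype.val hxy)))
  rw [eq_bot_iff] at this ⊢
  intro x hx
  have h1 : e.symm x ∈ K.comap e.toMonoidHom := by simpa using hx
  simpa using this h1

theorem not_isZGroup_five {T : Type*} [Group T] [Finite T] (f : alternatingGroup (Fin 5) →* T)
    (hf : Function.Injective f) {K : Subgroup T} (hK : f.range ≤ K) : ¬ IsZGroup K := by
  let u : alternatingGroup (Fin 5) := ⟨Equiv.swap 0 1 * Equiv.swap 2 3, by
    rw [Equiv.Perm.mem_alternatingGroup]; decide⟩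
  let v : alternatingGroup (Fin 5) := ⟨Equiv.swap 0 2 * Equiv.swap 1 3, by
    rw [Equiv.Perm.mem_alternatingGroup]; decide⟩
  refine not_isZGroup (u := f u) (v := f v) ?_ ?_ ?_ ?_ ?_ ?_ (hK ⟨u, rfl⟩) (hK ⟨v, rfl⟩)
  · rw [← map_mul, map_eq_one_iff f hf]; decide
  · rw [← map_mul, map_eq_one_iff f hf]; decide
  · rw [Ne, map_eq_one_iff f hf]; decide
  · rw [Ne, map_eq_one_iff f hf]; decide
  · rw [hf.ne_iff]; decide
  · rw [← map_mul, ← map_mul, hf.eq_iff]; decide

theorem rigid_A5 : Rigid (alternatingGroup (Fin 5)) := fun K hK hZ =>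
  (hK.eq_bot_or_eq_top).resolve_right fun e =>
    not_isZGroup_five (MonoidHom.id _) Function.injective_id (e ▸ le_top) hZ

theorem rigid_S5 : Rigid (Equiv.Perm (Fin 5)) := fun K hK hZ => by
  by_contra hne
  exact not_isZGroup_five (alternatingGroup (Fin 5)).subtype (subtype_injective _) (by
    rw [range_subtype]
    exact Equiv.Perm.alternatingGroup_le_of_normal (by simp) ((nontrivial_iff_ne_bot K).2 hne)) hZ

variable {G : Type*} [Group G] [Finite G]

theorem le_ker {T : Type*} [Group T] (hT : Rigid T) {f : G →* T} (hf : Function.Surjective f)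
    (N : Subgroup G) [hN : N.Normal] [IsZGroup N] : N ≤ f.ker :=
  (map_eq_bot_iff N).1 (hT _ (hN.map f hf) (IsZGroup.of_surjective (f.subgroupMap_surjective N)))

theorem dih_sq (x : DihedralGroup 2) : x * x = 1 := by revert x; decide

theorem card_dih : Nat.card (DihedralGroup 2) = 4 := by rw [DihedralGroup.nat_card]

theorem ker_eq_of_dih (h : H8.AC G) {f f' : G →* DihedralGroup 2} (hf : Function.Surjective f)
    (hf' : Function.Surjective f') : f.ker = f'.ker := by
  have key : (f.ker ⊓ f'.ker).index ≤ 4 := by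
    rw [← MonoidHom.ker_prod, index_ker]
    obtain ⟨P⟩ : Nonempty (Sylow 2 G) := inferInstance
    have hsq : ∀ y : DihedralGroup 2 × DihedralGroup 2, y ^ 2 = 1 := fun y => by
      rw [sq]; exact Prod.ext (dih_sq _) (dih_sq _)
    have hp : IsPGroup 2 (DihedralGroup 2 × DihedralGroup 2) := fun y => ⟨1, hsq y⟩
    have h1 : (f.prod f').range = ((f.prod f').comp (P : Subgroup G).subtype).range := by
      rw [MonoidHom.range_comp, range_subtype, MonoidHom.range_eq_map, ← H8.sylow_sup_pResidual P,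
        Subgroup.map_sup, (Subgroup.map_eq_bot_iff _).2 (H8.pResidual_le_ker hp _), sup_bot_eq]
    obtain ⟨x, hx⟩ : ∃ x : P, (zpowers x).index ≤ 2 := by
      rcases H3.abelian_cyclic_cases P.2 (fun A hA => h.subgroup _ A hA.1) with
        hc | ⟨-, n, x, y, -, -, hidx, -⟩
      · obtain ⟨y, hy⟩ := hc.exists_generator
        exact ⟨y, by rw [(eq_top_iff' _).2 hy, index_top]; norm_num⟩
      · exact ⟨x, hidx.le⟩
    rw [h1, ← index_ker]
    have h2 : zpowers (x ^ 2) ≤ ((f.prod f').comp (P : Subgroup G).subtype).ker := by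
      rw [zpowers_le, MonoidHom.mem_ker, map_pow, hsq]
    refine (Nat.le_of_dvd (Nat.pos_of_ne_zero index_ne_zero_of_finite) (index_dvd_of_le h2)).trans ?_
    have a1 := (zpowers (x ^ 2)).index_mul_card
    have a2 := (zpowers x).index_mul_card
    rw [Nat.card_zpowers] at a1 a2
    have a3 : orderOf x ≤ 2 * orderOf (x ^ 2) :=
      Nat.le_of_dvd (Nat.mul_pos two_pos (orderOf_pos _)) (orderOf_dvd_of_pow_eq_one (by
        rw [pow_mul, pow_orderOf_eq_one]))
    have a4 := orderOf_pos (x ^ 2)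
    nlinarith
  have aux : ∀ {f : G →* DihedralGroup 2}, Function.Surjective f → ∀ K ≤ f.ker, K.index ≤ 4 →
      K = f.ker := fun {f} hf K hK h4 => by
    have h1 : f.ker.index = 4 := by
      rw [index_ker, MonoidHom.range_eq_top.2 hf, card_top, card_dih]
    have h2 := relIndex_mul_index hK
    have h3 : K.relIndex f.ker ≠ 0 := index_ne_zero_of_finite
    exact le_antisymm hK (relIndex_eq_one.1 (by rw [h1] at h2; omega))
  exact (aux hf _ inf_le_left key).symm.trans (aux hf' _ inf_le_right key)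

theorem classify {N : Subgroup G} (h : N = ⊤ ∨
        (∃ f : G →* DihedralGroup 2, Function.Surjective f ∧ f.ker = N) ∨
        (∃ f : G →* alternatingGroup (Fin 4), Function.Surjective f ∧ f.ker = N) ∨
        (∃ f : G →* Equiv.Perm (Fin 4), Function.Surjective f ∧ f.ker = N) ∨
        (∃ f : G →* alternatingGroup (Fin 5), Function.Surjective f ∧ f.ker = N) ∨
        (∃ f : G →* Equiv.Perm (Fin 5), Function.Surjective f ∧ f.ker = N)) :
    (∃ f : G →* DihedralGroup 2, Function.Surjective f ∧ f.ker = N) ∨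
      ((∀ K : Subgroup G, K.Normal → IsZGroup K → K ≤ N) ∧ (N = ⊤ ∨ 3 ∣ N.index)) := by
  have idx : ∀ {T : Type} [Group T] (f : G →* T), Function.Surjective f → f.ker.index = Nat.card T :=
    fun f hf => by rw [index_ker, MonoidHom.range_eq_top.2 hf, card_top]
  rcases h with rfl | h | ⟨f, hf, rfl⟩ | ⟨f, hf, rfl⟩ | ⟨f, hf, rfl⟩ | ⟨f, hf, rfl⟩
  · exact Or.inr ⟨fun _ _ _ => le_top, Or.inl rfl⟩
  · exact Or.inl h
  · refine Or.inr ⟨fun K _ _ => le_ker (rigid_four _ le_rfl) hf K, Or.inr ?_⟩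
    rw [idx f hf, nat_card_alternatingGroup, Nat.card_fin]; decide
  · refine Or.inr ⟨fun K _ _ => le_ker (rigid_of_equiv topEquiv (rigid_four _ le_top)) hf K,
      Or.inr ?_⟩
    rw [idx f hf, Nat.card_perm, Nat.card_fin]; decide
  · refine Or.inr ⟨fun K _ _ => le_ker rigid_A5 hf K, Or.inr ?_⟩
    rw [idx f hf, nat_card_alternatingGroup, Nat.card_fin]; decide
  · refine Or.inr ⟨fun K _ _ => le_ker rigid_S5 hf K, Or.inr ?_⟩
    rw [idx f hf, Nat.card_perm, Nat.card_fin]; decide

theorem false_of_dih {f : G →* DihedralGroup 2} (hf : Function.Surjective f) {N : Subgroup G}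
    (hZ : IsZGroup N) (hle : f.ker ≤ N) (h : N = ⊤ ∨ 3 ∣ N.index) : False := by
  rcases h with rfl | h
  · have : IsZGroup G := IsZGroup.of_surjective (f := (⊤ : Subgroup G).subtype)
      fun x => ⟨⟨x, trivial⟩, rfl⟩
    have : IsZGroup (DihedralGroup 2) := IsZGroup.of_surjective hf
    exact not_isZGroup (u := .r 1) (v := .sr 0) (dih_sq _) (dih_sq _) (by decide) (by decide)
      (by decide) (by decide) (mem_top _) (mem_top _) inferInstance
  · have := h.trans (index_dvd_of_le hle)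
    rw [index_ker, MonoidHom.range_eq_top.2 hf, card_top, card_dih] at this
    omega

theorem perm_cases {n : ℕ} (π : G →* Equiv.Perm (Fin n)) (h : π.range.index ≤ 2) :
    (∃ f : G →* alternatingGroup (Fin n), Function.Surjective f ∧ f.ker = π.ker) ∨
      ∃ f : G →* Equiv.Perm (Fin n), Function.Surjective f ∧ f.ker = π.ker := by
  have h0 : π.range.index ≠ 0 := index_ne_zero_of_finite
  by_cases h1 : π.range.index = 1
  · exact Or.inr ⟨π, MonoidHom.range_eq_top.1 (index_eq_one.1 h1), rfl⟩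
  · have h2 := Equiv.Perm.eq_alternatingGroup_of_index_eq_two (G := π.range) (by omega)
    refine Or.inl ⟨π.codRestrict _ fun x => h2.le ⟨x, rfl⟩, fun y => ?_,
      MonoidHom.ker_codRestrict _ _ _⟩
    obtain ⟨x, hx⟩ : (y : Equiv.Perm (Fin n)) ∈ π.range := h2.ge y.2
    exact ⟨x, Subtype.ext hx⟩

theorem exists_dih_quat (k : ℕ) : ∃ f : QuaternionGroup (2 * k) →* DihedralGroup 2,
    Function.Surjective f ∧ f.ker ≤ zpowers (QuaternionGroup.a 1) := by
  let c : ZMod (2 * (2 * k)) →+* ZMod 2 := ZMod.castHom (dvd_mul_right _ _) _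
  have hc : c ((2 * k : ℕ) : ZMod (2 * (2 * k))) = 0 := by
    rw [map_natCast, ZMod.natCast_eq_zero_iff]; exact dvd_mul_right _ _
  refine ⟨MonoidHom.mk' (fun g => match g with
    | .a i => .r (c i)
    | .xa i => .sr (c i)) ?_, ?_, ?_⟩
  · rintro (i | i) (j | j)
    · simp
    · simp
    · simp
    · simp only [QuaternionGroup.xa_mul_xa, map_sub, map_add, hc, zero_add,
        DihedralGroup.sr_mul_sr]
  · rintro (i | i)
    · obtain ⟨j, rfl⟩ := ZMod.ringHom_surjective c i
      exact ⟨.a j, rfl⟩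
    · obtain ⟨j, rfl⟩ := ZMod.ringHom_surjective c i
      exact ⟨.xa j, rfl⟩
  · rintro (i | i) hi
    · obtain ⟨j, rfl⟩ := ZMod.intCast_surjective i
      exact ⟨j, H3.quaternion_a_zpow j⟩
    · exact absurd (show DihedralGroup.sr (c i) = DihedralGroup.r 0 from hi) (by rintro ⟨⟩)

theorem exists_dih (h : H8.AC G) (h2 : HasNormalPComplement 2 G) : IsZGroup (⊤ : Subgroup G) ∨
    ∃ f : G →* DihedralGroup 2, Function.Surjective f ∧ IsZGroup f.ker := by
  obtain ⟨P, N, hN, hc⟩ := h2
  rcases H3.isCyclic_or_quaternion_of_abelian_cyclic P.2 (h.subgroup _) with h1 | ⟨-, k, hk, ⟨e⟩⟩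
  · refine Or.inl ?_
    have : IsZGroup G := h.isZGroup_of_two fun Q hQ => by
      obtain ⟨Q', hQ'⟩ := hQ.exists_le_sylow
      have : IsCyclic Q' := isCyclic_of_surjective _ (P.equiv Q').surjective
      exact Subgroup.isCyclic_of_le hQ'
    infer_instance
  right
  obtain ⟨k, rfl⟩ : ∃ j, k = j + 1 := ⟨k - 1, by omega⟩
  rw [pow_succ'] at e
  obtain ⟨f, hf, hker⟩ := exists_dih_quat (2 ^ k)
  let π : G →* QuaternionGroup (2 * 2 ^ k) :=
    (hc.symm.QuotientMulEquiv.trans e).toMonoidHom.comp (QuotientGroup.mk' N)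
  refine ⟨f.comp π, hf.comp ((hc.symm.QuotientMulEquiv.trans e).surjective.comp
    (QuotientGroup.mk'_surjective N)),
    (h.subgroup _).isZGroup_of_two fun Q hQ => ?_⟩
  refine isCyclic_of_injective (G' := zpowers (QuaternionGroup.a 1 : QuaternionGroup (2 * 2 ^ k)))
    ((π.comp ((f.comp π).ker.subtype.comp Q.subtype)).codRestrict _ fun x => hker x.1.2)
    ((injective_iff_map_eq_one _).2 fun x hx => ?_)
  have h1 : ((x : (f.comp π).ker) : G) ∈ N := by
    rw [← QuotientGroup.eq_one_iff]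
    exact (EmbeddingLike.map_eq_one_iff (f := hc.symm.QuotientMulEquiv.trans e)).1
      (congrArg Subtype.val hx)
  obtain ⟨m, hm⟩ := IsPGroup.iff_orderOf.1 hQ x
  refine H8.eq_one_of_orderOf_pow_of_coprime hm ?_
  rw [← orderOf_coe, ← orderOf_coe]
  refine Nat.Coprime.coprime_dvd_left (N.orderOf_dvd_natCard h1) ?_
  rw [← hc.index_eq_card]
  exact ((Nat.Prime.coprime_iff_not_dvd Nat.prime_two).2 P.not_dvd_index).symm

/-- Let G be a finite group that occurs as a Frobenius complement. Then G has exactly one normal subgroup N such that every Sylow subgroup of N is cyclic and the quotient of G by N is trivial or isomorphic to one of the following five groups: the Klein four-group, the alternating group of degree 4, the symmetric group of degree 4, the alternating group of degree 5, the symmetric group of degree 5. (The quotient is described by a surjective homomorphism with kernel N; the Klein four-group is written as the dihedral group of order 4.) -/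
theorem result {G : Type*} [Group G] [Finite G]
    (hFC : (∃ (L : Type) (_ : Group L) (_ : Finite L) (H : Subgroup L), Cfsg.IsFrobeniusComplement H ∧ Nonempty (G ≃* H))) :
    ∃! N : Subgroup G, N.Normal ∧ (∀ (p : ℕ) [Fact p.Prime] (P : Sylow p N), IsCyclic P) ∧
      (N = ⊤ ∨
        (∃ f : G →* DihedralGroup 2, Function.Surjective f ∧ f.ker = N) ∨
        (∃ f : G →* alternatingGroup (Fin 4), Function.Surjective f ∧ f.ker = N) ∨
        (∃ f : G →* Equiv.Perm (Fin 4), Function.Surjective f ∧ f.ker = N) ∨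
        (∃ f : G →* alternatingGroup (Fin 5), Function.Surjective f ∧ f.ker = N) ∨
        (∃ f : G →* Equiv.Perm (Fin 5), Function.Surjective f ∧ f.ker = N)) := by
  have hF : H8.IsFC G := hFC
  have hac := hF.ac
  have hZ : ∀ N : Subgroup G, (∀ (p : ℕ) [Fact p.Prime] (P : Sylow p N), IsCyclic P) ↔ IsZGroup N :=
    fun N => ⟨fun h => ⟨fun p hp P => @h p ⟨hp⟩ P⟩, fun h p _ P => inferInstance⟩
  simp only [hZ]
  refine existsUnique_of_exists_of_unique ?_ fun N N' ⟨n, z, h⟩ ⟨n', z', h'⟩ => ?_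
  · rcases hF.structure with h | ⟨T, _, ⟨e⟩, g, k, hg, hgT⟩ | ⟨f, hf, _⟩
    · rcases exists_dih hac h with h | ⟨f, hf, h⟩
      · exact ⟨⊤, inferInstance, h, Or.inl rfl⟩
      · exact ⟨f.ker, inferInstance, h, Or.inr (Or.inl ⟨f, hf, rfl⟩)⟩
    · obtain ⟨π, h1, h2⟩ := hac.exists_perm_four e hg hgT
      exact ⟨π.ker, inferInstance, h1, Or.inr (Or.inr ((perm_cases π h2).imp id Or.inl))⟩
    · obtain ⟨π, h1, h2⟩ := hac.exists_perm_five hf
      exact ⟨π.ker, inferInstance, h1, Or.inr (Or.inr (Or.inr (Or.inr (perm_cases π h2))))⟩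
  · rcases classify h with ⟨f, hf, rfl⟩ | ⟨h1, h2⟩ <;> rcases classify h' with ⟨f', hf', rfl⟩ | ⟨h1', h2'⟩
    · exact ker_eq_of_dih hac hf hf'
    · exact (false_of_dih hf z' (h1' _ n z) h2').elim
    · exact (false_of_dih hf' z (h1 _ n' z') h2).elim
    · exact le_antisymm (h1' _ n z) (h1 _ n' z')

end Cfsg.Agent.S4291
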