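import Cfsg.Statements.S4302
import Cfsg.Agent.H6.Offender
import Cfsg.Agent.H9.SylowNum
import Cfsg.Agent.H5.ThompsonAux
import Cfsg.Agent.H3.Modular
import Cfsg.Agent.H3.BGroup
import Cfsg.Agent.H1.PStd
-- import your own Cfsg.Agent.* helpers here

set_option autoImplicit false
open Cfsg

namespace Cfsg.Agent.S4302

open Subgroup Module H1
open scoped IsMulCommutative

variable {G : Type*} [Group G]

/-- Abelian subgroups of `T` of largest order. -/
def MA (T A : Subgroup G) : Prop :=
  A ≤ T ∧ IsMulCommutative A ∧ ∀ B ≤ T, IsMulCommutative B → Nat.card B ≤ Nat.card A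

theorem comm_map {H : Type*} [Group H] (f : G →* H) {A : Subgroup G} (h : IsMulCommutative A) :
    IsMulCommutative (A.map f) := inferInstance

theorem J_le_iff {T K : Subgroup G} : thompsonSubgroupAOf T ≤ K ↔ ∀ A, MA T A → A ≤ K := by
  rw [thompsonSubgroupAOf, thompsonSubgroupA, map_le_iff_le_comap, sSup_le_iff]
  refine ⟨fun h A hA => ?_, fun h A hA => map_le_iff_le_comap.1 (h _ ⟨map_subtype_le A,
    comm_map _ hA.1, fun B hB hc => ?_⟩)⟩
  · rw [← map_subgroupOf_eq_of_le hA.1, map_le_iff_le_comap]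
    have := hA.2.1
    refine h _ ⟨inferInstance, fun B hB => ?_⟩
    rw [Nat.card_congr (subgroupOfEquivOfLe hA.1).toEquiv, ← card_subtype]
    exact hA.2.2 _ (map_subtype_le B) (comm_map _ hB)
  · rw [card_subtype, ← Nat.card_congr (subgroupOfEquivOfLe hB).toEquiv]
    exact hA.2 _ inferInstance

/-- Let `X` be a finite solvable group whose Fitting subgroup is a 2-group (equivalently `F(X) = O₂(X)`), `T` a Sylow 2-subgroup of `X`, `J(T)` the subgroup generated by the abelian subgroups of `T` of largest order, `C` the largest normal subgroup of `X` centralizing the centre `Z(T)`, and `Y` the normal closure of `J(T)` in `X`. Then `X = C · Y · N_X(J(T))`, and either `Y ≤ C`, or `CY/C` is isomorphic to a direct product of at least one copy of the symmetric group of degree 3. -/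
theorem result {X : Type*} [Group X] [Finite X]
    [Group.IsSolvable X] (hF : Cfsg.fittingSubgroup X = Cfsg.pCore 2 X) (T : Sylow 2 X) :
    ((Subgroup.centralizer (((T : Subgroup X) ⊓ Subgroup.centralizer ((T : Subgroup X) : Set X) : Subgroup X) : Set X)).normalCore
        ⊔ Subgroup.normalClosure (Cfsg.thompsonSubgroupAOf (T : Subgroup X) : Set X)
        ⊔ Subgroup.normalizer (Cfsg.thompsonSubgroupAOf (T : Subgroup X) : Set X) = ⊤) ∧
    (Subgroup.normalClosure (Cfsg.thompsonSubgroupAOf (T : Subgroup X) : Set X)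
        ≤ (Subgroup.centralizer (((T : Subgroup X) ⊓ Subgroup.centralizer ((T : Subgroup X) : Set X) : Subgroup X) : Set X)).normalCore
      ∨ ∃ n : ℕ, 1 ≤ n ∧
        Nonempty (↥(Subgroup.normalClosure (Cfsg.thompsonSubgroupAOf (T : Subgroup X) : Set X)) ⧸
            ((Subgroup.centralizer (((T : Subgroup X) ⊓ Subgroup.centralizer ((T : Subgroup X) : Set X) : Subgroup X) : Set X)).normalCore).subgroupOf
              (Subgroup.normalClosure (Cfsg.thompsonSubgroupAOf (T : Subgroup X) : Set X))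
          ≃* (Fin n → Equiv.Perm (Fin 3)))) := by
  set Z := (T : Subgroup X) ⊓ centralizer ((T : Subgroup X) : Set X)
  set C := (centralizer (Z : Set X)).normalCore
  set J := thompsonSubgroupAOf (T : Subgroup X)
  set Y := normalClosure (J : Set X)
  have hp := Nat.prime_two
  have hJ : ∀ A, MA T A → A ≤ J := J_le_iff.1 le_rfl
  have hJT : J ≤ T := map_subtype_le _
  refine ⟨eq_top_iff.2 fun x _ => ?_, or_iff_not_imp_left.2 fun hY => ?_⟩
  · obtain ⟨g, hg, h⟩ := frattini_argument inf_le_right (T.isPGroup'.to_le inf_le_left)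
      (H9.not_dvd_relIndex_sylow_inf (C ⊔ Y) T) (le_normalizer_of_normal (mem_top x))
    rw [← inv_mul_cancel_left g x]
    refine mul_mem (mem_sup_left (inv_mem hg)) (mem_sup_right (mem_normalizer_fintype ?_))
    refine (J_le_iff.2 fun A hA => map_le_iff_le_comap.1 (hJ _ ⟨?_, comm_map _ hA.2.1,
      fun B hB hc => ?_⟩) : J ≤ J.comap (MulAut.conj (g * x)).toMonoidHom)
    · rintro _ ⟨a, ha, rfl⟩
      exact ((mem_normalizer_iff.1 h a).1 ⟨hA.1 ha, mem_sup_right (le_normalClosure (hJ A hA ha))⟩).1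
    · rw [card_map_of_injective (MulAut.conj _).injective]
      exact hA.2.2 B hB hc
  have hCQ : centralizer (pCore 2 X : Set X) ≤ pCore 2 X := hF ▸ L.centralizer_fittingSubgroup_le
  have hQT : pCore 2 X ≤ T := (L.isPGroup_pCore 2).le_sylow_of_normal T
  set V := normalClosure (Z : Set X)
  have hV : V ≤ pCore 2 X ⊓ centralizer (pCore 2 X : Set X) := normalClosure_le_normal fun z hz =>
    ⟨hCQ (centralizer_le hQT hz.2), centralizer_le hQT hz.2⟩
  have hVc : IsMulCommutative V := ⟨⟨fun a b => Subtype.ext ((hV b.2).2 a (hV a.2).1)⟩⟩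
  set W := omegaOne 2 V
  have := H3.omegaOne_normal 2 V
  have hW := H3.isElementaryAbelian_omegaOne hVc 2
  have := hW.1
  have hW' := pow_eq_one_of_isElementaryAbelian hW
  let ρ := autRep hW' (MulAut.conjNormal : X →* MulAut W)
  have hker : ∀ {x}, x ∈ ρ.ker ↔ x ∈ centralizer (W : Set X) := fun {x} =>
    stdRep_eq_one_iff hW' x
  have key : ∀ (D : Subgroup X) [D.Normal], (∀ x ∈ D, (orderOf x).Coprime 2 → x ∈ ρ.ker) → D ≤ C :=
    fun D _ h => normal_le_normalCore.2 (le_of_forall_exists_sylow_le fun p hp' => by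
      have := Fact.mk hp'
      by_cases e : p = 2
      · subst e
        exact ⟨_, H9.not_dvd_relIndex_sylow_inf D T, inf_le_left.trans
          (le_centralizer_iff.1 inf_le_right)⟩
      obtain ⟨P, h1, h2, h3⟩ := exists_sylow_le p D
      refine ⟨P, h3, fun x hx => centralizer_le le_normalClosure ?_⟩
      have hx' : (orderOf x).Coprime 2 := ((coprime_card_of_isPGroup h2 ((Nat.coprime_primes hp hp').2
        (Ne.symm e))).symm).coprime_dvd_left (P.orderOf_dvd_natCard hx)
      exact H5.mem_centralizer_of_omega ((L.isPGroup_pCore 2).to_le (hV.trans inf_le_left))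
        (le_normalizer_of_normal (mem_top x)) hx' fun z hz hz' =>
          hker.1 (h x (h1 hx) hx') z ((H3.mem_omegaOne_of_comm hVc).2 ⟨hz, hz'⟩))
  have hC : C = ρ.ker := le_antisymm (fun x hx => hker.2 (centralizer_le (H3.omegaOne_le 2 V)
    (le_centralizer_iff.1 (normalClosure_le_normal (le_centralizer_iff.1 (normalCore_le _))) hx)))
    (key _ fun _ h _ => h)
  set π := QuotientGroup.mk' ρ.ker
  have hO : pCore 2 (X ⧸ ρ.ker) = ⊥ := by
    rw [← map_comap_eq_self_of_surjective (QuotientGroup.mk'_surjective _) (pCore 2 _),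
      Subgroup.map_eq_bot_iff, QuotientGroup.ker_mk']
    refine (key _ fun x hx hx' => (QuotientGroup.eq_one_iff x).1
      (orderOf_eq_one_iff.1 ?_)).trans hC.le
    exact Nat.eq_one_of_dvd_coprimes (coprime_card_of_isPGroup (L.isPGroup_pCore 2) hx')
      (orderOf_map_dvd π x) (Subgroup.orderOf_dvd_natCard _ hx)
  have hρ : Function.Injective (kerRep ρ) := (injective_iff_map_eq_one _).2 (kerRep_eq_one ρ)
  have hF' : Odd (Nat.card (pPrimeCore 2 (X ⧸ ρ.ker))) :=
    Nat.coprime_two_right.1 (L.coprime_card_pPrimeCore 2)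
  have hC' := L.centralizer_pPrimeCore_le hp (L.isPSolvable_of_isSolvable hp) hO
  have : (Y.map π).Normal := Normal.map inferInstance _ (QuotientGroup.mk'_surjective _)
  obtain ⟨n, hn, ⟨e⟩⟩ := H6.nonempty_mulEquiv_pi_perm hρ hF' hC' (Y := Y.map π) (by
    rw [map_le_iff_le_comap]
    have : (Subgroup.closure {t | t ∈ Y.map π ∧ ∃ w φ, H6.Tv (kerRep ρ) t w φ}).Normal :=
      ⟨fun t ht g => (closure_le ((Subgroup.closure _).comap (MulAut.conj g).toMonoidHom)).2
        (by
          rintro s ⟨h1, _, _, h2⟩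
          exact Subgroup.subset_closure ⟨this.conj_mem s h1 g, _, _, h2.conj g⟩) ht⟩
    refine normalClosure_le_normal (J_le_iff.2 fun A hA => map_le_iff_le_comap.1
      ((H6.Off.le_closure hρ hF' hC' _ ((T.isPGroup'.to_le hA.1).map π) (comm_map _ hA.2.1) ?_).trans
      (Subgroup.closure_mono fun t ht => ⟨map_mono ((hJ A hA).trans le_normalClosure) ht.1, ht.2⟩)))
    have h1 := hA.2.2 ((A ⊓ ρ.ker) ⊔ W) (sup_le (inf_le_left.trans hA.1)
      ((H3.omegaOne_le 2 V).trans (hV.trans (inf_le_left.trans hQT)))) (H3.isMulCommutative_sup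
        ⟨⟨fun a b => Subtype.ext (by have := hA.2.1; exact setLike_mul_comm a.2.1 b.2.1)⟩⟩ hW.1
        (le_centralizer_iff.1 fun x hx => hker.1 hx.2))
    have h2 := card_sup_mul_card_inf (A := A ⊓ ρ.ker) (N := W) le_normalizer_of_normal
    have h3 := card_mul_relIndex (inf_le_left : A ⊓ ρ.ker ≤ A)
    rw [inf_relIndex_left, L.relIndex_eq_card_map_mk'] at h3
    have h4 : Nat.card (A ⊓ ρ.ker ⊓ W : Subgroup X) ≤ Nat.card (H6.fixS (kerRep ρ) (A.map π)) :=
      Nat.card_le_card_of_injective (fun w => ⟨eaOf hW' ⟨w, w.2.2⟩, H6.mem_fixS.2 (by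
        rintro _ ⟨a, ha, rfl⟩
        have := hA.2.1
        exact congrArg (eaOf hW') (Subtype.ext
          (mul_inv_eq_iff_eq_mul.2 (setLike_mul_comm ha w.2.1.1))))⟩) fun a b h =>
        Subtype.ext (congrArg Subtype.val ((eaOf hW').injective (congrArg Subtype.val h)) :)
    refine Nat.le_of_mul_le_mul_left ?_ (Nat.card_pos (α := (A ⊓ ρ.ker : Subgroup X)))
    rw [card_EA, ← h2, ← mul_assoc, h3]
    exact Nat.mul_le_mul h1 h4) fun h => hY (by
      rwa [Subgroup.map_eq_bot_iff, QuotientGroup.ker_mk', ← hC] at h)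
  refine ⟨n, hn, ⟨((QuotientGroup.quotientMulEquivOfEq ?_).trans
    ((QuotientGroup.quotientKerEquivRange (π.comp Y.subtype)).trans
      (MulEquiv.subgroupCongr ?_))).trans e⟩⟩
  · rw [← MonoidHom.comap_ker, QuotientGroup.ker_mk']
    exact congrArg (·.subgroupOf Y) hC
  · rw [MonoidHom.range_comp, range_subtype]

end Cfsg.Agent.S4302
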