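import Cfsg.Statements.S4330
import Cfsg.Agent.H2.Cov2

set_option autoImplicit false
open Pointwise
open Cfsg

namespace Cfsg.Agent.S4330

open Cfsg.Agent.FT Subgroup

/-- Let G be a finite solvable group, p an odd prime and A a p-subgroup of G such that every conjugacy class of G contains an element g for which A is subnormal in the subgroup generated by A and its conjugate by g. Then A is contained in O_p(G). (The hypothesis that p is odd is needed.) -/
theorem result {G : Type*} [Group G] [Finite G]
    (hG : Group.IsSolvable G) (p : ℕ) [Fact p.Prime] (hp : p ≠ 2) (A : Subgroup G) (hA : IsPGroup p A)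
    (h : ∀ c : G, ∃ g : G, IsConj c g ∧ (A.subgroupOf (A ⊔ MulAut.conj g • A)).IsSubnormal) :
    A ≤ Cfsg.pCore p G := by
  intro a ha
  refine H2.Cov.mem_pCore Fact.out hp G hG a (hA.to_le (zpowers_le.2 ha)) fun c => ?_
  obtain ⟨g, hg, h1⟩ := h c
  have h2 := (H2.snIn_iff.2 ⟨le_sup_left, h1⟩).le_pCoreOf hA
  have h3 : IsPGroup p ↥(MulAut.conj g • A) := hA.map _
  refine ⟨g, hg, (isPGroup_sup h3 (H2.isPGroup_pCoreOf p _)
    (le_sup_right.trans (H2.le_normalizer_pCoreOf p (A ⊔ MulAut.conj g • A)))).to_le ?_⟩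
  exact sup_le ((zpowers_le.2 (h2 ha)).trans le_sup_right)
    ((zpowers_le.2 (H2.conj_mem_conj_smul ha)).trans le_sup_left)

end Cfsg.Agent.S4330
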