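import Cfsg.Statements.S4331
import Cfsg.Agent.L.Cores
import Cfsg.Agent.H6.Burnside
import Cfsg.Agent.H2.Subnormal
import Cfsg.Agent.H1.Basic

set_option autoImplicit false
open Cfsg

namespace Cfsg.Agent.S4331

/-- Semilinear affine maps of the field with nine elements. -/
@[ext] structure T where
  a : ZMod 3
  b : ZMod 3
  s : ZMod 3
  v : ZMod 3
  w : ZMod 3
  deriving DecidableEq

instance : Fintype T :=
  Fintype.ofEquiv (ZMod 3 × ZMod 3 × ZMod 3 × ZMod 3 × ZMod 3)
    { toFun := fun x => ⟨x.1, x.2.1, x.2.2.1, x.2.2.2.1, x.2.2.2.2⟩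
      invFun := fun x => (x.a, x.b, x.s, x.v, x.w)
      left_inv := fun _ => rfl
      right_inv := fun _ => rfl }

def T.mul (x y : T) : T :=
  ⟨x.a * y.a - x.s * x.b * y.b, x.b * y.a + x.s * x.a * y.b, x.s * y.s,
    x.v + x.a * y.v - x.s * x.b * y.w, x.w + x.b * y.v + x.s * x.a * y.w⟩

def T.inv (x : T) : T :=
  let n := x.a * x.a + x.b * x.b
  ⟨n * x.a, - (n * x.s * x.b), x.s, - (n * (x.a * x.v + x.b * x.w)),
    n * x.s * (x.b * x.v - x.a * x.w)⟩

def T.good (x : T) : Prop := x.s * x.s = 1 ∧ (x.a * x.a + x.b * x.b) * (x.a * x.a + x.b * x.b) = 1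

instance : DecidablePred T.good := fun _ => inferInstanceAs (Decidable (_ ∧ _))

def A := {x : T // x.good}

instance : DecidableEq A := inferInstanceAs (DecidableEq {x : T // x.good})
instance : Fintype A := inferInstanceAs (Fintype {x : T // x.good})

theorem good_mul {x y : T} (hx : x.good) (hy : y.good) : (x.mul y).good := by
  obtain ⟨h1, h2⟩ := hx
  obtain ⟨h3, h4⟩ := hy
  refine ⟨?_, ?_⟩
  · simp only [T.mul]
    linear_combination (y.s * y.s) * h1 + h3
  · simp only [T.mul]
    have e : (x.a * y.a - x.s * x.b * y.b) * (x.a * y.a - x.s * x.b * y.b) +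
        (x.b * y.a + x.s * x.a * y.b) * (x.b * y.a + x.s * x.a * y.b) =
        (x.a * x.a + x.b * x.b) * (y.a * y.a + y.b * y.b) := by
      linear_combination (x.a * x.a + x.b * x.b) * y.b * y.b * h1
    rw [e]
    linear_combination ((y.a * y.a + y.b * y.b) * (y.a * y.a + y.b * y.b)) * h2 + h4

theorem good_inv : ∀ x : T, x.good → x.inv.good := by decide +kernel

instance : Mul A := ⟨fun x y => ⟨x.1.mul y.1, good_mul x.2 y.2⟩⟩
instance : One A := ⟨⟨⟨1, 0, 1, 0, 0⟩, by decide⟩⟩
instance : Inv A := ⟨fun x => ⟨x.1.inv, good_inv x.1 x.2⟩⟩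

theorem A.mul_assoc (x y z : A) : x * y * z = x * (y * z) := by
  obtain ⟨x, h1, -⟩ := x
  obtain ⟨y, h3, -⟩ := y
  obtain ⟨z, -⟩ := z
  apply Subtype.ext
  change (x.mul y).mul z = x.mul (y.mul z)
  ext <;> simp only [T.mul]
  · linear_combination (- y.s * x.a * y.b * z.b) * h1
  · linear_combination (- y.s * x.b * y.b * z.b) * h1
  · ring
  · linear_combination (- y.s * x.a * y.b * z.w) * h1
  · linear_combination (- y.s * x.b * y.b * z.w) * h1

instance : Group A := Group.ofLeftAxioms A.mul_assoc (by decide +kernel) (by decide +kernel)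

def t : A := ⟨⟨1, 0, -1, 0, 0⟩, by decide⟩

def S : Subgroup A where
  carrier := {x | x.1.v = 0 ∧ x.1.w = 0}
  one_mem' := ⟨rfl, rfl⟩
  mul_mem' := by
    rintro x y ⟨h1, h2⟩ ⟨h3, h4⟩
    change (x.1.mul y.1).v = 0 ∧ (x.1.mul y.1).w = 0
    simp [T.mul, h1, h2, h3, h4]
  inv_mem' := by
    rintro x ⟨h1, h2⟩
    change (x.1.inv).v = 0 ∧ (x.1.inv).w = 0
    simp [T.inv, h1, h2]

theorem key : ∀ c : A, ∃ x : A, ((x * c * x⁻¹).1.v = 0 ∧ (x * c * x⁻¹).1.w = 0) ∨
    (x * c * x⁻¹) * t = t * (x * c * x⁻¹) := by decide +kernel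

theorem pow_S : ∀ x : A, x.1.v = 0 → x.1.w = 0 →
    (x * x) * (x * x) * ((x * x) * (x * x)) = 1 := by decide +kernel

theorem card_A : Fintype.card A = 144 := by decide +kernel

theorem orderOf_t : orderOf t = 2 := orderOf_eq_prime (by rw [sq]; decide +kernel) (by decide)


/-- There is a finite solvable group G with a subgroup A of order 2 such that every conjugacy class of G contains an element g for which A is subnormal in the subgroup generated by A and g, and yet A is not contained in O_2(G). (So the corresponding criteria for odd primes fail at the prime 2, even for solvable groups.) -/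
theorem result :
    ∃ (G : Type) (_ : Group G) (_ : Finite G) (A : Subgroup G), Group.IsSolvable G ∧ Nat.card A = 2 ∧
      (∀ c : G, ∃ g : G, IsConj c g ∧ (A.subgroupOf (A ⊔ Subgroup.zpowers g)).IsSubnormal) ∧
      ¬ A ≤ Cfsg.pCore 2 G := by
  have : Fact (Nat.Prime 2) := ⟨Nat.prime_two⟩
  refine ⟨A, inferInstance, inferInstance, Subgroup.zpowers t, ?_, ?_, fun c => ?_, fun h => ?_⟩
  · refine H6.isSolvable_of_card_eq_pow_mul_pow (p := 2) (q := 3) (a := 4) (b := 2)
      Nat.prime_two Nat.prime_three ?_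
    rw [Nat.card_eq_fintype_card, card_A]; rfl
  · rw [Nat.card_zpowers, orderOf_t]
  · obtain ⟨x, hx⟩ := key c
    refine ⟨x * c * x⁻¹, isConj_iff.2 ⟨x, rfl⟩, ?_⟩
    rcases hx with hx | hx
    · have hS : IsPGroup 2 S := fun y => ⟨3, Subtype.ext (by
        have := pow_S y y.2.1 y.2.2
        rw [Subgroup.coe_pow, Subgroup.coe_one, ← this]
        simp only [show 2 ^ 3 = 8 from rfl, pow_succ, pow_zero, one_mul, mul_assoc])⟩
      have hle : Subgroup.zpowers t ⊔ Subgroup.zpowers (x * c * x⁻¹) ≤ S :=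
        sup_le (Subgroup.zpowers_le.2 ⟨rfl, rfl⟩) (Subgroup.zpowers_le.2 hx)
      have := (hS.to_le hle).isNilpotent
      exact H2.isSubnormal_of_isNilpotent _
    · refine Subgroup.Normal.isSubnormal ?_
      refine (Subgroup.normal_subgroupOf_iff_le_normalizer le_sup_left).2
        (sup_le Subgroup.le_normalizer (H1.le_normalizer_of_le_centralizer ?_))
      rw [Subgroup.zpowers_eq_closure t, Subgroup.centralizer_closure, Subgroup.zpowers_le,
        Subgroup.mem_centralizer_singleton_iff, hx]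
  · have ht : t ∈ pCore 2 A := h (Subgroup.mem_zpowers t)
    let x : A := ⟨⟨1, 0, 1, 0, 1⟩, by decide⟩
    have h1 : t * (x * t * x⁻¹) ∈ pCore 2 A :=
      mul_mem ht ((inferInstance : (pCore 2 A).Normal).conj_mem t ht x)
    obtain ⟨k, hk⟩ := L.isPGroup_pCore 2 ⟨_, h1⟩
    have h2 : orderOf (t * (x * t * x⁻¹)) = 3 :=
      haveI : Fact (Nat.Prime 3) := ⟨Nat.prime_three⟩
      orderOf_eq_prime (by rw [pow_three]; decide +kernel) (by decide +kernel)
    have h3 := orderOf_dvd_of_pow_eq_one (congrArg Subtype.val hk)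
    rw [h2] at h3
    have := Nat.prime_three.dvd_of_dvd_pow h3
    omega

end Cfsg.Agent.S4331
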