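import Cfsg.Statements.S4332
import Cfsg.Agent.H9.SymmAux
import Cfsg.Agent.L.Cores

set_option autoImplicit false
open Pointwise
open Cfsg

namespace Cfsg.Agent.S4332

section
open Equiv Equiv.Perm

theorem exists_not_mem {α : Type*} [Fintype α] [DecidableEq α] (s t : Finset α)
    (h : t.card < s.card) : ∃ y ∈ s, y ∉ t := by
  by_contra hc
  push Not at hc
  exact h.not_ge (Finset.card_le_card hc)

theorem commute_of {α : Type*} [DecidableEq α] {c : Perm α} {x y z : α}
    (h1 : c x ≠ x) (h2 : c x ≠ y) (h3 : c x ≠ z) (h4 : c y ≠ x) (h5 : c y ≠ y) (h6 : c y ≠ z)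
    (h7 : c z ≠ x) (h8 : c z ≠ y) (h9 : c z ≠ z) :
    Commute (swap x y * swap x z) (c * (swap x y * swap x z) * c⁻¹) := by
  have e : c * (swap x y * swap x z) * c⁻¹ = swap (c x) (c y) * swap (c x) (c z) := by
    rw [swap_apply_apply, swap_apply_apply]; group
  have key : ∀ a b u v : α, u ≠ a → u ≠ b → v ≠ a → v ≠ b → Commute (swap a b) (swap u v) := by
    intro a b u v e1 e2 e3 e4
    rw [Commute, SemiconjBy, mul_swap_eq_swap_mul, swap_apply_of_ne_of_ne e1 e2,
      swap_apply_of_ne_of_ne e3 e4]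
  rw [e]
  refine Commute.mul_left (Commute.mul_right ?_ ?_) (Commute.mul_right ?_ ?_) <;>
    apply key <;> assumption

theorem exists_triple (c : Perm (Fin 8)) : ∃ x y z : Fin 8, x ≠ y ∧ x ≠ z ∧ y ≠ z ∧
    Commute (swap x y * swap x z) (c * (swap x y * swap x z) * c⁻¹) := by
  have e : ∀ x y z : Fin 8,
      c * (swap x y * swap x z) * c⁻¹ = swap (c x) (c y) * swap (c x) (c z) := by
    intro x y z
    rw [swap_apply_apply, swap_apply_apply]; group
  by_cases hs : c.support.card ≤ 5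
  · have h3 : 2 < c.supportᶜ.card := by
      rw [Finset.card_compl, Fintype.card_fin]; omega
    obtain ⟨x, hx, y, hy, z, hz, hxy, hxz, hyz⟩ := Finset.two_lt_card.1 h3
    simp only [Finset.mem_compl, mem_support, not_not] at hx hy hz
    exact ⟨x, y, z, hxy, hxz, hyz, by rw [e, hx, hy, hz]⟩
  push Not at hs
  by_cases h2 : ∀ x, c (c x) = x
  · obtain ⟨x, hx, -⟩ := exists_not_mem c.support ∅ (by rw [Finset.card_empty]; omega)
    obtain ⟨y, hy, hy'⟩ := exists_not_mem c.support {x, c x}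
      (lt_of_le_of_lt Finset.card_le_two (by omega))
    obtain ⟨z, hz, hz'⟩ := exists_not_mem c.support {x, c x, y, c y}
      (lt_of_le_of_lt Finset.card_le_four (by omega))
    simp only [Finset.mem_insert, Finset.mem_singleton, not_or, mem_support] at hx hy hz hy' hz'
    refine ⟨x, y, z, Ne.symm hy'.1, Ne.symm hz'.1, Ne.symm hz'.2.2.1, commute_of hx
      (Ne.symm hy'.2) (Ne.symm hz'.2.1) (fun h => hy'.2 ?_) hy (Ne.symm hz'.2.2.2)
      (fun h => hz'.2.1 ?_) (fun h => hz'.2.2.2 ?_) hz⟩ <;> rw [← h, h2]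
  push Not at h2
  obtain ⟨x, hx2⟩ := h2
  have hx1 : c x ≠ x := fun h => hx2 (by rw [h, h])
  have hx12 : c (c x) ≠ c x := fun h => hx1 (c.injective h)
  by_cases hx3 : c (c (c x)) = x
  · refine ⟨x, c x, c (c x), hx1.symm, hx2.symm, hx12.symm, ?_⟩
    rw [e, hx3]
    generalize c (c x) = z at *
    generalize c x = y at *
    have : swap y z * swap y x = swap x y * swap x z := by
      rw [mul_swap_eq_swap_mul (swap x y), swap_apply_left, swap_apply_of_ne_of_ne hx2 hx12,
        swap_comm y x]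
    rw [this]
  obtain ⟨y, hy, hy'⟩ := exists_not_mem c.support {c⁻¹ x, x, c x, c (c x), c (c (c x))}
    (lt_of_le_of_lt Finset.card_le_five (by omega))
  simp only [Finset.mem_insert, Finset.mem_singleton, not_or, mem_support] at hy hy'
  refine ⟨x, c (c x), y, hx2.symm, Ne.symm hy'.2.1, Ne.symm hy'.2.2.2.1, commute_of hx1 hx12.symm
    (Ne.symm hy'.2.2.1) hx3 (fun h => hx12 (c.injective h)) (Ne.symm hy'.2.2.2.2)
    (fun h => hy'.1 ?_) (fun h => hy'.2.2.1 (c.injective h)) hy⟩
  rw [← h, ← Perm.mul_apply, inv_mul_cancel, Perm.one_apply]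

end

/-- In the symmetric group of degree 8, let A be the subgroup generated by a 3-cycle. Then every conjugacy class contains an element g for which A is subnormal in the subgroup generated by A and its conjugate by g, although O_3 of the symmetric group of degree 8 is trivial. -/
theorem result
    (σ : Equiv.Perm (Fin 8)) (hσ : σ.IsThreeCycle) :
    (∀ c : Equiv.Perm (Fin 8), ∃ g : Equiv.Perm (Fin 8), IsConj c g ∧
      ((Subgroup.zpowers σ).subgroupOf (Subgroup.zpowers σ ⊔ MulAut.conj g • Subgroup.zpowers σ)).IsSubnormal) ∧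
    Cfsg.pCore 3 (Equiv.Perm (Fin 8)) = ⊥ := by
  refine ⟨fun c => ?_, ?_⟩
  · obtain ⟨x, y, z, hxy, hxz, hyz, hc⟩ := exists_triple c
    have hτ := Equiv.Perm.isThreeCycle_swap_mul_swap_same hxy hxz hyz
    obtain ⟨h, hh⟩ := isConj_iff.1 (Equiv.Perm.isConj_iff_cycleType_eq.2
      (hτ.cycleType.trans hσ.cycleType.symm))
    set τ := Equiv.swap x y * Equiv.swap x z
    refine ⟨h * c * h⁻¹, isConj_iff.2 ⟨h, rfl⟩, Subgroup.Normal.isSubnormal ?_⟩
    refine (Subgroup.normal_subgroupOf_iff_le_normalizer le_sup_left).2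
      (sup_le Subgroup.le_normalizer (H1.le_normalizer_of_le_centralizer ?_))
    rw [Subgroup.zpowers_eq_closure σ, Subgroup.centralizer_closure, ← Subgroup.zpowers_eq_closure σ,
      ← H1.map_conj_eq_smul, MonoidHom.map_zpowers,
      Subgroup.zpowers_le, Subgroup.mem_centralizer_singleton_iff, ← hh]
    change h * c * h⁻¹ * (h * τ * h⁻¹) * (h * c * h⁻¹)⁻¹ * (h * τ * h⁻¹) =
      h * τ * h⁻¹ * (h * c * h⁻¹ * (h * τ * h⁻¹) * (h * c * h⁻¹)⁻¹)
    calc _ = h * ((c * τ * c⁻¹) * τ) * h⁻¹ := by group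
      _ = h * (τ * (c * τ * c⁻¹)) * h⁻¹ := by rw [hc.eq]
      _ = _ := by group
  · by_contra hne
    have h1 := H9.card_dvd_of_normal hne
    have : Fact (Nat.Prime 3) := ⟨Nat.prime_three⟩
    obtain ⟨k, hk⟩ := (L.isPGroup_pCore (G := Equiv.Perm (Fin 8)) 3).exists_card_eq
    rw [hk, Fintype.card_fin] at h1
    have := Nat.prime_two.dvd_of_dvd_pow ((by norm_num : 2 ∣ 8).trans h1)
    omega

end Cfsg.Agent.S4332
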