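import Cfsg.Statements.S4334
import Cfsg.Agent.H6.NilpHall
import Cfsg.Agent.H8.Frobenius
import Cfsg.Agent.H1.Hall
import Cfsg.Agent.H2.Radical

set_option autoImplicit false
open Cfsg

namespace Cfsg.Agent.S4334

section
open Subgroup

variable {G : Type*} [Group G] [Finite G]

def Dom (π : Set ℕ) (H : Subgroup G) : Prop :=
  ∀ K : Subgroup G, IsPiSubgroup π K → ∃ g : G, K.map (MulAut.conj g).toMonoidHom ≤ H

theorem maximal_of_hall {π : Set ℕ} {H : Subgroup G} (hH : IsPiHall π H) :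
    Maximal (IsPiSubgroup π) H :=
  ⟨(H1.isPiHall_iff.1 hH).1, fun _ hU hle =>
    (H1.eq_of_isPiHallOf_of_le (H1.isPiHallOf_top_iff.2 hH) hle le_top hU).le⟩

theorem dom_of_isD {π : Set ℕ} {H : Subgroup G} (hH : IsPiHall π H) (hD : IsDPiGroup π G) :
    Dom π H := by
  intro K hK
  obtain ⟨M, hKM, hM⟩ := Finite.exists_le_maximal hK
  obtain ⟨g, hg⟩ := hD M H hM (maximal_of_hall hH)
  exact ⟨g, hg ▸ map_mono hKM⟩

theorem isD_of_dom {π : Set ℕ} {H : Subgroup G} (hH : IsPiSubgroup π H) (hD : Dom π H) :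
    IsDPiGroup π G := by
  have key : ∀ M : Subgroup G, Maximal (IsPiSubgroup π) M →
      ∃ g : G, M = H.map (MulAut.conj g).toMonoidHom := by
    intro M hM
    obtain ⟨g, hg⟩ := hD M hM.prop
    have h1 : M ≤ H.map (MulAut.conj g⁻¹).toMonoidHom := by
      have := map_mono (f := (MulAut.conj g⁻¹).toMonoidHom) hg
      rwa [H1.map_conj_map_conj, inv_mul_cancel, H1.map_conj_one] at this
    exact ⟨g⁻¹, h1.antisymm (hM.le_of_ge (L.IsPiSubgroup.map hH _) h1)⟩
  intro M K hM hK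
  obtain ⟨g, rfl⟩ := key M hM
  obtain ⟨k, rfl⟩ := key K hK
  exact ⟨k * g⁻¹, by rw [H1.map_conj_map_conj, inv_mul_cancel_right]⟩

theorem hall_part {σ τ : Set ℕ} (hd : Disjoint σ τ) {U T : Subgroup G}
    (hn : U ≤ normalizer (T : Set G)) (hU : IsPiSubgroup σ U) (hT : IsPiSubgroup τ T)
    (hH : IsPiHall (σ ∪ τ) (U ⊔ T)) : IsPiHall τ T := by
  refine H1.isPiHall_iff.2 ⟨hT, ?_⟩
  rw [← relIndex_mul_index (le_sup_right : T ≤ U ⊔ T), H1.relIndex_sup_of_le_normalizer hn]
  refine L.IsPiNum.mul (fun r hr hd' => ?_) fun r hr hd' h => ?_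
  · exact Set.disjoint_left.1 hd (hU r hr (hd'.trans (relIndex_dvd_card _ _)))
  · exact (H1.isPiHall_iff.1 hH).2 r hr hd' (Or.inr h)

theorem step {p : ℕ} (hp : p.Prime) {τ : Set ℕ} (hpτ : p ∉ τ) {P T : Subgroup G}
    (hP : IsPGroup p P) (hT : IsPiSubgroup τ T) (hc : T ≤ centralizer (P : Set G))
    (hH : IsPiHall ({p} ∪ τ) (P ⊔ T)) (hD : Dom τ T) : Dom ({p} ∪ τ) (P ⊔ T) := by
  have := Fact.mk hp
  have hd : Disjoint {p} τ := Set.disjoint_singleton_left.2 hpτ
  have hP' := (L.isPiSubgroup_singleton_iff hp).2 hP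
  have hc' : P ≤ centralizer (T : Set G) := le_centralizer_iff.1 hc
  have hTH := hall_part hd (H1.le_normalizer_of_le_centralizer hc') hP' hT hH
  have hPH := hall_part hd.symm (H1.le_normalizer_of_le_centralizer hc) hT hP'
    (by rwa [Set.union_comm, sup_comm])
  have hPi : ¬ p ∣ P.index := fun h => (H1.isPiHall_iff.1 hPH).2 p hp h rfl
  have hPi' : ∀ N : Subgroup G, P ≤ N → ¬ p ∣ P.relIndex N := fun N hN h =>
    hPi (h.trans (relIndex_dvd_index_of_le hN))
  have stepA : ∀ U : Subgroup G, IsPGroup p U → ∀ y ∈ normalizer (U : Set G), ∀ q k : ℕ,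
      q.Prime → q ∈ τ → orderOf y = q ^ k → y ∈ centralizer (U : Set G) := by
    intro U hU y hy q k hq hqτ ho
    have := Fact.mk hq
    obtain ⟨g, -, hg⟩ := H1.exists_conj_le_sylow hP (hPi' ⊤ le_top) le_top hU
    set U' := U.map (MulAut.conj g).toMonoidHom with hU'
    have hTU : T ≤ centralizer (U' : Set G) := hc.trans (centralizer_le hg)
    obtain ⟨R, hRT, hR, hRi⟩ := H1.exists_sylow_le q T
    have hTN := H1.le_normalizer_of_le_centralizer hTU
    have hRi' : ¬ q ∣ R.relIndex (normalizer (U' : Set G)) := by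
      rw [← relIndex_mul_relIndex _ _ _ hRT hTN]
      refine fun h => ((Nat.Prime.dvd_mul hq).1 h).elim hRi fun h => ?_
      exact (H1.isPiHall_iff.1 hTH).2 q hq (h.trans (relIndex_dvd_index_of_le hTN)) hqτ
    have hy' : g * y * g⁻¹ ∈ normalizer (U' : Set G) := by
      rw [hU', H1.normalizer_map_conj, H1.mem_map_conj]
      simpa [mul_assoc] using hy
    obtain ⟨n, hn, hle⟩ := H1.exists_conj_le_sylow hR hRi' (zpowers_le.2 hy')
      (H8.isPGroup_zpowers_of_orderOf (k := k) (by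
        rw [← ho]; exact (MulAut.conj g).orderOf_eq y))
    have h1 : n * (g * y * g⁻¹) * n⁻¹ ∈ centralizer (U' : Set G) :=
      hTU (hRT (H1.map_conj_le_iff.1 hle _ (mem_zpowers _)))
    have h2 := H1.conj_mem_of_le_normalizer' (H1.normalizer_le_normalizer_centralizer U') hn h1
    rw [hU', H1.centralizer_map_conj, H1.mem_map_conj] at h2
    simpa [mul_assoc] using h2
  intro K hK
  have hnpc : HasNormalPComplement p K := by
    refine H8.hasNPC_of_primePow_centralizes (default : Sylow p K) fun X hX _ y hy q k hq hqp ho => ?_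
    rcases k with _ | k
    · rw [pow_zero, orderOf_eq_one_iff] at ho
      exact ho ▸ one_mem _
    have hqτ : q ∈ τ := (hK q hq ((ho ▸ dvd_pow_self q (Nat.succ_ne_zero k) :
      q ∣ orderOf y).trans (orderOf_dvd_natCard y))).resolve_left hqp
    have := stepA (X.map K.subtype) (((default : Sylow p K).isPGroup'.to_le hX).map _) y
      (le_normalizer_map K.subtype (mem_map_of_mem _ hy)) q (k + 1) hq hqτ (by rwa [orderOf_coe])
    intro x hx
    exact Subtype.ext (this x (mem_map_of_mem _ hx))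
  obtain ⟨N, hN, hNp, j, hNi⟩ := H8.hasNPC_iff_exists.1 hnpc
  set N' := N.map K.subtype with hN'
  have hN'K : N' ≤ K := map_subtype_le N
  have hKN : K ≤ normalizer (N' : Set G) := H2.le_normalizer_map_subtype N
  have hN'τ : IsPiSubgroup τ N' := by
    intro r hr hd'
    refine (hK r hr (hd'.trans (card_dvd_of_le hN'K))).resolve_left fun e => ?_
    rw [H2.card_map_subtype, show r = p from e] at hd'
    exact (Nat.Prime.coprime_iff_not_dvd hp).1 hNp.symm hd'
  obtain ⟨Q, hQK, hQ, hQi⟩ := H1.exists_sylow_le p K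
  have hK' : K ≤ Q ⊔ N' := by
    rw [← relIndex_eq_one]
    have h1 : (Q ⊔ N').relIndex K ∣ p ^ j := by
      refine (relIndex_dvd_of_le_left K le_sup_right).trans ?_
      rw [← hNi, relIndex, hN', subgroupOf, comap_map_eq_self_of_injective K.subtype_injective]
    obtain ⟨i, -, hi⟩ := (Nat.dvd_prime_pow hp).1 h1
    rcases i with _ | i
    · simpa using hi
    · exact absurd ((hi ▸ dvd_pow_self p (Nat.succ_ne_zero i) : p ∣ _).trans
        (relIndex_dvd_of_le_left K le_sup_left)) hQi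
  obtain ⟨g, hg⟩ := hD N' hN'τ
  set N₁ := N'.map (MulAut.conj g).toMonoidHom with hN₁
  have hPN : P ≤ normalizer (N₁ : Set G) :=
    H1.le_normalizer_of_le_centralizer (hc'.trans (centralizer_le hg))
  have hQN : Q.map (MulAut.conj g).toMonoidHom ≤ normalizer (N₁ : Set G) :=
    (map_mono (hQK.trans hKN)).trans (le_normalizer_map _)
  obtain ⟨n, hn, hle⟩ := H1.exists_conj_le_sylow hP (hPi' _ hPN) hQN (hQ.map _)
  refine ⟨n * g, (map_mono hK').trans ?_⟩
  rw [Subgroup.map_sup, ← H1.map_conj_map_conj, ← H1.map_conj_map_conj, ← hN₁,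
    H1.map_conj_eq_self_iff.2 hn]
  exact sup_le_sup hle hg

theorem main {τ : Set ℕ} {T : Subgroup G} (hT : IsPiSubgroup τ T) (hD : IsDPiGroup τ G)
    (U : Subgroup G) : ∀ σ : Set ℕ, Disjoint σ τ → IsPiSubgroup σ U → Group.IsNilpotent U →
      T ≤ centralizer (U : Set G) → IsPiHall (σ ∪ τ) (U ⊔ T) → Dom (σ ∪ τ) (U ⊔ T) := by
  induction U using WellFoundedLT.induction with
  | ind U ih =>
  intro σ hd hU hn hc hH
  by_cases h1 : Nat.card U = 1
  · have hTH := hall_part hd (H1.le_normalizer_of_le_centralizer (le_centralizer_iff.1 hc)) hU hT hH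
    obtain rfl := card_eq_one.1 h1
    rw [bot_sup_eq] at hH ⊢
    intro K hK
    refine dom_of_isD hTH hD K fun r hr hd' => hT r hr (hd'.trans ?_)
    exact H1.card_dvd_of_isPiHallOf (H1.isPiHallOf_top_iff.2 hH) le_top hK
  obtain ⟨p, hp, hpU⟩ := Nat.exists_prime_and_dvd h1
  have hpσ := hU p hp hpU
  obtain ⟨A, B, hA, hB, hAp, hBp, hBA, hprod, -⟩ := H6.exists_decomp_of_isNilpotent hn hp
  have hAB : A ⊔ B = U := by
    refine le_antisymm (sup_le hA hB) fun u hu => ?_
    obtain ⟨a, ha, b, hb, rfl⟩ := hprod u hu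
    exact mul_mem_sup ha hb
  have hnd : ¬ p ∣ Nat.card B := (Nat.Prime.coprime_iff_not_dvd hp).1 hBp.symm
  have e1 : σ ∪ τ = {p} ∪ ((σ \ {p}) ∪ τ) := by
    rw [← Set.union_assoc, Set.union_diff_cancel (Set.singleton_subset_iff.2 hpσ)]
  have hBσ : IsPiSubgroup (σ \ {p}) B := fun r hr hd' =>
    ⟨hU r hr (hd'.trans (card_dvd_of_le hB)), fun e => hnd (e ▸ hd')⟩
  have hcB : T ≤ centralizer (B : Set G) := hc.trans (centralizer_le hB)
  have hBT : IsPiSubgroup ((σ \ {p}) ∪ τ) (B ⊔ T) := L.IsPiSubgroup.sup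
    (fun r hr h => Or.inl (hBσ r hr h)) (fun r hr h => Or.inr (hT r hr h))
    (H1.le_normalizer_of_le_centralizer (le_centralizer_iff.1 hcB))
  have hpτ : p ∉ (σ \ {p}) ∪ τ := fun h => h.elim (fun h => h.2 rfl) (Set.disjoint_left.1 hd hpσ)
  have hcA : B ⊔ T ≤ centralizer (A : Set G) := sup_le hBA (hc.trans (centralizer_le hA))
  rw [← hAB, sup_assoc, e1] at hH ⊢
  refine step hp hpτ hAp hBT hcA hH (ih B (lt_of_le_of_ne hB fun e => hnd (e ▸ hpU)) _
    (hd.mono_left Set.diff_subset) hBσ (L.isNilpotent_of_le hB) hcB ?_)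
  exact hall_part (Set.disjoint_singleton_left.2 hpτ)
    (H1.le_normalizer_of_le_centralizer (le_centralizer_iff.1 hcA))
    ((L.isPiSubgroup_singleton_iff hp).2 hAp) hBT hH

end

/-- Let σ and τ be disjoint sets of primes with union π. Suppose a finite group G has a Hall π-subgroup H which is the direct product of a nilpotent σ-subgroup and a τ-subgroup (two elementwise-commuting subgroups generating H), and that the maximal τ-subgroups of G are pairwise conjugate. Then the maximal π-subgroups of G are pairwise conjugate. -/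
theorem result {G : Type*} [Group G] [Finite G]
    (σ τ π : Set ℕ) (hπ : π = σ ∪ τ) (hd : Disjoint σ τ) (H Hs Ht : Subgroup G) (hH : Cfsg.IsPiHall π H)
    (hs : Cfsg.IsPiSubgroup σ Hs) (ht : Cfsg.IsPiSubgroup τ Ht) (hsn : Group.IsNilpotent Hs)
    (hjoin : Hs ⊔ Ht = H) (hcomm : ∀ a ∈ Hs, ∀ b ∈ Ht, a * b = b * a) (hD : Cfsg.IsDPiGroup τ G) :
    Cfsg.IsDPiGroup π G := by
  subst hπ hjoin
  exact isD_of_dom (H1.isPiHall_iff.1 hH).1
    (main ht hD Hs σ hd hs hsn (fun b hb a ha => hcomm a ha b hb) hH)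

end Cfsg.Agent.S4334
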