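import Cfsg.Statements.S4338
import Cfsg.Agent.P12.Fin2
import Cfsg.Agent.P12.Main
import Cfsg.Agent.P12.Rec

set_option autoImplicit false
open Cfsg

namespace Cfsg.Agent.S4338

/-- Let G be a finite group and p a prime, and suppose the number n of Sylow p-subgroups of G is less than p². Then n is a power of a prime (possibly 1), or p = 13 and n = 144, or p is odd with p + 1 not a power of 2 and n = 1 + p, or p > 3 with p - 1 a power of 2 and n = 1 + (p - 3)p/2, or p > 3 with p + 1 a power of 2 and n = 1 + (p + 3)p/2. -/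
theorem result {G : Type*} [Group G] [Finite G]
    (p : ℕ) [Fact p.Prime] (hn : Nat.card (Sylow p G) < p ^ 2) :
    (∃ q k : ℕ, q.Prime ∧ Nat.card (Sylow p G) = q ^ k) ∨
    (p = 13 ∧ Nat.card (Sylow p G) = 144) ∨
    (p ≠ 2 ∧ (¬ ∃ k : ℕ, p + 1 = 2 ^ k) ∧ Nat.card (Sylow p G) = 1 + p) ∨
    (3 < p ∧ (∃ k : ℕ, p = 2 ^ k + 1) ∧ 2 * Nat.card (Sylow p G) = 2 + (p - 3) * p) ∨
    (3 < p ∧ (∃ k : ℕ, p + 1 = 2 ^ k) ∧ 2 * Nat.card (Sylow p G) = 2 + (p + 3) * p) := by
  exact P12.s4338 P12.mainStmt P12.recStmt p hn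

end Cfsg.Agent.S4338
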