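import Cfsg.Statements.S4344
import Cfsg.Agent.H9.SylowNum

set_option autoImplicit false
open Cfsg

namespace Cfsg.Agent.S4344

/-- Let S be a finite non-abelian simple group, M a maximal subgroup of S and C a cyclic normal subgroup of M. If a Sylow p-subgroup P of S (for a prime p dividing the order of S) is contained in C, then the number of Sylow p-subgroups of S equals the index of M. -/
theorem result {S : Type*} [Group S] [Finite S]
    [IsSimpleGroup S] (hS : ¬ IsMulCommutative S) (p : ℕ) [Fact p.Prime] (hp : p ∣ Nat.card S)
    (M : Subgroup S) (hM : IsCoatom M) (C : Subgroup S) (hCM : C ≤ M) (hCn : (C.subgroupOf M).Normal)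
    (hC : IsCyclic C) (P : Sylow p S) (hP : (P : Subgroup S) ≤ C) :
    Nat.card (Sylow p S) = M.index := by
  rw [H9.card_sylow_eq_index P.isPGroup' P.not_dvd_index]
  congr 1
  have h1 : M ≤ Subgroup.normalizer ((P : Subgroup S) : Set S) := by
    have h2 : M ≤ Subgroup.normalizer (C : Set S) :=
      (Subgroup.normal_subgroupOf_iff_le_normalizer hCM).1 hCn
    have : (P.subtype hP).Normal := by
      have := hC.isMulCommutative
      infer_instance
    have := (P.subtype hP).characteristic_of_normal this
    have h3 := H1.le_normalizer_map_subtype_of_characteristic h2 (P.subtype hP : Subgroup C)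
    rwa [Sylow.coe_subtype, Subgroup.subgroupOf_map_subtype, inf_eq_left.2 hP] at h3
  rcases h1.eq_or_lt with h | h
  · exact h.symm
  · exfalso
    have h2 := Subgroup.normalizer_eq_top_iff.1 (hM.2 _ h)
    rcases h2.eq_bot_or_eq_top with h3 | h3
    · exact P.ne_bot_of_dvd_card hp h3
    · exact hM.1 (top_le_iff.1 (h3 ▸ hP.trans hCM))

end Cfsg.Agent.S4344
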