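import Cfsg.Statements.S4346
import Cfsg.Agent.H9.SylowLines

set_option autoImplicit false
open Cfsg

namespace Cfsg.Agent.S4346

section
open Subgroup MulAction H9 Pointwise

theorem line_bound {G : Type*} [Group G] [Finite G] {p : ℕ} [hp : Fact p.Prime] {P Q : Sylow p G}
    (h : SylAdj P Q) : ∃ t, {R | SylAdj P R}.ncard + 1 =
      {R : Sylow p G | (P : Subgroup G) ⊓ (Q : Subgroup G) ≤ R}.ncard + t ∧
      {R : Sylow p G | (P : Subgroup G) ⊓ (Q : Subgroup G) ≤ R}.ncard * (t + 1) ≤
        Nat.card (Sylow p G) ∧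
      (t = 0 → {R : Sylow p G | (P : Subgroup G) ⊓ (Q : Subgroup G) ≤ R} =
        {R | R = P ∨ SylAdj P R}) := by
  classical
  let _ := Fintype.ofFinite (Sylow p G)
  set D := (P : Subgroup G) ⊓ (Q : Subgroup G) with hD
  set L : Set (Sylow p G) := {R | D ≤ R} with hL
  have hDc : ∀ R : Sylow p G, Nat.card D * p = Nat.card (R : Subgroup G) := fun R =>
    (sylAdj_iff.1 h).trans (card_sylow_eq_card P R)
  have key : ∀ β ∈ L, {R | SylAdj β R}.ncard + 1 = L.ncard + ({R | SylAdj β R} \ L).ncard := by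
    intro β hβ
    rw [← Set.ncard_insert_of_notMem (a := β) (fun h => SylAdj.ne h rfl),
      ← Set.ncard_union_eq Set.disjoint_sdiff_right]
    congr 1
    ext R
    simp only [Set.mem_insert_iff, Set.mem_ofPred_eq, Set.mem_union, Set.mem_sdiff]
    constructor
    · rintro (rfl | h)
      · exact Or.inl hβ
      · tauto
    · rintro (h | h)
      · by_cases h' : R = β
        · exact Or.inl h'
        · exact Or.inr (sylAdj_of_le (hDc β) hβ h (Ne.symm h'))
      · exact Or.inr h.1
  have hPL : P ∈ L := show D ≤ P from inf_le_left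
  refine ⟨({R | SylAdj P R} \ L).ncard, key P hPL, ?_, ?_⟩
  · have hdisj : ((L.toFinset : Finset (Sylow p G)) : Set (Sylow p G)).PairwiseDisjoint
        (fun β => ({R | SylAdj β R} \ L).toFinset) := by
      intro β hβ γ hγ hne
      rw [Function.onFun, Finset.disjoint_left]
      intro R h1 h2
      simp only [Set.coe_toFinset] at hβ hγ
      rw [Set.mem_toFinset] at h1 h2
      apply h1.2
      have := (sylAdj_of_le (hDc β) hβ hγ hne).inf_le (SylAdj.symm h1.1) (SylAdj.symm h2.1)
      exact (le_inf hβ hγ).trans this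
    have h1 := Finset.card_biUnion hdisj
    have h2 : ∑ β ∈ L.toFinset, ({R | SylAdj β R} \ L).toFinset.card =
        L.ncard * ({R | SylAdj P R} \ L).ncard := by
      rw [Finset.sum_congr rfl (g := fun _ => ({R | SylAdj P R} \ L).ncard)]
      · rw [Finset.sum_const, smul_eq_mul, ← Set.ncard_eq_toFinset_card' L]
      · intro β hβ
        rw [Set.mem_toFinset] at hβ
        rw [← Set.ncard_eq_toFinset_card']
        have a1 := key β hβ
        have a2 := key P hPL
        rw [ncard_sylAdj_eq β P] at a1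
        omega
    have h3 : Disjoint (L.toFinset.biUnion (fun β => ({R | SylAdj β R} \ L).toFinset))
        L.toFinset := by
      rw [Finset.disjoint_left]
      intro R h1 h2
      rw [Finset.mem_biUnion] at h1
      obtain ⟨β, -, h1⟩ := h1
      rw [Set.mem_toFinset] at h1 h2
      exact h1.2 h2
    have h4 := Finset.card_le_univ
      (L.toFinset.biUnion (fun β => ({R | SylAdj β R} \ L).toFinset) ∪ L.toFinset)
    rw [Finset.card_union_of_disjoint h3, h1, h2, ← Set.ncard_eq_toFinset_card',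
      ← Nat.card_eq_fintype_card] at h4
    rw [mul_add, mul_one]
    exact h4
  · intro ht
    rw [Set.ncard_eq_zero, Set.sdiff_eq_empty] at ht
    ext R
    constructor
    · intro hR
      by_cases h' : R = P
      · exact Or.inl h'
      · exact Or.inr (sylAdj_of_le (hDc P) hPL hR (Ne.symm h'))
    · rintro (rfl | hR)
      · exact hPL
      · exact ht hR

theorem card_sylow_three {S : Type*} [Group S] [Finite S] [IsSimpleGroup S]
    (hS : ¬ IsMulCommutative S) [Fact (Nat.Prime 3)] (hn : Nat.card (Sylow 3 S) = 22)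
    (P : Sylow 3 S) : Nat.card P = 3 := by
  have ha : ∀ P : Sylow 3 S, {R | SylAdj P R}.ncard = 3 ∨ {R | SylAdj P R}.ncard = 12 ∨
      {R | SylAdj P R}.ncard = 21 := by
    intro P
    have h1 := sq_dvd_ncard_not_sylAdj P
    have h2 := card_sylow_eq_add P
    omega
  have hline : ∀ P Q : Sylow 3 S, SylAdj P Q →
      {R : Sylow 3 S | (P : Subgroup S) ⊓ (Q : Subgroup S) ≤ R} = {R | R = P ∨ SylAdj P R} := by
    intro P Q h
    obtain ⟨t, h1, h2, h3⟩ := line_bound h
    apply h3
    have h4 := ncard_sylow_ge_modEq_one (D := (P : Subgroup S) ⊓ (Q : Subgroup S))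
      P.isPGroup'.to_inf_left
    have h5 : 1 < {R : Sylow 3 S | (P : Subgroup S) ⊓ (Q : Subgroup S) ≤ R}.ncard := by
      rw [Set.one_lt_ncard]
      exact ⟨P, show (P : Subgroup S) ⊓ (Q : Subgroup S) ≤ P from inf_le_left, Q,
        show (P : Subgroup S) ⊓ (Q : Subgroup S) ≤ Q from inf_le_right, h.ne⟩
    rw [hn] at h2
    unfold Nat.ModEq at h4
    have := ha P
    generalize {R : Sylow 3 S | (P : Subgroup S) ⊓ (Q : Subgroup S) ≤ R}.ncard = k at *
    have hk : k ≤ 22 := by nlinarith
    interval_cases k <;> omega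
  have hcl : ∀ P R : Sylow 3 S, (R = P ∨ SylAdj P R) →
      {T | T = R ∨ SylAdj R T} = {T | T = P ∨ SylAdj P T} := by
    rintro P R (rfl | h)
    · rfl
    · rw [← hline P R h, ← hline R P h.symm, inf_comm]
  have hblock : IsBlock S {T | T = P ∨ SylAdj P T} := by
    rw [isBlock_iff_smul_eq_of_nonempty]
    rintro g ⟨R, h1, h2⟩
    have e : g • {T | T = P ∨ SylAdj P T} = {T | T = g • P ∨ SylAdj (g • P) T} := by
      ext T
      rw [Set.mem_smul_set_iff_inv_smul_mem]
      simp only [Set.mem_ofPred_eq, inv_smul_eq_iff]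
      refine or_congr_right ⟨fun h => ?_, fun h => ?_⟩
      · simpa using h.smul g
      · simpa using h.smul g⁻¹
    rw [e] at h1 ⊢
    rw [← hcl _ _ h1, hcl _ _ h2]
  have hdvd := hblock.ncard_dvd_card ⟨P, Or.inl rfl⟩
  have e : {T | T = P ∨ SylAdj P T}.ncard = {R | SylAdj P R}.ncard + 1 := by
    rw [← Set.ncard_insert_of_notMem (a := P) (fun h => SylAdj.ne h rfl)]
    rfl
  rw [e, hn] at hdvd
  have h21 : {R | SylAdj P R}.ncard = 21 := by
    rcases ha P with h | h | h
    · rw [h] at hdvd; norm_num at hdvd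
    · rw [h] at hdvd; norm_num at hdvd
    · exact h
  have hall : ∀ Q R : Sylow 3 S, Q ≠ R → SylAdj Q R := by
    intro Q R hne
    have h2 := card_sylow_eq_add Q
    rw [ncard_sylAdj_eq Q P, h21, hn] at h2
    have h3 : {R | R ≠ Q ∧ ¬ SylAdj Q R}.ncard = 0 := by omega
    rw [Set.ncard_eq_zero] at h3
    by_contra h
    have : R ∈ {R | R ≠ Q ∧ ¬ SylAdj Q R} := ⟨hne.symm, h⟩
    rw [h3] at this
    exact this
  have : Nontrivial (Sylow 3 S) := Finite.one_lt_card_iff_nontrivial.1 (by omega)
  obtain ⟨Q, hQ⟩ := exists_ne P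
  have := card_pCore_mul_of_forall_sylAdj hQ.symm hall
  rw [pCore_eq_bot_of_simple hS, card_bot, one_mul] at this
  exact this.symm

theorem dvd_of_primes {n a : ℕ} {p : ℕ} (hp : p.Prime) (hn : n ≠ 0) (h : ∀ q, q.Prime → q ∣ n → q = p)
    (ha : n ∣ a) (h2 : ¬ p ^ 2 ∣ a) : n ∣ p := by
  obtain ⟨j, hj⟩ : ∃ j, n = p ^ j :=
    ⟨_, Nat.eq_prime_pow_of_unique_prime_dvd hn (fun {q} => h q)⟩
  have h1 : p ^ j ∣ a := hj ▸ ha
  have h2 : j ≤ 1 := by
    by_contra h
    exact h2 ((pow_dvd_pow p (by omega)).trans h1)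
  rw [hj]
  simpa using pow_dvd_pow p h2

theorem orderOf_eq_of_mem {G : Type*} [Group G] [Finite G] {r : ℕ} (hr : r.Prime) {R : Subgroup G}
    (hR : Nat.card R = r) {x : G} (hx : x ∈ R) (hx1 : x ≠ 1) : orderOf x = r := by
  have := orderOf_dvd_natCard (⟨x, hx⟩ : R)
  rw [← orderOf_coe, hR] at this
  rcases (Nat.dvd_prime hr).1 this with h | h
  · exact absurd (orderOf_eq_one_iff.1 h) hx1
  · exact h

theorem mem_centralizer_of_commute {G : Type*} [Group G] [Finite G] {r : ℕ} (hr : r.Prime)
    {R : Subgroup G} (hR : Nat.card R = r) {x t : G} (hx : x ∈ R) (hx1 : x ≠ 1)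
    (ht : t * x * t⁻¹ = x) : t ∈ centralizer (R : Set G) := by
  have hz : zpowers x = R := by
    refine H1.eq_of_le_of_card_le (zpowers_le.2 hx) ?_
    rw [Nat.card_zpowers, orderOf_eq_of_mem hr hR hx hx1, hR]
  intro y hy
  rw [← hz] at hy
  obtain ⟨n, rfl⟩ := hy
  have : Commute x t := by
    rw [mul_inv_eq_iff_eq_mul] at ht
    exact ht.symm
  exact (this.zpow_left n).eq

theorem simple_case {S : Type*} [Group S] [Finite S] [IsSimpleGroup S]
    (hS : ¬ IsMulCommutative S) [Fact (Nat.Prime 3)] (hn : Nat.card (Sylow 3 S) = 22) : False := by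
  have : Fact (Nat.Prime 11) := ⟨by norm_num⟩
  have : Fact (Nat.Prime 7) := ⟨by norm_num⟩
  have : Fact (Nat.Prime 5) := ⟨by norm_num⟩
  have hperf := commutator_eq_top_of_simple hS
  have hfaith : FaithfulSMul S (Sylow 3 S) := faithfulSMul_sylow (by rw [hn]; norm_num)
  have h3 := card_sylow_three hS hn
  have hrel : ∀ Q : Sylow 3 S, (centralizer ((Q : Subgroup S) : Set S)).relIndex
      (normalizer ((Q : Subgroup S) : Set S)) = 2 := by
    intro Q
    obtain ⟨k, h1, h2, h4, -⟩ := exists_card_normalizer_eq_of_simple hS Q (h3 Q)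
    rcases (Nat.dvd_prime Nat.prime_two).1 h1 with h | h
    · exact absurd h h2
    · exact h4.trans h
  -- a generator of each Sylow 3-subgroup
  have hgen : ∀ Q : Sylow 3 S, ∃ c ∈ (Q : Subgroup S), orderOf c = 3 ^ 1 ∧
      fixedBy (Sylow 3 S) c = {Q} := by
    intro Q
    obtain ⟨c, hc⟩ := exists_prime_orderOf_dvd_card' (G := Q) 3 (h3 Q).symm.dvd
    have hc' : orderOf (c : S) = 3 ^ 1 := by rw [orderOf_coe, hc, pow_one]
    have hc1 : (c : S) ≠ 1 := by
      intro h; rw [h, orderOf_one] at hc'; omega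
    exact ⟨c, c.2, hc', fixedBy_sylow_eq_singleton Q (h3 Q) c.2 hc1⟩
  have hmod3 : ∀ (Q : Sylow 3 S) (w : S), w ∈ centralizer ((Q : Subgroup S) : Set S) →
      (fixedBy (Sylow 3 S) w).ncard % 3 = 1 := by
    intro Q w hw
    obtain ⟨c, hc, hc', hfix⟩ := hgen Q
    have hcomm : Commute w c := (hw c hc).symm
    have h1 := ncard_fixedBy_modEq_of_commute (Ω := Sylow 3 S) hc' hcomm
    have h2 : fixedBy (Sylow 3 S) w ∩ fixedBy (Sylow 3 S) c = {Q} := by
      rw [hfix, Set.inter_eq_right, Set.singleton_subset_iff, mem_fixedBy,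
        Sylow.smul_eq_iff_mem_normalizer]
      exact centralizer_le_normalizer _ hw
    rw [h2, Set.ncard_singleton] at h1
    exact h1
  have hodd : ∀ w : S, (orderOf w).Coprime 2 → (fixedBy (Sylow 3 S) w).ncard ≠ 0 →
      (fixedBy (Sylow 3 S) w).ncard % 3 = 1 := by
    intro w hw h0
    obtain ⟨Q, hQ⟩ := Set.nonempty_of_ncard_ne_zero h0
    refine hmod3 Q w (mem_centralizer_of_coprime_relIndex ?_ (by rw [hrel]; exact hw))
    exact Sylow.smul_eq_iff_mem_normalizer.1 hQ
  -- general facts on elements of prime order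
  have hprime : ∀ (q : ℕ) (w : S), q.Prime → orderOf w = q →
      (fixedBy (Sylow 3 S) w).ncard < 22 ∧ q ∣ 22 - (fixedBy (Sylow 3 S) w).ncard ∧
      (q = 2 → 4 ∣ 22 - (fixedBy (Sylow 3 S) w).ncard) := by
    intro q w hq hw
    have : Fact q.Prime := ⟨hq⟩
    have hw1 : w ≠ 1 := by
      intro h; rw [h, orderOf_one] at hw; exact hq.one_lt.ne hw
    have a1 := ncard_fixedBy_lt (Ω := Sylow 3 S) hw1
    have a2 := (Nat.modEq_iff_dvd' a1.le).1
      (card_modEq_ncard_fixedBy (Ω := Sylow 3 S) (hw.trans (pow_one q).symm)).symm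
    rw [hn] at a1 a2
    refine ⟨a1, a2, ?_⟩
    rintro rfl
    have := four_dvd_of_sq_eq_one (Ω := Sylow 3 S) hperf (t := w)
      (by rw [← hw, pow_orderOf_eq_one])
    rwa [hn] at this
  have h11 : ∀ r : S, orderOf r = 11 → fixedBy (Sylow 3 S) r = ∅ := by
    intro r hr
    obtain ⟨a1, a2, -⟩ := hprime 11 r (by norm_num) hr
    have a3 := hodd r (by rw [hr]; norm_num)
    rw [← Set.ncard_eq_zero]
    omega
  obtain ⟨P⟩ : Nonempty (Sylow 3 S) := inferInstance
  obtain ⟨c, hc, hc', hfix⟩ := hgen P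
  have hidx : (normalizer ((P : Subgroup S) : Set S)).index = 22 := by
    rw [← hn]; exact P.card_eq_index_normalizer.symm
  have hPC : (P : Subgroup S) ≤ centralizer ((P : Subgroup S) : Set S) := by
    have : IsCyclic P := isCyclic_of_prime_card (h3 P)
    exact le_centralizer (P : Subgroup S)
  obtain ⟨m, hm⟩ : 3 ∣ Nat.card (centralizer ((P : Subgroup S) : Set S)) :=
    (h3 P).symm.dvd.trans (card_dvd_of_le hPC)
  have hcard : Nat.card S = 132 * m := by
    rw [← card_mul_index (normalizer ((P : Subgroup S) : Set S)), hidx,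
      ← H1.card_mul_relIndex (centralizer_le_normalizer _), hrel, hm]
    ring
  have h9 : ¬ 3 ^ 2 ∣ Nat.card S := by
    intro h
    have := P.pow_dvd_card_of_pow_dvd_card h
    rw [h3] at this
    norm_num at this
  have hm3 : ¬ 3 ∣ m := by
    rintro ⟨a, rfl⟩
    exact h9 ⟨44 * a, by rw [hcard]; ring⟩
  have hm560 : m ∣ 560 := by
    have a1 := card_centralizer_dvd_of_faithful (Ω := Sylow 3 S) (p := 3) (n := 7) (c := c)
      (by rw [← pow_one 3, ← hc', pow_orderOf_eq_one]) (by rw [hfix, hn, Set.ncard_singleton])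
    rw [hfix, Set.ncard_singleton] at a1
    have a2 : centralizer ((P : Subgroup S) : Set S) ≤ centralizer ({c} : Set S) :=
      centralizer_le (Set.singleton_subset_iff.2 hc)
    have a3 := (card_dvd_of_le a2).trans a1
    rw [hm] at a3
    have a4 : m ∣ 3 ^ 9 * 560 := (Dvd.intro_left _ rfl).trans (a3.trans (by norm_num [Nat.factorial]))
    exact Nat.Coprime.dvd_of_dvd_mul_left
      (Nat.Coprime.pow_right _ ((Nat.Prime.coprime_iff_not_dvd Nat.prime_three).2 hm3).symm) a4
  have hdvd : Nat.card S ∣ 132 * 560 := hcard ▸ Nat.mul_dvd_mul_left _ hm560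
  -- the Sylow 11-subgroup
  obtain ⟨R⟩ : Nonempty (Sylow 11 S) := inferInstance
  have h121 : ¬ 11 ^ 2 ∣ Nat.card S := fun h => by
    have := h.trans hdvd
    norm_num at this
  have hR : Nat.card R = 11 :=
    card_sylow_eq_of_not_sq_dvd R (by rw [hcard]; exact Dvd.dvd.mul_right (by norm_num) _) h121
  have hRfree : ∀ (Q : Sylow 3 S), ∀ r ∈ (R : Subgroup S), r • Q = Q → r = 1 := by
    intro Q r hr h
    by_contra hr1
    have := h11 r (orderOf_eq_of_mem (by norm_num) hR hr hr1)
    exact (this ▸ h : Q ∈ (∅ : Set (Sylow 3 S)))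
  have hCR : Nat.card (centralizer ((R : Subgroup S) : Set S)) = 11 := by
    have hRC : (R : Subgroup S) ≤ centralizer ((R : Subgroup S) : Set S) := by
      have : IsCyclic R := isCyclic_of_prime_card hR
      exact le_centralizer (R : Subgroup S)
    refine Nat.dvd_antisymm (dvd_of_primes (by norm_num) Nat.card_pos.ne' ?_
      (card_subgroup_dvd_card _) h121) (hR.symm.dvd.trans (card_dvd_of_le hRC))
    intro q hq hd
    have : Fact q.Prime := ⟨hq⟩
    obtain ⟨w, hw⟩ := exists_prime_orderOf_dvd_card' q hd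
    have hw' : orderOf (w : S) = q := by rw [orderOf_coe, hw]
    obtain ⟨a1, a2, a3⟩ := hprime q w hq hw'
    obtain ⟨r, hr⟩ := exists_prime_orderOf_dvd_card' (G := R) 11 hR.symm.dvd
    have hr' : orderOf (r : S) = 11 := by rw [orderOf_coe, hr]
    have a4 := ncard_fixedBy_modEq_of_commute (Ω := Sylow 3 S) (hr'.trans (pow_one 11).symm)
      (c := (w : S)) (w.2 r r.2).symm
    rw [h11 r hr', Set.inter_empty, Set.ncard_empty] at a4
    unfold Nat.ModEq at a4
    have a5 : (fixedBy (Sylow 3 S) (w : S)).ncard = 0 ∨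
      (fixedBy (Sylow 3 S) (w : S)).ncard = 11 := by omega
    rcases a5 with a5 | a5
    · rw [a5] at a2 a3
      rcases (Nat.Prime.dvd_mul hq (m := 2) (n := 11)).1 a2 with h | h
      · have := a3 ((Nat.prime_dvd_prime_iff_eq hq Nat.prime_two).1 h)
        omega
      · exact (Nat.prime_dvd_prime_iff_eq hq (by norm_num)).1 h
    · rw [a5] at a2
      exact (Nat.prime_dvd_prime_iff_eq hq (by norm_num)).1 a2
  -- elements of `N(R)` of order prime to `11` centralize no nontrivial element of `R`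
  have hNC : ∀ (q : ℕ) (t : S), q.Prime → q ≠ 11 → orderOf t = q →
      ∀ r ∈ (R : Subgroup S), t * r * t⁻¹ = r → r = 1 := by
    intro q t hq hq' ht r hr h
    by_contra hr1
    have a1 := mem_centralizer_of_commute (by norm_num) hR hr hr1 h
    have a2 := orderOf_dvd_natCard (⟨t, a1⟩ : centralizer ((R : Subgroup S) : Set S))
    rw [← orderOf_coe, hCR] at a2
    exact hq' ((Nat.prime_dvd_prime_iff_eq hq (by norm_num)).1 (ht ▸ a2))
  obtain ⟨k, hk1, hk2, -, hk⟩ := exists_card_normalizer_eq_of_simple hS R hR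
  have hk5 : ¬ 5 ∣ k := by
    intro h
    obtain ⟨t, ht⟩ := exists_prime_orderOf_dvd_card' (G := normalizer ((R : Subgroup S) : Set S)) 5
      (by rw [hk]; exact h.mul_left _)
    have ht' : orderOf (t : S) = 5 := by rw [orderOf_coe, ht]
    obtain ⟨a1, a2, -⟩ := hprime 5 t (by norm_num) ht'
    have a3 := hodd t (by rw [ht']; norm_num)
    have a4 := ncard_mul_card_le t.2 (hNC 5 t (by norm_num) (by norm_num) ht')
      (fixedBy (Sylow 3 S) (t : S)) (fun a ha => ha) (fun a _ => hRfree a)
    rw [hR, hn] at a4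
    omega
  have hk' : k = 2 := by
    have : k ≤ 10 := Nat.le_of_dvd (by norm_num) hk1
    interval_cases k <;> simp_all
  subst hk'
  have hn11 : Nat.card (Sylow 11 S) = 6 * m := by
    have a1 := card_mul_index (normalizer ((R : Subgroup S) : Set S))
    rw [hk, hCR, hcard] at a1
    have a2 : Nat.card (Sylow 11 S) = (normalizer ((R : Subgroup S) : Set S)).index :=
      R.card_eq_index_normalizer
    omega
  have hm11 := card_sylow_modEq_one 11 S
  rw [hn11] at hm11
  unfold Nat.ModEq at hm11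
  have hmm : m = 2 ∨ m = 35 ∨ m = 112 := by
    have h1 : m ∈ Nat.divisors 560 := Nat.mem_divisors.2 ⟨hm560, by norm_num⟩
    have h2 : ∀ m ∈ Nat.divisors 560, 6 * m % 11 = 1 % 11 → m = 2 ∨ m = 35 ∨ m = 112 := by
      decide +kernel
    exact h2 m h1 hm11
  rcases hmm with rfl | hmm
  · -- order 264: consider the action on the twelve Sylow 11-subgroups
    obtain ⟨t, ht⟩ := exists_prime_orderOf_dvd_card' (G := normalizer ((R : Subgroup S) : Set S)) 2
      (by rw [hk]; exact Dvd.intro_left _ rfl)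
    have ht' : orderOf (t : S) = 2 := by rw [orderOf_coe, ht]
    have a1 := four_dvd_of_sq_eq_one (Ω := Sylow 11 S) hperf (t := (t : S))
      (by rw [← ht', pow_orderOf_eq_one])
    have a2 := ncard_mul_card_le (Ω := Sylow 11 S) t.2 (hNC 2 t (by norm_num) (by norm_num) ht')
      (fixedBy (Sylow 11 S) (t : S) \ {R}) (fun a ha => ha.1) (by
        intro a ha r hr h
        by_contra hr1
        have := fixedBy_sylow_eq_singleton R hR hr hr1
        exact ha.2 (this ▸ h : a ∈ ({R} : Set (Sylow 11 S))))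
    have a3 : R ∈ fixedBy (Sylow 11 S) (t : S) := Sylow.smul_eq_iff_mem_normalizer.2 t.2
    have a4 := Set.ncard_sdiff_singleton_add_one a3
    rw [hR, hn11] at a2
    rw [hn11] at a1
    omega
  · have h7 : 7 ∣ m := by rcases hmm with rfl | rfl <;> norm_num
    have h49 : ¬ 7 ^ 2 ∣ Nat.card S := fun h => by
      have := h.trans hdvd
      norm_num at this
    obtain ⟨u, hu⟩ := exists_prime_orderOf_dvd_card' (G := centralizer ((P : Subgroup S) : Set S)) 7
      (by rw [hm]; exact h7.mul_left _)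
    have hu' : orderOf (u : S) = 7 := by rw [orderOf_coe, hu]
    obtain ⟨a1, a2, -⟩ := hprime 7 u (by norm_num) hu'
    have a3 := hmod3 P u u.2
    have a4 : (fixedBy (Sylow 3 S) (u : S)).ncard = 1 := by omega
    have hPu : P ∈ fixedBy (Sylow 3 S) (u : S) :=
      Sylow.smul_eq_iff_mem_normalizer.2 (centralizer_le_normalizer _ u.2)
    have hfixu : fixedBy (Sylow 3 S) (u : S) = {P} := by
      obtain ⟨x, hx⟩ := Set.ncard_eq_one.1 a4
      rw [hx] at hPu ⊢
      rw [hPu]
    obtain ⟨U, hU⟩ := (H8.isPGroup_zpowers_of_orderOf (hu'.trans (pow_one 7).symm)).exists_le_sylow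
    have huU : (u : S) ∈ (U : Subgroup S) := hU (mem_zpowers _)
    have hUc : Nat.card U = 7 :=
      card_sylow_eq_of_not_sq_dvd U (by rw [hcard]; exact h7.mul_left _) h49
    have hu1 : (u : S) ≠ 1 := by
      intro h; rw [h, orderOf_one] at hu'; omega
    have hcU : c ∈ centralizer ((U : Subgroup S) : Set S) :=
      mem_centralizer_of_commute (by norm_num) hUc huU hu1 (by
        rw [mul_inv_eq_iff_eq_mul]; exact u.2 c hc)
    have hC3 : 3 ∣ Nat.card (centralizer ((U : Subgroup S) : Set S)) := by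
      have := orderOf_dvd_natCard (⟨c, hcU⟩ : centralizer ((U : Subgroup S) : Set S))
      rwa [← orderOf_coe, hc'] at this
    have hC7 : 7 ∣ Nat.card (centralizer ((U : Subgroup S) : Set S)) := by
      have : IsCyclic U := isCyclic_of_prime_card hUc
      exact hUc.symm.dvd.trans (card_dvd_of_le (le_centralizer (U : Subgroup S)))
    have hCq : ∀ q, q.Prime → q ∣ Nat.card (centralizer ((U : Subgroup S) : Set S)) →
        q = 3 ∨ q = 7 := by
      intro q hq hd
      have : Fact q.Prime := ⟨hq⟩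
      obtain ⟨w, hw⟩ := exists_prime_orderOf_dvd_card' q hd
      have hw' : orderOf (w : S) = q := by rw [orderOf_coe, hw]
      obtain ⟨b1, b2, b3⟩ := hprime q w hq hw'
      have hcomm : Commute (w : S) u := (w.2 u huU).symm
      have b4 := ncard_fixedBy_modEq_of_commute (Ω := Sylow 3 S) (hu'.trans (pow_one 7).symm) hcomm
      have b5 : fixedBy (Sylow 3 S) (w : S) ∩ fixedBy (Sylow 3 S) (u : S) = {P} := by
        rw [hfixu, Set.inter_eq_right, Set.singleton_subset_iff, mem_fixedBy]
        have : (w : S) • P ∈ fixedBy (Sylow 3 S) (u : S) := by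
          rw [mem_fixedBy, ← mul_smul, ← hcomm.eq, mul_smul, show (u : S) • P = P from hPu]
        rwa [hfixu] at this
      rw [b5, Set.ncard_singleton] at b4
      unfold Nat.ModEq at b4
      have b6 : (fixedBy (Sylow 3 S) (w : S)).ncard = 1 ∨ (fixedBy (Sylow 3 S) (w : S)).ncard = 8 ∨
        (fixedBy (Sylow 3 S) (w : S)).ncard = 15 := by omega
      rcases b6 with b6 | b6 | b6
      · rw [b6] at b2
        rcases (Nat.Prime.dvd_mul hq (m := 3) (n := 7)).1 b2 with h | h
        · exact Or.inl ((Nat.prime_dvd_prime_iff_eq hq (by norm_num)).1 h)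
        · exact Or.inr ((Nat.prime_dvd_prime_iff_eq hq (by norm_num)).1 h)
      · rw [b6] at b2 b3
        rcases (Nat.Prime.dvd_mul hq (m := 2) (n := 7)).1 b2 with h | h
        · have := b3 ((Nat.prime_dvd_prime_iff_eq hq Nat.prime_two).1 h)
          omega
        · exact Or.inr ((Nat.prime_dvd_prime_iff_eq hq (by norm_num)).1 h)
      · rw [b6] at b2
        exact Or.inr ((Nat.prime_dvd_prime_iff_eq hq (by norm_num)).1 b2)
    obtain ⟨j, hj1, -, hj⟩ := exists_card_normalizer_eq (R := (U : Subgroup S)) hUc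
    have hC21 : Nat.card (centralizer ((U : Subgroup S) : Set S)) = 21 := by
      obtain ⟨a, ha⟩ : 3 * 7 ∣ Nat.card (centralizer ((U : Subgroup S) : Set S)) :=
        Nat.Coprime.mul_dvd_of_dvd_of_dvd (by norm_num) hC3 hC7
      have : a = 1 := by
        rw [Nat.eq_one_iff_not_exists_prime_dvd]
        intro q hq hqa
        have hCS := card_subgroup_dvd_card (centralizer ((U : Subgroup S) : Set S))
        obtain ⟨b, rfl⟩ := hqa
        rcases hCq q hq (by rw [ha]; exact ⟨21 * b, by ring⟩) with rfl | rfl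
        · exact h9 (Dvd.dvd.trans ⟨7 * b, by rw [ha]; ring⟩ hCS)
        · exact h49 (Dvd.dvd.trans ⟨3 * b, by rw [ha]; ring⟩ hCS)
      rw [ha, this]
    have e1 := card_mul_index (normalizer ((U : Subgroup S) : Set S))
    have e2 : Nat.card (Sylow 7 S) = (normalizer ((U : Subgroup S) : Set S)).index :=
      U.card_eq_index_normalizer
    have e3 := card_sylow_modEq_one 7 S
    unfold Nat.ModEq at e3
    rw [hj, hC21, hcard, ← e2] at e1
    have : j ≤ 6 := Nat.le_of_dvd (by norm_num) hj1
    rcases hmm with rfl | rfl <;> interval_cases j <;> omega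

end

/-- No finite group has exactly 22 Sylow 3-subgroups. -/
theorem result {G : Type*} [Group G] [Finite G] : Nat.card (Sylow 3 G) ≠ 22 := by
  intro hn
  have : Fact (Nat.Prime 3) := ⟨by norm_num⟩
  obtain ⟨S, _, _, hS, hS', h, -, -⟩ := H9.exists_simple_of_card_sylow hn (by norm_num) (by
    intro m hm hp
    have h3 := hp 2 (by norm_num)
    have h5 := hp 11 (by norm_num)
    have : m ≤ 22 := Nat.le_of_dvd (by norm_num) hm
    have f3 : (2 : ℕ).factorization 2 = 1 := Nat.Prime.factorization_self (by norm_num)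
    have f5 : (11 : ℕ).factorization 11 = 1 := Nat.Prime.factorization_self (by norm_num)
    have f15 : (22 : ℕ).factorization 2 = 1 := by
      rw [show (22 : ℕ) = 2 * 11 by norm_num, Nat.factorization_mul (by norm_num) (by norm_num),
        Finsupp.add_apply, f3, Nat.factorization_eq_zero_of_not_dvd (by norm_num)]
    interval_cases m <;> simp_all [Nat.ModEq]) (by
    intro x hx h
    have : x ≤ 22 := Nat.le_of_dvd (by norm_num) hx
    unfold Nat.ModEq at h
    interval_cases x <;> simp_all)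
  exact simple_case hS' h

end Cfsg.Agent.S4346
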