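import Cfsg.Statements.S4351
import Cfsg.Agent.P4.Class
import Mathlib.LinearAlgebra.Projectivization.PSL.PSL2

set_option autoImplicit false
open Cfsg

namespace Cfsg.Agent.S4351

open Cfsg.Agent.P4 Cfsg.Agent.FT Cfsg.Agent.L

/-- Let G be a finite non-solvable group in which the centralizer of every non-identity element is nilpotent. Then G is a non-abelian simple group; or G has a normal subgroup of index 2 isomorphic to PSL(2, 9); or G has a nontrivial normal elementary abelian 2-subgroup N such that G/N is isomorphic to PSL(2, q) for some q = 2ⁿ ≥ 4 or is a simple group of Suzuki type (simple, of the order of a Suzuki group). -/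
theorem result {G : Type*} [Group G] [Finite G] (hG : ¬ Group.IsSolvable G)
    (hCN : ∀ x : G, x ≠ 1 → Group.IsNilpotent (Subgroup.centralizer ({x} : Set G))) :
    (IsSimpleGroup G ∧ ¬ IsMulCommutative G) ∨
    (∃ (N : Subgroup G), N.Normal ∧ N.index = 2 ∧ ∃ (F : Type) (_ : Field F) (_ : Fintype F), Fintype.card F = 9 ∧
        Nonempty (N ≃* Matrix.ProjectiveSpecialLinearGroup (Fin 2) F)) ∨
    (∃ (N : Subgroup G) (_ : N.Normal), N ≠ ⊥ ∧ IsPGroup 2 N ∧ IsMulCommutative N ∧ (∀ x ∈ N, x * x = 1) ∧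
        ((∃ (F : Type) (_ : Field F) (_ : Fintype F), CharP F 2 ∧ 4 ≤ Fintype.card F ∧
            Nonempty (G ⧸ N ≃* Matrix.ProjectiveSpecialLinearGroup (Fin 2) F)) ∨ Cfsg.IsSuzuki (G ⧸ N))) := by
  have h := cit_of_cn hG hCN
  have hc : ¬ IsMulCommutative G := fun e => hG (H1.isSolvable_of_isMulCommutative e)
  rcases h.cases hG with ⟨-, _, _, _, _, _, q, a⟩ | ⟨Q, H, t, hz⟩
  · rcases a.h₁.two_le.eq_or_lt with e | e
    · obtain ⟨t, u, hs⟩ := a.selfCent h e.symm
      obtain ⟨S, x, z, s, hm⟩ := hs.exists_max2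
      rcases h.max2_cases hG hm with ⟨F, _, _, k, -, -, hF, ⟨e⟩⟩ | ⟨N, h1, h2⟩
      · have := Matrix.ProjectiveSpecialLinearGroup.rank_two_simple (F := F)
          (by rwa [Nat.card_eq_fintype_card])
        exact Or.inl ⟨e.isSimpleGroup, hc⟩
      · exact Or.inr (Or.inl ⟨N, Subgroup.normal_of_index_eq_two h1, h1, h2⟩)
    · exact Or.inl ⟨a.simple h e, hc⟩
  by_cases h0 : pCore 2 G = ⊥
  · have := hz.simple
    exact Or.inl ⟨((QuotientGroup.quotientMulEquivOfEq h0).trans
      QuotientGroup.quotientBot).symm.isSimpleGroup, hc⟩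
  have he := h.elem_of_zt hz
  refine Or.inr (Or.inr ⟨pCore 2 G, inferInstance, h0, isPGroup_pCore 2,
    ⟨⟨fun a b => Subtype.ext (he.comm a.2 b.2)⟩⟩, he, ?_⟩)
  rcases hz.sl2_or_isoSuzuki with ⟨n, hn, -, e⟩ | e
  · let _ := Fintype.ofFinite (GaloisField 2 n)
    exact Or.inl ⟨_, inferInstance, inferInstance, inferInstance, by
      rw [← Nat.card_eq_fintype_card, GaloisField.card 2 _ (by omega)]
      exact Nat.pow_le_pow_right (n := 2) two_pos hn, e⟩
  · exact Or.inr (P2.isSuzuki_of_isoSuzuki e)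

end Cfsg.Agent.S4351
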