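import Cfsg.Statements.S4354
import Cfsg.Agent.H9.ClassSize
import Cfsg.Agent.H8.Frobenius

set_option autoImplicit false
open Cfsg

namespace Cfsg.Agent.S4354

open Subgroup in
theorem comm_of_normal {G : Type*} [Group G] [Finite G] (p : ℕ) [Fact p.Prime]
    (h : ∀ x : G, (∃ k : ℕ, orderOf x = p ^ k) → ¬ p ∣ (centralizer ({x} : Set G)).index)
    (N : Subgroup G) [hN : N.Normal] (h1 : ∀ Q : Sylow p N, IsMulCommutative Q)
    (h2 : ∀ Q : Sylow p (G ⧸ N), IsMulCommutative Q) (P : Sylow p G) : IsMulCommutative P := by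
  have hNN : ∀ A : Subgroup G, A ≤ normalizer (N : Set G) := fun A => by
    rw [normalizer_eq_top]; exact le_top
  have step1 : ∀ x ∈ (P : Subgroup G), ∀ y ∈ (P : Subgroup G), y ∈ N → x * y = y * x := by
    intro x hx y hy hyN
    obtain ⟨k, hk⟩ := H8.exists_orderOf_eq_pow_of_mem P.isPGroup' hx
    obtain ⟨P1, hx1, hP1⟩ := H9.exists_sylow_mem_and_le_centralizer hk (h x ⟨k, hk⟩)
    obtain ⟨Q, hQ⟩ := H8.exists_sylow_eq_subgroupOf P1 N
    have hQc : ∀ a ∈ (P1 : Subgroup G) ⊓ N, ∀ b ∈ (P1 : Subgroup G) ⊓ N, a * b = b * a := by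
      intro a ha b hb
      have := h1 Q
      have ha' : (⟨a, ha.2⟩ : N) ∈ (Q : Subgroup N) := by rw [hQ]; exact ha.1
      have hb' : (⟨b, hb.2⟩ : N) ∈ (Q : Subgroup N) := by rw [hQ]; exact hb.1
      exact congrArg Subtype.val (setLike_mul_comm (s := (Q : Subgroup N)) ha' hb')
    set A : Subgroup G := zpowers x ⊔ ((P1 : Subgroup G) ⊓ N) with hA
    have hAP : A ≤ P1 := sup_le (zpowers_le.2 hx1) inf_le_left
    have hAc : A ≤ centralizer (A : Set G) := by
      have e1 : A ≤ centralizer (zpowers x : Set G) := by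
        rw [le_centralizer_iff, zpowers_le]
        intro a ha
        exact mem_centralizer_singleton_iff.1 (hP1 (hAP ha))
      have e2 : A ≤ centralizer (((P1 : Subgroup G) ⊓ N : Subgroup G) : Set G) := by
        refine sup_le (zpowers_le.2 fun a ha => ?_) fun a ha b hb => hQc b hb a ha
        exact mem_centralizer_singleton_iff.1 (hP1 ha.1)
      rw [le_centralizer_iff] at e1 e2
      exact sup_le e1 e2
    have hAi : ¬ p ∣ A.relIndex (A ⊔ N) := by
      rw [← H8.relIndex_eq_relIndex_sup A N (hNN A)]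
      intro hd
      apply P1.not_dvd_index
      refine (hd.trans ?_).trans (H8.relIndex_dvd_index_of_normal_right (P1 : Subgroup G) N)
      rw [← inf_relIndex_right (P1 : Subgroup G) N]
      exact relIndex_dvd_of_le_left N le_sup_right
    obtain ⟨c, -, hc⟩ := H1.exists_conj_le_sylow (P1.isPGroup'.to_le hAP) hAi
      (Q := zpowers x ⊔ zpowers y)
      (sup_le (le_sup_left.trans le_sup_left) ((zpowers_le.2 hyN).trans le_sup_right))
      (P.isPGroup'.to_le (sup_le (zpowers_le.2 hx) (zpowers_le.2 hy)))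
    rw [H1.map_conj_le_iff] at hc
    have e := hAc (hc y (mem_sup_right (mem_zpowers y))) _ (hc x (mem_sup_left (mem_zpowers x)))
    have e' : c * (x * y) * c⁻¹ = c * (y * x) * c⁻¹ := by
      calc c * (x * y) * c⁻¹ = c * x * c⁻¹ * (c * y * c⁻¹) := by group
        _ = c * y * c⁻¹ * (c * x * c⁻¹) := e
        _ = c * (y * x) * c⁻¹ := by group
    simpa using e'
  refine ⟨⟨fun ⟨x, hx⟩ ⟨y, hy⟩ => Subtype.ext ?_⟩⟩
  change x * y = y * x
  obtain ⟨k, hk⟩ := H8.exists_orderOf_eq_pow_of_mem P.isPGroup' hx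
  obtain ⟨P1, hx1, hP1⟩ := H9.exists_sylow_mem_and_le_centralizer hk (h x ⟨k, hk⟩)
  obtain ⟨g, rfl⟩ := MulAction.exists_smul_eq G P P1
  have hz : g⁻¹ * x * g ∈ (P : Subgroup G) := H8.mem_conj_smul_iff.1 hx1
  have hzc : ∀ u ∈ (P : Subgroup G), u * (g⁻¹ * x * g) = g⁻¹ * x * g * u := by
    intro u hu
    have e := mem_centralizer_singleton_iff.1 (hP1 (H8.conj_mem_conj_smul g hu))
    calc u * (g⁻¹ * x * g) = g⁻¹ * (g * u * g⁻¹ * x) * g := by group
      _ = g⁻¹ * (x * (g * u * g⁻¹)) * g := by rw [e]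
      _ = g⁻¹ * x * g * u := by group
  let Pb : Sylow p (G ⧸ N) := P.mapSurjective (QuotientGroup.mk'_surjective N)
  have := h2 Pb
  obtain ⟨nb, hnb, hn⟩ := Pb.conj_eq_normalizer_conj_of_mem (x : G ⧸ N) (g : G ⧸ N)
    ⟨x, hx, rfl⟩ ⟨_, hz, by simp⟩
  obtain ⟨n, rfl⟩ := QuotientGroup.mk_surjective nb
  have hPi : ¬ p ∣ (P : Subgroup G).relIndex (P ⊔ N) := fun hd =>
    P.not_dvd_index (hd.trans (relIndex_dvd_index_of_le le_sup_left))
  obtain ⟨c, hcm, hc⟩ := H1.exists_conj_le_sylow P.isPGroup' hPi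
    (Q := (P : Subgroup G).map (MulAut.conj n).toMonoidHom) (by
      rw [H1.map_conj_le_iff]
      intro u hu
      rw [sup_comm, ← QuotientGroup.comap_map_mk', mem_comap]
      exact (mem_normalizer_iff.1 hnb (u : G ⧸ N)).1 ⟨u, hu, rfl⟩) (P.isPGroup'.map _)
  rw [H1.map_conj_map_conj, H1.map_conj_le_iff] at hc
  have hm : c * n ∈ normalizer ((P : Subgroup G) : Set G) := mem_normalizer_fintype hc
  obtain ⟨w, hw⟩ : ∃ w, w = c * n * (g⁻¹ * x * g) * (c * n)⁻¹ := ⟨_, rfl⟩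
  have hwP : w ∈ (P : Subgroup G) := hw ▸ hc _ hz
  have hwc : ∀ u ∈ (P : Subgroup G), u * w = w * u := by
    intro u hu
    have e := hzc _ ((mem_normalizer_iff.1 (inv_mem hm) u).1 hu)
    rw [hw]
    calc u * (c * n * (g⁻¹ * x * g) * (c * n)⁻¹)
        = c * n * ((c * n)⁻¹ * u * (c * n)⁻¹⁻¹ * (g⁻¹ * x * g)) * (c * n)⁻¹ := by group
      _ = c * n * (g⁻¹ * x * g * ((c * n)⁻¹ * u * (c * n)⁻¹⁻¹)) * (c * n)⁻¹ := by rw [e]
      _ = c * n * (g⁻¹ * x * g) * (c * n)⁻¹ * u := by group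
  have hxw : x * w⁻¹ ∈ N := by
    rw [← QuotientGroup.eq_one_iff, QuotientGroup.mk_mul, QuotientGroup.mk_inv, mul_inv_eq_one, hw]
    have hcb : (c : G ⧸ N) ∈ (Pb : Subgroup (G ⧸ N)) := by
      rw [sup_comm, ← QuotientGroup.comap_map_mk', mem_comap] at hcm
      exact hcm
    have hxb : (x : G ⧸ N) ∈ (Pb : Subgroup (G ⧸ N)) := ⟨x, hx, rfl⟩
    have e := setLike_mul_comm (s := (Pb : Subgroup (G ⧸ N))) hcb hxb
    simp only [QuotientGroup.mk_mul, QuotientGroup.mk_inv, hn]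
    calc (x : G ⧸ N) = c * x * (c : G ⧸ N)⁻¹ := by rw [e]; group
      _ = _ := by group
  have e1 := step1 y hy (x * w⁻¹) (mul_mem hx (inv_mem hwP)) hxw
  calc x * y = x * w⁻¹ * (w * y) := by group
    _ = x * w⁻¹ * y * w := by rw [← hwc y hy]; group
    _ = y * x := by rw [← e1]; group

/-- Let G be a finite group and p a prime such that the Sylow p-subgroups of G are non-abelian while every element of p-power order has conjugacy class size prime to p, and suppose no nontrivial proper normal subgroup N of G has this property and no quotient G/N by such an N has it. Then G is simple. -/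
theorem result {G : Type*} [Group G] [Finite G]
    (p : ℕ) [Fact p.Prime] (h : ((∃ P : Sylow p G, ¬ IsMulCommutative P) ∧ ∀ x : G, (∃ k : ℕ, orderOf x = p ^ k) → ¬ p ∣ (Subgroup.centralizer ({x} : Set G)).index))
    (hmin : ∀ (N : Subgroup G) [N.Normal], N ≠ ⊥ → N ≠ ⊤ →
      ¬ ((∃ P : Sylow p N, ¬ IsMulCommutative P) ∧ ∀ x : N, (∃ k : ℕ, orderOf x = p ^ k) → ¬ p ∣ (Subgroup.centralizer ({x} : Set N)).index) ∧
      ¬ ((∃ P : Sylow p (G ⧸ N), ¬ IsMulCommutative P) ∧ ∀ x : (G ⧸ N), (∃ k : ℕ, orderOf x = p ^ k) → ¬ p ∣ (Subgroup.centralizer ({x} : Set (G ⧸ N))).index)) :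
    IsSimpleGroup G := by
  obtain ⟨⟨P, hP⟩, h⟩ := h
  have : Nontrivial G := by
    by_contra hG
    rw [not_nontrivial_iff_subsingleton] at hG
    exact hP ⟨⟨fun _ _ => Subsingleton.elim _ _⟩⟩
  refine ⟨fun N hN => ?_⟩
  by_contra hcon
  push Not at hcon
  obtain ⟨h1, h2⟩ := hmin N hcon.1 hcon.2
  apply hP
  refine comm_of_normal p h N (fun Q => ?_) (fun Q => ?_) P
  · by_contra hQ
    refine h1 ⟨⟨Q, hQ⟩, fun x hx hd => h x ?_ (hd.trans (H9.index_centralizer_subgroup_dvd N x))⟩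
    simpa using hx
  · by_contra hQ
    refine h2 ⟨⟨Q, hQ⟩, fun y ⟨k, hk⟩ hd => ?_⟩
    obtain ⟨x, hx, rfl⟩ := H9.exists_pElement_map_eq (QuotientGroup.mk'_surjective N) Fact.out hk
    exact h x hx (hd.trans (H9.index_centralizer_mk_dvd N x))

end Cfsg.Agent.S4354
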