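import Cfsg.Statements.S4359
import Mathlib

set_option autoImplicit false
set_option linter.unusedSectionVars false
open Pointwise
open Cfsg

namespace Cfsg.Agent.S4359

open Subgroup
open scoped commutatorElement

theorem eq_of_prime {P : Type*} [Group P] {p : ℕ} (hp : p.Prime) {A B C : Subgroup P}
    (h : A.relIndex C = p) (hAB : A < B) (hBC : B ≤ C) : B = C := by
  have h1 := relIndex_mul_relIndex A B C hAB.le hBC
  rw [h] at h1
  rcases (Nat.dvd_prime hp).1 (Dvd.intro _ h1) with h2 | h2
  · exact absurd (relIndex_eq_one.1 h2) hAB.not_ge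
  · rw [h2] at h1
    have : B.relIndex C = 1 := Nat.eq_of_mul_eq_mul_left hp.pos (by rw [h1, mul_one])
    exact le_antisymm hBC (relIndex_eq_one.1 this)

variable {G : Type*} [Group G]

theorem relIndex_of_card [Finite G] {A B : Subgroup G} (h : A ≤ B) {p : ℕ}
    (hc : Nat.card B = p * Nat.card A) : A.relIndex B = p := by
  have := (A.subgroupOf B).index_mul_card
  rw [Nat.card_congr (subgroupOfEquivOfLe h).toEquiv, hc] at this
  exact Nat.eq_of_mul_eq_mul_right Nat.card_pos this

theorem card_of_relIndex {A B : Subgroup G} (h : A ≤ B) :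
    Nat.card B = A.relIndex B * Nat.card A := by
  have := (A.subgroupOf B).index_mul_card
  rw [Nat.card_congr (subgroupOfEquivOfLe h).toEquiv] at this
  exact this.symm

theorem normal_of_relIndex [Finite G] {p : ℕ} (hp : p.Prime) {A B : Subgroup G}
    (hB : IsPGroup p B) (hi : A.relIndex B = p) : (A.subgroupOf B).Normal := by
  have := Fact.mk hp
  obtain ⟨n, hn⟩ := IsPGroup.iff_card.1 hB
  have h0 : n ≠ 0 := by
    rintro rfl
    have := (A.subgroupOf B).index_dvd_card
    rw [hn, pow_zero, Nat.dvd_one] at this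
    exact hp.ne_one (hi.symm.trans this)
  apply normal_of_index_eq_minFac_card
  rw [hn, hp.pow_minFac h0]
  exact hi

theorem comm_mem [Finite G] {p : ℕ} (hp : p.Prime) {A B : Subgroup G}
    (hB : IsPGroup p B) (hi : A.relIndex B = p) {y z : G} (hy : y ∈ B) (hz : z ∈ B) :
    ⁅y, z⁆ ∈ A := by
  have := Fact.mk hp
  have := normal_of_relIndex hp hB hi
  have : IsCyclic (B ⧸ A.subgroupOf B) := isCyclic_of_prime_card (p := p) hi
  have h1 : QuotientGroup.mk' (A.subgroupOf B) ⁅(⟨y, hy⟩ : B), ⟨z, hz⟩⁆ = 1 := by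
    rw [map_commutatorElement, commutatorElement_eq_one_iff_mul_comm]
    exact mul_comm' _ _
  exact mem_subgroupOf.1 ((QuotientGroup.eq_one_iff (N := A.subgroupOf B) _).1 h1)

/-- The intersection of the conjugates `g^k P g^(-k)`, `i ≤ k ≤ j`. -/
def I (P : Subgroup G) (g : G) (i j : ℤ) : Subgroup G where
  carrier := {y | ∀ k, i ≤ k → k ≤ j → (g ^ k)⁻¹ * y * g ^ k ∈ P}
  one_mem' := fun k _ _ => by simp
  mul_mem' := fun {a b} ha hb k h1 h2 => by
    have := mul_mem (ha k h1 h2) (hb k h1 h2)
    convert this using 1; group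
  inv_mem' := fun {a} ha k h1 h2 => by
    have := inv_mem (ha k h1 h2)
    convert this using 1; group

variable {P : Subgroup G} {g : G}

theorem mem_I {i j : ℤ} {y : G} :
    y ∈ I P g i j ↔ ∀ k, i ≤ k → k ≤ j → (g ^ k)⁻¹ * y * g ^ k ∈ P := Iff.rfl

theorem I_mono {i j i' j' : ℤ} (h1 : i' ≤ i) (h2 : j ≤ j') : I P g i' j' ≤ I P g i j :=
  fun _ hy k a b => hy k (h1.trans a) (b.trans h2)

theorem mem_I_union {i j i' j' : ℤ} {y : G} (h : y ∈ I P g i j) (h' : y ∈ I P g i' j')
    (hc : i' ≤ j + 1) : y ∈ I P g i j' := fun k a b => by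
  by_cases hk : k ≤ j
  · exact h k a hk
  · exact h' k (by omega) b

theorem conj_mem_I {i j : ℤ} {y : G} (s : ℤ) :
    g ^ s * y * (g ^ s)⁻¹ ∈ I P g (i + s) (j + s) ↔ y ∈ I P g i j := by
  constructor
  · intro h k a b
    have := h (k + s) (by omega) (by omega)
    convert this using 1; group
  · intro h k a b
    have := h (k - s) (by omega) (by omega)
    convert this using 1; group

theorem I_shift (i j s : ℤ) :
    I P g (i + s) (j + s) = (I P g i j).map (MulAut.conj (g ^ s)).toMonoidHom := by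
  ext y
  constructor
  · intro h
    refine ⟨(g ^ s)⁻¹ * y * g ^ s, (conj_mem_I s).1 ?_, ?_⟩
    · convert h using 1; group
    · change g ^ s * _ * (g ^ s)⁻¹ = y; group
  · rintro ⟨z, hz, rfl⟩
    exact (conj_mem_I s).2 hz

theorem card_I_shift {i j i' j' : ℤ} (h : j' - i' = j - i) :
    Nat.card (I P g i' j') = Nat.card (I P g i j) := by
  have := I_shift (P := P) (g := g) i j (i' - i)
  rw [show i + (i' - i) = i' by ring, show j + (i' - i) = j' by omega] at this
  rw [this, card_map_of_injective (MulAut.conj _).injective]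

theorem I_zero : I P g 0 0 = P := by
  ext y
  refine ⟨fun h => by simpa using h 0 le_rfl le_rfl, fun h k a b => ?_⟩
  rw [show k = 0 by omega]; simpa using h

theorem isPGroup_I {p : ℕ} (hP : IsPGroup p P) {i j : ℤ} (h : i ≤ j) : IsPGroup p (I P g i j) := by
  refine IsPGroup.to_le (K := I P g i i) ?_ (I_mono le_rfl h)
  have := I_shift (P := P) (g := g) 0 0 i
  rw [zero_add, I_zero] at this
  rw [this]; exact hP.map _

theorem card_I [Finite G] {p t : ℕ} (hp : p.Prime) (hP : Nat.card P = p ^ t)
    (h0 : Nat.card P = p * Nat.card (I P g 0 1))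
    (h1 : ∀ Q : Subgroup G, Q ≤ P → P ≤ normalizer (Q : Set G) → g ∈ normalizer (Q : Set G) → Q = ⊥)
    (m : ℕ) (hm : m ≤ t) (i : ℤ) : Nat.card (I P g i (i + m)) = p ^ (t - m) := by
  have := Fact.mk hp
  have hPp : IsPGroup p P := IsPGroup.of_card hP
  induction m using Nat.strong_induction_on generalizing i with
  | _ m ih =>
  rcases m with _ | _ | m
  · rw [card_I_shift (i := 0) (j := 0) (by simp), I_zero, hP]; rfl
  · rw [card_I_shift (i := 0) (j := 1) (by simp)]
    rw [hP, show t = (t - 1) + 1 by omega, pow_succ'] at h0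
    exact (Nat.eq_of_mul_eq_mul_left hp.pos h0).symm
  have ih' : ∀ (k : ℕ), k ≤ m + 1 → ∀ a b : ℤ, b = a + k → Nat.card (I P g a b) = p ^ (t - k) := by
    rintro k hk a b rfl
    exact ih k (by omega) (by omega) a
  have idx : ∀ (k : ℕ), k ≤ m → ∀ a b a' b' : ℤ, b = a + k → a' ≤ a → b ≤ b' →
      b' = a' + (k + 1 : ℕ) → (I P g a' b').relIndex (I P g a b) = p := by
    intro k hk a b a' b' e1 e2 e3 e4
    refine relIndex_of_card (I_mono e2 e3) ?_
    rw [ih' k (by omega) a b e1, ih' (k + 1) (by omega) a' b' e4, ← pow_succ']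
    congr 1; omega
  rw [card_I_shift (i := 0) (j := m + 2) (by push_cast; ring)]
  have e : I P g 0 (m + 2) = I P g 1 (m + 2) ⊓ I P g 0 (m + 1) :=
    le_antisymm (le_inf (I_mono (by omega) le_rfl) (I_mono le_rfl (by omega)))
      fun y hy => mem_I_union hy.2 hy.1 (by omega)
  have hle : (I P g 1 (m + 2)).relIndex (I P g 0 (m + 1)) ≤ p := by
    rw [← idx m le_rfl 1 (m + 1) 1 (m + 2) (by ring) le_rfl (by omega) (by push_cast; ring)]
    exact relIndex_le_of_le_right (I_mono (by omega) le_rfl) index_ne_zero_of_finite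
  obtain ⟨n, hn⟩ : ∃ n, (I P g 1 (m + 2)).relIndex (I P g 0 (m + 1)) = p ^ n :=
    (isPGroup_I hPp (by omega)).index _
  have hn1 : n ≤ 1 := by
    rw [hn] at hle
    exact (Nat.pow_le_pow_iff_right hp.one_lt).1 (hle.trans_eq (pow_one p).symm)
  have hc := ih' (m + 1) le_rfl 0 (m + 1) (by push_cast; ring)
  rcases Nat.eq_zero_or_pos n with rfl | hpos
  · exfalso
    have hsub : I P g 0 (m + 1) ≤ I P g 1 (m + 2) := relIndex_eq_one.1 (by simpa using hn)
    obtain ⟨N, hN⟩ : ∃ N, N = I P g 0 (m + 1) := ⟨_, rfl⟩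
    have hg : g ∈ normalizer (N : Set G) := by
      refine inv_mem_iff.1 (mem_normalizer_fintype fun y hy => ?_)
      rw [hN] at hy ⊢
      refine (conj_mem_I (i := 0) (j := m + 1) 1).1 ?_
      have := hsub hy
      convert this using 1
      · congr 1
      · group
    have key : ∀ k : ℕ, k ≤ m → ∀ a : ℤ, I P g a (a + (m - k : ℕ)) ≤ normalizer (N : Set G) := by
      intro k
      induction k with
      | zero =>
        intro _ a
        have h2 : I P g 0 m ≤ normalizer (N : Set G) := by
          rw [hN, ← normal_subgroupOf_iff_le_normalizer (I_mono le_rfl (by omega))]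
          exact normal_of_relIndex hp (isPGroup_I hPp (by omega))
            (idx m le_rfl 0 m 0 (m + 1) (by ring) le_rfl (by omega) (by push_cast; ring))
        have h3 := I_shift (P := P) (g := g) 0 m a
        rw [zero_add, add_comm] at h3
        rw [Nat.sub_zero, h3]
        rintro _ ⟨y, hy, rfl⟩
        exact mul_mem (mul_mem (zpow_mem hg a) (h2 hy)) (inv_mem (zpow_mem hg a))
      | succ k ihk =>
        intro hk a
        obtain ⟨l, hl⟩ : ∃ l, m - k = l + 1 := ⟨m - k - 1, by omega⟩
        have i1 := ihk (by omega) a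
        have i2 := ihk (by omega) (a - 1)
        rw [hl] at i1 i2
        rw [show m - (k + 1) = l by omega]
        have hlt : I P g a (a + (l + 1 : ℕ)) < I P g a (a + (l + 1 : ℕ)) ⊔
            I P g (a - 1) (a - 1 + (l + 1 : ℕ)) := by
          rw [left_lt_sup]
          intro hle
          have := idx (l + 1) (by omega) (a - 1) (a - 1 + (l + 1 : ℕ)) (a - 1) (a + (l + 1 : ℕ)) rfl
            le_rfl (by omega) (by push_cast; ring)
          rw [relIndex_eq_one.2 fun y hy => mem_I_union hy (hle hy) (by omega)] at this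
          exact hp.one_lt.ne this
        rw [← eq_of_prime hp (idx l (by omega) a (a + l) a (a + (l + 1 : ℕ)) rfl le_rfl (by omega)
          rfl) hlt (sup_le (I_mono le_rfl (by omega)) (I_mono (by omega) (by omega)))]
        exact sup_le i1 i2
    have h3 := key m le_rfl 0
    rw [Nat.sub_self, Nat.cast_zero, add_zero, I_zero] at h3
    have h4 := h1 N (hN.le.trans ((I_mono le_rfl (by omega)).trans I_zero.le)) h3 hg
    rw [← hN, h4, card_bot] at hc
    exact (Nat.one_lt_pow (by omega) hp.one_lt).ne hc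
  · have h2 := card_of_relIndex (inf_le_right (a := I P g 1 (m + 2)) (b := I P g 0 (m + 1)))
    rw [inf_relIndex_right, hn, show n = 1 by omega, pow_one, ← e, hc,
      show t - (m + 1) = t - (m + 1 + 1) + 1 by omega, pow_succ'] at h2
    exact (Nat.eq_of_mul_eq_mul_left hp.pos h2).symm

structure Ctx (P : Subgroup G) (g : G) (p t : ℕ) (x : ℤ → G) : Prop where
  hp : p.Prime
  hP : IsPGroup p P
  card : ∀ (m : ℕ), m ≤ t → ∀ i j : ℤ, j = i + m → Nat.card (I P g i j) = p ^ (t - m)
  ne : ∀ k, x k ≠ 1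
  mem : ∀ k, x k ∈ I P g k (k + t - 1)
  shift : ∀ k s, x (k + s) = g ^ s * x k * (g ^ s)⁻¹

namespace Ctx
variable [Finite G] {p t : ℕ} {x : ℤ → G}

theorem bot (h : Ctx P g p t x) {i j : ℤ} (hij : i + t ≤ j) : I P g i j = ⊥ := by
  have := h.card t le_rfl i (i + t) rfl
  rw [Nat.sub_self, pow_zero, card_eq_one] at this
  exact eq_bot_iff.2 ((I_mono le_rfl hij).trans this.le)

theorem idx (h : Ctx P g p t x) {a b a' b' : ℤ} (h1 : a ≤ b) (h2 : b < a + t) (h3 : a' ≤ a)
    (h4 : b ≤ b') (h5 : b' - a' = b - a + 1) : (I P g a' b').relIndex (I P g a b) = p := by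
  refine relIndex_of_card (I_mono h3 h4) ?_
  obtain ⟨k, hk⟩ : ∃ k : ℕ, b = a + k := ⟨(b - a).toNat, by omega⟩
  rw [h.card k (by omega) a b hk, h.card (k + 1) (by omega) a' b' (by omega), ← pow_succ']
  congr 1; omega

theorem cent (h : Ctx P g p t x) {y : G} (l : ℕ) (hl : l ≤ t) (b e f : ℤ) (he : e = b + l - 1)
    (hf : f = b + t - 1) (hy : ∀ k, b ≤ k → k ≤ e → Commute (x k) y) :
    I P g e f ≤ centralizer {y} := by
  induction l generalizing b f with
  | zero => rw [h.bot (by omega)]; exact bot_le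
  | succ l ih =>
    have h1 := ih (by omega) (b + 1) (f + 1) (by omega) (by omega) fun k a c => hy k (by omega) c
    have h2 : x b ∈ I P g e f := I_mono (by omega) (by omega) (h.mem b)
    have h3 : x b ∉ I P g e (f + 1) := fun hc => by
      have := mem_I_union (h.mem b) hc (by omega)
      rw [h.bot (by omega)] at this
      exact h.ne b this
    rw [← eq_of_prime h.hp (h.idx (a := e) (b := f) (a' := e) (b' := f + 1) (by omega) (by omega)
      le_rfl (by omega) (by omega)) (B := I P g e (f + 1) ⊔ zpowers (x b))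
      (left_lt_sup.2 (by simpa using h3)) (sup_le (I_mono le_rfl (by omega)) (by simpa using h2))]
    refine sup_le h1 ?_
    rw [zpowers_le, mem_centralizer_singleton_iff]
    exact hy b le_rfl (by omega)

theorem cent' (h : Ctx P g p t x) {y : G} (b e : ℤ) (h1 : b ≤ e + 1) (h2 : e < b + t) {z : G}
    (hz : z ∈ I P g e (b + t - 1)) (hy : ∀ k, b ≤ k → k ≤ e → Commute (x k) y) : Commute z y :=
  mem_centralizer_singleton_iff.1
    (h.cent (e + 1 - b).toNat (by omega) b e _ (by omega) rfl hy hz)

theorem comm (h : Ctx P g p t x) {b e : ℤ} (h1 : b ≤ e) (h2 : e < b + t) :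
    ⁅x b, x e⁆ ∈ I P g (e - 1) (b + 1 + t - 1) := by
  have hb : x b ∈ I P g e (b + t - 1) := I_mono h1 le_rfl (h.mem b)
  have he : x e ∈ I P g e (b + t - 1) := I_mono le_rfl (by omega) (h.mem e)
  have hI := isPGroup_I (g := g) h.hP (i := e) (j := b + t - 1) (by omega)
  refine mem_I_union (j := b + t - 1) (i' := e) (comm_mem h.hp hI ?_ hb he)
    (comm_mem h.hp hI ?_ hb he) (by omega)
  · exact h.idx (by omega) (by omega) (by omega) le_rfl (by omega)
  · exact h.idx (by omega) (by omega) le_rfl (by omega) (by omega)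

theorem commute_shift (h : Ctx P g p t x) {a b : ℤ} (s : ℤ) (hc : Commute (x a) (x b)) :
    Commute (x (a + s)) (x (b + s)) := by
  rw [h.shift, h.shift]
  exact hc.map (MulAut.conj (g ^ s))

theorem lower (h : Ctx P g p t x) {u : ℤ} (hu0 : 0 < u) (hut : u < t)
    (hc : ∀ a b, a - b < u → b - a < u → Commute (x a) (x b)) (hn : ¬ Commute (x 0) (x u)) :
    2 * t ≤ 3 * u := by
  obtain ⟨w, hw⟩ : ∃ w, w = ⁅x 0, x u⁆ := ⟨_, rfl⟩
  have hw1 : w ≠ 1 := fun e => hn (commutatorElement_eq_one_iff_commute.1 (hw ▸ e))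
  have hw0 : w ∈ I P g (u - 1) (1 + t - 1) := by
    have := h.comm hu0.le (by omega)
    rwa [zero_add, ← hw] at this
  have hn' : ∀ a, ¬ Commute (x a) (x (a + u)) := fun a e => hn (by
    simpa using h.commute_shift (-a) e)
  have left : ∀ a : ℕ, 1 ≤ a → (a : ℤ) ≤ u → (a : ℤ) ≤ t - u → w ∈ I P g (u - 1) (a + t - 1) := by
    intro a h1
    induction a, h1 using Nat.le_induction with
    | base => intro _ _; exact hw0
    | succ a ha ih =>
      intro h2 h3
      have hwa := ih (by omega) (by omega)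
      by_contra hwn
      have hcm := h.comm (b := 0) (e := a + u) (by omega) (by omega)
      obtain ⟨c, hcd⟩ : ∃ c, c = ⁅x 0, x (a + u)⁆ := ⟨_, rfl⟩
      rw [← hcd, zero_add] at hcm
      have c1 : Commute c (x u) := h.cent' 1 _ (by omega) (by omega) hcm fun k _ _ =>
        hc _ _ (by omega) (by omega)
      have c2 : Commute c w := h.cent' 1 _ (by omega) (by omega) hcm fun k _ _ =>
        (h.cent' a _ (by omega) (by omega) hwa fun l _ _ => hc _ _ (by omega) (by omega)).symm
      have c3 : Commute (x (a + u)) (x u) := hc _ _ (by omega) (by omega)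
      have c4 : Commute w (x (a + u)) := by
        have e1 : x (a + u) * x 0 * (x (a + u))⁻¹ = c⁻¹ * x 0 := by
          rw [hcd, commutatorElement_def]; group
        have e2 : x (a + u) * w * (x (a + u))⁻¹ = ⁅c⁻¹ * x 0, x u⁆ := by
          rw [hw, conjugate_commutatorElement, e1, c3.eq, mul_inv_cancel_right]
        have e3 : ⁅c⁻¹ * x 0, x u⁆ = c⁻¹ * w * c * (c⁻¹ * x u * c * (x u)⁻¹) := by
          rw [hw, commutatorElement_def, commutatorElement_def]; group
        rw [e3, mul_assoc c⁻¹ w, ← c2.eq, mul_assoc c⁻¹ (x u), ← c1.eq] at e2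
        simp only [inv_mul_cancel_left, mul_inv_cancel, mul_one] at e2
        exact (mul_inv_eq_iff_eq_mul.1 e2).symm
      have e := eq_of_prime h.hp (h.idx (a := u - 1) (b := a + t - 1) (a' := u - 1)
        (b' := (a + 1 : ℕ) + t - 1) (by omega) (by omega) le_rfl (by omega) (by omega))
        (B := I P g (u - 1) ((a + 1 : ℕ) + t - 1) ⊔ zpowers w)
        (left_lt_sup.2 (by simpa using hwn)) (sup_le (I_mono le_rfl (by omega)) (by simpa using hwa))
      have hle : I P g (u - 1) (a + t - 1) ≤ centralizer {x (a + u)} := by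
        rw [← e]
        refine sup_le (fun z hz => mem_centralizer_singleton_iff.2
          (h.cent' _ _ (by omega) (by omega) hz fun k _ _ => hc _ _ (by omega) (by omega))) ?_
        rw [zpowers_le]
        exact mem_centralizer_singleton_iff.2 c4
      exact hn' a (mem_centralizer_singleton_iff.1 (hle (I_mono (by omega) le_rfl (h.mem a))))
  have right : ∀ a : ℕ, 1 ≤ a → (a : ℤ) ≤ u → (a : ℤ) ≤ t - u → w ∈ I P g (u - a) (1 + t - 1) := by
    intro a h1
    induction a, h1 using Nat.le_induction with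
    | base => intro _ _; exact hw0
    | succ a ha ih =>
      intro h2 h3
      have hwa := ih (by omega) (by omega)
      by_contra hwn
      have hcm := h.comm (b := -a) (e := u) (by omega) (by omega)
      obtain ⟨c, hcd⟩ : ∃ c, c = ⁅x (-a), x u⁆ := ⟨_, rfl⟩
      rw [← hcd] at hcm
      have c1 : Commute c (x 0) := h.cent' _ _ (by omega) (by omega) hcm fun k _ _ =>
        hc _ _ (by omega) (by omega)
      have c2 : Commute c w := h.cent' _ _ (by omega) (by omega) hcm fun k _ _ =>
        (h.cent' 1 _ (by omega) (by omega) hwa fun l _ _ => hc _ _ (by omega) (by omega)).symm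
      have c3 : Commute (x (-a)) (x 0) := hc _ _ (by omega) (by omega)
      have c4 : Commute w (x (-a)) := by
        have e1 : x (-a) * x u * (x (-a))⁻¹ = c * x u := by
          rw [hcd, commutatorElement_def]; group
        have e2 : x (-a) * w * (x (-a))⁻¹ = ⁅x 0, c * x u⁆ := by
          rw [hw, conjugate_commutatorElement, e1, c3.eq, mul_inv_cancel_right]
        have e3 : ⁅x 0, c * x u⁆ = (x 0 * c * (x 0)⁻¹ * c⁻¹) * (c * w * c⁻¹) := by
          rw [hw, commutatorElement_def, commutatorElement_def]; group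
        rw [e3, c2.eq, ← c1.eq] at e2
        simp only [mul_inv_cancel_right, mul_inv_cancel, one_mul] at e2
        exact (mul_inv_eq_iff_eq_mul.1 e2).symm
      have e := eq_of_prime h.hp (h.idx (a := u - a) (b := 1 + t - 1) (a' := u - (a + 1 : ℕ))
        (b' := 1 + t - 1) (by omega) (by omega) (by omega) le_rfl (by omega))
        (B := I P g (u - (a + 1 : ℕ)) (1 + t - 1) ⊔ zpowers w)
        (left_lt_sup.2 (by simpa using hwn)) (sup_le (I_mono (by omega) le_rfl) (by simpa using hwa))
      have hle : I P g (u - a) (1 + t - 1) ≤ centralizer {x (-a)} := by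
        rw [← e]
        refine sup_le (fun z hz => mem_centralizer_singleton_iff.2
          (h.cent' _ _ (by omega) (by omega) hz fun k _ _ => hc _ _ (by omega) (by omega))) ?_
        rw [zpowers_le]
        exact mem_centralizer_singleton_iff.2 c4
      have := mem_centralizer_singleton_iff.1 (hle (I_mono le_rfl (by omega) (h.mem (u - a))))
      apply hn' (-a)
      rw [show -(a : ℤ) + u = u - a by ring]
      exact Commute.symm this
  by_contra hlt
  by_cases hh : u ≤ t - u
  · have := left u.toNat (by omega) (by omega) (by omega)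
    rw [h.bot (by omega)] at this
    exact hw1 this
  · have := mem_I_union (right (t - u).toNat (by omega) (by omega) (by omega))
      (left (t - u).toNat (by omega) (by omega) (by omega)) (by omega)
    rw [h.bot (by omega)] at this
    exact hw1 this

end Ctx


/-- Let P be a subgroup of a finite group G and g an element such that P ∩ g⁻¹Pg is a normal subgroup of prime index p in g⁻¹Pg. Let n ≥ 1 and let K be the subgroup generated by P and its conjugates g⁻ⁱPgⁱ for i ≤ n. Suppose that g normalizes no non-identity normal subgroup of P and that P meets the center of K trivially. Then the order of P is pᵗ for some t with 1 ≤ t ≤ 3n and t ≠ 3n - 1. -/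
theorem result {G : Type*} [Group G] [Finite G]
    (P : Subgroup G) (g : G) (p : ℕ) (hp : p.Prime)
    (hN : ((P ⊓ MulAut.conj g⁻¹ • P).subgroupOf (MulAut.conj g⁻¹ • P)).Normal)
    (hidx : (P ⊓ MulAut.conj g⁻¹ • P).relIndex (MulAut.conj g⁻¹ • P) = p)
    (n : ℕ) (hn : 1 ≤ n) (K : Subgroup G) (hK : K = ⨆ i ∈ Finset.range (n + 1), MulAut.conj (g ^ i)⁻¹ • P)
    (h1 : ∀ Q : Subgroup G, Q ≤ P → (Q.subgroupOf P).Normal → MulAut.conj g • Q = Q → Q = ⊥)
    (h2 : P ⊓ (Subgroup.center K).map K.subtype = ⊥) :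
    ∃ t : ℕ, Nat.card P = p ^ t ∧ 1 ≤ t ∧ t ≤ 3 * n ∧ t ≠ 3 * n - 1 := by
  classical
  have := Fact.mk hp
  have mem1 : ∀ (a y : G), y ∈ MulAut.conj a⁻¹ • P ↔ a * y * a⁻¹ ∈ P := fun a y => by
    rw [mem_pointwise_smul_iff_inv_smul_mem, ← map_inv, inv_inv]; rfl
  have h1' : ∀ Q : Subgroup G, Q ≤ P → P ≤ normalizer (Q : Set G) → g ∈ normalizer (Q : Set G) →
      Q = ⊥ := fun Q a b c =>
    h1 Q a ((normal_subgroupOf_iff_le_normalizer a).2 b) (conjAct_pointwise_smul_eq_self c)
  have hPp : IsPGroup p P := by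
    obtain ⟨R, hR⟩ : ∃ R, R = closure {y | y ∈ P ∧ (orderOf y).Coprime p} := ⟨_, rfl⟩
    have hcl : ∀ a : G, (∀ y ∈ P, (orderOf y).Coprime p → a * y * a⁻¹ ∈ P) →
        a ∈ normalizer (R : Set G) := by
      intro a ha
      refine mem_normalizer_fintype fun y hy => ?_
      have : R ≤ R.comap (MulAut.conj a).toMonoidHom := by
        conv_lhs => rw [hR]
        rw [closure_le]
        intro z hz
        change a * z * a⁻¹ ∈ R
        rw [hR]
        exact subset_closure ⟨ha z hz.1 hz.2, by
          rw [← MulAut.conj_apply, MulEquiv.orderOf_eq]; exact hz.2⟩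
      exact this hy
    have hRb : R = ⊥ := by
      refine h1' R (by rw [hR, closure_le]; exact fun y hy => hy.1) (fun a ha => hcl a fun y hy _ =>
        mul_mem (mul_mem ha hy) (inv_mem ha)) (inv_mem_iff.1 (hcl _ fun y hy hc => ?_))
      have h3 : g⁻¹ * y * g⁻¹⁻¹ ∈ MulAut.conj g⁻¹ • P := (mem1 _ _).2 (by simpa [mul_assoc] using hy)
      have h4 := pow_index_mem (H := (P ⊓ MulAut.conj g⁻¹ • P).subgroupOf (MulAut.conj g⁻¹ • P))
        ⟨_, h3⟩
      have h5 : (g⁻¹ * y * g⁻¹⁻¹) ^ p ∈ P := by
        rw [← hidx]; exact (mem_inf.1 (mem_subgroupOf.1 h4)).1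
      have h6 : g⁻¹ * y * g⁻¹⁻¹ ∈ zpowers ((g⁻¹ * y * g⁻¹⁻¹) ^ p) := by
        rw [mem_zpowers_pow_iff, ← MulAut.conj_apply, MulEquiv.orderOf_eq]
        exact hc.symm
      exact zpowers_le.2 h5 h6
    rw [IsPGroup.iff_card]
    refine ⟨_, Nat.eq_prime_pow_of_unique_prime_dvd Nat.card_pos.ne' fun {r} hr hd => ?_⟩
    have := Fact.mk hr
    obtain ⟨y, hy⟩ := exists_prime_orderOf_dvd_card' r hd
    by_contra hne
    have : (y : G) ∈ R := hR ▸ subset_closure ⟨y.2, by
      rw [orderOf_coe, hy]; exact (Nat.coprime_primes hr hp).2 hne⟩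
    rw [hRb, mem_bot, OneMemClass.coe_eq_one] at this
    rw [this, orderOf_one] at hy
    exact hr.one_lt.ne hy
  obtain ⟨t, ht⟩ := IsPGroup.iff_card.1 hPp
  have eQ : ∀ i : ℕ, MulAut.conj (g ^ i)⁻¹ • P = I P g (-i) (-i) := by
    intro i
    ext y
    rw [mem1]
    refine ⟨fun h k a b => ?_, fun h => by simpa using h (-i) le_rfl le_rfl⟩
    rw [show k = -i by omega]
    simpa using h
  have h0 : Nat.card P = p * Nat.card (I P g 0 1) := by
    have e1 := eQ 1
    rw [pow_one] at e1
    have e2 : P ⊓ MulAut.conj g⁻¹ • P = I P g (-1) 0 := by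
      rw [e1]
      conv_lhs => enter [1]; rw [← I_zero (P := P) (g := g)]
      exact le_antisymm (fun y hy => mem_I_union hy.2 hy.1 (by omega))
        (le_inf (I_mono (by omega) le_rfl) (I_mono (by omega) (by omega)))
    have := card_of_relIndex (inf_le_right (a := P) (b := MulAut.conj g⁻¹ • P))
    rw [hidx, e2, e1, card_I_shift (i := 0) (j := 0) (by simp), I_zero,
      card_I_shift (i := 0) (j := 1) (i' := -1) (j' := 0) (by simp)] at this
    exact this
  have ht1 : 1 ≤ t := by
    rcases Nat.eq_zero_or_pos t with rfl | h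
    · rw [ht, pow_zero] at h0
      exact absurd (Nat.eq_one_of_mul_eq_one_right h0.symm) hp.ne_one
    · exact h
  have hcard := card_I hp ht h0 h1'
  obtain ⟨x₀, hx₀, hx₁⟩ : ∃ x₀ ∈ I P g 0 (t - 1), x₀ ≠ 1 := by
    have := hcard (t - 1) (by omega) 0
    rw [show (0 : ℤ) + (t - 1 : ℕ) = t - 1 by omega, show t - (t - 1) = 1 by omega, pow_one] at this
    refine (bot_or_exists_ne_one _).resolve_left fun e => ?_
    rw [e, card_bot] at this
    exact hp.one_lt.ne this
  have h : Ctx P g p t fun k => g ^ k * x₀ * (g ^ k)⁻¹ := by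
    refine ⟨hp, hPp, ?_, fun k => by simpa using hx₁, fun k => ?_, fun k s => by group⟩
    · rintro m hm i j rfl
      exact hcard m hm i
    · have := (conj_mem_I k).2 hx₀
      rwa [zero_add, show (t : ℤ) - 1 + k = k + t - 1 by ring] at this
  obtain ⟨x, h⟩ : ∃ x, Ctx P g p t x := ⟨_, h⟩
  have upper : ∀ u : ℤ, 0 < u → u ≤ t → (∀ a b, a - b < u → b - a < u → Commute (x a) (x b)) →
      2 * u ≤ n + t := by
    intro u u0 ut hc
    by_contra hlt
    have hxP : x (1 - u) ∈ P := by
      rw [← I_zero (P := P) (g := g)]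
      exact I_mono (by omega) (by omega) (h.mem _)
    have hPK : P ≤ K := by
      rw [hK]
      refine le_iSup₂_of_le 0 (by simp) ?_
      rw [eQ 0, Nat.cast_zero, neg_zero, I_zero]
    have hKc : K ≤ centralizer {x (1 - u)} := by
      rw [hK]
      refine iSup₂_le fun i hi => ?_
      rw [Finset.mem_range] at hi
      rw [eQ]
      exact h.cent t le_rfl (-i - t + 1) _ _ (by ring) (by ring) fun k _ _ =>
        hc _ _ (by omega) (by omega)
    have : x (1 - u) ∈ P ⊓ (center K).map K.subtype := mem_inf.2 ⟨hxP, ⟨_, hPK hxP⟩,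
      mem_center_iff.2 fun y => Subtype.ext (mem_centralizer_singleton_iff.1 (hKc y.2)), rfl⟩
    rw [h2] at this
    exact h.ne _ this
  have ext : ∀ u : ℕ, (∀ d < u, Commute (x 0) (x d)) →
      ∀ a b : ℤ, a - b < u → b - a < u → Commute (x a) (x b) := by
    intro u hu a b h1 h2
    rcases le_total a b with hab | hab
    · have := h.commute_shift a (hu (b - a).toNat (by omega))
      rwa [zero_add, show ((b - a).toNat : ℤ) + a = b by omega] at this
    · have := h.commute_shift b (hu (a - b).toNat (by omega))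
      rw [zero_add, show ((a - b).toNat : ℤ) + b = a by omega] at this
      exact this.symm
  refine ⟨t, ht, ht1, ?_⟩
  by_cases hab : ∀ d < t, Commute (x 0) (x d)
  · have := upper t (by omega) le_rfl (ext t hab)
    omega
  · push Not at hab
    obtain ⟨hu1, hu2⟩ := Nat.find_spec hab
    have hu3 : ∀ d < Nat.find hab, Commute (x 0) (x d) := fun d hd => by
      by_contra hc
      exact Nat.find_min hab hd ⟨by omega, hc⟩
    have hu0 : Nat.find hab ≠ 0 := fun e => hu2 (by rw [e]; exact Commute.refl _)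
    have a1 := upper (Nat.find hab) (by omega) (by omega) (ext _ hu3)
    have a2 := h.lower (u := Nat.find hab) (by omega) (by omega) (ext _ hu3) hu2
    omega

end Cfsg.Agent.S4359
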